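import Mathlib
import Cfsg.Agent.Cl.MaxOBasic
import Cfsg.Agent.Cl.QuadDisc

/-!
Transitivity and counting lemmas for the group generated by the Eichler transformations.
-/

set_option autoImplicit false
set_option linter.unusedSectionVars false

namespace Cfsg.Agent.Cl.RO

open Module QuadraticMap MaxO
open scoped commutatorElement

variable {F V : Type*} [Field F] [AddCommGroup V] [Module F V] {Q : QuadraticForm F V}

variable (Q) in
/-- Eichler transformations as elements of `EO Q`. -/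
noncomputable def oE (v u : V) : EO Q := ⟨eich Q v u, eich_mem_EO v u⟩

theorem oE_val (v u : V) : (oE Q v u).1 = eich Q v u := rfl

theorem oE_mul {v u w : V} (hv : Q v = 0) (hu : polar Q v u = 0) (hw : polar Q v w = 0) :
    oE Q v u * oE Q v w = oE Q v (u + w) := Subtype.ext (eich_mul hv hu hw)

theorem oE_zero (v : V) : oE Q v 0 = 1 := Subtype.ext (eich_zero_right _)

theorem oE_inv (v u : V) : (oE Q v u)⁻¹ = oE Q v (-u) := Subtype.ext (eich_inv _ _)

theorem mul_oE (g : EO Q) (v u : V) : g * oE Q v u = oE Q (g.1.1 v) (g.1.1 u) * g :=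
  Subtype.ext (mul_eich g.1 v u)

theorem oE_smul_self (v : V) (c : F) : oE Q v (c • v) = 1 := Subtype.ext (eich_smul_self _ _)

variable (Q) in
/-- Hyperbolic pairs. -/
structure Hyp (v v' : V) : Prop where
  l : Q v = 0
  r : Q v' = 0
  p : polar Q v v' = 1

theorem Hyp.symm {v v' : V} (h : Hyp Q v v') : Hyp Q v' v := ⟨h.r, h.l, (polar_comm Q _ _).trans h.p⟩

theorem Hyp.p' {v v' : V} (h : Hyp Q v v') : polar Q v' v = 1 := h.symm.p

theorem Hyp.ne {v v' : V} (h : Hyp Q v v') : v ≠ 0 := o_ne_zero_of_polar_left (h.p ▸ one_ne_zero)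

variable (Q) in
/-- The orthogonal complement of a pair of vectors. -/
def pp (v v' : V) : Submodule F V := operp Q (Submodule.span F {v, v'})

theorem mem_pp {v v' x : V} : x ∈ pp Q v v' ↔ polar Q v x = 0 ∧ polar Q v' x = 0 := by
  rw [pp, mem_operp_span]; simp

theorem pp_comm (v v' : V) : pp Q v v' = pp Q v' v := by
  ext x; simp [mem_pp, and_comm]

theorem Hyp.nd {v v' : V} (h : Hyp Q v v') : ND Q (Submodule.span F {v, v'}) :=
  nd_span_pair (by simp [h.p, h.l])

theorem Hyp.finrank_span {v v' : V} (h : Hyp Q v v') :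
    finrank F (Submodule.span F {v, v'}) = 2 := by
  have h1 : LinearIndependent F ![v, v'] := LinearIndependent.pair_iff.2 fun s t hst => by
    have h1 := congrArg (polar Q v) hst
    have h2 := congrArg (polar Q v') hst
    simp only [oexp, h.l, h.r, h.p, h.p'] at h1 h2
    exact ⟨by linear_combination h2, by linear_combination h1⟩
  have := finrank_span_eq_card h1
  rwa [Matrix.range_cons_cons_empty] at this

theorem Hyp.eq_zero {v v' : V} (h : Hyp Q v v') {w : V} (hw : polar Q v' w = 0)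
    (hw' : w ∈ Submodule.span F {v}) : w = 0 := by
  obtain ⟨c, rfl⟩ := Submodule.mem_span_singleton.1 hw'
  rw [o_polar_smul_right, h.p', mul_one] at hw
  rw [hw, zero_smul]

theorem notMem_span_symm {v w : V} (hv : v ≠ 0) (h : w ∉ Submodule.span F {v}) :
    v ∉ Submodule.span F {w} := fun h1 => by
  obtain ⟨c, rfl⟩ := Submodule.mem_span_singleton.1 h1
  exact h (Submodule.mem_span_singleton.2 ⟨c⁻¹, inv_smul_smul₀ (left_ne_zero_of_smul hv) _⟩)

/-- Counting the fibres of a function which is affine along the direction `y`. -/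
theorem card_fibre [Finite F] [Finite V] (P : V → Prop) (f α : V → F) (y : V)
    (hP : ∀ x (t : F), P x → P (x + t • y)) (hf : ∀ x (t : F), P x → f (x + t • y) = f x + t * α x)
    (hα : ∀ x, P x → α x ≠ 0) (hα' : ∀ x (t : F), P x → α (x + t • y) = α x) (c : F) :
    Nat.card {x // P x ∧ f x = c} * Nat.card F = Nat.card {x // P x} := by
  rw [← Nat.card_prod]
  refine Nat.card_congr (Equiv.ofBijective (fun z => ⟨z.1.1 + z.2 • y, hP _ _ z.1.2.1⟩) ⟨?_, ?_⟩)
  · rintro ⟨⟨x, hx, hxc⟩, t⟩ ⟨⟨x', hx', hxc'⟩, t'⟩ h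
    have h1 : x + t • y = x' + t' • y := congrArg Subtype.val h
    have h2 := congrArg f h1
    have h3 := congrArg α h1
    rw [hf _ _ hx, hf _ _ hx', hxc, hxc'] at h2
    rw [hα' _ _ hx, hα' _ _ hx'] at h3
    obtain rfl : t = t' := mul_right_cancel₀ (hα x hx) (by rw [h3] at h2 ⊢; linear_combination h2)
    obtain rfl : x = x' := add_right_cancel h1
    rfl
  · rintro ⟨x, hx⟩
    refine ⟨⟨⟨x + ((c - f x) / α x) • y, hP _ _ hx, ?_⟩, -((c - f x) / α x)⟩, Subtype.ext (by simp)⟩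
    rw [hf _ _ hx, div_mul_cancel₀ _ (hα x hx)]
    ring

/-- The number of vectors with a given property. -/
noncomputable def cnt (P : V → Prop) : ℕ := Nat.card {x // P x}

theorem cnt_congr {P R : V → Prop} (h : ∀ x, P x ↔ R x) : cnt P = cnt R := by
  rw [show P = R from funext fun x => propext (h x)]

theorem cnt_eq_card [Fintype V] (P : V → Prop) [DecidablePred P] :
    cnt P = (Finset.univ.filter P).card := by
  rw [cnt, Nat.card_eq_fintype_card, Fintype.card_subtype]

theorem cnt_mono [Finite V] {P R : V → Prop} (h : ∀ x, P x → R x) : cnt P ≤ cnt R :=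
  Nat.card_le_card_of_injective (Subtype.map id h) (Subtype.map_injective h Function.injective_id)

theorem cnt_split [Finite V] (P R : V → Prop) :
    cnt P = cnt (fun x => P x ∧ R x) + cnt fun x => P x ∧ ¬ R x := by
  classical
  have := Fintype.ofFinite V
  simp only [cnt_eq_card, ← Finset.filter_filter]
  exact (Finset.card_filter_add_card_filter_not _).symm

theorem sum_ite_eq_cnt [Fintype V] (P : V → Prop) [DecidablePred P] (a : ℂ) :
    ∑ x, (if P x then a else 0) = cnt P * a := by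
  rw [← Finset.sum_filter, Finset.sum_const, cnt_eq_card, nsmul_eq_mul]

theorem sum_ite_comp [Fintype V] [Fintype F] (P : V → Prop) [DecidablePred P] (f : V → F)
    (g : F → ℂ) : ∑ x, (if P x then g (f x) else 0) = ∑ c, cnt (fun x => P x ∧ f x = c) * g c := by
  classical
  simp only [← sum_ite_eq_cnt]
  rw [Finset.sum_comm]
  refine Finset.sum_congr rfl fun x _ => ?_
  by_cases h : P x <;> simp [h]

theorem cnt_sum [Finite V] [Fintype F] (P : V → Prop) (f : V → F) :
    cnt P = ∑ c, cnt fun x => P x ∧ f x = c := by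
  classical
  have := Fintype.ofFinite V
  have h := sum_ite_comp P f fun _ => 1
  rw [sum_ite_eq_cnt] at h
  simp only [mul_one] at h
  exact_mod_cast h

theorem cnt_eq_one (y : V) : cnt (fun x => x = y) = 1 := by simp [cnt]

theorem cnt_span [Finite F] {v : V} (hv : v ≠ 0) :
    cnt (fun x => x ∈ Submodule.span F {v}) = Nat.card F := by
  have := Module.natCard_eq_pow_finrank (K := F) (V := Submodule.span F {v})
  rwa [finrank_span_singleton hv, pow_one] at this

theorem cnt_mem [FiniteDimensional F V] (S : Submodule F V) :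
    cnt (fun x => x ∈ S) = Nat.card F ^ finrank F S := Module.natCard_eq_pow_finrank

section Count

variable [Finite F] [Finite V] {S : Submodule F V} {a a' : V}

theorem cnt_polar (ha' : a' ∈ S) (h : polar Q a a' = 1) (α : F) :
    cnt (fun x => x ∈ S ∧ polar Q a x = α) * Nat.card F = cnt fun x => x ∈ S :=
  card_fibre (fun x => x ∈ S) (polar Q a) (fun _ => 1) a'
    (fun x t hx => add_mem hx (S.smul_mem t ha')) (fun x t _ => by simp only [oexp, h])
    (fun _ _ => one_ne_zero) (fun _ _ _ => rfl) α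

theorem cnt_norm (ha : a ∈ S) (h : Q a = 0) (P : F → Prop) (hP : ¬ P 0) (c : F) :
    cnt (fun x => (x ∈ S ∧ P (polar Q a x)) ∧ Q x = c) * Nat.card F =
      cnt fun x => x ∈ S ∧ P (polar Q a x) :=
  card_fibre (fun x => x ∈ S ∧ P (polar Q a x)) Q (polar Q a) a
    (fun x t hx => ⟨add_mem hx.1 (S.smul_mem t ha), by simpa only [oexp, h, mul_zero, add_zero] using hx.2⟩)
    (fun x t _ => by simp only [oexp, h, polar_comm Q x a]; ring)
    (fun _ hx h0 => hP (h0 ▸ hx.2)) (fun _ _ _ => by simp only [oexp, h]; ring) c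

theorem Hyp.cnt_polar_norm (h : Hyp Q a a') (ha : a ∈ S) (ha' : a' ∈ S) {α : F} (hα : α ≠ 0)
    (c : F) : cnt (fun x => (x ∈ S ∧ Q x = c) ∧ polar Q a x = α) * Nat.card F ^ 2 =
      cnt fun x => x ∈ S := by
  rw [← cnt_polar ha' h.p α, ← cnt_norm ha h.l (· = α) hα.symm c, pow_two, ← mul_assoc]
  exact congrArg₂ _ (congrArg₂ _ (cnt_congr fun x => by tauto) rfl) rfl

theorem cnt_polar_ne (ha' : a' ∈ S) (h : polar Q a a' = 1) :
    cnt (fun x => x ∈ S ∧ polar Q a x ≠ 0) * Nat.card F =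
      (Nat.card F - 1) * cnt fun x => x ∈ S := by
  have h1 := cnt_polar ha' h 0
  have h2 := cnt_split (fun x => x ∈ S) fun x => polar Q a x = 0
  have h3 : 1 ≤ Nat.card F := Nat.card_pos
  zify [h3] at h1 h2 ⊢
  linear_combination (-Nat.card F : ℤ) * h2 - h1

theorem Hyp.cnt_perp (h : Hyp Q a a') (ha : a ∈ S) (c : F) :
    cnt (fun x => x ∈ S ⊓ pp Q a a' ∧ Q x = c) * Nat.card F =
      cnt fun x => (x ∈ S ∧ Q x = c) ∧ polar Q a x = 0 := by
  refine Eq.trans ?_ (card_fibre (fun x => (x ∈ S ∧ Q x = c) ∧ polar Q a x = 0) (polar Q a')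
    (fun _ => 1) a (fun x t hx => ⟨⟨add_mem hx.1.1 (S.smul_mem t ha), by
      simp only [oexp, h.l, hx.1.2, polar_comm Q x a, hx.2]; ring⟩, by
      simp only [oexp, h.l, hx.2]; ring⟩) (fun x t _ => by simp only [oexp, h.p'])
    (fun _ _ => one_ne_zero) (fun _ _ _ => rfl) 0)
  exact congrArg₂ _ (cnt_congr fun x => by simp only [Submodule.mem_inf, mem_pp]; tauto) rfl

/-- The recursion for the number of vectors of given norm. -/
theorem Hyp.cnt_rec (h : Hyp Q a a') (ha : a ∈ S) (ha' : a' ∈ S) (c : F) :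
    cnt (fun x => x ∈ S ∧ Q x = c) * Nat.card F ^ 2 = (Nat.card F - 1) * cnt (fun x => x ∈ S) +
      cnt (fun x => x ∈ S ⊓ pp Q a a' ∧ Q x = c) * Nat.card F ^ 3 := by
  have h1 := cnt_split (fun x => x ∈ S ∧ Q x = c) fun x => polar Q a x = 0
  have h2 := cnt_norm ha h.l (· ≠ 0) (by simp) c
  rw [cnt_congr (R := fun x => (x ∈ S ∧ Q x = c) ∧ ¬ polar Q a x = 0) fun x => by tauto] at h2
  rw [← cnt_polar_ne ha' h.p, ← h2, h1, ← h.cnt_perp ha c]
  ring

theorem cnt_not_perp {b b' : V} (h : Hyp Q a a') (hb : Hyp Q b b') (ha : a ∈ S) (ha' : a' ∈ S)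
    (hbS : b ∈ S) (hbS' : b' ∈ S) (hab : polar Q a b = 0) (hab' : polar Q a b' = 0) (c : F) :
    cnt (fun x => (x ∈ S ∧ Q x = c) ∧ ¬ (polar Q a x = 0 ∧ polar Q b x = 0)) * Nat.card F ^ 3 =
      (Nat.card F ^ 2 - 1) * cnt fun x => x ∈ S := by
  let S' := S ⊓ operp Q (Submodule.span F {a})
  have hS' : ∀ x, x ∈ S' ↔ x ∈ S ∧ polar Q a x = 0 := fun x => by
    simp only [S', Submodule.mem_inf, mem_operp_span, Set.mem_singleton_iff, forall_eq]
  have h1 := cnt_norm ha h.l (· ≠ 0) (by simp) c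
  have h2 := cnt_norm ((hS' b).2 ⟨hbS, hab⟩) hb.l (· ≠ 0) (by simp) c
  have h3 := cnt_polar_ne ha' h.p
  have h4 := cnt_polar_ne ((hS' b').2 ⟨hbS', hab'⟩) hb.p
  have h5 := cnt_polar ha' h.p 0
  rw [← cnt_congr hS'] at h5
  rw [cnt_split _ fun x => polar Q a x = 0,
    cnt_congr (R := fun x => (x ∈ S' ∧ polar Q b x ≠ 0) ∧ Q x = c) fun x => by rw [hS']; tauto,
    cnt_congr (P := fun x => _ ∧ ¬ _) (R := fun x => (x ∈ S ∧ polar Q a x ≠ 0) ∧ Q x = c)
      fun x => by tauto]
  have h6 : 1 ≤ Nat.card F := Nat.card_pos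
  have h7 : 1 ≤ Nat.card F ^ 2 := Nat.one_le_pow _ _ h6
  zify [h6, h7] at h1 h2 h3 h4 h5 ⊢
  linear_combination (Nat.card F : ℤ) ^ 2 * h1 + (Nat.card F : ℤ) ^ 2 * h2 + Nat.card F * h3 +
    Nat.card F * h4 + (Nat.card F - 1 : ℤ) * h5

end Count

theorem sum_one_sub [Fintype V] [Finite F] {ψ : AddChar F ℂ} (hψ : ψ ≠ 1) (P : V → Prop)
    [DecidablePred P] (f : V → F) {t : ℕ} (h : ∀ α, α ≠ 0 → cnt (fun x => P x ∧ f x = α) = t) :
    ∑ x, (if P x then 1 - ψ (f x) else 0) = Nat.card F * t := by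
  classical
  have := Fintype.ofFinite F
  rw [sum_ite_comp P f fun c => 1 - ψ c, Finset.sum_congr rfl (g := fun c => t * (1 - ψ c))
    fun c _ => by by_cases hc : c = 0 <;> simp [hc, h], ← Finset.mul_sum, Finset.sum_sub_distrib,
    AddChar.sum_eq_zero_iff_ne_zero.2 hψ]
  simp [mul_comm]

variable [Finite F] [FiniteDimensional F V]

theorem Hyp.nd_pp (hQ : (polarBilin Q).Nondegenerate) {v v' : V} (h : Hyp Q v v') :
    ND Q (pp Q v v') := h.nd.perp hQ

theorem Hyp.finrank_pp (hQ : (polarBilin Q).Nondegenerate) {v v' : V} (h : Hyp Q v v') :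
    finrank F (pp Q v v') + 2 = finrank F V := by
  rw [← h.finrank_span]; exact finrank_operp hQ _

theorem exists_hyp_perp (hQ : (polarBilin Q).Nondegenerate) {v w : V} (hv : Q v = 0) (h0 : v ≠ 0)
    (h : polar Q v w = 0) (hw : w ∉ Submodule.span F {v}) :
    ∃ v', Hyp Q v v' ∧ polar Q v' w = 0 := by
  obtain ⟨y, h1, h2, h3⟩ := o_exists_partner_perp_one hQ hv (notMem_span_symm h0 hw)
    ((polar_comm Q _ _).trans h)
  exact ⟨y, ⟨hv, h1, h2⟩, (polar_comm Q _ _).trans h3⟩

theorem exists_hyp (hQ : (polarBilin Q).Nondegenerate) {v : V} (hv : Q v = 0) (h0 : v ≠ 0) :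
    ∃ v', Hyp Q v v' := by
  obtain ⟨y, h1, h2⟩ := o_exists_partner hQ hv h0
  exact ⟨y, hv, h1, h2⟩

/-- `Ω` is transitive on the non-zero vectors of given norm. -/
theorem exists_map (hQ : (polarBilin Q).Nondegenerate) (hn : 5 ≤ finrank F V) {x y : V}
    (hx : x ≠ 0) (hy : y ≠ 0) (h : Q x = Q y) : ∃ g : EO Q, g.1.1 x = y := by
  obtain ⟨g, hg⟩ := o_exists_map_eq hQ h hx hy
  obtain ⟨e, he, hex, hx'⟩ : ∃ e, Q e = 0 ∧ polar Q x e = 0 ∧ e ∉ Submodule.span F {x} := by
    by_cases h0 : Q x = 0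
    · exact o_exists_singular_perp hQ hn h0 hx
    · have h1 := finrank_operp hQ (Submodule.span F {x})
      have h2 := finrank_span_one_le (F := F) x
      obtain ⟨e, he, he0, he1⟩ := exists_singular_mem (Q := Q)
        (S := operp Q (Submodule.span F {x})) (by omega)
      refine ⟨e, he1, mem_operp_span.1 he x rfl, fun h3 => ?_⟩
      obtain ⟨c, rfl⟩ := Submodule.mem_span_singleton.1 h3
      rw [o_qsmul, mul_eq_zero, pow_eq_zero_iff two_ne_zero] at he1
      exact he0 (by rw [he1.resolve_right h0, zero_smul])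
  obtain ⟨e', he', hee', hxe'⟩ := o_exists_partner_perp_one hQ he hx' hex
  have hexc : ¬ OExc Q := not_oExc_of_finrank (by omega)
  obtain ⟨t, ht, hts⟩ : ∃ t : F, t ≠ 0 ∧ sqSign t = ospin hQ g := by
    rcases Int.units_eq_one_or (ospin hQ g) with h1 | h1
    · exact ⟨1, one_ne_zero, by rw [h1, sqSign_eq_one_iff]; exact IsSquare.one⟩
    · have h2 : (2 : F) ≠ 0 := fun h2 => by rw [ospin_of_two_eq_zero hQ h2] at h1; exact absurd h1 (by decide)
      obtain ⟨t, ht⟩ := FiniteField.exists_nonsquare (F := F) (o_ringChar_ne_two h2)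
      exact ⟨t, by rintro rfl; exact ht IsSquare.zero, by rw [h1, sqSign_eq_neg_one_iff]; exact ht⟩
  have hfix : ∀ s : F, (orefl Q (e + s • e')).1 x = x := fun s =>
    orefl_hyp_perp s ((polar_comm Q _ _).trans hex) ((polar_comm Q _ _).trans hxe')
  have hN : ∀ s : F, Q (e + s • e') = s := o_norm_hyp' he he' hee'
  have key : ∀ k : OG Q, k.1 x = x → dickson hQ k = dickson hQ g → ospin hQ k = ospin hQ g →
      ∃ g : EO Q, g.1.1 x = y := fun k hk h1 h2 =>
    ⟨⟨g * k, by
      rw [← omega_eq hQ hn, mem_commutator_OG_iff hQ hexc, map_mul, map_mul, h1, h2]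
      exact ⟨Int.units_mul_self _, Int.units_mul_self _⟩⟩, by
      change g.1 (k.1 x) = y
      rw [hk, hg]⟩
  rcases Int.units_eq_one_or (dickson hQ g) with h1 | h1
  · refine key (otor Q e e' t) (otor_perp t ((polar_comm Q _ _).trans hex)
      ((polar_comm Q _ _).trans hxe')) (by rw [h1, dickson_otor he he' hee' hQ ht])
      (by rw [ospin_otor he he' hee' hQ ht, hts])
  · exact key _ (hfix t) (by rw [h1, dickson_orefl hQ (by rwa [hN])])
      (by rw [ospin_orefl hQ (by rwa [hN]), hN, hts])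

theorem exists_map_pair (hQ : (polarBilin Q).Nondegenerate) (hn : 5 ≤ finrank F V)
    {x y x' y' : V} (hx : Q x = 0) (hx' : Q x' = 0) (hy : Q y = Q y')
    (h : polar Q x y = polar Q x' y') (h0 : polar Q x y ≠ 0) :
    ∃ g : EO Q, g.1.1 x = x' ∧ g.1.1 y = y' := by
  obtain ⟨g, rfl⟩ := exists_map hQ hn (o_ne_zero_of_polar_left h0)
    (o_ne_zero_of_polar_left (h ▸ h0)) (hx.trans hx'.symm)
  obtain ⟨w, -, hw⟩ := eich_exists_map (y := g.1.1 y) (y' := y') hx' (by rw [OG.map_app, hy])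
    (by rw [OG.polar_app, polar_comm, h, polar_comm]) (by rwa [OG.polar_app, polar_comm])
  exact ⟨oE Q _ w * g, eich_app_self _ _, hw⟩

/-- Extension by the identity. -/
noncomputable def oextE {S : Submodule F V} (h : ND Q S) : EO (Q.restrict S) →* EO Q :=
  ((oext h).domRestrict _).codRestrict _ fun g =>
    (EO_le_iff (H := (EO Q).comap (oext h))).2
      (fun u v _ _ => by rw [Subgroup.mem_comap, oext_eich]; exact eich_mem_EO _ _) g.2

theorem oextE_val {S : Submodule F V} (h : ND Q S) (g : EO (Q.restrict S)) :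
    (oextE h g).1 = oext h g.1 := rfl

theorem oextE_oE {S : Submodule F V} (h : ND Q S) (u v : S) :
    oextE h (oE (Q.restrict S) u v) = oE Q u v := Subtype.ext (oext_eich h u v)

theorem exists_oextE (hQ : (polarBilin Q).Nondegenerate) (hn : 5 ≤ finrank F V)
    {S : Submodule F V} (h : ND Q S) (h3 : 3 ≤ finrank F S) (hexc : ¬ OExc (Q.restrict S))
    (g : EO Q) (hg : ∀ y ∈ operp Q S, g.1.1 y = y) : ∃ k, oextE h k = g := by
  obtain ⟨k, h1, h2, h4⟩ := o_induction_le hQ S (P := fun g => ∃ k, oext h k = g ∧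
      dickson h.nondeg k = dickson hQ g ∧ ospin h.nondeg k = ospin hQ g) ⟨1, by simp⟩
    (fun v hv h0 g ⟨k, h1, h2, h3⟩ => ⟨orefl _ ⟨v, hv⟩ * k, by rw [map_mul, oext_orefl, h1],
      by rw [map_mul, map_mul, h2, dickson_orefl _ h0, dickson_orefl _ (by exact h0)],
      by rw [map_mul, map_mul, h3, ospin_orefl _ h0, ospin_orefl _ (by exact h0)]; rfl⟩)
    (fun u hu v hv _ _ _ g ⟨k, h1, h2, h3⟩ => ⟨eich _ ⟨u, hu⟩ ⟨v, hv⟩ * k,
      by rw [map_mul, oext_eich, h1],
      by rw [map_mul, map_mul, h2, dickson_eich, dickson_eich],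
      by rw [map_mul, map_mul, h3, ospin_eich, ospin_eich]⟩) g.1 fun x => by
        rw [← operp_operp hQ S]
        exact fun w hw => o_polar_fix_sub g.1 (hg w hw) x
  have h5 := (mem_commutator_OG_iff hQ (not_oExc_of_finrank (by omega)) g.1).1
    ((omega_eq hQ hn).ge g.2)
  refine ⟨⟨k, ?_⟩, Subtype.ext h1⟩
  rw [← commutator_eq_EO_of_finite h.nondeg hexc h3, mem_commutator_OG_iff h.nondeg hexc, h2, h4]
  exact h5

theorem Hyp.exists_map (hQ : (polarBilin Q).Nondegenerate) (hn : 7 ≤ finrank F V) {v v' : V}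
    (h : Hyp Q v v') {w w' : V} (hw : w ∈ pp Q v v') (hw' : w' ∈ pp Q v v') (h0 : w ≠ 0)
    (h0' : w' ≠ 0) (hq : Q w = Q w') :
    ∃ g : EO Q, g.1.1 v = v ∧ g.1.1 v' = v' ∧ g.1.1 w = w' := by
  have h1 := h.finrank_pp hQ
  obtain ⟨k, hk⟩ := RO.exists_map (h.nd_pp hQ).nondeg (by omega) (x := ⟨w, hw⟩) (y := ⟨w', hw'⟩)
    (by simpa) (by simpa) hq
  refine ⟨oextE (h.nd_pp hQ) k, oext_app_perp _ _ fun x hx => ?_,
    oext_app_perp _ _ fun x hx => ?_, ?_⟩
  · exact (polar_comm Q _ _).trans (mem_pp.1 hx).1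
  · exact (polar_comm Q _ _).trans (mem_pp.1 hx).2
  · exact (oext_app_mem _ _ ⟨w, hw⟩).trans (congrArg Subtype.val hk)

theorem exists_map_perp (hQ : (polarBilin Q).Nondegenerate) (hn : 7 ≤ finrank F V)
    {v w v' w' : V} (hv : Q v = 0) (hv0 : v ≠ 0) (hv' : Q v' = 0) (hv0' : v' ≠ 0)
    (h : polar Q v w = 0) (h' : polar Q v' w' = 0) (hw : w ∉ Submodule.span F {v})
    (hw' : w' ∉ Submodule.span F {v'}) (hq : Q w = Q w') :
    ∃ g : EO Q, g.1.1 v = v' ∧ g.1.1 w = w' := by
  obtain ⟨u, hu, huw⟩ := exists_hyp_perp hQ hv hv0 h hw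
  obtain ⟨u', hu', huw'⟩ := exists_hyp_perp hQ hv' hv0' h' hw'
  obtain ⟨g, rfl, rfl⟩ := exists_map_pair hQ (by omega) hv hv' (hu.r.trans hu'.r.symm)
    (hu.p.trans hu'.p.symm) (hu.p ▸ one_ne_zero)
  obtain ⟨k, h1, -, h2⟩ := hu'.exists_map hQ hn (w := g.1.1 w) (w' := w')
    (mem_pp.2 ⟨by rwa [OG.polar_app], by rwa [OG.polar_app]⟩) (mem_pp.2 ⟨h', huw'⟩)
    (OG.app_ne_zero _ (by rintro rfl; exact hw (zero_mem _)))
    (by rintro rfl; exact hw' (zero_mem _)) (by rwa [OG.map_app])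
  exact ⟨k * g, h1, h2⟩

theorem exists_sim (hQ : (polarBilin Q).Nondegenerate) (he : Even (finrank F V)) {c : F}
    (hc : c ≠ 0) : ∃ g : V ≃ₗ[F] V, ∀ v, Q (g v) = c * Q v := by
  have := Fintype.ofFinite F
  by_cases h2 : (2 : F) = 0
  · obtain ⟨s, hs⟩ := quad_isSquare_of_two_eq_zero h2 c
    have hs0 : s ≠ 0 := by rintro rfl; exact hc (by simpa using hs)
    refine ⟨LinearEquiv.smulOfUnit (Units.mk0 s hs0), fun v => ?_⟩
    change Q (s • v) = _
    rw [quad_smul, hs, pow_two]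
  · refine (quad_equiv_iff_disc h2 (o_nondeg_smul hc hQ) hQ rfl (Module.finBasis F V)
      (Module.finBasis F V)).2 ?_
    have := quad_disc_similar (Q := Q) (Q' := ⇑(c • Q)) LinearMap.id (c := c) (fun v => rfl)
      (Module.finBasis F V)
    obtain ⟨k, hk⟩ := he
    refine ⟨c ^ k * quad_disc Q (Module.finBasis F V), ?_⟩
    simp only [LinearMap.id_coe, id_eq, Fintype.card_fin] at this
    rw [this, show c ^ finrank F V = c ^ k * c ^ k by rw [hk, pow_add]]; ring

theorem cnt_equi {S : Submodule F V} (h : ND Q S)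
    (he : Even (finrank F S)) {c : F} (hc : c ≠ 0) :
    cnt (fun x => x ∈ S ∧ Q x = c) = cnt fun x => x ∈ S ∧ Q x = 1 := by
  obtain ⟨g, hg⟩ := exists_sim h.nondeg he hc
  refine ((Nat.card_congr (Equiv.subtypeSubtypeEquivSubtypeInter _ _)).symm.trans
    (Nat.card_congr (g.toEquiv.subtypeEquiv fun x => ?_)).symm).trans
    (Nat.card_congr (Equiv.subtypeSubtypeEquivSubtypeInter _ _))
  exact ⟨fun h => (hg x).trans (by rw [show Q.restrict S x = 1 from h, mul_one]),
    fun h => mul_left_cancel₀ hc ((hg x).symm.trans (h.trans (mul_one c).symm))⟩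

theorem commutator_EO_of_aniso (hQ : (polarBilin Q).Nondegenerate) (hn : finrank F V = 4)
    (h4 : ¬ OHyp4 Q) : ⁅EO Q, EO Q⁆ = EO Q := by
  have hexc := not_oExc_of_not_oHyp4 h4
  refine le_antisymm (Subgroup.commutator_le_left _ _) (EO_le_iff.2 fun x y hx hy => ?_)
  by_cases h0 : x = 0
  · rw [h0, eich_zero_left]; exact one_mem _
  obtain ⟨x', hx'⟩ := exists_hyp hQ hx h0
  have h2 := hx'.finrank_pp hQ
  have han : ∀ z ∈ pp Q x x', z ≠ 0 → Q z ≠ 0 := fun z hz hz0 hq => h4 ⟨hn, x, z,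
    o_linearIndependent_of_notMem h0 fun h => hz0 (hx'.eq_zero (mem_pp.1 hz).2 h), hx, hq,
    (mem_pp.1 hz).1⟩
  obtain ⟨a, b, ha, hb, hab, hs⟩ : ∃ a b, a ∈ pp Q x x' ∧ b ∈ pp Q x x' ∧
      LinearIndependent F ![a, b] ∧ sqSign (Q a) = sqSign (Q b) := by
    let e := Module.finBasisOfFinrankEq F (pp Q x x') (n := 2) (by omega)
    have h3 : LinearIndependent F ![(e 0 : V), (e 1 : V)] := by
      have := e.linearIndependent.map' (pp Q x x').subtype (Submodule.ker_subtype _)
      rwa [show (pp Q x x').subtype ∘ e = ![(e 0 : V), (e 1 : V)] by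
        ext i; fin_cases i <;> rfl] at this
    rw [LinearIndependent.pair_iff] at h3
    by_cases h5 : sqSign (Q (e 0)) = sqSign (Q (e 1))
    · exact ⟨_, _, (e 0).2, (e 1).2, LinearIndependent.pair_iff.2 h3, h5⟩
    by_cases h6 : sqSign (Q (e 0)) = sqSign (Q (e 0 + e 1))
    · refine ⟨_, _, (e 0).2, add_mem (e 0).2 (e 1).2, LinearIndependent.pair_iff.2
        fun s t hst => ?_, h6⟩
      obtain ⟨h7, h8⟩ := h3 (s + t) t (by rw [← hst]; module)
      exact ⟨by linear_combination h7 - h8, h8⟩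
    · refine ⟨_, _, (e 1).2, add_mem (e 0).2 (e 1).2, LinearIndependent.pair_iff.2
        fun s t hst => ?_, ?_⟩
      · obtain ⟨h7, h8⟩ := h3 t (s + t) (by rw [← hst]; module)
        exact ⟨by linear_combination h8 - h7, h7⟩
      · rw [Int.units_ne_iff_eq_neg.1 (Ne.symm h5), Int.units_ne_iff_eq_neg.1 (Ne.symm h6)]
  have ha0 := han a ha (hab.ne_zero 0)
  have hb0 := han b hb (hab.ne_zero 1)
  have hg : orefl Q a * orefl Q b ∈ EO Q := by
    rw [← commutator_eq_EO_of_finite hQ hexc (by omega),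
      orefl_mul_orefl_mem_commutator_iff hQ hexc ha0 hb0, ← sqSign_eq_one_iff, sqSign_mul ha0 hb0,
      hs, Int.units_mul_self]
  set g := orefl Q a * orefl Q b with hgd
  have hgx : ∀ z, polar Q z a = 0 → polar Q z b = 0 → g.1 z = z := fun z h1 h2 => by
    rw [hgd, OG.mul_app, orefl_app_of_polar h2, orefl_app_of_polar h1]
  have h5 := hgx x (mem_pp.1 ha).1 (mem_pp.1 hb).1
  have h6 := hgx x' (mem_pp.1 ha).2 (mem_pp.1 hb).2
  let T : pp Q x x' →ₗ[F] pp Q x x' := ((g.1 : V →ₗ[F] V) - 1).restrict fun z _ =>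
    mem_pp.2 ⟨o_polar_fix_sub g h5 z, o_polar_fix_sub g h6 z⟩
  have hT : Function.Injective T := by
    rw [← LinearMap.ker_eq_bot, LinearMap.ker_eq_bot']
    intro z hz
    have h7 : g.1 z = z := sub_eq_zero.1 (congrArg Subtype.val hz)
    have h8 := congrArg (orefl Q a).1 h7
    rw [hgd, OG.mul_app, orefl_orefl_app, orefl_app, orefl_app, sub_right_inj] at h8
    obtain ⟨h9, h10⟩ := LinearIndependent.pair_iff.1 hab (-((Q a)⁻¹ * polar Q z a))
      ((Q b)⁻¹ * polar Q z b) (by rw [h8]; module)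
    refine Subtype.ext (hx'.nd_pp hQ z z.2 fun w hw => ?_)
    have h11 : Submodule.span F {a, b} = pp Q x x' := Submodule.eq_of_le_of_finrank_eq
      (Submodule.span_le.2 (Set.pair_subset ha hb)) (by
        have := finrank_span_eq_card hab
        rw [Matrix.range_cons_cons_empty, Fintype.card_fin] at this
        omega)
    obtain ⟨s, t, rfl⟩ := Submodule.mem_span_pair.1 (h11.ge hw)
    simp only [neg_eq_zero, mul_eq_zero, inv_eq_zero, ha0, hb0, false_or] at h9 h10
    simp only [oexp, h9, h10]; ring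
  obtain ⟨z, hz⟩ := LinearMap.injective_iff_surjective.1 hT ⟨y - polar Q y x' • x, mem_pp.2
    ⟨by simp only [oexp, hy, hx]; ring, by simp only [oexp, hx'.p', polar_comm Q x' y]; ring⟩⟩
  have h7 : g.1 z - z = y - polar Q y x' • x := congrArg Subtype.val hz
  have h8 := (mem_pp.1 z.2).1
  have h9 : eich Q x y = ⁅g, eich Q x z⁆ := by
    rw [commutatorElement_def, conj_eich, h5, eich_inv, eich_mul hx (by rw [← h8, ← OG.polar_app g x z, h5])
      (by rw [polar_neg_right, h8, neg_zero]), ← sub_eq_add_neg, h7, sub_eq_add_neg, ← neg_smul,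
      eich_add_smul_self hx hy]
  rw [h9]
  exact Subgroup.commutator_mem_commutator hg (eich_mem_EO _ _)

end Cfsg.Agent.Cl.RO
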