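import Mathlib
import Cfsg.Agent.Cl.WeilRank
import Cfsg.Agent.Cl.LinearTransv
import Cfsg.Agent.Cl.Transport

/-!
Representations of `SL` in which the non-trivial characters of the group of all transvections
with a given centre have multiplicity one.
-/

set_option autoImplicit false

open Module Matrix
open scoped commutatorElement

namespace Cfsg.Agent.Cl

theorem rep_commutator_fix {G : Type*} [Group G] {D : Type*} [AddCommGroup D] [Module ℂ D]
    [FiniteDimensional ℂ D] {ρ : Representation ℂ G D} {U : Submodule ℂ D} (hU : finrank ℂ U ≤ 1)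
    {g k : G} {y : D} (hy : y ∈ U) (hg : ρ g y ∈ U) (hk : ρ k y ∈ U) : ρ ⁅g, k⁆ y = y := by
  by_cases h0 : y = 0
  · simp [h0]
  have h1 : (ℂ ∙ y) = U := Submodule.eq_of_le_of_finrank_le
    ((Submodule.span_singleton_le_iff_mem _ _).2 hy) (by rwa [finrank_span_singleton h0])
  obtain ⟨c, hc⟩ := Submodule.mem_span_singleton.1 (h1.ge hg)
  obtain ⟨d, hd⟩ := Submodule.mem_span_singleton.1 (h1.ge hk)
  have h2 : ρ (k * g) y = (c * d) • y := by
    rw [map_mul, Module.End.mul_apply, ← hc, map_smul, ← hd, smul_smul]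
  have h3 : ρ (g * k) y = (c * d) • y := by
    rw [map_mul, Module.End.mul_apply, ← hd, map_smul, ← hc, smul_smul, mul_comm]
  have h4 : c * d ≠ 0 := fun h => h0 (by
    simpa [h, ← Module.End.mul_apply, ← map_mul] using congrArg (ρ (g * k)⁻¹) h3)
  refine smul_right_injective D h4 ?_
  change (c * d) • _ = (c * d) • _
  rw [← map_smul, ← h2, ← Module.End.mul_apply, ← map_mul, h2, ← h3, commutatorElement_def]
  congr 2
  group

variable {ι : Type*} [Fintype ι] [DecidableEq ι] {F : Type*} [Field F]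

theorem exists_sl_pair (h3 : 3 ≤ Fintype.card ι) {u v : ι → F} (h : LinearIndependent F ![u, v])
    {i j : ι} (hij : i ≠ j) : ∃ g : SpecialLinearGroup ι F,
      (g : Matrix ι ι F) *ᵥ Pi.single i 1 = u ∧ (g : Matrix ι ι F) *ᵥ Pi.single j 1 = v := by
  have h0 : LinearIndependent F ![(Pi.single i 1 : ι → F), Pi.single j 1] :=
    LinearIndependent.pair_iff.2 fun s t hst =>
      ⟨by simpa [hij] using congrFun hst i, by simpa [hij.symm] using congrFun hst j⟩
  obtain ⟨e, he⟩ := Submodule.exists_linearEquiv_restrict_eq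
    (h0.linearCombinationEquiv.symm.trans h.linearCombinationEquiv)
  have h1 : ∀ k, ((glEquiv ι F).symm e).val *ᵥ ![(Pi.single i 1 : ι → F), Pi.single j 1] k =
      ![u, v] k := fun k => by
    have := he (h0.linearCombinationEquiv (Finsupp.single k 1))
    rw [LinearEquiv.trans_apply, LinearEquiv.symm_apply_apply] at this
    rw [glEquiv_symm_mulVec]
    simpa using this.symm
  generalize (glEquiv ι F).symm e = g at h1
  obtain ⟨k, hki, hkj⟩ := exists_ne_ne_of_three_le_card h3 i j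
  refine ⟨⟨g * diagGL (Function.update 1 k (Matrix.GeneralLinearGroup.det g)⁻¹), by
    rw [← Units.val_mul, ← Matrix.GeneralLinearGroup.val_det_apply, map_mul, det_diagGL_update,
      _root_.mul_inv_cancel, Units.val_one]⟩, ?_, ?_⟩
  · rw [← mulVec_mulVec, coe_diagGL, diagonal_mulVec_single]
    simpa [hki.symm] using h1 0
  · rw [← mulVec_mulVec, coe_diagGL, diagonal_mulVec_single]
    simpa [hkj.symm] using h1 1

theorem sl_mul_mulVec' (g k : SpecialLinearGroup ι F) (v : ι → F) :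
    ((g * k : SpecialLinearGroup ι F) : Matrix ι ι F) *ᵥ v = (g : Matrix ι ι F) *ᵥ ((k : Matrix ι ι F) *ᵥ v) := by rw [mulVec_mulVec]; rfl

theorem tv_mul_comm (g : SpecialLinearGroup ι F) (w f : ι → F) :
    tv ((g : Matrix ι ι F) *ᵥ w) f * g = g * tv w (f ᵥ* (g : Matrix ι ι F)) := by
  have h := sl_vecMul_inv_vecMul g⁻¹ f
  rw [inv_inv] at h
  rw [mul_inv_eq_iff_eq_mul.1 (tv_conj g w (f ᵥ* (g : Matrix ι ι F))), h]

theorem tv_fix {a φ v : ι → F} (h : φ ⬝ᵥ a = 0) (h' : φ ⬝ᵥ v = 0) :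
    (tv a φ : Matrix ι ι F) *ᵥ v = v := by rw [tv_mulVec h, h', zero_smul, add_zero]

variable {D : Type*} [AddCommGroup D] [Module ℂ D]

/-- The weight spaces of the group of transvections with centre `w`. -/
noncomputable def slWt (ρ : Representation ℂ (SpecialLinearGroup ι F) D) (ψ : AddChar F ℂ) (w u : ι → F) :
    Submodule ℂ D :=
  repWt ρ (fun f : {f : ι → F // f ⬝ᵥ w = 0} => tv w f.1) fun f => ψ (f.1 ⬝ᵥ u)

variable {ρ : Representation ℂ (SpecialLinearGroup ι F) D} {ψ : AddChar F ℂ}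

theorem mem_slWt {w u : ι → F} {y : D} :
    y ∈ slWt ρ ψ w u ↔ ∀ f, f ⬝ᵥ w = 0 → ρ (tv w f) y = ψ (f ⬝ᵥ u) • y :=
  ⟨fun h f hf => h ⟨f, hf⟩, fun h f => h f.1 f.2⟩

theorem map_mem_slWt (g : SpecialLinearGroup ι F) {w u : ι → F} {y : D} (hy : y ∈ slWt ρ ψ w u) :
    ρ g y ∈ slWt ρ ψ ((g : Matrix ι ι F) *ᵥ w) ((g : Matrix ι ι F) *ᵥ u) := mem_slWt.2 fun f hf => by
  rw [← Module.End.mul_apply, ← map_mul, tv_mul_comm, map_mul, Module.End.mul_apply,
    mem_slWt.1 hy _ (by rwa [← dotProduct_mulVec]), map_smul, dotProduct_mulVec]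

theorem mem_slWt_smul (c : F) {w u : ι → F} {y : D} (hy : y ∈ slWt ρ ψ w u) (hc : c ≠ 0) :
    y ∈ slWt ρ ψ (c • w) (c • u) := mem_slWt.2 fun f hf => by
  rw [tv_smul, mem_slWt.1 hy _ (by simpa [hc] using hf)]
  simp

variable [FiniteDimensional ℂ D]

theorem finrank_slWt_le (g : SpecialLinearGroup ι F) (w u : ι → F) :
    finrank ℂ (slWt ρ ψ w u) ≤ finrank ℂ (slWt ρ ψ ((g : Matrix ι ι F) *ᵥ w) ((g : Matrix ι ι F) *ᵥ u)) :=
  LinearMap.finrank_le_finrank_of_injective (f := (ρ g).restrict fun _ hw => map_mem_slWt g hw)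
    fun a b hab => Subtype.ext (by
      simpa [← Module.End.mul_apply, ← map_mul] using
        congrArg (fun v : slWt ρ ψ ((g : Matrix ι ι F) *ᵥ w) ((g : Matrix ι ι F) *ᵥ u) => ρ g⁻¹ v.1) hab)

/-- The cases in which the minimal degree of `SL` is the generic one. -/
def SLGen (ι : Type*) [Fintype ι] (F : Type*) [Field F] : Prop :=
  5 ≤ Fintype.card ι ∨ (Fintype.card ι = 4 ∧ ∃ a : F, a ≠ 0 ∧ a ^ 2 ≠ 1) ∨
    (Fintype.card ι = 3 ∧ ∃ a : F, a ≠ 0 ∧ a ^ 3 ≠ 1)

omit [DecidableEq ι] in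
theorem SLGen.three_le (h : SLGen ι F) : 3 ≤ Fintype.card ι := by
  rcases h with h | h | h <;> omega

theorem slWt_fix_tv (h : SLGen ι F) {i j : ι} (hij : i ≠ j)
    (h1 : finrank ℂ (slWt ρ ψ (Pi.single i 1) (Pi.single j 1)) ≤ 1) {y : D}
    (hy : y ∈ slWt ρ ψ (Pi.single i 1) (Pi.single j 1)) {β : ι → F} (hi : β i = 0) (hj : β j = 0) :
    ρ (tv (Pi.single j 1) β) y = y := by
  have key : ∀ l, l ≠ i → l ≠ j → ∀ c : F, ρ (tv (Pi.single j 1) (Pi.single l c)) y = y := by
    intro l hli hlj c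
    have h2 : ∀ g : SpecialLinearGroup ι F, (g : Matrix ι ι F) *ᵥ Pi.single i 1 = Pi.single i 1 →
        (g : Matrix ι ι F) *ᵥ Pi.single j 1 = Pi.single j 1 → ρ g y ∈ slWt ρ ψ (Pi.single i 1) (Pi.single j 1) :=
      fun g h3 h4 => by simpa only [h3, h4] using map_mem_slWt g hy
    by_cases h4 : 4 ≤ Fintype.card ι
    · obtain ⟨m, hm⟩ : ∃ m, m ∉ ({i, j, l} : Finset ι) := by
        by_contra! H
        have := (Finset.card_le_card (fun m _ => H m : Finset.univ ⊆ _)).trans Finset.card_le_three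
        rw [Finset.card_univ] at this
        omega
      simp only [Finset.mem_insert, Finset.mem_singleton, not_or] at hm
      have h5 := rep_commutator_fix h1 hy
        (h2 (tv (Pi.single j 1) (Pi.single m 1)) (tv_fix (by simp [hm]) (by simp [hm]))
          (tv_fix (by simp [hm]) (by simp [hm])))
        (h2 (tv (Pi.single m 1) (Pi.single l c)) (tv_fix (by simp [Ne.symm hm.2.2]) (by simp [hli]))
          (tv_fix (by simp [Ne.symm hm.2.2]) (by simp [hlj])))
      rwa [tv_commutator_left (by simp [hm]) (by simp [Ne.symm hm.2.2]) (by simp [hlj]),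
        show Pi.single m 1 ⬝ᵥ (Pi.single m 1 : ι → F) = 1 by simp, one_smul] at h5
    obtain ⟨a, ha, ha3⟩ : ∃ a : F, a ≠ 0 ∧ a ^ 3 ≠ 1 := by
      rcases h with h | h | h
      exacts [by omega, by omega, h.2]
    let g : SpecialLinearGroup ι F := SpecialLinearGroup.diag2n hli.symm a ha *
      SpecialLinearGroup.diag2n hlj.symm a ha
    have hg : ∀ k, (g : Matrix ι ι F) *ᵥ Pi.single k 1 = (if k = i ∨ k = j then a else if k = l then a⁻¹ * a⁻¹
        else 1) • Pi.single k (1 : F) := fun k => by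
      rw [sl_mul_mulVec', SpecialLinearGroup.diag2n_coe, SpecialLinearGroup.diag2n_coe,
        diagonal_mulVec_single, diagonal_mulVec_single, ← Pi.single_smul]
      congr 1
      by_cases hki : k = i
      · simp [hki, hij, hli.symm]
      by_cases hkj : k = j <;> by_cases hkl : k = l <;> simp_all
    have h5 := rep_commutator_fix h1 hy (g := g)
      (by simpa [hg, ha] using mem_slWt_smul a⁻¹ (map_mem_slWt g hy) (inv_ne_zero ha))
      (h2 (tv (Pi.single j 1) (Pi.single l (c / (a ^ 3 - 1)))) (tv_fix (by simp [hlj]) (by simp [hli]))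
        (tv_fix (by simp [hlj]) (by simp [hlj])))
    have h6 : Pi.single l (c / (a ^ 3 - 1)) ᵥ* ((g⁻¹ : SpecialLinearGroup ι F) : Matrix ι ι F) = Pi.single l (a ^ 2 * (c / (a ^ 3 - 1))) := by
      rw [← sl_vecMul_inv_vecMul g⁻¹ (Pi.single l (a ^ 2 * _)), inv_inv]
      congr 1
      ext k
      have := dotProduct_mulVec (Pi.single l (a ^ 2 * (c / (a ^ 3 - 1)))) (g : Matrix ι ι F) (Pi.single k 1)
      rw [dotProduct_single, mul_one, hg] at this
      rw [← this]
      by_cases hk : k = l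
      · subst hk; simp [hli, hlj]; field_simp
      · simp [hk, -ite_smul]
    rw [commutatorElement_def, tv_conj, h6, hg, if_pos (Or.inr rfl), tv_smul, tv_inv, ← neg_one_smul F,
      tv_smul, ← tv_add_right (by simp [hlj]) (by simp [hlj]), ← Pi.single_smul, ← Pi.single_smul,
      ← Pi.single_add] at h5
    rw [← h5]
    have := sub_ne_zero.2 ha3
    congr 4
    simp only [smul_eq_mul]
    field_simp
    ring
  have h2 : ∀ s : Finset ι, ρ (tv (Pi.single j 1) (∑ l ∈ s, Pi.single l (β l))) y = y := fun s => by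
    induction s using Finset.induction_on with
    | empty => simp
    | insert l s hl ih =>
      rw [Finset.sum_insert hl, tv_add_right (by by_cases h : l = j <;> simp [h, hj])
        (by simp [Finset.sum_apply, Pi.single_apply, hj]), map_mul, Module.End.mul_apply, ih]
      by_cases hli : l = i
      · simp [hli, hi]
      by_cases hlj : l = j
      · simp [hlj, hj]
      exact key l hli hlj _
  simpa [Finset.univ_sum_single] using h2 Finset.univ

/-- The inclusion of the coordinate subspace with vanishing coordinates `i` and `j`. -/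
def slX (F : Type*) [Field F] (i j : ι) : Matrix ι {k : ι // k ≠ i ∧ k ≠ j} F :=
  (1 : Matrix ι ι F).submatrix id (↑)

theorem slX_mul (i j : ι) : (slX F i j)ᵀ * slX F i j = 1 := by
  ext k l
  simp [slX, mul_apply, one_apply, eq_comm, Subtype.val_inj]

theorem slX_block (i j : ι) (M : Matrix ι ι F)
    (h1 : ∀ k, k = i ∨ k = j → ∀ l, M k l = (1 : Matrix ι ι F) k l)
    (h2 : ∀ k, k = i ∨ k = j → ∀ l, M l k = (1 : Matrix ι ι F) l k) :
    1 + slX F i j * ((slX F i j)ᵀ * M * slX F i j - 1) * (slX F i j)ᵀ = M := by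
  have h5 : slX F i j * (slX F i j)ᵀ = diagonal fun k => if k ≠ i ∧ k ≠ j then 1 else 0 := by
    ext k l
    simp only [slX, mul_apply, submatrix_apply, id, transpose_apply, one_apply, diagonal_apply]
    by_cases hk : k ≠ i ∧ k ≠ j
    · rw [Finset.sum_eq_single ⟨k, hk⟩ (fun b _ hb => by
        rw [if_neg fun h => hb (Subtype.ext h.symm), zero_mul]) (by simp)]
      simp [hk, eq_comm]
    · rw [Finset.sum_eq_zero fun b _ => by
        rw [if_neg fun h : k = b => hk (h ▸ b.2), zero_mul]]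
      simp [hk]
  rw [Matrix.mul_sub, Matrix.sub_mul, Matrix.mul_one, ← Matrix.mul_assoc, ← Matrix.mul_assoc,
    Matrix.mul_assoc _ (slX F i j), h5]
  ext k l
  simp only [Matrix.add_apply, Matrix.sub_apply, mul_diagonal, diagonal_mul, diagonal_apply]
  by_cases hk : k ≠ i ∧ k ≠ j
  · by_cases hl : l ≠ i ∧ l ≠ j
    · simp [hk, hl, one_apply]
    · rw [if_neg hl, if_neg (show ¬ k = l by rintro rfl; exact hl hk), h2 l (by tauto)]
      simp
  · simp only [if_neg hk, h1 k (by tauto)]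
    simp

theorem slWt_fix_emb (h : SLGen ι F) {i j : ι} (hij : i ≠ j)
    (h1 : finrank ℂ (slWt ρ ψ (Pi.single i 1) (Pi.single j 1)) ≤ 1) {y : D}
    (hy : y ∈ slWt ρ ψ (Pi.single i 1) (Pi.single j 1))
    (A : SpecialLinearGroup {k : ι // k ≠ i ∧ k ≠ j} F) :
    ρ (slEmb _ _ (slX_mul i j) A) y = y := by
  have h3 : ∀ A k, k = i ∨ k = j → ((slEmb _ _ (slX_mul i j) A : SpecialLinearGroup ι F) :
      Matrix ι ι F) *ᵥ Pi.single k 1 = Pi.single k 1 := fun A k hk => by
    have : (slX F i j)ᵀ *ᵥ Pi.single k 1 = 0 := by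
      ext l
      rcases hk with rfl | rfl <;> simp [slX, one_apply, l.2.1, l.2.2]
    rw [coe_slEmb, add_mulVec, ← mulVec_mulVec, this, mulVec_zero, add_zero, one_mulVec]
  have h4 : ∀ A, ρ (slEmb _ _ (slX_mul i j) A) y ∈ slWt ρ ψ (Pi.single i 1) (Pi.single j 1) :=
    fun A => by
      simpa only [h3 A i (Or.inl rfl), h3 A j (Or.inr rfl)] using
        map_mem_slWt (slEmb _ _ (slX_mul i j) A) hy
  have h5 : Fintype.card {k : ι // k ≠ i ∧ k ≠ j} + 2 = Fintype.card ι := by
    have := Fintype.card_subtype_compl fun k : ι => k ∈ ({i, j} : Finset ι)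
    have h6 := Fintype.card_subtype_le fun k : ι => k ∈ ({i, j} : Finset ι)
    rw [Fintype.card_coe, Finset.card_pair hij] at this h6
    rw [Fintype.card_congr (Equiv.subtypeEquivRight (q := fun k => ¬ k ∈ ({i, j} : Finset ι))
      fun k => by simp), this]
    omega
  by_cases h6 : Fintype.card {k : ι // k ≠ i ∧ k ≠ j} ≤ 1
  · have := Fintype.card_le_one_iff_subsingleton.1 h6
    simp [Subsingleton.elim A 1]
  have h7 : A ∈ commutator _ := (sl_commutator_eq_top (ι := {k : ι // k ≠ i ∧ k ≠ j}) (by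
    rcases h with h | h | h
    exacts [Or.inl (by omega), Or.inr h.2, by omega])).ge trivial
  rw [commutator_eq_closure] at h7
  induction h7 using Subgroup.closure_induction with
  | mem x hx =>
    obtain ⟨a, b, rfl⟩ := hx
    rw [map_commutatorElement]
    exact rep_commutator_fix h1 hy (h4 a) (h4 b)
  | one => simp
  | mul g g' _ _ h2 h3 => rw [map_mul, map_mul, Module.End.mul_apply, h3, h2]
  | inv g _ h2 =>
    rw [← h2, ← Module.End.mul_apply, ← map_mul, ← map_mul, inv_mul_cancel, h2]; simp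

theorem slWt_fix_std (h : SLGen ι F) {i j : ι} (hij : i ≠ j)
    (h1 : finrank ℂ (slWt ρ ψ (Pi.single i 1) (Pi.single j 1)) ≤ 1) {y : D}
    (hy : y ∈ slWt ρ ψ (Pi.single i 1) (Pi.single j 1)) {g : SpecialLinearGroup ι F}
    (hi : (g : Matrix ι ι F) *ᵥ Pi.single i 1 = Pi.single i 1)
    (hj : (g : Matrix ι ι F) *ᵥ Pi.single j 1 = Pi.single j 1) : ρ g y = y := by
  have hgi : ∀ k, g k i = (1 : Matrix ι ι F) k i := fun k => by
    simpa [one_apply, Pi.single_apply] using congrFun hi k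
  have hgj : ∀ k, g k j = (1 : Matrix ι ι F) k j := fun k => by
    simpa [one_apply, Pi.single_apply] using congrFun hj k
  obtain ⟨α, hα'⟩ : ∃ α : ι → F, α = (1 - (g : Matrix ι ι F)) i := ⟨_, rfl⟩
  obtain ⟨β, hβ'⟩ : ∃ β : ι → F, β = (1 - (g : Matrix ι ι F)) j := ⟨_, rfl⟩
  have hα : α i = 0 ∧ α j = 0 := by simp [hα', hgi, hgj]
  have hβ : β i = 0 ∧ β j = 0 := by simp [hβ', hgi, hgj]
  obtain ⟨g', hg'⟩ : ∃ g', g' = g * (tv (Pi.single i 1) α * tv (Pi.single j 1) β) := ⟨_, rfl⟩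
  have h3 : (g' : Matrix ι ι F) = g + vecMulVec (Pi.single i 1) α + vecMulVec (Pi.single j 1) β := by
    rw [hg', Matrix.SpecialLinearGroup.coe_mul, Matrix.SpecialLinearGroup.coe_mul,
      coe_tv (by simp [hα]), coe_tv (by simp [hβ]), add_mul, mul_add (vecMulVec _ α),
      vecMulVec_mul_vecMulVec, dotProduct_single, hα.2]
    simp only [mul_add, mul_one, one_mul, mul_vecMulVec, hi, hj, zero_smul, vecMulVec_zero, add_zero]
    abel
  have h4 := slX_block i j (g' : Matrix ι ι F) (fun k hk l => by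
      rcases hk with rfl | rfl <;> simp [h3, vecMulVec_apply, hα', hβ', hij, hij.symm])
      fun k hk l => by
        rcases hk with rfl | rfl <;> simp [h3, vecMulVec_apply, hα, hβ, hgi, hgj]
  obtain ⟨A, hA⟩ : ∃ A, slEmb _ _ (slX_mul i j) A = g' :=
    ⟨⟨(slX F i j)ᵀ * (g' : Matrix ι ι F) * slX F i j, by
      rw [← det_matEmb _ _ (slX_mul i j), matEmb_apply, h4, g'.2]⟩,
      sl_ext ((coe_slEmb _ _ _ _).trans h4)⟩
  have h5 := slWt_fix_emb h hij h1 hy A
  rw [hA, hg', map_mul, map_mul,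
    Module.End.mul_apply, Module.End.mul_apply, slWt_fix_tv h hij h1 hy hβ.1 hβ.2,
    mem_slWt.1 hy α (by simp [hα])] at h5
  simpa [hα] using h5

theorem slWt_fix (h : SLGen ι F) {i j : ι} (hij : i ≠ j)
    (h1 : finrank ℂ (slWt ρ ψ (Pi.single i 1) (Pi.single j 1)) ≤ 1) {w u : ι → F}
    (hwu : LinearIndependent F ![w, u]) {y : D} (hy : y ∈ slWt ρ ψ w u)
    {g : SpecialLinearGroup ι F} (hw : (g : Matrix ι ι F) *ᵥ w = w) (hu : (g : Matrix ι ι F) *ᵥ u = u) : ρ g y = y := by
  obtain ⟨k, rfl, rfl⟩ := exists_sl_pair h.three_le hwu hij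
  have h2 := slWt_fix_std h hij h1 (y := ρ k⁻¹ y) (g := k⁻¹ * g * k)
    (by simpa only [sl_inv_mulVec_mulVec] using map_mem_slWt k⁻¹ hy)
    (by rw [sl_mul_mulVec', sl_mul_mulVec', hw, sl_inv_mulVec_mulVec])
    (by rw [sl_mul_mulVec', sl_mul_mulVec', hu, sl_inv_mulVec_mulVec])
  simpa [← Module.End.mul_apply, ← map_mul] using congrArg (ρ k) h2

end Cfsg.Agent.Cl
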