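import Mathlib
import Cfsg.Agent.Cl.RepOa
import Cfsg.Agent.Cl.RepSLa
import Cfsg.Agent.Ch.Unitary

/-!
Weight spaces of the unipotent radical of the stabiliser of a singular vector in complex
representations of `Ω`.
-/

set_option autoImplicit false
set_option linter.unusedSectionVars false

namespace Cfsg.Agent.Cl.RO

open Module QuadraticMap MaxO
open scoped commutatorElement InnerProductSpace ComplexConjugate

variable {F V : Type*} [Field F] [AddCommGroup V] [Module F V] {Q : QuadraticForm F V}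

/-- The stabiliser of a vector. -/
def repFix {G D : Type*} [Group G] [AddCommGroup D] [Module ℂ D] (ρ : Representation ℂ G D)
    (y : D) : Subgroup G where
  carrier := {g | ρ g y = y}
  mul_mem' {a b} ha hb := by
    rw [Set.mem_ofPred_eq] at ha hb ⊢
    rw [map_mul, Module.End.mul_apply, hb, ha]
  one_mem' := by simp
  inv_mem' {a} ha := by
    rw [Set.mem_ofPred_eq] at ha ⊢
    conv_lhs => rw [← ha, ← Module.End.mul_apply, ← map_mul, inv_mul_cancel, map_one]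
    rfl

section Wt

variable {D : Type*} [AddCommGroup D] [Module ℂ D] {ρ : Representation ℂ (EO Q) D}
  {ψ : AddChar F ℂ}

variable (ρ ψ) in
/-- The weight spaces. -/
noncomputable def oWt (v w : V) : Submodule ℂ D :=
  repWt ρ (fun u : LinearMap.ker (polarBilin Q v) => oE Q v u) fun u => ψ (polar Q u w)

theorem mem_oWt {v w : V} {y : D} :
    y ∈ oWt ρ ψ v w ↔ ∀ u, polar Q v u = 0 → ρ (oE Q v u) y = ψ (polar Q u w) • y :=
  ⟨fun h u hu => h ⟨u, hu⟩, fun h u => h u u.2⟩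

theorem map_mem_oWt (g : EO Q) {v w : V} {y : D} (h : y ∈ oWt ρ ψ v w) :
    ρ g y ∈ oWt ρ ψ (g.1.1 v) (g.1.1 w) := mem_oWt.2 fun u hu => by
  obtain ⟨u, rfl⟩ := g.1.1.surjective u
  rw [OG.polar_app] at hu ⊢
  rw [← Module.End.mul_apply, ← map_mul, ← mul_oE, map_mul, Module.End.mul_apply,
    mem_oWt.1 h u hu, map_smul]

theorem oWt_add_smul (v w : V) (t : F) : oWt ρ ψ v (w + t • v) = oWt ρ ψ v w := by
  ext y
  simp only [mem_oWt]
  refine forall₂_congr fun u hu => ?_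
  rw [polar_add_right, o_polar_smul_right, polar_comm Q u v, hu, mul_zero, add_zero]

theorem oWt_smul {v : V} (hv : Q v = 0) (w : V) {c : F} (hc : c ≠ 0) :
    oWt ρ ψ (c • v) (c • w) = oWt ρ ψ v w := by
  ext y
  simp only [mem_oWt]
  have h1 : ∀ u, polar Q v u = 0 → oE Q (c • v) u = oE Q v (c • u) := fun u hu =>
    Subtype.ext (eich_smul_left hv hu c)
  refine ⟨fun h u hu => ?_, fun h u hu => ?_⟩
  · have h2 : polar Q v (c⁻¹ • u) = 0 := by rw [o_polar_smul_right, hu, mul_zero]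
    have := h (c⁻¹ • u) (by rw [o_polar_smul_left, h2, mul_zero])
    rwa [h1 _ h2, smul_inv_smul₀ hc, o_polar_smul_left, o_polar_smul_right,
      inv_mul_cancel_left₀ hc] at this
  · rw [o_polar_smul_left, mul_eq_zero, or_iff_right hc] at hu
    rw [h1 _ hu, h _ (by rw [o_polar_smul_right, hu, mul_zero]), o_polar_smul_left,
      o_polar_smul_right]

variable [FiniteDimensional ℂ D]

theorem finrank_oWt_map (g : EO Q) (v w : V) :
    finrank ℂ (oWt ρ ψ (g.1.1 v) (g.1.1 w)) = finrank ℂ (oWt ρ ψ v w) := by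
  have key : ∀ (g : EO Q) v w, finrank ℂ (oWt ρ ψ v w) ≤
      finrank ℂ (oWt ρ ψ (g.1.1 v) (g.1.1 w)) := fun g v w =>
    LinearMap.finrank_le_finrank_of_injective (f := (ρ g).restrict fun y hy => map_mem_oWt g hy)
      fun a b hab => Subtype.ext (by
        simpa [← Module.End.mul_apply, ← map_mul] using congrArg (fun v => ρ g⁻¹ v.1) hab)
  refine le_antisymm ?_ (key g v w)
  have := key g⁻¹ (g.1.1 v) (g.1.1 w)
  rwa [Subgroup.coe_inv, OG.inv_app_app, OG.inv_app_app] at this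

variable [Finite F] [FiniteDimensional F V]

theorem finite_EO : Finite (EO Q) := by
  have := Module.finite_of_finite F (M := V)
  have : Finite (V ≃ₗ[F] V) := Finite.of_injective _ DFunLike.coe_injective
  infer_instance

theorem oE_comm {v : V} (hv : Q v = 0) (x y : LinearMap.ker (polarBilin Q v)) :
    oE Q v x * oE Q v y = oE Q v y * oE Q v x := Subtype.ext (eich_comm hv x.2 y.2)

theorem exists_oWt_basis (hQ : (polarBilin Q).Nondegenerate) (hψ : ψ ≠ 1) {v v' : V}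
    (h : Hyp Q v v') : ∃ (b : Basis (Fin (finrank ℂ D)) ℂ D) (w : Fin (finrank ℂ D) → V),
      ∀ i, w i ∈ pp Q v v' ∧ b i ∈ oWt ρ ψ v (w i) := by
  have := finite_EO (Q := Q)
  obtain ⟨b, χ, hb⟩ := exists_repWt_basis ρ (oE_comm h.l)
  have h4 : ∀ i, repWt ρ (fun u : LinearMap.ker (polarBilin Q v) => oE Q v u) (χ i) ≠ ⊥ := fun i =>
    (Submodule.ne_bot_iff _).2 ⟨b i, fun y => hb y i, b.ne_zero i⟩
  choose φ hφ using fun i => addChar_exists_dual hψ (χ i) (repWt_one (h4 i) (oE_zero v))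
    fun c d => repWt_mul (h4 i) (oE_mul h.l c.2 d.2)
  choose φ' hφ' using fun i => (φ i).exists_extend
  choose z hz using fun i => (LinearMap.BilinForm.toDual _ hQ).surjective (φ' i)
  have h1 : ∀ i (u : LinearMap.ker (polarBilin Q v)), χ i u = ψ (polar Q u (z i)) := fun i u => by
    rw [hφ, ← hφ', ← hz, polar_comm]; rfl
  refine ⟨b, fun i => z i + (-polar Q v' (z i)) • v, fun i => ⟨mem_pp.2 ⟨?_, ?_⟩, ?_⟩⟩
  · have h2 : polar Q v (z i) = 0 := addChar_eq_of_forall hψ fun c => by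
      have := h1 i ⟨c • v, show polar Q v (c • v) = 0 by simp only [oexp, h.l]; ring⟩
      rw [repWt_one (h4 i) (oE_smul_self v c), o_polar_smul_left] at this
      rw [← this, mul_zero, AddChar.map_zero_eq_one]
    simp only [oexp, h.l, h2]; ring
  · simp only [oexp, h.p']; ring
  · rw [oWt_add_smul]
    exact fun u => (hb u i).trans (by rw [h1])

theorem exists_psi_ne (hQ : (polarBilin Q).Nondegenerate) (hψ : ψ ≠ 1) {T : Submodule F V} {z : V}
    (hz : z ∉ T) : ∃ u, (∀ w ∈ T, polar Q w u = 0) ∧ ψ (polar Q u z) ≠ 1 := by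
  obtain ⟨c, hc⟩ := AddChar.ne_one_iff.1 hψ
  obtain ⟨u, h1, h2⟩ := o_exists_dual hQ hz c
  exact ⟨u, h2, by rwa [polar_comm, h1]⟩

/-- Counting dimensions of weight spaces. -/
theorem cnt_mul_add_le (hQ : (polarBilin Q).Nondegenerate) (hψ : ψ ≠ 1) {v v' : V}
    (h : Hyp Q v v') (P : V → Prop) (hP : ∀ w, P w → w ∈ pp Q v v' ∧ w ≠ 0) {d : ℕ}
    (hd : ∀ w, P w → d ≤ finrank ℂ (oWt ρ ψ v w)) :
    cnt P * d + finrank ℂ (oWt ρ ψ v 0) ≤ finrank ℂ D := by
  have := finite_EO (Q := Q)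
  have := Module.finite_of_finite F (M := V)
  have key : ∀ w ∈ pp Q v v', (∀ u, polar Q v u = 0 → ψ (polar Q u w) = 1) → w = 0 :=
    fun w hw H => by
      by_contra h0
      obtain ⟨u, h1, h2⟩ := exists_psi_ne hQ hψ fun h1 => h0 (h.eq_zero (mem_pp.1 hw).2 h1)
      exact h2 (H u (h1 v (Submodule.mem_span_singleton_self v)))
  have h1 := repWt_card_add_le (ρ := ρ) (oE_comm h.l) id (J := {w // P w})
    (l := fun w u => ψ (polar Q u w)) (fun w w' hw => Subtype.ext (sub_eq_zero.1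
      (key _ (sub_mem (hP _ w.2).1 (hP _ w'.2).1) fun u hu => by
        have : ψ (polar Q u w) = ψ (polar Q u w') := congrFun hw ⟨u, hu⟩
        rw [polar_sub_right, AddChar.map_sub_eq_div, this, div_self (ψ.val_isUnit _).ne_zero])))
    (fun w hw => (hP _ w.2).2 (key _ (hP _ w.2).1 fun u hu => congrFun hw ⟨u, hu⟩))
    fun w => hd w w.2
  rwa [show oWt ρ ψ v 0 = repWt ρ ((fun u : LinearMap.ker (polarBilin Q v) => oE Q v u) ∘ id) 1 by
    ext y; simp [oWt, mem_repWt]]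

theorem exists_oWt_ne_bot (hQ : (polarBilin Q).Nondegenerate) (hn : 5 ≤ finrank F V) (hψ : ψ ≠ 1)
    (hρ : ∃ g, ρ g ≠ 1) {v v' : V} (h : Hyp Q v v') :
    ∃ w ∈ pp Q v v', w ≠ 0 ∧ oWt ρ ψ v w ≠ ⊥ := by
  by_contra! H
  obtain ⟨b, w, hw⟩ := exists_oWt_basis (ρ := ρ) hQ hψ h
  have h1 : ∀ u, polar Q v u = 0 → ρ (oE Q v u) = 1 := fun u hu => b.ext fun i => by
    have h2 : w i = 0 := by
      by_contra h2
      exact b.ne_zero i ((Submodule.eq_bot_iff _).1 (H _ (hw i).1 h2) _ (hw i).2)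
    rw [mem_oWt.1 (hw i).2 u hu, h2]
    simp
  obtain ⟨g, hg⟩ := hρ
  obtain ⟨k, hk, h2⟩ := (EO_le_iff (H := (MonoidHom.ker ρ).map (EO Q).subtype)).2
    (fun x u hx hu => ⟨oE Q x u, by
      by_cases h0 : x = 0
      · rw [show oE Q x u = 1 from Subtype.ext (by rw [h0]; exact eich_zero_left _)]
        exact one_mem _
      obtain ⟨k, rfl⟩ := exists_map hQ hn h.ne h0 (h.l.trans hx.symm)
      obtain ⟨u, rfl⟩ := k.1.1.surjective u
      rw [← mul_inv_eq_of_eq_mul (mul_oE k v u)]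
      exact (MonoidHom.normal_ker ρ).conj_mem _ (h1 u (by rwa [OG.polar_app] at hu)) _, rfl⟩) g.2
  exact hg (Subtype.ext h2 ▸ hk : g ∈ MonoidHom.ker ρ)

variable (Q) in
/-- The groups `Ω` of the complements of the hyperbolic subspaces of dimension four are perfect. -/
def Perf4 : Prop := ∀ v v' w w', Hyp Q v v' → Hyp Q w w' → w ∈ pp Q v v' → w' ∈ pp Q v v' →
  ⁅EO (Q.restrict (pp Q v v' ⊓ pp Q w w')), EO (Q.restrict (pp Q v v' ⊓ pp Q w w'))⁆ =
    EO (Q.restrict (pp Q v v' ⊓ pp Q w w')) ∧ ¬ OExc (Q.restrict (pp Q v v' ⊓ pp Q w w'))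

theorem Hyp.nd_inf {S : Submodule F V} (hS : ND Q S) {w w' : V}
    (hw : Hyp Q w w') (h1 : w ∈ S) (h2 : w' ∈ S) :
    ND Q (S ⊓ pp Q w w') ∧ finrank F ↥(S ⊓ pp Q w w') + 2 = finrank F S := by
  have h3 : Submodule.span F {w, w'} ≤ S := Submodule.span_le.2 (Set.pair_subset h1 h2)
  exact ⟨hS.inf_perp hw.nd h3, by rw [hw.nd.finrank_inf_perp h3, hw.finrank_span]; rfl⟩

/-- The stabiliser of two orthogonal singular vectors acts trivially on the weight space. -/
theorem fix_of_fix (hQ : (polarBilin Q).Nondegenerate) (hn : 7 ≤ finrank F V) (hp : Perf4 Q)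
    {v w : V} (hv : Q v = 0) (hv0 : v ≠ 0) (hw : Q w = 0) (hvw : polar Q v w = 0)
    (hi : w ∉ Submodule.span F {v}) (h1 : finrank ℂ (oWt ρ ψ v w) ≤ 1) {y : D}
    (hy : y ∈ oWt ρ ψ v w) (g : EO Q) (hgv : g.1.1 v = v) (hgw : g.1.1 w = w) : ρ g y = y := by
  obtain ⟨v', hv', hv'w⟩ := exists_hyp_perp hQ hv hv0 hvw hi
  have hwS : w ∈ pp Q v v' := mem_pp.2 ⟨hvw, hv'w⟩
  obtain ⟨w', hw'S, h2, h3⟩ := (hv'.nd_pp hQ).exists_partner hwS
    (by rintro rfl; exact hi (zero_mem _)) hw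
  have hw' : Hyp Q w w' := ⟨hw, h2, h3⟩
  obtain ⟨hS, hd⟩ := hw'.nd_inf (hv'.nd_pp hQ) hwS hw'S
  have hd' := hv'.finrank_pp hQ
  obtain ⟨hperf, hexc⟩ := hp v v' w w' hv' hw' hwS hw'S
  set S := pp Q v v' ⊓ pp Q w w'
  have hst : ∀ k : EO Q, k.1.1 v = v → k.1.1 w = w → ρ k y ∈ oWt ρ ψ v w := fun k h1 h2 => by
    have := map_mem_oWt k hy
    rwa [h1, h2] at this
  have hfv : ∀ k, (oextE hS k).1.1 v = v := fun k => oext_app_perp _ _ fun x hx =>
    (polar_comm Q _ _).trans (mem_pp.1 hx.1).1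
  have hfw : ∀ k, (oextE hS k).1.1 w = w := fun k => oext_app_perp _ _ fun x hx =>
    (polar_comm Q _ _).trans (mem_pp.1 hx.2).1
  have hA : ∀ k, oextE hS k ∈ repFix ρ y := fun k => by
    obtain ⟨k', h4, h5⟩ := (Subgroup.commutator_le
      (H₃ := ((repFix ρ y).comap (oextE hS)).map (EO _).subtype)).2
      (fun a ha b hb => ⟨⁅(⟨a, ha⟩ : EO _), (⟨b, hb⟩ : EO _)⁆, by
        rw [SetLike.mem_coe, Subgroup.mem_comap, map_commutatorElement]
        exact rep_commutator_fix h1 hy (hst _ (hfv _) (hfw _)) (hst _ (hfv _) (hfw _)), rfl⟩)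
      (hperf.ge k.2)
    exact (Subtype.ext h5 : k' = k) ▸ h4
  have hM : ∀ k : EO Q, k.1 ∈ (repFix ρ y).map (EO Q).subtype ↔ k ∈ repFix ρ y := fun k =>
    Subgroup.mem_map_iff_mem Subtype.val_injective
  have hB : ∀ a ∈ S, oE Q w a ∈ repFix ρ y := by
    obtain ⟨e, he, he0, he1⟩ := exists_singular_mem (Q := Q) (S := S) (by omega)
    obtain ⟨k, hk, hk1, -⟩ := exists_mem_EO_not_scalar hS.nondeg (by omega)
      ⟨⟨e, he⟩, by simpa, he1⟩
    obtain ⟨a, ha⟩ : ∃ a, k.1 a ≠ a := by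
      by_contra! H
      exact hk1 (OG.ext H)
    obtain ⟨z, hz, hz'⟩ := hS.exists_polar_ne (k.1 a - a).2 (by simpa [sub_eq_zero] using ha)
    intro b hb
    refine (hM _).1 (le_EA_of_three hS (by omega) (fun a ha b hb => (hM (oE Q a b)).2
      (oextE_oE hS ⟨a, ha⟩ ⟨b, hb⟩ ▸ hA _)) hw (fun x hx => (mem_pp.1 hx.2).1)
      ⟨(mem_pp.1 (k.1 a - a).2.2).1, (hM (oE Q w _)).2 ?_⟩ hz hz' b hb).2
    have h4 : oE Q w (k.1 a - a : S) = ⁅oextE hS ⟨k, hk⟩, oE Q w a⁆ := by
      rw [commutatorElement_def, mul_oE, mul_inv_cancel_right, hfw, oE_inv, oextE_val, oext_app_mem,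
        oE_mul hw (mem_pp.1 (k.1 a).2.2).1 (by rw [polar_neg_right, (mem_pp.1 a.2.2).1, neg_zero]),
        sub_eq_add_neg]
      rfl
    rw [h4]
    exact rep_commutator_fix h1 hy (hst _ (hfv _) (hfw _)) (hst _ (eich_app_of_polar hvw
      (mem_pp.1 a.2.1).1) (eich_app_self _ _))
  have hC : ∀ u, polar Q v u = 0 → polar Q u w = 0 → oE Q v u ∈ repFix ρ y := fun u h4 h5 =>
    (mem_oWt.1 hy u h4).trans (by rw [h5, AddChar.map_zero_eq_one, one_smul])
  obtain ⟨u, hu, hu'⟩ := eich_exists_map (y := g.1.1 v') (y' := v') hv (OG.map_app _ _)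
    (by conv_lhs => rw [← hgv, OG.polar_app]) (by rw [← hgv, OG.polar_app, hv'.p']; exact one_ne_zero)
  have h4 : polar Q (g.1.1 v') v = 1 := by rw [← hgv, OG.polar_app, hv'.p']
  have h5 : polar Q u w = 0 := by
    have h6 := congrArg (polar Q · w) hu'
    have h7 : polar Q (g.1.1 v') w = 0 := by rw [← hgw, OG.polar_app, hv'w]
    simp only [eich_app hv hu, oexp, h4, h7, hvw, hv'w] at h6
    linear_combination h6
  set g₁ := oE Q v u * g with hg₁
  have h6 : g₁.1.1 v = v := (congrArg (eich Q v u).1 hgv).trans (eich_app_self _ _)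
  have h7 : g₁.1.1 v' = v' := hu'
  have h8 : g₁.1.1 w = w := (congrArg (eich Q v u).1 hgw).trans
    (eich_app_of_polar ((polar_comm Q _ _).trans hvw) ((polar_comm Q _ _).trans h5))
  have h9 : polar Q (g₁.1.1 w') w = 1 := by rw [← h8, OG.polar_app, hw'.p']
  obtain ⟨a, ha, ha'⟩ := eich_exists_map (y := g₁.1.1 w') (y' := w') hw (OG.map_app _ _)
    (h9.trans hw'.p'.symm) (h9 ▸ one_ne_zero)
  have h10 : ∀ x, g₁.1.1 x = x → polar Q x w = 0 → polar Q x w' = 0 → polar Q x a = 0 :=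
    fun x h11 h12 h13 => by
      have h14 := congrArg (polar Q x) ha'
      have h15 : polar Q x (g₁.1.1 w') = 0 := by rw [← h11, OG.polar_app, h13]
      simp only [eich_app hw ha, oexp, h9, h12, h13, h15] at h14
      linear_combination h14
  have h11 := h10 v h6 hvw (mem_pp.1 hw'S).1
  have h12 := h10 v' h7 hv'w (mem_pp.1 hw'S).2
  have h13 : oE Q w a ∈ repFix ρ y := by
    have := hB (a + (-polar Q w' a) • w) ⟨mem_pp.2 ⟨by simp only [oexp, h11, hvw]; ring,
      by simp only [oexp, h12, hv'w]; ring⟩, mem_pp.2 ⟨by simp only [oexp, ha, hw]; ring,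
      by simp only [oexp, hw'.p']; ring⟩⟩
    rwa [show oE Q w _ = oE Q w a from Subtype.ext (eich_add_smul_self hw ha _)] at this
  obtain ⟨k, hk⟩ := exists_oextE hQ (by omega) hS (by omega) hexc (oE Q w a * g₁) fun x hx => by
    have h14 : operp Q S = Submodule.span F {v, v'} ⊔ Submodule.span F {w, w'} := by
      rw [← operp_operp hQ (_ ⊔ _)]
      congr 1
      ext z
      simp only [S, pp, mem_operp, Submodule.mem_inf]
      exact ⟨fun h x hx => by
        obtain ⟨a, ha, b, hb, rfl⟩ := Submodule.mem_sup.1 hx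
        rw [polar_add_left, h.1 a ha, h.2 b hb, add_zero],
        fun h => ⟨fun x hx => h x (Submodule.mem_sup_left hx),
          fun x hx => h x (Submodule.mem_sup_right hx)⟩⟩
    rw [h14] at hx
    obtain ⟨_, ha1, _, hb1, rfl⟩ := Submodule.mem_sup.1 hx
    obtain ⟨c₁, c₂, rfl⟩ := Submodule.mem_span_pair.1 ha1
    obtain ⟨c₃, c₄, rfl⟩ := Submodule.mem_span_pair.1 hb1
    change (eich Q w a).1 (g₁.1.1 _) = _
    simp only [map_add, map_smul, h6, h7, h8, ha', eich_app_self, eich_app_of_polar hvw h11,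
      eich_app_of_polar hv'w h12]
  exact (mul_mem_cancel_left (hC u hu h5)).1 ((mul_mem_cancel_left h13).1 (hk ▸ hA k))

end Wt

end Cfsg.Agent.Cl.RO
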