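import Mathlib
import Cfsg.Agent.Cl.RepOb

/-!
Unitary representations of `Ω` with a single orbit of weights, of multiplicity one.
-/

set_option autoImplicit false
set_option linter.unusedSectionVars false

namespace Cfsg.Agent.Cl.RO

open Module QuadraticMap MaxO Classical
open scoped InnerProductSpace ComplexConjugate

variable {F V : Type*} [Field F] [AddCommGroup V] [Module F V] {Q : QuadraticForm F V}
  {E : Type*} [NormedAddCommGroup E] [InnerProductSpace ℂ E]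

theorem exists_unit (U : Submodule ℂ E) : ∃ y ∈ U, U ≠ ⊥ → ‖y‖ = 1 := by
  by_cases h : U = ⊥
  · exact ⟨0, zero_mem _, fun h1 => absurd h h1⟩
  obtain ⟨y, hy, h0⟩ := (Submodule.ne_bot_iff U).1 h
  exact ⟨(‖y‖⁻¹ : ℂ) • y, U.smul_mem _ hy, fun _ => by
    rw [norm_smul, norm_inv, Complex.norm_real, norm_norm, inv_mul_cancel₀ (norm_ne_zero_iff.2 h0)]⟩

/-- A unit vector in a subspace. -/
noncomputable def wv (U : Submodule ℂ E) : E := (exists_unit U).choose

theorem wv_mem (U : Submodule ℂ E) : wv U ∈ U := (exists_unit U).choose_spec.1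

theorem norm_wv {U : Submodule ℂ E} (h : finrank ℂ U = 1) : ‖wv U‖ = 1 :=
  (exists_unit U).choose_spec.2 (by rintro rfl; simp at h)

theorem inner_wv {U : Submodule ℂ E} (h : finrank ℂ U = 1) : ⟪wv U, wv U⟫_ℂ = 1 := by
  rw [inner_self_eq_norm_sq_to_K, norm_wv h]; simp

theorem smul_wv [FiniteDimensional ℂ E] {U : Submodule ℂ E} (h : finrank ℂ U = 1) {y : E}
    (hy : y ∈ U) : ⟪wv U, y⟫_ℂ • wv U = y := by
  have h0 : wv U ≠ 0 := norm_ne_zero_iff.1 (by rw [norm_wv h]; exact one_ne_zero)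
  have h1 : (ℂ ∙ wv U) = U := Submodule.eq_of_le_of_finrank_eq
    ((Submodule.span_singleton_le_iff_mem _ _).2 (wv_mem U)) (by rw [finrank_span_singleton h0, h])
  obtain ⟨c, rfl⟩ := Submodule.mem_span_singleton.1 (h1.ge hy)
  rw [inner_smul_right, inner_wv h, mul_one]

/-- Rank one operators. -/
noncomputable def rk (y : E) : Module.End ℂ E := (innerₛₗ ℂ y).smulRight y

theorem rk_apply (y x : E) : rk y x = ⟪y, x⟫_ℂ • y := rfl

theorem trace_mul_rk [FiniteDimensional ℂ E] (T : Module.End ℂ E) (y : E) :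
    LinearMap.trace ℂ E (T * rk y) = ⟪y, T y⟫_ℂ := by
  rw [show T * rk y = (innerₛₗ ℂ y).smulRight (T y) from LinearMap.ext fun x => by
    simp [rk_apply], LinearMap.trace_smulRight]
  rfl

theorem rep_inner {G : Type*} [Group G] {ρ : Representation ℂ G E} (hU : ∀ g y, ‖ρ g y‖ = ‖y‖)
    (g : G) (x y : E) : ⟪ρ g x, ρ g y⟫_ℂ = ⟪x, y⟫_ℂ :=
  (LinearMap.norm_map_iff_inner_map_map (ρ g)).1 (hU g) x y

variable {ρ : Representation ℂ (EO Q) E} {ψ : AddChar F ℂ}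

variable (ρ ψ) in
/-- The non-zero weights are the vectors of norm `c`, and have multiplicity one. -/
def SW (c : F) : Prop := ∀ v w, Q v = 0 → v ≠ 0 → polar Q v w = 0 → w ∉ Submodule.span F {v} →
  finrank ℂ (oWt ρ ψ v w) = if Q w = c then 1 else 0

variable (Q) in
/-- The non-zero vectors of norm `c` orthogonal to a pair. -/
def OO (c : F) (v v' z : V) : Prop := (z ∈ pp Q v v' ∧ Q z = c) ∧ z ≠ 0

theorem SW.one {c : F} (h : SW ρ ψ c) {v v' z : V} (hv : Hyp Q v v') (hz : OO Q c v v' z) :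
    finrank ℂ (oWt ρ ψ v z) = 1 := by
  rw [h v z hv.l hv.ne (mem_pp.1 hz.1.1).1 fun h1 => hz.2 (hv.eq_zero (mem_pp.1 hz.1.1).2 h1),
    if_pos hz.1.2]

variable [Fintype V]

variable (ρ ψ) in
/-- Operators which are diagonal on the weight spaces. -/
noncomputable def prj (c : F) (v v' : V) (f : V → ℂ) : Module.End ℂ E :=
  ∑ z, if OO Q c v v' z then f z • rk (wv (oWt ρ ψ v z)) else 0

theorem inner_prj (c : F) (v v' : V) (f : V → ℂ) (x y : E) : ⟪x, prj ρ ψ c v v' f y⟫_ℂ =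
    ∑ z, if OO Q c v v' z then
      f z * (⟪wv (oWt ρ ψ v z), y⟫_ℂ * ⟪x, wv (oWt ρ ψ v z)⟫_ℂ) else 0 := by
  rw [prj, LinearMap.sum_apply, inner_sum]
  refine Finset.sum_congr rfl fun z _ => ?_
  split_ifs <;> simp [rk_apply, inner_smul_right]

theorem inner_prj_self (c : F) (v v' : V) (f : V → ℂ) (x : E) : ⟪x, prj ρ ψ c v v' f x⟫_ℂ =
    ∑ z, if OO Q c v v' z then f z * (‖⟪wv (oWt ρ ψ v z), x⟫_ℂ‖ : ℂ) ^ 2 else 0 := by
  rw [inner_prj]
  refine Finset.sum_congr rfl fun z _ => ?_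
  rw [← inner_conj_symm x, Complex.mul_conj, Complex.normSq_eq_norm_sq, Complex.ofReal_pow]

variable [FiniteDimensional ℂ E]

theorem trace_mul_prj (c : F) (v v' : V) (f : V → ℂ) (T : Module.End ℂ E) :
    LinearMap.trace ℂ E (T * prj ρ ψ c v v' f) =
      ∑ z, if OO Q c v v' z then f z * ⟪wv (oWt ρ ψ v z), T (wv (oWt ρ ψ v z))⟫_ℂ else 0 := by
  rw [prj, Finset.mul_sum, map_sum]
  refine Finset.sum_congr rfl fun z _ => ?_
  split_ifs <;> simp [trace_mul_rk]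

theorem SW.trace_prj {c : F} (h : SW ρ ψ c) {v v' : V} (hv : Hyp Q v v') (f : V → ℂ) :
    LinearMap.trace ℂ E (prj ρ ψ c v v' f) = ∑ z, if OO Q c v v' z then f z else 0 := by
  rw [← one_mul (prj ρ ψ c v v' f), trace_mul_prj]
  refine Finset.sum_congr rfl fun z _ => ?_
  split_ifs with hz
  · rw [Module.End.one_apply, inner_wv (h.one hv hz), mul_one]
  · rfl

variable [Finite F] [FiniteDimensional F V] (hQ : (polarBilin Q).Nondegenerate) (hψ : ψ ≠ 1)
  (hU : ∀ g y, ‖ρ g y‖ = ‖y‖)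
include hQ hψ

theorem sum_ker {v v' z : V} (hv : Hyp Q v v') (hz : z ∈ pp Q v v') (h0 : z ≠ 0) :
    ∑ u, (if polar Q v u = 0 then 1 - ψ (polar Q u z) else 0) =
      cnt fun u => polar Q v u = 0 := by
  obtain ⟨y, h1, h2⟩ := o_exists_dual hQ (fun h1 => h0 (hv.eq_zero (mem_pp.1 hz).2 h1)) 1
  have h3 := fun α => cnt_polar (S := LinearMap.ker (polarBilin Q v))
    (h2 v (Submodule.mem_span_singleton_self v)) h1 α
  simp only [polar_comm Q _ z]
  refine (sum_one_sub hψ (fun u => polar Q v u = 0) _ fun α _ => Nat.eq_of_mul_eq_mul_right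
    Nat.card_pos ((h3 α).trans (h3 0).symm)).trans ?_
  rw [mul_comm]
  exact_mod_cast h3 0

theorem sum_OO {c : F} {v v' a a' : V} (ha : Hyp Q a a') (h1 : a ∈ pp Q v v')
    (h2 : a' ∈ pp Q v v') {e : ℕ} (he : finrank F (pp Q v v') = e + 2) :
    ∑ z, (if OO Q c v v' z then 1 - ψ (polar Q a z) else 0) = Nat.card F ^ (e + 1) := by
  rw [sum_one_sub hψ _ _ (t := Nat.card F ^ e) fun α hα => ?_]
  · push_cast; ring
  refine Nat.eq_of_mul_eq_mul_right (pow_pos (Nat.card_pos (α := F)) 2) ?_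
  rw [← pow_add, ← he, ← cnt_mem, ← ha.cnt_polar_norm h1 h2 hα c]
  exact congrArg₂ _ (cnt_congr fun x => ⟨fun h => ⟨h.1.1, h.2⟩,
    fun h => ⟨⟨h.1, o_ne_zero_of_polar_right (h.2 ▸ hα)⟩, h.2⟩⟩) rfl

include hU

theorem inner_oWt {v v' w w' : V} (hv : Hyp Q v v') (hw : w ∈ pp Q v v') (hw' : w' ∈ pp Q v v')
    (h : w ≠ w') {y y' : E} (hy : y ∈ oWt ρ ψ v w) (hy' : y' ∈ oWt ρ ψ v w') : ⟪y, y'⟫_ℂ = 0 := by
  obtain ⟨u, h1, h2⟩ := exists_psi_ne hQ hψ fun h1 =>
    sub_ne_zero.2 h (hv.eq_zero (mem_pp.1 (sub_mem hw hw')).2 h1)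
  have h3 := h1 v (Submodule.mem_span_singleton_self v)
  refine Ch.unitary_inner_eq_zero (hU _) (mem_oWt.1 hy u h3) (mem_oWt.1 hy' u h3) fun h4 => h2 ?_
  rw [polar_sub_right, AddChar.map_sub_eq_div, h4, div_self (ψ.val_isUnit _).ne_zero]

theorem SW.prj_apply {c : F} (h : SW ρ ψ c) {v v' w : V} (hv : Hyp Q v v') (hw : w ∈ pp Q v v')
    (f : V → ℂ) {y : E} (hy : y ∈ oWt ρ ψ v w) :
    prj ρ ψ c v v' f y = if w = 0 then 0 else f w • y := by
  rw [prj, LinearMap.sum_apply, Finset.sum_eq_single w (fun z _ hz => ?_) (by simp)]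
  · by_cases h0 : w = 0
    · rw [if_neg fun h1 => h1.2 h0, if_pos h0, LinearMap.zero_apply]
    rw [if_neg h0]
    split_ifs with h1
    · rw [LinearMap.smul_apply, rk_apply, smul_wv (h.one hv h1) hy]
    · have := h v w hv.l hv.ne (mem_pp.1 hw).1 fun h1 => h0 (hv.eq_zero (mem_pp.1 hw).2 h1)
      rw [if_neg fun h2 => h1 ⟨⟨hw, h2⟩, h0⟩, Submodule.finrank_eq_zero] at this
      rw [(Submodule.eq_bot_iff _).1 this y hy, smul_zero, LinearMap.zero_apply]
  · split_ifs with h1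
    · rw [LinearMap.smul_apply, rk_apply, inner_oWt hQ hψ hU hv h1.1.1 hw hz (wv_mem _) hy,
        zero_smul, smul_zero]
    · rfl

theorem SW.one_sub {c : F} (h : SW ρ ψ c) {v v' u : V} (hv : Hyp Q v v') (hu : polar Q v u = 0) :
    1 - ρ (oE Q v u) = prj ρ ψ c v v' fun z => 1 - ψ (polar Q u z) := by
  obtain ⟨b, w, hw⟩ := exists_oWt_basis (ρ := ρ) hQ hψ hv
  refine b.ext fun i => ?_
  rw [h.prj_apply hQ hψ hU hv (hw i).1 _ (hw i).2, LinearMap.sub_apply, mem_oWt.1 (hw i).2 u hu]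
  split_ifs with h0 <;> simp [h0, sub_smul]

theorem SW.sub_prj_mem {c : F} (h : SW ρ ψ c) {v v' : V} (hv : Hyp Q v v') (x : E) :
    x - prj ρ ψ c v v' 1 x ∈ oWt ρ ψ v 0 := by
  obtain ⟨b, w, hw⟩ := exists_oWt_basis (ρ := ρ) hQ hψ hv
  refine (b.span_eq.ge.trans (Submodule.span_le.2 ?_) :
    ⊤ ≤ (oWt ρ ψ v 0).comap (1 - prj ρ ψ c v v' 1)) (Submodule.mem_top (x := x))
  rintro _ ⟨i, rfl⟩
  change b i - _ ∈ oWt ρ ψ v 0
  rw [h.prj_apply hQ hψ hU hv (hw i).1 _ (hw i).2]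
  split_ifs with h0
  · rw [sub_zero, ← h0]; exact (hw i).2
  · simp

theorem SW.sum_one_sub {c : F} (h : SW ρ ψ c) {v v' : V} (hv : Hyp Q v v') :
    ∑ u, (if polar Q v u = 0 then 1 - ρ (oE Q v u) else 0) =
      (cnt fun u => polar Q v u = 0 : ℂ) • prj ρ ψ c v v' 1 := by
  rw [Finset.sum_congr rfl (g := fun u => ∑ z, if OO Q c v v' z then
    (if polar Q v u = 0 then 1 - ψ (polar Q u z) else 0) • rk (wv (oWt ρ ψ v z)) else 0)
    fun u _ => by
      split_ifs with hu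
      · exact h.one_sub hQ hψ hU hv hu
      · simp, Finset.sum_comm, prj, Finset.smul_sum]
  refine Finset.sum_congr rfl fun z _ => ?_
  split_ifs with hz
  · rw [← Finset.sum_smul, sum_ker hQ hψ hv hz.1.1 hz.2, Pi.one_apply, one_smul]
  · simp

theorem SW.trace_root {c : F} (h : SW ρ ψ c) {e : ℕ} (he : finrank F V = e + 4) {v u : V}
    (hv : Q v = 0) (h0 : v ≠ 0) (hu : Q u = 0) (hvu : polar Q v u = 0)
    (hi : u ∉ Submodule.span F {v}) :
    LinearMap.trace ℂ E (1 - ρ (oE Q v u)) = Nat.card F ^ (e + 1) := by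
  obtain ⟨v', hv', h1⟩ := exists_hyp_perp hQ hv h0 hvu hi
  have h2 : u ∈ pp Q v v' := mem_pp.2 ⟨hvu, h1⟩
  obtain ⟨u', h3, h4, h5⟩ := (hv'.nd_pp hQ).exists_partner h2
    (by rintro rfl; exact hi (zero_mem _)) hu
  have h6 := hv'.finrank_pp hQ
  rw [h.one_sub hQ hψ hU hv' hvu, h.trace_prj hv', sum_OO hQ hψ ⟨hu, h4, h5⟩ h2 h3 (e := e) (by omega)]

theorem SW.prj_eq_self {c : F} (h : SW ρ ψ c) {v v' : V} (hv : Hyp Q v v')
    (H : ∀ d, (∀ g : EO Q, g.1.1 v = v → ρ g d = d) → d = 0) {x : E}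
    (hx : ∀ g : EO Q, g.1.1 v = v → g.1.1 v' = v' → ρ g x = x) : prj ρ ψ c v v' 1 x = x := by
  have h1 := H (∑ u, if polar Q v u = 0 then ρ (oE Q v u) x else 0) fun g hg => by
    have h1 : polar Q (g.1.1 v') v = 1 := by rw [← hg, OG.polar_app, hv.p']
    obtain ⟨a, ha, ha'⟩ := eich_exists_map (y := g.1.1 v') (y' := v') hv.l (OG.map_app _ _)
      (h1.trans hv.p'.symm) (h1 ▸ one_ne_zero)
    have h2 := hx (oE Q v a * g) ((congrArg (eich Q v a).1 hg).trans (eich_app_self _ _)) ha'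
    rw [map_sum]
    refine Fintype.sum_equiv (g.1.1.toEquiv.trans (Equiv.subRight a)) _ _ fun u => ?_
    have h3 : polar Q v (g.1.1 u) = polar Q v u := by rw [← OG.polar_app g.1 v u, hg]
    simp only [Equiv.trans_apply, LinearEquiv.coe_toEquiv, Equiv.subRight_apply, polar_sub_right,
      h3, ha, sub_zero]
    split_ifs with hu
    · conv_rhs => rw [← h2]
      rw [← Module.End.mul_apply, ← Module.End.mul_apply, ← map_mul, ← map_mul, mul_oE, hg,
        ← mul_assoc, oE_mul hv.l (by rw [polar_sub_right, h3, hu, ha, sub_zero]) ha, sub_add_cancel]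
    · exact map_zero _
  have h2 := LinearMap.congr_fun (h.sum_one_sub hQ hψ hU hv) x
  rw [LinearMap.sum_apply, Finset.sum_congr rfl (g := fun u => (if polar Q v u = 0 then (1 : ℂ) else 0) • x -
    if polar Q v u = 0 then ρ (oE Q v u) x else 0) fun u _ => by split_ifs <;> simp,
    Finset.sum_sub_distrib, h1, sub_zero, ← Finset.sum_smul, sum_ite_eq_cnt, mul_one] at h2
  have : Nonempty {u // polar Q v u = 0} := ⟨⟨0, polar_zero_right _ _⟩⟩
  exact (smul_right_injective E (Nat.cast_ne_zero.2 Nat.card_pos.ne') h2).symm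

omit hψ in
theorem SW.norm_inner_eq {c : F} (h : SW ρ ψ c) (hn : 7 ≤ finrank F V) {v v' z z' : V}
    (hv : Hyp Q v v') {x : E} (hx : ∀ g : EO Q, g.1.1 v = v → g.1.1 v' = v' → ρ g x = x)
    (hz : OO Q c v v' z) (hz' : OO Q c v v' z') :
    ‖⟪wv (oWt ρ ψ v z), x⟫_ℂ‖ = ‖⟪wv (oWt ρ ψ v z'), x⟫_ℂ‖ := by
  obtain ⟨k, h1, h2, h3⟩ := hv.exists_map hQ hn hz.1.1 hz'.1.1 hz.2 hz'.2 (hz.1.2.trans hz'.1.2.symm)
  have h4 := map_mem_oWt k (wv_mem (oWt ρ ψ v z))
  rw [h1, h3] at h4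
  have h5 := smul_wv (h.one hv hz') h4
  have h6 := congrArg norm h5
  rw [hU, norm_smul, norm_wv (h.one hv hz), norm_wv (h.one hv hz'), mul_one] at h6
  rw [← rep_inner hU k, hx k h1 h2, ← h5, inner_smul_left, norm_mul, RCLike.norm_conj, h6, one_mul]

omit hQ hψ hU [FiniteDimensional F V] [FiniteDimensional ℂ E] in
theorem cnt_span_ne {v : V} (hv : v ≠ 0) :
    cnt (fun x => x ∈ Submodule.span F {v} ∧ x ≠ 0) + 1 = Nat.card F := by
  rw [← cnt_span hv, cnt_split (fun x => x ∈ Submodule.span F {v}) (· = 0), add_comm,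
    cnt_congr (P := fun x => _ ∧ x = 0) (R := (· = 0)) fun x => ⟨fun h => h.2,
      fun h => ⟨h ▸ zero_mem _, h⟩⟩, cnt_eq_one]

omit hQ hψ hU [Finite F] [FiniteDimensional F V] [FiniteDimensional ℂ E] in
theorem norm_sum_le_cnt (P : V → Prop) (f : V → ℂ) {B : ℝ} (h : ∀ x, P x → ‖f x‖ ≤ B)
    (h0 : ∀ x, ¬ P x → f x = 0) : ‖∑ x, f x‖ ≤ cnt P * B := by
  rw [← Finset.sum_subset (Finset.subset_univ (Finset.univ.filter P))
    fun x _ hx => h0 x (by simpa using hx), cnt_eq_card, ← nsmul_eq_mul]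
  exact (norm_sum_le _ _).trans (Finset.sum_le_card_nsmul _ _ _ fun x hx => h x (by simpa using hx))

/-- The stabiliser of a singular vector has a non-zero fixed vector. -/
theorem SW.exists_fixed (h : SW ρ ψ 0) (hn : 7 ≤ finrank F V) (hp : Perf4 Q) :
    ∃ (v : V) (d : E), Q v = 0 ∧ v ≠ 0 ∧ d ≠ 0 ∧ ∀ g : EO Q, g.1.1 v = v → ρ g d = d := by
  by_contra! H
  replace H : ∀ v, Q v = 0 → v ≠ 0 → ∀ d, (∀ g : EO Q, g.1.1 v = v → ρ g d = d) → d = 0 :=
    fun v h1 h2 d h3 => by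
      by_contra h4
      obtain ⟨g, h5, h6⟩ := H v d h1 h2 h4
      exact h6 (h3 g h5)
  obtain ⟨v, hv0, hv1⟩ := quad_exists_singular Q (by omega)
  obtain ⟨v', hv⟩ := exists_hyp hQ hv1 hv0
  have hd := hv.finrank_pp hQ
  obtain ⟨a, haS, ha0, ha1⟩ := exists_singular_mem (Q := Q) (S := pp Q v v') (by omega)
  obtain ⟨a', haS', h1, h2⟩ := (hv.nd_pp hQ).exists_partner haS ha0 ha1
  have ha : Hyp Q a a' := ⟨ha1, h1, h2⟩
  have haO : OO Q 0 v v' a := ⟨⟨haS, ha1⟩, ha0⟩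
  obtain ⟨hva, hv'a⟩ := mem_pp.1 haS
  obtain ⟨hva', hv'a'⟩ := mem_pp.1 haS'
  have := finite_EO (Q := Q)
  let K : Subgroup (EO Q) := MulAction.stabilizer (EO Q) v ⊓ MulAction.stabilizer (EO Q) v'
  have := Fintype.ofFinite K
  set x := ∑ k : K, ρ k (wv (oWt ρ ψ v a)) with hxd
  have hx : ∀ g : EO Q, g.1.1 v = v → g.1.1 v' = v' → ρ g x = x := fun g h1 h2 => by
    rw [hxd, map_sum]
    exact Fintype.sum_equiv (Equiv.mulLeft (⟨g, h1, h2⟩ : K)) _ _ fun k => by simp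
  have hx0 : x ≠ 0 := fun h0 => by
    have h3 := congrArg (⟪wv (oWt ρ ψ v a), ·⟫_ℂ) h0
    simp only [hxd, inner_sum, inner_zero_right] at h3
    rw [Finset.sum_congr rfl (g := fun k : K => if k.1.1.1 a = a then 1 else 0) fun k _ => by
      split_ifs with hk
      · rw [fix_of_fix hQ hn hp hv1 hv0 ha1 hva (fun h4 => ha0 (hv.eq_zero hv'a h4))
          (h.one hv haO).le (wv_mem _) k k.2.1 hk, inner_wv (h.one hv haO)]
      · have h4 := map_mem_oWt k.1 (wv_mem (oWt ρ ψ v a))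
        have h5 : k.1.1.1 v = v := k.2.1
        have h6 : k.1.1.1 v' = v' := k.2.2
        rw [h5] at h4
        exact inner_oWt hQ hψ hU hv haS (mem_pp.2 ⟨by rw [← h5, OG.polar_app, hva],
          by rw [← h6, OG.polar_app, hv'a]⟩) (Ne.symm hk) (wv_mem _) h4, Finset.sum_boole,
      Nat.cast_eq_zero, Finset.card_eq_zero, Finset.filter_eq_empty_iff] at h3
    exact h3 (Finset.mem_univ 1) rfl
  have hOO : OO Q 0 v' v = OO Q 0 v v' := by ext z; rw [OO, OO, pp_comm]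
  have key : ∀ v v', Hyp Q v v' → (∀ g : EO Q, g.1.1 v = v → g.1.1 v' = v' → ρ g x = x) →
      OO Q 0 v v' a → ⟪x, x⟫_ℂ = cnt (OO Q 0 v v') * (‖⟪wv (oWt ρ ψ v a), x⟫_ℂ‖ : ℂ) ^ 2 :=
    fun v v' hv hx ha => by
      rw [← congrArg (⟪x, ·⟫_ℂ) (h.prj_eq_self hQ hψ hU hv (H v hv.l hv.ne) hx), inner_prj_self,
        ← sum_ite_eq_cnt]
      refine Finset.sum_congr rfl fun z _ => ?_
      split_ifs with hz
      · rw [h.norm_inner_eq hQ hU hn hv hx hz ha, Pi.one_apply, one_mul]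
      · rfl
  have h3 := key v v' hv hx haO
  have h4 := key v' v hv.symm (fun g h1 h2 => hx g h2 h1) (hOO ▸ haO)
  set A := ‖⟪wv (oWt ρ ψ v a), x⟫_ℂ‖ with hA
  have hA0 : 0 < A := (norm_nonneg _).lt_of_ne' fun h0 => hx0 (by
    rw [show A = 0 from h0] at h3; simpa using h3)
  have h5 : (‖⟪wv (oWt ρ ψ v' a), x⟫_ℂ‖ : ℂ) ^ 2 = (A : ℂ) ^ 2 := by
    rw [hOO, h3] at h4
    exact (mul_left_cancel₀ (left_ne_zero_of_mul (h3 ▸ inner_self_ne_zero.2 hx0)) h4).symm
  obtain ⟨e, he⟩ : ∃ e, finrank F (pp Q v' v) = e + 3 + 2 := ⟨finrank F V - 7, by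
    rw [pp_comm]; omega⟩
  have h6 : ⟪x, (1 - ρ (oE Q a v')) x⟫_ℂ = Nat.card F ^ (e + 3 + 1) * (A : ℂ) ^ 2 := by
    rw [show oE Q a v' = oE Q v' (-a) from Subtype.ext (eich_swap hv.r ha1 hv'a),
      h.one_sub hQ hψ hU hv.symm (by rw [polar_neg_right, hv'a, neg_zero]), inner_prj_self,
      ← sum_OO (c := 0) (a := -a) (a' := -a') hQ hψ ⟨by rwa [o_qneg], by rwa [o_qneg],
        by rw [polar_neg_left, polar_neg_right, neg_neg, h2]⟩ (neg_mem (mem_pp.2 ⟨hv'a, hva⟩))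
        (neg_mem (mem_pp.2 ⟨hv'a', hva'⟩)) he, Finset.sum_mul]
    refine Finset.sum_congr rfl fun z _ => ?_
    split_ifs with hz
    · rw [h.norm_inner_eq hQ hU hn hv.symm (fun g h1 h2 => hx g h2 h1) hz (hOO ▸ haO), h5]
    · rw [zero_mul]
  have hc := cnt_span_ne (F := F) ha0
  have h7 : ∀ w, OO Q 0 a a' w → w ∈ Submodule.span F {v} →
      ‖⟪wv (oWt ρ ψ a w), x⟫_ℂ‖ ≤ (Nat.card F - 1) * A := fun w hw hwv => by
    rw [← h.prj_eq_self hQ hψ hU hv (H v hv.l hv.ne) hx, inner_prj, ← hc]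
    push_cast
    rw [add_sub_cancel_right]
    refine norm_sum_le_cnt _ _ (fun z _ => ?_) fun z hz => ?_
    · split_ifs with hz
      · rw [Pi.one_apply, one_mul, norm_mul, h.norm_inner_eq hQ hU hn hv hx hz haO]
        refine mul_le_of_le_one_right hA0.le ((norm_inner_le_norm _ _).trans_eq ?_)
        rw [norm_wv (h.one ha hw), norm_wv (h.one hv hz), mul_one]
      · rw [norm_zero]; exact hA0.le
    split_ifs with hzO
    swap; · rfl
    obtain ⟨u, h7, h8⟩ := exists_psi_ne hQ hψ (T := Submodule.span F {v, a}) (z := z) fun h7 => by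
      obtain ⟨s, t, rfl⟩ := Submodule.mem_span_pair.1 h7
      have h8 := (mem_pp.1 hzO.1.1).2
      simp only [oexp, hv.p', hv'a, mul_one, mul_zero, add_zero] at h8
      exact hz ⟨Submodule.mem_span_singleton.2 ⟨t, by simp [h8]⟩, hzO.2⟩
    have h9 := h7 v (Submodule.subset_span (by simp))
    obtain ⟨c, rfl⟩ := Submodule.mem_span_singleton.1 hwv
    rw [Ch.unitary_inner_eq_zero (hU (oE Q v u)) (a := 1) ((fix_of_fix hQ hn hp ha1 ha0 hw.1.2
      (mem_pp.1 hw.1.1).1 (fun h => hw.2 (ha.eq_zero (mem_pp.1 hw.1.1).2 h)) (h.one ha hw).le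
      (wv_mem _) _ (eich_app_of_polar ((polar_comm Q _ _).trans hva)
        (h7 a (Submodule.subset_span (by simp)))) ((map_smul _ _ _).trans
        (congrArg (c • ·) (eich_app_self _ _)))).trans (one_smul _ _).symm)
      (mem_oWt.1 (wv_mem _) u h9) h8.symm, mul_zero, mul_zero]
  have h8 : ‖⟪x, (1 - ρ (oE Q a v')) x⟫_ℂ‖ ≤ (Nat.card F - 1) * (2 * ((Nat.card F - 1) * A) ^ 2) := by
    rw [h.one_sub hQ hψ hU ha ((polar_comm Q _ _).trans hv'a), inner_prj_self]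
    have hc' := cnt_span_ne (F := F) hv0
    refine (norm_sum_le_cnt (fun w => w ∈ Submodule.span F {v} ∧ w ≠ 0) _
      (B := 2 * ((Nat.card F - 1) * A) ^ 2) (fun w hw => ?_) fun w hw => ?_).trans_eq
      (congrArg₂ _ (by rw [← hc']; push_cast; rw [add_sub_cancel_right]) rfl)
    · split_ifs with hwO
      · rw [norm_mul, norm_pow, Complex.norm_real, norm_norm]
        gcongr
        · exact (norm_sub_le _ _).trans_eq (by rw [norm_one, AddChar.norm_apply]; norm_num)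
        · exact h7 w hwO hw.1
      · rw [norm_zero]; positivity
    split_ifs with hwO
    swap; · rfl
    by_cases h8 : w ∈ Submodule.span F {a, v, v'}
    · obtain ⟨r, s, t, rfl⟩ := Submodule.mem_span_triple.1 h8
      have h9 := (mem_pp.1 hwO.1.1).2
      have h10 := hwO.1.2
      simp only [oexp, ha.p', polar_comm Q a' v, polar_comm Q a' v', hva', hv'a', mul_one, mul_zero,
        add_zero] at h9
      simp only [oexp, h9, hv.l, hv.r, hv.p, ha1, mul_one, mul_zero, add_zero, zero_add, zero_mul,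
        mul_eq_zero] at h10
      rcases h10 with h10 | h10
      · exact (hw ⟨Submodule.mem_span_singleton.2 ⟨s, by simp [h9, h10]⟩, hwO.2⟩).elim
      · simp [h9, h10, hv.r]
    · obtain ⟨u, h9, h10⟩ := exists_psi_ne hQ hψ h8
      rw [Ch.unitary_inner_eq_zero (hU (oE Q a u)) (b := 1)
        (mem_oWt.1 (wv_mem _) u (h9 a (Submodule.subset_span (by simp))))
        ((hx _ (eich_app_of_polar hva (h9 v (Submodule.subset_span (by simp))))
          (eich_app_of_polar hv'a (h9 v' (Submodule.subset_span (by simp))))).trans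
          (one_smul _ _).symm) h10]
      simp
  rw [h6, norm_mul, norm_pow, norm_pow, Complex.norm_natCast, Complex.norm_real,
    Real.norm_of_nonneg hA0.le] at h8
  have h9 : (2 : ℝ) ≤ Nat.card F := by exact_mod_cast Finite.one_lt_card
  generalize (Nat.card F : ℝ) = q at h8 h9
  have h10 : q ^ 4 ≤ q ^ (e + 3 + 1) := pow_le_pow_right₀ (by linarith) (by omega)
  have h11 : q ^ 4 * A ^ 2 ≤ 2 * (q - 1) ^ 3 * A ^ 2 := by nlinarith [sq_nonneg A]
  have h12 := le_of_mul_le_mul_right h11 (by positivity)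
  have h13 : 2 * q ^ 3 ≤ q ^ 4 := by nlinarith [pow_pos (show 0 < q by linarith) 3]
  have h14 : (q - 1) ^ 3 < q ^ 3 := by gcongr <;> linarith
  linarith

end Cfsg.Agent.Cl.RO
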