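import Mathlib
import Cfsg.Agent.Cl.RepOc
import Cfsg.Agent.Cl.WeilCount
import Cfsg.Agent.Ch.Kernel

/-!
The degree of an irreducible representation of `Ω` with singular weights of multiplicity one.
-/

set_option autoImplicit false
set_option linter.unusedSectionVars false

namespace Cfsg.Agent.Cl.RO

open Module QuadraticMap MaxO Classical
open scoped InnerProductSpace ComplexConjugate

variable {F V : Type*} [Field F] [AddCommGroup V] [Module F V] {Q : QuadraticForm F V}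
  {E : Type*} [NormedAddCommGroup E] [InnerProductSpace ℂ E] {ρ : Representation ℂ (EO Q) E}
  {ψ : AddChar F ℂ}

variable (ρ) in
/-- Equivariant families of unit vectors indexed by the singular vectors. -/
structure Fr (d : V → E) : Prop where
  map : ∀ g x, ρ g (d x) = d (g.1.1 x)
  norm : ∀ x, Q x = 0 → x ≠ 0 → ‖d x‖ = 1
  zero : ∀ x, ¬ (Q x = 0 ∧ x ≠ 0) → d x = 0

theorem Fr.inner_self {d : V → E} (h : Fr ρ d) {x : V} (h1 : Q x = 0) (h2 : x ≠ 0) :
    ⟪d x, d x⟫_ℂ = 1 := by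
  rw [inner_self_eq_norm_sq_to_K, h.norm x h1 h2]; simp

variable [Fintype V] [Fintype F] [FiniteDimensional F V] [FiniteDimensional ℂ E]

theorem cnt_OO_mul {v v' : V} (hv : Hyp Q v v') : cnt (OO Q 0 v v') * Nat.card F =
    cnt fun y => (Q y = 0 ∧ polar Q v y = 0) ∧ y ∉ Submodule.span F {v} := by
  refine Eq.trans ?_ (card_fibre (fun y => (Q y = 0 ∧ polar Q v y = 0) ∧ y ∉ Submodule.span F {v})
    (polar Q v') (fun _ => 1) v (fun x t hx => ⟨⟨by
      simp only [oexp, hv.l, hx.1.1, polar_comm Q x v, hx.1.2]; ring, by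
      simp only [oexp, hv.l, hx.1.2]; ring⟩, fun h => hx.2 ((Submodule.add_mem_iff_left _
        (Submodule.smul_mem _ _ (Submodule.mem_span_singleton_self v))).1 h)⟩)
    (fun x t _ => by simp only [oexp, hv.p']) (fun _ _ => one_ne_zero) (fun _ _ _ => rfl) 0)
  refine congrArg₂ _ (cnt_congr fun x => ?_) rfl
  rw [OO, mem_pp]
  exact ⟨fun h => ⟨⟨⟨h.1.2, h.1.1.1⟩, fun h1 => h.2 (hv.eq_zero h.1.1.2 h1)⟩, h.1.1.2⟩,
    fun h => ⟨⟨⟨h.1.1.2, h.2⟩, h.1.1.1⟩, fun h1 => h.1.2 (h1 ▸ zero_mem _)⟩⟩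

theorem cnt_opp {v v' : V} (hv : Hyp Q v v') {e : ℕ} (he : finrank F V = e + 2) {b : F}
    (hb : b ≠ 0) : cnt (fun y => (Q y = 0 ∧ polar Q v y ≠ 0) ∧ polar Q v y = b) = Nat.card F ^ e := by
  refine Nat.eq_of_mul_eq_mul_right (pow_pos (Nat.card_pos (α := F)) 2) ?_
  rw [← pow_add, ← he, ← finrank_top, ← cnt_mem,
    ← hv.cnt_polar_norm Submodule.mem_top Submodule.mem_top hb 0]
  exact congrArg₂ _ (cnt_congr fun x => ⟨fun h => ⟨⟨trivial, h.1.1⟩, h.2⟩,
    fun h => ⟨⟨h.1.2, h.2 ▸ hb⟩, h.2⟩⟩) rfl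

theorem cnt_ker {v v' : V} (hv : Hyp Q v v') {e : ℕ} (he : finrank F V = e + 1) :
    cnt (fun u => polar Q v u = 0) = Nat.card F ^ e := by
  refine Nat.eq_of_mul_eq_mul_right (Nat.card_pos (α := F)) ?_
  rw [← pow_succ, ← he, ← finrank_top, ← cnt_mem, ← cnt_polar Submodule.mem_top hv.p 0]
  exact congrArg₂ _ (cnt_congr fun x => by simp) rfl

/-- Sums over the singular vectors. -/
theorem sum_sing {v v' : V} (hv : Hyp Q v v') {e : ℕ} (he : finrank F V = e + 2) (f : V → ℂ)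
    (h0 : ∀ y, ¬ (Q y = 0 ∧ y ≠ 0) → f y = 0) {β : ℂ} {γ : F → ℂ}
    (h1 : ∀ y, Q y = 0 → polar Q v y = 0 → y ∉ Submodule.span F {v} → f y = β)
    (h2 : ∀ y, Q y = 0 → polar Q v y ≠ 0 → f y = γ (polar Q v y)) :
    ∑ y, f y = ∑ c : Fˣ, f (c • v) + cnt (OO Q 0 v v') * Nat.card F * β +
      Nat.card F ^ e * ∑ c : Fˣ, γ c := by
  have h3 : ∑ c : Fˣ, f (c • v) =
      ∑ y, if y ∈ Submodule.span F {v} ∧ y ≠ 0 then f y else 0 := by
    rw [← Finset.sum_filter]
    refine Finset.sum_bij (fun c _ => c • v) (fun c _ => Finset.mem_filter.2 ⟨Finset.mem_univ _,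
      Submodule.smul_mem _ c.1 (Submodule.mem_span_singleton_self v), smul_ne_zero c.ne_zero hv.ne⟩)
      (fun a _ b _ h => Units.ext (smul_left_injective F hv.ne h)) (fun y hy => ?_) fun _ _ => rfl
    obtain ⟨c, rfl⟩ := Submodule.mem_span_singleton.1 (Finset.mem_filter.1 hy).2.1
    exact ⟨Units.mk0 c (left_ne_zero_of_smul (Finset.mem_filter.1 hy).2.2), Finset.mem_univ _, rfl⟩
  have h4 : Nat.card F ^ e * ∑ c : Fˣ, γ c =
      ∑ y, if Q y = 0 ∧ polar Q v y ≠ 0 then γ (polar Q v y) else 0 := by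
    rw [sum_ite_comp, Finset.mul_sum, ← Finset.sum_erase_add _ _ (Finset.mem_univ (0 : F)),
      cnt_congr (R := fun _ => False) fun x => by tauto, show cnt (fun _ : V => False) = 0 by simp [cnt],
      Nat.cast_zero, zero_mul, add_zero]
    refine Finset.sum_bij (fun c _ => c.1) (fun c _ => by simp) (fun a _ b _ h => Units.ext h)
      (fun y hy => ⟨Units.mk0 y (Finset.ne_of_mem_erase hy), Finset.mem_univ _, rfl⟩) fun c _ => ?_
    rw [cnt_opp hv he c.ne_zero, Nat.cast_pow]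
  rw [h3, h4, ← Nat.cast_mul, cnt_OO_mul hv, ← sum_ite_eq_cnt, ← Finset.sum_add_distrib,
    ← Finset.sum_add_distrib]
  refine Finset.sum_congr rfl fun y _ => ?_
  by_cases h5 : Q y = 0 ∧ y ≠ 0
  · by_cases h6 : y ∈ Submodule.span F {v}
    · obtain ⟨c, rfl⟩ := Submodule.mem_span_singleton.1 h6
      have h7 : polar Q v (c • v) = 0 := by simp only [oexp, hv.l]; ring
      simp [h6, h5.2, h7]
    · by_cases h7 : polar Q v y = 0
      · simp [h6, h5.1, h7, h1 y h5.1 h7 h6]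
      · simp [h6, h5.1, h7, h2 y h5.1 h7]
  · rw [h0 y h5]
    by_cases h6 : y = 0
    · simp [h6]
    · simp [show Q y ≠ 0 from fun h => h5 ⟨h, h6⟩]

variable (hQ : (polarBilin Q).Nondegenerate) (hU : ∀ g y, ‖ρ g y‖ = ‖y‖)
include hQ hU

theorem exists_fr (hn : 5 ≤ finrank F V) {v : V} {y : E} (hv : Q v = 0) (h0 : v ≠ 0) (hy : y ≠ 0)
    (h : ∀ g : EO Q, g.1.1 v = v → ρ g y = y) : ∃ d, Fr ρ d := by
  have key : ∀ g k : EO Q, g.1.1 v = k.1.1 v → ρ g y = ρ k y := fun g k h1 => by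
    conv_rhs => rw [← h (k⁻¹ * g) ((OG.inv_app_eq_iff k.1).2 h1)]
    rw [← Module.End.mul_apply, ← map_mul, mul_inv_cancel_left]
  refine ⟨fun x => if h : ∃ g : EO Q, g.1.1 v = x then (‖y‖⁻¹ : ℂ) • ρ h.choose y else 0,
    fun g x => ?_, fun x h1 h2 => ?_, fun x hx => dif_neg ?_⟩
  · by_cases h1 : ∃ k : EO Q, k.1.1 v = x
    · have h2 : ∃ k : EO Q, k.1.1 v = g.1.1 x := ⟨g * h1.choose, congrArg g.1.1 h1.choose_spec⟩
      rw [dif_pos h1, dif_pos h2, map_smul, ← Module.End.mul_apply, ← map_mul,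
        key _ h2.choose ((congrArg g.1.1 h1.choose_spec).trans h2.choose_spec.symm)]
    · rw [dif_neg h1, map_zero, dif_neg]
      exact fun ⟨k, hk⟩ => h1 ⟨g⁻¹ * k, (OG.inv_app_eq_iff g.1).2 hk⟩
  · rw [dif_pos (exists_map hQ hn h0 h2 (hv.trans h1.symm)), norm_smul, hU, norm_inv,
      Complex.norm_real, norm_norm, inv_mul_cancel₀ (norm_ne_zero_iff.2 hy)]
  · rintro ⟨g, rfl⟩
    exact hx ⟨by rwa [OG.map_app], OG.app_ne_zero _ h0⟩

theorem Fr.cases (hn : 5 ≤ finrank F V) {d : V → E} (h : Fr ρ d) :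
    (∀ x, ∑ c : Fˣ, d (c • x) = 0) ∨ ∃ d, Fr ρ d ∧ ∀ (c : Fˣ) x, d (c • x) = d x := by
  refine or_iff_not_imp_left.2 fun H => ?_
  push Not at H
  obtain ⟨v, hv⟩ := H
  have h1 : ∀ g x, ρ g (∑ c : Fˣ, d (c • x)) = ∑ c : Fˣ, d (c • g.1.1 x) := fun g x => by
    rw [map_sum]
    exact Finset.sum_congr rfl fun c _ => by rw [h.map, Units.smul_def, map_smul, Units.smul_def]
  have h2 : ∀ x, ¬ (Q x = 0 ∧ x ≠ 0) → ∑ c : Fˣ, d (c • x) = 0 := fun x hx =>
    Finset.sum_eq_zero fun c _ => h.zero _ fun h3 => hx ⟨by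
      simpa [Units.smul_def, o_qsmul] using h3.1, right_ne_zero_of_smul h3.2⟩
  have h3 : Q v = 0 ∧ v ≠ 0 := by_contra fun h3 => hv (h2 v h3)
  refine ⟨fun x => (‖∑ c : Fˣ, d (c • v)‖⁻¹ : ℂ) • ∑ c : Fˣ, d (c • x),
    ⟨fun g x => by rw [map_smul, h1], fun x h4 h5 => ?_, fun x hx => by rw [h2 x hx, smul_zero]⟩,
    fun c x => congrArg _ (Fintype.sum_equiv (Equiv.mulRight c) _ _ fun a => by simp [mul_smul])⟩
  obtain ⟨g, rfl⟩ := exists_map hQ hn h3.2 h5 (h3.1.trans h4.symm)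
  rw [← h1, norm_smul, hU, norm_inv, Complex.norm_real, norm_norm,
    inv_mul_cancel₀ (norm_ne_zero_iff.2 hv)]

omit hQ in
theorem Fr.frame (hρ : ρ.IsIrreducible) {d : V → E} (h : Fr ρ d) :
    ∃ l : ℂ, (∀ T : Module.End ℂ E, ∑ x, ⟪d x, T (d x)⟫_ℂ = l * LinearMap.trace ℂ E T) ∧
      ∀ y, Q y = 0 → y ≠ 0 → ∑ x, (‖⟪d y, d x⟫_ℂ‖ : ℂ) ^ 2 = l := by
  obtain ⟨l, hl⟩ := Ch.exists_eq_smul_of_commute ρ (∑ x, rk (d x)) fun g => by
    rw [Finset.mul_sum, Finset.sum_mul]
    refine (Fintype.sum_equiv g.1.1.toEquiv _ _ fun x => LinearMap.ext fun y => ?_).symm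
    simp only [Module.End.mul_apply, rk_apply, map_smul, LinearEquiv.coe_toEquiv, ← h.map,
      rep_inner hU]
  refine ⟨l, fun T => ?_, fun y h1 h2 => ?_⟩
  · have := congrArg (fun X => LinearMap.trace ℂ E (T * X)) hl
    simp only [Finset.mul_sum, map_sum, trace_mul_rk, mul_smul_comm, map_smul, smul_eq_mul] at this
    exact this
  · have := congrArg (fun X : Module.End ℂ E => ⟪d y, X (d y)⟫_ℂ) hl
    simp only [LinearMap.sum_apply, inner_sum, rk_apply, inner_smul_right, LinearMap.smul_apply,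
      LinearMap.id_apply, h.inner_self h1 h2, mul_one] at this
    rw [← this]
    refine Finset.sum_congr rfl fun x _ => ?_
    rw [← inner_conj_symm (d x), mul_comm, Complex.mul_conj, Complex.normSq_eq_norm_sq,
      Complex.ofReal_pow]

/-- The equations satisfied by the inner products. -/
theorem SW.eqs (h : SW ρ ψ 0) (hψ : ψ ≠ 1) (hρ : ρ.IsIrreducible) (hE : finrank ℂ E ≠ 1) {e : ℕ}
    (he : finrank F V = e + 4) (he3 : 3 ≤ e) {d : V → E} (hd : Fr ρ d) {v v' : V}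
    (hv : Hyp Q v v') : ∃ (β : ℂ) (γ : F → ℂ),
      (∀ x y, Q x = 0 → x ≠ 0 → Q y = 0 → polar Q x y = 0 → y ∉ Submodule.span F {x} →
        ⟪d x, d y⟫_ℂ = β) ∧
      (∀ x y, Q x = 0 → Q y = 0 → polar Q x y ≠ 0 → ⟪d x, d y⟫_ℂ = γ (polar Q x y)) ∧
      finrank ℂ E * ((Nat.card F ^ 2 - 1) * (1 - β)) = cnt (fun x => Q x = 0 ∧ x ≠ 0) ∧
      (Nat.card F ^ 2 - 1) * (1 - β) * (Nat.card F * cnt (OO Q 0 v v')) =
        2 * (cnt (OO Q 0 v v') * Nat.card F) * (Nat.card F - 1) * (1 - β) + ∑ b : Fˣ, ∑ u,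
          (if polar Q v u = 0 ∧ Q u ≠ 0 then 1 - γ (-(b : F) ^ 2 * Q u) else 0) ∧
      ∑ c : Fˣ, ⟪d v, d (c • v)⟫_ℂ + cnt (OO Q 0 v v') * Nat.card F * β +
        Nat.card F ^ (e + 2) * ∑ c : Fˣ, γ c = 0 ∧
      ∑ c : Fˣ, (‖⟪d v, d (c • v)⟫_ℂ‖ : ℂ) ^ 2 + cnt (OO Q 0 v v') * Nat.card F * (‖β‖ : ℂ) ^ 2 +
        Nat.card F ^ (e + 2) * ∑ c : Fˣ, (‖γ c‖ : ℂ) ^ 2 = (Nat.card F ^ 2 - 1) * (1 - β) := by
  have h1 := hv.finrank_pp hQ
  obtain ⟨a, haS, ha0, ha1⟩ := exists_singular_mem (Q := Q) (S := pp Q v v') (by omega)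
  obtain ⟨a', haS', h2, h3⟩ := (hv.nd_pp hQ).exists_partner haS ha0 ha1
  have ha : Hyp Q a a' := ⟨ha1, h2, h3⟩
  obtain ⟨hva, hv'a⟩ := mem_pp.1 haS
  have hi : a ∉ Submodule.span F {v} := fun h => ha0 (hv.eq_zero hv'a h)
  set β := ⟪d v, d a⟫_ℂ
  let γ : F → ℂ := fun c => ⟪d v, d (c • v')⟫_ℂ
  have hβ : ∀ x y, Q x = 0 → x ≠ 0 → Q y = 0 → polar Q x y = 0 → y ∉ Submodule.span F {x} →
      ⟪d x, d y⟫_ℂ = β := fun x y h1 h2 h3 h4 h5 => by
    obtain ⟨g, rfl, rfl⟩ := exists_map_perp hQ (by omega) hv.l hv.ne h1 h2 hva h4 hi h5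
      (ha1.trans h3.symm)
    rw [← hd.map, ← hd.map, rep_inner hU]
  have hγ : ∀ x y, Q x = 0 → Q y = 0 → polar Q x y ≠ 0 → ⟪d x, d y⟫_ℂ = γ (polar Q x y) :=
    fun x y h1 h2 h3 => by
      obtain ⟨g, h4, h5⟩ := exists_map_pair hQ (by omega) h1 hv.l (y' := polar Q x y • v')
        (by rw [h2, o_qsmul, hv.r, mul_zero]) (by rw [o_polar_smul_right, hv.p, mul_one]) h3
      rw [← rep_inner hU g, hd.map, hd.map, h4, h5]
  obtain ⟨l, hl, hl'⟩ := hd.frame hU hρ
  have hq : (Nat.card F : ℂ) ≠ 0 := Nat.cast_ne_zero.2 Nat.card_pos.ne'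
  have hq1 : 1 ≤ Nat.card F := Nat.card_pos
  have h4 : l = (Nat.card F ^ 2 - 1) * (1 - β) := by
    have h4 := hl (1 - ρ (oE Q v a))
    have h5 := cnt_not_perp (S := ⊤) hv ha trivial trivial trivial trivial hva (mem_pp.1 haS').1 0
    rw [h.trace_root hQ hψ hU he hv.l hv.ne ha1 hva hi, Finset.sum_congr rfl (g := fun x =>
      if (x ∈ (⊤ : Submodule F V) ∧ Q x = 0) ∧ ¬ (polar Q v x = 0 ∧ polar Q a x = 0) then 1 - β
      else 0) fun x _ => ?_, sum_ite_eq_cnt] at h4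
    · rw [cnt_mem, finrank_top, he] at h5
      have h6 := congrArg (Nat.cast (R := ℂ)) h5
      push_cast [Nat.cast_sub (Nat.one_le_pow 2 _ hq1)] at h6
      refine mul_right_cancel₀ (pow_ne_zero (e + 4) hq) ?_
      linear_combination (1 - β) * h6 - (Nat.card F : ℂ) ^ 3 * h4
    rw [LinearMap.sub_apply, hd.map, inner_sub_right, Module.End.one_apply]
    split_ifs with hx
    · have h6 : x ≠ 0 := by rintro rfl; simp at hx
      rw [hd.inner_self hx.1.2 h6, hβ x _ hx.1.2 h6 (by rw [OG.map_app, hx.1.2]) (by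
        simp only [oE_val, eich_app hv.l hva, oexp, hx.1.2, ha1]; ring) fun h7 => hx.2 ?_]
      obtain ⟨c, hc⟩ := Submodule.mem_span_singleton.1 h7
      rw [oE_val, eich_app hv.l hva, ha1, zero_mul, add_zero, polar_comm Q x, polar_comm Q x] at hc
      have h8 := congrArg (polar Q v) hc
      have h9 := congrArg (polar Q a) hc
      have h10 := congrArg (polar Q v') hc
      have h11 := congrArg (polar Q a') hc
      simp only [oexp, hv.l, ha1, hva, polar_comm Q a v, hv.p', ha.p', hv'a, polar_comm Q a' v,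
        (mem_pp.1 haS').1] at h8 h9 h10 h11
      by_cases h12 : c = 1
      · subst h12
        exact ⟨by linear_combination -h11, by linear_combination h10⟩
      · exact ⟨mul_left_cancel₀ (sub_ne_zero.2 h12) (by linear_combination h8),
          mul_left_cancel₀ (sub_ne_zero.2 h12) (by linear_combination h9)⟩
    · by_cases h6 : Q x = 0
      · have h7 : polar Q v x = 0 ∧ polar Q a x = 0 := by tauto
        rw [oE_val, eich_app_of_polar ((polar_comm Q _ _).trans h7.1)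
          ((polar_comm Q _ _).trans h7.2), sub_self]
      · simp [hd.zero x fun h => h6 h.1]
  refine ⟨β, γ, hβ, hγ, ?_, ?_, ?_, ?_⟩
  · rw [← h4, mul_comm, ← LinearMap.trace_one, ← hl, ← mul_one (cnt _ : ℂ), ← sum_ite_eq_cnt]
    refine Finset.sum_congr rfl fun x _ => ?_
    split_ifs with hx
    · exact hd.inner_self hx.1 hx.2
    · simp [hd.zero x hx]
  · have h5 := hl (∑ u, if polar Q v u = 0 then 1 - ρ (oE Q v u) else 0)
    conv_rhs at h5 => rw [h.sum_one_sub hQ hψ hU hv, map_smul, h.trace_prj hv]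
    simp only [Pi.one_apply] at h5
    rw [sum_ite_eq_cnt, cnt_ker hv (e := e + 3) he, sum_sing hv (e := e + 2) he _
      (fun y hy => by simp [hd.zero y hy]) (β := (Nat.card F - 1) * Nat.card F ^ (e + 2) * (1 - β))
      (γ := fun b => cnt (OO Q 0 v v') * Nat.card F * (1 - β) +
        ∑ u, if polar Q v u = 0 ∧ Q u ≠ 0 then 1 - γ (-b ^ 2 * Q u) else 0) (fun y h6 h7 h8 => ?_)
      (fun y h6 h7 => ?_), Finset.sum_eq_zero fun c _ => ?_, Finset.sum_add_distrib,
      Finset.sum_const, Finset.card_univ, Fintype.card_units, ← Nat.card_eq_fintype_card, h4,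
      nsmul_eq_mul, smul_eq_mul] at h5
    · push_cast [Nat.cast_sub hq1] at h5
      refine mul_right_cancel₀ (pow_ne_zero (e + 2) hq) ?_
      linear_combination -h5
    · rw [LinearMap.sum_apply, inner_sum]
      refine Finset.sum_eq_zero fun u _ => ?_
      split_ifs
      · rw [LinearMap.sub_apply, hd.map, Units.smul_def, map_smul, oE_val, eich_app_self,
          Module.End.one_apply, sub_self, inner_zero_right]
      · simp
    · have h9 : y ≠ 0 := by rintro rfl; exact h8 (zero_mem _)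
      obtain ⟨z, h10, h11⟩ := o_exists_dual hQ h8 1
      have h12 := cnt_polar_ne (S := LinearMap.ker (polarBilin Q v))
        (h11 v (Submodule.mem_span_singleton_self v)) h10
      rw [show cnt (fun x => x ∈ LinearMap.ker (polarBilin Q v)) = _ from
        cnt_ker hv (e := e + 3) he, pow_succ, ← mul_assoc] at h12
      have h13 := congrArg (Nat.cast (R := ℂ)) (Nat.eq_of_mul_eq_mul_right Nat.card_pos h12)
      push_cast [Nat.cast_sub hq1] at h13
      rw [← h13, ← sum_ite_eq_cnt, LinearMap.sum_apply, inner_sum]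
      refine Finset.sum_congr rfl fun u _ => ?_
      by_cases hu : polar Q v u = 0
      swap; · rw [if_neg hu, if_neg fun h => hu h.1]; simp
      rw [if_pos hu, LinearMap.sub_apply, hd.map, oE_val, eich_app_of_polar_left hv.l hu
        ((polar_comm Q _ _).trans h7), inner_sub_right, Module.End.one_apply]
      by_cases h14 : polar Q y u = 0
      · rw [if_neg fun h => h.2 h14, h14, zero_smul, sub_zero, sub_self]
      · rw [if_pos ⟨hu, h14⟩, hd.inner_self h6 h9, hβ y _ h6 h9 (by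
          simp only [oexp, h6, hv.l, polar_comm Q y v, h7]; ring) (by
          simp only [oexp, h6, polar_comm Q y v, h7]; ring) fun h15 =>
          notMem_span_symm hv.ne h8 ((Submodule.smul_mem_iff _ h14).1
            ((Submodule.sub_mem_iff_right _ (Submodule.mem_span_singleton_self y)).1 h15))]
    · have h9 : y ≠ 0 := o_ne_zero_of_polar_right h7
      rw [← Nat.cast_mul, cnt_OO_mul hv, ← sum_ite_eq_cnt, ← Finset.sum_add_distrib,
        LinearMap.sum_apply, inner_sum]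
      refine Finset.sum_congr rfl fun u _ => ?_
      by_cases hu : polar Q v u = 0
      swap; · simp [hu]
      have h10 : polar Q y ((eich Q v u).1 y) = -polar Q v y ^ 2 * Q u := by
        simp only [eich_app hv.l hu, oexp, h6, polar_comm Q y v]; ring
      rw [if_pos hu, LinearMap.sub_apply, hd.map, oE_val, inner_sub_right, Module.End.one_apply]
      by_cases h11 : Q u = 0
      · rw [if_neg (show ¬ (polar Q v u = 0 ∧ Q u ≠ 0) from fun h => h.2 h11), add_zero]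
        by_cases h12 : u ∈ Submodule.span F {v}
        · obtain ⟨c, rfl⟩ := Submodule.mem_span_singleton.1 h12
          rw [if_neg fun h => h.2 h12, eich_smul_self, OG.one_app, sub_self]
        rw [if_pos ⟨⟨h11, hu⟩, h12⟩, hd.inner_self h6 h9, hβ y _ h6 h9 (by rw [OG.map_app, h6])
          (by rw [h10, h11, mul_zero]) fun h13 => h12 ?_]
        obtain ⟨c, hc⟩ := Submodule.mem_span_singleton.1 h13
        rw [eich_app hv.l hu, polar_comm Q y v] at hc
        have h14 := congrArg (polar Q v) hc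
        simp only [oexp, hv.l, hu] at h14
        obtain rfl : c = 1 := mul_right_cancel₀ h7 (by linear_combination h14)
        exact (Submodule.smul_mem_iff _ h7).1 (Submodule.mem_span_singleton.2
          ⟨_, by rw [one_smul, add_sub_assoc, left_eq_add, sub_eq_zero] at hc; exact hc.symm⟩)
      · rw [if_neg fun h => h11 h.1.1, if_pos ⟨hu, h11⟩, zero_add, hd.inner_self h6 h9,
          hγ y _ h6 (by rw [OG.map_app, h6]) (by rw [h10]; simp [h7, h11]), h10]
  · rw [← sum_sing hv he (fun y => ⟪d v, d y⟫_ℂ) (fun y hy => by simp [hd.zero y hy])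
      (fun y => hβ v y hv.l hv.ne) fun y => hγ v y hv.l, ← inner_sum,
      rep_fix_eq_zero hρ hE (∑ y, d y) fun g => by
        rw [map_sum]; exact Fintype.sum_equiv g.1.1.toEquiv _ _ fun x => hd.map g x,
      inner_zero_right]
  · rw [← h4, ← hl' v hv.l hv.ne, sum_sing hv he (fun y => (‖⟪d v, d y⟫_ℂ‖ : ℂ) ^ 2)
      (γ := fun c => (‖γ c‖ : ℂ) ^ 2) (fun y hy => by simp [hd.zero y hy])
      (fun y h1 h2 h3 => by rw [hβ v y hv.l hv.ne h1 h2 h3]) fun y h1 h2 => by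
        rw [hγ v y hv.l h1 h2]]

end Cfsg.Agent.Cl.RO
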