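import Mathlib
import Cfsg.Agent.Cl.RepOd
import Cfsg.Agent.FT.LiftRep

/-!
Lower bounds for the degrees of the complex representations of `Ω`.
-/

set_option autoImplicit false
set_option linter.unusedSectionVars false

namespace Cfsg.Agent.Cl.RO

open Module QuadraticMap MaxO Classical
open scoped InnerProductSpace ComplexConjugate commutatorElement

variable {F V : Type*} [Field F] [AddCommGroup V] [Module F V] {Q : QuadraticForm F V}
  {E : Type*} [NormedAddCommGroup E] [InnerProductSpace ℂ E] {ρ : Representation ℂ (EO Q) E}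
  {ψ : AddChar F ℂ} [Fintype V] [Fintype F] [FiniteDimensional F V] [FiniteDimensional ℂ E]

theorem sum_units_const (a : ℂ) : ∑ _c : Fˣ, a = (Nat.card F - 1) * a := by
  rw [Finset.sum_const, Finset.card_univ, Fintype.card_units, ← Nat.card_eq_fintype_card,
    nsmul_eq_mul, Nat.cast_sub (Nat.card_pos (α := F)), Nat.cast_one]

theorem cnt_sing {v v' : V} (hv : Hyp Q v v') {e : ℕ} (he : finrank F V = e + 2) :
    (cnt (fun x => Q x = 0 ∧ x ≠ 0) : ℂ) = (Nat.card F - 1) + cnt (OO Q 0 v v') * Nat.card F +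
      Nat.card F ^ e * (Nat.card F - 1) := by
  have h := sum_sing hv he (fun y => if Q y = 0 ∧ y ≠ 0 then 1 else 0) (fun y hy => if_neg hy)
    (β := 1) (γ := fun _ => 1) (fun y h1 _ h3 => if_pos ⟨h1, by rintro rfl; exact h3 (zero_mem _)⟩)
    fun y h1 h2 => if_pos ⟨h1, o_ne_zero_of_polar_right h2⟩
  rw [sum_ite_eq_cnt, Finset.sum_congr rfl (g := fun _ => 1) fun c _ => if_pos ⟨by
    rw [Units.smul_def, o_qsmul, hv.l, mul_zero], smul_ne_zero c.ne_zero hv.ne⟩,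
    sum_units_const] at h
  linear_combination h

theorem cnt_nonsing {v v' : V} (hv : Hyp Q v v') {e : ℕ} (he : finrank F V = e + 2) :
    (cnt (fun u => polar Q v u = 0 ∧ Q u ≠ 0) : ℂ) =
      Nat.card F * (Nat.card F ^ e - 1 - cnt (OO Q 0 v v')) := by
  have h1 := cnt_split (fun u => polar Q v u = 0) fun u => Q u = 0
  have h2 := cnt_split (fun u => polar Q v u = 0 ∧ Q u = 0) fun u => u ∈ Submodule.span F {v}
  rw [cnt_ker hv (e := e + 1) he, h2, cnt_congr (R := fun u => u ∈ Submodule.span F {v}) fun u =>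
    ⟨fun h => h.2, fun h => ⟨by
      obtain ⟨c, rfl⟩ := Submodule.mem_span_singleton.1 h
      simp only [oexp, hv.l, mul_zero, and_self], h⟩⟩, cnt_span hv.ne,
    cnt_congr (P := fun u => (polar Q v u = 0 ∧ Q u = 0) ∧ u ∉ Submodule.span F {v}) (R := fun y =>
    (Q y = 0 ∧ polar Q v y = 0) ∧ y ∉ Submodule.span F {v}) fun u => by tauto,
    ← cnt_OO_mul hv] at h1
  have h3 := congrArg (Nat.cast (R := ℂ)) h1
  push_cast at h3
  linear_combination -h3

theorem sum_nonsing (hQ : (polarBilin Q).Nondegenerate) {v v' : V} (hv : Hyp Q v v')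
    (he : Even (finrank F V)) (g : F → ℂ) :
    ∑ u, (if polar Q v u = 0 ∧ Q u ≠ 0 then g (Q u) else 0) =
      cnt (fun x => x ∈ pp Q v v' ∧ Q x = 1) * Nat.card F * ∑ c : Fˣ, g c := by
  rw [sum_ite_comp, Finset.mul_sum, ← Finset.sum_erase_add _ _ (Finset.mem_univ (0 : F)),
    cnt_congr (R := fun _ => False) fun x => by tauto, show cnt (fun _ : V => False) = 0 by simp [cnt],
    Nat.cast_zero, zero_mul, add_zero]
  refine (Finset.sum_bij (fun c _ => c.1) (fun c _ => by simp) (fun a _ b _ h => Units.ext h)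
    (fun y hy => ⟨Units.mk0 y (Finset.ne_of_mem_erase hy), Finset.mem_univ _, rfl⟩) fun c _ => ?_).symm
  have h1 := hv.cnt_perp (S := ⊤) trivial c.1
  rw [top_inf_eq, cnt_equi (hv.nd_pp hQ) (by
    rw [← hv.finrank_pp hQ] at he; simpa [Nat.even_add] using he) c.ne_zero] at h1
  rw [← Nat.cast_mul, h1]
  exact congrArg₂ _ (congrArg _ (cnt_congr fun x => ⟨fun h => ⟨⟨h.2, h.1.2 ▸ c.ne_zero⟩, h.1.2⟩,
    fun h => ⟨⟨trivial, h.2⟩, h.1.1⟩⟩)) rfl

theorem exists_hyp_mem {S : Submodule F V} (hS : ND Q S) (h3 : 3 ≤ finrank F S) :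
    ∃ a a', Hyp Q a a' ∧ a ∈ S ∧ a' ∈ S := by
  obtain ⟨a, haS, ha0, ha1⟩ := exists_singular_mem (Q := Q) h3
  obtain ⟨a', haS', h2, h3⟩ := hS.exists_partner haS ha0 ha1
  exact ⟨a, a', ⟨ha1, h2, h3⟩, haS, haS'⟩

theorem cnt_OO_ge (hQ : (polarBilin Q).Nondegenerate) {v v' : V} (hv : Hyp Q v v') {f : ℕ}
    (he : finrank F V = f + 5) (hf : 2 ≤ f) (c : F) :
    (Nat.card F ^ 2 - 1) * Nat.card F ^ f ≤ cnt (OO Q c v v') := by
  have h1 := hv.finrank_pp hQ
  obtain ⟨a, a', ha, h2, h3⟩ := exists_hyp_mem (hv.nd_pp hQ) (by omega)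
  obtain ⟨h4, h5⟩ := Hyp.nd_inf (hv.nd_pp hQ) ha h2 h3
  obtain ⟨b, b', hb, h6, h7⟩ := exists_hyp_mem h4 (by omega)
  have h8 := cnt_not_perp ha hb h2 h3 h6.1 h7.1 (mem_pp.1 h6.2).1 (mem_pp.1 h7.2).1 c
  rw [cnt_mem, show finrank F (pp Q v v') = f + 3 by omega, pow_add, ← mul_assoc] at h8
  rw [← Nat.eq_of_mul_eq_mul_right (pow_pos Nat.card_pos 3) h8]
  exact cnt_mono fun x hx => ⟨hx.1, by rintro rfl; simp at hx⟩

theorem dichotomy (hQ : (polarBilin Q).Nondegenerate) (hψ : ψ ≠ 1)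
    (hρ : ∃ g, ρ g ≠ 1) {f : ℕ} (he : finrank F V = f + 5) (hf : 2 ≤ f) {v v' : V}
    (hv : Hyp Q v v') : 2 * ((Nat.card F ^ 2 - 1) * Nat.card F ^ f) ≤ finrank ℂ E ∨
      ∃ c, SW ρ ψ c ∧ (c ≠ 0 → ∀ t : F, t ≠ 0 → t ^ 2 = 1) := by
  obtain ⟨w, hw, hw0, h1⟩ := exists_oWt_ne_bot hQ (by omega) hψ hρ hv
  have key : ∀ {c z x y}, OO Q c v v' z → Q x = 0 → x ≠ 0 → polar Q x y = 0 →
      y ∉ Submodule.span F {x} → Q y = c → finrank ℂ (oWt ρ ψ x y) = finrank ℂ (oWt ρ ψ v z) :=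
    fun hz h1 h2 h3 h4 h5 => by
      obtain ⟨g, rfl, rfl⟩ := exists_map_perp hQ (by omega) hv.l hv.ne h1 h2 (mem_pp.1 hz.1.1).1 h3
        (fun h => hz.2 (hv.eq_zero (mem_pp.1 hz.1.1).2 h)) h4 (hz.1.2.trans h5.symm)
      exact finrank_oWt_map _ _ _
  have key' : ∀ {c z y}, OO Q c v v' z → OO Q c v v' y →
      finrank ℂ (oWt ρ ψ v y) = finrank ℂ (oWt ρ ψ v z) := fun hz hy =>
    key hz hv.l hv.ne (mem_pp.1 hy.1.1).1 (fun h => hy.2 (hv.eq_zero (mem_pp.1 hy.1.1).2 h)) hy.1.2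
  have hO : OO Q (Q w) v v' w := ⟨⟨hw, rfl⟩, hw0⟩
  have h2 := cnt_OO_ge hQ hv he hf
  have h3 : 1 ≤ finrank ℂ (oWt ρ ψ v w) := Submodule.one_le_finrank_iff.2 h1
  refine or_iff_not_imp_left.2 fun H => ?_
  have h4 : finrank ℂ (oWt ρ ψ v w) = 1 := by
    by_contra h4
    have h5 := cnt_mul_add_le (ρ := ρ) hQ hψ hv (OO Q (Q w) v v') (fun _ h => ⟨h.1.1, h.2⟩) (d := 2)
      fun y hy => by rw [key' hO hy]; omega
    have := h2 (Q w)
    omega
  have h5 : ∀ x y, Q x = 0 → x ≠ 0 → polar Q x y = 0 → y ∉ Submodule.span F {x} →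
      finrank ℂ (oWt ρ ψ x y) = if Q y = Q w then 1 else 0 := fun x y h5 h6 h7 h8 => by
    split_ifs with h9
    · rw [key hO h5 h6 h7 h8 h9, h4]
    obtain ⟨z, hz⟩ : ∃ z, OO Q (Q y) v v' z := by
      have h10 : 1 < Nat.card F ^ 2 := Nat.one_lt_pow two_ne_zero Finite.one_lt_card
      have h11 : 0 < cnt (OO Q (Q y) v v') :=
        (Nat.mul_pos (by omega) (pow_pos Nat.card_pos f)).trans_le (h2 _)
      obtain ⟨z, hz⟩ := (Nat.card_pos_iff.1 h11).1
      exact ⟨z, hz⟩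
    rw [key hz h5 h6 h7 h8 rfl]
    by_contra h10
    have h11 := cnt_mul_add_le (ρ := ρ) hQ hψ hv (fun x => OO Q (Q w) v v' x ∨ OO Q (Q y) v v' x)
      (fun _ h => h.elim (fun h => ⟨h.1.1, h.2⟩) fun h => ⟨h.1.1, h.2⟩) (d := 1)
      fun u hu => hu.elim (fun h => by rw [key' hO h]; omega) fun h => by rw [key' hz h]; omega
    have h12 := cnt_split (fun x => OO Q (Q w) v v' x ∨ OO Q (Q y) v v' x) (OO Q (Q w) v v')
    have h13 := (h2 (Q w)).trans (cnt_mono (R := fun x =>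
      (OO Q (Q w) v v' x ∨ OO Q (Q y) v v' x) ∧ OO Q (Q w) v v' x) fun x hx => ⟨Or.inl hx, hx⟩)
    have h14 := (h2 (Q y)).trans (cnt_mono (R := fun x =>
      (OO Q (Q w) v v' x ∨ OO Q (Q y) v v' x) ∧ ¬ OO Q (Q w) v v' x) fun x hx =>
      ⟨Or.inr hx, fun h => h9 (hx.1.2.symm.trans h.1.2)⟩)
    omega
  refine ⟨Q w, h5, fun h6 t ht => ?_⟩
  have h7 := h5 (t • v) (t • w) (by rw [o_qsmul, hv.l, mul_zero]) (smul_ne_zero ht hv.ne)
    (by simp only [oexp, (mem_pp.1 hw).1, mul_zero]) fun h => hw0 (hv.eq_zero (mem_pp.1 hw).2 (by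
      rwa [Submodule.span_singleton_smul_eq (IsUnit.mk0 t ht), Submodule.smul_mem_iff _ ht] at h))
  rw [oWt_smul hv.l w ht, h4, o_qsmul] at h7
  split_ifs at h7 with h8
  exact mul_right_cancel₀ h6 (by linear_combination h8)

variable (hQ : (polarBilin Q).Nondegenerate) (hU : ∀ g y, ‖ρ g y‖ = ‖y‖) (hψ : ψ ≠ 1)
include hQ hU hψ

theorem SW.min_case (h : SW ρ ψ 0) (hρ : ρ.IsIrreducible) (hE : finrank ℂ E ≠ 1) {e : ℕ}
    (he : finrank F V = e + 4) (he3 : 3 ≤ e) (hp : Perf4 Q) {v v' : V} (hv : Hyp Q v v')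
    {q s : ℂ} (hq : q = Nat.card F) (hs : s = cnt (OO Q 0 v v')) :
    (¬ Even e ∧ finrank ℂ E * (q ^ 2 - 1) = cnt fun x => Q x = 0 ∧ x ≠ 0) ∨
      (finrank ℂ E * (q ^ 2 - 1) * (q ^ (e + 2) - 1 - s) =
        s * (q * (q ^ (e + 2) - 1 - s) + (q - 1) ^ 2 * q ^ (e + 2)) ∧ s + 1 ≠ q ^ (e + 1)) := by
  obtain ⟨v0, y, h1, h2, h3, h4⟩ := h.exists_fixed hQ hψ hU (by omega) hp
  obtain ⟨d, hd⟩ := exists_fr hQ hU (by omega) h1 h2 h3 h4
  have h5 := hv.finrank_pp hQ
  obtain ⟨a, haS, ha0, ha1⟩ := exists_singular_mem (Q := Q) (S := pp Q v v') (by omega)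
  obtain ⟨hva, hv'a⟩ := mem_pp.1 haS
  have hi : a ∉ Submodule.span F {v} := fun h => ha0 (hv.eq_zero hv'a h)
  have hq2 : 2 ≤ Nat.card F := Finite.one_lt_card
  have hq0 : q ≠ 0 := hq ▸ Nat.cast_ne_zero.2 (by omega)
  have hq1 : q - 1 ≠ 0 := sub_ne_zero.2 (hq ▸ Nat.cast_ne_one.2 (by omega))
  have hS := cnt_sing hv (e := e + 2) he
  have hν := cnt_nonsing hv (e := e + 2) he
  have hc : ∀ c : Fˣ, polar Q v (c • v') = c := fun c => by
    rw [Units.smul_def, o_polar_smul_right, hv.p, mul_one]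
  have hc' : ∀ c : Fˣ, Q (c • v') = 0 := fun c => by rw [Units.smul_def, o_qsmul, hv.r, mul_zero]
  rcases hd.cases hQ hU (by omega) with H | ⟨d, hd, H⟩
  · obtain ⟨β, γ, hβ, hγ, e1, e2, -, -⟩ := h.eqs hQ hU hψ hρ hE he he3 hd hv
    obtain rfl : β = 0 := by
      have h6 := congrArg (fun z => ⟪d v, z⟫_ℂ) (H a)
      simp only [inner_sum, inner_zero_right] at h6
      rw [Finset.sum_congr rfl (g := fun _ => β) fun (c : Fˣ) _ => hβ v (c • a) hv.l hv.ne (by
        rw [Units.smul_def, o_qsmul, ha1, mul_zero]) (by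
        rw [Units.smul_def, o_polar_smul_right, hva, mul_zero]) (fun h =>
        hi ((Submodule.smul_mem_iff _ c.ne_zero).1 h)), sum_units_const, ← hq] at h6
      exact (mul_eq_zero.1 h6).resolve_left hq1
    refine Or.inl ⟨fun hev => ?_, by rw [← e1, ← hq, sub_zero, mul_one]⟩
    have hev' : Even (finrank F V) := by rw [he]; exact hev.add ⟨2, rfl⟩
    have h6 : ∑ c : Fˣ, γ c = 0 := by
      have h6 := congrArg (fun z => ⟪d v, z⟫_ℂ) (H v')
      simp only [inner_sum, inner_zero_right] at h6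
      rw [← h6]
      exact Finset.sum_congr rfl fun c _ => by
        rw [hγ v _ hv.l (hc' c) (by rw [hc]; exact c.ne_zero), hc]
    have h7 := sum_nonsing hQ hv hev' fun _ => 1
    rw [sum_ite_eq_cnt, hν, sum_units_const] at h7
    rw [Finset.sum_congr rfl (g := fun _ => cnt (fun x => x ∈ pp Q v v' ∧ Q x = 1) *
      (Nat.card F : ℂ) * (Nat.card F - 1)) fun b _ => ?_, sum_units_const] at e2
    · rw [← hq, ← hs] at e2 h7
      have h8 : s * q + 1 = q ^ (e + 2) := mul_left_cancel₀ (mul_ne_zero hq0 hq1) (by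
        linear_combination e2 - (q - 1) * h7)
      rw [hq, hs] at h8
      norm_cast at h8
      have h9 : Nat.card F ∣ 1 := (Nat.dvd_add_right (dvd_mul_left _ _)).1
        (h8 ▸ dvd_pow_self _ (by omega))
      have := Nat.dvd_one.1 h9
      omega
    · rw [sum_nonsing hQ hv hev' fun c => 1 - γ (-(b : F) ^ 2 * c), Finset.sum_sub_distrib,
        sum_units_const, mul_one, Fintype.sum_equiv (Equiv.mulLeft (-b ^ 2)) _
        (fun c : Fˣ => γ c) fun c => by simp, h6, sub_zero]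
  · obtain ⟨β, γ, hβ, hγ, e1, e2, e3, e4⟩ := h.eqs hQ hU hψ hρ hE he he3 hd hv
    have h6 : ∀ c : Fˣ, γ c = γ 1 := fun c => by
      rw [← hc c, ← hγ v _ hv.l (hc' c) (by rw [hc]; exact c.ne_zero), H,
        hγ v v' hv.l hv.r (by rw [hv.p]; exact one_ne_zero), hv.p]
    have h7 : (‖β‖ : ℂ) ^ 2 = β ^ 2 := by
      rw [← Complex.mul_conj', pow_two]
      conv_lhs => rw [← hβ a v ha1 ha0 hv.l ((polar_comm Q _ _).trans hva)
        (notMem_span_symm hv.ne hi), inner_conj_symm, hβ v a hv.l hv.ne ha1 hva hi,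
        hβ a v ha1 ha0 hv.l ((polar_comm Q _ _).trans hva) (notMem_span_symm hv.ne hi)]
    have h8 : (‖γ 1‖ : ℂ) ^ 2 = γ 1 ^ 2 := by
      have h8 := hγ v v' hv.l hv.r (by rw [hv.p]; exact one_ne_zero)
      have h9 := hγ v' v hv.r hv.l (by rw [hv.p']; exact one_ne_zero)
      rw [hv.p] at h8
      rw [hv.p'] at h9
      rw [← Complex.mul_conj', pow_two]
      conv_lhs => rw [← h8, inner_conj_symm, h8, h9]
    simp only [H, h6, hd.inner_self hv.l hv.ne, sum_units_const, h7, h8, norm_one,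
      Complex.ofReal_one, one_pow] at e3 e4
    rw [Finset.sum_congr rfl (g := fun _ => cnt (fun u => polar Q v u = 0 ∧ Q u ≠ 0) * (1 - γ 1))
      fun b _ => ?_, sum_units_const, hν] at e2
    swap
    · rw [← sum_ite_eq_cnt]
      refine Finset.sum_congr rfl fun u _ => ?_
      split_ifs with hu
      · rw [← h6 (Units.mk0 (-(b : F) ^ 2 * Q u) (by simp [hu.2])), Units.val_mk0]
      · rfl
    have h9 : 1 - β ≠ 0 := fun h9 => by
      rw [h9, mul_zero, mul_zero, eq_comm, Nat.cast_eq_zero] at e1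
      have : Nonempty {x // Q x = 0 ∧ x ≠ 0} := ⟨⟨v, hv.l, hv.ne⟩⟩
      exact Nat.card_pos.ne' e1
    rw [hS] at e1
    rw [← hq, ← hs] at e1 e2 e3 e4
    have e5 : (q - 1) * s * (1 - β) = (q ^ (e + 2) - 1 - s) * (1 - γ 1) :=
      mul_left_cancel₀ (mul_ne_zero hq0 hq1) (by linear_combination e2)
    refine Or.inr ⟨mul_right_cancel₀ h9 ?_, fun h10 => ?_⟩
    · linear_combination (q ^ (e + 2) - 1 - s) * (e1 + e3) - q ^ (e + 2) * (q - 1) * e5
    · have h11 : q ^ (e + 1) - 1 ≠ 0 := sub_ne_zero.2 (by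
        rw [hq]; exact_mod_cast (Nat.one_lt_pow (by omega) hq2).ne')
      have h12 : q ^ 2 * q ^ (e + 1) - 1 ≠ 0 := sub_ne_zero.2 (by
        rw [hq, ← pow_add]; exact_mod_cast (Nat.one_lt_pow (by omega) hq2).ne')
      have h13 := pow_ne_zero (e + 1) hq0
      rw [pow_succ' q (e + 1)] at e3 e4 e5
      generalize q ^ (e + 1) = t at *
      obtain rfl : s = t - 1 := by linear_combination h10
      have e6 : (t - 1) * (1 - β) = t * (1 - γ 1) := mul_left_cancel₀ hq1 (by linear_combination e5)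
      have e7 : γ 1 = 1 / (q ^ 2 * t) := by
        field_simp
        linear_combination e3 + q * e6
      obtain rfl : β = (1 - q ^ 2) / (q ^ 2 * (t - 1)) := by
        rw [e7] at e6
        field_simp at e6 ⊢
        linear_combination -e6
      rw [e7] at e4
      field_simp at e4
      exact mul_ne_zero hq1 (pow_ne_zero 2 h12) (by linear_combination -e4)

omit hU hψ in
theorem exists_comm_root (hn : 9 ≤ finrank F V) {v w a b : V} (ha : Q a = 0) (hb : Q b = 0)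
    (hab : polar Q a b = 0) (hva : polar Q v a = 0) (hvb : polar Q v b = 0) (hwa : polar Q w a = 0)
    (hwb : polar Q w b = 0) : ∃ g k : EO Q, g.1.1 v = v ∧ g.1.1 w = w ∧ k.1.1 v = v ∧ k.1.1 w = w ∧
      oE Q a b = ⁅g, k⁆ := by
  set T := Submodule.span F (({v, w, a, b} : Finset V) : Set V)
  have h1 : finrank F T ≤ 4 := (finrank_span_finset_le_card _).trans Finset.card_le_four
  have h2 := finrank_operp hQ T
  obtain ⟨z, hz, h3⟩ : ∃ z ∈ operp Q T, z ∉ operp Q (operp Q T) := by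
    by_contra! H
    have := Submodule.finrank_mono (show operp Q T ≤ _ from H)
    rw [operp_operp hQ] at this
    omega
  rw [mem_operp] at h3
  push Not at h3
  obtain ⟨c, hc, h3⟩ := h3
  have hc' := Submodule.smul_mem _ (-(polar Q c z)⁻¹) hc
  set c' := -(polar Q c z)⁻¹ • c
  have h4 : polar Q z c' = -1 := by rw [o_polar_smul_right, polar_comm Q z, neg_mul, inv_mul_cancel₀ h3]
  rw [mem_operp_span] at hz hc'
  have h5 := hz a (by simp)
  refine ⟨oE Q b c', oE Q a z, eich_app_of_polar hvb (hc' v (by simp)),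
    eich_app_of_polar hwb (hc' w (by simp)), eich_app_of_polar hva (hz v (by simp)),
    eich_app_of_polar hwa (hz w (by simp)), ?_⟩
  rw [commutatorElement_def, mul_oE, mul_inv_cancel_right, oE_inv, oE_val,
    eich_app_of_polar hab (hc' a (by simp)), eich_app_of_polar_left hb (hc' b (by simp))
    ((polar_comm Q _ _).trans (hz b (by simp))), h4, oE_mul ha (by simp only [oexp, h5, hab]; ring)
    (by rw [polar_neg_right, h5, neg_zero])]
  simp

theorem SW.exists_moved {c : F} (h : SW ρ ψ c) (hn : 9 ≤ finrank F V) {v v' : V}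
    (hv : Hyp Q v v') : ∃ a ∈ pp Q v v', ∃ b ∈ pp Q v v', ∃ y ∈ oWt ρ ψ v 0, ρ (oE Q a b) y ≠ y := by
  obtain ⟨f, he⟩ : ∃ f, finrank F V = f + 1 + 4 := ⟨finrank F V - 5, by omega⟩
  have h1 := hv.finrank_pp hQ
  obtain ⟨a, a', ha, h2, h3⟩ := exists_hyp_mem (hv.nd_pp hQ) (by omega)
  obtain ⟨h4, h5⟩ := Hyp.nd_inf (hv.nd_pp hQ) ha h2 h3
  obtain ⟨b, b', hb, h6, h7⟩ := exists_hyp_mem h4 (by omega)
  obtain ⟨hab, ha'b⟩ := mem_pp.1 h6.2
  obtain ⟨hab', ha'b'⟩ := mem_pp.1 h7.2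
  have h8 := cnt_not_perp ha hb h2 h3 h6.1 h7.1 hab hab' c
  rw [cnt_mem, show finrank F (pp Q v v') = f + 3 by omega, pow_add, ← mul_assoc] at h8
  replace h8 := Nat.eq_of_mul_eq_mul_right (pow_pos Nat.card_pos 3) h8
  refine ⟨a, h2, b, h6.1, ?_⟩
  by_contra! H
  have h9 := h.trace_root hQ hψ hU he ha.l ha.ne hb.l hab fun h => hb.ne (ha.eq_zero ha'b h)
  have hv1 : (oE Q a b).1.1 v = v := eich_app_of_polar (mem_pp.1 h2).1 (mem_pp.1 h6.1).1
  have hv2 : (oE Q a b).1.1 v' = v' := eich_app_of_polar (mem_pp.1 h2).2 (mem_pp.1 h6.1).2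
  rw [show 1 - ρ (oE Q a b) = (1 - ρ (oE Q a b)) * prj ρ ψ c v v' 1 from LinearMap.ext fun x => by
    have := H _ (h.sub_prj_mem hQ hψ hU hv x)
    simp only [map_sub, Module.End.mul_apply, LinearMap.sub_apply, Module.End.one_apply] at this ⊢
    rw [sub_eq_sub_iff_sub_eq_sub, this], trace_mul_prj, Finset.sum_congr rfl (g := fun x =>
      if (x ∈ pp Q v v' ∧ Q x = c) ∧ ¬ (polar Q a x = 0 ∧ polar Q b x = 0) then 1 else 0)
      fun x _ => ?_, sum_ite_eq_cnt, mul_one, h8] at h9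
  · have h10 : 1 < Nat.card F ^ 2 := Nat.one_lt_pow two_ne_zero Finite.one_lt_card
    norm_cast at h9
    rw [add_assoc, add_comm f, pow_add] at h9
    have : _ = Nat.card F ^ 2 := Nat.eq_of_mul_eq_mul_right (pow_pos Nat.card_pos f) h9
    omega
  by_cases hx : OO Q c v v' x
  swap; · rw [if_neg hx, if_neg fun h => hx ⟨h.1, by rintro rfl; simp at h⟩]
  rw [if_pos hx, Pi.one_apply, one_mul, LinearMap.sub_apply, inner_sub_right, Module.End.one_apply,
    inner_wv (h.one hv hx)]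
  by_cases h10 : polar Q a x = 0 ∧ polar Q b x = 0
  · obtain ⟨g, k, h11, h12, h13, h14, h15⟩ := exists_comm_root hQ hn ha.l hb.l hab (mem_pp.1 h2).1
      (mem_pp.1 h6.1).1 ((polar_comm Q x a).trans h10.1) ((polar_comm Q x b).trans h10.2)
    have h16 := map_mem_oWt g (wv_mem (oWt ρ ψ v x))
    have h17 := map_mem_oWt k (wv_mem (oWt ρ ψ v x))
    rw [h11, h12] at h16
    rw [h13, h14] at h17
    rw [if_neg fun h => h.2 h10, h15, rep_commutator_fix (h.one hv hx).le (wv_mem _) h16 h17,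
      inner_wv (h.one hv hx), sub_self]
  · have h11 := map_mem_oWt (oE Q a b) (wv_mem (oWt ρ ψ v x))
    rw [hv1] at h11
    rw [if_pos ⟨hx.1, h10⟩, inner_oWt hQ hψ hU hv hx.1.1 (mem_pp.2 ⟨by
      rw [← hv1, OG.polar_app, (mem_pp.1 hx.1.1).1], by
      rw [← hv2, OG.polar_app, (mem_pp.1 hx.1.1).2]⟩) (fun h12 => h10 ?_) (wv_mem _) h11, sub_zero]
    have h13 := congrArg (polar Q a') h12
    have h14 := congrArg (polar Q b') h12
    simp only [oE_val, eich_app ha.l hab, oexp, ha.p', hb.p', ha'b, polar_comm Q b' a, hab', hb.l,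
      polar_comm Q x] at h13 h14
    exact ⟨by linear_combination -h14, by linear_combination h13⟩

end Cfsg.Agent.Cl.RO
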