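import Mathlib
import Cfsg.Agent.Cl.RepOe
import Cfsg.Agent.Cl.OrthStd

/-!
The minimal degrees of the complex representations of `Ω`.
-/

set_option autoImplicit false
set_option linter.unusedSectionVars false

namespace Cfsg.Agent.Cl.RO

open Module QuadraticMap MaxO Classical
open scoped InnerProductSpace ComplexConjugate commutatorElement

/-- Lower bounds for the degrees of the non-trivial representations. -/
def LB (G : Type*) [Group G] (k B : ℤ) : Prop :=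
  ∀ (D : Type) [AddCommGroup D] [Module ℂ D] [FiniteDimensional ℂ D] (ρ : Representation ℂ G D),
    (∃ g, ρ g ≠ 1) → B ≤ k * finrank ℂ D

universe u v

variable {F : Type v} {V : Type u} [Field F] [AddCommGroup V] [Module F V] {Q : QuadraticForm F V}
  [Fintype V] [Fintype F] [FiniteDimensional F V]

theorem ozeros_restrict (S : Submodule F V) :
    ozeros (Q.restrict S) = cnt fun x => x ∈ S ∧ Q x = 0 :=
  Nat.card_congr (Equiv.subtypeSubtypeEquivSubtypeInter (· ∈ S) fun x => Q x = 0)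

theorem cnt_ne_add_one {P : V → Prop} (h : P 0) : cnt (fun x => P x ∧ x ≠ 0) + 1 = cnt P := by
  rw [cnt_split P (· = 0), add_comm, cnt_congr (P := fun x => _ ∧ x = 0) (R := (· = 0))
    fun x => ⟨fun h => h.2, fun h1 => ⟨h1 ▸ h, h1⟩⟩, cnt_eq_one]

theorem ozeros_eq {v v' : V} (hv : Hyp Q v v') {e : ℕ} (he : finrank F V = e + 2) :
    (ozeros Q : ℤ) = Nat.card F + cnt (OO Q 0 v v') * Nat.card F +
      Nat.card F ^ e * (Nat.card F - 1) := by
  have h1 := cnt_sing hv he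
  have h2 := congrArg (Nat.cast (R := ℂ)) (cnt_ne_add_one (P := fun x => Q x = 0) (map_zero Q))
  rw [Nat.cast_add, h1, Nat.cast_one] at h2
  have h3 : (ozeros Q : ℂ) = Nat.card F + cnt (OO Q 0 v v') * Nat.card F +
      Nat.card F ^ e * (Nat.card F - 1) := by
    rw [show ozeros Q = cnt fun x => Q x = 0 from rfl, ← h2]; ring
  exact_mod_cast h3

theorem cnt_OO_ne (hQ : (polarBilin Q).Nondegenerate) {v v' : V} (hv : Hyp Q v v') {e : ℕ}
    (he : finrank F V = e + 2) (hev : Even e) {c : F} (hc : c ≠ 0) :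
    (Nat.card F - 1 : ℤ) * cnt (OO Q c v v') = Nat.card F ^ e - 1 - cnt (OO Q 0 v v') := by
  have h1 := sum_nonsing hQ hv (by rw [he]; exact hev.add even_two) fun _ => 1
  have h2 := hv.finrank_pp hQ
  rw [sum_ite_eq_cnt, cnt_nonsing hv he, sum_units_const, ← cnt_equi (hv.nd_pp hQ)
    (by rwa [show finrank F (pp Q v v') = e by omega]) hc, ← cnt_congr (P := OO Q c v v') fun x =>
    ⟨fun h => h.1, fun h => ⟨h, by rintro rfl; exact hc (h.2.symm.trans (map_zero Q))⟩⟩] at h1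
  have h3 : (Nat.card F - 1 : ℂ) * cnt (OO Q c v v') = Nat.card F ^ e - 1 - cnt (OO Q 0 v v') :=
    mul_left_cancel₀ (Nat.cast_ne_zero.2 (Nat.card_pos (α := F)).ne') (by linear_combination -h1)
  exact_mod_cast h3

theorem LB.of_unitary {G : Type*} [Group G] [Finite G] {k B : ℤ} (hk : 0 ≤ k)
    (h : ∀ (E : Type) [NormedAddCommGroup E] [InnerProductSpace ℂ E] [FiniteDimensional ℂ E]
      (σ : Representation ℂ G E), σ.IsIrreducible → (∀ g y, ‖σ g y‖ = ‖y‖) →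
      (∀ y, (∀ g, σ g y = y) → y = 0) → B ≤ k * finrank ℂ E) : LB G k B := by
  intro D _ _ _ ρ ⟨g, hg⟩
  obtain ⟨W, hW, hW0⟩ := FT.exists_irreducible_fixDim_eq_zero ρ ⊤ fun h => hg (h trivial)
  obtain ⟨e, he'⟩ := Ch.unitary_exists_equiv W.toRepresentation
  refine (h _ (Ch.repCongr W.toRepresentation e)
    (Ch.isIrreducible_of_equiv (Ch.equivRepCongr W.toRepresentation e))
    (fun g y => by rw [Ch.repCongr_apply, he', e.apply_symm_apply]) fun y hy =>
    e.symm.map_eq_zero_iff.1 (FT.fixDim_eq_zero_iff.1 hW0 _ fun g _ => by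
      rw [← e.symm_apply_apply (W.toRepresentation g _), ← Ch.repCongr_apply, hy])).trans
    (mul_le_mul_of_nonneg_left (Nat.cast_le.2 ?_) hk)
  rw [← e.finrank_eq]
  exact W.toSubmodule.finrank_le

theorem lb_of (hQ : (polarBilin Q).Nondegenerate) {f : ℕ} (he : finrank F V = f + 5) (hf : 2 ≤ f)
    (hp : Perf4 Q) {v v' : V} (hv : Hyp Q v v') {q s B : ℤ} (hq : q = Nat.card F)
    (hs : s = cnt (OO Q 0 v v')) (h1 : B ≤ (q ^ 2 - 1) * (2 * ((q ^ 2 - 1) * q ^ f)))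
    (h2 : Even f → B ≤ ozeros Q - 1)
    (h3 : ∀ N : ℤ, N * (q ^ 2 - 1) * (q ^ (f + 3) - 1 - s) =
      s * (q * (q ^ (f + 3) - 1 - s) + (q - 1) ^ 2 * q ^ (f + 3)) → s + 1 ≠ q ^ (f + 2) →
      B ≤ (q ^ 2 - 1) * N)
    (h4 : ∀ c, c ≠ 0 → (∀ t : F, t ≠ 0 → t ^ 2 = 1) → B ≤ (q ^ 2 - 1) * cnt (OO Q c v v') ∨
      9 ≤ finrank F V ∧ ∃ B', LB (EO (Q.restrict (pp Q v v'))) (q ^ 2 - 1) B' ∧
        B ≤ (q ^ 2 - 1) * cnt (OO Q c v v') + B') : LB (EO Q) (q ^ 2 - 1) B := by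
  have := finite_EO (Q := Q)
  have hq2 : 1 < Nat.card F ^ 2 := Nat.one_lt_pow two_ne_zero Finite.one_lt_card
  have hk : 0 ≤ q ^ 2 - 1 := by rw [hq]; exact_mod_cast sub_nonneg.2 (Nat.cast_le (α := ℤ).2 hq2.le)
  refine LB.of_unitary hk fun E _ _ _ σ hρ hU hfix => ?_
  obtain ⟨y, hy⟩ : ∃ y : E, y ≠ 0 := by
    have := Ch.nontrivial_of_isIrreducible σ
    exact exists_ne 0
  have hE : finrank ℂ E ≠ 1 := fun hE => hy (hfix y fun k => by
    obtain ⟨k', h4, h5⟩ := (Subgroup.commutator_le (H₃ := (repFix σ y).map (EO Q).subtype)).2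
      (fun a ha b hb => ⟨⁅(⟨a, ha⟩ : EO _), (⟨b, hb⟩ : EO _)⁆, rep_commutator_fix (U := ⊤)
        (by rw [finrank_top, hE]) trivial trivial trivial, rfl⟩)
      ((commutator_EO_of_five_le hQ (by omega)).ge k.2)
    exact (Subtype.ext h5 : k' = k) ▸ h4)
  obtain ⟨ψ, hψ⟩ := addChar_exists_ne_one F
  rcases dichotomy (ρ := σ) hQ hψ (by
    by_contra! H
    exact hy (hfix y fun g => by rw [H]; rfl)) he hf hv with h | ⟨c, h, hc⟩
  · refine h1.trans (mul_le_mul_of_nonneg_left ?_ hk)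
    rw [hq]
    zify [hq2.le] at h
    exact h
  by_cases hc0 : c = 0
  · subst hc0
    rcases h.min_case hQ hU hψ hρ hE (e := f + 1) he (by omega) hp hv (q := q) (s := s)
      (by simp [hq]) (by simp [hs]) with ⟨h5, h6⟩ | h5
    · refine (h2 (by simpa [Nat.even_add_one] using h5)).trans_eq ?_
      rw [show ozeros Q = cnt fun x => Q x = 0 from rfl,
        ← cnt_ne_add_one (P := fun x => Q x = 0) (map_zero Q), mul_comm, Nat.cast_add,
        Nat.cast_one, add_sub_cancel_right]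
      exact_mod_cast h6.symm
    · exact h3 _ (by exact_mod_cast h5.1) (by exact_mod_cast h5.2)
  have h5 := cnt_mul_add_le (ρ := σ) hQ hψ hv (OO Q c v v') (fun _ h => ⟨h.1.1, h.2⟩) (d := 1)
    fun w hw => (h.one hv hw).ge
  rcases h4 c hc0 (hc hc0) with h6 | ⟨h6, B', h7, h8⟩
  · exact h6.trans (mul_le_mul_of_nonneg_left (Nat.cast_le.2 (by omega)) hk)
  obtain ⟨a, ha, b, hb, z, hz, h9⟩ := h.exists_moved hQ hU hψ h6 hv
  have h10 := h7 _ (Representation.subrepresentation (σ.comp (oextE (hv.nd_pp hQ))) (oWt σ ψ v 0)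
    fun k z hz => by
      have := map_mem_oWt (oextE (hv.nd_pp hQ) k) hz
      rwa [map_zero, oextE_val, oext_app_perp _ _ fun x hx =>
        (polar_comm Q _ _).trans (mem_pp.1 hx).1] at this) ⟨oE _ ⟨a, ha⟩ ⟨b, hb⟩, fun h => h9 (by
      have := congrArg Subtype.val (LinearMap.congr_fun h ⟨z, hz⟩)
      rwa [← oextE_oE (hv.nd_pp hQ) ⟨a, ha⟩ ⟨b, hb⟩])⟩
  zify at h5
  nlinarith

theorem perf4_of_card (hQ : (polarBilin Q).Nondegenerate) (hn : 7 ≤ finrank F V)
    (hq : 3 < Nat.card F) : Perf4 Q := fun v v' w w' hv hw h1 h2 => by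
  obtain ⟨h3, h4⟩ := hw.nd_inf (hv.nd_pp hQ) h1 h2
  have h5 := hv.finrank_pp hQ
  obtain ⟨c, h6, h7⟩ := o_exists_sq_ne_one hq
  exact ⟨commutator_EO_of_sq_ne_one h3.nondeg (by omega) h6 h7, not_oExc_of_card (by omega)⟩

theorem exists_hyp' (hQ : (polarBilin Q).Nondegenerate) (hn : 3 ≤ finrank F V) :
    ∃ v v', Hyp Q v v' := by
  obtain ⟨v, hv0, hv1⟩ := quad_exists_singular Q hn
  exact ⟨v, exists_hyp hQ hv1 hv0⟩

theorem lb_odd (hQ : (polarBilin Q).Nondegenerate) {m : ℕ} (he : finrank F V = 2 * (m + 3) + 1)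
    (hq : 3 < Nat.card F) (hz : ozeros Q = Nat.card F ^ (2 * (m + 3))) :
    LB (EO Q) (Nat.card F ^ 2 - 1) (Nat.card F ^ (2 * (m + 3)) - 1) := by
  obtain ⟨v, v', hv⟩ := exists_hyp' hQ (by omega)
  have h1 := ozeros_eq hv (e := 2 * m + 5) he
  obtain ⟨c, h6, h7⟩ := o_exists_sq_ne_one hq
  refine lb_of hQ (f := 2 * m + 2) he (by omega) (perf4_of_card hQ (by omega) hq) hv rfl rfl ?_
    (fun _ => by rw [hz, Nat.cast_pow]) (fun N _ h => absurd ?_ h) fun _ _ h => absurd (h c h6) h7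
  · zify at hq
    generalize (Nat.card F : ℤ) = q at hq
    have h2 : 0 < q ^ (2 * m + 2) := by positivity
    have h3 : q ^ 4 ≤ 2 * (q ^ 2 - 1) ^ 2 := by nlinarith [show 4 ≤ q ^ 2 by nlinarith]
    rw [show 2 * (m + 3) = 4 + (2 * m + 2) by ring, pow_add]
    nlinarith
  · rw [hz, Nat.cast_pow] at h1
    exact mul_right_cancel₀ (Nat.cast_ne_zero.2 (Nat.card_pos (α := F)).ne')
      (by linear_combination -h1)

theorem lb_plus (hQ : (polarBilin Q).Nondegenerate) {m : ℕ} (he : finrank F V = 2 * (m + 4))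
    (hq : 3 < Nat.card F) (hz : ozeros Q + Nat.card F ^ (m + 3) =
      Nat.card F ^ (2 * (m + 3) + 1) + Nat.card F ^ (m + 3 + 1)) :
    LB (EO Q) (Nat.card F ^ 2 - 1)
      ((Nat.card F ^ (m + 4) - 1) * (Nat.card F ^ (m + 3) + Nat.card F)) := by
  obtain ⟨v, v', hv⟩ := exists_hyp' hQ (by omega)
  have h1 := ozeros_eq hv (e := 2 * m + 6) he
  obtain ⟨c, h6, h7⟩ := o_exists_sq_ne_one hq
  zify at hq hz
  refine lb_of hQ (f := 2 * m + 3) he (by omega) (perf4_of_card hQ (by omega) (by exact_mod_cast hq))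
    hv rfl rfl ?_ (fun ⟨k, h⟩ => by omega) (fun N h _ => ?_)
    fun _ _ h => absurd (h c h6) h7
  · generalize (Nat.card F : ℤ) = q at hq
    have h2 : 1 ≤ q ^ m := one_le_pow₀ (by omega)
    have h3 : q ^ 4 + q ^ 2 ≤ 2 * (q ^ 2 - 1) ^ 2 := by nlinarith [show 5 ≤ q ^ 2 by nlinarith]
    have h4 : 0 < q ^ 3 * q ^ m * q ^ m := by positivity
    have h5 : 0 < q ^ 5 * q ^ m := by positivity
    have h8 : 0 < q ^ 3 * q ^ m := by positivity
    rw [show 2 * m + 3 = 3 + m + m by ring, add_comm m, add_comm m]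
    simp only [pow_add]
    nlinarith
  · rw [h1] at hz
    generalize (Nat.card F : ℤ) = q at hq hz h
    generalize (cnt (OO Q 0 v v') : ℤ) = s at hz h
    obtain rfl : s = (q ^ (m + 3) - 1) * (q ^ (m + 2) + 1) :=
      mul_right_cancel₀ (show q ≠ 0 by omega) (by linear_combination hz)
    have h2 : 1 < q ^ (m + 3) := one_lt_pow₀ (by omega) (by omega)
    refine (mul_right_cancel₀ (b := q ^ (m + 2) * (q - 1) * (q ^ (m + 3) - 1))
      (mul_ne_zero (mul_ne_zero (by positivity) (by omega)) (by omega)) ?_).le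
    linear_combination -h

theorem minus_step {S : Submodule F V} {w w' : V} (hw : Hyp Q w w') (h1 : w ∈ S) (h2 : w' ∈ S)
    {m : ℕ} (hd : finrank F S = 2 * (m + 1) + 2) (h : cnt (fun x => x ∈ S ∧ Q x = 0) +
      Nat.card F ^ (m + 1 + 1) = Nat.card F ^ (2 * (m + 1) + 1) + Nat.card F ^ (m + 1)) :
    cnt (fun x => x ∈ S ⊓ pp Q w w' ∧ Q x = 0) + Nat.card F ^ (m + 1) =
      Nat.card F ^ (2 * m + 1) + Nat.card F ^ m := by
  have h3 := hw.cnt_rec h1 h2 0
  rw [cnt_mem, hd] at h3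
  zify [(Nat.card_pos : 1 ≤ Nat.card F)] at h h3 ⊢
  exact mul_right_cancel₀ (pow_ne_zero 3 (Nat.cast_ne_zero.2 (Nat.card_pos (α := F)).ne'))
    (by linear_combination (Nat.card F : ℤ) ^ 2 * h - h3)

theorem perf4_minus (hQ : (polarBilin Q).Nondegenerate) {m : ℕ} (he : finrank F V = 2 * (m + 3) + 2)
    (hz : ozeros Q + Nat.card F ^ (m + 3 + 1) =
      Nat.card F ^ (2 * (m + 3) + 1) + Nat.card F ^ (m + 3)) : Perf4 Q :=
  fun v v' w w' hv hw h1 h2 => by
    obtain ⟨h3, h4⟩ := hw.nd_inf (hv.nd_pp hQ) h1 h2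
    have h5 := hv.finrank_pp hQ
    rcases m with _ | m
    swap; · exact ⟨commutator_EO_of_five_le h3.nondeg (by omega), not_oExc_of_finrank (by omega)⟩
    have h6 := minus_step (S := ⊤) (m := 2) hv trivial trivial (by rw [finrank_top, he]) (by
      rwa [← cnt_congr (P := fun x => Q x = 0) fun x => by simp])
    rw [top_inf_eq] at h6
    have h7 := minus_step (m := 1) hw h1 h2 (by omega) h6
    suffices h : ¬ OHyp4 _ from
      ⟨commutator_EO_of_aniso h3.nondeg (by omega) h, not_oExc_of_not_oHyp4 h⟩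
    rintro ⟨-, a, b, h8, ha, hb, hab⟩
    obtain ⟨a', ha', ha'b⟩ := exists_hyp_perp h3.nondeg ha (h8.ne_zero 0) hab fun h => by
      obtain ⟨c, rfl⟩ := Submodule.mem_span_singleton.1 h
      simpa using (LinearIndependent.pair_iff.1 h8 c (-1) (by simp)).2
    have h9 := minus_step (Q := Q) (m := 0) (w := (a : V)) (w' := (a' : V)) ⟨ha'.l, ha'.r, ha'.p⟩ a.2 a'.2 (by omega) h7
    rw [← cnt_ne_add_one ⟨zero_mem _, map_zero Q⟩] at h9
    have : Nonempty {x // (x ∈ pp Q v v' ⊓ pp Q w w' ⊓ pp Q a a' ∧ Q x = 0) ∧ x ≠ 0} :=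
      ⟨⟨b, ⟨⟨b.2, mem_pp.2 ⟨hab, ha'b⟩⟩, hb⟩, by simpa using h8.ne_zero 1⟩⟩
    have h10 : 0 < cnt fun x => (x ∈ pp Q v v' ⊓ pp Q w w' ⊓ pp Q a a' ∧ Q x = 0) ∧ x ≠ 0 :=
      Nat.card_pos
    simp only [mul_zero, pow_zero] at h9
    omega

theorem lb_minus (m : ℕ) : ∀ {V : Type u} [AddCommGroup V] [Module F V] {Q : QuadraticForm F V}
    [Fintype V] [FiniteDimensional F V] (_ : (polarBilin Q).Nondegenerate)
    (_ : finrank F V = 2 * (m + 3) + 2) (_ : ozeros Q + Nat.card F ^ (m + 3 + 1) =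
      Nat.card F ^ (2 * (m + 3) + 1) + Nat.card F ^ (m + 3)), LB (EO Q) (Nat.card F ^ 2 - 1)
      ((Nat.card F ^ (m + 4) + 1) * (Nat.card F ^ (m + 3) - Nat.card F)) := by
  induction m using Nat.strong_induction_on with | _ m ih
  intro V _ _ Q _ _ hQ he hz
  obtain ⟨v, v', hv⟩ := exists_hyp' hQ (by omega)
  have h1 := ozeros_eq hv (e := 2 * m + 6) he
  have hp := perf4_minus hQ he hz
  have hd := hv.finrank_pp hQ
  have h6 := minus_step (S := ⊤) (m := m + 2) hv trivial trivial (by rw [finrank_top, he]) (by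
    rwa [← cnt_congr (P := fun x => Q x = 0) fun x => by simp])
  rw [top_inf_eq, ← ozeros_restrict] at h6
  have hq : (2 : ℤ) ≤ Nat.card F := by exact_mod_cast Finite.one_lt_card (α := F)
  zify at hz
  rw [h1] at hz
  have hs : (cnt (OO Q 0 v v') : ℤ) = (Nat.card F ^ (m + 3) + 1) * (Nat.card F ^ (m + 2) - 1) :=
    mul_right_cancel₀ (show (Nat.card F : ℤ) ≠ 0 by omega) (by linear_combination hz)
  refine lb_of hQ (f := 2 * m + 3) he (by omega) hp hv rfl hs.symm ?_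
    (fun ⟨k, h⟩ => by omega) (fun N h _ => ?_) fun c hc _ => ?_
  · generalize (Nat.card F : ℤ) = q at hq
    have h2 : 1 ≤ q ^ m := one_le_pow₀ (by omega)
    have h3 : q ^ 4 ≤ 2 * (q ^ 2 - 1) ^ 2 := by nlinarith [show 4 ≤ q ^ 2 by nlinarith]
    have h4 : 0 < q ^ 3 * q ^ m * q ^ m := by positivity
    have h5 : 0 < q ^ 3 * q ^ m := by positivity
    have h8 : 1 ≤ q ^ 2 := one_le_pow₀ (by omega)
    rw [show 2 * m + 3 = 3 + m + m by ring, add_comm m, add_comm m]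
    simp only [pow_add]
    nlinarith
  · generalize (Nat.card F : ℤ) = q at hq h
    refine (mul_right_cancel₀ (b := q ^ (m + 2) * (q - 1) * (q ^ (m + 3) + 1))
      (mul_ne_zero (mul_ne_zero (by positivity) (by omega)) (by positivity)) ?_).le
    linear_combination -h
  have h2 := cnt_OO_ne hQ hv (e := 2 * m + 6) he ⟨m + 3, by ring⟩ hc
  rw [hs] at h2
  have h3 : (cnt (OO Q c v v') : ℤ) = Nat.card F ^ (m + 2) * (Nat.card F ^ (m + 3) + 1) :=
    mul_left_cancel₀ (show (Nat.card F - 1 : ℤ) ≠ 0 by omega) (by linear_combination h2)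
  rw [h3]
  rcases m with _ | m
  · left
    generalize (Nat.card F : ℤ) = q at hq
    simp only [zero_add]
    nlinarith [mul_nonneg (mul_nonneg (show 0 ≤ q by omega) (show 0 ≤ q - 1 by omega))
      (show 0 ≤ q ^ 2 - 1 by nlinarith)]
  · refine Or.inr ⟨by omega, _, ih m (by omega) (hv.nd_pp hQ).nondeg (by omega) h6, ?_⟩
    generalize (Nat.card F : ℤ) = q at hq
    simp only [pow_add]
    nlinarith [mul_nonneg (show 0 ≤ q ^ m * q ^ 4 by positivity) (show 0 ≤ q ^ 2 - 1 by nlinarith)]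

theorem LB.omega {ι : Type} [Fintype ι] [DecidableEq ι] {P : QuadraticForm F (ι → F)}
    (hP : (polarBilin P).Nondegenerate) (hn : 5 ≤ finrank F (ι → F)) {B : ℕ}
    (h : LB (EO P) (Nat.card F ^ 2 - 1) B) (k : ℕ) (ρ : Representation ℂ (Omega F P) (Fin k → ℂ))
    (hρ : ρ.IsIrreducible) (hk : 2 ≤ k) : B / (Fintype.card F ^ 2 - 1) ≤ k := by
  obtain ⟨g, hg⟩ := repWt_ne_one_of_irreducible hρ (by simpa using hk)
  let e := (omegaEquivOG P).trans (MulEquiv.subgroupCongr (omega_eq hP hn))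
  have h1 := h _ (ρ.comp e.symm.toMonoidHom) ⟨e g, by simpa using hg⟩
  rw [Nat.card_eq_fintype_card, finrank_fin_fun] at h1
  refine Nat.div_le_of_le_mul ?_
  zify [Nat.one_le_pow 2 _ (Fintype.card_pos (α := F))]
  exact h1

end Cfsg.Agent.Cl.RO
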