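import Mathlib
import Cfsg.Agent.Cl.LevA

/-! A map of determinant one which is not scalar and not a transvection is a product of two regular
unipotent maps. -/

set_option autoImplicit false

open Module Submodule

namespace Cfsg.Agent.Cl.Lev

universe v

variable {K : Type*} [Field K]

theorem pow_succ_comp {V W : Type*} [AddCommGroup V] [Module K V] [AddCommGroup W] [Module K W]
    (S : W →ₗ[K] V) (T : V →ₗ[K] W) (k : ℕ) :
    (S ∘ₗ T) ^ (k + 1) = S ∘ₗ ((T ∘ₗ S) ^ k) ∘ₗ T := by
  induction k with
  | zero => ext; simp
  | succ k ih => rw [pow_succ, ih, pow_succ]; ext; simp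

theorem factor (hK : 4 ≤ Cardinal.mk K) (m : ℕ) : ∀ (V : Type v) [AddCommGroup V] [Module K V]
    [FiniteDimensional K V] (N : V →ₗ[K] V) (c : V) (r : Dual K V), finrank K V = m + 1 →
    LinearMap.det (1 + N) = 1 → c ≠ 0 → r ≠ 0 →
    (m = 0 ∨ ((∀ l : K, ∃ x, N x ≠ l • x) ∧ 2 ≤ finrank K (LinearMap.range N))) →
    ∃ A B : V →ₗ[K] V, 1 + N = (1 + A) * (1 + B) ∧ A ^ (m + 1) = 0 ∧ (A ^ m) c ≠ 0 ∧
      B ^ (m + 1) = 0 ∧ r ∘ₗ (B ^ m) ≠ 0 := by
  induction m with
  | zero =>
    intro V _ _ _ N c r hV hd hc hr _
    obtain ⟨l, hl, -⟩ := LinearMap.existsUnique_eq_smul_id_of_finrank_eq_one hV (1 + N)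
    rw [hl, LinearMap.det_smul, hV] at hd
    have : l = 1 := by simpa using hd
    refine ⟨0, 0, by rw [hl, this]; ext; simp, by simp, by simpa using hc, by simp, ?_⟩
    rwa [pow_zero, Module.End.one_eq_id, LinearMap.comp_id]
  | succ m ih =>
    intro V _ _ _ N c r hV hd hc hr h
    obtain ⟨hN, hrk⟩ := h.resolve_left (by omega)
    obtain ⟨e, φ, h1, h2, h3, h4, h5, ⟨u, h6⟩, h7⟩ := exists_step hK hd hN hrk hc hr
    let W := LinearMap.ker φ
    have hW : finrank K W = m + 1 := by
      have : finrank K W + 1 = _ := finrank_ker_dual h1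
      omega
    let π : V →ₗ[K] W := LinearMap.codRestrict W (LinearMap.id - φ.smulRight e)
      (fun x => by simp [W, h1])
    have hπ : ∀ x, (π x : V) = x - φ x • e := fun x => rfl
    have hw : ∀ w : W, φ w = 0 := fun w => w.2
    have πw : ∀ w : W, π w = w := fun w => Subtype.ext (by simp [hπ, hw])
    have πe : π e = 0 := Subtype.ext (by simp [hπ, h1])
    let c' : W := ⟨N e, h2⟩
    let r' : Dual K W := φ ∘ₗ N ∘ₗ W.subtype
    let N' : W →ₗ[K] W := π ∘ₗ N ∘ₗ W.subtype - r'.smulRight c'
    have hN' : ∀ w : W, (N' w : V) = N w - φ (N w) • (e + N e) := fun w => by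
      change (N w - φ (N w) • e) - φ (N w) • N e = _
      module
    have hr' : r' ≠ 0 := fun h => h6 (by
      have := LinearMap.congr_fun h (π u)
      simpa [r', hπ, h2] using this)
    have hd' : LinearMap.det (1 + N') = 1 := by
      let g := (1 + N) * LinearMap.transvection (-(r' ∘ₗ π)) e
      have hg : ∀ x, g x = x + N x - φ (N x) • (e + N e) := fun x => by
        simp only [g, Module.End.mul_apply, LinearMap.transvection.apply, LinearMap.add_apply,
          Module.End.one_apply, map_add, map_smul, LinearMap.neg_apply, LinearMap.comp_apply, r',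
          Submodule.subtype_apply, hπ, map_sub, h2]
        module
      have hφ : ∀ x, φ (g x) = φ x := fun x => by simp [hg, h1, h2]
      have hle : W ≤ W.comap g := fun x hx => by
        change φ (g x) = 0
        rw [hφ]; exact hx
      have e1 := LinearMap.det_eq_det_mul_det W g hle
      have e2 : g.restrict hle = 1 + N' := by
        ext w
        simp only [LinearMap.coe_restrict_apply, hg, LinearMap.add_apply, Module.End.one_apply,
          Submodule.coe_add, hN']
        abel
      have e3 : W.mapQ W g hle = LinearMap.id := by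
        apply Submodule.linearMap_qext
        ext x
        simp only [LinearMap.comp_apply, Submodule.mkQ_apply, Submodule.mapQ_apply,
          LinearMap.id_apply, Submodule.Quotient.eq]
        change φ (g x - x) = 0
        rw [map_sub, hφ, sub_self]
      rw [e2, e3, LinearMap.det_id, mul_one] at e1
      rw [← e1, map_mul, hd, LinearMap.transvection.det]
      simp [πe]
    obtain ⟨A, B, e1, e2, e3, e4, e5⟩ := ih W N' c' r' hW hd' (fun h => h3 (congrArg Subtype.val h))
      hr' (by
        rcases h7 with h7 | ⟨h7, h8⟩
        · exact Or.inl (by omega)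
        refine Or.inr ⟨fun l => ?_, ?_⟩
        · obtain ⟨w, hw0, hw1⟩ := h8 l
          refine ⟨⟨w, hw0⟩, fun h => hw1 ?_⟩
          have := congrArg Subtype.val h
          rw [hN'] at this
          change N w - φ (N w) • (e + N e) = l • w at this
          exact mem_span_singleton.2 ⟨φ (N w), by
            linear_combination (norm := module) -this⟩
        · have k1 := LinearMap.finrank_range_add_finrank_ker N'
          have k2 : finrank K (LinearMap.ker N') ≤
              finrank K ↥(LinearMap.ker φ ⊓ (K ∙ (e + N e)).comap N) := by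
            rw [← Submodule.finrank_map_subtype_eq]
            refine Submodule.finrank_mono ?_
            rintro _ ⟨w, hw0, rfl⟩
            refine ⟨w.2, mem_span_singleton.2 ⟨φ (N w), ?_⟩⟩
            have := congrArg Subtype.val (show N' w = 0 from hw0)
            rw [hN'] at this
            exact (sub_eq_zero.1 this).symm
          omega)
    let T : V →ₗ[K] W := φ.smulRight c' + A ∘ₗ π
    let S : W →ₗ[K] V := r'.smulRight e + W.subtype ∘ₗ B
    have hT : T ∘ₗ W.subtype = A := by ext1 w; simp [T, hw, πw]
    have hS : π ∘ₗ S = B := by ext1 w; simp [S, πe, πw]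
    refine ⟨W.subtype ∘ₗ T, S ∘ₗ π, ?_, ?_, ?_, ?_, ?_⟩
    · ext x
      have k := congrArg Subtype.val (LinearMap.congr_fun e1 (π x))
      simp only [Module.End.mul_apply, LinearMap.add_apply, Module.End.one_apply, map_add,
        Submodule.coe_add, hN', hπ, map_sub, map_smul, h2] at k
      simp only [Module.End.mul_apply, LinearMap.add_apply, Module.End.one_apply, map_add,
        LinearMap.comp_apply, S, T, LinearMap.smulRight_apply, Submodule.subtype_apply, map_smul,
        h1, hw, πe, πw, r', hπ, map_sub, h2, c']
      simp only [map_zero, ZeroMemClass.coe_zero]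
      linear_combination (norm := module) k
    · rw [pow_succ_comp, hT, e2, LinearMap.zero_comp, LinearMap.comp_zero]
    · rw [pow_succ_comp, hT]
      have : (A ^ m) (A (π c)) = 0 := by
        rw [← Module.End.mul_apply, ← pow_succ, e2, LinearMap.zero_apply]
      simpa [T, this, h4] using e3
    · rw [pow_succ_comp, hS, e4, LinearMap.zero_comp, LinearMap.comp_zero]
    · rw [pow_succ_comp, hS]
      intro h
      refine e5 (LinearMap.ext fun w => ?_)
      have k := LinearMap.congr_fun h w
      have : B ((B ^ m) w) = 0 := by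
        rw [← Module.End.mul_apply, ← pow_succ', e4, LinearMap.zero_apply]
      simpa [S, πw, this, h5] using k

end Cfsg.Agent.Cl.Lev
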