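import Mathlib
import Cfsg.Agent.Cl.LevB
import Cfsg.Agent.Cl.LinearTransv
import Cfsg.Agent.Cl.OreD

/-! Every non-scalar matrix of determinant one and size at least three over a field with at least
four elements is a product of two regular unipotent matrices. -/

set_option autoImplicit false

open Module Submodule Matrix

namespace Cfsg.Agent.Cl.Lev

variable {K : Type*} [Field K]

theorem ring_factor {R : Type*} [Ring R] {A : R} {m : ℕ} (h : A ^ (m + 3) = 0)
    (h' : A ^ (m + 2) ≠ 0) :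
    ∃ B : R, 1 + A ^ (m + 2) = (1 + A) * (1 + B) ∧ B ^ (m + 3) = 0 ∧ B ^ (m + 2) ≠ 0 := by
  have hA : IsNilpotent A := ⟨_, h⟩
  obtain ⟨u, hu⟩ := hA.isUnit_one_add
  obtain ⟨w, hw⟩ := (hA.pow_succ m).isUnit_one_sub
  have c1 : Commute A (u⁻¹ : Rˣ) := Commute.units_inv_right (hu ▸ (Commute.one_right A).add_right
    (Commute.refl A))
  have c2 : Commute A (w : R) := hw ▸ (Commute.one_right A).sub_right
    ((Commute.refl A).pow_right _)
  have c3 : Commute A ((-(u⁻¹ * w) : Rˣ) : R) := by simpa using c1.mul_right c2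
  refine ⟨A * ((-(u⁻¹ * w) : Rˣ) : R), ?_, by rw [c3.mul_pow, h, zero_mul], fun e => h' ?_⟩
  · rw [Units.val_neg, Units.val_mul, mul_neg, ← mul_assoc, c1.eq, mul_add, mul_neg, ← hu,
      ← mul_assoc, ← mul_assoc, Units.mul_inv, hu, hw, pow_succ' A (m + 1)]
    noncomm_ring
  · rwa [c3.mul_pow, ← Units.val_pow_eq_pow_val, Units.mul_left_eq_zero] at e

/-- The nilpotent Jordan block. -/
def shift (K : Type*) [Field K] (n : ℕ) : Matrix (Fin n) (Fin n) K :=
  Matrix.of fun i j => if j.val = i.val + 1 then 1 else 0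

theorem shift_pow (n k : ℕ) (i j : Fin n) :
    (shift K n ^ k) i j = if j.val = i.val + k then 1 else 0 := by
  induction k generalizing j with
  | zero => simp [Matrix.one_apply, Fin.ext_iff, eq_comm]
  | succ k ih =>
    rw [pow_succ, Matrix.mul_apply]
    simp only [ih]
    simp only [shift, Matrix.of_apply]
    by_cases h : j.val = i.val + (k + 1)
    · rw [if_pos h, Finset.sum_eq_single (⟨i.val + k, by omega⟩ : Fin n)]
      · simp [h, add_assoc]
      · intro l _ hl
        rw [if_neg fun e => hl (Fin.ext e), zero_mul]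
      · simp
    · rw [if_neg h]
      refine Finset.sum_eq_zero fun l _ => ?_
      split_ifs <;> first | omega | simp

theorem shift_pow_self (n : ℕ) : shift K n ^ n = 0 := by
  ext i j
  rw [shift_pow, if_neg (by omega), Matrix.zero_apply]

theorem shift_pow_pred (m : ℕ) :
    shift K (m + 1) ^ m = vecMulVec (Pi.single 0 1) (Pi.single (Fin.last m) 1) := by
  ext i j
  rw [shift_pow, vecMulVec_apply, Pi.single_apply, Pi.single_apply]
  simp only [Fin.ext_iff, Fin.val_zero, Fin.val_last]
  split_ifs <;> first | omega | simp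

theorem shift_pow_ne (m : ℕ) : shift K (m + 1) ^ m ≠ 0 := fun h => by
  have := congrFun (congrFun h 0) (Fin.last m)
  simp [shift_pow] at this

/-- Regular unipotent matrices. -/
def Reg {m : ℕ} (X : Matrix (Fin (m + 1)) (Fin (m + 1)) K) : Prop :=
  (X - 1) ^ (m + 1) = 0 ∧ (X - 1) ^ m ≠ 0

theorem Reg.isConj {m : ℕ} {X Y : Matrix (Fin (m + 1)) (Fin (m + 1)) K} (hX : Reg X)
    (hY : Reg Y) : IsConj X Y :=
  Cls.isConj_iff_edM_eq.2 ((Ore.edM_reg (by simp) hX.1 hX.2).trans
    (Ore.edM_reg (by simp) hY.1 hY.2).symm)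

theorem Reg.conj {m : ℕ} {X : Matrix (Fin (m + 1)) (Fin (m + 1)) K} (hX : Reg X)
    (P : GL (Fin (m + 1)) K) : Reg (P.val * X * (P⁻¹).val) := by
  have : ∀ k, (P.val * X * (P⁻¹).val - 1) ^ k = P.val * (X - 1) ^ k * (P⁻¹).val := fun k => by
    rw [← Units.conj_pow, mul_sub, sub_mul, mul_one, Units.mul_inv]
  refine ⟨by rw [this, hX.1, mul_zero, zero_mul], fun h => hX.2 ?_⟩
  rwa [this, Units.mul_left_eq_zero, Units.mul_right_eq_zero] at h

theorem reg_shift (m : ℕ) : Reg (1 + shift K (m + 1)) := by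
  rw [Reg, add_sub_cancel_left]
  exact ⟨shift_pow_self _, shift_pow_ne m⟩

theorem exists_reg_mul (hK : 4 ≤ Cardinal.mk K) {m : ℕ} {g : Matrix (Fin (m + 3)) (Fin (m + 3)) K}
    (hg : ∀ c : K, g ≠ c • 1) (hd : g.det = 1) : ∃ X Y, Reg X ∧ Reg Y ∧ g = X * Y := by
  let N := Matrix.toLin' (g - 1)
  by_cases hr : 2 ≤ finrank K (LinearMap.range N)
  · let E := (LinearMap.toMatrixAlgEquiv' (R := K) (n := Fin (m + 3)))
    have hN : E N = g - 1 := LinearMap.toMatrix'_toLin' _
    obtain ⟨A, B, e1, e2, e3, e4, e5⟩ := factor hK (m + 2) (Fin (m + 3) → K) N (Pi.single 0 1)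
      (LinearMap.proj 0) (by simp) (by
        rw [← LinearMap.det_toMatrix']
        change (E (1 + N)).det = 1
        rw [map_add, map_one, hN, add_sub_cancel, hd]) (by simp)
      (fun h => by simpa using LinearMap.congr_fun h (Pi.single 0 1))
      (Or.inr ⟨fun l => by
        by_contra hn
        push Not at hn
        refine hg (l + 1) ?_
        have : N = l • 1 := LinearMap.ext hn
        rw [this, map_smul, map_one] at hN
        rw [add_smul, hN, one_smul, sub_add_cancel], hr⟩)
    refine ⟨E (1 + A), E (1 + B), ⟨?_, ?_⟩, ⟨?_, ?_⟩, ?_⟩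
    · rw [map_add, map_one, add_sub_cancel_left, ← map_pow, e2, map_zero]
    · rw [map_add, map_one, add_sub_cancel_left, ← map_pow, map_ne_zero_iff _ E.injective]
      exact fun h => e3 (by rw [h]; rfl)
    · rw [map_add, map_one, add_sub_cancel_left, ← map_pow, e4, map_zero]
    · rw [map_add, map_one, add_sub_cancel_left, ← map_pow, map_ne_zero_iff _ E.injective]
      exact fun h => e5 (by rw [h]; rfl)
    · rw [← map_mul, ← e1, map_add, map_one, hN, add_sub_cancel]
  · obtain ⟨a, ha⟩ := (finrank_le_one_iff (K := K) (V := LinearMap.range N)).1 (by omega)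
    choose s hs using fun j : Fin (m + 3) => ha ⟨N (Pi.single j 1), _, rfl⟩
    have hgs : g = 1 + vecMulVec a.1 s := by
      rw [← sub_eq_iff_eq_add']
      ext i j
      have := congrFun (congrArg Subtype.val (hs j)) i
      simp only [N, Matrix.toLin'_apply, mulVec_single_one, SetLike.val_smul, Pi.smul_apply,
        smul_eq_mul, col_apply] at this
      rw [vecMulVec_apply, ← this, mul_comm]
    have h0 : vecMulVec a.1 s ≠ 0 := fun h => hg 1 (by rw [hgs, h, add_zero, one_smul])
    rw [Ne, vecMulVec_eq_zero, not_or] at h0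
    rw [hgs, det_one_add_vecMulVec, add_eq_left] at hd
    obtain ⟨P, p1, p2⟩ := exists_gl_flag hd h0.1 h0.2 (i := 0) (j := Fin.last (m + 2))
      (Fin.last_pos.ne)
    obtain ⟨B, e1, e2, e3⟩ := ring_factor (shift_pow_self (K := K) (m + 3)) (shift_pow_ne (m + 2))
    refine ⟨_, _, (reg_shift _).conj P, Reg.conj (X := 1 + B)
      (by rw [Reg, add_sub_cancel_left]; exact ⟨e2, e3⟩) P, ?_⟩
    rw [mul_assoc _ (P⁻¹).val, ← mul_assoc (P⁻¹).val, ← mul_assoc (P⁻¹).val, Units.inv_mul,
      one_mul, ← mul_assoc, mul_assoc P.val, ← e1, shift_pow_pred, mul_add, add_mul, mul_one,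
      Units.mul_inv, mul_vecMulVec, vecMulVec_mul, p1, ← p2, vecMul_vecMul, Units.mul_inv,
      vecMul_one, hgs]

end Cfsg.Agent.Cl.Lev
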