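import Mathlib
import Cfsg.Agent.Cl.DerCount

/-!
Functions on finite vector spaces with an endomorphism; Green's primitive function `J` attached to an additive
function on polynomials, and its vanishing under averaging over unipotent radicals.
-/

set_option autoImplicit false

namespace Cfsg.Agent.Cl.Cu

open Finset Module Polynomial

universe u

variable {F : Type u} [Field F]

/-- Complex functions on finite vector spaces with an endomorphism. -/
abbrev Fn (F : Type u) [Field F] : Type (u + 1) :=
  ∀ (V : Type u) [AddCommGroup V] [Module F V] [Finite V], End F V → ℂ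

/-- Invariance under isomorphism. -/
def Inv (Φ : Fn F) : Prop :=
  ∀ (V : Type u) [AddCommGroup V] [Module F V] [Finite V] (V' : Type u) [AddCommGroup V'] [Module F V'] [Finite V']
    (e : V ≃ₗ[F] V') (g : End F V) (g' : End F V'), (∀ v, e (g v) = g' (e v)) → Φ V g = Φ V' g'

noncomputable scoped instance fintypeHom {V V' : Type*} [AddCommGroup V] [Module F V] [Finite V] [AddCommGroup V']
    [Module F V'] [Finite V'] : Fintype (V →ₗ[F] V') :=
  @Fintype.ofFinite _ (DFunLike.finite _)

noncomputable scoped instance fintypeSubmodule {V : Type*} [AddCommGroup V] [Module F V] [Finite V] :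
    Fintype (Submodule F V) :=
  @Fintype.ofFinite _ Der.finite_submodule

noncomputable scoped instance fintypeCoeSubmodule {V : Type*} [AddCommGroup V] [Module F V] [Finite V]
    (W : Submodule F V) : Fintype W :=
  Fintype.ofFinite _

scoped instance finiteQuot {V : Type*} [AddCommGroup V] [Module F V] [Finite V] (W : Submodule F V) :
    Finite (V ⧸ W) :=
  Finite.of_surjective _ W.mkQ_surjective

theorem sum_comp_surj {A B : Type*} [AddCommGroup A] [Module F A] [AddCommGroup B] [Module F B] [Fintype A]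
    [Fintype B] (f : A →ₗ[F] B) (hf : Function.Surjective f) (Φ : B → ℂ) :
    ∑ x, Φ (f x) = Nat.card (LinearMap.ker f) * ∑ y, Φ y := by
  classical
  rw [← sum_fiberwise (s := univ) (g := fun x => f x), mul_sum]
  refine sum_congr rfl fun y _ => ?_
  rw [sum_congr rfl (g := fun _ => Φ y) (fun x hx => by rw [(mem_filter.1 hx).2]), sum_const, nsmul_eq_mul]
  congr 2
  obtain ⟨y, rfl⟩ := hf y
  rw [← Fintype.card_subtype, ← Nat.card_eq_fintype_card]
  exact Nat.card_congr ⟨fun x => ⟨x.1 - y, by simp [x.2]⟩,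
    fun x => ⟨x.1 + y, by simp [LinearMap.mem_ker.1 x.2]⟩, fun x => by simp, fun x => by simp⟩

theorem exists_comp_eq {X Y Z : Type*} [AddCommGroup X] [Module F X] [AddCommGroup Y] [Module F Y]
    [AddCommGroup Z] [Module F Z] (f : X →ₗ[F] Y) (h : X →ₗ[F] Z) (hk : LinearMap.ker f ≤ LinearMap.ker h) :
    ∃ d : Y →ₗ[F] Z, ∀ x, d (f x) = h x := by
  obtain ⟨d, hd⟩ := LinearMap.exists_extend ((LinearMap.ker f).liftQ h hk ∘ₗ f.quotKerEquivRange.symm.toLinearMap)
  refine ⟨d, fun x => ?_⟩
  have := LinearMap.congr_fun hd ⟨f x, LinearMap.mem_range_self f x⟩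
  rw [LinearMap.comp_apply, LinearMap.comp_apply, LinearEquiv.coe_coe, f.quotKerEquivRange_symm_apply_image] at this
  exact this

section Basic

variable {V : Type u} [AddCommGroup V] [Module F V] {V' : Type u} [AddCommGroup V'] [Module F V']

open Classical in
/-- Restriction to an invariant subspace. -/
noncomputable def res (g : End F V) (W : Submodule F V) : End F W :=
  if h : W ≤ W.comap g then g.restrict h else 0

open Classical in
/-- The induced map on the quotient by an invariant subspace. -/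
noncomputable def quo (g : End F V) (W : Submodule F V) : End F (V ⧸ W) :=
  if h : W ≤ W.comap g then W.mapQ W g h else 0

theorem coe_res {g : End F V} {W : Submodule F V} (h : W ≤ W.comap g) (w : W) : (res g W w : V) = g w := by
  rw [res, dif_pos h]; rfl

theorem quo_mk {g : End F V} {W : Submodule F V} (h : W ≤ W.comap g) (v : V) :
    quo g W (W.mkQ v) = W.mkQ (g v) := by
  rw [quo, dif_pos h]; rfl

variable [Finite V] [Finite V']

open Classical in
/-- The invariant subspaces. -/
noncomputable def invs (g : End F V) : Finset (Submodule F V) := univ.filter fun W => W ≤ W.comap g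

theorem mem_invs {g : End F V} {W : Submodule F V} : W ∈ invs g ↔ W ≤ W.comap g := by simp [invs]

theorem top_mem_invs (g : End F V) : ⊤ ∈ invs g := mem_invs.2 (by simp)

open Module.Basis in
theorem charpoly_eq_mul {g : End F V} {W : Submodule F V} (h : W ≤ W.comap g) :
    g.charpoly = (res g W).charpoly * (quo g W).charpoly := by
  let bW := Module.Free.chooseBasis F W
  let bQ := Module.Free.chooseBasis F (V ⧸ W)
  let b := sumQuot bW bQ
  suffices LinearMap.toMatrix b b g = Matrix.fromBlocks (LinearMap.toMatrix bW bW (res g W))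
      (Matrix.of fun i l => (b.repr (g (b (Sum.inr l)))) (Sum.inl i)) 0 (LinearMap.toMatrix bQ bQ (quo g W)) by
    rw [← LinearMap.charpoly_toMatrix g b, this, Matrix.charpoly_fromBlocks_zero₂₁, LinearMap.charpoly_toMatrix,
      LinearMap.charpoly_toMatrix]
  ext (i | j) (k | l)
  · simp only [b, sumQuot_inl, Matrix.fromBlocks_apply₁₁, LinearMap.toMatrix_apply, ← coe_res h]
    apply sumQuot_repr_inl
  · simp [LinearMap.toMatrix_apply]
  · simp only [b, LinearMap.toMatrix_apply, sumQuot_inl, Matrix.fromBlocks_apply₂₁, Matrix.zero_apply]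
    have hk : g (bW k) ∈ W := h (bW k).2
    exact sumQuot_repr_inr_of_mem bW bQ _ hk j
  · simp only [LinearMap.toMatrix_apply, sumQuot_repr_inr, Matrix.fromBlocks_apply₂₂, b]
    rw [← quo_mk h, Submodule.mkQ_apply, sumQuot_inr]

theorem charpoly_eq_of_equiv (e : V ≃ₗ[F] V') {g : End F V} {g' : End F V'} (h : ∀ v, e (g v) = g' (e v)) :
    g.charpoly = g'.charpoly := by
  rw [← e.charpoly_conj g]
  congr 1
  ext v
  simp [LinearEquiv.conj_apply, h]

theorem Inv.res_range {Φ : Fn F} (hΦ : Inv Φ) (i : V' →ₗ[F] V) (hi : Function.Injective i) {g : End F V}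
    {g' : End F V'} (h : ∀ v, i (g' v) = g (i v)) {W : Submodule F V} (hW : W = LinearMap.range i) :
    Φ W (res g W) = Φ V' g' := by
  subst hW
  refine (hΦ _ _ (LinearEquiv.ofInjective i hi) _ _ fun v => Subtype.ext ?_).symm
  rw [coe_res]
  · exact h v
  · rintro _ ⟨v, rfl⟩
    exact ⟨g' v, h v⟩

theorem Inv.res_top {Φ : Fn F} (hΦ : Inv Φ) (g : End F V) : Φ (⊤ : Submodule F V) (res g ⊤) = Φ V g :=
  hΦ.res_range (g' := g) LinearMap.id Function.injective_id (fun _ => rfl) LinearMap.range_id.symm

omit [Finite V] [Finite V'] in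
theorem map_le_comap {i : V' →ₗ[F] V} {g : End F V} {g' : End F V'} (h : ∀ v, i (g' v) = g (i v))
    {W : Submodule F V'} (hW : W ≤ W.comap g') : W.map i ≤ (W.map i).comap g := by
  rintro _ ⟨v, hv, rfl⟩
  exact ⟨g' v, hW hv, h v⟩

theorem Inv.res_map {Φ : Fn F} (hΦ : Inv Φ) (i : V' →ₗ[F] V) {g : End F V} {g' : End F V'}
    (h : ∀ v, i (g' v) = g (i v)) {W : Submodule F V'} (hW : W ≤ W.comap g') (hi : Disjoint W (LinearMap.ker i)) :
    Φ (W.map i) (res g (W.map i)) = Φ W (res g' W) :=
  hΦ.res_range (i ∘ₗ W.subtype) (LinearMap.ker_eq_bot.1 (by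
    rw [LinearMap.ker_comp, Submodule.disjoint_iff_comap_eq_bot.1 hi])) (fun v => by simp [coe_res hW, h])
    (by simp [LinearMap.range_comp])

/-- Sums over the invariant subspaces of an invariant subspace. -/
theorem Inv.sum_res {Φ : Fn F} (hΦ : Inv Φ) {g : End F V} {A : Submodule F V} (hA : A ≤ A.comap g)
    [DecidablePred fun W : Submodule F V => W ≤ A] :
    ∑ W ∈ (invs g).filter (· ≤ A), Φ W (res g W) = ∑ W ∈ invs (res g A), Φ W (res (res g A) W) := by
  symm
  refine sum_bij (fun W _ => W.map A.subtype) (fun W hW => ?_) (fun W _ W' _ e => ?_) (fun W hW => ?_)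
    fun W hW => ?_
  · exact mem_filter.2 ⟨mem_invs.2 (map_le_comap (coe_res hA) (mem_invs.1 hW)), A.map_subtype_le W⟩
  · exact Submodule.map_injective_of_injective A.injective_subtype e
  · obtain ⟨h1, h2⟩ := mem_filter.1 hW
    refine ⟨W.comap A.subtype, mem_invs.2 fun v hv => ?_, by simpa using h2⟩
    change (res g A v : V) ∈ W
    rw [coe_res hA]
    exact mem_invs.1 h1 hv
  · exact (hΦ.res_map A.subtype (coe_res hA) (mem_invs.1 hW) (by simp)).symm

end Basic

open Classical in
/-- Green's function: its sum over all invariant subspaces is `s` of the characteristic polynomial. -/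
noncomputable def J (s : F[X] → ℂ) (V : Type u) [AddCommGroup V] [Module F V] [Finite V] (g : End F V) : ℂ :=
  s g.charpoly - ∑ W ∈ ((invs g).erase ⊤).attach, J s W.1 (res g W.1)
termination_by finrank F V
decreasing_by exact Submodule.finrank_lt (ne_of_mem_erase W.2)

variable {V : Type u} [AddCommGroup V] [Module F V] [Finite V] {s : F[X] → ℂ}

open Classical in
theorem J_eq (g : End F V) : J s V g = s g.charpoly - ∑ W ∈ (invs g).erase ⊤, J s W (res g W) := by
  rw [J, sum_attach _ fun W : Submodule F V => J s W (res g W)]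

theorem inv_J : Inv (J s) := by
  classical
  intro V _ _ _ V' _ _ _ e g g' h
  induction hn : finrank F V using Nat.strong_induction_on generalizing V V' with
  | _ n ih =>
  rw [J_eq, J_eq, charpoly_eq_of_equiv e h]
  congr 1
  refine sum_bij (fun W _ => W.map e.toLinearMap) (fun W hW => ?_) (fun W _ W' _ e' => ?_) (fun W hW => ?_)
    fun W hW => ?_
  · rw [mem_erase] at hW ⊢
    exact ⟨fun ht => hW.1 (by simpa using ht), mem_invs.2 (map_le_comap h (mem_invs.1 hW.2))⟩
  · exact Submodule.map_injective_of_injective e.injective e'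
  · rw [mem_erase] at hW
    refine ⟨W.map e.symm.toLinearMap, mem_erase.2 ⟨fun ht => hW.1 (by simpa using ht),
      mem_invs.2 (map_le_comap (fun v => ?_) (mem_invs.1 hW.2))⟩, by simp [← Submodule.map_comp]⟩
    exact e.injective (by simp [h])
  · rw [mem_erase] at hW
    refine ih _ (hn ▸ Submodule.finrank_lt hW.1) _ _ (e.submoduleMap W) _ _ (fun v => Subtype.ext ?_) rfl
    rw [coe_res (map_le_comap h (mem_invs.1 hW.2))]
    simp [coe_res (mem_invs.1 hW.2), h]

theorem sum_J (g : End F V) : ∑ W ∈ invs g, J s W (res g W) = s g.charpoly := by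
  classical
  rw [← add_sum_erase _ _ (top_mem_invs g), inv_J.res_top, J_eq, sub_add_cancel]

theorem J_of_subsingleton [Subsingleton V] (g : End F V) : J s V g = s 1 := by
  rw [J_eq, sum_eq_zero fun W hW => absurd (Subsingleton.elim _ _) (ne_of_mem_erase hW), sub_zero,
    g.charpoly_monic.natDegree_eq_zero.1 (g.charpoly_natDegree.trans finrank_zero_of_subsingleton)]

/-- Endomorphisms with image in `A` that vanish on `A`. -/
def rad (A : Submodule F V) : Submodule F (End F V) where
  carrier := {b | (∀ v, b v ∈ A) ∧ ∀ v ∈ A, b v = 0}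
  add_mem' := fun ha hb => ⟨fun v => A.add_mem (ha.1 v) (hb.1 v), fun v hv => by simp [ha.2 v hv, hb.2 v hv]⟩
  zero_mem' := by simp
  smul_mem' := fun c _ hb => ⟨fun v => A.smul_mem c (hb.1 v), fun v hv => by simp [hb.2 v hv]⟩

omit [Finite V] in
theorem inv_add_rad {A : Submodule F V} {g : End F V} (hA : A ≤ A.comap g) (b : rad A) :
    A ≤ A.comap (g + b.1) := fun v hv => A.add_mem (hA hv) (b.2.1 v)

omit [Finite V] in
theorem res_add_rad {A W : Submodule F V} {g : End F V} (hW : W ≤ A) (b : rad A) :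
    (W ≤ W.comap (g + b.1) ↔ W ≤ W.comap g) ∧ res (g + b.1) W = res g W := by
  have h1 : ∀ v ∈ W, (g + b.1) v = g v := fun v hv => by simp [b.2.2 v (hW hv)]
  have h2 : W ≤ W.comap (g + b.1) ↔ W ≤ W.comap g :=
    forall₂_congr fun v hv => by rw [Submodule.mem_comap, Submodule.mem_comap, h1 v hv]
  refine ⟨h2, ?_⟩
  by_cases h : W ≤ W.comap g
  · ext v
    rw [coe_res h, coe_res (h2.2 h), h1 v v.2]
  · rw [res, res, dif_neg h, dif_neg (mt h2.1 h)]

omit [Finite V] in
theorem quo_add_rad {A : Submodule F V} {g : End F V} (hA : A ≤ A.comap g) (b : rad A) :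
    quo (g + b.1) A = quo g A := by
  refine LinearMap.ext fun v => ?_
  obtain ⟨v, rfl⟩ := A.mkQ_surjective v
  rw [quo_mk hA, quo_mk (inv_add_rad hA b), LinearMap.add_apply, map_add, add_eq_left]
  exact (Submodule.Quotient.mk_eq_zero _).2 (b.2.1 v)

theorem charpoly_add_rad {A : Submodule F V} {g : End F V} (hA : A ≤ A.comap g) (b : rad A) :
    (g + b.1).charpoly = g.charpoly := by
  rw [charpoly_eq_mul hA, charpoly_eq_mul (inv_add_rad hA b), (res_add_rad le_rfl b).2, quo_add_rad hA]

/-- The members of `rad A` leaving `W` invariant. -/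
def radS (A W : Submodule F V) : Submodule F (rad A) where
  carrier := {b | W ≤ W.comap b.1}
  add_mem' := fun ha hb _ hv => W.add_mem (ha hv) (hb hv)
  zero_mem' := fun _ _ => W.zero_mem
  smul_mem' := fun c _ hb _ hv => W.smul_mem c (hb hv)

/-- Restriction to `W`. -/
noncomputable def radR (A W : Submodule F V) : radS A W →ₗ[F] rad (A.comap W.subtype) where
  toFun b := ⟨res b.1.1 W, fun v => by
    change (res b.1.1 W v : V) ∈ A
    rw [coe_res b.2]
    exact b.1.2.1 v, fun v hv => Subtype.ext (by rw [coe_res b.2]; exact b.1.2.2 v hv)⟩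
  map_add' a b := by
    ext v
    exact (coe_res (a + b).2 v).trans (congrArg₂ (· + ·) (coe_res a.2 v) (coe_res b.2 v)).symm
  map_smul' c a := by
    ext v
    exact (coe_res (c • a).2 v).trans (congrArg (c • ·) (coe_res a.2 v)).symm

omit [Finite V] in
theorem radR_surjective (A W : Submodule F V) : Function.Surjective (radR A W) := by
  intro c
  obtain ⟨d, hd⟩ := exists_comp_eq (A.mkQ ∘ₗ W.subtype) (c.1.codRestrict _ c.2.1) fun v hv =>
    Subtype.ext (c.2.2 v (by simpa using hv))
  refine ⟨⟨⟨W.subtype ∘ₗ (A.comap W.subtype).subtype ∘ₗ d ∘ₗ A.mkQ, fun v => (d _).2, fun v hv => ?_⟩,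
    fun v _ => (d _).1.2⟩, Subtype.ext (LinearMap.ext fun v => Subtype.ext ?_)⟩
  · simp [(Submodule.Quotient.mk_eq_zero _).2 hv]
  · refine (coe_res ?_ v).trans (congrArg (fun z => (z.1 : V)) (hd v))
    exact fun v _ => (d _).1.2

open Classical in
theorem sum_rad_eq (Φ : Fn F) {A W : Submodule F V} {g : End F V} {b₀ : rad A} (h : W ≤ W.comap (g + b₀.1)) :
    (∑ b : rad A, if W ≤ W.comap (g + b.1) then Φ W (res (g + b.1) W) else 0) =
      Nat.card (LinearMap.ker (radR A W)) * ∑ c : rad (A.comap W.subtype), Φ W (res (g + b₀.1) W + c.1) := by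
  have key : ∀ b : rad A, W ≤ W.comap (g + (b₀ + b).1) ↔ b ∈ radS A W := fun b =>
    forall₂_congr fun v hv => by
      rw [Submodule.coe_add, ← add_assoc]
      exact W.add_mem_iff_right (h hv)
  have hs := sum_comp_surj (F := F) (A := radS A W) (B := rad (A.comap W.subtype)) (radR A W) (radR_surjective A W)
    fun c => Φ W (res (g + b₀.1) W + c.1)
  refine Eq.trans ?_ hs
  rw [← Equiv.sum_comp (Equiv.addLeft b₀), ← sum_filter]
  refine (sum_subtype (p := (· ∈ radS A W)) _ (fun b => (mem_filter_univ b).trans (key b)) _).trans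
    (sum_congr rfl fun b _ => ?_)
  congr 1
  ext v
  rw [Equiv.coe_addLeft, coe_res ((key b).2 b.2), LinearMap.add_apply (res _ _), Submodule.coe_add (res _ _ _), coe_res h]
  change _ = _ + (res b.1.1 W v : V)
  rw [coe_res b.2]
  simp [add_assoc]

theorem card_hom {V' : Type u} [AddCommGroup V'] [Module F V'] [Finite V'] :
    Nat.card (V →ₗ[F] V') = Nat.card F ^ (finrank F V * finrank F V') := by
  rw [Module.natCard_eq_pow_finrank (K := F), Module.finrank_linearMap]

theorem card_radS {A W : Submodule F V} (h : Disjoint W A) :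
    (Nat.card (rad A) : ℂ) = Nat.card (radS A W) * Nat.card (W →ₗ[F] A) := by
  let ρ : rad A →ₗ[F] (W →ₗ[F] A) :=
    { toFun := fun b => b.1.codRestrict A b.2.1 ∘ₗ W.subtype
      map_add' := fun _ _ => rfl
      map_smul' := fun _ _ => rfl }
  have hk : LinearMap.ker ρ = radS A W := by
    ext b
    refine ⟨fun hb v hv => ?_, fun hb => LinearMap.ext fun v => Subtype.ext ?_⟩
    · have : b.1 v = 0 := congrArg Subtype.val (LinearMap.congr_fun hb ⟨v, hv⟩)
      exact Submodule.mem_comap.2 (this ▸ W.zero_mem)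
    · exact (Submodule.disjoint_def.1 h) _ (hb v.2) (b.2.1 v)
  have hs : Function.Surjective ρ := fun c => by
    obtain ⟨d, hd⟩ := exists_comp_eq (A.mkQ ∘ₗ W.subtype) c fun v hv => by
      rw [show v = 0 from Subtype.ext ((Submodule.disjoint_def.1 h) _ v.2 (by simpa using hv))]
      exact zero_mem _
    refine ⟨⟨A.subtype ∘ₗ d ∘ₗ A.mkQ, fun v => (d _).2, fun v hv => ?_⟩, LinearMap.ext fun v => hd v⟩
    simp [(Submodule.Quotient.mk_eq_zero _).2 hv]
  simpa [hk] using sum_comp_surj ρ hs fun _ => 1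

omit [Finite V] in
theorem card_over (A : Submodule F V) (X : Submodule F (V ⧸ A)) :
    Nat.card {W : Submodule F V // Disjoint W A ∧ W.map A.mkQ = X} = Nat.card (X →ₗ[F] A) := by
  obtain ⟨σ, hσ⟩ := A.mkQ.exists_rightInverse_of_surjective A.range_mkQ
  let m : (X →ₗ[F] A) → (X →ₗ[F] V) := fun φ => σ ∘ₗ X.subtype + A.subtype ∘ₗ φ
  have hm : ∀ φ x, A.mkQ (m φ x) = x := fun φ x => by
    have := LinearMap.congr_fun hσ x
    simpa [m, (Submodule.Quotient.mk_eq_zero _).2 (φ x).2] using this
  have hd : ∀ φ, Disjoint (LinearMap.range (m φ)) A ∧ (LinearMap.range (m φ)).map A.mkQ = X := fun φ => by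
    refine ⟨?_, le_antisymm ?_ fun x hx => ⟨_, ⟨⟨x, hx⟩, rfl⟩, hm φ _⟩⟩
    · rw [Submodule.disjoint_def]
      rintro _ ⟨x, rfl⟩ hx
      rw [show x = 0 from Subtype.ext ((hm φ x).symm.trans ((Submodule.Quotient.mk_eq_zero _).2 hx)), map_zero]
    · rintro _ ⟨_, ⟨x, rfl⟩, rfl⟩
      rw [hm]
      exact x.2
  refine (Nat.card_congr (Equiv.ofBijective (fun φ => ⟨LinearMap.range (m φ), hd φ⟩) ⟨?_, ?_⟩)).symm
  · intro φ ψ e
    ext x
    obtain ⟨y, hy⟩ : m φ x ∈ LinearMap.range (m ψ) := (congrArg Subtype.val e).le ⟨x, rfl⟩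
    obtain rfl : y = x := Subtype.ext (by rw [← hm ψ y, hy, hm])
    simpa [m] using hy.symm
  · rintro ⟨W, h1, rfl⟩
    obtain ⟨τ, hτ⟩ := (A.mkQ.submoduleMap W).exists_rightInverse_of_surjective
      (LinearMap.range_eq_top.2 (A.mkQ.submoduleMap_surjective W))
    have h2 : ∀ x, A.mkQ (τ x) = x := fun x => congrArg Subtype.val (LinearMap.congr_fun hτ x)
    have h3 : ∀ x, (W.subtype ∘ₗ τ - σ ∘ₗ (W.map A.mkQ).subtype) x ∈ A := fun x => by
      rw [← Submodule.Quotient.mk_eq_zero, ← Submodule.mkQ_apply, LinearMap.sub_apply, map_sub, sub_eq_zero]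
      exact (h2 x).trans (LinearMap.congr_fun hσ x).symm
    refine ⟨LinearMap.codRestrict A _ h3, Subtype.ext (le_antisymm ?_ ?_)⟩
    · rintro _ ⟨x, rfl⟩
      simp [m]
    · intro w hw
      refine ⟨⟨_, w, hw, rfl⟩, ?_⟩
      have := (Submodule.disjoint_def.1 h1) _ (W.sub_mem (τ ⟨_, w, hw, rfl⟩).2 hw)
        ((Submodule.Quotient.eq _).1 (h2 _))
      simpa [m, sub_eq_zero] using this

open Classical in
theorem Inv.sum_disjoint {Φ : Fn F} (hΦ : Inv Φ) {A : Submodule F V} {g : End F V} (hA : A ≤ A.comap g) :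
    (∑ W with Disjoint W A, ∑ b : rad A, if W ≤ W.comap (g + b.1) then Φ W (res (g + b.1) W) else 0) =
      Nat.card (rad A) * ∑ X ∈ invs (quo g A), Φ X (res (quo g A) X) := by
  rw [← sum_fiberwise (g := fun W : Submodule F V => W.map A.mkQ), invs, sum_filter, mul_sum]
  refine sum_congr rfl fun X _ => ?_
  have hq : ∀ (b : rad A) v, A.mkQ ((g + b.1) v) = quo g A (A.mkQ v) := fun b v => by
    rw [← quo_add_rad hA b, quo_mk (inv_add_rad hA b)]
  split_ifs with hX
  · rw [sum_congr rfl (g := fun _ => Nat.card (rad A) / Nat.card (X →ₗ[F] A) * Φ X (res (quo g A) X)), sum_const,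
      filter_filter, ← Fintype.card_subtype, ← Nat.card_eq_fintype_card, card_over, nsmul_eq_mul, ← mul_assoc,
      mul_div_cancel₀ _ (Nat.cast_ne_zero.2 Nat.card_pos.ne')]
    intro W hW
    obtain ⟨h1, rfl⟩ : Disjoint W A ∧ W.map A.mkQ = X := by simpa using hW
    have h2 : Disjoint W (LinearMap.ker A.mkQ) := by rwa [A.ker_mkQ]
    obtain ⟨B, hB, hc⟩ := h1.exists_isCompl
    let P := Submodule.projection A B hc.symm
    have h3 : W ≤ W.comap (g + -(P * g * (1 - P))) := fun v hv => by
      obtain ⟨w, hw, e⟩ := hX ⟨v, hv, rfl⟩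
      have e1 : g v - w ∈ A := (Submodule.Quotient.eq _).1 ((quo_mk hA v).symm.trans e.symm)
      have e2 := Submodule.projection_apply_of_mem_left hc.symm e1
      have e3 : ∀ x ∈ W, P x = 0 := fun x hx => (Submodule.projection_apply_eq_zero_iff hc.symm).2 (hB hx)
      rw [map_sub, e3 w hw] at e2
      have e4 : (g + -(P * g * (1 - P))) v = w := by
        simp only [LinearMap.add_apply, LinearMap.neg_apply, End.mul_apply, LinearMap.sub_apply, End.one_apply,
          e3 v hv, sub_zero] at e2 ⊢
        rw [e2]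
        abel
      exact Submodule.mem_comap.2 (e4 ▸ hw)
    let b₀ : rad A := ⟨-(P * g * (1 - P)), fun v => A.neg_mem (Submodule.projection_apply_mem hc.symm _),
      fun v hv => by simp [P, Submodule.projection_apply_of_mem_left hc.symm hv]⟩
    have key : ∀ b : rad A, W ≤ W.comap (g + (b₀ + b).1) ↔ b ∈ radS A W := fun b =>
      forall₂_congr fun v hv => by
        rw [Submodule.coe_add, ← add_assoc]
        exact W.add_mem_iff_right (h3 hv)
    have hr : finrank F (W.map A.mkQ) = finrank F W := by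
      rw [← LinearMap.finrank_range_of_inj (f := A.mkQ ∘ₗ W.subtype) (LinearMap.ker_eq_bot.1 (by
        rw [LinearMap.ker_comp, Submodule.disjoint_iff_comap_eq_bot.1 h2])), LinearMap.range_comp, W.range_subtype]
    rw [sum_congr rfl (g := fun b : rad A => if W ≤ W.comap (g + b.1) then Φ _ (res (quo g A) (W.map A.mkQ)) else 0)
      fun b _ => if_ctx_congr Iff.rfl (fun h => (hΦ.res_map A.mkQ (hq b) h h2).symm) fun _ => rfl,
      ← Equiv.sum_comp (Equiv.addLeft b₀), ← sum_filter, sum_const, nsmul_eq_mul, card_radS h1,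
      card_hom (V := W.map A.mkQ), hr, ← card_hom,
      mul_div_cancel_right₀ _ (Nat.cast_ne_zero.2 Nat.card_pos.ne'), ← Fintype.card_subtype,
      ← Nat.card_eq_fintype_card]
    simp only [Equiv.coe_addLeft, key]
  · refine (sum_eq_zero fun W hW => sum_eq_zero fun b _ => if_neg fun h => hX ?_).trans (mul_zero _).symm
    rw [← (mem_filter.1 hW).2]
    exact map_le_comap (hq b) h

/-- Additivity on monic polynomials. -/
def IsAdd (s : F[X] → ℂ) : Prop := ∀ a b : F[X], a.Monic → b.Monic → s (a * b) = s a + s b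

theorem IsAdd.one (hs : IsAdd s) : s 1 = 0 := by simpa using hs 1 1 monic_one monic_one

/-- Green's function vanishes when averaged over the unipotent radical of a proper parabolic subgroup. -/
theorem sum_J_rad (hs : IsAdd s) {A : Submodule F V} (h0 : A ≠ ⊥) (h1 : A ≠ ⊤) {g : End F V}
    (hA : A ≤ A.comap g) : ∑ b : rad A, J s V (g + b.1) = 0 := by
  classical
  induction hn : finrank F V using Nat.strong_induction_on generalizing V with
  | _ n ih =>
  let T : Submodule F V → ℂ := fun W => ∑ b : rad A, if W ≤ W.comap (g + b.1) then J s W (res (g + b.1) W) else 0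
  have e1 : ∑ W, T W = Nat.card (rad A) * s g.charpoly := by
    rw [sum_comm, sum_congr rfl (g := fun _ => s g.charpoly) fun b _ => by
      rw [← charpoly_add_rad hA b, ← sum_J (s := s), invs, sum_filter]]
    simp
  have e2 : ∀ W, T W = (if W = ⊤ then ∑ b : rad A, J s V (g + b.1) else 0) +
      (if W ∈ (invs g).filter (· ≤ A) then Nat.card (rad A) * J s W (res g W) else 0) +
      if Disjoint W A then T W else 0 := fun W => by
    by_cases hW : W = ⊤
    · subst hW
      simp [T, h0, h1, inv_J.res_top]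
    rw [if_neg hW, zero_add]
    by_cases hWA : W ≤ A
    · have e : T W = if W ∈ (invs g).filter (· ≤ A) then Nat.card (rad A) * J s W (res g W) else 0 := by
        simp [T, res_add_rad hWA, mem_invs, hWA]
      rw [← e, left_eq_add]
      split_ifs with hd
      · obtain rfl := hd.eq_bot_of_le hWA
        simp [T, J_of_subsingleton, hs.one]
      · rfl
    rw [if_neg (c := W ∈ _) fun h => hWA (mem_filter.1 h).2, zero_add]
    split_ifs with hd
    · rfl
    by_cases hb : ∃ b₀ : rad A, W ≤ W.comap (g + b₀.1)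
    · obtain ⟨b₀, hb⟩ := hb
      refine (sum_rad_eq (J s) hb).trans (mul_eq_zero_of_right _ (ih _ (hn ▸ Submodule.finrank_lt hW)
        (mt Submodule.disjoint_iff_comap_eq_bot.2 hd) (by simpa using hWA) (fun v hv => ?_) rfl))
      change (res _ W v : V) ∈ A
      rw [coe_res hb]
      exact inv_add_rad hA b₀ hv
    · exact sum_eq_zero fun b _ => if_neg fun h => hb ⟨b, h⟩
  rw [sum_congr rfl fun W _ => e2 W, sum_add_distrib, sum_add_distrib, sum_ite_eq', if_pos (mem_univ _), sum_ite_mem,
    univ_inter, ← mul_sum, inv_J.sum_res hA, sum_J, ← sum_filter, inv_J.sum_disjoint hA, sum_J, charpoly_eq_mul hA,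
    hs _ _ (LinearMap.charpoly_monic _) (LinearMap.charpoly_monic _), mul_add, add_assoc] at e1
  simpa using e1

end Cfsg.Agent.Cl.Cu
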