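import Mathlib
import Cfsg.Agent.Cl.CharCuspA
import Cfsg.Agent.Cl.ClassSim
import Cfsg.Agent.S2420

/-!
Averages over all endomorphisms as power series; the mean value of Green's function times an additive function.
-/

set_option autoImplicit false

namespace Cfsg.Agent.Cl.Cu

open Finset Module Polynomial

universe u

variable {F : Type u} [Field F] {V : Type u} [AddCommGroup V] [Module F V] [Finite V]

theorem card_rad (W : Submodule F V) :
    (Nat.card (rad W) : ℂ) = (Nat.card F : ℂ) ^ ((finrank F V - finrank F W) * finrank F W) := by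
  obtain ⟨C, hC⟩ := W.exists_isCompl
  have h1 : radS W C = ⊥ := (Submodule.eq_bot_iff _).2 fun b hb => Subtype.ext (LinearMap.ext fun v => by
    obtain ⟨w, hw, c, hc, rfl⟩ := Submodule.mem_sup.1 (hC.sup_eq_top ▸ Submodule.mem_top : v ∈ W ⊔ C)
    rw [map_add, b.2.2 w hw, (Submodule.disjoint_def.1 hC.disjoint) _ (b.2.1 c) (hb hc)]
    simp)
  rw [card_radS hC.disjoint.symm, h1, card_hom, ← Submodule.finrank_add_eq_of_isCompl hC]
  simp

/-- The endomorphisms leaving `W` invariant. -/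
def stab (W : Submodule F V) : Submodule F (End F V) where
  carrier := {b | W ≤ W.comap b}
  add_mem' := fun ha hb _ hv => W.add_mem (ha hv) (hb hv)
  zero_mem' := fun _ _ => W.zero_mem
  smul_mem' := fun c _ hb _ hv => W.smul_mem c (hb hv)

/-- The maps induced on `W` and on the quotient. -/
noncomputable def stabR (W : Submodule F V) : stab W →ₗ[F] End F W × End F (V ⧸ W) where
  toFun b := (res b.1 W, quo b.1 W)
  map_add' a b := by
    refine Prod.ext (LinearMap.ext fun v => Subtype.ext ?_) (W.linearMap_qext (LinearMap.ext fun v => ?_))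
    · exact (coe_res (a + b).2 v).trans (congrArg₂ (· + ·) (coe_res a.2 v) (coe_res b.2 v)).symm
    · exact (quo_mk (a + b).2 v).trans (congrArg₂ (· + ·) (quo_mk a.2 v) (quo_mk b.2 v)).symm
  map_smul' c a := by
    refine Prod.ext (LinearMap.ext fun v => Subtype.ext ?_) (W.linearMap_qext (LinearMap.ext fun v => ?_))
    · exact (coe_res (c • a).2 v).trans (congrArg (c • ·) (coe_res a.2 v)).symm
    · exact (quo_mk (c • a).2 v).trans (congrArg (c • ·) (quo_mk a.2 v)).symm

theorem stabR_surjective (W : Submodule F V) : Function.Surjective (stabR W) := by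
  rintro ⟨a, d⟩
  obtain ⟨σ, hσ⟩ := W.mkQ.exists_rightInverse_of_surjective W.range_mkQ
  obtain ⟨ρ, hρ⟩ := W.subtype.exists_leftInverse_of_injective W.ker_subtype
  have h1 : ∀ w : W, (W.subtype ∘ₗ a ∘ₗ ρ + σ ∘ₗ d ∘ₗ W.mkQ) w = a w := fun w => by
    have := LinearMap.congr_fun hρ w
    simp only [LinearMap.comp_apply, Submodule.subtype_apply, LinearMap.id_apply] at this
    simp [this, (Submodule.Quotient.mk_eq_zero _).2 w.2]
  have h2 : W ≤ W.comap (W.subtype ∘ₗ a ∘ₗ ρ + σ ∘ₗ d ∘ₗ W.mkQ) := fun w hw =>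
    Submodule.mem_comap.2 (h1 ⟨w, hw⟩ ▸ (a _).2)
  refine ⟨⟨_, h2⟩, Prod.ext (LinearMap.ext fun w => Subtype.ext ((coe_res h2 w).trans (h1 w)))
    (W.linearMap_qext (LinearMap.ext fun v => (quo_mk h2 v).trans ?_))⟩
  have := LinearMap.congr_fun hσ (d (W.mkQ v))
  simpa [(Submodule.Quotient.mk_eq_zero _).2 (a (ρ v)).2] using this

theorem card_ker_stabR (W : Submodule F V) : Nat.card (LinearMap.ker (stabR W)) = Nat.card (rad W) := by
  refine Nat.card_congr ⟨fun b => ⟨b.1.1, fun v => ?_, fun v hv => ?_⟩,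
    fun b => ⟨⟨b.1, fun v _ => b.2.1 v⟩, Prod.ext (LinearMap.ext fun w => Subtype.ext ?_)
      (W.linearMap_qext (LinearMap.ext fun v => ?_))⟩, fun _ => rfl, fun _ => rfl⟩
  · rw [← Submodule.Quotient.mk_eq_zero, ← Submodule.mkQ_apply, ← quo_mk b.1.2]
    exact LinearMap.congr_fun (congrArg Prod.snd b.2) _
  · exact (coe_res b.1.2 ⟨v, hv⟩).symm.trans
      (congrArg Subtype.val (LinearMap.congr_fun (congrArg Prod.fst b.2) ⟨v, hv⟩))
  · exact (coe_res (fun v _ => b.2.1 v) w).trans (b.2.2 w w.2)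
  · exact (quo_mk (fun v _ => b.2.1 v) v).trans ((Submodule.Quotient.mk_eq_zero _).2 (b.2.1 v))

open Classical in
theorem sum_stab (W : Submodule F V) (φ : End F W → ℂ) (ψ : End F (V ⧸ W) → ℂ) :
    (∑ g : End F V, if W ≤ W.comap g then φ (res g W) * ψ (quo g W) else 0) =
      (Nat.card F : ℂ) ^ ((finrank F V - finrank F W) * finrank F W) * ((∑ a, φ a) * ∑ d, ψ d) := by
  have hs := sum_comp_surj (F := F) (A := stab W) (B := End F W × End F (V ⧸ W)) (stabR W) (stabR_surjective W)
    fun c => φ c.1 * ψ c.2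
  rw [card_ker_stabR, card_rad, Fintype.sum_prod_type, ← sum_mul_sum] at hs
  rw [← hs, ← sum_filter]
  exact sum_subtype (p := (· ∈ stab W)) _ (fun b => mem_filter_univ b) _

variable [Finite F]

/-- The normalised sums over all endomorphisms of the spaces `F^n`. -/
noncomputable def avg (Φ : Fn F) : PowerSeries ℂ :=
  PowerSeries.mk fun n => (∑ g : End F (Fin n → F), Φ _ g) / Nat.card (GL (Fin n) F)

theorem Inv.sum_eq {Φ : Fn F} (hΦ : Inv Φ) :
    ∑ g : End F V, Φ V g = Nat.card (GL (Fin (finrank F V)) F) * PowerSeries.coeff (finrank F V) (avg Φ) := by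
  rw [avg, PowerSeries.coeff_mk, mul_div_cancel₀ _ (Nat.cast_ne_zero.2 Nat.card_pos.ne')]
  let e := (Module.finBasis F V).equivFun
  exact Fintype.sum_equiv e.conj.toEquiv _ _ fun g => hΦ _ _ e _ _ fun v => by simp [LinearEquiv.conj_apply]

theorem card_subspaces_gl (k l : ℕ) :
    Nat.card {W : Submodule F (Fin (k + l) → F) // finrank F W = k} * Nat.card F ^ (l * k) *
      (Nat.card (GL (Fin k) F) * Nat.card (GL (Fin l) F)) = Nat.card (GL (Fin (k + l)) F) := by
  have := Fintype.ofFinite F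
  have h := Der.card_subspaces_mul' (F := F) (V := Fin (k + l) → F) (m := k) (by simp)
  have e : (k + l) * (k + l - 1) / 2 = l * k + (k * (k - 1) / 2 + l * (l - 1) / 2) := by
    have h1 := S2420.two_mul_half k
    have h2 := S2420.two_mul_half l
    have h3 := S2420.two_mul_half (k + l)
    nlinarith
  simp only [finrank_fin_fun, Nat.add_sub_cancel_left, Der.qfac, ← Nat.card_eq_fintype_card] at h
  simp only [card_gl', Fintype.card_fin, ← h, e]
  ring

theorem avg_conv {Φ Ψ Θ : Fn F} (hΦ : Inv Φ) (hΨ : Inv Ψ)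
    (h : ∀ n (g : End F (Fin n → F)), Θ _ g = ∑ W ∈ invs g, Φ W (res g W) * Ψ _ (quo g W)) :
    avg Θ = avg Φ * avg Ψ := by
  classical
  ext n
  rw [PowerSeries.coeff_mul, avg, PowerSeries.coeff_mk, div_eq_iff (Nat.cast_ne_zero.2 Nat.card_pos.ne'), sum_mul]
  simp only [h, invs, sum_filter]
  rw [sum_comm, ← sum_fiberwise_of_maps_to (t := antidiagonal n)
    (g := fun W : Submodule F (Fin n → F) => (finrank F W, finrank F ((Fin n → F) ⧸ W))) fun W _ => by
      rw [HasAntidiagonal.mem_antidiagonal, add_comm, W.finrank_quotient_add_finrank, finrank_fin_fun]]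
  refine sum_congr rfl fun ⟨k, l⟩ hkl => ?_
  obtain rfl : k + l = n := HasAntidiagonal.mem_antidiagonal.1 hkl
  rw [← card_subspaces_gl, sum_congr rfl (g := fun _ => (Nat.card F : ℂ) ^ (l * k) *
    ((Nat.card (GL (Fin k) F) * PowerSeries.coeff k (avg Φ)) * (Nat.card (GL (Fin l) F) * PowerSeries.coeff l (avg Ψ)))),
    sum_const, nsmul_eq_mul, ← Fintype.card_subtype, ← Nat.card_eq_fintype_card,
    Nat.card_congr (Equiv.subtypeEquivRight (q := fun W : Submodule F _ => finrank F W = k) fun W => ?_)]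
  · push_cast
    ring
  · have := W.finrank_quotient_add_finrank
    rw [finrank_fin_fun] at this
    rw [Prod.mk.injEq]
    omega
  · intro W hW
    obtain ⟨h1, h2⟩ := Prod.mk.inj (mem_filter.1 hW).2
    refine (sum_stab W (Φ W) (Ψ _)).trans ?_
    rw [hΦ.sum_eq, hΨ.sum_eq, h1, h2, finrank_fin_fun, Nat.add_sub_cancel_left]

theorem avg_sum {ι : Type*} (S : Finset ι) (Φ : ι → Fn F) :
    avg (fun V _ _ _ g => ∑ i ∈ S, Φ i V g) = ∑ i ∈ S, avg (Φ i) := by
  ext n
  simp only [avg, PowerSeries.coeff_mk, map_sum, ← sum_div]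
  rw [sum_comm]

/-- The average of a function of the characteristic polynomial. -/
noncomputable def Z (φ : F[X] → ℂ) : PowerSeries ℂ := avg fun _ _ _ _ g => φ g.charpoly

theorem Z_mul {ι : Type*} [Fintype ι] {Γ : Fn F} (hΓ : Inv Γ) {σ φ : F[X] → ℂ} {α β : ι → F[X] → ℂ}
    (hσ : ∀ n (g : End F (Fin n → F)), ∑ W ∈ invs g, Γ W (res g W) = σ g.charpoly)
    (hφ : ∀ a b : F[X], a.Monic → b.Monic → φ (a * b) = ∑ i, α i a * β i b) :
    Z (fun h => σ h * φ h) = ∑ i, avg (fun V _ _ _ g => Γ V g * α i g.charpoly) * Z (β i) := by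
  simp only [Z]
  rw [← sum_congr rfl fun i _ => avg_conv (Φ := fun V _ _ _ g => Γ V g * α i g.charpoly)
    (Ψ := fun _ _ _ _ g => β i g.charpoly)
    (Θ := fun V _ _ _ g => ∑ W ∈ invs g, Γ W (res g W) * α i (res g W).charpoly * β i (quo g W).charpoly)
    (fun _ _ _ _ _ _ _ _ e _ _ h => by simp only [hΓ _ _ e _ _ h, charpoly_eq_of_equiv e h])
    (fun _ _ _ _ _ _ _ _ e _ _ h => by simp only [charpoly_eq_of_equiv e h]) fun _ _ => rfl, ← avg_sum, avg, avg]
  congr 1
  funext n
  congr 1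
  refine sum_congr rfl fun g _ => ?_
  rw [← hσ, sum_mul, sum_comm]
  refine sum_congr rfl fun W hW => ?_
  rw [charpoly_eq_mul (mem_invs.1 hW), hφ _ _ (LinearMap.charpoly_monic _) (LinearMap.charpoly_monic _), mul_sum]
  simp only [mul_assoc]

section Cyclic

omit [Finite F] [Finite V] in
theorem map_aeval {V' : Type u} [AddCommGroup V'] [Module F V'] (i : V' →ₗ[F] V) {g : End F V} {g' : End F V'}
    (h : ∀ v, i (g' v) = g (i v)) (p : F[X]) (v : V') : i (aeval g' p v) = aeval g p (i v) := by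
  induction p using Polynomial.induction_on' with
  | add p q hp hq => simp [hp, hq]
  | monomial n a =>
    simp only [aeval_monomial, End.mul_apply, algebraMap_end_apply, map_smul]
    congr 1
    induction n with
    | zero => rfl
    | succ n ih => rw [pow_succ', pow_succ', End.mul_apply, End.mul_apply, h, ih]

/-- The number of cyclic vectors. -/
noncomputable def cycN : Fn F := fun V _ _ _ g => Nat.card {v : V // ∀ w, ∃ p : F[X], aeval g p v = w}

omit [Finite F] in
theorem inv_cycN : Inv (cycN : Fn F) := fun V _ _ _ V' _ _ _ e g g' h => by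
  refine congrArg Nat.cast (Nat.card_congr (Equiv.subtypeEquiv e.toEquiv fun v => ?_))
  refine e.toEquiv.forall_congr fun w => exists_congr fun p => ?_
  rw [← e.injective.eq_iff]
  exact (map_aeval e.toLinearMap h p v).congr_left

omit [Finite F] in
theorem sum_cycN (g : End F V) : ∑ W ∈ invs g, cycN W (res g W) = (Nat.card F : ℂ) ^ g.charpoly.natDegree := by
  classical
  have := Fintype.ofFinite V
  let Zv : V → Submodule F V := fun v => LinearMap.range (LinearMap.applyₗ v ∘ₗ (aeval g).toLinearMap)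
  have hZ : ∀ v w, w ∈ Zv v ↔ ∃ p : F[X], aeval g p v = w := fun _ _ => Iff.rfl
  rw [g.charpoly_natDegree, ← Nat.cast_pow, ← Module.natCard_eq_pow_finrank, Nat.card_eq_fintype_card, ← card_univ,
    card_eq_sum_card_fiberwise (f := Zv) (t := invs g) fun v _ => mem_invs.2 ?_, Nat.cast_sum]
  · refine sum_congr rfl fun W hW => congrArg Nat.cast ?_
    have hW := mem_invs.1 hW
    rw [← Fintype.card_subtype, ← Nat.card_eq_fintype_card]
    refine Nat.card_congr ⟨fun v => ⟨v.1, le_antisymm ?_ fun w hw => ?_⟩,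
      fun v => ⟨⟨v.1, v.2.le ⟨1, by simp⟩⟩, fun w => ?_⟩, fun _ => rfl, fun _ => rfl⟩
    · rintro _ ⟨p, rfl⟩
      exact Set.mem_of_eq_of_mem (map_aeval W.subtype (coe_res hW) p v.1).symm (aeval (res g W) p v.1).2
    · obtain ⟨p, hp⟩ := v.2 ⟨w, hw⟩
      exact ⟨p, (map_aeval W.subtype (coe_res hW) p v.1).symm.trans (congrArg Subtype.val hp)⟩
    · obtain ⟨p, hp⟩ := v.2.ge w.2
      exact ⟨p, Subtype.ext ((map_aeval W.subtype (coe_res hW) p _).trans hp)⟩
  · rintro _ ⟨p, rfl⟩
    exact ⟨X * p, by simp⟩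

theorem finite_mons (n : ℕ) : {p : F[X] | p.Monic ∧ p.natDegree = n}.Finite :=
  Set.finite_coe_iff.1 (Finite.of_equiv _ ((monicEquivDegreeLT n).trans (degreeLTEquiv F n).toEquiv).symm)

variable (F) in
/-- The monic polynomials of degree `n`. -/
noncomputable def mons (n : ℕ) : Finset F[X] := (finite_mons n).toFinset

theorem mem_mons {n : ℕ} {p : F[X]} : p ∈ mons F n ↔ p.Monic ∧ p.natDegree = n := by simp [mons]

/-- Sums over monic polynomials. -/
noncomputable def L (φ : F[X] → ℂ) : PowerSeries ℂ := PowerSeries.mk fun n => ∑ h ∈ mons F n, φ h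

theorem card_cyc_pairs {n : ℕ} {h : F[X]} (hh : h ∈ mons F n) :
    Nat.card {z : End F (Fin n → F) × (Fin n → F) // (∀ w, ∃ p : F[X], aeval z.1 p z.2 = w) ∧ z.1.charpoly = h} =
      Nat.card (GL (Fin n) F) := by
  obtain ⟨hm, hd⟩ := mem_mons.1 hh
  have := hm.finite_adjoinRoot
  have hr : finrank F (AdjoinRoot h) = finrank F (Fin n → F) := by
    rw [(AdjoinRoot.powerBasis hm.ne_zero).finrank, finrank_fin_fun, ← hd]; rfl
  have key : ∀ (e : AdjoinRoot h ≃ₗ[F] (Fin n → F)) (p : F[X]),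
      aeval (e.conj (Cls.cyc h)) p (e 1) = e (AdjoinRoot.mk h p) := fun e p => by
    have := map_aeval e.toLinearMap (g := e.conj (Cls.cyc h)) (g' := Cls.cyc h)
      (fun v => by simp [LinearEquiv.conj_apply]) p 1
    rw [Cls.aeval_cyc] at this
    simpa using this.symm
  obtain ⟨e₀⟩ := FiniteDimensional.nonempty_linearEquiv_of_finrank_eq hr
  rw [Nat.card_congr (Matrix.GeneralLinearGroup.toLin.trans
    (LinearMap.GeneralLinearGroup.generalLinearEquiv F _)).toEquiv]
  symm
  refine Nat.card_congr (Equiv.ofBijective (fun e => ⟨((e₀.trans e).conj (Cls.cyc h), (e₀.trans e) 1),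
    fun w => (AdjoinRoot.mk_surjective ((e₀.trans e).symm w)).imp fun p hp => by
      rw [key, hp, LinearEquiv.apply_symm_apply], by rw [LinearEquiv.charpoly_conj, Cls.charpoly_cyc hm]⟩) ⟨?_, ?_⟩)
  · intro e e' he
    obtain ⟨h1, h2⟩ := Prod.mk.inj (congrArg Subtype.val he)
    refine LinearEquiv.ext fun v => ?_
    obtain ⟨p, hp⟩ := AdjoinRoot.mk_surjective (e₀.symm v)
    have := key (e₀.trans e) p
    dsimp only at h1 h2
    rw [h1, h2, key, hp] at this
    simpa using this.symm
  · rintro ⟨⟨g, v⟩, h1, h2⟩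
    obtain ⟨d, hd⟩ := exists_comp_eq (AdjoinRoot.mkₐ h).toLinearMap (LinearMap.applyₗ v ∘ₗ (aeval g).toLinearMap)
      fun p hp => by
        obtain ⟨r, rfl⟩ := AdjoinRoot.mk_eq_zero.1 hp
        have h3 : aeval g h = 0 := h2 ▸ g.aeval_self_charpoly
        simp [h3]
    replace hd : ∀ p, d (AdjoinRoot.mk h p) = aeval g p v := hd
    have hs : Function.Surjective d := fun w => (h1 w).elim fun p hp => ⟨_, (hd p).trans hp⟩
    let e := LinearEquiv.ofBijective d ⟨(LinearMap.injective_iff_surjective_of_finrank_eq_finrank hr).2 hs, hs⟩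
    have he : e₀.trans (e₀.symm.trans e) = e := by ext; simp
    refine ⟨e₀.symm.trans e, Subtype.ext (Prod.ext (LinearMap.ext fun w => ?_) ?_)⟩
    · obtain ⟨x, rfl⟩ := e.surjective w
      obtain ⟨p, rfl⟩ := AdjoinRoot.mk_surjective x
      simp only [he, LinearEquiv.conj_apply_apply, LinearEquiv.symm_apply_apply, Cls.cyc_apply]
      change d (AdjoinRoot.mk h X * _) = g (d _)
      rw [← map_mul, hd, hd]
      simp
    · simp only [he]
      exact (congrArg d (map_one _).symm).trans ((hd 1).trans (by simp))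

theorem avg_cycN (φ : F[X] → ℂ) : avg (fun V _ _ _ g => cycN V g * φ g.charpoly) = L φ := by
  classical
  ext n
  have := Fintype.ofFinite F
  rw [avg, L, PowerSeries.coeff_mk, PowerSeries.coeff_mk, div_eq_iff (Nat.cast_ne_zero.2 Nat.card_pos.ne'), sum_mul,
    ← sum_fiberwise_of_maps_to (t := mons F n) (g := LinearMap.charpoly) fun g _ =>
      mem_mons.2 ⟨g.charpoly_monic, g.charpoly_natDegree.trans (finrank_fin_fun F)⟩]
  refine sum_congr rfl fun h hh => ?_
  rw [← card_cyc_pairs hh, sum_congr rfl fun g hg => by rw [(mem_filter.1 hg).2], ← sum_mul, mul_comm,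
    Nat.card_eq_fintype_card, Fintype.card_subtype, card_filter, Fintype.sum_prod_type, sum_filter, Nat.cast_sum]
  congr 1
  refine sum_congr rfl fun g _ => ?_
  split_ifs with hg
  · simp only [hg, and_true, cycN]
    rw [Nat.card_eq_fintype_card, Fintype.card_subtype, card_filter]
  · simp [hg]

theorem rescale_Z {ι : Type*} [Fintype ι] {φ : F[X] → ℂ} {α β : ι → F[X] → ℂ}
    (hφ : ∀ a b : F[X], a.Monic → b.Monic → φ (a * b) = ∑ i, α i a * β i b) :
    PowerSeries.rescale (Nat.card F : ℂ) (Z φ) = ∑ i, L (α i) * Z (β i) := by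
  have := Z_mul inv_cycN (σ := fun h => (Nat.card F : ℂ) ^ h.natDegree) (fun _ g => sum_cycN g) hφ
  simp only [avg_cycN] at this
  rw [← this]
  ext n
  simp [Z, avg, PowerSeries.coeff_rescale, mul_div_assoc', mul_sum, LinearMap.charpoly_natDegree]

end Cyclic

theorem L_mul {ι : Type*} [Fintype ι] {Λ σ φ : F[X] → ℂ} {α β : ι → F[X] → ℂ} [DecidableRel ((· ∣ ·) : F[X] → _)]
    (hσ : ∀ h : F[X], h.Monic → σ h = ∑ k ∈ range (h.natDegree + 1), ∑ d ∈ mons F k, if d ∣ h then Λ d else 0)
    (hφ : ∀ a b : F[X], a.Monic → b.Monic → φ (a * b) = ∑ i, α i a * β i b) :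
    L (fun h => σ h * φ h) = ∑ i, L (fun h => Λ h * α i h) * L (β i) := by
  ext n
  simp only [L, map_sum, PowerSeries.coeff_mul, PowerSeries.coeff_mk, Finset.Nat.sum_antidiagonal_eq_sum_range_succ_mk]
  rw [sum_congr rfl fun h hh => by rw [hσ h (mem_mons.1 hh).1, (mem_mons.1 hh).2, sum_mul], sum_comm, sum_comm (s := univ)]
  refine sum_congr rfl fun k hk => ?_
  simp only [sum_mul]
  rw [sum_comm, sum_comm (s := univ)]
  refine sum_congr rfl fun d hd => ?_
  obtain ⟨hd1, hd2⟩ := mem_mons.1 hd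
  simp only [ite_mul, zero_mul, mul_sum]
  rw [← sum_filter, sum_comm]
  symm
  refine sum_bij (fun e _ => d * e) (fun e he => ?_) (fun e _ e' _ h => mul_left_cancel₀ hd1.ne_zero h)
    (fun h hh => ?_) fun e he => ?_
  · obtain ⟨h1, h2⟩ := mem_mons.1 he
    have := mem_range.1 hk
    exact mem_filter.2 ⟨mem_mons.2 ⟨hd1.mul h1, by rw [hd1.natDegree_mul h1]; omega⟩, dvd_mul_right _ _⟩
  · obtain ⟨h1, e, rfl⟩ := mem_filter.1 hh
    obtain ⟨h2, h3⟩ := mem_mons.1 h1
    have h4 := hd1.of_mul_monic_left h2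
    rw [hd1.natDegree_mul h4] at h3
    exact ⟨e, mem_mons.2 ⟨h4, by omega⟩, rfl⟩
  · rw [hφ _ _ hd1 (mem_mons.1 he).1, mul_sum]
    simp only [mul_assoc]

/-- The mean value of Green's function times an additive and a multiplicative function. -/
theorem avg_J {Λ s t w : F[X] → ℂ} [DecidableRel ((· ∣ ·) : F[X] → _)] (hs : IsAdd s) (ht : IsAdd t)
    (hw : ∀ a b : F[X], a.Monic → b.Monic → w (a * b) = w a * w b) (hw1 : w 1 = 1)
    (hΛ : ∀ h : F[X], h.Monic → s h = ∑ k ∈ range (h.natDegree + 1), ∑ d ∈ mons F k, if d ∣ h then Λ d else 0)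
    (n : ℕ) : ((Nat.card F : ℂ) ^ n - 1) * ∑ g : End F (Fin n → F), J s _ g * (t g.charpoly * w g.charpoly) =
      Nat.card (GL (Fin n) F) * ∑ d ∈ mons F n, Λ d * (t d * w d) := by
  have m1 : ∀ a b : F[X], a.Monic → b.Monic → w (a * b) = ∑ _i : Unit, w a * w b := by simpa using hw
  have m2 : ∀ {t : F[X] → ℂ}, IsAdd t → ∀ a b : F[X], a.Monic → b.Monic → t (a * b) * w (a * b) =
      ∑ i, ![fun h => t h * w h, w] i a * ![w, fun h => t h * w h] i b := fun ht a b ha hb => by
    simp [ht a b ha hb, hw a b ha hb]; ring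
  have m4 : ∀ a b : F[X], a.Monic → b.Monic → s (a * b) * (t (a * b) * w (a * b)) =
      ∑ i, ![fun h => s h * (t h * w h), fun h => s h * w h, fun h => t h * w h, w] i a *
        ![w, fun h => t h * w h, fun h => s h * w h, fun h => s h * (t h * w h)] i b := fun a b ha hb => by
    simp [Fin.sum_univ_four, hs a b ha hb, ht a b ha hb, hw a b ha hb]; ring
  have r1 := rescale_Z (α := fun _ => w) (β := fun _ => w) m1
  have r2 := rescale_Z (φ := fun h => s h * w h) (m2 hs)
  have r3 := rescale_Z (φ := fun h => t h * w h) (m2 ht)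
  have r4 := rescale_Z (φ := fun h => s h * (t h * w h)) m4
  have j1 := Z_mul (α := fun _ => w) (β := fun _ => w) inv_J (fun _ g => sum_J (s := s) g) m1
  have j2 := Z_mul (φ := fun h => t h * w h) inv_J (fun _ g => sum_J (s := s) g) (m2 ht)
  have l1 := L_mul (α := fun _ => w) (β := fun _ => w) hΛ m1
  have l2 := L_mul (φ := fun h => t h * w h) hΛ (m2 ht)
  simp only [Fin.sum_univ_two, Fin.sum_univ_four, Fintype.sum_unique, Matrix.cons_val_zero, Matrix.cons_val_one,
    Matrix.cons_val] at r1 r2 r3 r4 j1 j2 l1 l2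
  have hne : L w * Z w ≠ 0 := fun h => by
    have h0 : mons F 0 = {1} := by
      ext p
      rw [mem_mons, mem_singleton]
      exact ⟨fun h => h.1.natDegree_eq_zero.1 h.2, by rintro rfl; simp⟩
    have h1 : ∀ g : End F (Fin 0 → F), g.charpoly = 1 := fun g =>
      g.charpoly_monic.natDegree_eq_zero.1 (g.charpoly_natDegree.trans (finrank_fin_fun F))
    have h2 := congrArg (PowerSeries.coeff 0) h
    rw [PowerSeries.coeff_mul, HasAntidiagonal.antidiagonal_zero, sum_singleton] at h2
    simp [L, Z, avg, h0, h1, hw1] at h2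
  rw [j1, map_mul, r1, l1] at r2
  have e1 : PowerSeries.rescale (Nat.card F : ℂ) (avg fun V _ _ _ g => J s V g * w g.charpoly) =
      L (fun h => Λ h * w h) + avg fun V _ _ _ g => J s V g * w g.charpoly :=
    mul_right_cancel₀ hne (by linear_combination r2)
  rw [j2, map_add, map_mul, map_mul, r1, r3, e1, l1, l2, j1] at r4
  have e2 : PowerSeries.rescale (Nat.card F : ℂ) (avg fun V _ _ _ g => J s V g * (t g.charpoly * w g.charpoly)) =
      L (fun h => Λ h * (t h * w h)) + avg fun V _ _ _ g => J s V g * (t g.charpoly * w g.charpoly) :=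
    mul_right_cancel₀ hne (by linear_combination r4)
  have e3 := congrArg (PowerSeries.coeff n) e2
  simp only [PowerSeries.coeff_rescale, map_add, avg, L, PowerSeries.coeff_mk] at e3
  have h0 : (Nat.card (GL (Fin n) F) : ℂ) ≠ 0 := Nat.cast_ne_zero.2 Nat.card_pos.ne'
  generalize (∑ g : End F (Fin n → F), J s _ g * (t g.charpoly * w g.charpoly)) = x at e3 ⊢
  generalize (∑ d ∈ mons F n, Λ d * (t d * w d)) = y at e3 ⊢
  field_simp at e3
  linear_combination e3

end Cfsg.Agent.Cl.Cu
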