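import Mathlib
import Cfsg.Agent.Cl.CharCuspA
import Cfsg.Agent.Ch.Induction
import Cfsg.Agent.Ch.BrauerPi
import Cfsg.Agent.Ch.Linear
import Cfsg.Agent.Ch.Galois
import Cfsg.Agent.Cl.DerLin

/-!
Sums over orbits of functions induced from stabilizers; Green's function is a generalized character; the Brauer
lift of a representation over a finite field.
-/

set_option autoImplicit false

namespace Cfsg.Agent.Cl.Cu

open Finset Module Polynomial MulAction Cfsg

universe u

theorem isGen_sum_orbits {G X : Type*} [Group G] [Finite G] [MulAction G X] [Fintype X] (ψ : G → X → ℂ)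
    (h0 : ∀ g x, g • x ≠ x → ψ g x = 0) (hc : ∀ g h x, ψ (h⁻¹ * g * h) x = ψ g (h • x))
    (hg : ∀ x, IsGeneralizedCharacter (stabilizer G x) fun g => ψ g x) :
    IsGeneralizedCharacter G fun g => ∑ x, ψ g x := by
  classical
  have := Fintype.ofFinite G
  have := Fintype.ofFinite (orbitRel.Quotient G X)
  have key : ∀ x g, indFun (stabilizer G x) (fun g => ψ g x) g = ∑ y with y ∈ orbit G x, ψ g y := by
    intro x g
    have h1 : ∀ h, extendByZero (stabilizer G x) (fun g => ψ g x) h = ψ h x := by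
      intro h
      by_cases hh : h ∈ stabilizer G x
      · rw [Ch.extendByZero_of_mem _ _ hh]
      · rw [Ch.extendByZero_of_not_mem _ _ hh, h0 _ _ hh]
    have h2 : (Nat.card (stabilizer G x) : ℂ) ≠ 0 := Nat.cast_ne_zero.2 Nat.card_pos.ne'
    rw [indFun]
    simp only [h1, hc]
    rw [← sum_fiberwise_of_maps_to (s := univ) (t := univ.filter (· ∈ orbit G x)) (g := fun h : G => h • x)
      (fun h _ => by simp), inv_mul_eq_iff_eq_mul₀ h2, mul_sum]
    refine sum_congr rfl fun y hy => ?_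
    rw [sum_congr rfl (g := fun _ => ψ g y) (fun h hh => by rw [(mem_filter.1 hh).2]), sum_const, nsmul_eq_mul]
    congr 2
    obtain ⟨k, rfl⟩ := (mem_filter.1 hy).2
    rw [← Fintype.card_subtype, ← Nat.card_eq_fintype_card]
    exact Nat.card_congr ⟨fun h => ⟨k⁻¹ * h.1, by simp [mul_smul, h.2]⟩,
      fun h => ⟨k * h.1, by simp [mul_smul, mem_stabilizer_iff.1 h.2]⟩, fun h => by simp, fun h => by simp⟩
  have : (fun g => ∑ x, ψ g x) =
      ∑ ω : orbitRel.Quotient G X, indFun (stabilizer G ω.out) fun g => ψ g ω.out := by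
    ext g
    rw [Finset.sum_apply, ← sum_fiberwise (s := univ) (g := fun x => (Quotient.mk'' x : orbitRel.Quotient G X))]
    refine sum_congr rfl fun ω _ => ?_
    rw [key]
    refine sum_congr (filter_congr fun y _ => ?_) fun _ _ => rfl
    rw [← orbitRel_apply, ← Quotient.eq'', Quotient.out_eq']
  rw [this]
  exact IsGeneralizedCharacter.sum fun ω _ => Ch.isGeneralizedCharacter_indFun _ (hg _)

section GenChar

variable {F : Type u} [Field F] {V : Type u} [AddCommGroup V] [Module F V] [Finite V]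

/-- Invertible endomorphisms act on the subspaces. -/
@[reducible] def actSub : MulAction (End F V)ˣ (Submodule F V) where
  smul g W := W.map (g : End F V)
  one_smul W := Submodule.map_id W
  mul_smul _ _ W := Submodule.map_comp _ _ W

omit [Finite V] in
theorem unit_injective (g : (End F V)ˣ) : Function.Injective (g : End F V) :=
  Function.LeftInverse.injective (g := (g⁻¹ : (End F V)ˣ)) fun v => by
    rw [← End.mul_apply, Units.inv_mul]; rfl

theorem map_eq_iff_le_comap (g : (End F V)ˣ) (W : Submodule F V) :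
    W.map (g : End F V) = W ↔ W ≤ W.comap (g : End F V) := by
  rw [← Submodule.map_le_iff_le_comap]
  have := Module.Finite.of_finite (R := F) (M := V)
  exact ⟨le_of_eq, fun h => Submodule.eq_of_le_of_finrank_eq h
    (Submodule.equivMapOfInjective _ (unit_injective g) W).finrank_eq.symm⟩

theorem isGen_J {s : F[X] → ℂ} {n : ℕ}
    (hs : ∀ (V : Type u) [AddCommGroup V] [Module F V] [Finite V], finrank F V ≤ n →
      IsGeneralizedCharacter (End F V)ˣ fun g => s (g : End F V).charpoly) (hV : finrank F V ≤ n) :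
    IsGeneralizedCharacter (End F V)ˣ fun g => J s V g := by
  classical
  induction hn : finrank F V using Nat.strong_induction_on generalizing V with
  | _ m ih =>
  let := actSub (F := F) (V := V)
  have hsm : ∀ (g : (End F V)ˣ) (W : Submodule F V), g • W = W.map (g : End F V) := fun _ _ => rfl
  have := isGen_sum_orbits (G := (End F V)ˣ) (X := Submodule F V)
    (fun g W => if W ∈ (invs (g : End F V)).erase ⊤ then J s W (res g W) else 0) (fun g W h => ?_)
    (fun g h W => ?_) (fun W => ?_)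
  · convert (hs V hV).sub this using 1
    ext g
    rw [J_eq, Pi.sub_apply, sum_ite_mem, univ_inter]
  · rw [if_neg]
    rw [hsm, Ne, map_eq_iff_le_comap] at h
    exact fun h' => h (mem_invs.1 (mem_of_mem_erase h'))
  · have e1 : ∀ v, (h : End F V) ((h⁻¹ * g * h : (End F V)ˣ).1 v) = (g : End F V) ((h : End F V) v) := fun v => by
      rw [← End.mul_apply, ← End.mul_apply, ← Units.val_mul, ← Units.val_mul]
      congr 2
      group
    have e2 : W ∈ (invs ((h⁻¹ * g * h : (End F V)ˣ) : End F V)).erase ⊤ ↔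
        h • W ∈ (invs (g : End F V)).erase ⊤ := by
      rw [mem_erase, mem_erase, mem_invs, mem_invs, ← map_eq_iff_le_comap, ← map_eq_iff_le_comap, ← hsm, ← hsm,
        mul_smul, mul_smul, inv_smul_eq_iff, Ne, Ne, smul_eq_iff_eq_inv_smul h, hsm h⁻¹,
        (map_eq_iff_le_comap h⁻¹ ⊤).2 (by simp)]
    by_cases hW : h • W ∈ (invs (g : End F V)).erase ⊤
    · rw [if_pos hW, if_pos (e2.2 hW), hsm]
      exact (inv_J.res_map _ e1 (mem_invs.1 (mem_of_mem_erase (e2.2 hW)))
        (by simp [LinearMap.ker_eq_bot.2 (unit_injective h)])).symm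
    · rw [if_neg hW, if_neg (mt e2.1 hW)]
  · by_cases hW : W = ⊤
    · simp only [hW, notMem_erase, if_false]
      exact IsGeneralizedCharacter.zero
    have hi : ∀ g : stabilizer (End F V)ˣ W, W ≤ W.comap (g.1 : End F V) := fun g =>
      (map_eq_iff_le_comap _ _).1 g.2
    let r : stabilizer (End F V)ˣ W →* End F W :=
      { toFun := fun g => res g.1 W
        map_one' := by ext v; rw [coe_res (hi 1)]; rfl
        map_mul' := fun g h => by
          ext v; rw [End.mul_apply, coe_res (hi _), coe_res (hi _), coe_res (hi _)]; rfl }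
    have hlt := Submodule.finrank_lt hW
    convert (ih _ (hn ▸ hlt) (hlt.le.trans hV) rfl).comp r.toHomUnits using 2 with g
    rw [if_pos (mem_erase.2 ⟨hW, mem_invs.2 (hi g)⟩)]
    rfl

end GenChar

theorem isGen_sum_exponent {B C : Type*} [Group B] [Finite B] [Group C] [Fintype C] {Q d : ℕ} (hQ : 2 ≤ Q)
    (hC : Nat.card C = Q - 1) (hB : Nat.card B ∣ Q - 1) {m : B × C → ℕ} (hm : ∀ γ, m γ ≤ d)
    (hπ : IsGeneralizedCharacter (B × C) fun γ => (Q : ℂ) ^ m γ) {θ : C → ℂ} (hθ : IsGeneralizedCharacter C θ) :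
    IsGeneralizedCharacter B fun b => ∑ c, θ c * m (b, c) := by
  classical
  have := Fintype.ofFinite B
  refine IsGeneralizedCharacter.of_classInner (fun g h => sum_congr rfl fun c _ => ?_) fun φ => ?_
  · have := hπ.isClassFunction (g, c) (h, 1)
    simp only [Prod.mk_mul_mk, Prod.inv_mk, inv_one, mul_one, one_mul] at this
    rw [Nat.pow_right_injective hQ (by exact_mod_cast this : Q ^ m (h * g * h⁻¹, c) = Q ^ m (g, c))]
  have hφ : IsGeneralizedCharacter B φ := φ.2.isCharacter.isGeneralizedCharacter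
  obtain ⟨t, rfl⟩ : ∃ t, Q = t + 1 := ⟨Q - 1, by omega⟩
  rw [Nat.add_sub_cancel] at hC hB
  obtain ⟨e, he⟩ := hB
  have hB0 : (Nat.card B : ℂ) ≠ 0 := Nat.cast_ne_zero.2 Nat.card_pos.ne'
  have ht0 : (t : ℂ) ≠ 0 := Nat.cast_ne_zero.2 (by omega)
  let y : B × C → ℂ := fun γ => θ γ.2 * starRingEnd ℂ (φ.1 γ.1)
  have hz : ∀ r : ℕ, ∃ z : ℤ, ∑ γ, (((t + 1 : ℕ) : ℂ) ^ m γ) ^ r * y γ = Nat.card B * t * z := fun r => by
    obtain ⟨z, hz⟩ := ((hπ.pow r).mul (hθ.comp (MonoidHom.snd B C))).exists_int_classInner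
      (hφ.comp (MonoidHom.fst B C))
    rw [classInner, Nat.card_prod, hC, Nat.cast_mul, inv_mul_eq_iff_eq_mul₀ (mul_ne_zero hB0 ht0)] at hz
    exact ⟨z, by rw [← hz]; exact sum_congr rfl fun γ _ => (mul_assoc _ _ _).symm⟩
  choose z hz using hz
  have hx : classInner (fun b => ∑ c, θ c * m (b, c)) φ = (Nat.card B : ℂ)⁻¹ * ∑ γ, m γ * y γ := by
    rw [classInner, Fintype.sum_prod_type]
    congr 1
    refine sum_congr rfl fun b _ => ?_
    rw [sum_mul]
    exact sum_congr rfl fun c _ => by simp only [y]; ring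
  obtain ⟨P, hP⟩ : ∃ P : ℚ[X], ∀ i ≤ d, P.eval (((t + 1 : ℕ) : ℚ) ^ i) = i :=
    ⟨Lagrange.interpolate (range (d + 1)) (fun i => ((t + 1 : ℕ) : ℚ) ^ i) fun i => i, fun i hi =>
      Lagrange.eval_interpolate_at_node _ (fun a _ b _ h => Nat.pow_right_injective hQ (by exact_mod_cast h))
        (mem_range.2 (by omega))⟩
  have hrat : (Nat.card B : ℂ)⁻¹ * ∑ γ, m γ * y γ =
      ((∑ r ∈ range (P.natDegree + 1), P.coeff r * (t * z r) : ℚ) : ℂ) := by
    rw [inv_mul_eq_iff_eq_mul₀ hB0, sum_congr rfl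
      (g := fun γ => ∑ r ∈ range (P.natDegree + 1), (P.coeff r : ℂ) * ((((t + 1 : ℕ) : ℂ) ^ m γ) ^ r * y γ))
      fun γ _ => ?_, sum_comm]
    · push_cast
      rw [mul_sum]
      refine sum_congr rfl fun r _ => ?_
      have := hz r
      push_cast at this
      rw [← mul_sum, this]
      ring
    · have := congrArg (fun x : ℚ => (x : ℂ)) (hP _ (hm γ))
      rw [eval_eq_sum_range] at this
      push_cast at this ⊢
      rw [← this, sum_mul]
      exact sum_congr rfl fun r _ => mul_assoc _ _ _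
  have hk : ∀ i : ℕ, ∃ k : ℤ, ((t + 1 : ℕ) : ℂ) ^ i = 1 + i * t + t ^ 2 * k := fun i => by
    induction i with
    | zero => exact ⟨0, by simp⟩
    | succ i ih =>
      obtain ⟨k, hk⟩ := ih
      exact ⟨i + k * (t + 1), by rw [pow_succ, hk]; push_cast; ring⟩
  choose k hk using hk
  have hint : (Nat.card B : ℂ)⁻¹ * ∑ γ, m γ * y γ = z 1 - z 0 - e * ∑ γ, k (m γ) * y γ := by
    have h1 := hz 1
    have h0 := hz 0
    simp only [pow_one, hk, add_mul, sum_add_distrib, pow_zero, mul_assoc, mul_left_comm _ (t : ℂ), ← mul_sum,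
      sq] at h0 h1
    have he' : (t : ℂ) = Nat.card B * e := by exact_mod_cast he
    rw [inv_mul_eq_iff_eq_mul₀ hB0]
    apply mul_left_cancel₀ ht0
    linear_combination h1 - h0 - t * (∑ γ, k (m γ) * y γ) * he'
  have hI : IsIntegral ℤ ((Nat.card B : ℂ)⁻¹ * ∑ γ, m γ * y γ) := by
    rw [hint]
    refine ((isIntegral_intCast _).sub (isIntegral_intCast _)).sub ((isIntegral_natCast _).mul
      (IsIntegral.sum _ fun γ _ => (isIntegral_intCast _).mul ((hθ.isIntegral _).mul ?_)))
    exact hφ.complexConj.isIntegral _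
  rw [hx, hrat] at *
  obtain ⟨n, hn⟩ := IsIntegrallyClosed.isIntegral_iff.1
    ((isIntegral_algebraMap_iff (algebraMap ℚ ℂ).injective).1 hI)
  exact ⟨n, by rw [← hn]; simp⟩

section Lift

variable {K U : Type*} [Field K] [AddCommGroup U] [Module K U]

theorem maxGenEigenspace_le_of_pow_eq {p : ℕ} (hp : p.Prime) [CharP K p] {f g : End K U} {N : ℕ}
    (h : f ^ p ^ N = g ^ p ^ N) (μ : K) : f.maxGenEigenspace μ ≤ g.maxGenEigenspace μ := by
  have h0 : (p : End K U) = 0 := by rw [← map_natCast (algebraMap K (End K U)), CharP.cast_eq_zero, map_zero]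
  have h1 : ∀ f : End K U, (f - μ • 1) ^ p ^ N = f ^ p ^ N + (-(μ • 1)) ^ p ^ N := fun f => by
    obtain ⟨r, hr⟩ := (((Commute.one_right f).smul_right μ).neg_right).exists_add_pow_prime_pow_eq hp N
    rw [sub_eq_add_neg, hr, h0]
    simp
  intro v hv
  obtain ⟨k, hk⟩ := (End.mem_maxGenEigenspace _ _ _).1 hv
  refine (End.mem_maxGenEigenspace _ _ _).2 ⟨p ^ N * k, ?_⟩
  obtain ⟨j, hj⟩ : ∃ j, p ^ N = j + 1 := Nat.exists_eq_succ_of_ne_zero (pow_ne_zero _ hp.ne_zero)
  rw [pow_mul, h1, ← h, ← h1, ← pow_mul, hj, add_mul, one_mul, pow_add, End.mul_apply, hk, map_zero]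

/-- The Brauer lift of a representation over a finite field containing enough roots of unity. -/
theorem isGen_brauerLift [Finite K] [Fintype Kˣ] [Finite U] [Module.Finite K U] {G : Type*} [Group G] [Finite G]
    {p : ℕ} (hp : p.Prime) [CharP K p] (ρ : G →* End K U) {a : ℕ} (hG : Nat.card G ∣ p ^ a * (Nat.card K - 1))
    {θ : Kˣ → ℂ} (hθ : IsGeneralizedCharacter Kˣ θ) :
    IsGeneralizedCharacter G fun g => ∑ α : Kˣ, θ α * ((ρ g).charpoly.rootMultiplicity (α : K) : ℕ) := by
  have hQ : 2 ≤ Nat.card K := Finite.one_lt_card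
  have hK : ((Nat.card K - 1 : ℕ) : K) ≠ 0 := by
    have := Fintype.ofFinite K
    rw [Nat.cast_sub (by omega), Nat.card_eq_fintype_card, FiniteField.cast_card_eq_zero]
    simp
  refine Ch.isGeneralizedCharacter_of_section (Nat.Coprime.pow_left a ?_) hG (fun g h => ?_)
    (fun u v huv hu _ => ?_) fun B _ _ _ hB => ?_
  · exact hp.coprime_iff_not_dvd.2 fun h => hK ((CharP.cast_eq_zero_iff K p _).2 h)
  · have := (LinearMap.GeneralLinearGroup.toLinearEquiv (ρ.toHomUnits h)).charpoly_conj (ρ g)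
    rw [← this]
    congr! 5
    rw [map_mul, map_mul]
    rfl
  · have : ρ (u * v) ^ p ^ a = ρ v ^ p ^ a := by rw [← map_pow, huv.mul_pow, hu, one_mul, map_pow]
    simp only [← LinearMap.finrank_maxGenEigenspace_eq]
    refine sum_congr rfl fun α _ => ?_
    rw [le_antisymm (maxGenEigenspace_le_of_pow_eq hp this _) (maxGenEigenspace_le_of_pow_eq hp this.symm _)]
  · let σ : B × Kˣ →* End K U :=
      { toFun := fun γ => ((γ.2⁻¹ : Kˣ) : K) • ρ γ.1
        map_one' := by simp
        map_mul' := fun γ δ => by simp [smul_smul, mul_comm] }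
    let := MulAction.compHom U σ
    have h1 := isGen_sum_exponent hQ (Nat.card_units K) hB
      (m := fun γ => finrank K ((ρ γ.1).eigenspace (γ.2 : K))) (fun γ => Submodule.finrank_le _) ?_ hθ
    · convert h1 using 5 with b α
      have : ρ b ^ (Nat.card K - 1) = (1 : K) • 1 := by
        obtain ⟨c, hc⟩ := hB
        rw [← map_pow, ← Subgroup.coe_pow, hc, pow_mul, pow_card_eq_one']
        simp
      rw [← LinearMap.finrank_maxGenEigenspace_eq,
        (Der.isSemisimple_of_pow_eq hK one_ne_zero this).isFinitelySemisimple.maxGenEigenspace_eq_eigenspace]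
    · convert (Ch.isCharacter_permChar (G := B × Kˣ) U).isGeneralizedCharacter using 2 with γ
      rw [← Nat.cast_pow, ← Module.natCard_eq_pow_finrank]
      congr 1
      refine Nat.card_congr (Equiv.subtypeEquivRight fun v => ?_)
      rw [End.mem_eigenspace_iff]
      change _ ↔ ((γ.2⁻¹ : Kˣ) : K) • ρ γ.1 v = v
      rw [Units.val_inv_eq_inv_val, inv_smul_eq_iff₀ γ.2.ne_zero]

end Lift

end Cfsg.Agent.Cl.Cu
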