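import Mathlib
import Cfsg.Agent.Cl.CharCuspB
import Cfsg.Agent.Cl.CharCuspC

/-!
Green's functions attached to characters of the multiplicative group of an extension field: inner products and
degrees.
-/

set_option autoImplicit false

namespace Cfsg.Agent.Cl.Cu

open Finset Module Polynomial Cfsg

universe u

variable {F : Type u} [Field F] {V : Type u} [AddCommGroup V] [Module F V] [Finite V]

theorem conj_J (s : F[X] → ℂ) (g : End F V) :
    starRingEnd ℂ (J s V g) = J (fun h => starRingEnd ℂ (s h)) V g := by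
  classical
  induction hn : finrank F V using Nat.strong_induction_on generalizing V with
  | _ m ih =>
  rw [J_eq, J_eq, map_sub, map_sum]
  congr 1
  exact sum_congr rfl fun W hW => ih _ (hn ▸ Submodule.finrank_lt (ne_of_mem_erase hW)) _ rfl

theorem sum_J_mul_J {s t : F[X] → ℂ} (hs : IsAdd s) (ht : IsAdd t) (w : F[X] → ℂ) :
    ∑ g : End F V, J s V g * (J t V g * w g.charpoly) = ∑ g : End F V, J s V g * (t g.charpoly * w g.charpoly) := by
  classical
  have key : ∀ W : Submodule F V, W ≠ ⊤ →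
      ∑ g : End F V, J s V g * ((if W ≤ W.comap g then J t W (res g W) else 0) * w g.charpoly) = 0 := by
    intro W hW
    by_cases h0 : W = ⊥
    · subst h0
      simp [J_of_subsingleton, ht.one]
    have hc : (Nat.card (rad W) : ℂ) ≠ 0 := Nat.cast_ne_zero.2 Nat.card_pos.ne'
    apply mul_left_cancel₀ hc
    rw [Nat.card_eq_fintype_card, ← nsmul_eq_mul, ← card_univ, ← sum_const, mul_zero, sum_congr rfl
      (g := fun b : rad W => ∑ g : End F V,
        J s V (g + b.1) * ((if W ≤ W.comap g then J t W (res g W) else 0) * w g.charpoly)) fun b _ => ?_, sum_comm]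
    · refine sum_eq_zero fun g _ => ?_
      rw [← sum_mul]
      by_cases h : W ≤ W.comap g
      · rw [sum_J_rad hs h0 hW h, zero_mul]
      · simp [h]
    · rw [← Equiv.sum_comp (Equiv.addRight b.1)]
      refine sum_congr rfl fun g _ => ?_
      have h2 := res_add_rad (g := g) le_rfl b
      rw [Equiv.coe_addRight]
      by_cases h : W ≤ W.comap g
      · rw [if_pos h, if_pos (h2.1.2 h), h2.2, charpoly_add_rad h]
      · rw [if_neg h, if_neg (mt h2.1.1 h), zero_mul, zero_mul]
  have e : ∀ g : End F V, J t V g =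
      t g.charpoly - ∑ W ∈ (univ : Finset (Submodule F V)).erase ⊤, if W ≤ W.comap g then J t W (res g W) else 0 := fun g => by
    rw [J_eq, ← sum_filter, filter_erase, invs]
  simp only [e, sub_mul, mul_sub, sum_sub_distrib, sum_mul, mul_sum]
  rw [sum_comm, sum_eq_zero fun W hW => key W (ne_of_mem_erase hW), sub_zero]

theorem sum_qbinom (x : ℂ) (hx : ∀ m, x ^ (m + 1) - 1 ≠ 0) (n : ℕ) :
    ∑ m ∈ range n, (-1) ^ m * (∏ j ∈ range (m + 1), (x ^ (n - j) - 1)) / (x ^ (m + 1) - 1) = n := by
  induction n with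
  | zero => simp
  | succ n ih =>
    have h0 : ∏ j ∈ range (n + 1), (x ^ (n - j) - 1) = 0 := prod_eq_zero (self_mem_range_succ n) (by simp)
    have h1 := sum_range_sub' (fun m => (-1) ^ m * ∏ j ∈ range m, (x ^ (n - j) - 1)) (n + 1)
    rw [h0, mul_zero, sub_zero, prod_range_zero, pow_zero, mul_one] at h1
    have h2 : ∑ m ∈ range (n + 1), (-1) ^ m * (∏ j ∈ range (m + 1), (x ^ (n - j) - 1)) / (x ^ (m + 1) - 1) = n := by
      rw [sum_range_succ, ih, h0]
      simp
    refine Eq.trans ?_ ((congrArg₂ (· + ·) h2 h1).trans (Nat.cast_succ n).symm)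
    rw [← sum_add_distrib]
    refine sum_congr rfl fun m hm => ?_
    obtain ⟨k, rfl⟩ := Nat.exists_eq_add_of_le (Nat.lt_succ_iff.1 (mem_range.1 hm))
    rw [prod_range_succ', prod_range_succ]
    simp only [Nat.add_sub_add_right, Nat.sub_zero, Nat.add_sub_cancel_left]
    field_simp [hx m]
    ring

theorem J_one [Finite F] {s : F[X] → ℂ} (hs : IsAdd s) (h1 : s (X - 1) = 1) :
    J s V 1 = if finrank F V = 0 then 0 else ∏ i ∈ Ico 1 (finrank F V), (1 - (Nat.card F : ℂ) ^ i) := by
  classical
  have := Fintype.ofFinite F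
  have hq : 2 ≤ Nat.card F := Finite.one_lt_card
  have hx : ∀ m, (Nat.card F : ℂ) ^ (m + 1) - 1 ≠ 0 := fun m => sub_ne_zero.2 (by
    exact_mod_cast (Nat.one_lt_pow m.succ_ne_zero hq).ne')
  induction hn : finrank F V using Nat.strong_induction_on generalizing V with
  | _ n ih =>
  let c : ℕ → ℂ := fun m => if m = 0 then 0 else ∏ i ∈ Ico 1 m, (1 - (Nat.card F : ℂ) ^ i)
  have e1 : ∀ k : ℕ, s ((X - 1) ^ k) = k := fun k => by
    induction k with
    | zero => simp [hs.one]
    | succ k ihk =>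
      have hm : (X - 1 : F[X]).Monic := monic_X_sub_C 1
      rw [pow_succ, hs _ _ (hm.pow k) hm, ihk, h1, Nat.cast_succ]
  have e2 : ∑ W : Submodule F V, c (finrank F W) = n := by
    rw [← sum_fiberwise_of_maps_to (t := range (n + 1)) (g := fun W : Submodule F V => finrank F W)
      (fun W _ => mem_range.2 (Nat.lt_succ_of_le (hn ▸ W.finrank_le))), sum_range_succ', ← sum_qbinom _ hx n,
      sum_eq_zero (s := univ.filter fun W : Submodule F V => finrank F W = 0) fun W hW => by
        rw [(mem_filter.1 hW).2]; rfl, add_zero]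
    refine sum_congr rfl fun m hm => ?_
    have hm' := mem_range.1 hm
    have h2 := congrArg (Nat.cast : ℕ → ℂ) (Der.card_subspaces_mul (F := F) (V := V) (m := m + 1) (by omega))
    rw [← prod_range_reflect, Der.qfac, ← Nat.card_eq_fintype_card, Nat.cast_mul, Nat.cast_prod, Nat.cast_prod,
      prod_congr rfl (g := fun j => (Nat.card F : ℂ) ^ (j + 1) - 1) fun j hj => by
        rw [Nat.cast_pred (by positivity), Nat.cast_pow], prod_range_succ, eq_comm,
      prod_congr rfl (g := fun j => (Nat.card F : ℂ) ^ (n - j) - 1) fun j hj => by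
        have := mem_range.1 hj
        rw [Nat.cast_pred (by positivity), Nat.cast_pow, hn]
        congr 2
        omega] at h2
    rw [sum_congr rfl (g := fun _ => c (m + 1)) fun W hW => by rw [(mem_filter.1 hW).2], sum_const, nsmul_eq_mul,
      ← Fintype.card_subtype, ← Nat.card_eq_fintype_card, h2, eq_div_iff (hx m)]
    simp only [c, if_neg m.succ_ne_zero]
    rw [prod_Ico_eq_prod_range, Nat.add_sub_cancel, prod_congr rfl
      (g := fun j => (-1) * ((Nat.card F : ℂ) ^ (j + 1) - 1)) fun j _ => by rw [add_comm]; ring, prod_mul_distrib,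
      prod_const, card_range]
    ring
  have e3 : invs (1 : End F V) = univ := eq_univ_of_forall fun W => mem_invs.2 fun _ h => h
  rw [J_eq, LinearMap.charpoly_one, e1, e3, sum_congr rfl (g := fun W : Submodule F V => c (finrank F W))
    fun W hW => ?_, sum_erase_eq_sub (mem_univ _), e2, finrank_top, hn, sub_sub_cancel]
  have : res (1 : End F V) W = 1 := by
    ext v
    rw [coe_res fun _ h => h]
    rfl
  rw [this]
  exact ih _ (hn ▸ Submodule.finrank_lt (ne_of_mem_erase hW)) rfl

section Ext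

variable {K : Type*} [Field K] [Algebra F K]

theorem rootMultiplicity_prod_sub {ι : Type*} [DecidableEq K] (S : Finset ι) (a : ι → K) (β : K) :
    (∏ i ∈ S, (X - C (a i))).rootMultiplicity β = ∑ i ∈ S, if β = a i then 1 else 0 := by
  classical
  induction S using Finset.induction_on with
  | empty => simp
  | insert i S hi ih =>
    rw [prod_insert hi, sum_insert hi, rootMultiplicity_mul
      ((monic_X_sub_C _).mul (monic_prod_of_monic _ _ fun i _ => monic_X_sub_C _)).ne_zero, ih,
      rootMultiplicity_X_sub_C]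

variable [Finite F] [Finite K]

theorem minpoly_pow_dvd_iff (α : K) {h : F[X]} (hh : h ≠ 0) (r : ℕ) :
    minpoly F α ^ r ∣ h ↔ r ≤ (h.map (algebraMap F K)).rootMultiplicity α := by
  have hα : IsIntegral F α := Algebra.IsIntegral.isIntegral α
  have hf := minpoly.irreducible hα
  obtain ⟨e, g, hg, rfl⟩ := WfDvdMonoid.max_power_factor hh hf
  have h1 : ((minpoly F α).map (algebraMap F K)).rootMultiplicity α = 1 := by
    refine le_antisymm (rootMultiplicity_le_one_of_separable (Separable.map (Algebra.IsSeparable.isSeparable F α)) α) ?_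
    exact (rootMultiplicity_pos (map_ne_zero hf.ne_zero)).2 (by simp [eval_map_algebraMap])
  have h2 : ∀ e : ℕ, ((minpoly F α ^ e).map (algebraMap F K)).rootMultiplicity α = e := fun e => by
    induction e with
    | zero => simp
    | succ e ih =>
      rw [pow_succ, Polynomial.map_mul, rootMultiplicity_mul
        (mul_ne_zero (map_ne_zero (pow_ne_zero _ hf.ne_zero)) (map_ne_zero hf.ne_zero)), ih, h1]
  have h3 : (g.map (algebraMap F K)).rootMultiplicity α = 0 := rootMultiplicity_eq_zero fun h0 =>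
    hg (minpoly.dvd F α (by simpa [eval_map_algebraMap] using h0))
  rw [Polynomial.map_mul, rootMultiplicity_mul (by rw [← Polynomial.map_mul]; exact map_ne_zero hh), h2, h3, add_zero]
  refine ⟨fun hd => ?_, fun hr => (pow_dvd_pow _ hr).mul_right _⟩
  by_contra hr
  have := (pow_dvd_pow _ (not_le.1 hr : e + 1 ≤ r)).trans hd
  rw [pow_succ, mul_dvd_mul_iff_left (pow_ne_zero _ hf.ne_zero)] at this
  exact hg this

open Classical in
theorem rootMultiplicity_eq_sum (α : K) {h : F[X]} (hh : h ≠ 0) :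
    (((h.map (algebraMap F K)).rootMultiplicity α : ℕ) : ℂ) = ∑ k ∈ range (h.natDegree + 1), ∑ d ∈ mons F k,
      if d ∣ h ∧ ∃ r, 0 < r ∧ d = minpoly F α ^ r then 1 else 0 := by
  have hα : IsIntegral F α := Algebra.IsIntegral.isIntegral α
  rw [sum_sigma', sum_boole, ← Nat.add_sub_cancel (n := rootMultiplicity _ _) (m := 1), ← Nat.card_Icc]
  congr 1
  refine card_bij (fun r _ => ⟨(minpoly F α ^ r).natDegree, minpoly F α ^ r⟩) (fun r hr => ?_)
    (fun r _ r' _ e => ?_) fun x hx => ?_
  · have h1 := (minpoly_pow_dvd_iff α hh r).2 (mem_Icc.1 hr).2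
    simp only [mem_filter, mem_sigma, mem_range, mem_mons]
    exact ⟨⟨Nat.lt_succ_of_le (natDegree_le_of_dvd h1 hh), (minpoly.monic hα).pow r, trivial⟩, h1, r,
      (mem_Icc.1 hr).1, rfl⟩
  · have := congrArg Sigma.fst e
    simp only [natDegree_pow] at this
    exact Nat.eq_of_mul_eq_mul_right (minpoly.natDegree_pos hα) this
  · obtain ⟨k, d⟩ := x
    simp only [mem_filter, mem_sigma, mem_range, mem_mons] at hx
    obtain ⟨⟨-, -, rfl⟩, h1, r, hr, rfl⟩ := hx
    exact ⟨r, mem_Icc.2 ⟨hr, (minpoly_pow_dvd_iff α hh r).1 h1⟩, rfl⟩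

theorem exists_map_minpoly_pow {α : K} {n : ℕ} (hα : α ^ Nat.card F ^ n = α) :
    ∃ j, (minpoly F α ^ j).map (algebraMap F K) = ∏ i ∈ range n, (X - C (α ^ Nat.card F ^ i)) := by
  have := Fintype.ofFinite F
  obtain ⟨p, _, -, hp, -⟩ := FiniteField.card' F
  have := Fact.mk hp
  have hi : IsIntegral F α := Algebra.IsIntegral.isIntegral α
  let φ := FiniteField.frobeniusAlgHom F K
  have hφ : ∀ x, φ x = x ^ Nat.card F := fun x => by rw [Nat.card_eq_fintype_card]; rfl
  have hm : (∏ i ∈ range n, (X - C (α ^ Nat.card F ^ i))).Monic := monic_prod_of_monic _ _ fun i _ => monic_X_sub_C _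
  have h1 : (∏ i ∈ range n, (X - C (α ^ Nat.card F ^ i))).map (φ : K →+* K) =
      ∏ i ∈ range n, (X - C (α ^ Nat.card F ^ i)) := by
    apply mul_right_cancel₀ (X_sub_C_ne_zero (α ^ Nat.card F ^ n))
    rw [← prod_range_succ, prod_range_succ', Polynomial.map_prod, hα, pow_zero, pow_one]
    simp only [Polynomial.map_sub, map_X, map_C, RingHom.coe_coe, hφ, pow_succ, pow_mul]
  obtain ⟨P, hP, -, hP'⟩ := lifts_and_natDegree_eq_and_monic (f := algebraMap F K)
    ((lifts_iff_coeff_lifts _).2 fun k => (IsGalois.mem_range_algebraMap_iff_fixed _).2 fun σ => by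
      obtain ⟨i, hi⟩ := FiniteField.exists_forall_apply_eq_pow F p K σ
      have h2 := congrArg (coeff · k) h1
      simp only [coeff_map, RingHom.coe_coe, hφ] at h2
      rw [hi]
      clear hi
      induction i with
      | zero => simp
      | succ i ih => rw [pow_succ', pow_mul, h2, ih]) hm
  have h3 : P ∣ minpoly F α ^ n := by
    rw [← map_dvd_map' (algebraMap F K), hP, Polynomial.map_pow, ← card_range n, ← prod_const, card_range]
    refine prod_dvd_prod_of_dvd _ _ fun i hi => dvd_iff_isRoot.2 ?_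
    rw [IsRoot, eval_map_algebraMap]
    clear hi
    induction i with
    | zero => simp
    | succ i ih => rw [pow_succ, pow_mul, ← hφ, aeval_algHom_apply, ih, map_zero]
  obtain ⟨j, -, hj⟩ := (dvd_prime_pow (minpoly.prime hi) n).1 h3
  exact ⟨j, by rw [← eq_of_monic_of_associated hP' ((minpoly.monic hi).pow j) hj, hP]⟩

variable [Fintype Kˣ]

/-- The additive function on polynomials attached to a function on the nonzero elements of an extension field. -/
noncomputable def sL (θ : Kˣ → ℂ) (h : F[X]) : ℂ :=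
  ∑ α : Kˣ, θ α * ((h.map (algebraMap F K)).rootMultiplicity (α : K) : ℕ)

omit [Finite F] [Finite K] in
theorem isAdd_sL (θ : Kˣ → ℂ) : IsAdd (sL (F := F) θ) := fun a b ha hb => by
  simp only [sL, ← sum_add_distrib, ← mul_add, Polynomial.map_mul]
  refine sum_congr rfl fun α _ => ?_
  rw [rootMultiplicity_mul ((ha.map _).mul (hb.map _)).ne_zero, Nat.cast_add]

omit [Finite F] [Finite K] in
theorem sL_of_map_eq (θ : Kˣ → ℂ) {h : F[X]} {ι : Type*} {S : Finset ι} {a : ι → Kˣ}
    (e : h.map (algebraMap F K) = ∏ i ∈ S, (X - C (a i : K))) : sL θ h = ∑ i ∈ S, θ (a i) := by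
  classical
  simp only [sL, e, rootMultiplicity_prod_sub, Units.val_inj, Nat.cast_sum, mul_sum]
  rw [sum_comm]
  simp

omit [Finite F] in
theorem isGen_sL {p : ℕ} (hp : p.Prime) [CharP K p] {θ : Kˣ → ℂ} (hθ : IsGeneralizedCharacter Kˣ θ) {a : ℕ}
    (hG : Nat.card (End F V)ˣ ∣ p ^ a * (Nat.card K - 1)) :
    IsGeneralizedCharacter (End F V)ˣ fun g => sL θ (g : End F V).charpoly := by
  have : Finite (TensorProduct F K V) := Module.finite_of_finite K
  simpa only [sL, ← LinearMap.charpoly_baseChange] using! isGen_brauerLift hp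
    ((End.baseChangeHom F K V : End F V →* End K (TensorProduct F K V)).comp (Units.coeHom _)) hG hθ

open Classical in
theorem sum_J_sL {n : ℕ} (hn : 0 < n) (θ θ' : Kˣ → ℂ) :
    ((Nat.card F : ℂ) ^ n - 1) * ∑ g : (End F (Fin n → F))ˣ, J (sL θ) _ g.1 * J (sL θ') _ g.1 =
      Nat.card (GL (Fin n) F) * ∑ α : Kˣ, if α ^ Nat.card F ^ n = α then
        θ α * ∑ i ∈ range n, θ' (α ^ Nat.card F ^ i) else 0 := by
  let w : F[X] → ℂ := fun h => if h.coeff 0 = 0 then 0 else 1
  let Λ : F[X] → ℂ := fun d => ∑ α : Kˣ, θ α * if ∃ r, 0 < r ∧ d = minpoly F (α : K) ^ r then 1 else 0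
  have hw : ∀ g : End F (Fin n → F), g.charpoly.coeff 0 ≠ 0 ↔ IsUnit g := fun g => by
    rw [LinearMap.isUnit_iff_isUnit_det, LinearMap.det_eq_sign_charpoly_coeff]
    simp
  rw [Fintype.sum_of_injective Units.val Units.val_injective _
    (fun g => J (sL θ) _ g * (J (sL θ') _ g * w g.charpoly))
    (fun g hg => by simp only [w]; rw [if_pos (by_contra fun h => hg ((hw g).1 h))]; simp)
    (fun g => by simp only [w]; rw [if_neg ((hw g).2 g.isUnit), mul_one]),
    sum_J_mul_J (isAdd_sL θ) (isAdd_sL θ'), avg_J (Λ := Λ) (isAdd_sL θ) (isAdd_sL θ')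
      (fun a b _ _ => by simp only [w, mul_coeff_zero, mul_eq_zero]; split_ifs <;> simp_all) (by simp [w])]
  · congr 1
    simp only [Λ, sum_mul]
    rw [sum_comm]
    refine sum_congr rfl fun α _ => ?_
    have hi : IsIntegral F (α : K) := Algebra.IsIntegral.isIntegral _
    split_ifs with h
    · obtain ⟨j, hj⟩ := exists_map_minpoly_pow (F := F) (α := (α : K)) (n := n) (by exact_mod_cast congrArg Units.val h)
      have hd : (minpoly F (α : K) ^ j).natDegree = n := by
        rw [← natDegree_map (algebraMap F K), hj, natDegree_prod_of_monic _ _ fun i _ => monic_X_sub_C _]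
        simp only [natDegree_X_sub_C, sum_const, card_range, smul_eq_mul, mul_one]
      rw [sum_eq_single (minpoly F (α : K) ^ j) (fun d hd' hne => ?_)
        fun h' => absurd (mem_mons.2 ⟨(minpoly.monic hi).pow j, hd⟩) h', if_pos, sL_of_map_eq θ' (by exact_mod_cast hj)]
      · simp only [w]
        rw [if_neg, mul_one, mul_one]
        intro h0
        have := congrArg (coeff · 0) hj
        simp only [coeff_map, h0, map_zero] at this
        rw [coeff_zero_eq_eval_zero, eval_prod] at this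
        obtain ⟨i, -, hi⟩ := prod_eq_zero_iff.1 this.symm
        simp at hi
      · refine ⟨j, Nat.pos_of_ne_zero ?_, rfl⟩
        rintro rfl
        simp at hd
        omega
      · rw [if_neg, mul_zero, zero_mul]
        rintro ⟨r, -, rfl⟩
        have := (mem_mons.1 hd').2.trans hd.symm
        simp only [natDegree_pow] at this
        exact hne (by rw [Nat.eq_of_mul_eq_mul_right (minpoly.natDegree_pos hi) this])
    · refine sum_eq_zero fun d hd => ?_
      rw [if_neg, mul_zero, zero_mul]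
      rintro ⟨r, -, rfl⟩
      have := (minpoly.irreducible hi).natDegree_dvd_iff_dvd_X_pow_card_pow_sub_X (n := n) |>.1
        ⟨r, by rw [← (mem_mons.1 hd).2, natDegree_pow, mul_comm]⟩
      apply h
      simpa [sub_eq_zero, Units.ext_iff] using minpoly.dvd_iff.1 this
  · intro h hh
    simp only [sL, rootMultiplicity_eq_sum _ hh.ne_zero, mul_sum, Λ]
    rw [sum_comm]
    refine sum_congr rfl fun k _ => ?_
    rw [sum_comm]
    refine sum_congr rfl fun d _ => ?_
    split_ifs with hd <;> simp [hd]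

open Classical in
theorem classInner_J_sL {n : ℕ} (hn : 0 < n) (hM : Nat.card F ^ n - 1 ∣ Nat.card K - 1) (θ : Kˣ →* ℂˣ)
    (hθ : Function.Injective θ) (k k' : ℕ) :
    classInner (fun g : (End F (Fin n → F))ˣ => J (sL fun α => θ (α ^ k)) _ g.1)
      (fun g => J (sL fun α => θ (α ^ k')) _ g.1) =
      #{i ∈ range n | k ≡ k' * Nat.card F ^ i [MOD Nat.card F ^ n - 1]} := by
  have hq : 1 < Nat.card F ^ n := Nat.one_lt_pow hn.ne' Finite.one_lt_card
  have hq' : (Nat.card F : ℂ) ^ n - 1 ≠ 0 := sub_ne_zero.2 (by exact_mod_cast hq.ne')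
  have hc : ∀ α, starRingEnd ℂ (θ α) = θ α⁻¹ := fun α =>
    ((Ch.isCharacter_monoidHom_units θ).isGeneralizedCharacter.apply_inv α).symm
  have e1 : (fun h : F[X] => starRingEnd ℂ (sL (fun α => (θ (α ^ k') : ℂ)) h)) = sL fun α => θ (α ^ k')⁻¹ := by
    ext h
    simp [sL, hc]
  let T := (powMonoidHom (Nat.card F ^ n - 1) : Kˣ →* Kˣ).ker
  have hT : Nat.card T = Nat.card F ^ n - 1 := by
    rw [IsCyclic.card_powMonoidHom_ker, Nat.card_units, Nat.gcd_eq_right hM]
  have hT' : ∀ α : Kˣ, α ^ Nat.card F ^ n = α ↔ α ∈ T := fun α => by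
    rw [MonoidHom.mem_ker, powMonoidHom_apply, ← mul_left_inj α (c := 1), ← pow_succ, Nat.sub_add_cancel hq.le,
      one_mul]
  obtain ⟨τ, hτ⟩ := IsCyclic.exists_ofOrder_eq_natCard (α := T)
  simp only [classInner, conj_J, e1]
  rw [← Nat.card_congr (Matrix.GeneralLinearGroup.toLin (n := Fin n) (R := F)).toEquiv,
    inv_mul_eq_iff_eq_mul₀ (Nat.cast_ne_zero.2 Nat.card_pos.ne')]
  apply mul_left_cancel₀ hq'
  rw [sum_J_sL hn, mul_left_comm]
  congr 1
  simp only [hT', mul_sum]
  rw [← sum_filter, sum_subtype _ (p := (· ∈ T)) (by simp), sum_comm, card_filter, Nat.cast_sum, mul_sum]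
  refine sum_congr rfl fun i _ => ?_
  let η : T →* ℂ := ((Units.coeHom ℂ).comp θ).comp
    ((powMonoidHom k / powMonoidHom (k' * Nat.card F ^ i) : Kˣ →* Kˣ).comp T.subtype)
  have hη : ∀ α : T, η α = θ (α.1 ^ k / α.1 ^ (k' * Nat.card F ^ i)) := fun α => rfl
  have e2 : η = 1 ↔ k ≡ k' * Nat.card F ^ i [MOD Nat.card F ^ n - 1] := by
    rw [← hT, ← hτ, ← pow_eq_pow_iff_modEq]
    refine ⟨fun h => ?_, fun h => MonoidHom.ext fun α => ?_⟩
    · have := hη τ
      rw [h, MonoidHom.one_apply, eq_comm, Units.val_eq_one, map_eq_one_iff θ hθ, div_eq_one] at this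
      exact Subtype.ext this
    · have h1 : α ^ k = α ^ (k' * Nat.card F ^ i) := pow_eq_pow_iff_modEq.2
        ((pow_eq_pow_iff_modEq.1 h).of_dvd (hτ ▸ orderOf_dvd_natCard α))
      rw [hη, div_eq_one.2 (by exact_mod_cast congrArg Subtype.val h1)]
      simp
  rw [sum_congr rfl (g := η) fun α _ => by
    rw [hη, div_eq_mul_inv, map_mul, Units.val_mul, ← pow_mul, mul_comm k'], sum_hom_units, ← Nat.card_eq_fintype_card,
    hT]
  simp only [e2]
  split_ifs
  · rw [Nat.cast_pred (by omega)]
    simp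
  · simp

end Ext

open Classical in
theorem sum_J_block {n m : ℕ} (h0 : 0 < m) (h1 : m < n) [Fintype F] [DecidableEq F] {s : F[X] → ℂ} (hs : IsAdd s) :
    (∑ g : GL (Fin n) F, if ∀ i j : Fin n, ¬ (i.val < m ∧ m ≤ j.val) →
      (g : Matrix (Fin n) (Fin n) F) i j = (1 : Matrix (Fin n) (Fin n) F) i j then
        J s (Fin n → F) (Matrix.GeneralLinearGroup.toLin g).1 else 0) = 0 := by
  let A : Submodule F (Fin n → F) :=
    { carrier := {v | ∀ i : Fin n, m ≤ i.val → v i = 0}
      add_mem' := fun ha hb i hi => by simp [ha i hi, hb i hi]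
      zero_mem' := fun _ _ => rfl
      smul_mem' := fun c _ ha i hi => by simp [ha i hi] }
  have hA : ∀ v, v ∈ A ↔ ∀ i : Fin n, m ≤ i.val → v i = 0 := fun v => Iff.rfl
  have key : ∀ g : GL (Fin n) F, (∀ i j : Fin n, ¬ (i.val < m ∧ m ≤ j.val) →
      (g : Matrix (Fin n) (Fin n) F) i j = (1 : Matrix (Fin n) (Fin n) F) i j) ↔
      (Matrix.GeneralLinearGroup.toLin g).1 - 1 ∈ rad A := fun g => by
    have e : ∀ v i, ((Matrix.GeneralLinearGroup.toLin g).1 - 1) v i =
        ∑ j, ((g : Matrix (Fin n) (Fin n) F) i j - (1 : Matrix (Fin n) (Fin n) F) i j) * v j := fun v i => by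
      change ((g : Matrix (Fin n) (Fin n) F).mulVec v - v) i = ((g : Matrix (Fin n) (Fin n) F) - 1).mulVec v i
      rw [Matrix.sub_mulVec, Matrix.one_mulVec]
    refine ⟨fun h => ⟨fun v => (hA _).2 fun i hi => ?_, fun v hv => funext fun i => ?_⟩, fun h i j hij => ?_⟩
    · rw [e]
      exact sum_eq_zero fun j _ => by rw [h i j (by omega), sub_self, zero_mul]
    · rw [e]
      refine sum_eq_zero fun j _ => ?_
      by_cases hj : m ≤ j.val
      · rw [(hA v).1 hv j hj, mul_zero]
      · rw [h i j (by omega), sub_self, zero_mul]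
    · have h2 := e (Pi.single j 1) i
      rw [sum_eq_single j (fun k _ hk => by simp [hk]) (by simp), Pi.single_eq_same, mul_one] at h2
      rw [← sub_eq_zero, ← h2]
      by_cases hj : m ≤ j.val
      · exact (hA _).1 (h.1 _) i (by omega)
      · rw [h.2 _ ((hA _).2 fun k hk => Pi.single_eq_of_ne (by rintro rfl; exact hj hk) _)]
        rfl
  rw [← sum_filter]
  refine Eq.trans ?_ (sum_J_rad hs (A := A) (g := 1) ?_ ?_ fun _ h => h)
  · refine sum_bij (fun g hg => ⟨_, (key g).1 (mem_filter.1 hg).2⟩) (fun _ _ => mem_univ _) (fun g _ g' _ h => ?_)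
      (fun b _ => ?_) fun g _ => by simp
    · exact Matrix.GeneralLinearGroup.toLin.injective (Units.ext (sub_left_injective (congrArg Subtype.val h)))
    · have hb : b.1 * b.1 = 0 := LinearMap.ext fun v => b.2.2 _ (b.2.1 v)
      obtain ⟨g, hg⟩ := Matrix.GeneralLinearGroup.toLin.surjective
        ⟨1 + b.1, 1 - b.1, by simp [mul_sub, add_mul, hb], by simp [mul_add, sub_mul, hb]⟩
      exact ⟨g, mem_filter.2 ⟨mem_univ _, (key g).2 (by simp [hg])⟩, Subtype.ext (by simp [hg])⟩
  · intro h
    have : Pi.single (⟨0, by omega⟩ : Fin n) (1 : F) ∈ A := (hA _).2 fun k hk =>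
      Pi.single_eq_of_ne (by rintro rfl; simp at hk; omega) _
    simpa [h] using this
  · intro h
    have := (hA (fun _ => 1)).1 (h ▸ Submodule.mem_top) ⟨m, h1⟩ le_rfl
    simp at this

end Cfsg.Agent.Cl.Cu
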