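import Mathlib
import Cfsg.Agent.Cl.CharGreen
import Cfsg.Agent.Blk.DefectCard
import Cfsg.Agent.Blk.Local2
import Cfsg.Agent.Ch.ClassMult
import Cfsg.Agent.Ch.Linear
import Cfsg.Agent.Ch.Quotient
import Cfsg.Agent.Ch.Induction
import Cfsg.Agent.Ch.BrauerPi

/-!
# Criteria for an element to be a product of two conjugates

A crude estimate from the smallest degree, and an argument of Gow type for groups with trivial
intersection Sylow subgroups.
-/

set_option autoImplicit false

namespace Cfsg.Agent.Cl.Gow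

open Cfsg.Agent.Ch Cfsg.Agent.Blk
open scoped ComplexConjugate

variable {G : Type*} [Group G] [Finite G]

/-- The crude estimate. -/
theorem exists_mul_of_bound {x g : G} {d : ℕ}
    (hd : ∀ χ : G → ℂ, IsIrrCharacter G χ → χ ≠ (fun _ => 1) → d ≤ charDegree χ)
    (h : (Nat.card (Subgroup.centralizer {x}) - 1) ^ 2 * Nat.card (Subgroup.centralizer {g}) <
      d ^ 2) : ∃ y z, IsConj x y ∧ IsConj x z ∧ y * z = g := by
  classical
  rw [classMult_exists_iff]
  set t := Nat.card (Subgroup.centralizer ({x} : Set G))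
  set c := Nat.card (Subgroup.centralizer ({g} : Set G))
  have ht : 1 ≤ t := Nat.card_pos
  have hd0 : (0 : ℝ) < d := by
    have : 0 < d ^ 2 := by omega
    exact_mod_cast (Nat.pos_of_ne_zero (by rintro rfl; simp at this))
  rw [← Finset.add_sum_erase _ _ (Finset.mem_univ (irrOne G))]
  intro h0
  have h1 : ‖∑ χ ∈ Finset.univ.erase (irrOne G),
      (χ : G → ℂ) x * (χ : G → ℂ) x * conj ((χ : G → ℂ) g) / (χ : G → ℂ) 1‖ = 1 := by
    rw [eq_neg_of_add_eq_zero_right h0]
    simp [coe_irrOne]
  have h2 : ∑ χ ∈ Finset.univ.erase (irrOne G), ‖(χ : G → ℂ) x‖ ^ 2 = (t : ℝ) - 1 := by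
    have := sum_irr_norm_sq x
    rw [← Finset.add_sum_erase _ _ (Finset.mem_univ (irrOne G))] at this
    rw [eq_sub_iff_add_eq', ← this]
    simp [coe_irrOne]
  have h3 : (1 : ℝ) ≤ ((t : ℝ) - 1) * (√c / d) := by
    rw [← h2, Finset.sum_mul, ← h1]
    refine (norm_sum_le _ _).trans (Finset.sum_le_sum fun χ hχ => ?_)
    have hne : (χ : G → ℂ) ≠ fun _ => 1 := fun e =>
      (Finset.mem_erase.1 hχ).1 (Subtype.ext e)
    have h4 : (d : ℝ) ≤ ‖(χ : G → ℂ) 1‖ := by
      rw [χ.2.isCharacter.norm_apply_one]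
      exact_mod_cast hd _ χ.2 hne
    have h5 : ‖(χ : G → ℂ) g‖ ≤ √c := Real.le_sqrt_of_sq_le (χ.2.norm_sq_le_card_centralizer g)
    rw [norm_div, norm_mul, norm_mul, Complex.norm_conj, ← sq, mul_div_assoc]
    gcongr
  have h4 : (((t : ℝ) - 1) * √c) ^ 2 < (d : ℝ) ^ 2 := by
    rw [mul_pow, Real.sq_sqrt (Nat.cast_nonneg _)]
    have : (((t - 1) ^ 2 * c : ℕ) : ℝ) < ((d ^ 2 : ℕ) : ℝ) := by exact_mod_cast h
    rwa [Nat.cast_mul, Nat.cast_pow, Nat.cast_pow, Nat.cast_sub ht, Nat.cast_one] at this
  have h5 := lt_of_pow_lt_pow_left₀ 2 hd0.le h4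
  rw [← mul_div_assoc, le_div_iff₀ hd0] at h3
  linarith

variable {p : ℕ} [hp : Fact p.Prime]

/-- With trivial intersection Sylow subgroups, a central character that is a unit on a class of
size divisible by `p` belongs to a character of defect zero. -/
theorem defect_zero_of_ti (hTI : ∀ P Q : Sylow p G, P ≠ Q → (P : Subgroup G) ⊓ Q = ⊥)
    {M : Ideal AlgInt} (hM : IsPModular p M) (χ : IrrCharacter G) {g : G}
    (hg : p ∣ (Subgroup.centralizer {g}).index)
    (h : ¬ MemLocalIdeal M (centralChar (χ : G → ℂ) g)) :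
    (charDegree (χ : G → ℂ)).factorization p = (Nat.card G).factorization p := by
  have := hM.isMaximal
  have hB := isPBlock_blockOf (M := M) χ
  have hχ := mem_blockOf_self (M := M) χ
  obtain ⟨D, hD⟩ := hB.exists_isDefectGroup p
  obtain ⟨P, hP⟩ := hD.isPGroup.exists_le_sylow
  obtain ⟨y, -, -, -, hy⟩ := CT.green_intersection hM hB hD P.isPGroup' hP
  by_cases e : P = y • P
  · exfalso
    have h1 : D = P := by
      rw [← hy]
      change (P : Subgroup G) ⊓ ((y • P : Sylow p G) : Subgroup G) = P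
      rw [← e, inf_idem]
    have h2 := hB.blockDefect_le_of_centralChar hM hχ h
    have h3 := hD.card_eq_pow_blockDefect hM hB
    rw [h1, Sylow.card_eq_multiplicity, Nat.pow_right_inj hp.out.one_lt] at h3
    have h4 := factorization_card_eq_add (p := p) g
    have h5 := hp.out.factorization_pos_of_dvd Subgroup.index_ne_zero_of_finite hg
    omega
  · have h1 : D = ⊥ := hy.symm.trans (hTI _ _ e)
    exact (hB.blockDefect_eq_zero_iff hM hχ).1 ((hD.eq_bot_iff hM hB).1 h1)

/-- Uniqueness of the character of defect zero in a perfect group of rank one type. -/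
theorem eq_of_defect_zero [Fintype G] (hG : commutator G = ⊤) {B : Subgroup G} {U : Subgroup B}
    [U.Normal] (hU : IsPGroup p U) (hc : commutator B ≤ U)
    (hcard : Nat.card U = p ^ (Nat.card G).factorization p) (h2 : 2 ≤ Nat.card U)
    (hi : B.index = Nat.card U + 1) {χ : G → ℂ} (hχ : IsIrrCharacter G χ)
    (hd : (charDegree χ).factorization p = (Nat.card G).factorization p) :
    χ = indFun B (fun _ => 1) - fun _ => 1 := by
  classical
  have := Fintype.ofFinite B
  have := Fintype.ofFinite U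
  have hdvd : p ^ (Nat.card G).factorization p ∣ charDegree χ := by
    rw [← hd]; exact Nat.ordProj_dvd _ _
  have hres := hχ.isCharacter.restrict B
  have h1 : classInner (fun b : B => χ b) (indFun U fun _ => 1) ≠ 0 := by
    rw [classInner_indFun_right U _ hres.isClassFunction, classInner,
      Finset.sum_eq_single (1 : U)]
    · simp [hχ.apply_one_ne_zero]
    · intro u _ hu
      obtain ⟨k, hk⟩ := IsPGroup.iff_orderOf.1 hU u
      have : p ∣ orderOf ((u : B) : G) := by
        rw [Subgroup.orderOf_coe, Subgroup.orderOf_coe, hk]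
        refine dvd_pow_self p ?_
        rintro rfl
        exact hu (by simpa using hk)
      simp [apply_eq_zero_of_defect_zero hp.out hχ hdvd this]
    · simp
  obtain ⟨ψ, hψ, e1, e2⟩ := hres.exists_common_constituent h1
  have hk : U ≤ charKer ψ := by
    by_contra hk
    apply e2
    rw [classInner_indFun_left U _ hψ.isCharacter.isClassFunction, classInner]
    have := hψ.sum_normal_eq_zero U hk 1
    simp only [mul_one] at this
    simp only [one_mul, ← map_sum, this, map_zero, mul_zero]
  have hψ1 : ψ 1 = 1 := hψ.apply_one_eq_one_iff_commutator_le.2 (hc.trans hk)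
  have hθ := isCharacter_indFun B hψ.isCharacter
  have e3 : classInner (indFun B ψ) χ ≠ 0 := by
    rw [classInner_indFun_left B _ hχ.isCharacter.isClassFunction,
      hψ.isCharacter.classInner_comm hres]
    exact e1
  obtain ⟨μ, hμ, e4⟩ := hθ.exists_eq_irr_add hχ e3
  have e5 : charDegree χ + charDegree μ = Nat.card U + 1 := by
    rw [← hχ.isCharacter.charDegree_add hμ, ← e4, ← hi]
    exact charDegree_of_apply_one (by rw [indFun_one, hψ1, mul_one])
  have e6 : charDegree μ = 1 := by
    rw [← hcard] at hdvd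
    obtain ⟨k, hk⟩ := hdvd
    have h0 := hχ.charDegree_pos
    rcases k with _ | _ | k
    · omega
    · omega
    · rw [hk] at e5
      nlinarith
  have e7 := hμ.charDegree_eq_one_iff.1 e6
  obtain rfl := (hμ.isIrr_of_apply_one e7).eq_one_of_commutator_eq_top e7 hG
  have e8 : ψ = fun _ => 1 := by
    by_contra hne
    have e9 := classInner_indFun_left B ψ (χ := fun _ => 1) (IsClassFunction.const 1)
    rw [hψ.classInner_one hne, e4] at e9
    exact ((hχ.isCharacter.classInner_add_ne_zero_iff IsCharacter.one IsCharacter.one).2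
      (Or.inr ((irrOne G).2.classInner_self.trans_ne one_ne_zero))) e9
  rw [← e8, e4]
  simp

/-- An argument of Gow type. -/
theorem exists_mul_of_ti (hTI : ∀ P Q : Sylow p G, P ≠ Q → (P : Subgroup G) ⊓ Q = ⊥)
    (ψ : IrrCharacter G) (hψ : ∀ χ : IrrCharacter G,
      (charDegree (χ : G → ℂ)).factorization p = (Nat.card G).factorization p → χ = ψ)
    {x g : G} (hg : p ∣ (Subgroup.centralizer {g⁻¹}).index) {n : ℕ} (hn : ¬ p ∣ n)
    (hx : (ψ : G → ℂ) x * (ψ : G → ℂ) x * centralChar (ψ : G → ℂ) g⁻¹ = n) :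
    ∃ y z, IsConj x y ∧ IsConj x z ∧ y * z = g := by
  classical
  rw [classMult_exists_iff]
  intro h0
  obtain ⟨M, hM⟩ := exists_isPModular hp.out
  have := hM.isMaximal
  have h1 : ∑ χ : IrrCharacter G,
      (χ : G → ℂ) x * (χ : G → ℂ) x * centralChar (χ : G → ℂ) g⁻¹ = 0 := by
    rw [← mul_zero ((Subgroup.centralizer {g⁻¹}).index : ℂ), ← h0, Finset.mul_sum]
    refine Finset.sum_congr rfl fun χ _ => ?_
    rw [centralChar, χ.2.isCharacter.apply_inv]
    ring
  rw [← Finset.add_sum_erase _ _ (Finset.mem_univ ψ), hx] at h1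
  apply hn
  rw [← hM.natCast_mem_iff, eq_neg_of_add_eq_zero_left h1]
  refine (MemLocalIdeal.sum fun χ hχ => ?_).neg
  have h2 := MemLocalRing.of_isIntegral (M := M) (χ.2.isCharacter.isIntegral x)
  refine MemLocalIdeal.mul_left (h2.mul h2) ?_
  by_contra h3
  exact (Finset.mem_erase.1 hχ).1 (hψ χ (defect_zero_of_ti hTI hM χ hg h3))

end Cfsg.Agent.Cl.Gow
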