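import Mathlib
import Cfsg.Agent.Chev.ReeCount2
import Cfsg.Agent.Chev.ReeGen
import Cfsg.Agent.Ch.Orthogonality

/-!
# The trace on a small Ree group determines the class of a regular semisimple element
-/

set_option autoImplicit false

namespace Cfsg.Agent.Chev

open Subgroup

/-- Explicit traces in the 7-dimensional representation. -/
structure ReeGroup.Expl {K : Type*} [Field K] {Γ : Type*} [Group Γ] (R : ReeGroup K Γ)
    (θ : K →+* K) : Prop where
  φθ : ∀ a, R.φ (θ a) = a
  tr_b : ∀ t u v (c : Kˣ), c = 1 ∨ c = -1 → (R.ρ (R.x t u v * R.h c)).trace = c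
  tr_n : ∀ t u v (c : Kˣ), (R.ρ (R.x t u v * R.h c⁻¹ * R.n)).trace =
    -1 + θ t ^ 2 * θ c - (t * θ v + t * θ t * θ u - θ u ^ 2) * (θ c * c) -
      (θ t * v - u * θ u - θ v ^ 2 - θ t * θ u * θ v - θ t ^ 3 * t * θ u + θ t ^ 4 * t ^ 2) *
        (θ c ^ 2 * c)

namespace ReeInst

open Cfsg.Lie ReeMat

theorem expl_ree {K : Type*} [Field K] [CharP K 3] [Fintype K] (θ : K →+* K)
    (hθ : ∀ x, θ (θ x) ^ 3 = x) {m : ℕ} (he : ∀ x, θ x = x ^ 3 ^ m) (h4 : Fintype.card K % 4 = 3) :
    (ree θ hθ he h4).Expl θ := by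
  have hx : ∀ t u v, (ree θ hθ he h4).ρ ((ree θ hθ he h4).x t u v) =
      Wm (θ t) t (θ t * t + θ u) (θ t ^ 2 * t + θ v) u v := fun t u v => A_XR θ t u v
  have hh : ∀ c : Kˣ, (ree θ hθ he h4).ρ ((ree θ hθ he h4).h c) =
      Dm (θ c) (c : K) (θ (c⁻¹ : Kˣ)) (c⁻¹ : Kˣ) := fun c => A_hR θ c
  have hn : (ree θ hθ he h4).ρ (ree θ hθ he h4).n = Nm K := A_nn
  have h3 : (3 : K) = 0 := three_eq
  refine ⟨fun a => hθ a, fun t u v c hc => ?_, fun t u v c => ?_⟩
  · rw [map_mul, hx, hh, Dm]
    simp only [Matrix.trace, Matrix.diag, Matrix.mul_diagonal, Fin.sum_univ_seven]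
    rcases hc with rfl | rfl
    · simp [Wm]
      linear_combination 2 * h3
    · simp [Wm]
  · rw [map_mul, map_mul, hx, hh, hn, Dm, inv_inv]
    simp only [Matrix.trace, Matrix.diag, mul_Nm_apply, Matrix.mul_diagonal, Fin.sum_univ_seven]
    simp [Wm, Fin.rev]
    grind

theorem exists_ree_expl {K : Type*} [Field K] [Fintype K] {m : ℕ}
    (hK : Fintype.card K = 3 ^ (2 * m + 1)) :
    ∃ (R : ReeGroup K (twistedG2 K (3 ^ m))) (θ : K →+* K), R.Expl θ := by
  have : Fact (Nat.Prime 3) := ⟨Nat.prime_three⟩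
  have := charP_of_card_eq_prime_pow hK
  refine ⟨_, _, expl_ree (iterateFrobenius K 3 m) (fun x => ?_) (fun x => rfl) ?_⟩
  · rw [iterateFrobenius_def, iterateFrobenius_def, ← pow_mul, ← pow_mul, ← pow_succ, ← pow_add,
      ← add_assoc, ← two_mul, ← hK, FiniteField.pow_card]
  · rw [hK, pow_succ, pow_mul, Nat.mul_mod, Nat.pow_mod]
    simp

end ReeInst

namespace ReeGroup

variable {K : Type*} [Field K] {Γ : Type*} [Group Γ] (R : ReeGroup K Γ) [Fintype K]

include R in
theorem weight_com {y : Γ} (hy : Big (orderOf y)) {e j : ℕ}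
    (h1 : Nat.card (normalizer (centralizer {y} : Set Γ)) = e * Nat.card (centralizer {y}))
    (h2 : Nat.card {z | z ∈ centralizer {y} ∧ orderOf z = 2} = j) [Fintype Γ]
    [DecidablePred fun z : Γ => Com (Nat.card (centralizer {y})) (orderOf z)] :
    e * ∑ z : Γ with Com (Nat.card (centralizer {y})) (orderOf z), Nat.card (centralizer {z}) =
      (Nat.card (centralizer {y}) - 1 - j) * Nat.card Γ := by
  rw [Finset.sum_congr rfl fun z hz => R.card_centralizer_eq hy (Finset.mem_filter.1 hz).2,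
    Finset.sum_const, smul_eq_mul, ← Fintype.card_subtype, ← Nat.card_eq_fintype_card,
    R.card_com hy, h2, ← (normalizer (centralizer {y} : Set Γ)).card_mul_index, h1]
  ring

include R in
theorem exists_four_tori (hq : 3 < Fintype.card K) : ∃ a b : ℕ, a + b = 2 * Fintype.card K + 2 ∧
    0 < a ∧ 0 < b ∧ (∀ z : Γ, Big (orderOf z) → Nat.card (centralizer {z}) = Fintype.card K - 1 ∨
      Nat.card (centralizer {z}) = Fintype.card K + 1 ∨ Nat.card (centralizer {z}) = a ∨
      Nat.card (centralizer {z}) = b) ∧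
    ∀ [Fintype Γ] [DecidablePred fun z : Γ => Big (orderOf z)],
      ∑ z : Γ with Big (orderOf z), Nat.card (centralizer {z}) ≤
        (Fintype.card K - 2) * Nat.card Γ := by
  classical
  have := R.finite
  obtain ⟨y, hy, hb⟩ := R.exists_big_H hq
  obtain ⟨y', hy', hb'⟩ := R.exists_big_Cp hq
  obtain ⟨y₁, y₂, b₁, b₂, e1, e2, n1, n2⟩ := R.exists_tori hq
  have c0 := R.centralizer_eq_H hb hy
  have c0' := R.centralizer_eq_Cp hb' hy'
  have key : ∀ z : Γ, Big (orderOf z) → Com (Nat.card (centralizer {y})) (orderOf z) ∨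
      Com (Nat.card (centralizer {y'})) (orderOf z) ∨ Com (Nat.card (centralizer {y₁})) (orderOf z) ∨
      Com (Nat.card (centralizer {y₂})) (orderOf z) := by
    intro z h
    have h1 := orderOf_dvd_card_centralizer z
    rw [c0, c0', card_H, card_Cp]
    rcases R.card_centralizer_cases h with h2 | h2 | h2
    · exact Or.inl (h.com (h2 ▸ h1))
    · exact Or.inr (Or.inl (h.com (h2 ▸ h1)))
    · obtain ⟨p, hp, h3, h4⟩ := h
      rw [← e1] at h2
      exact Or.inr (Or.inr (((Nat.Prime.dvd_mul hp).1 (h4.trans (h1.trans h2))).imp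
        (fun h5 => ⟨p, hp, h3, h4, h5⟩) fun h5 => ⟨p, hp, h3, h4, h5⟩))
  refine ⟨_, _, e2, Nat.card_pos, Nat.card_pos, fun z hz => ?_, ?_⟩
  · rcases key z hz with h | h | h | h
    · exact Or.inl (by rw [R.card_centralizer_eq hb h, c0, card_H])
    · exact Or.inr (Or.inl (by rw [R.card_centralizer_eq hb' h, c0', card_Cp]))
    · exact Or.inr (Or.inr (Or.inl (R.card_centralizer_eq b₁ h)))
    · exact Or.inr (Or.inr (Or.inr (R.card_centralizer_eq b₂ h)))
  intro _ _
  have odd : ∀ {w : Γ}, Nat.card (centralizer {w}) ∣ Fintype.card K ^ 2 - Fintype.card K + 1 →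
      Nat.card {z | z ∈ centralizer {w} ∧ orderOf z = 2} = 0 := by
    intro w hw
    rw [Nat.card_eq_zero]
    refine Or.inl ⟨fun ⟨z, h1, h2⟩ => ?_⟩
    have := R.odd_sq_sub.of_dvd_nat ((h2 ▸ (centralizer {w}).orderOf_dvd_natCard h1).trans hw)
    exact absurd this (by decide)
  have w0 := R.weight_com hb (e := 2) (j := 1)
    (by rw [c0, R.normalizer_H' hb hy, card_N, card_H]) (by rw [c0, card_involutions_H])
  have w0' := R.weight_com hb' (e := 6) (j := 3)
    (by rw [c0', R.card_normalizer_Cp hb' hy', card_Cp]) (by rw [c0', card_involutions_Cp])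
  have w1 := R.weight_com b₁ n1 (odd (Dvd.intro _ e1))
  have w2 := R.weight_com b₂ n2 (odd (Dvd.intro_left _ e1))
  have le : ∑ z : Γ with Big (orderOf z), Nat.card (centralizer {z}) ≤
      ∑ z : Γ with Com (Nat.card (centralizer {y})) (orderOf z), Nat.card (centralizer {z}) +
      ∑ z : Γ with Com (Nat.card (centralizer {y'})) (orderOf z), Nat.card (centralizer {z}) +
      ∑ z : Γ with Com (Nat.card (centralizer {y₁})) (orderOf z), Nat.card (centralizer {z}) +
      ∑ z : Γ with Com (Nat.card (centralizer {y₂})) (orderOf z), Nat.card (centralizer {z}) := by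
    simp only [Finset.sum_filter, ← Finset.sum_add_distrib]
    refine Finset.sum_le_sum fun z _ => ?_
    split_ifs with h
    all_goals first | omega | (have := key z h; tauto)
  rw [c0, card_H] at w0
  rw [c0', card_Cp] at w0'
  rw [c0, c0', card_H, card_Cp] at le
  have p1 : 0 < Nat.card (centralizer ({y₁} : Set Γ)) := Nat.card_pos
  have p2 : 0 < Nat.card (centralizer ({y₂} : Set Γ)) := Nat.card_pos
  obtain ⟨s, hs⟩ : ∃ s, Fintype.card K = s + 3 := ⟨Fintype.card K - 3, by omega⟩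
  obtain ⟨a, ha⟩ : ∃ a, Nat.card (centralizer ({y₁} : Set Γ)) = a + 1 := ⟨_, (Nat.sub_add_cancel p1).symm⟩
  obtain ⟨b, hb⟩ : ∃ a, Nat.card (centralizer ({y₂} : Set Γ)) = a + 1 := ⟨_, (Nat.sub_add_cancel p2).symm⟩
  have r0 : Fintype.card K - 1 - 1 - 1 = s := by omega
  have r0' : Fintype.card K + 1 - 1 - 3 = s := by omega
  have r1 : Nat.card (centralizer ({y₁} : Set Γ)) - 1 - 0 = a := by omega
  have r2 : Nat.card (centralizer ({y₂} : Set Γ)) - 1 - 0 = b := by omega
  have r3 : Fintype.card K - 2 = s + 1 := by omega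
  have r4 : a + b = 2 * s + 6 := by omega
  rw [r0] at w0
  rw [r0'] at w0'
  rw [r1] at w1
  rw [r2] at w2
  rw [r3]
  have r5 : a * Nat.card Γ + b * Nat.card Γ = 2 * (s * Nat.card Γ) + 6 * Nat.card Γ := by
    rw [← add_mul, r4]; ring
  rw [add_mul]
  omega

/-- The trace in the 7-dimensional representation. -/
def tr (g : Γ) : K := (R.ρ g).trace

omit [Fintype K] in
theorem tr_eq_of_isConj {g h : Γ} (H : IsConj g h) : R.tr g = R.tr h := by
  obtain ⟨x, rfl⟩ := isConj_iff.1 H
  rw [tr, tr, map_mul, Matrix.trace_mul_comm, ← map_mul, inv_mul_cancel_left]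

variable {R} {θ : K →+* K} (hE : R.Expl θ)
include hE

theorem Expl.big_of_tr {g : Γ} (h1 : R.tr g ≠ 1) (h2 : R.tr g ≠ -1) : Big (orderOf g) := by
  have := R.finite
  by_cases h3 : 3 ∣ orderOf g
  · exfalso
    obtain ⟨k, hk⟩ := R.exists_conj_mem_B h3
    rw [← ReeUtil.orderOf_conj k] at h3
    rw [R.tr_eq_of_isConj (isConj_iff.2 ⟨k, rfl⟩)] at h1 h2
    rcases R.mem_U_or_of_three_dvd hk h3 with ⟨t, u, v, e⟩ | ⟨t, u, v, e⟩
    · have := hE.tr_b t u v 1 (Or.inl rfl)
      rw [map_one, mul_one] at this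
      exact h1 (by rw [e, tr, this]; rfl)
    · exact h2 (by rw [e, tr, a, hE.tr_b t u v (-1) (Or.inr rfl)]; rfl)
  rcases R.orderOf_cases g with h | h | h | h | h | h
  · exfalso
    have := hE.tr_b 0 0 0 1 (Or.inl rfl)
    rw [map_one, mul_one, x_zero] at this
    exact h1 (by rw [orderOf_eq_one_iff.1 h, tr, this]; rfl)
  · exfalso
    have := hE.tr_b 0 0 0 (-1) (Or.inr rfl)
    rw [x_zero, one_mul] at this
    apply h2
    rw [← R.tr_eq_of_isConj (R.isConj_a (by rw [← sq, ← h, pow_orderOf_eq_one])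
      (by rintro rfl; simp at h)), tr, a, this]
    rfl
  · exact absurd (h ▸ dvd_rfl) h3
  · exact absurd (by rw [h]; decide) h3
  · exact absurd (by rw [h]; decide) h3
  · exact h

omit [Fintype K] in
theorem Expl.tr_z (c : Kˣ) : R.tr (R.x 0 0 1 * R.h c⁻¹ * R.n) = -1 + θ c ^ 2 * c := by
  rw [tr, hE.tr_n]
  simp

theorem Expl.exists_c {s : K} (hs : s ≠ 0) : ∃ c : Kˣ, θ c ^ 2 * c = s := by
  obtain ⟨d, hd⟩ := R.exists_sq_mul_φ s
  have hd0 : d ≠ 0 := by
    rintro rfl
    exact hs (by simpa using hd.symm)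
  have : θ (R.φ d) = d := R.φ.injective (hE.φθ _)
  exact ⟨Units.mk0 _ (R.φ_ne_zero hd0), by rw [Units.val_mk0, this, hd]⟩

/-- Normal form of the regular semisimple elements. -/
theorem Expl.exists_normal (hq : 3 < Fintype.card K) {g : Γ} (hg : Big (orderOf g)) :
    ∃ c : Kˣ, IsConj (R.x 0 0 1 * R.h c * R.n) g := by
  classical
  have := R.finite
  have := Fintype.ofFinite Γ
  obtain ⟨-, -, -, -, -, -, hle⟩ := R.exists_four_tori hq
  specialize hle
  choose! f hf using fun s : K => hE.exists_c (s := s)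
  set y : K → Γ := fun s => R.x 0 0 1 * R.h (f s)⁻¹ * R.n with hy
  have hty : ∀ s ≠ 0, R.tr (y s) = -1 + s := fun s hs => by rw [hy, hE.tr_z, hf s hs]
  set A : Finset K := Finset.univ \ {0, -1} with hA
  have hmA : ∀ s ∈ A, s ≠ 0 ∧ s ≠ -1 := fun s hs => by simpa [hA] using hs
  have hcA : A.card = Fintype.card K - 2 := by
    rw [hA, Finset.card_univ_sdiff, Finset.card_pair (by simp)]
  set C : K → Finset Γ := fun s => {z | IsConj (y s) z} with hC
  have hsub : A.biUnion C ⊆ Finset.univ.filter fun z => Big (orderOf z) := by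
    intro z hz
    obtain ⟨s, hs, hz⟩ := Finset.mem_biUnion.1 hz
    have h1 := R.tr_eq_of_isConj (Finset.mem_filter.1 hz).2
    rw [hty s (hmA s hs).1] at h1
    refine Finset.mem_filter.2 ⟨Finset.mem_univ _, hE.big_of_tr ?_ ?_⟩
    · rw [← h1]
      exact fun h => (hmA s hs).2 (by linear_combination h + R.three)
    · rw [← h1]
      exact fun h => (hmA s hs).1 (by linear_combination h)
  have hsum : ∑ z ∈ A.biUnion C, Nat.card (centralizer {z}) = (Fintype.card K - 2) * Nat.card Γ := by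
    rw [Finset.sum_biUnion, Finset.sum_congr rfl (g := fun _ => Nat.card Γ), Finset.sum_const, hcA,
      smul_eq_mul]
    · intro s _
      rw [Finset.sum_congr rfl (g := fun _ => Nat.card (centralizer {y s})), Finset.sum_const,
        smul_eq_mul, hC, ← Fintype.card_subtype, ← Nat.card_eq_fintype_card,
        Ch.card_isConj_mul_card_centralizer]
      intro z hz
      obtain ⟨k, rfl⟩ := isConj_iff.1 (Finset.mem_filter.1 hz).2
      exact card_centralizer_conj k _
    · intro s hs s' hs' hne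
      refine Finset.disjoint_left.2 fun z h1 h2 => hne ?_
      have := R.tr_eq_of_isConj
        ((Finset.mem_filter.1 h1).2.trans (Finset.mem_filter.1 h2).2.symm)
      rw [hty s (hmA s hs).1, hty s' (hmA s' hs').1] at this
      exact add_left_cancel this
  by_contra hc
  have hlt : ∑ z ∈ A.biUnion C, Nat.card (centralizer {z}) <
      ∑ z : Γ with Big (orderOf z), Nat.card (centralizer {z}) := by
    refine Finset.sum_lt_sum_of_subset hsub (i := g) (by simpa using hg) (fun h => ?_)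
      Nat.card_pos fun _ _ _ => Nat.zero_le _
    obtain ⟨s, -, hz⟩ := Finset.mem_biUnion.1 h
    exact hc ⟨_, (Finset.mem_filter.1 hz).2⟩
  omega

end ReeGroup

end Cfsg.Agent.Chev
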