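import Mathlib
import Cfsg.Agent.Cl.CharReeTr
import Cfsg.Agent.Cl.CharGow
import Cfsg.Agent.Chev.ReeDeg
import Cfsg.Agent.S0157

/-!
# Squares of regular semisimple classes in the small Ree groups
-/

set_option autoImplicit false

namespace Cfsg.Agent.Chev.ReeGroup

open Subgroup Cfsg.Agent.Ch

variable {K : Type*} [Field K] {Γ : Type*} [Group Γ] (R : ReeGroup K Γ)

theorem a_conj_xhn (t u v : K) (c : Kˣ) :
    R.a * (R.x t u v * R.h c * R.n) * R.a⁻¹ = R.x (-t) u (-v) * R.h c * R.n := by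
  rw [← mul_assoc, ← mul_assoc, a_x, mul_assoc _ R.a, a_h, ← mul_assoc, mul_assoc _ R.a, a_n]
  group

theorem isConj_inv_normal (c : Kˣ) :
    IsConj (R.x 0 0 1 * R.h c * R.n) (R.x 0 0 1 * R.h c * R.n)⁻¹ := by
  refine isConj_iff.2 ⟨R.h c * R.n * R.a, ?_⟩
  have h1 := R.a_conj_xhn 0 0 1 c
  have h2 : (R.h c * R.n)⁻¹ = R.h c * R.n := inv_eq_of_mul_eq_one_right (R.h_n_mul_self c)
  have h3 : (R.x 0 0 1)⁻¹ = R.x (-0) 0 (-1) := by
    rw [x_inv]; exact R.x_congr rfl (by simp) (by simp)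
  calc _ = R.h c * R.n * (R.a * (R.x 0 0 1 * R.h c * R.n) * R.a⁻¹) * (R.h c * R.n)⁻¹ := by group
    _ = _ := by
      rw [h1, ← h3, mul_assoc (R.x 0 0 1), mul_inv_rev (R.x 0 0 1), mul_assoc (R.x 0 0 1)⁻¹,
        mul_assoc, mul_inv_cancel_right, h2]

theorem isConj_x_uv {u : K} (hu : u ≠ 0) (v : K) : IsConj (R.x 0 u 0) (R.x 0 u v) := by
  refine isConj_iff.2 ⟨R.x (v / u) 0 0, ?_⟩
  rw [mul_inv_eq_iff_eq_mul, x_mul, x_mul]
  refine R.x_congr (by simp) (by simp) ?_
  simp [hu]

theorem card_le_of_subset_range {α : Type*} [Finite α] {S : Subgroup Γ} (f : α → Γ)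
    (h : ∀ g ∈ S, ∃ a, g = f a) : Nat.card S ≤ Nat.card α := by
  choose s hs using h
  exact Nat.card_le_card_of_injective (fun g : S => s g g.2) fun g g' e =>
    Subtype.ext (by rw [hs g g.2, hs g' g'.2]; exact congrArg f e)

theorem card_sol [Fintype K] [DecidableEq K] {θ : K →+* K} (hθ : ∀ a, R.φ (θ a) = a) {A B C D : K}
    (hA : A ≠ 0) : (Finset.univ.filter fun v => A * θ v ^ 2 + B * θ v + C * v = D).card ≤ 4 := by
  open Polynomial in
  set E : K[X] := Polynomial.C D - Polynomial.C A * X ^ 2 - Polynomial.C B * X with hE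
  open Polynomial in
  set P : K[X] := Polynomial.C (R.φ A) * E ^ 2 + Polynomial.C (R.φ B * C) * E +
    Polynomial.C (R.φ C * C ^ 2) * X ^ 3 - Polynomial.C (R.φ D * C ^ 2) with hP
  have hd : P.natDegree = 4 := by
    rw [hP, hE]
    compute_degree!
  have hP0 : P ≠ 0 := by
    rintro h
    rw [h] at hd
    simp at hd
  rw [← hd]
  refine le_trans ?_ ((Multiset.toFinset_card_le _).trans P.card_roots')
  refine Finset.card_le_card_of_injOn θ (fun v hv => ?_) θ.injective.injOn
  have h1 := (Finset.mem_filter.1 hv).2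
  have h2 := congrArg R.φ h1
  simp only [map_add, map_mul, map_pow, hθ] at h2
  have h3 : R.φ v = θ v ^ 3 := by rw [← R.φφ, hθ]
  rw [h3] at h2
  rw [Finset.mem_coe, Multiset.mem_toFinset, Polynomial.mem_roots hP0, Polynomial.IsRoot, hP, hE]
  simp only [Polynomial.eval_sub, Polynomial.eval_add, Polynomial.eval_mul, Polynomial.eval_pow,
    Polynomial.eval_C, Polynomial.eval_X]
  rw [show D - A * θ v ^ 2 - B * θ v = C * v by linear_combination -h1]
  linear_combination C ^ 2 * h2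

theorem card_centralizer_nine [Fintype K] {t : K} (ht : t ≠ 0) (u v : K) :
    Nat.card (centralizer {R.x t u v}) ≤ 3 * Fintype.card K := by
  have := card_le_of_subset_range (S := centralizer {R.x t u v})
    (fun p : Fin 3 × K => R.x (![0, 1, -1] p.1 * t)
      (![0, 1, -1] p.1 * u + (2 * ![0, 1, -1] p.1 - 2 * ![0, 1, -1] p.1 ^ 2) * (t * R.φ t)) p.2) ?_
  · simpa using this
  intro g hg
  rw [mem_centralizer_singleton_iff] at hg
  obtain ⟨t', u', v', c, rfl⟩ := R.mem_B_of_commute (R.x_mem_U t u v)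
    (fun h => ht (R.x_eq_one_iff.1 h).1) hg
  rw [mul_assoc, h_x, ← mul_assoc, ← mul_assoc, x_mul, x_mul] at hg
  obtain ⟨h1, h2, h3, -⟩ := R.xh_inj hg
  have hc : c = 1 := Units.ext (mul_right_cancel₀ ht (by
    rw [Units.val_one]; linear_combination h1))
  subst hc
  simp only [Units.val_one, map_one, one_mul, one_pow] at h2 h3
  obtain ⟨e, rfl⟩ : ∃ e, t' = e * t := ⟨t' / t, by field_simp⟩
  have h4 : R.φ e = e := by
    rw [map_mul] at h2
    refine mul_right_cancel₀ (mul_ne_zero ht (R.φ_ne_zero ht)) ?_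
    linear_combination h2
  have h5 : e * ((e - 1) * (e + 1)) = 0 := by
    have := R.φφ e
    rw [h4, h4] at this
    linear_combination -this
  have h6 : u' = e * u + (2 * e - 2 * e ^ 2) * (t * R.φ t) := by
    rw [map_mul, h4] at h3
    refine mul_left_cancel₀ ht ?_
    linear_combination -h3
  rw [map_one, mul_one, h6]
  rcases mul_eq_zero.1 h5 with h | h
  · exact ⟨(0, v'), by simp [h]⟩
  rcases mul_eq_zero.1 h with h | h
  · exact ⟨(1, v'), by simp [sub_eq_zero.1 h]⟩
  · exact ⟨(2, v'), by simp [eq_neg_of_add_eq_zero_left h]⟩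

theorem card_centralizer_six [Fintype K] {u : K} (hu : u ≠ 0) :
    Nat.card (centralizer {R.x 0 u 0 * R.a}) ≤ 3 * Fintype.card K := by
  have := card_le_of_subset_range (S := centralizer {R.x 0 u 0 * R.a})
    (fun p : Fin 2 × K => R.x 0 p.2 0 * R.h (![1, -1] p.1)) ?_
  · simp only [Nat.card_eq_fintype_card (α := Fin 2 × K), Fintype.card_prod, Fintype.card_fin] at this
    omega
  intro g hg
  have hc : Commute (R.x 0 u 0) R.a := (R.a_x_u u).symm
  have h3 : (R.x 0 u 0 * R.a) ^ 3 = R.a := by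
    rw [hc.mul_pow, R.x_cube_eq_one_iff.2 rfl, one_mul, pow_succ, sq, a_mul_a, one_mul]
  have h1 : g ∈ centralizer {R.a} := h3 ▸ centralizer_le_pow _ 3 hg
  rw [mem_centralizer_singleton_iff] at hg
  have h2 : g * R.x 0 u 0 = R.x 0 u 0 * g := by
    rw [← mul_assoc, mul_assoc _ R.a, ← R.mem_centralizer_a.1 h1, ← mul_assoc] at hg
    exact mul_right_cancel hg
  obtain ⟨w, c, rfl⟩ := R.eq_of_mem_centralizer_a_of_mem_B h1 (R.mem_B_of_commute (R.x_mem_U 0 u 0)
    (fun h => hu (R.x_eq_one_iff.1 h).2.1) h2)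
  rw [mul_assoc, h_x, ← mul_assoc, ← mul_assoc, x_mul, x_mul] at h2
  obtain ⟨-, h4, -, -⟩ := R.xh_inj h2
  simp only [mul_zero, map_zero, sub_zero] at h4
  have h5 : (c : K) * R.φ c = 1 := mul_right_cancel₀ hu (by linear_combination h4)
  rcases eq_one_or_neg_one_of_sq (R.sq_eq_one_of_mul_φ h5) with rfl | rfl
  · exact ⟨(0, w), rfl⟩
  · exact ⟨(1, w), rfl⟩

variable [Fintype K]

theorem isConj_x_v {v w : K} (hv : v ≠ 0) (hw : w ≠ 0) : IsConj (R.x 0 0 v) (R.x 0 0 w) := by
  obtain ⟨c, hc⟩ := R.exists_sq_mul_φ_eq (div_ne_zero hw hv)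
  refine isConj_iff.2 ⟨R.h c, ?_⟩
  rw [h_x_h, hc]
  exact R.x_congr (by simp) (by simp) (by field_simp)

theorem isConj_x_u {u w : K} (hu : u ≠ 0) (hw : w ≠ 0) :
    IsConj (R.x 0 u 0) (R.x 0 w 0) ∨ IsConj (R.x 0 (-u) 0) (R.x 0 w 0) := by
  obtain ⟨d, hd⟩ := R.exists_mul_sq (Units.mk0 _ (div_ne_zero hu hw))
  have h1 := R.φ_ne_zero d.ne_zero
  have key : ∀ s : K, IsConj (R.x 0 s 0) (R.x 0 (d ^ 2 * s) 0) := fun s => by
    refine isConj_iff.2 ⟨R.h (Units.mk0 _ h1 * d⁻¹), ?_⟩
    rw [h_x_h]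
    refine R.x_congr (by simp) ?_ (by simp)
    simp only [Units.val_mul, Units.val_mk0, Units.val_inv_eq_inv_val, map_mul, map_inv₀, R.φφ]
    field_simp
  refine hd.imp (fun h => ?_) fun h => ?_
  all_goals
    have h2 := congrArg Units.val h
    simp only [Units.val_mul, Units.val_mk0, Units.val_pow_eq_pow_val, Units.val_one,
      Units.val_neg] at h2
    field_simp at h2
    convert key _ using 2
  · linear_combination -h2
  · linear_combination h2

theorem isIrr_st : IsIrrCharacter Γ fun g => (Nat.card (MulAction.fixedBy (Γ ⧸ R.B) g) : ℂ) - 1 := by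
  have := R.finite
  refine (S0157.result (Γ ⧸ R.B) (by
    rw [card_quot]
    have : 0 < Fintype.card K ^ 3 := pow_pos Fintype.card_pos 3
    omega)).2 ?_
  rw [MulAction.is_two_pretransitive_iff]
  intro a b c d hab hcd
  obtain ⟨g, rfl, rfl⟩ := R.two_trans hab
  obtain ⟨h, rfl, rfl⟩ := R.two_trans hcd
  exact ⟨h * g⁻¹, by simp [mul_smul], by simp [mul_smul]⟩

/-- The Steinberg character. -/
noncomputable def st : IrrCharacter Γ := ⟨_, R.isIrr_st⟩

theorem st_apply (g : Γ) : (R.st : Γ → ℂ) g = (MulAction.fixedBy (Γ ⧸ R.B) g).ncard - 1 := rfl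

theorem st_one : (R.st : Γ → ℂ) 1 = (Fintype.card K ^ 3 : ℕ) := by
  rw [st_apply, MulAction.fixedBy_one_eq_univ, Set.ncard_univ, card_quot]
  simp

theorem st_a : (R.st : Γ → ℂ) R.a = Fintype.card K := by
  have h : MulAction.fixedBy (Γ ⧸ R.B) R.a = insert R.inf (Set.range fun u => R.pt 0 u 0) := by
    ext ω
    rw [MulAction.mem_fixedBy, a, fixed_h_neg_one]
    simp only [Set.mem_insert_iff, Set.mem_range, eq_comm]
  rw [st_apply, h, Set.ncard_insert_of_notMem (by rintro ⟨u, hu⟩; exact R.pt_ne_inf _ _ _ hu),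
    Set.ncard_range_of_injective (fun u u' e => (R.pt_inj e).2.1)]
  simp

theorem st_big {x : Γ} (hx : Big (orderOf x)) : (R.st : Γ → ℂ) x * (R.st : Γ → ℂ) x = 1 := by
  by_cases h : ∃ ω : Γ ⧸ R.B, x • ω = ω
  · obtain ⟨ω, hω⟩ := h
    obtain ⟨g, rfl⟩ := R.exists_smul_inf ω
    obtain ⟨t, u, v, c, e⟩ : g⁻¹ * x * g ∈ R.B := by
      rw [← smul_inf_eq_iff, mul_smul, mul_smul, hω, inv_smul_smul]
    have h0 : Big (orderOf (R.x t u v * R.h c)) := by
      rw [← e, show g⁻¹ * x * g = g⁻¹ * x * g⁻¹⁻¹ by rw [inv_inv], ReeUtil.orderOf_conj]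
      exact hx
    have h1 : c ≠ 1 := by
      rintro rfl
      rw [map_one, mul_one] at h0
      rcases R.orderOf_x_cases t u v with h | h | h <;>
        exact not_big_of_dvd (by rw [h]; decide) h0
    have h2 : c ≠ -1 := by
      rintro rfl
      rw [← a, orderOf_x_a] at h0
      split_ifs at h0 <;> exact not_big_of_dvd (by decide) h0
    obtain ⟨y, -, e'⟩ := R.exists_conj_h h1 h2 t u v
    have h3 : MulAction.fixedBy (Γ ⧸ R.B) (R.h c) = {R.inf, R.pt 0 0 0} := Set.ext fun ω =>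
      ⟨R.fixed_h h1 h2, by
        rintro (rfl | rfl)
        exacts [R.smul_inf_of_mem (R.h_mem_B c), R.h_smul_pt_zero c]⟩
    rw [← R.st.isClassFunction.conj_eq' x g, e, e', R.st.isClassFunction.conj_eq, st_apply, h3,
      Set.ncard_pair (R.pt_ne_inf 0 0 0).symm]
    norm_num
  · push Not at h
    have : MulAction.fixedBy (Γ ⧸ R.B) x = ∅ := Set.eq_empty_of_forall_notMem h
    simp [st_apply, this]

theorem eq_st (hq : 3 < Fintype.card K) (χ : IrrCharacter Γ)
    (h : (charDegree (χ : Γ → ℂ)).factorization 3 = (Nat.card Γ).factorization 3) : χ = R.st := by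
  have := R.finite
  have := Fintype.ofFinite Γ
  have : Fact (Nat.Prime 3) := ⟨Nat.prime_three⟩
  have h1 : Nat.card R.U = 3 ^ (Nat.card Γ).factorization 3 :=
    (R.isPGroup_U.toSylow R.not_three_dvd_index_U).card_eq_multiplicity
  have h2 : Nat.card R.chi.ker = Nat.card R.U := by
    rw [ker_chi]
    exact Nat.card_congr (subgroupOfEquivOfLe R.U_le_B).toEquiv
  have key : ∀ {ψ : Γ → ℂ}, IsIrrCharacter Γ ψ →
      (charDegree ψ).factorization 3 = (Nat.card Γ).factorization 3 →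
      ψ = indFun R.B (fun _ => 1) - fun _ => 1 := fun hψ hd =>
    Cl.Gow.eq_of_defect_zero (U := R.chi.ker) (R.commutator_eq_top hq)
      (IsPGroup.of_card (h2.trans h1)) (Abelianization.commutator_subset_ker _) (h2.trans h1)
      (by rw [h2, card_U]; nlinarith [Nat.le_self_pow three_ne_zero (Fintype.card K)])
      (by rw [h2, card_U, index_B]) hψ hd
  refine Subtype.ext ((key χ.2 h).trans (key R.st.2 ?_).symm)
  rw [charDegree_of_apply_one R.st_one, ← R.card_U, h1, Nat.Prime.factorization_pow Nat.prime_three]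
  simp

theorem exists_mul_eq_a (hq : 3 < Fintype.card K) {x : Γ} (hx : Big (orderOf x)) :
    ∃ y z, IsConj x y ∧ IsConj x z ∧ y * z = R.a := by
  have := R.finite
  have : Fact (Nat.Prime 3) := ⟨Nat.prime_three⟩
  have h1 : (centralizer {R.a}).index =
      Fintype.card K ^ 2 * (Fintype.card K ^ 2 - Fintype.card K + 1) := by
    have h := (centralizer {R.a}).card_mul_index
    rw [card_centralizer_a, R.card_eq'] at h
    refine Nat.eq_of_mul_eq_mul_left (Nat.mul_pos (Nat.mul_pos (by omega) (by omega)) (by omega))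
      (h.trans (by ring))
  have h3 := R.three_dvd_card
  refine Cl.Gow.exists_mul_of_ti (p := 3) R.sylow_three_inf R.st (R.eq_st hq) ?_
    (n := Fintype.card K ^ 2 - Fintype.card K + 1) ?_ ?_
  · rw [a_inv, h1]
    exact (h3.trans (dvd_pow_self _ two_ne_zero)).mul_right _
  · have : 3 ∣ Fintype.card K ^ 2 - Fintype.card K :=
      Nat.dvd_sub (h3.trans (dvd_pow_self _ two_ne_zero)) h3
    omega
  · rw [R.st_big hx, a_inv, centralChar, h1, st_a, st_one]
    have : (Fintype.card K : ℂ) ≠ 0 := Nat.cast_ne_zero.2 (by omega)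
    push_cast
    field_simp

include R in
theorem card_centralizer_big (hq : 3 < Fintype.card K) {x : Γ} (hx : Big (orderOf x)) :
    Nat.card (centralizer {x}) ≤ 2 * Fintype.card K + 1 := by
  obtain ⟨a, b, h1, h2, h3, h, -⟩ := R.exists_four_tori hq
  have := h x hx
  omega

include R in
theorem exists_mul_of_small (hq : 27 ≤ Fintype.card K) {x g : Γ} (hx : Big (orderOf x))
    (hg : Nat.card (centralizer {g}) ≤ 3 * Fintype.card K) :
    ∃ y z, IsConj x y ∧ IsConj x z ∧ y * z = g := by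
  have := R.finite
  refine Cl.Gow.exists_mul_of_bound (d := Fintype.card K * (Fintype.card K - 1) + 1)
    (fun χ hχ hne => ?_) ?_
  · have h1 := hχ.two_le_charDegree fun h =>
      hne (hχ.eq_one_of_commutator_eq_top h (R.commutator_eq_top (by omega)))
    obtain ⟨n, ρ, hρ, rfl⟩ := hχ
    rw [charDegree_character] at h1 ⊢
    exact R.le_finrank_of_irreducible (by omega) ρ hρ h1
  · have h1 := R.card_centralizer_big (by omega) hx
    obtain ⟨s, hs⟩ : ∃ s, Fintype.card K = s + 1 := ⟨Fintype.card K - 1, by omega⟩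
    rw [hs] at h1 hg hq ⊢
    calc _ ≤ (2 * (s + 1)) ^ 2 * (3 * (s + 1)) := by gcongr; omega
      _ = (s + 1) ^ 2 * (12 * (s + 1)) := by ring
      _ ≤ (s + 1) ^ 2 * s ^ 2 := by gcongr; nlinarith
      _ < _ := by rw [Nat.add_sub_cancel, ← mul_pow]; gcongr; omega

variable {R} {θ : K →+* K} (hE : R.Expl θ)
include hE

theorem Expl.exists_two (hq : 27 ≤ Fintype.card K) {x : Γ}
    (hx : Nat.card (centralizer {x}) ≤ 2 * Fintype.card K + 1) :
    ∃ (t u v u' v' : K) (c : Kˣ), u ≠ u' ∧ IsConj x (R.x t u v * R.h c * R.n) ∧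
      IsConj x (R.x t u' v' * R.h c * R.n) := by
  classical
  have := R.finite
  have := Fintype.ofFinite Γ
  by_contra hc
  push Not at hc
  set M : Finset ((K × Kˣ) × K × K) :=
    {p | IsConj x (R.x p.1.1 p.2.1 p.2.2 * R.h p.1.2⁻¹ * R.n)} with hM
  have h1 : M.card ≤ 4 * (Fintype.card K * (Fintype.card K - 1)) := by
    refine (Finset.card_le_mul_card_image (f := Prod.fst) M 4 ?_).trans ?_
    · rintro ⟨t, c⟩ hp
      obtain ⟨⟨_, u, v⟩, hm, rfl⟩ := Finset.mem_image.1 hp
      have hm' := (Finset.mem_filter.1 hm).2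
      refine le_trans ?_ (R.card_sol hE.φθ (A := θ c ^ 2 * c)
        (B := θ t * θ u * (θ c ^ 2 * c) - t * (θ c * c)) (C := -(θ t * (θ c ^ 2 * c)))
        (D := R.tr x - (-1 + θ t ^ 2 * θ c - (t * θ t * θ u - θ u ^ 2) * (θ c * c) -
          (- u * θ u - θ t ^ 3 * t * θ u + θ t ^ 4 * t ^ 2) * (θ c ^ 2 * c))) (by simp))
      have hu : ∀ p ∈ M.filter fun p => p.1 = (t, c), p.1 = (t, c) ∧ p.2.1 = u := by
        rintro ⟨p, u', v'⟩ hp
        obtain ⟨h2, rfl⟩ := Finset.mem_filter.1 hp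
        refine ⟨rfl, ?_⟩
        by_contra hne
        exact hc _ _ _ _ _ _ hne (Finset.mem_filter.1 h2).2 hm'
      refine Finset.card_le_card_of_injOn (fun p => p.2.2) (fun p hp => ?_) fun p hp p' hp' e => ?_
      · obtain ⟨e1, e2⟩ := hu p hp
        have h2 := R.tr_eq_of_isConj (Finset.mem_filter.1 (Finset.mem_filter.1 hp).1).2
        rw [e1, e2] at h2
        simp only [Finset.coe_filter, Finset.mem_univ, true_and, Set.mem_ofPred_eq]
        rw [h2, tr, hE.tr_n]
        ring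
      · obtain ⟨e1, e2⟩ := hu p hp
        obtain ⟨e3, e4⟩ := hu p' hp'
        exact Prod.ext (e1.trans e3.symm) (Prod.ext (e2.trans e4.symm) e)
    · gcongr
      refine (Finset.card_le_univ _).trans ?_
      rw [Fintype.card_prod, Fintype.card_units]
  have h2 : (Finset.univ.filter fun z => IsConj x z) ⊆ (Finset.univ.filter fun z => z ∈ R.B) ∪
      ((Finset.univ.filter fun z => z ∈ R.U) ×ˢ M).image fun p =>
        p.1⁻¹ * (R.x p.2.1.1 p.2.2.1 p.2.2.2 * R.h p.2.1.2⁻¹ * R.n) * p.1 := by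
    intro z hz
    have hz' := (Finset.mem_filter.1 hz).2
    rw [Finset.mem_union]
    rcases R.bruhat z with h | ⟨t, u, v, c, t', u', v', rfl⟩
    · exact Or.inl (Finset.mem_filter.2 ⟨Finset.mem_univ _, h⟩)
    · right
      obtain ⟨a, b, d, e⟩ := mul_mem (R.x_mem_U t' u' v') (R.x_mem_U t u v)
      refine Finset.mem_image.2 ⟨(R.x t' u' v', (a, c⁻¹), b, d), Finset.mem_product.2
        ⟨Finset.mem_filter.2 ⟨Finset.mem_univ _, R.x_mem_U ..⟩,
          Finset.mem_filter.2 ⟨Finset.mem_univ _, hz'.trans (isConj_iff.2 ⟨R.x t' u' v', ?_⟩)⟩⟩, ?_⟩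
      all_goals
        simp only [inv_inv, ← e]
        group
  have h3 := (Finset.card_le_card h2).trans ((Finset.card_union_le _ _).trans
    (Nat.add_le_add_left Finset.card_image_le _))
  rw [Finset.card_product, ← Fintype.card_subtype, ← Fintype.card_subtype, ← Fintype.card_subtype,
    ← Nat.card_eq_fintype_card, ← Nat.card_eq_fintype_card, ← Nat.card_eq_fintype_card,
    card_B, card_U] at h3
  have h4 := card_isConj_mul_card_centralizer x
  rw [R.card_eq] at h4
  have h5 := Nat.mul_le_mul h3 hx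
  rw [h4] at h5
  obtain ⟨s, hs⟩ : ∃ s, Fintype.card K = s + 1 := ⟨Fintype.card K - 1, by omega⟩
  rw [hs] at h5 h1 hq
  simp only [Nat.add_sub_cancel] at h5 h1
  have h6 : (s + 1) ^ 3 * s * ((s + 1) ^ 3 + 1) ≤
      (s + 1) ^ 3 * s * ((1 + 4 * (s + 1)) * (2 * (s + 1) + 1)) := by
    refine h5.trans ?_
    calc _ ≤ ((s + 1) ^ 3 * s + (s + 1) ^ 3 * (4 * ((s + 1) * s))) * (2 * (s + 1) + 1) := by gcongr
      _ = _ := by ring
  have h7 := Nat.le_of_mul_le_mul_left h6 (by have : 0 < s := by omega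
                                              positivity)
  nlinarith

theorem Expl.exists_mul_eq (hq : 27 ≤ Fintype.card K) {x g : Γ} (hx : Big (orderOf x))
    (hg : g ≠ 1) : ∃ y z, IsConj x y ∧ IsConj x z ∧ y * z = g := by
  have := R.finite
  have hq3 : 3 < Fintype.card K := by omega
  have red : ∀ {g' : Γ}, IsConj g' g → (∃ y z, IsConj x y ∧ IsConj x z ∧ y * z = g') →
      ∃ y z, IsConj x y ∧ IsConj x z ∧ y * z = g := by
    rintro _ h ⟨y, z, hy, hz, rfl⟩
    obtain ⟨k, rfl⟩ := isConj_iff.1 h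
    exact ⟨k * y * k⁻¹, k * z * k⁻¹, hy.trans (isConj_iff.2 ⟨k, rfl⟩),
      hz.trans (isConj_iff.2 ⟨k, rfl⟩), by group⟩
  obtain ⟨c, hc⟩ := hE.exists_normal hq3 hx
  have inv : ∀ {y z : Γ}, IsConj y z → IsConj y⁻¹ z⁻¹ := fun h => by
    obtain ⟨k, rfl⟩ := isConj_iff.1 h
    exact isConj_iff.2 ⟨k, by group⟩
  have real : ∀ {y : Γ}, IsConj x y → IsConj x y⁻¹ := fun h =>
    (hc.symm.trans (R.isConj_inv_normal c)).trans (inv (hc.trans h))
  by_cases h3 : 3 ∣ orderOf g
  · obtain ⟨k, hk⟩ := R.exists_conj_mem_B h3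
    rw [← ReeUtil.orderOf_conj k] at h3
    have hk' : IsConj (k * g * k⁻¹) g := (isConj_iff.2 ⟨k, rfl⟩).symm
    rcases R.mem_U_or_of_three_dvd hk h3 with ⟨t, u, v, e⟩ | ⟨t, u, v, e⟩
    · rw [e] at hk'
      by_cases ht : t = 0
      swap
      · exact red hk' (R.exists_mul_of_small hq hx (R.card_centralizer_nine ht u v))
      subst ht
      by_cases hu : u = 0
      · subst hu
        have hv : v ≠ 0 := by
          rintro rfl
          rw [x_zero, conj_eq_one_iff] at e
          exact hg e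
        refine red ((R.isConj_x_v R.two_ne_zero' hv).trans hk') ⟨_, _, hc.symm,
          real (hc.symm.trans (isConj_iff.2 ⟨R.a, R.a_conj_xhn 0 0 1 c⟩)), ?_⟩
        rw [show R.x 0 0 1 * R.h c * R.n * (R.x (-0) 0 (-1) * R.h c * R.n)⁻¹ =
          R.x 0 0 1 * (R.x (-0) 0 (-1))⁻¹ by group, x_inv, x_mul]
        exact R.x_congr (by simp) (by simp) (by simp [one_add_one_eq_two])
      · obtain ⟨t, a, b, a', b', d, hne, h1, h2⟩ :=
          hE.exists_two hq (R.card_centralizer_big hq3 hx)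
        have key : ∀ {a b a' b' : K}, a ≠ a' → IsConj x (R.x t a b * R.h d * R.n) →
            IsConj x (R.x t a' b' * R.h d * R.n) → IsConj (R.x 0 (a - a') 0) (R.x 0 u 0) →
            ∃ y z, IsConj x y ∧ IsConj x z ∧ y * z = g := by
          intro a b a' b' hne h1 h2 h3
          have e1 : ∃ w, R.x t a b * R.h d * R.n * (R.x t a' b' * R.h d * R.n)⁻¹ =
              R.x 0 (a - a') w := by
            rw [show R.x t a b * R.h d * R.n * (R.x t a' b' * R.h d * R.n)⁻¹ =
              R.x t a b * (R.x t a' b')⁻¹ by group, x_inv, x_mul]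
            exact ⟨_, R.x_congr (by simp) (by rw [map_neg]; ring) rfl⟩
          obtain ⟨w, hw⟩ := e1
          exact red ((((R.isConj_x_uv (sub_ne_zero.2 hne) w).symm.trans h3).trans
            (R.isConj_x_uv hu v)).trans hk') ⟨_, _, h1, real h2, hw⟩
        rcases R.isConj_x_u (sub_ne_zero.2 hne) hu with h | h
        · exact key hne h1 h2 h
        · exact key hne.symm h2 h1 (by rwa [neg_sub] at h)
    · obtain ⟨y, -, e'⟩ := R.exists_conj_a t u v
      rw [e, e'] at hk' h3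
      rw [ReeUtil.orderOf_conj] at h3
      have hu : u - t * R.φ t ≠ 0 := by
        intro h
        rw [h, x_zero, one_mul, orderOf_a] at h3
        omega
      exact red ((isConj_iff.2 ⟨y, rfl⟩).trans hk')
        (R.exists_mul_of_small hq hx (R.card_centralizer_six hu))
  rcases R.orderOf_cases g with h | h | h | h | h | h
  · exact absurd (orderOf_eq_one_iff.1 h) hg
  · exact red (R.isConj_a (by rw [← sq, ← h, pow_orderOf_eq_one]) hg) (R.exists_mul_eq_a hq3 hx)
  · exact absurd (h ▸ dvd_rfl) h3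
  · exact absurd (by rw [h]; decide) h3
  · exact absurd (by rw [h]; decide) h3
  · exact R.exists_mul_of_small hq hx ((R.card_centralizer_big hq3 h).trans (by omega))

end Cfsg.Agent.Chev.ReeGroup
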