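import Mathlib
import Cfsg.Agent.Cl.CharSL2Norm
import Cfsg.Agent.Cl.PSL2Class
import Cfsg.Agent.Ch.Integrality
import Cfsg.Agent.Ch.Linear
import Cfsg.Agent.Ch.Table
import Cfsg.Agent.Inv.QuatAut
import Cfsg.Agent.GT.TransferSL23
import Cfsg.Agent.GT.PGroupMaxTwo
import Cfsg.Agent.S0261
import Cfsg.Agent.S0276

/-!
Sylow normalisers of `SL₂(q)`, `q` odd, and the count of characters of degree prime to `ℓ`.
-/

set_option autoImplicit false

namespace Cfsg.Agent.Cl.CT

open Cfsg Cfsg.Agent.Ch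

/-- the number of irreducible characters of degree prime to `ℓ` -/
noncomputable def kPrime (ℓ : ℕ) (G : Type*) [Group G] : ℕ :=
  Nat.card {χ : IrrCharacter G // ¬ ℓ ∣ charDegree (χ : G → ℂ)}

theorem kPrime_congr (ℓ : ℕ) {G H : Type*} [Group G] [Group H] (e : H ≃* G) :
    kPrime ℓ G = kPrime ℓ H := by
  refine Nat.card_congr ((irrCongr e).subtypeEquiv fun χ => ?_)
  have : charDegree ((irrCongr e χ : IrrCharacter H) : H → ℂ) = charDegree (χ : G → ℂ) := by
    unfold charDegree
    rw [irrCongr_apply, map_one]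
  rw [this]

theorem kPrime_of_forall {ℓ : ℕ} {G : Type*} [Group G] [Finite G]
    (h : ∀ χ : G → ℂ, IsIrrCharacter G χ → ¬ ℓ ∣ charDegree χ) :
    kPrime ℓ G = Nat.card (ConjClasses G) := by
  rw [← Ch.card_irr]
  exact Nat.card_congr (Equiv.subtypeUnivEquiv fun χ => h _ χ.2)

theorem kPrime_of_comm {ℓ : ℕ} {G : Type*} [Group G] [Finite G] (A : Subgroup G) [A.Normal]
    (hA : ∀ a ∈ A, ∀ b ∈ A, a * b = b * a) (h : ¬ ℓ ∣ A.index) :
    kPrime ℓ G = Nat.card (ConjClasses G) :=
  kPrime_of_forall fun _ hχ hd => h (hd.trans (hχ.charDegree_dvd_index_of_comm A hA))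

theorem kPrime_of_isPGroup {ℓ : ℕ} [hℓ : Fact ℓ.Prime] {G : Type*} [Group G] [Finite G]
    (h : IsPGroup ℓ G) : kPrime ℓ G = (commutator G).index := by
  rw [← card_linear_irr]
  refine Nat.card_congr (Equiv.subtypeEquivRight fun χ => ?_)
  have h1 := χ.2.isCharacter.coe_charDegree
  obtain ⟨n, hn⟩ := IsPGroup.iff_card.1 h
  obtain ⟨k, -, hk⟩ := (Nat.dvd_prime_pow hℓ.out).1 (hn ▸ χ.2.charDegree_dvd_card)
  constructor
  · intro hd
    rcases k with _ | k
    · rw [← h1, hk]; simp
    · exact absurd (hk ▸ dvd_pow_self ℓ k.succ_ne_zero) hd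
  · intro h2 hd
    rw [h2] at h1
    have h3 : charDegree (χ : G → ℂ) = 1 := by exact_mod_cast h1
    rw [h3] at hd
    exact hℓ.out.one_lt.ne' (Nat.dvd_one.1 hd)

theorem nonempty_normalizer_sylow_equiv {G : Type*} [Group G] [Finite G] {p : ℕ} [Fact p.Prime]
    (P Q : Sylow p G) : Nonempty (Subgroup.normalizer ((P : Subgroup G) : Set G) ≃*
      Subgroup.normalizer ((Q : Subgroup G) : Set G)) := by
  obtain ⟨c, rfl⟩ := MulAction.exists_smul_eq G P Q
  have : ((c • P : Sylow p G) : Subgroup G) = L2.cj c P := by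
    rw [L2.cj_eq_smul]; rfl
  rw [this, ← L2.cj_normalizer]
  exact ⟨L2.cjEquiv c _⟩

end Cfsg.Agent.Cl.CT

namespace Cfsg.Agent.Cl.GL2

open Matrix Cfsg Cfsg.Agent.Cl.CT Cfsg.Agent.Ch
open scoped MatrixGroups

variable {F : Type*} [Field F]

theorem kPrime_SL2 [Fintype F] (hodd : Odd (Fintype.card F)) (ℓ : ℕ) (hℓ : ℓ ≠ 1) :
    kPrime ℓ SL(2, F) = 1 + (if ℓ ∣ Fintype.card F then 0 else 1) +
      (if ℓ ∣ Fintype.card F + 1 then 0 else (Fintype.card F - 3) / 2) +
      (if ℓ ∣ Fintype.card F - 1 then 0 else (Fintype.card F - 1) / 2) +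
      (if ℓ ∣ (Fintype.card F + 1) / 2 then 0 else 2) +
      (if ℓ ∣ (Fintype.card F - 1) / 2 then 0 else 2) := by
  classical
  obtain ⟨e, he⟩ := exists_isEll (F := F)
  have hq := two_le_card (F := F)
  let d : Fin 6 → ℕ := ![1, Fintype.card F, Fintype.card F + 1, Fintype.card F - 1,
    (Fintype.card F + 1) / 2, (Fintype.card F - 1) / 2]
  have hd : ∀ i, ((d i : ℕ) : ℂ) = degSL F i := by
    intro i
    fin_cases i
    · simp [d, degSL]
    · simp [d, degSL]
    · simp [d, degSL]
    · simp [d, degSL, Nat.cast_sub (show 1 ≤ Fintype.card F by omega)]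
    · exact cast_half_add hodd
    · exact cast_half_sub hodd
  have h := card_irr_subtype_of_families (famSL he) (famSL_irr he) (famSL_disj he)
    (fun χ hχ => famSL_complete he hχ) (fun χ => ¬ ℓ ∣ charDegree χ) (fun i => ¬ ℓ ∣ d i)
    (fun i χ hχ => by
      have : charDegree χ = d i := by
        unfold charDegree
        rw [famSL_deg he i χ hχ, ← hd]
        simp
      rw [this])
  have h2 := ringChar_ne_two_of_odd hodd
  have c2 := ncard_famSL_two he
  have c3 := ncard_famSL_three he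
  have c4 := ncard_famSL_four he
  have c5 := ncard_famSL_five he
  rw [if_neg h2] at c2 c3 c4 c5
  unfold kPrime
  rw [h, Fin.sum_univ_six, ncard_famSL_zero, ncard_famSL_one, c4, c5,
    show (famSL he 2).ncard = (Fintype.card F - 3) / 2 by omega,
    show (famSL he 3).ncard = (Fintype.card F - 1) / 2 by omega]
  simp only [ite_not]
  simp [d, hℓ]
  congr

theorem centralizer_le_borelSL {g : SL(2, F)} (h10 : (g : Mat F) 1 0 = 0)
    (hg : ¬ IsScal (g : Mat F)) : Subgroup.centralizer ({g} : Set SL(2, F)) ≤ borelSL F := by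
  intro x hx
  rw [Subgroup.mem_centralizer_singleton_iff] at hx
  obtain ⟨a, b, h⟩ := (comm_iff_of_not_isScal hg (x : Mat F)).1 (by
    rw [← sl_coe_mul, ← sl_coe_mul, hx])
  rw [mem_borelSL_iff, h]
  simp [h10]

theorem card_centralizer_upper_hyp_sl [Fintype F] {g : SL(2, F)} (h10 : (g : Mat F) 1 0 = 0)
    (h : (g : Mat F) 0 0 ≠ (g : Mat F) 1 1) :
    Nat.card (Subgroup.centralizer ({g} : Set SL(2, F))) = Fintype.card F - 1 := by
  have hc := isConj_upper_diag_sl h10 h
  obtain ⟨e⟩ := nonempty_centralizer_equiv hc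
  have h3 := ((isRS_of_upper h10 h).of_isConj hc).not_isScal
  rw [Nat.card_congr e.toEquiv, centralizer_diag (uppS10 _ _) (uppS01 _ _)
      (fun h' => h3 ⟨uppS01 _ _, uppS10 _ _, h'⟩), card_range_diagS]

theorem sq_eq_one_iff_of_ne_zero_aux (a : Fˣ) : (a : F) ^ 2 = 1 ↔ a = 1 ∨ a = -1 := by
  rw [sq_eq_one_iff, ← Units.val_eq_one, ← Units.val_inj, Units.val_neg, Units.val_one]

theorem card_conjClasses_borelSL [Fintype F] (hodd : Odd (Fintype.card F)) :
    Nat.card (ConjClasses (borelSL F)) = Fintype.card F + 3 := by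
  classical
  have h2 := two_ne_zero_of_odd hodd
  have := Fintype.ofFinite (borelSL F)
  have hq := two_le_card (F := F)
  have hsum := FG.sum_card_centralizer (G := borelSL F)
  rw [← borelSLEquiv.sum_comp, card_borelSL] at hsum
  have hval : ∀ p : Fˣ × F, Nat.card (Subgroup.centralizer ({borelSLEquiv p} : Set (borelSL F))) =
      if (p.1 : F) ^ 2 = 1 then (if p.2 = 0 then Fintype.card F * (Fintype.card F - 1)
        else 2 * Fintype.card F) else Fintype.card F - 1 := by
    rintro ⟨a, y⟩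
    have hc := coe_borelSLEquiv (a, y)
    have h10 : (((borelSLEquiv (a, y) : borelSL F) : SL(2, F)) : Mat F) 1 0 = 0 := by
      rw [hc, mkSL10]
    have h00 : (((borelSLEquiv (a, y) : borelSL F) : SL(2, F)) : Mat F) 0 0 = a := by
      rw [hc, mkSL00]
    have h01 : (((borelSLEquiv (a, y) : borelSL F) : SL(2, F)) : Mat F) 0 1 = y := by
      rw [hc, mkSL01]
    have hsq := upper_sq_eq_one h10
    rw [h00] at hsq
    have key : ¬ IsScal (((borelSLEquiv (a, y) : borelSL F) : SL(2, F)) : Mat F) →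
        Nat.card (Subgroup.centralizer ({borelSLEquiv (a, y)} : Set (borelSL F))) =
          Nat.card (Subgroup.centralizer
            ({((borelSLEquiv (a, y) : borelSL F) : SL(2, F))} : Set SL(2, F))) := by
      intro hs
      rw [GT.centralizer_singleton_subgroup]
      exact Nat.card_congr (Subgroup.subgroupOfEquivOfLe (centralizer_le_borelSL h10 hs)).toEquiv
    dsimp only
    split_ifs with h1 h3
    · have hs : IsScal (((borelSLEquiv (a, y) : borelSL F) : SL(2, F)) : Mat F) :=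
        ⟨h01.trans h3, h10, h00.trans (hsq.2 h1)⟩
      have : Subgroup.centralizer ({borelSLEquiv (a, y)} : Set (borelSL F)) = ⊤ := by
        rw [Subgroup.eq_top_iff']
        intro x
        rw [Subgroup.mem_centralizer_singleton_iff]
        exact Subtype.ext (Subgroup.mem_center_iff.1 (mem_center_sl_iff.2 hs) x)
      rw [this, Subgroup.card_top, card_borelSL]
    · rw [key (fun h => h3 (h01.symm.trans h.1)), card_centralizer_par_sl h10
        (h00.trans (hsq.2 h1)) (by rw [h01]; exact h3), card_sq_eq_one_of_ne h2,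
        Nat.card_eq_fintype_card]
    · have h4 : (((borelSLEquiv (a, y) : borelSL F) : SL(2, F)) : Mat F) 0 0 ≠
          (((borelSLEquiv (a, y) : borelSL F) : SL(2, F)) : Mat F) 1 1 := by
        rw [h00]; exact fun h => h1 (hsq.1 h)
      rw [key (fun h => h4 h.2.2), card_centralizer_upper_hyp_sl h10 h4]
  simp only [hval] at hsum
  rw [Fintype.sum_prod_type] at hsum
  have h5 : ∀ a : Fˣ, (∑ y : F, if (a : F) ^ 2 = 1 then (if y = 0 then
      Fintype.card F * (Fintype.card F - 1) else 2 * Fintype.card F) else Fintype.card F - 1) =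
      if (a : F) ^ 2 = 1 then 3 * (Fintype.card F * (Fintype.card F - 1))
        else Fintype.card F * (Fintype.card F - 1) := by
    intro a
    split_ifs with h
    · rw [← Finset.add_sum_erase _ _ (Finset.mem_univ (0 : F)), if_pos rfl,
        Finset.sum_congr rfl (fun y hy => if_neg (Finset.ne_of_mem_erase hy)), Finset.sum_const,
        Finset.card_erase_of_mem (Finset.mem_univ _), Finset.card_univ, smul_eq_mul]
      ring
    · simp
  simp only [h5] at hsum
  rw [Finset.sum_ite, Finset.sum_const, Finset.sum_const, smul_eq_mul, smul_eq_mul] at hsum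
  have c1 : (Finset.univ.filter fun a : Fˣ => (a : F) ^ 2 = 1).card = 2 := by
    have : (Finset.univ.filter fun a : Fˣ => (a : F) ^ 2 = 1) = {1, -1} := by
      ext a
      rw [Finset.mem_filter, Finset.mem_insert, Finset.mem_singleton, sq_eq_one_iff_of_ne_zero_aux]
      simp
    rw [this, Finset.card_pair]
    intro h
    have := congrArg (fun a : Fˣ => (a : F)) h
    exact h2 (by simp at this; linear_combination this)
  have c2 := Finset.card_filter_add_card_filter_not (s := (Finset.univ : Finset Fˣ))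
    (fun a : Fˣ => (a : F) ^ 2 = 1)
  rw [c1, Finset.card_univ, Fintype.card_units] at c2
  obtain ⟨w, hw⟩ : ∃ w, w = (Finset.univ.filter fun a : Fˣ => ¬ (a : F) ^ 2 = 1).card := ⟨_, rfl⟩
  rw [c1, ← hw] at hsum
  rw [← hw] at c2
  have hpos : 0 < Fintype.card F * (Fintype.card F - 1) := Nat.mul_pos (by omega) (by omega)
  apply Nat.eq_of_mul_eq_mul_right hpos
  rw [← hsum, show Fintype.card F + 3 = 6 + w by omega]
  ring

/-- the upper unitriangular subgroup -/
def uniHom : Multiplicative F →* SL(2, F) where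
  toFun y := uniS y.toAdd
  map_one' := uniS_zero
  map_mul' _ _ := (uniS_mul _ _).symm

theorem mem_range_uniHom {g : SL(2, F)} :
    g ∈ (uniHom : Multiplicative F →* SL(2, F)).range ↔ (g : Mat F) 1 0 = 0 ∧ (g : Mat F) 0 0 = 1 := by
  constructor
  · rintro ⟨y, rfl⟩
    exact ⟨uniS10 _, uniS00 _⟩
  · rintro ⟨h1, h2⟩
    exact ⟨Multiplicative.ofAdd ((g : Mat F) 0 1), (eq_uniS h1 h2).symm⟩

theorem card_range_uniHom [Fintype F] :
    Nat.card (uniHom : Multiplicative F →* SL(2, F)).range = Fintype.card F := by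
  have h : Function.Injective (uniHom : Multiplicative F →* SL(2, F)) :=
    fun _ _ h => uniS_injective (F := F) h
  rw [L2.card_range_of_injective h, Nat.card_eq_fintype_card, Fintype.card_multiplicative]

theorem normalizer_range_uniHom :
    Subgroup.normalizer ((uniHom : Multiplicative F →* SL(2, F)).range : Set SL(2, F)) =
      borelSL F := by
  apply le_antisymm
  · intro g hg
    rw [Subgroup.mem_normalizer_iff] at hg
    obtain ⟨y, hy⟩ := (hg (uniS 1)).1 ⟨Multiplicative.ofAdd 1, rfl⟩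
    have h1 : uniS y.toAdd * g = g * uniS 1 := by
      rw [show uniS y.toAdd = g * uniS 1 * g⁻¹ from hy, inv_mul_cancel_right]
    have h2 := (sl_ext_iff.1 h1).2.2.2
    rw [sl_coe_mul, sl_coe_mul, mul11, mul11, uniS10, uniS11, uniS01, uniS11] at h2
    rw [mem_borelSL_iff]
    linear_combination -h2
  · have key : ∀ g ∈ borelSL F, ∀ u ∈ (uniHom : Multiplicative F →* SL(2, F)).range,
        g * u * g⁻¹ ∈ (uniHom : Multiplicative F →* SL(2, F)).range := by
      intro g hg u hu
      have h1 := (mem_borelSL_iff _).1 hg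
      have h2 := (mem_borelSL_iff _).1 (Subgroup.inv_mem _ hg)
      obtain ⟨h3, h4⟩ := mem_range_uniHom.1 hu
      have h5 := (sl_ext_iff.1 (mul_inv_cancel g)).1
      rw [sl_coe_mul, mul00, h2] at h5
      rw [mem_range_uniHom]
      simp only [sl_coe_mul, mul00, mul01, mul10, mul11, h1, h2, h3, h4]
      refine ⟨by ring, ?_⟩
      simpa using h5
    intro g hg
    rw [Subgroup.mem_normalizer_iff]
    intro a
    refine ⟨key g hg a, fun ha => ?_⟩
    have := key g⁻¹ (Subgroup.inv_mem _ hg) _ ha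
    simpa [mul_assoc] using this

theorem nonempty_normalizer_equiv_borelSL [Fintype F] {ℓ : ℕ} [hℓ : Fact ℓ.Prime]
    (h : ℓ ∣ Fintype.card F) (P : Sylow ℓ SL(2, F)) :
    Nonempty (Subgroup.normalizer ((P : Subgroup SL(2, F)) : Set SL(2, F)) ≃* borelSL F) := by
  obtain ⟨p, hp⟩ := CharP.exists F
  obtain ⟨n, hpp, hn⟩ := FiniteField.card F p
  obtain rfl : ℓ = p := (Nat.prime_dvd_prime_iff_eq hℓ.out hpp).1 (hℓ.out.dvd_of_dvd_pow (hn ▸ h))
  have hU : IsPGroup ℓ (uniHom : Multiplicative F →* SL(2, F)).range :=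
    IsPGroup.of_card (card_range_uniHom.trans hn)
  have hq := two_le_card (F := F)
  have hi : ¬ ℓ ∣ (uniHom : Multiplicative F →* SL(2, F)).range.index := by
    have h1 := (uniHom : Multiplicative F →* SL(2, F)).range.card_mul_index
    rw [card_range_uniHom, card_SL2, mul_assoc] at h1
    rw [Nat.eq_of_mul_eq_mul_left (by omega) h1]
    intro hd
    have h3 : (Fintype.card F - 1) * (Fintype.card F + 1) + 1 = Fintype.card F * Fintype.card F := by
      obtain ⟨k, hk⟩ := Nat.exists_eq_add_of_le (show 1 ≤ Fintype.card F by omega)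
      rw [hk, Nat.add_sub_cancel_left]
      ring
    have h4 : ℓ ∣ 1 := (Nat.dvd_add_right hd).1 (h3 ▸ h.mul_right _)
    exact hpp.one_lt.ne' (Nat.dvd_one.1 h4)
  obtain ⟨e⟩ := nonempty_normalizer_sylow_equiv P (hU.toSylow hi)
  rw [IsPGroup.toSylow_coe, normalizer_range_uniHom] at e
  exact ⟨e⟩

theorem kPrime_borelSL [Fintype F] (hodd : Odd (Fintype.card F)) {ℓ : ℕ} [hℓ : Fact ℓ.Prime]
    (h : ℓ ∣ Fintype.card F) : kPrime ℓ (borelSL F) = Fintype.card F + 3 := by
  have hle : (uniHom : Multiplicative F →* SL(2, F)).range ≤ borelSL F :=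
    Subgroup.le_normalizer.trans normalizer_range_uniHom.le
  have hn : ((uniHom : Multiplicative F →* SL(2, F)).range.subgroupOf (borelSL F)).Normal :=
    (Subgroup.normal_subgroupOf_iff_le_normalizer hle).2 normalizer_range_uniHom.ge
  have hq := two_le_card (F := F)
  rw [kPrime_of_comm ((uniHom : Multiplicative F →* SL(2, F)).range.subgroupOf (borelSL F)),
    card_conjClasses_borelSL hodd]
  · rintro a ⟨x, hx⟩ b ⟨y, hy⟩
    apply Subtype.ext
    change (a : SL(2, F)) * b = b * a
    rw [show (a : SL(2, F)) = uniHom x from hx.symm, show (b : SL(2, F)) = uniHom y from hy.symm,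
      ← map_mul, ← map_mul, mul_comm]
  · have h1 := L2.card_mul_relIndex_of_le hle
    rw [card_range_uniHom, card_borelSL] at h1
    change ¬ ℓ ∣ Subgroup.relIndex _ _
    rw [Nat.eq_of_mul_eq_mul_left (by omega) h1]
    intro hd
    have h4 : ℓ ∣ 1 := by
      have := Nat.dvd_sub h hd
      rwa [show Fintype.card F - (Fintype.card F - 1) = 1 by omega] at this
    exact hℓ.out.one_lt.ne' (Nat.dvd_one.1 h4)

theorem exists_isRS_sylow [Fintype F] {ℓ : ℕ} [hl : Fact ℓ.Prime] (hℓ : ℓ ≠ 2)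
    (P : Sylow ℓ SL(2, F)) (hd : ℓ ∣ (Fintype.card F - 1) * (Fintype.card F + 1)) :
    ∃ z : SL(2, F), IsRS z ∧ orderOf z = ℓ ∧
      Subgroup.centralizer ((P : Subgroup SL(2, F)) : Set SL(2, F)) = Subgroup.centralizer {z} ∧
      Subgroup.normalizer ((P : Subgroup SL(2, F)) : Set SL(2, F)) =
        Subgroup.normalizer ((Subgroup.centralizer {z} : Subgroup SL(2, F)) : Set SL(2, F)) := by
  have hq := two_le_card (F := F)
  have hG : ℓ ∣ Nat.card SL(2, F) := by
    rw [card_SL2, mul_assoc]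
    exact hd.mul_left _
  have hP : Nontrivial P := by
    rw [Subgroup.nontrivial_iff_ne_bot]
    exact P.ne_bot_of_dvd_card hG
  have hZ := P.isPGroup'.center_nontrivial
  have hZp := P.isPGroup'.to_subgroup (Subgroup.center P)
  obtain ⟨z, hz⟩ := exists_prime_orderOf_dvd_card' (G := Subgroup.center P) ℓ
    (by
      obtain ⟨k, hk, hk'⟩ := (hZp.nontrivial_iff_card).1 hZ
      rw [hk']
      exact dvd_pow_self _ hk.ne')
  have hz' : orderOf ((z : P) : SL(2, F)) = ℓ := by
    rw [Subgroup.orderOf_coe, Subgroup.orderOf_coe, hz]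
  have hcop : ℓ.Coprime (2 * Fintype.card F) := by
    rw [Nat.coprime_mul_iff_right]
    refine ⟨(Nat.coprime_primes hl.out Nat.prime_two).2 hℓ, ?_⟩
    rw [Nat.Prime.coprime_iff_not_dvd hl.out]
    intro h
    have h3 : (Fintype.card F - 1) * (Fintype.card F + 1) + 1 = Fintype.card F * Fintype.card F := by
      obtain ⟨k, hk⟩ := Nat.exists_eq_add_of_le (show 1 ≤ Fintype.card F by omega)
      rw [hk, Nat.add_sub_cancel_left]
      ring
    have h4 : ℓ ∣ 1 := (Nat.dvd_add_right hd).1 (h3 ▸ h.mul_right _)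
    exact hl.out.one_lt.ne' (Nat.dvd_one.1 h4)
  have hrs : IsRS ((z : P) : SL(2, F)) := by
    refine isRS_of_orderOf ?_ (by rw [hz']; exact hcop)
    intro h
    rw [h, orderOf_one] at hz'
    exact hl.out.one_lt.ne hz'
  have hle : (P : Subgroup SL(2, F)) ≤ Subgroup.centralizer {((z : P) : SL(2, F))} := by
    intro x hx
    rw [Subgroup.mem_centralizer_singleton_iff]
    exact congrArg Subtype.val (Subgroup.mem_center_iff.1 z.2 ⟨x, hx⟩)
  exact ⟨_, hrs, hz', centralizer_eq_of_le hrs.not_isScal hle (z : P).2 hrs.not_isScal,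
    normalizer_eq_of_le hrs hle (z : P).2 hrs.not_isScal⟩

theorem two_mul_kPrime_normalizer [Finite F] (h2 : (2 : F) ≠ 0) {ℓ : ℕ} [hl : Fact ℓ.Prime]
    (hℓ : ℓ ≠ 2) {d : SL(2, F)} (h : IsRS d) :
    2 * kPrime ℓ (Subgroup.normalizer
      ((Subgroup.centralizer ({d} : Set SL(2, F))) : Set SL(2, F))) =
      Nat.card (Subgroup.centralizer ({d} : Set SL(2, F))) + 6 := by
  have hi := index_centralizer_subgroupOf h
  have := Subgroup.normal_of_index_eq_two hi
  rw [kPrime_of_comm _ (fun a ha b hb => Subtype.ext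
      (centralizer_comm (s := a.1) (t := b.1) h.not_isScal ha hb))
    (by rw [hi]; exact fun h' => hℓ ((Nat.prime_dvd_prime_iff_eq hl.out Nat.prime_two).1 h')),
    two_mul_card_conjClasses_normalizer h2 h]

theorem centralizer_sylow_two [Fintype F] (hodd : Odd (Fintype.card F)) (S : Sylow 2 SL(2, F)) :
    Subgroup.centralizer ((S : Subgroup SL(2, F)) : Set SL(2, F)) = Subgroup.center SL(2, F) := by
  refine le_antisymm (fun c hc => ?_) (Subgroup.center_le_centralizer _)
  by_contra hn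
  rw [mem_center_sl_iff] at hn
  obtain ⟨k, hk, ⟨e⟩⟩ := S0261.result hodd S
  obtain ⟨a, b, hab, -⟩ := GT.PG.exists_maxTwo_of_quaternion hk e
  have h4 := hab.index_commutator
  have hcomm : commutator S = ⊥ := by
    rw [commutator_eq_bot_iff_center_eq_top, Subgroup.eq_top_iff']
    intro x
    rw [Subgroup.mem_center_iff]
    intro y
    exact Subtype.ext (centralizer_comm hn
      (Subgroup.mem_centralizer_singleton_iff.2 (hc _ y.2))
      (Subgroup.mem_centralizer_singleton_iff.2 (hc _ x.2)))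
  rw [hcomm, Subgroup.index_bot, Nat.card_congr e.toEquiv, GT.PG.quaternion_card] at h4
  have : 2 ^ 1 ≤ 2 ^ k := Nat.pow_le_pow_right (by norm_num) hk
  omega

theorem neg_one_mem_sylow_two [Finite F] (S : Sylow 2 SL(2, F)) :
    (-1 : SL(2, F)) ∈ (S : Subgroup SL(2, F)) := by
  have hZ : IsPGroup 2 (Subgroup.center SL(2, F)) := by
    rintro ⟨x, hx⟩
    refine ⟨1, Subtype.ext ?_⟩
    rcases L2.mem_center_iff_pm.1 hx with rfl | rfl <;> simp
  exact hZ.le_sylow_of_normal S neg_one_mem_center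

theorem normalizer_sylow_two_eq [Fintype F] (hodd : Odd (Fintype.card F)) (S : Sylow 2 SL(2, F))
    (h : Fintype.card F % 8 = 1 ∨ Fintype.card F % 8 = 7) :
    Subgroup.normalizer ((S : Subgroup SL(2, F)) : Set SL(2, F)) = S := by
  obtain ⟨k, hk, ⟨e⟩⟩ := S0261.result hodd S
  have h16 : 2 ^ 4 ∣ Nat.card SL(2, F) := by
    rw [card_SL2]
    exact (L2.sixteen_dvd_iff (Nat.odd_iff.1 hodd)).2 h
  have h16' : 2 ^ 4 ∣ Nat.card S := S.pow_dvd_card_of_pow_dvd_card h16
  rw [Nat.card_congr e.toEquiv, GT.PG.quaternion_card] at h16'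
  have hk2 : 2 ≤ k := by
    by_contra hlt
    obtain rfl : k = 1 := by omega
    revert h16'; decide
  have hA : IsPGroup 2 (MulAut S) :=
    (Inv.QA.isPGroup_mulAut_quaternion hk2).of_equiv (MulAut.congr e).symm
  have hN : IsPGroup 2 (Subgroup.normalizer ((S : Subgroup SL(2, F)) : Set SL(2, F))) := by
    intro g
    obtain ⟨n, hn⟩ := hA ((S : Subgroup SL(2, F)).normalizerMonoidHom g)
    rw [← map_pow, ← MonoidHom.mem_ker, Subgroup.normalizerMonoidHom_ker, Subgroup.mem_subgroupOf,
      centralizer_sylow_two hodd, L2.mem_center_iff_pm] at hn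
    refine ⟨n + 1, Subtype.ext ?_⟩
    rw [pow_succ, pow_mul, Subgroup.coe_pow]
    rcases hn with hn | hn <;> rw [hn] <;> simp
  exact S.is_maximal' hN Subgroup.le_normalizer

theorem card_normalizer_sylow_two [Fintype F] (hodd : Odd (Fintype.card F))
    (S : Sylow 2 SL(2, F)) (h : Fintype.card F % 8 = 3 ∨ Fintype.card F % 8 = 5) :
    Nat.card S = 8 ∧ Nat.card (Subgroup.normalizer ((S : Subgroup SL(2, F)) : Set SL(2, F))) = 24 := by
  have h2 := two_ne_zero_of_odd hodd
  have hV := S0276.result rfl h (S.mapSurjective L2.prj_surjective)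
  rw [Sylow.coe_mapSurjective] at hV
  have hS := L2.comap_map_prj (neg_one_mem_sylow_two S)
  have hg := L2.gcd_of_two_ne_zero h2
  constructor
  · rw [← hS, L2.card_comap_prj, hV.card_four, hg]
  · obtain ⟨φ, hφ, hφV⟩ := L2.exists_S4_of_kleinS h2 hV
    rw [← hS, ← Subgroup.comap_normalizer_eq_of_surjective _ L2.prj_surjective, L2.card_comap_prj,
      hg, L2.normalizer_eq_comap, ← hφV, L2.normalizer_map_v4 hφ, L2.card_comap_emb,
      L2.range_inf_psl hφ, Subgroup.card_map_of_injective hφ, L2.card_A4]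
    rw [L2.isSquare_two_iff, Nat.card_eq_fintype_card]
    omega

theorem nonempty_normalizer_equiv_sl_three [Fintype F] (hodd : Odd (Fintype.card F))
    (S : Sylow 2 SL(2, F)) (h : Fintype.card F % 8 = 3 ∨ Fintype.card F % 8 = 5) :
    Nonempty (Subgroup.normalizer ((S : Subgroup SL(2, F)) : Set SL(2, F)) ≃* SL(2, ZMod 3)) := by
  obtain ⟨h8, h24⟩ := card_normalizer_sylow_two hodd S h
  obtain ⟨k, hk, ⟨e⟩⟩ := S0261.result hodd S
  have h5 := Nat.card_congr e.toEquiv
  rw [GT.PG.quaternion_card, h8] at h5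
  rw [show 2 ^ k = 2 by omega] at e
  obtain ⟨g, hg⟩ := exists_prime_orderOf_dvd_card'
    (G := Subgroup.normalizer ((S : Subgroup SL(2, F)) : Set SL(2, F))) 3 (by rw [h24]; norm_num)
  have hg' : orderOf (g : SL(2, F)) = 3 := by rw [Subgroup.orderOf_coe, hg]
  obtain ⟨f, hf, -⟩ := GT.Tr.exists_surjective_sl_two_three e g.2 (by rw [hg']; decide) (by
    rw [centralizer_sylow_two hodd, L2.mem_center_iff_pm]
    intro h1
    have h3 : (g : SL(2, F)) ^ 2 = 1 := by rcases h1 with h1 | h1 <;> rw [h1] <;> simp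
    have := orderOf_dvd_of_pow_eq_one h3
    rw [hg'] at this
    omega)
  have hle : (S : Subgroup SL(2, F)) ⊔ Subgroup.zpowers (g : SL(2, F)) ≤
      Subgroup.normalizer ((S : Subgroup SL(2, F)) : Set SL(2, F)) :=
    sup_le Subgroup.le_normalizer (Subgroup.zpowers_le_of_mem g.2)
  have hc : Nat.card SL(2, ZMod 3) = 24 := by rw [L2.card_SL, Nat.card_zmod]
  have h6 := Nat.card_le_card_of_surjective f hf
  have h7 := Subgroup.card_le_of_le hle
  have heq := Subgroup.eq_of_le_of_card_ge hle (by omega)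
  have hb : Function.Bijective f := (Nat.bijective_iff_surjective_and_card f).2 ⟨hf, by omega⟩
  exact ⟨(MulEquiv.subgroupCongr heq).symm.trans (MulEquiv.ofBijective f hb)⟩

theorem kPrime_two_SL2 [Fintype F] (hodd : Odd (Fintype.card F)) : kPrime 2 SL(2, F) = 4 := by
  rw [kPrime_SL2 hodd 2 (by norm_num)]
  have := Nat.odd_iff.1 hodd
  split_ifs <;> omega

theorem kPrime_two_normalizer [Fintype F] (hodd : Odd (Fintype.card F)) (S : Sylow 2 SL(2, F)) :
    kPrime 2 (Subgroup.normalizer ((S : Subgroup SL(2, F)) : Set SL(2, F))) = 4 := by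
  have h1 := Nat.odd_iff.1 hodd
  by_cases h : Fintype.card F % 8 = 1 ∨ Fintype.card F % 8 = 7
  · rw [normalizer_sylow_two_eq hodd S h, kPrime_of_isPGroup S.isPGroup']
    obtain ⟨k, hk, ⟨e⟩⟩ := S0261.result hodd S
    obtain ⟨a, b, hab, -⟩ := GT.PG.exists_maxTwo_of_quaternion hk e
    exact hab.index_commutator
  · obtain ⟨e⟩ := nonempty_normalizer_equiv_sl_three hodd S (by omega)
    rw [← kPrime_congr 2 e]
    exact kPrime_two_SL2 (by decide)

theorem kPrime_eq_normalizer [Fintype F] (hodd : Odd (Fintype.card F)) (ℓ : ℕ) [hl : Fact ℓ.Prime]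
    (S : Sylow ℓ SL(2, F)) :
    kPrime ℓ SL(2, F) = kPrime ℓ (Subgroup.normalizer ((S : Subgroup SL(2, F)) : Set SL(2, F))) := by
  by_cases h2 : ℓ = 2
  · subst h2
    rw [kPrime_two_SL2 hodd, kPrime_two_normalizer hodd]
  have hq := two_le_card (F := F)
  have ho := Nat.odd_iff.1 hodd
  have h2' := two_ne_zero_of_odd hodd
  have hn1 : ¬ ℓ ∣ 1 := fun h => hl.out.one_lt.ne' (Nat.dvd_one.1 h)
  have hn2 : ¬ ℓ ∣ 2 := fun h => h2 ((Nat.prime_dvd_prime_iff_eq hl.out Nat.prime_two).1 h)
  have hhalf : ∀ n, 2 ∣ n → (ℓ ∣ n / 2 ↔ ℓ ∣ n) := by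
    rintro n ⟨m, rfl⟩
    rw [Nat.mul_div_cancel_left _ two_pos, hl.out.dvd_mul]
    tauto
  have e1 := hhalf (Fintype.card F + 1) (by omega)
  have e2 := hhalf (Fintype.card F - 1) (by omega)
  have hab : ℓ ∣ Fintype.card F → ¬ ℓ ∣ Fintype.card F + 1 := fun h h' =>
    hn1 ((Nat.dvd_add_right h).1 h')
  have hac : ℓ ∣ Fintype.card F → ¬ ℓ ∣ Fintype.card F - 1 := fun h h' => hn1 (by
    have := Nat.dvd_sub h h'
    rwa [show Fintype.card F - (Fintype.card F - 1) = 1 by omega] at this)
  have hbc : ℓ ∣ Fintype.card F + 1 → ¬ ℓ ∣ Fintype.card F - 1 := fun h h' => hn2 (by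
    have := Nat.dvd_sub h h'
    rwa [show Fintype.card F + 1 - (Fintype.card F - 1) = 2 by omega] at this)
  have hdv : ∀ z : SL(2, F), orderOf z ∣ Nat.card (Subgroup.centralizer ({z} : Set SL(2, F))) :=
    fun z => Subgroup.orderOf_dvd_natCard _ (Subgroup.mem_centralizer_singleton_iff.2 rfl)
  have hG := kPrime_SL2 hodd ℓ hl.out.one_lt.ne'
  simp only [e1, e2] at hG
  by_cases ha : ℓ ∣ Fintype.card F
  · obtain ⟨e⟩ := nonempty_normalizer_equiv_borelSL ha S
    rw [← kPrime_congr ℓ e, kPrime_borelSL hodd ha, hG]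
    simp only [ha, hab ha, hac ha, if_true, if_false]
    omega
  by_cases hb : ℓ ∣ Fintype.card F + 1
  · obtain ⟨z, hrs, hz, -, h4⟩ := exists_isRS_sylow h2 S (hb.mul_left _)
    have hc := (card_centralizer_or hrs).resolve_left
      (fun h' => hbc hb (by rw [← h', ← hz]; exact hdv z))
    have h5 := two_mul_kPrime_normalizer h2' h2 hrs
    rw [← h4, hc] at h5
    simp only [ha, hb, hbc hb, if_true, if_false] at hG
    omega
  by_cases hc : ℓ ∣ Fintype.card F - 1
  · obtain ⟨z, hrs, hz, -, h4⟩ := exists_isRS_sylow h2 S (hc.mul_right _)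
    have hc' := (card_centralizer_or hrs).resolve_right
      (fun h' => hb (by rw [← h', ← hz]; exact hdv z))
    have h5 := two_mul_kPrime_normalizer h2' h2 hrs
    rw [← h4, hc'] at h5
    simp only [ha, hb, hc, if_true, if_false] at hG
    omega
  · have hS : (S : Subgroup SL(2, F)) = ⊥ := by
      by_contra hne
      obtain ⟨k, hk, hk'⟩ := S.isPGroup'.nontrivial_iff_card.1
        ((Subgroup.nontrivial_iff_ne_bot _).2 hne)
      have : ℓ ∣ Nat.card SL(2, F) :=
        (dvd_pow_self ℓ hk.ne').trans (hk' ▸ Subgroup.card_subgroup_dvd_card _)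
      rw [card_SL2, hl.out.dvd_mul, hl.out.dvd_mul] at this
      tauto
    have : Subgroup.normalizer ((S : Subgroup SL(2, F)) : Set SL(2, F)) = ⊤ := by
      rw [hS, Subgroup.normalizer_eq_top_iff]
      infer_instance
    rw [this]
    exact kPrime_congr ℓ Subgroup.topEquiv

end Cfsg.Agent.Cl.GL2
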