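import Mathlib
import Cfsg.Agent.Cl.ClassTwoD

/-!
# Class numbers of orthogonal groups in characteristic two
-/

set_option autoImplicit false

namespace Cfsg.Agent.Cl.Two

open Module SpO QuadraticMap Finset Polynomial

universe v

section Gauss

variable {F V V' : Type*} [Field F] [AddCommGroup V] [Module F V] [AddCommGroup V'] [Module F V']
  {Q : QuadraticForm F V} {g : End F V} {Q' : QuadraticForm F V'}

open Classical in
/-- The additive character with kernel `{t² + t}`. -/
noncomputable def chi (c : F) : ℤ := if ∃ t, t ^ 2 + t = c then 1 else -1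

theorem chi_as (t : F) : chi (t ^ 2 + t) = 1 := if_pos ⟨t, rfl⟩

theorem chi_zero : chi (0 : F) = 1 := by simpa using chi_as (0 : F)

theorem chi_ne_zero (c : F) : chi c ≠ 0 := by unfold chi; split_ifs <;> simp

/-- The Gauss sum of a quadratic form. -/
noncomputable def gs (Q : QuadraticForm F V) : ℤ := ∑ᶠ v, chi (Q v)

theorem gs_congr (e : V ≃ₗ[F] V') (h : ∀ v, Q' (e v) = Q v) : gs Q = gs Q' := by
  rw [gs, gs, ← finsum_comp_equiv e.toEquiv]
  exact finsum_congr fun v => congrArg chi (h v).symm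

theorem q_sum {ι : Type*} (s : Finset ι) (w : ι → V)
    (h : ∀ i j, i ≠ j → Q.polarBilin (w i) (w j) = 0) : Q (∑ i ∈ s, w i) = ∑ i ∈ s, Q (w i) := by
  classical
  induction s using Finset.induction_on with
  | empty => simp
  | insert a s ha ih =>
    rw [sum_insert ha, sum_insert ha, q_add, ih, map_sum, sum_eq_zero fun i hi =>
      h a i (by rintro rfl; exact ha hi), add_zero]

variable [Finite F] [CharP F 2]

theorem chi_add (a b : F) : chi (a + b) = chi a * chi b := by
  obtain ⟨H, h1, h2⟩ := quad_artinSchreier_index (F := F) CharTwo.two_eq_zero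
  classical
  have h3 : ∀ c, chi c = if c ∈ H then 1 else -1 := fun c => (if_congr (h2 c) rfl rfl).symm
  simp only [h3, AddSubgroup.add_mem_iff_of_index_two h1]
  by_cases ha : a ∈ H <;> by_cases hb : b ∈ H <;> simp [ha, hb]

theorem chi_asn : chi (asn F) = -1 := if_neg (not_exists.2 asn_ne)

theorem chi_sq (t : F) : chi (t ^ 2) = chi t := by
  rw [← one_mul (chi t), ← chi_as t, ← chi_add, add_assoc, CharTwo.add_self_eq_zero, add_zero]

theorem chi_sum {ι : Type*} (s : Finset ι) (f : ι → F) :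
    chi (∑ i ∈ s, f i) = ∏ i ∈ s, chi (f i) := by
  classical
  induction s using Finset.induction_on with
  | empty => simp [chi_zero]
  | insert a s ha ih => rw [sum_insert ha, prod_insert ha, chi_add, ih]

theorem sum_chi_lin {X : Type*} [AddCommGroup X] [Module F X] [Fintype X] {l : X →ₗ[F] F}
    (hl : l ≠ 0) : ∑ x, chi (l x) = 0 := by
  obtain ⟨y, hy⟩ := LinearMap.surjective hl (asn F)
  have := Equiv.sum_comp (Equiv.addRight y) fun x => chi (l x)
  simp only [Equiv.coe_addRight, map_add, chi_add, hy, chi_asn, ← sum_mul] at this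
  omega

theorem sum_binary [Fintype F] (A D : F) :
    ∑ z : F × F, chi (z.1 ^ 2 * A + z.2 ^ 2 * D + z.1 * z.2) = Fintype.card F * chi (A * D) := by
  classical
  obtain ⟨a, rfl⟩ := exists_sq_mul one_ne_zero A
  obtain ⟨c, rfl⟩ := exists_sq_mul one_ne_zero D
  have h1 : ∀ z : F × F, chi (z.1 ^ 2 * (a ^ 2 * 1) + z.2 ^ 2 * (c ^ 2 * 1) + z.1 * z.2) =
      chi (z.1 * a) * chi ((z.1 + c) * z.2) := fun z => by
    rw [chi_add, chi_add, mul_one, mul_one, ← mul_pow, ← mul_pow, chi_sq, chi_sq, mul_assoc,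
      ← chi_add (z.2 * c), add_mul, mul_comm c, add_comm]
  simp only [h1, Fintype.sum_prod_type, ← mul_sum]
  rw [sum_eq_single c (fun s _ hs => ?_) (by simp)]
  · simp [CharTwo.add_self_eq_zero, chi_zero, ← mul_pow, chi_sq, mul_comm]
  · rw [show ∑ t, chi ((s + c) * t) = 0 from sum_chi_lin (l := (s + c) • (LinearMap.id : F →ₗ[F] F))
      fun h => hs (by simpa [CharTwo.add_eq_zero] using LinearMap.congr_fun h (1 : F)), mul_zero]

variable [FiniteDimensional F V]

theorem gs_isCompl {U W : Submodule F V} (h : IsCompl U W)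
    (ho : ∀ u ∈ U, ∀ w ∈ W, Q.polarBilin u w = 0) :
    gs Q = gs (Q.comp U.subtype) * gs (Q.comp W.subtype) := by
  have := Module.finite_of_finite F (M := V)
  have := Fintype.ofFinite V
  have := Fintype.ofFinite U
  have := Fintype.ofFinite W
  simp only [gs, finsum_eq_sum_of_fintype]
  rw [sum_mul_sum, ← Fintype.sum_prod_type', ← (U.prodEquivOfIsCompl W h).toEquiv.sum_comp]
  refine sum_congr rfl fun x _ => ?_
  rw [← chi_add]
  exact congrArg chi ((q_add (x.1 : V) x.2).trans (by rw [ho _ x.1.2 _ x.2.2, add_zero]; rfl))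

theorem gs_reduce [Fintype F] (φ : End F V) (hφ : ∀ x, Q (φ x) = 0) {a b : V}
    (ha : ∀ x, Q.polarBilin a (φ x) = 0) (hb : ∀ x, Q.polarBilin b (φ x) = 0)
    (h : ∀ v, (∀ x, Q.polarBilin v (φ x) = 0) → ∃ (s t : F) (y : V), v = s • a + t • b + φ y) :
    ∃ c₁ c₂ : ℤ, 0 < c₁ ∧ 0 < c₂ ∧
      c₁ * gs Q = c₂ * ∑ z : F × F, chi (Q (z.1 • a + z.2 • b)) := by
  classical
  have := Module.finite_of_finite F (M := V)
  have := Fintype.ofFinite V
  have h0 : (0 : ℤ) < Fintype.card V := by exact_mod_cast Fintype.card_pos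
  have h1 : gs Q = ∑ v with ∀ x, Q.polarBilin v (φ x) = 0, chi (Q v) := by
    refine mul_left_cancel₀ h0.ne' ?_
    have h2 : ∀ x, gs Q = ∑ v, chi (Q v) * chi (Q.polarBilin v (φ x)) := fun x => by
      rw [gs, finsum_eq_sum_of_fintype, ← Equiv.sum_comp (Equiv.addRight (φ x))]
      simp only [Equiv.coe_addRight, q_add, hφ, add_zero, chi_add]
    rw [← nsmul_eq_mul, ← card_univ, ← sum_const, sum_congr rfl fun x _ => h2 x, sum_comm,
      sum_filter, mul_sum]
    refine sum_congr rfl fun v _ => ?_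
    rw [← mul_sum]
    split_ifs with hv
    · simp only [hv, chi_zero, sum_const, nsmul_eq_mul, mul_one, mul_comm]
    · rw [show ∑ x, chi (Q.polarBilin v (φ x)) = 0 from sum_chi_lin (l := Q.polarBilin v ∘ₗ φ)
        fun h => hv (LinearMap.congr_fun h), mul_zero, mul_zero]
  let ψ := ((LinearMap.toSpanSingleton F V a).coprod (LinearMap.toSpanSingleton F V b)).coprod φ
  have h2 : ∀ x y, Q.polarBilin (φ y) (φ x) = 0 := fun x y => by
    simpa only [map_add, hφ, zero_add] using ((q_add (φ y) (φ x)).symm.trans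
      ((congrArg Q (map_add φ y x)).symm.trans (hφ _)))
  have h3 : univ.image ψ = univ.filter fun v => ∀ x, Q.polarBilin v (φ x) = 0 := by
    ext v
    simp only [mem_image, mem_univ, true_and, mem_filter]
    refine ⟨?_, fun hv => ?_⟩
    · rintro ⟨w, rfl⟩ x
      simp [ψ, ha, hb, h2, -polarBilin_apply_apply]
    · obtain ⟨s, t, y, rfl⟩ := h v hv
      exact ⟨((s, t), y), rfl⟩
  refine ⟨#{w | ψ w = 0}, Fintype.card V, by exact_mod_cast card_pos.2 ⟨0, by simp⟩, h0, ?_⟩
  rw [h1, ← h3, mul_sum, sum_congr rfl fun v hv => by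
    rw [← AddMonoidHom.card_fiber_eq_of_mem_range ψ (x := v) (by simpa using hv) ⟨0, map_zero ψ⟩,
      ← nsmul_eq_mul], ← sum_comp fun v => chi (Q v), Fintype.sum_prod_type, mul_sum]
  refine sum_congr rfl fun z _ => ?_
  rw [← nsmul_eq_mul, ← card_univ, ← sum_const]
  refine sum_congr rfl fun y _ => congrArg chi ?_
  simp [ψ, q_add (_ + _) (φ y), hφ, ha, hb, -polarBilin_apply_apply]

theorem IsPiece.perp {p : ℕ × Bool} (H : IsPiece p Q g) {a b : ℕ} (hab : a + b = (p.1 + 1) / 2 + 1)
    {x : V} (hx : ∀ y, Q.polarBilin x (nn g a y) = 0) : ∃ y, x = nn g b y := by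
  have h1 : nn g a x = 0 := H.uni.nd.1 _ fun y => by
    obtain ⟨y, rfl⟩ := (H.uni.isom.pow a).surjective H.uni.nd y
    rw [nn, H.uni.isom.sub_one_pow_apply, ← nn, hx, mul_zero]
  clear hx
  induction b generalizing a x with
  | zero => exact ⟨x, rfl⟩
  | succ b ih =>
    obtain ⟨y, rfl⟩ := H.hom x (by
      rw [show (p.1 + 1) / 2 = b + a by omega, ← nn_nn, h1, map_zero])
    obtain ⟨z, rfl⟩ := ih (a := a + 1) (x := y) (by omega) (by rwa [← nn_nn])
    exact ⟨z, by rw [nn_nn, add_comm]⟩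

theorem IsPiece.gs_pos {p : ℕ × Bool} (H : IsPiece p Q g) (hp : Ok p) :
    0 < (if p.2 then -1 else 1) * gs Q := by
  have := Fintype.ofFinite F
  obtain ⟨u, v, D, hs⟩ := H.gen
  have U := H.uni
  have key : ∀ (r : ℕ) (a b : V), (∀ x, Q (nn g r x) = 0) → (∀ x, Q.polarBilin a (nn g r x) = 0) →
      (∀ x, Q.polarBilin b (nn g r x) = 0) → (∀ v, (∀ x, Q.polarBilin v (nn g r x) = 0) →
        ∃ (s t : F) (y : V), v = s • a + t • b + nn g r y) → Q.polarBilin a b = 1 →
      Q a * Q b = (if p.2 then asn F else 0) → 0 < (if p.2 then -1 else 1) * gs Q := by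
    intro r a b h1 h2 h3 h4 h5 h6
    obtain ⟨c₁, c₂, a1, a2, a3⟩ := gs_reduce _ h1 h2 h3 h4
    simp only [q_add, q_smul, map_smul, LinearMap.smul_apply, h5, smul_eq_mul, mul_one,
      mul_comm (Prod.snd _) (Prod.fst _), sum_binary, h6] at a3
    refine pos_of_mul_pos_right ?_ a1.le
    rw [mul_left_comm, a3]
    split_ifs <;> simp [chi_asn, chi_zero, a2, Fintype.card_pos]
  obtain ⟨r, b⟩ := p
  obtain ⟨h1, h2⟩ := hp
  obtain ⟨k, rfl | rfl | rfl⟩ : ∃ k, r = 4 * k ∨ r = 4 * k + 1 ∨ r = 4 * k + 2 :=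
    ⟨r / 4, by simp only at h1; omega⟩
  · have e1 : 4 * k % 2 = 0 := by omega
    have e2 : 4 * k / 4 = k := by omega
    have e3 : (4 * k + 1) / 2 = 2 * k := by omega
    refine key (k + 1) (nn g k u) (nn g k v) (U.qz (by simp only; omega))
      (U.mz (by simp only; omega) _) (U.mz (by simp only; omega) _) (fun x hx => ?_)
      (by rw [U.mv (by simp only; omega), D.hc]; simp [e1, e3]; omega)
      (by rw [D.hu, D.hv]; cases b <;> simp [qu, qv, e1, e2])
    obtain ⟨y, rfl⟩ := H.perp (b := k) (by simp only; omega) hx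
    obtain ⟨s, t, z, rfl⟩ := hs y
    exact ⟨s, t, z, by simp [nn_nn]⟩
  · have e1 : (4 * k + 1) % 2 = 1 := by omega
    have e2 : (4 * k + 1) / 4 = k := by omega
    obtain rfl : v = 0 := U.nd.2 _ fun x => by
      refine Submodule.span_induction (p := fun x _ => Q.polarBilin x v = 0) ?_ (by simp)
        (fun x y _ _ hx hy => by rw [map_add, LinearMap.add_apply, hx, hy, add_zero])
        (fun c x _ hx => by rw [map_smul, LinearMap.smul_apply, hx, smul_zero])
        (U.span_eq hs ▸ Submodule.mem_top (x := x))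
      rintro _ ⟨⟨i, _ | _⟩, rfl⟩
      · simpa using gram_self U.iso U.iso (u := 0) (u' := v) (fun j => by
          rw [D.hv]; simp [qv, e1]) i 0
      · simpa [e1] using D.hc i
    refine key (k + 2) (nn g k u) (nn g (k + 1) u) (U.qz (by simp only; omega))
      (U.mz (by simp only; omega) _) (U.mz (by simp only; omega) _) (fun x hx => ?_)
      (by rw [b_comm, ← q_succ U.iso, D.hu]; simp [qu, e1, e2])
      (by rw [D.hu, D.hu]; simp [qu, e1, e2])
    obtain ⟨y, rfl⟩ := H.perp (b := k) (by simp only; omega) hx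
    obtain ⟨s, t, z, rfl⟩ := hs y
    obtain ⟨s', t', z, rfl⟩ := hs z
    exact ⟨s, s', z, by simp [nn_nn, add_assoc]⟩
  · obtain rfl : b = false := by by_contra hb; exact h2 (by simpa using hb) (by simp only; omega)
    obtain ⟨c₁, c₂, a1, a2, a3⟩ := gs_reduce (Q := Q) (nn g (k + 1)) (a := 0) (b := 0) (fun x => by
        obtain ⟨s, t, z, rfl⟩ := hs x
        simp only [map_add, map_smul, q_add, q_smul, nn_nn, LinearMap.add_apply,
          LinearMap.smul_apply, D.hu, D.hv, U.qz (j := k + 1 + 1) (by simp only; omega),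
          U.mz (a := k + 1) (b := k + 1) (by simp only; omega),
          U.mz (a := k + 1) (b := k + 1 + 1) (by simp only; omega)]
        simp [qu, qv, Nat.mul_mod]) (by simp) (by simp) fun x hx => by
      obtain ⟨y, rfl⟩ := H.perp (b := k + 1) (by simp only; omega) hx
      exact ⟨0, 0, y, by simp⟩
    refine pos_of_mul_pos_right ?_ a1.le
    simp [a3, chi_zero, a2]

/-- The sign of a normal form. -/
def sgn (d : List (ℕ × Bool)) : ℤ := (d.map fun p => if p.2 then -1 else 1).prod

theorem Form.gs_pos {d : List (ℕ × Bool)} : ∀ {V : Type v} [AddCommGroup V] [Module F V]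
    [FiniteDimensional F V] {Q : QuadraticForm F V} {g : End F V}, Form d V Q g →
      (∀ p ∈ d, Ok p) → 0 < sgn d * gs Q := by
  induction d with
  | nil =>
    intro V _ _ _ Q g H _
    have : Subsingleton V := H
    have := uniqueOfSubsingleton (0 : V)
    simp [sgn, gs, finsum_unique, Subsingleton.elim default (0 : V), chi_zero]
  | cons p d ih =>
    rintro V _ _ _ Q g ⟨U, U', hU, hU', C, H⟩ hp
    rw [gs_isCompl C.1 C.2.1, sgn, List.map_cons, List.prod_cons, mul_mul_mul_comm]
    exact mul_pos (C.2.2.gs_pos (hp p List.mem_cons_self))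
      (ih H fun q hq => hp q (List.mem_cons_of_mem _ hq))

theorem Good.sgn_eq {d : List (ℕ × Bool)} (H : Good d) {M : ℕ} (h : ∀ k, gam d k → k < M) :
    sgn d = ∏ k ∈ range M, if gam d k then -1 else 1 := by
  induction d with
  | nil => simp [sgn, gam]
  | cons p d ih =>
    rw [sgn, List.map_cons, List.prod_cons, ← sgn, ih H.tail fun k hk => h k (by
      simp [gam_cons, hk])]
    by_cases hp : p.2
    · have h1 := mem_range.2 (h (p.1 / 4) (by simp [gam_cons, hp]))
      rw [← mul_prod_erase _ _ h1, ← mul_prod_erase _ _ h1, H.gam_tail hp,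
        prod_congr rfl fun k hk => by rw [show gam d k = gam (p :: d) k by
          simp [gam_cons, (mem_erase.1 hk).1.symm]]]
      simp [gam_cons, hp]
    · simp [gam_cons, hp]

omit [FiniteDimensional F V] in
theorem gs_basis [Fintype F] {m : ℕ} (b : Basis (Fin m ⊕ Fin m) F V)
    (h1 : ∀ i j, Q.polarBilin (b (.inr i)) (b (.inl j)) = if i = j then 1 else 0)
    (h2 : ∀ i j, Q.polarBilin (b (.inl i)) (b (.inl j)) = 0)
    (h3 : ∀ i j, Q.polarBilin (b (.inr i)) (b (.inr j)) = 0) :
    gs Q = Fintype.card F ^ m * chi (∑ i, Q (b (.inl i)) * Q (b (.inr i))) := by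
  classical
  have h4 : ∀ i j, Q.polarBilin (b (.inl i)) (b (.inr j)) = if j = i then 1 else 0 :=
    fun i j => by rw [b_comm, h1]
  rw [gs, ← finsum_comp_equiv ((Equiv.arrowProdEquivProdArrow _ _ _).trans
    ((Equiv.sumArrowEquivProdArrow _ _ _).symm.trans b.equivFun.symm.toEquiv)),
    finsum_eq_sum_of_fintype, chi_sum, ← Fin.prod_const, ← prod_mul_distrib,
    prod_congr rfl fun i _ => (sum_binary _ _).symm, prod_univ_sum, Fintype.piFinset_univ]
  refine sum_congr rfl fun z _ => ?_
  rw [← chi_sum]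
  congr 1
  simp only [Equiv.trans_apply, LinearEquiv.coe_toEquiv, Basis.equivFun_symm_apply,
    Fintype.sum_sum_type, ← sum_add_distrib]
  rw [q_sum _ _ fun i j hij => by
    simp [h1, h2, h3, h4, hij, hij.symm, -polarBilin_apply_apply]]
  refine sum_congr rfl fun i _ => ?_
  simp [q_add, q_smul, h4, mul_comm, -polarBilin_apply_apply]

theorem gs_ne_zero (hQ : Q.polarBilin.Nondegenerate) {m : ℕ} (hV : finrank F V = 2 * m) :
    gs Q ≠ 0 := by
  have := Fintype.ofFinite F
  obtain ⟨b, h1, h2, h3⟩ := sp_exists_basis hQ b_self hV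
  rw [gs_basis b h1 h2 h3]
  exact mul_ne_zero (pow_ne_zero _ (by simp)) (chi_ne_zero _)

end Gauss

section Upper

variable {F V : Type*} [Field F] [Fintype F] [CharP F 2] [AddCommGroup V] [Module F V]
  [FiniteDimensional F V] {Q : QuadraticForm F V}

theorem Adm.lt {K : Type*} [Field K] {q M n : ℕ} {R : ℕ → Multiset K} {c : ℕ → ℕ} {s : Bool}
    {k : ℕ} (h : Adm s c k) (hv : Val q M n R c) : k < M := by
  by_contra hk
  have := h.1
  rw [hv.hc _ (by omega), hv.hc _ (by omega)] at this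
  simp at this

theorem card_classes_o_two_le (hQ : Q.polarBilin.Nondegenerate) {n : ℕ}
    (hV : finrank F V = 2 * n) : Nat.card (ConjClasses (OG Q)) ≤ 15 * Fintype.card F ^ n := by
  classical
  have := finite_aut (F := F) (V := V)
  let g : ConjClasses (OG Q) → End F V := fun c => specO Q (Quotient.out c)
  have hg : ∀ c v, Q (g c v) = Q v := fun c => (Quotient.out c).2
  choose d d1 d2 d3 using fun c => exists_form hQ (hg c) hV
  have hi : ∀ c c', rl (g c) = rl (g c') → cnt (d c) = cnt (d c') → gam (d c) = gam (d c') →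
      c = c' := fun c c' e1 e2 e3 => by
    have h1 := (d2 c).eq_of (d2 c') e2 e3
    obtain ⟨e, -, a2, a3⟩ := isoP_of_form hQ (hg c) hQ (hg c') e1 (d1 c) (d1 c') (congrArg _ h1)
      (P := True) fun _ => h1
    exact eq_of_isConj_out ((isConj_iff_exists _ _).2 ⟨e, a3 trivial, a2⟩)
  let fl : (ℕ → ℕ) → (ℕ → Bool) → ℕ → Bool := fun c γ =>
    Function.update γ (Classical.epsilon (Adm false c)) (!γ (Classical.epsilon (Adm false c)))
  have hs : ∀ c c', (∃ k, Adm false (cnt (d c')) k) → rl (g c) = rl (g c') →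
      gam (d c) ≠ fl (cnt (d c')) (gam (d c')) := fun c c' hk e1 e2 => by
    have h1 := (d1 c).gs_pos (d2 c).ok
    have h2 := (d1 c').gs_pos (d2 c').ok
    have h3 := fun c => gs_isCompl (isCompl_fit (g c)) ((isom_of_iso (hg c)).fit_orth hQ)
    obtain ⟨e, -, -, he⟩ := isoP_onR hQ (hg c) hQ (hg c') e1 True
    have h4 := (h3 c).symm.trans (h3 c')
    rw [gs_congr e (he trivial)] at h4
    rw [mul_right_cancel₀ (right_ne_zero_of_mul (h3 c' ▸ gs_ne_zero hQ hV)) h4,
      (d2 c).sgn_eq fun k hk => ((d2 c).adm hk).lt (d3 c), e2] at h1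
    have h5 := mem_range.2 ((Classical.epsilon_spec hk).lt (d3 c'))
    rw [(d2 c').sgn_eq fun k hk => ((d2 c').adm hk).lt (d3 c'), ← mul_prod_erase _ _ h5] at h2
    rw [← mul_prod_erase _ _ h5, prod_congr rfl fun k hk => by
      simp only [fl, Function.update_of_ne (mem_erase.1 hk).1]; rfl] at h1
    simp only [fl, Function.update_self, Bool.not_eq_eq_eq_not, Bool.not_true] at h1
    cases h6 : gam (d c') (Classical.epsilon (Adm false (cnt (d c')))) <;>
      simp only [h6, Bool.false_eq_true, Bool.true_eq_false, if_true, if_false] at h1 h2 <;> linarith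
  have h1 := card_le_val (C := ConjClasses (OG Q) ⊕ {c // ∃ k, Adm false (cnt (d c)) k})
    (card_le_of_srm F) Fintype.one_lt_card false (fun x => rl (g (x.elim id (↑))))
    (fun x => cnt (d (x.elim id (↑))))
    (Sum.elim (fun c => gam (d c)) fun c => fl (cnt (d c)) (gam (d c))) (fun x => d3 _) (by
      rintro (c | c) k hk
      · exact (d2 c).adm hk
      · by_cases h : k = Classical.epsilon (Adm false (cnt (d c)))
        · exact h ▸ Classical.epsilon_spec c.2
        · exact (d2 c).adm (by simpa [fl, h] using hk)) (by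
      rintro (c | c) (c' | c') e1 e2 e3
      · exact congrArg _ (hi c c' e1 e2 e3)
      · exact absurd e3 (hs c c' c'.2 e1)
      · exact absurd e3.symm (hs c' c c.2 e1.symm)
      refine congrArg _ (Subtype.ext (hi c c' e1 e2 (funext fun k => ?_)))
      have h := congrFun e3 k
      simp only [Sum.elim_inr, fl, show cnt (d c) = cnt (d c') from e2, Function.update_apply] at h
      split_ifs at h with hk
      exacts [hk ▸ Bool.not_injective h, h]) univ fun _ => mem_univ _
  have h2 := card_le_val (C := {c // ¬ ∃ k, Adm false (cnt (d c)) k})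
    (card_le_of_srm F) Fintype.one_lt_card false (fun x => rl (g x)) (fun x => cnt (d x))
    (fun c => gam (d c)) (fun x => d3 _) (fun c k => (d2 c).adm)
    (fun c c' e1 e2 e3 => Subtype.ext (hi c c' e1 e2 e3)) {fun _ => (0, false)} fun c => by
      have h2 : ∀ k, cnt (d c) (4 * k + 1) = 0 := fun k => by
        induction k with
        | zero => exact not_not.1 fun h => c.2 ⟨0, .inl h, by simp, by simp⟩
        | succ k ih => exact not_not.1 fun h => c.2 ⟨k + 1, .inl h, by simp, fun j hj =>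
            Nat.succ_injective hj ▸ ih⟩
      refine mem_singleton.2 (funext fun k => Prod.ext (Fin.ext (h2 k)) ?_)
      exact Bool.eq_false_iff.2 fun h => c.2 ⟨k, (d2 c).adm h⟩
  rw [sum_singleton, wp_eq (z := fun _ => (0, false)) (by simp) _ _ _ (by simp)] at h2
  have h3 := (Nat.cast_inj (R := ℝ)).2
    (card_le_sum_subtype fun c => ∃ k, Adm false (cnt (d c)) k)
  have h4 : (0 : ℝ) ≤ Fintype.card F ^ n := by positivity
  have h5 := h1.trans (mul_le_mul_of_nonneg_left (mul_le_mul_of_nonneg_left (sum_wp_false _)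
    (by norm_num)) h4)
  simp only [wz, Fin.val_zero, mul_zero, Bool.false_eq_true, false_and, if_false, add_zero,
    sum_const_zero, pow_zero] at h2
  push_cast at h3
  exact_mod_cast (show (Nat.card (ConjClasses (OG Q)) : ℝ) ≤ 15 * Fintype.card F ^ n by linarith)

end Upper

section Lower

theorem coeff_two_det {ι R : Type*} [Fintype ι] [DecidableEq ι] [CommRing R] (r : ι → ι → Prop)
    [DecidableRel r] (h1 : ∀ i j, i ≠ j → r i j ∨ r j i) (h2 : ∀ i j, r i j → ¬ r j i)
    (M : Matrix ι ι R) : (Matrix.det (1 + (X : R[X]) • M.map C)).coeff 2 =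
      ∑ i, ∑ j, if r i j then M i i * M j j - M i j * M j i else 0 := by
  rw [Matrix.coeff_det_one_add_X_smul_eq_sum_minors, ← Fintype.sum_prod_type', ← sum_filter]
  have h3 : ∀ {i j}, r i j → i ≠ j := fun h e => h2 _ _ h (e ▸ h)
  refine (sum_bij (fun x _ => {x.1, x.2}) (fun x hx => ?_) (fun x hx y hy e => ?_) (fun s hs => ?_)
    fun x hx => ?_).symm
  · simp [card_pair (h3 (mem_filter.1 hx).2)]
  · have h4 := (mem_filter.1 hx).2
    rcases (Set.pair_eq_pair_iff).1 (by simpa using congrArg (fun s : Finset ι => (s : Set ι)) e :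
      ({x.1, x.2} : Set ι) = {y.1, y.2}) with h | h
    · exact Prod.ext h.1 h.2
    · exact absurd (h.1 ▸ h.2 ▸ h4 :) (h2 _ _ (mem_filter.1 hy).2)
  · obtain ⟨i, j, h4, rfl⟩ := card_eq_two.1 (mem_powersetCard.1 hs).2
    rcases h1 i j h4 with h | h
    exacts [⟨(i, j), by simpa, rfl⟩, ⟨(j, i), by simpa, pair_comm _ _⟩]
  · have h4 := h3 (mem_filter.1 hx).2
    rw [← Matrix.det_submatrix_equiv_self (Equiv.ofBijective
      (![⟨x.1, by simp⟩, ⟨x.2, by simp⟩] : Fin 2 → ({x.1, x.2} : Finset ι))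
      ((Fintype.bijective_iff_injective_and_card _).2 ⟨fun i j => by
        fin_cases i <;> fin_cases j <;> simp [h4, h4.symm], by
        rw [Fintype.card_coe, card_pair h4, Fintype.card_fin]⟩)),
      Matrix.det_fin_two]
    simp

theorem sum_split {m : ℕ} {R : Type*} [AddCommMonoid R] (f : Fin m → Fin m → R) :
    ∑ i, ∑ j, f i j = ∑ i, f i i + ∑ i, ∑ j, if i < j then f i j + f j i else 0 := by
  have h : ∀ i j, f i j = (if i = j then f i j else 0) + ((if i < j then f i j else 0) +
      if j < i then f i j else 0) := fun i j => by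
    rcases lt_trichotomy i j with h | rfl | h
    · simp [h, h.ne, h.not_gt]
    · simp
    · simp [h, h.ne', h.not_gt]
  rw [sum_congr rfl fun i _ => sum_congr rfl fun j _ => h i j]
  simp only [sum_add_distrib, sum_ite_eq, mem_univ, if_true]
  rw [sum_comm (f := fun i j => if j < i then f i j else 0)]
  simp only [← sum_add_distrib, ite_add_ite, add_zero]

variable {F V : Type*} [Field F] [Fintype F] [CharP F 2] [AddCommGroup V] [Module F V]
  [FiniteDimensional F V] {Q : QuadraticForm F V} {g : End F V}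

theorem gs_of_charpoly (hQ : Q.polarBilin.Nondegenerate) (hg : ∀ v, Q (g v) = Q v) {m : ℕ}
    (hV : finrank F V = 2 * m) (h0 : g.charpoly.eval 1 ≠ 0) :
    gs Q * chi (∑ i : Fin m, ∑ j, if i < j then (1 : F) else 0) = Fintype.card F ^ m *
      chi ((g.charpoly.comp (X + C 1)).coeff 2 / g.charpoly.eval 1) := by
  obtain ⟨b, h1, h2, h3⟩ := sp_exists_basis hQ b_self hV
  have h4 : ∀ i j, Q.polarBilin (b (.inl i)) (b (.inr j)) = if j = i then 1 else 0 :=
    fun i j => by rw [b_comm, h1]
  have h5 : (nn g 1).charpoly = g.charpoly.comp (X + C 1) := by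
    rw [← LinearMap.charpoly_sub_smul, one_smul, nn, pow_one]
  let A := LinearMap.toMatrix b b (nn g 1)
  have h6 : g.charpoly.eval 1 = A.det := by
    rw [Matrix.det_eq_sign_charpoly_coeff, LinearMap.charpoly_toMatrix, h5, coeff_zero_eq_eval_zero,
      CharTwo.neg_eq]
    simp
  have h7 : IsUnit A.det := (h6 ▸ h0 :).isUnit
  have h8 : g.charpoly.comp (X + C 1) = C A.det * Matrix.det (1 + (X : F[X]) • A⁻¹.map C) := by
    rw [← h5, ← LinearMap.charpoly_toMatrix _ b, RingHom.map_det, ← Matrix.det_mul, mul_add, mul_one,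
      Matrix.mul_smul, RingHom.mapMatrix_apply, ← Matrix.map_mul, Matrix.mul_nonsing_inv _ h7]
    refine congrArg Matrix.det (Matrix.ext fun i j => ?_)
    by_cases h : i = j <;> simp [h, A, sub_eq_add_neg, CharTwo.neg_eq, add_comm]
  obtain ⟨T, hT, hN⟩ : ∃ T : End F V, LinearMap.toMatrix b b T = A⁻¹ ∧ ∀ x, nn g 1 (T x) = x :=
    ⟨Matrix.toLin b b A⁻¹, by simp, fun x => by
      rw [← Matrix.toLin_toMatrix b b (nn g 1), ← Matrix.toLin_mul_apply,
        Matrix.mul_nonsing_inv _ h7]; simp⟩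
  have h9 : ∀ x, Q x = Q.polarBilin x (T x) := fun x => by
    simpa [hN] using q_succ hg 0 (T x)
  have h10 : ∀ x y, Q.polarBilin y (T x) = Q.polarBilin x (T y) + Q.polarBilin x y := fun x y => by
    have := q_add (Q := Q) x y
    simp only [h9, map_add, LinearMap.add_apply] at this
    linear_combination this - Q.polarBilin x (T y) * CharTwo.two_eq_zero (R := F)
  have h11 : ∀ x i, b.repr x (.inl i) = Q.polarBilin (b (.inr i)) x ∧
      b.repr x (.inr i) = Q.polarBilin (b (.inl i)) x := fun x i => by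
    conv => enter [1, 2]; rw [← b.sum_repr x]
    conv => enter [2, 2]; rw [← b.sum_repr x]
    simp [Fintype.sum_sum_type, h1, h2, h3, h4, -polarBilin_apply_apply, -Basis.sum_repr]
  rw [h8, coeff_C_mul, h6, mul_div_cancel_left₀ _ h7.ne_zero, ← hT, coeff_two_det
    (Sum.Lex (· < ·) (· < ·)) (by rintro (i | i) (j | j) <;> simp [lt_or_lt_iff_ne])
    (by rintro (i | i) (j | j) <;> simp +contextual [le_of_lt]), gs_basis b h1 h2 h3, mul_assoc, ← chi_add]
  simp only [Fintype.sum_sum_type, Sum.lex_inl_inl, Sum.lex_inr_inr, Sum.Lex.sep, Sum.lex_inr_inl,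
    if_true, if_false, sum_const_zero, sum_add_distrib, LinearMap.toMatrix_apply, h11]
  have h12 : chi (∑ i, (Q.polarBilin (b (.inr i)) (T (b (.inl i))) ^ 2 +
      Q.polarBilin (b (.inr i)) (T (b (.inl i))))) = 1 := by simp only [chi_sum, chi_as, prod_const_one]
  rw [sum_split fun i j => Q.polarBilin (b (.inr i)) (T (b (.inl i))) * _ - _,
    ← one_mul (chi (_ + _)), ← h12, ← chi_add]
  simp only [add_zero, ← add_assoc, ← sum_add_distrib]
  refine congrArg (_ * chi ·) (sum_congr rfl fun i _ => ?_)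
  rw [add_comm (∑ _, _) (_ - _), add_assoc (_ - _), add_assoc (_ - _), ← sum_add_distrib,
    ← sum_add_distrib]
  refine congrArg₂ _ ?_ (sum_congr rfl fun j _ => ?_)
  · rw [h10 (b (.inr i)), h1, if_pos rfl, ← h9, ← h9, sub_eq_add_neg, CharTwo.neg_eq]
    ring
  · split_ifs with h
    · simp only [h10 (b (.inr _)) (b (.inl _)), h10 (b (.inr i)) (b (.inr j)),
        h10 (b (.inl i)) (b (.inl j)), h1, h2, h3, h.ne, h.ne', if_true, if_false, add_zero]
      ring_nf
      simp [CharTwo.two_eq_zero, show (4 : F) = 2 * 2 by norm_num]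
    · simp

omit [Fintype F] [CharP F 2] [FiniteDimensional F V] in
theorem exists_via {W U : Type*} [AddCommGroup W] [Module F W] [AddCommGroup U] [Module F U]
    {P : QuadraticForm F W} {S : U → F} (h : ∃ e : V ≃ₗ[F] U, ∀ v, S (e v) = Q v)
    (h' : ∃ e : W ≃ₗ[F] U, ∀ v, S (e v) = P v) : ∃ e : V ≃ₗ[F] W, ∀ v, P (e v) = 1 * Q v := by
  obtain ⟨e, he⟩ := h
  obtain ⟨e', he'⟩ := h'
  exact ⟨e.trans e'.symm, fun v => by simp [← he, ← he']⟩

theorem pow_le_card_classes_two (hQ : Q.polarBilin.Nondegenerate) {m : ℕ}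
    (hV : finrank F V = 2 * (m + 2)) :
    Fintype.card F ^ (m + 2) ≤ 2 * Nat.card (ConjClasses (OG Q)) := by
  let K := AlgebraicClosure F
  refine pow_le_of_swap (K := K) (c := asn F) (by
    rw [show (4 : F) = 2 * 2 by norm_num, CharTwo.two_eq_zero]; simp) fun f hf => ?_
  by_cases h0 : f.eval 1 = 0
  · refine .inl (hf.srm.1.oRlz_of_mem hf.srm.2 (e := true) (mem_aroots.2 ⟨hf.1.ne_zero, ?_⟩) hQ hV)
    rw [show pm K true = algebraMap F K 1 by simp [pm], aeval_algebraMap_apply_eq_algebraMap_eval,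
      h0, map_zero]
  have hf' := hf.add_mul (asn F * f.eval 1)
  have key : ∀ {f : F[X]}, IsSR (m + 2) f → f.eval 1 ≠ 0 →
      ∃ P : QuadraticForm F (Fin (m + 2) ⊕ Fin (m + 2) → F), P.polarBilin.Nondegenerate ∧ ORlz P 0 (f.aroots K) ∧
      gs P * chi (∑ i : Fin (m + 2), ∑ j, if i < j then (1 : F) else 0) =
        Fintype.card F ^ (m + 2) * chi ((f.comp (X + C 1)).coeff 2 / f.eval 1) := by
    intro f hf h0
    obtain ⟨P, hP, a, h1, h2⟩ := hf.srm.1.exists_o (K := K) _ hf.srm.2
    obtain rfl := eq_of_aroots_eq (LinearMap.charpoly_monic _) hf.1 h2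
    exact ⟨P, hP, ⟨a, h1, rfl⟩, gs_of_charpoly hP a.2 o_finrank_plus h0⟩
  have h1 : (f + C (asn F * f.eval 1) * (X ^ (m + 1) * (X + 1) ^ 2)).eval 1 = f.eval 1 := by
    simp [CharTwo.add_self_eq_zero]
  obtain ⟨P, a1, a2, a3⟩ := key hf h0
  obtain ⟨P', b1, b2, b3⟩ := key hf' (h1.trans_ne h0)
  have h2 : gs P ≠ gs P' := fun h => by
    rw [h1, add_comp, coeff_add, mul_comp, C_comp, coeff_C_mul, mul_comp, pow_comp, pow_comp, X_comp,
      add_comp, X_comp, one_comp, C_1, add_assoc, CharTwo.add_self_eq_zero, add_zero,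
      show ((X + 1) ^ (m + 1) * X ^ 2 : F[X]).coeff 2 = _ from coeff_mul_X_pow _ 2 0,
      coeff_zero_eq_eval_zero, add_div, chi_add, ← h, a3] at b3
    simp [h0, chi_asn, chi_ne_zero, CharZero.eq_neg_self_iff] at b3
  obtain ⟨ζ, hζ⟩ := quad_exists_aniso F
  have h4 : ¬ ∃ e : _ ≃ₗ[F] _, ∀ v, P' (e v) = 1 * P v := fun ⟨e, h⟩ =>
    h2 (gs_congr e (by simpa using h))
  rcases quad_classify_even a1 o_finrank_plus with c1 | c1 <;>
    rcases quad_classify_even b1 o_finrank_plus with c2 | c2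
  · exact absurd (exists_via c1 c2) h4
  · exact (quad_classify_even hQ hV).imp (fun c3 => a2.congr _ one_ne_zero (exists_via c1 c3).choose_spec)
      fun c3 => b2.congr _ one_ne_zero (exists_via (c2.2 _ _ hζ) (c3.2 _ _ hζ)).choose_spec
  · exact (quad_classify_even hQ hV).symm.imp
      (fun c3 => a2.congr _ one_ne_zero (exists_via (c1.2 _ _ hζ) (c3.2 _ _ hζ)).choose_spec)
      fun c3 => b2.congr _ one_ne_zero (exists_via c2 c3).choose_spec
  · exact absurd (exists_via (c1.2 _ _ hζ) (c2.2 _ _ hζ)) h4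

end Lower

end Cfsg.Agent.Cl.Two
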