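import Mathlib
import Cfsg.Agent.Cl.OreA
import Cfsg.Agent.Cl.LevA

/-! Products of `SL`-conjugates of an endomorphism; cyclic vectors; pole placement. -/

set_option autoImplicit false

namespace Cfsg.Agent.Cl.CN

open Module Polynomial Cls LinearMap

variable {F : Type*} [Field F] {V W : Type*} [AddCommGroup V] [Module F V] [AddCommGroup W]
  [Module F W]

section Dual

theorem exists_dual {p : Submodule F V} {x : V} (hx : x ∉ p) :
    ∃ f : Dual F V, f x = 1 ∧ ∀ y ∈ p, f y = 0 := by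
  obtain ⟨f, h1, h2⟩ := p.exists_dual_map_eq_bot_of_notMem hx inferInstance
  refine ⟨(f x)⁻¹ • f, by simp [h1], fun y hy => ?_⟩
  have : f y ∈ p.map f := Submodule.mem_map_of_mem hy
  rw [h2] at this
  simp [(Submodule.mem_bot F).1 this]

theorem exists_duals {ι : Type*} [Fintype ι] [DecidableEq ι] {y : ι → V}
    (h : LinearIndependent F y) : ∃ φ : ι → Dual F V, ∀ i j, φ i (y j) = if i = j then 1 else 0 := by
  obtain ⟨g, hg⟩ := (Fintype.linearCombination F y).exists_leftInverse_of_injective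
    (ker_eq_bot.2 (linearIndependent_iff_injective_fintypeLinearCombination.1 h))
  refine ⟨fun i => proj i ∘ₗ g, fun i j => ?_⟩
  have := LinearMap.congr_fun hg (Pi.single j 1)
  simp only [comp_apply, Fintype.linearCombination_apply_single, one_smul, id_apply] at this
  simp [this, Pi.single_apply]

theorem notMem_span_symm {u v : V} (hv : v ≠ 0) (h : u ∉ F ∙ v) : v ∉ F ∙ u := by
  intro h'
  obtain ⟨c, rfl⟩ := Submodule.mem_span_singleton.1 h'
  have hc : c ≠ 0 := by rintro rfl; simp at hv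
  exact h (Submodule.mem_span_singleton.2 ⟨c⁻¹, by simp [smul_smul, hc]⟩)

end Dual

section Pw

/-- Conjugate by an element of determinant one. -/
def SC (A B : End F V) : Prop := ∃ g : End F V, LinearMap.det g = 1 ∧ g * A = B * g

/-- Products of `k` conjugates of `A` under `SL`. -/
inductive Pw (A : End F V) : ℕ → End F V → Prop
  | zero : Pw A 0 1
  | succ {k : ℕ} {B P : End F V} : SC A B → Pw A k P → Pw A (k + 1) (B * P)

/-- `A` has a Jordan block of size one. -/
def One (A : End F V) : Prop :=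
  ∃ (v : V) (f : Dual F V) (a : F), A v = a • v ∧ (∀ x, f (A x) = a * f x) ∧ f v = 1

/-- Not a scalar. -/
def NS (A : End F V) : Prop := ∀ c : F, A ≠ c • 1

variable {A B C P Q : End F V} {k l : ℕ}

theorem SC.refl (A : End F V) : SC A A := ⟨1, map_one _, by simp⟩

theorem SC.trans (h : SC A B) (h' : SC B C) : SC A C := by
  obtain ⟨g, h1, h2⟩ := h
  obtain ⟨g', h3, h4⟩ := h'
  exact ⟨g' * g, by rw [map_mul, h1, h3, mul_one], by rw [mul_assoc, h2, ← mul_assoc, h4, mul_assoc]⟩

theorem Pw.one (h : SC A B) : Pw A 1 B := by simpa using Pw.succ h Pw.zero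

theorem Pw.mul (h : Pw A k P) (h' : Pw A l Q) : Pw A (k + l) (P * Q) := by
  induction h with
  | zero => simpa using h'
  | succ h1 _ ih => rw [add_right_comm, mul_assoc]; exact Pw.succ h1 ih

theorem Pw.det (h : Pw A k P) [FiniteDimensional F V] :
    LinearMap.det P = LinearMap.det A ^ k := by
  induction h with
  | zero => simp
  | succ h1 _ ih =>
    obtain ⟨g, h2, h3⟩ := h1
    have := congrArg LinearMap.det h3
    rw [map_mul, map_mul, h2, one_mul, mul_one] at this
    rw [map_mul, ih, ← this, pow_succ']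

theorem Pw.smul (h : Pw A k P) (c : F) : Pw (c • A) k (c ^ k • P) := by
  induction h with
  | zero => simpa using Pw.zero
  | @succ k B P h1 _ ih =>
    obtain ⟨g, h2, h3⟩ := h1
    have := Pw.succ (B := c • B) ⟨g, h2, by simp [h3]⟩ ih
    rwa [smul_mul_smul_comm, ← pow_succ'] at this

theorem Pw.conj (h : Pw A k P) (e : V ≃ₗ[F] W) : Pw (e.conj A) k (e.conj P) := by
  have hm : ∀ x y : End F V, e.conj (x * y) = e.conj x * e.conj y := fun x y => by
    ext; simp [LinearEquiv.conj_apply]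
  induction h with
  | zero => have : e.conj (1 : End F V) = 1 := by ext; simp [LinearEquiv.conj_apply]
            exact this ▸ Pw.zero
  | succ h1 _ ih =>
    obtain ⟨g, h2, h3⟩ := h1
    rw [hm]
    exact Pw.succ ⟨e.conj g, (LinearMap.det_conj g e).trans h2, by rw [← hm, h3, hm]⟩ ih

theorem Pw.prod [FiniteDimensional F V] [FiniteDimensional F W] (h : Pw A k P) (a : F) :
    Pw ((a • 1 : End F W).prodMap A) k ((a ^ k • 1 : End F W).prodMap P) := by
  induction h with
  | zero => simpa using Pw.zero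
  | @succ k B P h1 _ ih =>
    obtain ⟨g, h2, h3⟩ := h1
    have := Pw.succ (B := (a • 1 : End F W).prodMap B) ⟨(1 : End F W).prodMap g, by
      rw [det_prodMap, h2, map_one, mul_one], by simp [prodMap_mul, h3]⟩ ih
    rwa [prodMap_mul, smul_mul_smul_comm, ← pow_succ', mul_one] at this

variable [FiniteDimensional F V]

theorem exists_inv (h : LinearMap.det A ≠ 0) : ∃ S : End F V, S * A = 1 ∧ A * S = 1 := by
  obtain ⟨u, rfl⟩ := (isUnit_iff_isUnit_det A).2 (Ne.isUnit h)
  exact ⟨↑u⁻¹, u.inv_mul, u.mul_inv⟩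

theorem det_ne_zero_of_inj (h : ∀ x, A x = 0 → x = 0) : LinearMap.det A ≠ 0 :=
  ((isUnit_iff_isUnit_det A).1 ((isUnit_iff_ker_eq_bot A).2 (ker_eq_bot'.2 h))).ne_zero

omit [FiniteDimensional F V] in
theorem det_ne_zero_of_mul (h : A * B = 1) : LinearMap.det A ≠ 0 :=
  left_ne_zero_of_mul_eq_one (by rw [← map_mul, h, map_one])

theorem inj_of_det (h : LinearMap.det A ≠ 0) {x : V} (hx : A x = 0) : x = 0 := by
  obtain ⟨S, h1, -⟩ := exists_inv h
  simpa [hx] using (LinearMap.congr_fun h1 x).symm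

theorem SC.symm (h : SC A B) : SC B A := by
  obtain ⟨g, h1, h2⟩ := h
  obtain ⟨S, h3, h4⟩ := exists_inv (h1 ▸ one_ne_zero : LinearMap.det g ≠ 0)
  refine ⟨S, by simpa [h1] using congrArg LinearMap.det h3, ?_⟩
  calc S * B = S * (B * g) * S := by rw [mul_assoc, mul_assoc, h4, mul_one]
    _ = A * S := by rw [← h2, ← mul_assoc, h3, one_mul]

theorem SC.sim (h : SC A B) : Sim A B := by
  obtain ⟨g, h1, h2⟩ := h
  obtain ⟨S, h3, h4⟩ := exists_inv (h1 ▸ one_ne_zero : LinearMap.det g ≠ 0)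
  exact ⟨LinearEquiv.ofLinearMap g S h4 h3, fun v => LinearMap.congr_fun h2 v⟩

theorem Pw.sc (h : Pw A k P) (h' : SC P Q) : Pw A k Q := by
  obtain ⟨g, h1, h2⟩ := h'
  obtain ⟨S, h3, h4⟩ := exists_inv (h1 ▸ one_ne_zero : LinearMap.det g ≠ 0)
  have key : ∀ {k P}, Pw A k P → Pw A k (g * P * S) := fun h => by
    induction h with
    | zero => rw [mul_one, h4]; exact Pw.zero
    | @succ k B P h5 _ ih =>
      have := Pw.succ (h5.trans (C := g * B * S) ⟨g, h1, by rw [mul_assoc, h3, mul_one]⟩) ih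
      rwa [show g * B * S * (g * P * S) = g * (B * P) * S by
        rw [mul_assoc (g * B), ← mul_assoc S, ← mul_assoc S, h3, one_mul]; simp [mul_assoc]] at this
  simpa [h2, mul_assoc, h4] using key h

theorem One.sc (h : One A) (h' : Sim A B) : SC A B := by
  obtain ⟨v, f, a, h1, h2, h3⟩ := h
  obtain ⟨e, he⟩ := h'
  have hd : LinearMap.det (e : End F V) ≠ 0 := (LinearEquiv.isUnit_det' e).ne_zero
  refine ⟨(e : End F V) * transvection (((LinearMap.det (e : End F V))⁻¹ - 1) • f) v, ?_, ?_⟩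
  · rw [map_mul, transvection.det]; simp [h3, hd]
  · ext x
    simp [transvection.apply, ← he, h1, h2, smul_smul, mul_assoc, mul_comm]

omit [FiniteDimensional F V] in
theorem One.of_sim {B : End F W} (h : One A) (h' : Sim A B) : One B := by
  obtain ⟨v, f, a, h1, h2, h3⟩ := h
  obtain ⟨e, he⟩ := h'
  refine ⟨e v, f ∘ₗ e.symm, a, by rw [← he, h1, map_smul], fun x => ?_, by simpa⟩
  obtain ⟨y, rfl⟩ := e.surjective x
  simp [← he, h2]

omit [FiniteDimensional F V] in
theorem One.inv (h : One A) (hS : B * A = 1) (hS' : A * B = 1) : One B := by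
  obtain ⟨v, f, a, h1, h2, h3⟩ := h
  have h4 : a • B v = v := by simpa [h1] using LinearMap.congr_fun hS v
  have ha : a ≠ 0 := by rintro rfl; rw [← h4] at h3; simp at h3
  refine ⟨v, f, a⁻¹, by rw [eq_inv_smul_iff₀ ha, h4], fun x => ?_, h3⟩
  rw [eq_inv_mul_iff_mul_eq₀ ha, ← h2, ← Module.End.mul_apply, hS', Module.End.one_apply]

omit [FiniteDimensional F V] in
theorem One.prod_left (h : One A) (B : End F W) : One (A.prodMap B) := by
  obtain ⟨v, f, a, h1, h2, h3⟩ := h
  exact ⟨(v, 0), f ∘ₗ fst F V W, a, by simp [h1], fun x => by simp [h2], by simpa⟩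

theorem one_smul_one (a : F) : One (a • 1 : End F F) :=
  ⟨1, LinearMap.id, a, by simp, by simp, rfl⟩

omit [FiniteDimensional F V] in
theorem One.of_poly {a : F} {χ : F[X]} (h : aeval A ((X - Polynomial.C a) * χ) = 0)
    (ha : χ.eval a ≠ 0) (h0 : aeval A χ ≠ 0) : One A := by
  obtain ⟨x, hx⟩ : ∃ x, aeval A χ x ≠ 0 := by
    by_contra! h1; exact h0 (LinearMap.ext h1)
  have h1 : ∀ y, A (aeval A χ y) = a • aeval A χ y := fun y => by
    simpa [sub_eq_zero] using LinearMap.congr_fun h y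
  obtain ⟨g, hg, -⟩ := exists_dual (p := (⊥ : Submodule F V)) (x := aeval A χ x) (by simpa)
  refine ⟨aeval A χ x, (χ.eval a)⁻¹ • g ∘ₗ aeval A χ, a, h1 x, fun y => ?_, ?_⟩
  · have : aeval A χ (A y) = A (aeval A χ y) := (intertwine_aeval A (fun _ => rfl) χ y).symm
    simp [this, h1, mul_left_comm]
  · have := Module.End.aeval_apply_of_hasEigenvector (p := χ)
      (Module.End.hasEigenvector_iff.2 ⟨Module.End.mem_eigenspace_iff.2 (h1 x), hx⟩)
    simp [this, hg, ha]

omit [FiniteDimensional F V] in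
theorem Sim.inv {A' B' : End F W} (h : Sim A A') (h1 : A * B = 1) (h2 : B' * A' = 1) :
    Sim B B' := by
  obtain ⟨e, he⟩ := h
  refine ⟨e, fun v => ?_⟩
  have := he (B v)
  rw [← Module.End.mul_apply, h1, Module.End.one_apply] at this
  rw [this, ← Module.End.mul_apply, h2, Module.End.one_apply]

omit [FiniteDimensional F V] in
theorem NS.exists (h : NS A) : ∃ u, A u ∉ F ∙ u := by
  by_contra! h1
  obtain ⟨c, hc⟩ := A.exists_eq_smul_id_of_forall_notLinearIndependent fun v => by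
    obtain ⟨c, hc⟩ := Submodule.mem_span_singleton.1 (h1 v)
    rw [LinearIndependent.pair_iff]
    intro h2
    simpa using (h2 c (-1) (by simp [hc])).2
  exact h c hc

end Pw

section Cy

/-- `u` is a cyclic vector. -/
def Cy (T : End F V) (u : V) : Prop :=
  ∀ U : Submodule F V, u ∈ U → (∀ x ∈ U, T x ∈ U) → U = ⊤

variable {T S : End F V} {u : V}

theorem aeval_mem {U : Submodule F V} (hU : ∀ x ∈ U, T x ∈ U) (p : F[X]) {x : V} (hx : x ∈ U) :
    aeval T p x ∈ U := by
  induction p using Polynomial.induction_on with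
  | C a => simpa using U.smul_mem a hx
  | add p q hp hq => simpa using U.add_mem hp hq
  | monomial n a h =>
    rw [pow_succ', ← mul_assoc, mul_comm (Polynomial.C a), mul_assoc, map_mul, aeval_X]
    exact hU _ h

theorem comm_aeval (T : End F V) (p : F[X]) (x : V) : aeval T p (T x) = T (aeval T p x) :=
  (intertwine_aeval T (fun _ => rfl) p x).symm

theorem Cy.map {T' : End F W} (h : Cy T u) (e : V →ₗ[F] W) (hs : Function.Surjective e)
    (he : ∀ x, e (T x) = T' (e x)) : Cy T' (e u) := fun U h1 h2 => by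
  have := h (U.comap e) h1 fun x hx => by simpa [he] using h2 _ hx
  refine eq_top_iff.2 fun y _ => ?_
  obtain ⟨x, rfl⟩ := hs y
  exact (this ▸ Submodule.mem_top : x ∈ U.comap e)

theorem Sim.cy {T' : End F W} (h : Sim T T') (h' : ∃ u, Cy T u) : ∃ u, Cy T' u := by
  obtain ⟨e, he⟩ := h
  obtain ⟨u, hu⟩ := h'
  exact ⟨_, hu.map (e : V →ₗ[F] W) e.surjective he⟩

theorem Cy.smul (h : Cy T u) {c : F} (hc : c ≠ 0) : Cy (c • T) u := fun U h1 h2 =>
  h U h1 fun x hx => by simpa [hc] using U.smul_mem c⁻¹ (h2 x hx)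

theorem cy_cyc (p : F[X]) : Cy (cyc p) 1 := fun U h1 h2 => eq_top_iff.2 fun x _ => by
  obtain ⟨a, rfl⟩ := AdjoinRoot.mk_surjective x
  simpa [aeval_cyc] using aeval_mem h2 a h1

/-- An extension of cyclic endomorphisms without common eigenvalues is cyclic. -/
theorem cy_ext {U Y : Type*} [AddCommGroup U] [Module F U] [AddCommGroup Y] [Module F Y]
    {T₁ : End F U} {T₂ : End F Y} (ι : U →ₗ[F] V) (π : V →ₗ[F] Y) (hπ : Function.Surjective π)
    (hk : ∀ x, π x = 0 → ∃ y, ι y = x) (h1 : ∀ y, ι (T₁ y) = T (ι y))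
    (h2 : ∀ x, π (T x) = T₂ (π x)) (h0 : ∀ y, π (ι y) = 0) (c1 : ∃ u, Cy T₁ u) (c2 : ∃ y, Cy T₂ y)
    {χ : F[X]} (hχ : aeval T₂ χ = 0) (hu : IsUnit (aeval T₁ χ)) : ∃ w, Cy T w := by
  obtain ⟨u, c1⟩ := c1
  obtain ⟨y, c2⟩ := c2
  have hs := ((Module.End.isUnit_iff _).1 hu).2
  obtain ⟨x, rfl⟩ := hπ y
  obtain ⟨z, hz⟩ := hk (aeval T χ x) (by rw [intertwine_aeval π h2, hχ, LinearMap.zero_apply])
  obtain ⟨z, rfl⟩ := hs z
  refine ⟨ι u + (x - ι z), fun M h3 h4 => ?_⟩
  have h5 : ι (aeval T₁ χ u) ∈ M := by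
    have := aeval_mem h4 χ h3
    rwa [map_add, map_sub, ← hz, intertwine_aeval ι h1 χ z, sub_self, add_zero,
      ← intertwine_aeval ι h1] at this
  have h6 := (c1.map (aeval T₁ χ) hs (comm_aeval T₁ χ)) (M.comap ι) h5 fun a ha => by
    simpa [h1] using h4 _ ha
  have h7 : ∀ a, ι a ∈ M := fun a => (h6 ▸ Submodule.mem_top : a ∈ M.comap ι)
  have h8 := c2 (M.map π) ⟨_, h3, by simp [h0]⟩ (by
    rintro _ ⟨a, ha, rfl⟩; exact ⟨_, h4 a ha, h2 a⟩)
  refine eq_top_iff.2 fun a _ => ?_
  obtain ⟨b, hb, e⟩ := (h8 ▸ Submodule.mem_top : π a ∈ M.map π)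
  obtain ⟨c, hc⟩ := hk (a - b) (by rw [map_sub, e, sub_self])
  simpa [hc] using M.add_mem (h7 c) hb

theorem cy_prod {T' : End F W} (c1 : ∃ u, Cy T u) (c2 : ∃ y, Cy T' y) {χ : F[X]}
    (hχ : aeval T' χ = 0) (hu : IsUnit (aeval T χ)) : ∃ w, Cy (T.prodMap T') w :=
  cy_ext (inl F V W) (snd F V W) Prod.snd_surjective
    (fun x hx => ⟨x.1, Prod.ext rfl (by simpa using hx.symm)⟩) (by simp) (by simp) (by simp) c1 c2 hχ hu

theorem isUnit_aeval_of_coprime {p q : F[X]} (h : IsCoprime p q) (hq : aeval T q = 0) :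
    IsUnit (aeval T p) := by
  obtain ⟨a, b, h⟩ := h
  have h1 := congrArg (aeval T) h
  rw [map_add, map_mul, map_mul, hq, mul_zero, add_zero, map_one] at h1
  exact ⟨⟨_, aeval T a, by rw [← map_mul, mul_comm, map_mul, h1], h1⟩, rfl⟩

theorem cy_smul_one (a : F) : ∃ u, Cy (a • 1 : End F F) u :=
  ⟨1, fun U h _ => eq_top_iff.2 fun x _ => by simpa using U.smul_mem x h⟩

theorem isUnit_aeval_smul_one {a : F} {χ : F[X]} (h : χ.eval a ≠ 0) :
    IsUnit (aeval (a • 1 : End F V) χ) := by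
  rw [← Algebra.algebraMap_eq_smul_one, aeval_algebraMap_apply, coe_aeval_eq_eval]
  exact (Ne.isUnit h).map _

variable [FiniteDimensional F V]

theorem Cy.inv (h : Cy T u) (hS : T * S = 1) : Cy S u := fun U h1 h2 => by
  refine h U h1 fun x hx => ?_
  have hi : Function.Injective (S.restrict h2) := fun a b hab => Subtype.ext <| by
    have := congrArg (fun y : U => T y) hab
    simpa [← Module.End.mul_apply, hS] using this
  obtain ⟨y, hy⟩ := injective_iff_surjective.1 hi ⟨x, hx⟩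
  have : T x = y := by
    rw [← show S y = x from congrArg Subtype.val hy, ← Module.End.mul_apply, hS]; rfl
  exact this ▸ y.2

theorem cy_two (h2 : finrank F V = 2) (h : T u ∉ F ∙ u) : Cy T u := fun U h1 h3 => by
  have hu : u ≠ 0 := by rintro rfl; simp at h
  refine Submodule.eq_top_of_finrank_eq (le_antisymm (Submodule.finrank_le U) ?_)
  have := Submodule.finrank_lt_finrank_of_lt (s := F ∙ u) (t := U)
    (lt_of_le_of_ne ((Submodule.span_singleton_le_iff_mem _ _).2 h1) fun e => h (e ▸ h3 u h1))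
  rw [finrank_span_singleton hu] at this
  omega

variable {n : ℕ}

theorem aeval_sum (hn : finrank F V = n) (T : End F V) (p : F[X]) (x : V) :
    aeval T p x = ∑ i : Fin n, (p %ₘ T.charpoly).coeff i • (T ^ (i : ℕ)) x := by
  rcases Nat.eq_zero_or_pos n with rfl | h0
  · have := Module.finrank_zero_iff.1 hn
    exact Subsingleton.elim _ _
  have : (p %ₘ T.charpoly).natDegree < n := by
    have := natDegree_modByMonic_lt p T.charpoly_monic fun e => by
      have := T.charpoly_natDegree; rw [e, natDegree_one] at this; omega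
    rwa [T.charpoly_natDegree, hn] at this
  rw [aeval_eq_aeval_mod_charpoly, aeval_eq_sum_range' this, ← Fin.sum_univ_eq_sum_range
    fun i => (p %ₘ T.charpoly).coeff i • T ^ i]
  simp

theorem Cy.basis (h : Cy T u) (hn : finrank F V = n) :
    ∃ b : Basis (Fin n) F V, ∀ i, b i = (T ^ (i : ℕ)) u := by
  have key : ∀ p : F[X], aeval T p u ∈ Submodule.span F (Set.range fun i : Fin n =>
      (T ^ (i : ℕ)) u) := fun p => by
    rw [aeval_sum hn]
    exact Submodule.sum_mem _ fun i _ => Submodule.smul_mem _ _ (Submodule.subset_span ⟨i, rfl⟩)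
  have hs := h _ (by simpa using key 1) fun x hx => by
    refine Submodule.span_induction (p := fun x _ => T x ∈ _) ?_ (by simp)
      (fun a b _ _ ha hb => by simpa using Submodule.add_mem _ ha hb)
      (fun c a _ ha => by simpa using Submodule.smul_mem _ c ha) hx
    rintro _ ⟨i, rfl⟩
    simpa [pow_succ'] using key (X ^ (i + 1 : ℕ))
  exact ⟨basisOfTopLeSpanOfCardEqFinrank _ hs.ge (by simp [hn]), fun i => by simp⟩

theorem Cy.eq_zero (h : Cy T u) {p : F[X]} (hp : p.degree < finrank F V) (h0 : aeval T p u = 0) :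
    p = 0 := by
  obtain ⟨b, hb⟩ := h.basis rfl
  have h1 : p %ₘ T.charpoly = p := (modByMonic_eq_self_iff T.charpoly_monic).2 (by
    rwa [degree_eq_natDegree T.charpoly_monic.ne_zero, T.charpoly_natDegree])
  rw [aeval_sum rfl, h1] at h0
  simp only [← hb] at h0
  ext i
  by_cases hi : i < finrank F V
  · exact Fintype.linearIndependent_iff.1 b.linearIndependent _ h0 ⟨i, hi⟩
  · exact coeff_eq_zero_of_degree_lt (hp.trans_le (by exact_mod_cast not_lt.1 hi))

theorem Cy.charpoly (h : Cy T u) {χ : F[X]} (hm : χ.Monic) (hd : χ.natDegree = finrank F V)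
    (h0 : aeval T χ u = 0) : T.charpoly = χ := by
  refine (sub_eq_zero.1 (h.eq_zero ?_ (by simp [h0, aeval_self_charpoly]))).symm
  have h1 := degree_eq_natDegree hm.ne_zero
  rw [← hd, ← h1]
  exact degree_sub_lt_left (by rw [h1, degree_eq_natDegree T.charpoly_monic.ne_zero,
    T.charpoly_natDegree, hd]) hm.ne_zero (by rw [hm, T.charpoly_monic])

theorem Cy.one (h : ∃ u, Cy T u) {a : F} {χ : F[X]} (h0 : aeval T ((X - C a) * χ) = 0)
    (ha : χ.eval a ≠ 0) (hd : χ.natDegree < finrank F V) : One T := by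
  obtain ⟨u, h⟩ := h
  have hχ : χ ≠ 0 := by rintro rfl; simp at ha
  exact One.of_poly h0 ha fun e => hχ (h.eq_zero
    (by rw [degree_eq_natDegree hχ]; exact_mod_cast hd) (by simp [e]))

theorem Cy.conj [FiniteDimensional F W] {T' : End F W} {u' : W} (h : Cy T u) (h' : Cy T' u')
    (hc : T.charpoly = T'.charpoly) :
    ∃ e : V ≃ₗ[F] W, (∀ x, e (T x) = T' (e x)) ∧ ∀ i, e ((T ^ i) u) = (T' ^ i) u' := by
  have hn : finrank F W = finrank F V := by rw [← T.charpoly_natDegree, hc, T'.charpoly_natDegree]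
  obtain ⟨b, hb⟩ := h.basis rfl
  obtain ⟨b', hb'⟩ := h'.basis hn
  have key : ∀ p : F[X], b.equiv b' (Equiv.refl _) (aeval T p u) = aeval T' p u' := fun p => by
    rw [aeval_sum rfl, aeval_sum hn, hc]
    simp [← hb, ← hb']
  have key2 : ∀ i, b.equiv b' (Equiv.refl _) ((T ^ i) u) = (T' ^ i) u' := fun i => by
    simpa using key (X ^ i)
  refine ⟨_, fun x => LinearMap.congr_fun (b.ext (f₁ := (b.equiv b' (Equiv.refl _)) ∘ₗ T)
    (f₂ := T' ∘ₗ (b.equiv b' (Equiv.refl _))) fun i => ?_) x, key2⟩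
  simpa [hb, key2, pow_succ'] using key2 (i + 1)

theorem sim_of_cy [FiniteDimensional F W] {T' : End F W} (h : ∃ u, Cy T u) (h' : ∃ u, Cy T' u)
    (hc : T.charpoly = T'.charpoly) : Sim T T' := by
  obtain ⟨u, h⟩ := h
  obtain ⟨u', h'⟩ := h'
  obtain ⟨e, he, -⟩ := h.conj h' hc
  exact ⟨e, he⟩

theorem Cy.det_ne (h : Cy T u) (b : Basis (Fin n) F V) :
    b.det (fun i => (T ^ (i : ℕ)) u) ≠ 0 := by
  obtain ⟨b', hb'⟩ := h.basis (n := n) (by simpa using finrank_eq_card_basis b)
  simpa [← hb'] using (b.isUnit_det b').ne_zero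

theorem Cy.sc {u' : V} (h : Cy T u) (h' : Cy S u') (hc : T.charpoly = S.charpoly)
    (b : Basis (Fin n) F V)
    (hd : b.det (fun i => (T ^ (i : ℕ)) u) = b.det fun i => (S ^ (i : ℕ)) u') : SC T S := by
  obtain ⟨e, he, he'⟩ := h.conj h' hc
  refine ⟨e, ?_, LinearMap.ext he⟩
  have := b.det_comp (e : End F V) fun i => (T ^ (i : ℕ)) u
  simp only [Function.comp_def, LinearEquiv.coe_coe, he', ← hd] at this
  exact (mul_eq_right₀ (h.det_ne b)).1 this.symm

omit [FiniteDimensional F V] in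
theorem det_tri (b : Basis (Fin n) F V) (x y : ℕ → V)
    (h : ∀ i < n, y i - x i ∈ Submodule.span F (x '' Set.Iio i)) :
    b.det (fun i : Fin n => y i) = b.det fun i : Fin n => x i := by
  have : ∀ i : Fin n, ∃ c : Fin n → F, (∀ j, i ≤ j → c j = 0) ∧
      y i - x i = ∑ j, c j • x j := fun i => by
    refine Submodule.span_induction (p := fun z _ => ∃ c : Fin n → F, (∀ j, i ≤ j → c j = 0) ∧
      z = ∑ j, c j • x j) ?_ ⟨0, by simp, by simp⟩ ?_ ?_ (h i i.2)
    · rintro _ ⟨j, hj : j < i, rfl⟩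
      refine ⟨Pi.single ⟨j, hj.trans i.2⟩ 1, fun k hk => Pi.single_eq_of_ne ?_ _, by simp⟩
      rintro rfl; exact absurd hj (not_lt.2 hk)
    · rintro _ _ _ _ ⟨c, h1, rfl⟩ ⟨d, h2, rfl⟩
      exact ⟨c + d, fun j hj => by simp [h1 j hj, h2 j hj], by simp [add_smul, Finset.sum_add_distrib]⟩
    · rintro a _ _ ⟨c, h1, rfl⟩
      exact ⟨a • c, fun j hj => by simp [h1 j hj], by simp [Finset.smul_sum, smul_smul]⟩
  choose c h1 h2 using this
  have h3 : b.toMatrix (fun i : Fin n => y i) =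
      b.toMatrix (fun i : Fin n => x i) * (1 + Matrix.of fun j i => c i j) := by
    ext k i
    rw [Matrix.mul_add, Matrix.mul_one, Matrix.add_apply, Basis.toMatrix_apply,
      sub_eq_iff_eq_add'.1 (h2 i)]
    simp [Basis.toMatrix_apply, Matrix.mul_apply, mul_comm]
  have h4 : (1 + Matrix.of fun j i => c i j).det = 1 := by
    rw [Matrix.det_of_isUpperTriangular fun j i (hji : i < j) => by
      simp [hji.ne', h1 i j hji.le]]
    simp [h1]
  rw [Basis.det_apply, Basis.det_apply, h3, Matrix.det_mul, h4, mul_one]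

omit [FiniteDimensional F V] in
theorem det_chain (b : Basis (Fin n) F V) (x : ℕ → V) (h0 : x 0 = u)
    (h : ∀ i, i + 1 < n → T (x i) - x (i + 1) ∈ Submodule.span F (x '' Set.Iic i)) :
    b.det (fun i : Fin n => (T ^ (i : ℕ)) u) = b.det fun i : Fin n => x i := by
  refine det_tri b x (fun i => (T ^ i) u) fun i => ?_
  induction i with
  | zero => simp [h0]
  | succ i ih =>
    intro hi
    have hm : ∀ j ≤ i, Submodule.span F (x '' Set.Iic j) ≤ Submodule.span F (x '' Set.Iio (i + 1)) :=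
      fun j hj => Submodule.span_mono (Set.image_mono fun k (hk : k ≤ j) =>
        show k < i + 1 by omega)
    have h1 : ∀ z ∈ Submodule.span F (x '' Set.Iio i),
        T z ∈ Submodule.span F (x '' Set.Iio (i + 1)) := fun z hz => by
      refine Submodule.span_induction (p := fun z _ => T z ∈ _) ?_ (by simp)
        (fun a b _ _ ha hb => by simpa using Submodule.add_mem _ ha hb)
        (fun c a _ ha => by simpa using Submodule.smul_mem _ c ha) hz
      rintro _ ⟨j, hj : j < i, rfl⟩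
      simpa using Submodule.add_mem _ (hm j hj.le (h j (by omega)))
        (Submodule.subset_span ⟨j + 1, show j + 1 < i + 1 by omega, rfl⟩)
    simpa [pow_succ'] using Submodule.add_mem _ (h1 _ (ih (by omega))) (hm i le_rfl (h i hi))

theorem exists_cy {χ : F[X]} (hm : χ.Monic) (hd : χ.natDegree = finrank F V) :
    ∃ T : End F V, (∃ u, Cy T u) ∧ T.charpoly = χ := by
  have := finiteDimensional_adjoinRoot hm.ne_zero
  let e := LinearEquiv.ofFinrankEq _ V ((finrank_adjoinRoot χ).trans hd)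
  have h : Sim (cyc χ) (e.conj (cyc χ)) := sim_iff_conj.2 ⟨e, rfl⟩
  exact ⟨_, Sim.cy h ⟨_, cy_cyc χ⟩, h.charpoly_eq.symm.trans (charpoly_cyc hm)⟩

theorem det_eq_dd (T : End F V) : LinearMap.det T = Ore.dd T.charpoly := by
  rw [det_eq_sign_charpoly_coeff, Ore.dd, T.charpoly_natDegree]

end Cy

section KD

variable {L : End F V} {u : V} {φ : Dual F V} {m : ℕ}

/-- Krylov data. -/
def KD (L : End F V) (u : V) (φ : Dual F V) (m : ℕ) : Prop :=
  ∀ i < m, φ ((L ^ i) u) = if i + 1 = m then 1 else 0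

theorem KD.hk (h : KD L u φ m) {c : Fin m → F}
    (hc : ∀ k < m, φ ((L ^ k) (∑ i, c i • (L ^ (i : ℕ)) u)) = 0) : c = 0 := by
  suffices ∀ k, ∀ i : Fin m, (i : ℕ) + k + 1 = m → c i = 0 from
    funext fun i => this (m - i - 1) i (by omega)
  intro k
  induction k using Nat.strong_induction_on with
  | _ k ih =>
    intro i hi
    have := hc k (by omega)
    simp only [map_sum, map_smul, ← Module.End.mul_apply, ← pow_add, smul_eq_mul] at this
    rw [Finset.sum_eq_single i (fun j _ hj => ?_) (by simp), h _ (by omega), if_pos (by omega),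
      mul_one] at this
    · exact this
    rcases lt_or_gt_of_ne (Fin.val_ne_of_ne hj) with h1 | h1
    · rw [h _ (by omega), if_neg (by omega), mul_zero]
    · rw [ih (m - j - 1) (by omega) j (by omega), zero_mul]

theorem KD.pow_add (h : KD L u φ m) (z : V) {i : ℕ} (hi : i < m) :
    ((L + φ.smulRight z) ^ i) u = (L ^ i) u := by
  induction i with
  | zero => rfl
  | succ i ih => simp [pow_succ', ih (by omega), h i (by omega), hi.ne]

theorem KD.dual_pow_add (h : KD L u φ m) (ψ : Dual F V) {i : ℕ} (hi : i < m) (x : V) :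
    φ (((L + ψ.smulRight u) ^ i) x) = φ ((L ^ i) x) := by
  induction i generalizing x with
  | zero => rfl
  | succ i ih => simp [pow_succ, ih (by omega), h i (by omega), hi.ne]

theorem aeval_monic {χ : F[X]} (hm : χ.Monic) (T : End F V) :
    aeval T χ = T ^ χ.natDegree + ∑ i ∈ Finset.range χ.natDegree, χ.coeff i • T ^ i := by
  rw [aeval_eq_sum_range, Finset.sum_range_succ, hm.coeff_natDegree, one_smul, add_comm]

theorem KD.aeval_add (h : KD L u φ (m + 1)) (z : V) {χ : F[X]} (hm : χ.Monic)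
    (hd : χ.natDegree = m + 1) : aeval (L + φ.smulRight z) χ u = aeval L χ u + z := by
  rw [aeval_monic hm, aeval_monic hm, hd]
  simp only [LinearMap.add_apply, LinearMap.sum_apply, LinearMap.smul_apply]
  rw [Finset.sum_congr rfl fun i hi => by rw [h.pow_add z (Finset.mem_range.1 hi)], pow_succ',
    Module.End.mul_apply, h.pow_add z m.lt_succ_self, pow_succ' L]
  simp [h m, add_right_comm]

variable [FiniteDimensional F V]

theorem KD.basis (h : KD L u φ m) (hm : finrank F V = m) :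
    ∃ b : Basis (Fin m) F V, ∀ i, b i = (L ^ (i : ℕ)) u :=
  ⟨basisOfLinearIndependentOfCardEqFinrank' _ (Fintype.linearIndependent_iff.2 fun c hc =>
    congrFun (h.hk fun k _ => by rw [hc]; simp)) (by simp [hm]), fun i => by simp⟩

theorem KD.cy (h : KD L u φ m) (hm : finrank F V = m) (z : V) : Cy (L + φ.smulRight z) u :=
  fun U h1 h2 => by
  obtain ⟨b, hb⟩ := h.basis hm
  rw [eq_top_iff, ← b.span_eq, Submodule.span_le]
  rintro _ ⟨i, rfl⟩
  rw [hb, ← h.pow_add z i.2]
  simpa using aeval_mem h2 (X ^ (i : ℕ)) h1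

theorem Cy.kd (h : Cy L u) (hm : finrank F V = m + 1) : ∃ φ, KD L u φ (m + 1) := by
  obtain ⟨b, hb⟩ := h.basis hm
  refine ⟨b.coord (Fin.last m), fun i hi => ?_⟩
  rw [← hb ⟨i, hi⟩]
  simp [Finsupp.single_apply, Fin.ext_iff]

theorem kd_of_obs (h : ∀ U : Submodule F V, (∀ x ∈ U, φ x = 0) → (∀ x ∈ U, L x ∈ U) → U = ⊥)
    (hm : finrank F V = m + 1) : ∃ u, KD L u φ (m + 1) := by
  let Φ : V →ₗ[F] (Fin (m + 1) → F) := LinearMap.pi fun i => φ ∘ₗ L ^ (i : ℕ)
  have hi : Function.Injective Φ := ker_eq_bot.1 <| h _ (fun x hx => congrFun hx 0) fun x hx => by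
    funext i
    have h1 := aeval_sum hm L (X ^ (i + 1 : ℕ)) x
    have h2 : ∀ j : Fin (m + 1), φ ((L ^ (j : ℕ)) x) = 0 := congrFun hx
    simp only [map_pow, aeval_X, pow_succ, map_mul, Module.End.mul_apply] at h1
    simp [Φ, h1, h2]
  obtain ⟨u, hu⟩ := (injective_iff_surjective_of_finrank_eq_finrank (by simp [hm])).1 hi
    (Pi.single (Fin.last m) 1)
  exact ⟨u, fun i hi => by simpa [Φ, Pi.single_apply, Fin.ext_iff] using congrFun hu ⟨i, hi⟩⟩

/-- Pole placement, observable form. -/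
theorem place (h : ∀ U : Submodule F V, (∀ x ∈ U, φ x = 0) → (∀ x ∈ U, L x ∈ U) → U = ⊥)
    {χ : F[X]} (hm : χ.Monic) (hd : χ.natDegree = finrank F V) (h0 : 0 < finrank F V) :
    ∃ z, (∃ u, Cy (L + φ.smulRight z) u) ∧ (L + φ.smulRight z).charpoly = χ := by
  obtain ⟨m, hm'⟩ := Nat.exists_eq_add_one_of_ne_zero h0.ne'
  obtain ⟨u, hu⟩ := kd_of_obs h hm'
  exact ⟨-aeval L χ u, ⟨u, hu.cy hm' _⟩, (hu.cy hm' _).charpoly hm hd (by
    rw [hu.aeval_add _ hm (hd.trans hm'), add_neg_cancel])⟩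

omit [FiniteDimensional F V] in
theorem Cy.add (h : Cy L u) (ψ : Dual F V) : Cy (L + ψ.smulRight u) u := fun U h1 h2 =>
  h U h1 fun x hx => by simpa using U.sub_mem (h2 x hx) (U.smul_mem (ψ x) h1)

/-- Pole placement, controllable form. -/
theorem Cy.place (h : Cy L u) {χ : F[X]} (hm : χ.Monic) (hd : χ.natDegree = finrank F V)
    (h0 : 0 < finrank F V) : ∃ ψ : Dual F V, (L + ψ.smulRight u).charpoly = χ := by
  obtain ⟨m, hm'⟩ := Nat.exists_eq_add_one_of_ne_zero h0.ne'
  obtain ⟨φ, hφ⟩ := h.kd hm'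
  refine ⟨-φ ∘ₗ aeval L χ, (h.add _).charpoly hm hd ?_⟩
  set ψ := -φ ∘ₗ aeval L χ with hψ
  have h1 : ∀ x, φ (aeval (L + ψ.smulRight u) χ x) = 0 := fun x => by
    have h2 : φ (aeval L χ x) + ψ x = 0 := by simp [hψ]
    rw [aeval_monic hm, hd, hm'] at h2 ⊢
    simp only [LinearMap.add_apply, LinearMap.sum_apply, LinearMap.smul_apply, map_add, map_sum,
      map_smul] at h2 ⊢
    rw [Finset.sum_congr rfl fun i hi => by rw [hφ.dual_pow_add ψ (Finset.mem_range.1 hi)],
      pow_succ, Module.End.mul_apply, hφ.dual_pow_add ψ m.lt_succ_self, ← h2, pow_succ L]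
    simp [hφ m, add_right_comm]
  obtain ⟨b, hb⟩ := hφ.basis hm'
  have h3 := hφ.hk (c := b.repr (aeval (L + ψ.smulRight u) χ u)) fun k hk => by
    simp only [← hb, b.sum_repr]
    rw [← hφ.dual_pow_add ψ hk, ← h1 (((L + ψ.smulRight u) ^ k) u), ← Module.End.mul_apply,
      ← Module.End.mul_apply]
    congr 2
    simpa using congrArg (aeval (L + ψ.smulRight u)) (mul_comm (X ^ k) χ)
  exact b.repr.map_eq_zero_iff.1 (Finsupp.ext (congrFun h3))

end KD

end Cfsg.Agent.Cl.CN
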