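import Mathlib
import Cfsg.Agent.Cl.CovNA

/-! Products of a cyclic class with a simple eigenvalue and an arbitrary cyclic class. -/

set_option autoImplicit false

namespace Cfsg.Agent.Cl.CN

open Module Polynomial Cls LinearMap

universe w

variable {F : Type*} [Field F] {V W W₀ : Type*} [AddCommGroup V] [Module F V] [AddCommGroup W]
  [Module F W] [AddCommGroup W₀] [Module F W₀]

/-- A decomposition `V = F v ⊕ W`. -/
structure Fr (v : V) (f : Dual F V) (ρ : V →ₗ[F] W) (s : W →ₗ[F] V) : Prop where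
  fv : f v = 1
  fs : ∀ y, f (s y) = 0
  ρv : ρ v = 0
  ρs : ∀ y, ρ (s y) = y
  dec : ∀ x, s (ρ x) + f x • v = x

section Fr

variable {v x : V} {f g : Dual F V} {ρ : V →ₗ[F] W} {s : W →ₗ[F] V} {P L : End F V} {M : End F W}
  {a : F}

theorem exists_fr (h : f v = 1) : ∃ ρ : V →ₗ[F] ker f, Fr v f ρ (ker f).subtype := by
  obtain ⟨ρ, hρ⟩ : ∃ ρ : V →ₗ[F] ker f, ∀ x, (ρ x : V) = x - f x • v :=
    ⟨LinearMap.codRestrict _ (LinearMap.id - f.smulRight v) fun x => mem_ker.2 (by simp [h]),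
      fun x => rfl⟩
  exact ⟨ρ, h, fun y => y.2, Subtype.ext (by simp [h, hρ]),
    fun y => Subtype.ext (by simp [hρ, mem_ker.1 y.2]), fun x => by simp [hρ]⟩

theorem exists_fr' (h : f v = 1) (hs : Function.Surjective ρ) (hv : ρ v = 0)
    (hk : ∀ x, ρ x = 0 → x ∈ F ∙ v) : ∃ s, Fr v f ρ s := by
  obtain ⟨s, h1⟩ := ρ.exists_rightInverse_of_surjective (range_eq_top.2 hs)
  have h2 : ∀ y, ρ (s y) = y := LinearMap.congr_fun h1
  refine ⟨s - (f ∘ₗ s).smulRight v, h, fun y => by simp [h], hv, fun y => by simp [h2, hv],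
    fun x => ?_⟩
  obtain ⟨c, hc⟩ := Submodule.mem_span_singleton.1 (hk (x - s (ρ x)) (by simp [h2]))
  have h3 := congrArg f hc
  simp only [map_smul, h, smul_eq_mul, mul_one, map_sub] at h3
  simp only [LinearMap.sub_apply, smulRight_apply, comp_apply]
  rw [sub_add, ← sub_smul, ← neg_sub (f x), ← h3, neg_smul, hc]
  simp

namespace Fr

variable (h : Fr v f ρ s)
include h

theorem s_ρ (hx : f x = 0) : s (ρ x) = x := by simpa [hx] using h.dec x

theorem surj : Function.Surjective ρ := fun y => ⟨s y, h.ρs y⟩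

theorem ker (x : V) (hx : ρ x = 0) : x ∈ F ∙ v :=
  Submodule.mem_span_singleton.2 ⟨f x, by simpa [hx] using h.dec x⟩

theorem top {U : Submodule F V} (hv : v ∈ U) (hs : U.comap s = ⊤) : U = ⊤ :=
  eq_top_iff.2 fun x _ => h.dec x ▸ U.add_mem (hs ▸ Submodule.mem_top : ρ x ∈ U.comap s)
    (U.smul_mem _ hv)

theorem bij : Function.Bijective (f.prod ρ) :=
  ⟨(injective_iff_map_eq_zero _).2 fun x hx => by
    have h1 : f x = 0 := congrArg Prod.fst hx
    have h2 : ρ x = 0 := congrArg Prod.snd hx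
    simpa [h1, h2] using (h.dec x).symm,
  fun y => ⟨s y.2 + y.1 • v, by simp [h.fs, h.fv, h.ρs, h.ρv]⟩⟩

theorem finrank [FiniteDimensional F W] : finrank F V = finrank F W + 1 := by
  rw [(LinearEquiv.ofBijective _ h.bij).finrank_eq, finrank_prod, finrank_self, add_comm]

theorem sim (h1 : L v = a • v) (h2 : ∀ y, L (s y) = s (M y)) :
    Sim L ((a • 1 : End F F).prodMap M) :=
  sim_of_bijective _ h.bij fun x => by
    rw [← h.dec x]
    simp [h1, h2, h.fs, h.fv, h.ρs, h.ρv, mul_comm]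

set_option linter.unusedSectionVars false in
theorem red (hP : P x = v) (hL : ∀ z, ∃ c : F, L z = s (M (ρ z)) + c • v) (h1 : L v = a • v)
    (ha : a ≠ 0) (g : Dual F V) {U : Submodule F V} (hU : ∀ z ∈ U, (L * P) z ∈ U) (hx : x ∈ U) :
    v ∈ U ∧ ∀ y ∈ U.comap s, (M * (ρ ∘ₗ P ∘ₗ transvection g (v - x) ∘ₗ s)) y ∈ U.comap s := by
  have hv : v ∈ U := by simpa [hP, h1, U.smul_mem_iff ha] using hU x hx
  refine ⟨hv, fun y hy => ?_⟩
  have h2 := hU (transvection g (v - x) (s y))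
    (U.add_mem hy (U.smul_mem _ (U.sub_mem hv hx)))
  obtain ⟨c, hc⟩ := hL (P (transvection g (v - x) (s y)))
  rw [Module.End.mul_apply, hc] at h2
  simpa using U.sub_mem h2 (U.smul_mem c hv)

theorem det_red [FiniteDimensional F V] [FiniteDimensional F W] (hd : LinearMap.det P ≠ 0)
    (hP : P x = v) (h1 : f x = 0) (h2 : g x = 1) :
    LinearMap.det (ρ ∘ₗ P ∘ₗ transvection g (v - x) ∘ₗ s : End F W) ≠ 0 := by
  refine det_ne_zero_of_inj fun y hy => ?_
  obtain ⟨c, hc⟩ := Submodule.mem_span_singleton.1 (h.ker _ hy)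
  have h3 : s y + g (s y) • (v - x) = c • x := sub_eq_zero.1 <| inj_of_det hd (by
    rw [map_sub, map_smul, hP, hc]; simp [transvection.apply])
  have h4 : g (s y) = 0 := by simpa [h.fs, h.fv, h1] using congrArg f h3
  have h5 : c = 0 := by simpa [h4, h2] using (congrArg g h3).symm
  simpa [h4, h5, h.ρs] using congrArg ρ h3

end Fr

theorem One.exists_fr (h : One L) : ∃ (f : Dual F V) (v : V) (ρ : V →ₗ[F] ker f) (a : F)
    (M : End F (ker f)), Fr v f ρ (ker f).subtype ∧ L v = a • v ∧ ∀ y : ker f, L y = M y := by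
  obtain ⟨v, f, a, h1, h2, h3⟩ := h
  obtain ⟨ρ, h⟩ := CN.exists_fr h3
  exact ⟨f, v, ρ, a, ρ ∘ₗ L ∘ₗ (ker f).subtype, h, h1, fun y =>
    (h.s_ρ (by simp [h2, mem_ker.1 y.2])).symm⟩

theorem aeval_ext (hk : ∀ x, ρ x = 0 → x ∈ F ∙ v) (h1 : L v = a • v) (h2 : ∀ x, ρ (L x) = M (ρ x))
    {χ : F[X]} (hχ : aeval M χ = 0) : aeval L ((X - C a) * χ) = 0 := by
  ext x
  obtain ⟨c, hc⟩ := Submodule.mem_span_singleton.1 (hk (aeval L χ x) (by
    rw [intertwine_aeval ρ h2, hχ]; rfl))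
  simp [← hc, h1]

theorem nice_ext [FiniteDimensional F V] [FiniteDimensional F W] (h : Fr v f ρ s)
    (h1 : L v = a • v) (h2 : ∀ x, ρ (L x) = M (ρ x)) (c : ∃ y, Cy M y)
    (ha : M.charpoly.eval a ≠ 0) : (∃ w, Cy L w) ∧ L.charpoly = (X - C a) * M.charpoly := by
  obtain ⟨w, hw⟩ := cy_ext (T₁ := a • 1) (toSpanSingleton F V v) ρ h.surj
    (fun x hx => Submodule.mem_span_singleton.1 (h.ker x hx))
    (fun y => by simp [h1, smul_smul, mul_comm]) h2 (fun y => by simp [h.ρv]) (cy_smul_one a) c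
    M.aeval_self_charpoly (isUnit_aeval_smul_one ha)
  refine ⟨⟨w, hw⟩, hw.charpoly ((monic_X_sub_C a).mul M.charpoly_monic) ?_ (by
    rw [aeval_ext h.ker h1 h2 M.aeval_self_charpoly]; rfl)⟩
  rw [(monic_X_sub_C a).natDegree_mul M.charpoly_monic, M.charpoly_natDegree, h.finrank,
    natDegree_X_sub_C, add_comm]

end Fr

/-- A chain through `u` whose twist by `K` is observable. -/
structure Sol (K : End F V) (u : V) (N : End F V) (θ : Dual F V) : Prop where
  sk : ∀ U : Submodule F V, u ∈ U → (∀ w ∈ U, θ w = 0 → N w ∈ U) → U = ⊤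
  inj : ∀ w, θ w = 0 → N w = 0 → w = 0
  obs : ∀ U : Submodule F V, (∀ w ∈ U, θ w = 0) → (∀ w ∈ U, ∃ w' ∈ U, N w = K w') → U = ⊥

section Sol

variable {K N : End F V} {u : V} {θ : Dual F V}

theorem Sol.cy (h : Sol K u N θ) (z : V) : Cy (N + θ.smulRight z) u := fun U h1 h2 =>
  h.sk U h1 fun w hw h0 => by simpa [h0] using h2 w hw

theorem Sol.pow (h : Sol K u N θ) (j : ℕ) (hj : j + 1 < finrank F V) : θ ((N ^ j) u) = 0 := by
  induction j using Nat.strong_induction_on with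
  | _ j ih =>
    by_contra h0
    have h1 := h.sk (Submodule.span F (Set.range fun i : Fin (j + 1) => (N ^ (i : ℕ)) u))
      (Submodule.subset_span ⟨0, rfl⟩) fun w hw h2 => by
        obtain ⟨c, rfl⟩ := (Submodule.mem_span_range_iff_exists_fun F).1 hw
        rw [Fin.sum_univ_castSucc] at h2 ⊢
        have h3 : c (Fin.last j) = 0 := by
          simpa [h0, fun i : Fin j => ih i i.2 (by omega)] using h2
        simp only [h3, zero_smul, add_zero, map_sum, map_smul]
        exact Submodule.sum_mem _ fun i _ => Submodule.smul_mem _ _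
          (Submodule.subset_span ⟨i.succ, by simp [pow_succ']⟩)
    have := finrank_range_le_card (R := F) fun i : Fin (j + 1) => (N ^ (i : ℕ)) u
    rw [Set.finrank, h1, finrank_top, Fintype.card_fin] at this
    omega

variable [FiniteDimensional F V]

theorem Sol.place (h : Sol K u N θ) {S : End F V} (hS : K * S = 1) {χ : F[X]} (hm : χ.Monic)
    (hd : χ.natDegree = finrank F V) (h0 : 0 < finrank F V) :
    ∃ z, (∃ u, Cy (S * N + θ.smulRight z) u) ∧ (S * N + θ.smulRight z).charpoly = χ :=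
  CN.place (fun U h1 h2 => h.obs U h1 fun w hw => ⟨_, h2 w hw, by
    rw [← Module.End.mul_apply, ← mul_assoc, hS, one_mul]⟩) hm hd h0

theorem Sol.exists [FiniteDimensional F W] (h : Sol K u N θ) (hK : LinearMap.det K ≠ 0)
    {M₀ : End F W} (c : ∃ y, Cy M₀ y) (hd : finrank F W = finrank F V) (h0 : 0 < finrank F V) :
    ∃ (M : End F V) (z : V), Sim M M₀ ∧ M * K = N + θ.smulRight z := by
  obtain ⟨S, h1, h2⟩ := exists_inv hK
  obtain ⟨z, h3, h4⟩ := h.place h2 M₀.charpoly_monic (M₀.charpoly_natDegree.trans hd) h0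
  refine ⟨K * (S * N + θ.smulRight z) * S, K z, Sim.trans ⟨LinearEquiv.ofLinearMap S K h1 h2,
    fun v => ?_⟩ (sim_of_cy h3 c h4), ?_⟩
  · change (S * (K * _ * S)) v = _
    rw [← mul_assoc, ← mul_assoc, h1, one_mul]; rfl
  · rw [mul_assoc, h1, mul_one, mul_add, ← mul_assoc, h2, one_mul]
    ext; simp

end Sol

theorem span_pair_ne_top [FiniteDimensional F V] (h : 2 < finrank F V) (a b : V) :
    Submodule.span F {a, b} ≠ ⊤ := fun e => by
  classical
  have := finrank_span_finset_le_card (R := F) ({a, b} : Finset V)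
  rw [Set.finrank, Finset.coe_pair, e, finrank_top] at this
  have := Finset.card_le_two (a := a) (b := b)
  omega

theorem gamma (h4 : 4 ≤ Cardinal.mk F) (m : ℕ) : ∀ {V : Type w} [AddCommGroup V] [Module F V]
    [FiniteDimensional F V] {K : End F V} {u x : V}, finrank F V = m + 2 → LinearMap.det K ≠ 0 →
    u ≠ 0 → x ∉ F ∙ u → K u ∉ F ∙ x → ∃ (N : End F V) (θ : Dual F V) (y : V), θ u = 0 ∧ θ y = 1 ∧
      N u = x ∧ ∀ c : F, c ≠ 0 → Sol K u (transvection ((c - 1) • θ) y * N) θ := by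
  induction m with
  | zero =>
    intro V _ _ _ K u x hn hK hu hx hKu
    have hx0 : x ≠ 0 := by rintro rfl; simp at hx
    obtain ⟨θ, h1, h2⟩ := exists_dual hx
    obtain ⟨g, h3, -⟩ := exists_dual (notMem_span_symm hu hx)
    have h5 := h2 u (Submodule.mem_span_singleton_self u)
    obtain ⟨ρ, hf⟩ := exists_fr h1
    have h6 : (F ∙ u) = ker θ := Submodule.eq_of_le_of_finrank_eq h2 (by
      have := hf.finrank; rw [finrank_span_singleton hu]; omega)
    have h7 : ∀ w, θ w = 0 → ∃ t : F, t • u = w := fun w hw =>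
      Submodule.mem_span_singleton.1 (h6 ▸ hw)
    have h8 : ∀ c t : F, (transvection ((c - 1) • θ) x * g.smulRight x) (t • u) = (t * c) • x :=
      fun c t => by simp [transvection.apply, h3, h1, mul_smul, sub_smul]
    refine ⟨g.smulRight x, θ, x, h5, h1, by simp [h3], fun c hc => ⟨fun U h9 h10 => hf.top ?_ ?_,
      fun w hw h9 => ?_, fun U h9 h10 => eq_bot_iff.2 fun w hw => ?_⟩⟩
    · have := h10 u h9 h5
      rw [← one_smul F u, h8] at this
      simpa [U.smul_mem_iff hc] using this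
    · refine eq_top_iff.2 fun y _ => ?_
      obtain ⟨t, ht⟩ := h7 y y.2
      simpa [← ht] using U.smul_mem t h9
    · obtain ⟨t, rfl⟩ := h7 w hw
      simp_all
    · obtain ⟨w', hw', e⟩ := h10 w hw
      obtain ⟨t, rfl⟩ := h7 w (h9 w hw)
      obtain ⟨t', rfl⟩ := h7 w' (h9 w' hw')
      rw [h8, map_smul] at e
      by_cases ht : t' = 0
      · simp_all
      · exact (hKu (Submodule.mem_span_singleton.2 ⟨t'⁻¹ * (t * c), by
          rw [mul_smul, e, inv_smul_smul₀ ht]⟩)).elim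
  | succ m ih =>
    intro V _ _ _ K u x hn hK hu hx hKu
    obtain ⟨S, hS, hS'⟩ := exists_inv hK
    obtain ⟨y₀, hy₀⟩ : ∃ y₀, y₀ ∉ Submodule.span F {u, x} := by
      by_contra! h; exact span_pair_ne_top (by omega) u x (eq_top_iff.2 fun y _ => h y)
    obtain ⟨θ₀, h1, h2⟩ := exists_dual hy₀
    obtain ⟨y, hy⟩ := Lev.avoid h4 [ker θ₀, ker (θ₀ ∘ₗ S), Submodule.span F {x, K u}] (by simp) (by
      simp only [List.mem_cons, List.not_mem_nil, or_false, forall_eq_or_imp, forall_eq]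
      refine ⟨fun e => ?_, fun e => ?_, span_pair_ne_top (by omega) _ _⟩
      · simpa [h1] using (e ▸ Submodule.mem_top : y₀ ∈ ker θ₀)
      · simpa [h1, ← Module.End.mul_apply, hS] using (e ▸ Submodule.mem_top : K y₀ ∈ ker (θ₀ ∘ₗ S)))
    simp only [List.mem_cons, List.not_mem_nil, or_false, forall_eq_or_imp, forall_eq, mem_ker,
      comp_apply] at hy
    obtain ⟨hy1, hy2, hy3⟩ := hy
    obtain ⟨θ, hθ⟩ : ∃ θ, θ = (θ₀ y)⁻¹ • θ₀ := ⟨_, rfl⟩
    have h3 : θ y = 1 := by simp [hθ, hy1]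
    have h5 : θ u = 0 := by simp [hθ, h2 u (Submodule.subset_span (by simp))]
    have h6 : θ x = 0 := by simp [hθ, h2 x (Submodule.subset_span (by simp))]
    obtain ⟨ρ, hf⟩ := exists_fr h3
    generalize (ker θ).subtype = s at hf
    have hd := hf.finrank
    have hK' : LinearMap.det (ρ ∘ₗ K ∘ₗ s : End F (ker θ)) ≠ 0 := det_ne_zero_of_inj fun w hw => by
      obtain ⟨t, ht⟩ := Submodule.mem_span_singleton.1 (hf.ker _ hw)
      have h7 : t • S y = s w := by
        rw [← map_smul, ht]; exact LinearMap.congr_fun hS (s w)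
      have h8 : t = 0 := by simpa [hθ, hy1, hy2] using (congrArg θ h7).trans (hf.fs w)
      simpa [h8, hf.ρs] using (congrArg ρ h7).symm
    obtain ⟨N, θ', y', h7, h8, h9, h10⟩ := ih (K := ρ ∘ₗ K ∘ₗ s) (u := ρ u) (x := ρ x) (by omega) hK'
      (fun e => hu (by rw [← hf.s_ρ h5, e, map_zero])) (fun e => by
        obtain ⟨t, ht⟩ := Submodule.mem_span_singleton.1 e
        exact hx (Submodule.mem_span_singleton.2 ⟨t, by
          simpa [hf.s_ρ h5, hf.s_ρ h6] using congrArg s ht⟩)) (fun e => by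
        obtain ⟨t, ht⟩ := Submodule.mem_span_singleton.1 e
        have h11 := hf.dec (K u)
        rw [show ρ (K u) = t • ρ x by simpa [hf.s_ρ h5] using ht.symm, map_smul, hf.s_ρ h6] at h11
        by_cases h12 : θ (K u) = 0
        · exact hKu (Submodule.mem_span_singleton.2 ⟨t, by simpa [h12] using h11⟩)
        · refine hy3 (Submodule.mem_span_pair.2 ⟨-((θ (K u))⁻¹ * t), (θ (K u))⁻¹, ?_⟩)
          nth_rw 3 [← h11]
          simp [smul_smul, h12])
    have h11 : Sol (ρ ∘ₗ K ∘ₗ s) (ρ u) N θ' := by simpa [← Module.End.one_eq_id] using h10 1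
    obtain ⟨S', h12, h13⟩ := exists_inv hK'
    obtain ⟨z, -, h14⟩ := h11.place h13 (monic_X_pow (m + 2)) (by simp; omega) (by omega)
    have h15 := (S' * N + θ'.smulRight z).aeval_self_charpoly
    rw [h14, map_pow, aeval_X] at h15
    obtain ⟨N', hN'⟩ : ∃ N', N' = N + θ'.smulRight ((ρ ∘ₗ K ∘ₗ s) z) := ⟨_, rfl⟩
    have h16 : S' * N + θ'.smulRight z = S' * N' := by
      ext1 w; simp [hN', show S' (ρ (K (s z))) = z from LinearMap.congr_fun h12 z]
    have key : ∀ c w, (transvection ((c - 1) • θ) y * ((s ∘ₗ N' + θ'.smulRight y) ∘ₗ ρ)) (s w) =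
        s (N' w) + (c * θ' w) • y := fun c w => by
      simp [transvection.apply, hf.ρs, hf.fs, h3, add_assoc, ← add_smul, sub_mul]
    have hinj : ∀ c ≠ 0, ∀ w, s (N' w) + (c * θ' w) • y = 0 → w = 0 := fun c hc w hw => by
      have h17 : θ' w = 0 := by simpa [hf.fs, h3, hc] using congrArg θ hw
      exact h11.inj w h17 (by simpa [hf.ρs, hN', h17] using congrArg ρ hw)
    refine ⟨(s ∘ₗ N' + θ'.smulRight y) ∘ₗ ρ, θ, y, h5, h3, by simp [hN', h7, h9, hf.s_ρ h6],
      fun c hc => ⟨fun U h17 h18 => ?_, fun w hw h17 => ?_, fun U h17 h18 => ?_⟩⟩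
    · have h19 := h11.sk (U.comap s) (by simpa [hf.s_ρ h5]) fun w hw h0 => by
        have := h18 _ hw (hf.fs w)
        rw [key] at this
        simpa [h0, hN'] using this
      have h20 : ∀ w, s w ∈ U := fun w => (h19 ▸ Submodule.mem_top : w ∈ U.comap s)
      refine hf.top ?_ h19
      have := h18 _ (h20 y') (hf.fs y')
      rw [key] at this
      simpa [h8, U.smul_mem_iff hc] using U.sub_mem this (h20 (N' y'))
    · rw [← hf.s_ρ hw, key] at h17
      rw [← hf.s_ρ hw, hinj c hc _ h17, map_zero]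
    · have h19 : ∀ w ∈ U.comap s, (S' * N') w ∈ U.comap s ∧ ((S' * N') w = 0 → w = 0) :=
        fun w hw => by
        obtain ⟨w', h20, h21⟩ := h18 _ hw
        rw [key] at h21
        have h22 : (S' * N') w = ρ w' := by
          have := congrArg ρ h21
          rw [← hf.s_ρ (h17 w' h20)] at this
          simp only [map_add, map_smul, hf.ρs, hf.ρv, smul_zero, add_zero] at this
          rw [Module.End.mul_apply, this]
          exact LinearMap.congr_fun h12 (ρ w')
        rw [h22]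
        exact ⟨by simpa [hf.s_ρ (h17 w' h20)], fun e => hinj c hc w (by
          rw [h21, ← hf.s_ρ (h17 w' h20), e, map_zero, map_zero])⟩
      have h20 : ∀ k, ∀ w ∈ U.comap s, ((S' * N') ^ k) w = 0 → w = 0 := fun k => by
        induction k with
        | zero => simp
        | succ k ih => exact fun w hw e => (h19 w hw).2 (ih _ (h19 w hw).1 (by rwa [pow_succ] at e))
      refine eq_bot_iff.2 fun w hw => ?_
      have := h20 (m + 2) (ρ w) (by simpa [hf.s_ρ (h17 w hw)]) (by rw [← h16, h15]; rfl)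
      rw [← hf.s_ρ (h17 w hw), this, map_zero]
      exact Submodule.zero_mem _

theorem span_ne_top (h : 2 ≤ finrank F V) (a : V) : (F ∙ a) ≠ ⊤ := fun e => by
  have := Lev.finrank_span_le_one (K := F) a
  rw [e, finrank_top] at this
  omega

variable [FiniteDimensional F V] [FiniteDimensional F W] [FiniteDimensional F W₀]

theorem gamma_c (h4 : 4 ≤ Cardinal.mk F) {K : End F V} (hK : LinearMap.det K ≠ 0) {u : V}
    (hu : u ≠ 0) {M₀ : End F W} (c₀ : ∃ y, Cy M₀ y) (hd : finrank F W = finrank F V) :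
    ∃ (N : End F V) (θ : Dual F V) (y : V), θ y = 1 ∧ ∀ c : F, c ≠ 0 → 2 ≤ finrank F V ∨ c = 1 →
      ∃ M : End F V, Sim M M₀ ∧ Cy (M * K) u ∧
        ∀ i < finrank F V, ((M * K) ^ i) u = transvection ((c - 1) • θ) y ((N ^ i) u) := by
  by_cases h2 : 2 ≤ finrank F V
  · obtain ⟨x, hx⟩ := Lev.avoid h4 [F ∙ u, F ∙ K u] (by simp) (by simp [span_ne_top h2])
    simp only [List.mem_cons, List.not_mem_nil, or_false, forall_eq_or_imp, forall_eq] at hx
    obtain ⟨N, θ, y, -, h1, -, h3⟩ := gamma h4 (finrank F V - 2) (by omega) hK hu hx.1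
      (notMem_span_symm (fun e => hu (inj_of_det hK e)) hx.2)
    have h5 : Sol K u N θ := by simpa [← Module.End.one_eq_id] using h3 1
    refine ⟨N, θ, y, h1, fun c hc _ => ?_⟩
    obtain ⟨M, z, h6, h7⟩ := (h3 c hc).exists hK c₀ hd (by omega)
    refine ⟨M, h6, h7 ▸ (h3 c hc).cy z, fun i => ?_⟩
    rw [h7]
    induction i with
    | zero => simpa [transvection.apply] using fun _ => Or.inl (Or.inr (h5.pow 0 (by omega)))
    | succ i ih =>
      intro hi
      rw [pow_succ', Module.End.mul_apply, ih (by omega), pow_succ']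
      simp [transvection.apply, h5.pow i hi]
  · obtain ⟨θ, h1, -⟩ := exists_dual (p := (⊥ : Submodule F V)) (x := u) (by simpa)
    let e := LinearEquiv.ofFinrankEq _ _ hd
    refine ⟨0, θ, u, h1, fun c _ hc => ⟨e.conj M₀, Sim.symm (sim_iff_conj.2 ⟨e, rfl⟩),
      fun U h3 _ => Submodule.eq_top_of_finrank_eq (le_antisymm (Submodule.finrank_le U) ?_),
      fun i hi => ?_⟩⟩
    · have := Submodule.finrank_mono ((Submodule.span_singleton_le_iff_mem _ _).2 h3)
      rw [finrank_span_singleton hu] at this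
      omega
    · simp [show i = 0 by omega, hc.resolve_left h2]

/-- The main factorisation lemma. -/
theorem tc0 (h4 : 4 ≤ Cardinal.mk F) {P Z : End F V} (hP : LinearMap.det P ≠ 0) {u : V}
    (hu : P u ∉ F ∙ u) {ρ : V →ₗ[F] W} (hs : Function.Surjective ρ) (hv : ρ (P u) = 0)
    (hk : ∀ x, ρ x = 0 → x ∈ F ∙ P u) {a : F} (ha : a ≠ 0) {M₀ : End F W₀} (c₀ : ∃ y, Cy M₀ y)
    (hM : LinearMap.det M₀ ≠ 0) (hd : finrank F W₀ = finrank F W) (cZ : ∃ y, Cy Z y)
    (hZ : LinearMap.det Z = a * LinearMap.det M₀ * LinearMap.det P) :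
    ∃ (L : End F V) (M : End F W), L (P u) = a • P u ∧ (∀ x, ρ (L x) = M (ρ x)) ∧ Sim M M₀ ∧
      Sim Z (L * P) ∧ (3 ≤ finrank F V → SC Z (L * P)) := by
  have hu0 : u ≠ 0 := by rintro rfl; simp at hu
  obtain ⟨f, h1, h2⟩ := exists_dual hu
  obtain ⟨g, h3, h5⟩ := exists_dual (notMem_span_symm hu0 hu)
  replace h2 := h2 u (Submodule.mem_span_singleton_self _)
  replace h5 := h5 _ (Submodule.mem_span_singleton_self _)
  obtain ⟨s, hf⟩ := exists_fr' h1 hs hv hk
  obtain ⟨v, hPu⟩ : ∃ v, P u = v := ⟨_, rfl⟩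
  rw [hPu] at hf h1 h5 hv ⊢
  have hK := hf.det_red hP hPu h2 h3
  have hsu := hf.s_ρ h2
  have hn := hf.finrank
  obtain ⟨S, hS, hS'⟩ := exists_inv hP
  have red := fun L M => hf.red (L := L) (M := M) (a := a) hPu
  set K : End F W := ρ ∘ₗ P ∘ₗ transvection g (v - u) ∘ₗ s with hKd
  have hρu : ρ u ≠ 0 := fun e => hu0 (by rw [← hsu, e, map_zero])
  have hW : 0 < finrank F W := finrank_pos_iff_exists_ne_zero.2 ⟨_, hρu⟩
  obtain ⟨N, θ, y, h6, h7⟩ := gamma_c h4 hK hρu c₀ hd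
  let b := Module.finBasis F V
  let x₀ : ℕ → V := fun i => if i = 1 then a • v else (if i = 0 then 1 else a) • s ((N ^ (i - 1)) (ρ u))
  have key : ∀ c : F, c ≠ 0 → 2 ≤ finrank F W ∨ c = 1 → ∃ (L : End F V) (M : End F W),
      L v = a • v ∧ (∀ x, ρ (L x) = M (ρ x)) ∧ Sim M M₀ ∧ Cy (L * P) u ∧
      (L * P).charpoly = Z.charpoly ∧
      b.det (fun i => ((L * P) ^ (i : ℕ)) u) = c * b.det fun i => x₀ i := fun c hc hc' => by
    obtain ⟨M, h8, h9, h10⟩ := h7 c hc hc'
    have hcy : ∀ L : End F V, (∀ z, ∃ c : F, L z = s (M (ρ z)) + c • v) → L v = a • v →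
        Cy (L * P) u := fun L h11 h12 U h13 h14 => by
      obtain ⟨h15, h16⟩ := red L M h11 h12 ha g h14 h13
      exact hf.top h15 (h9 _ (by simpa [hsu]) h16)
    obtain ⟨L₀, hL₀⟩ : ∃ L₀ : End F V, L₀ = s ∘ₗ M ∘ₗ ρ + (a • f).smulRight v := ⟨_, rfl⟩
    have h11 : L₀ v = a • v := by simp [hL₀, hv, h1]
    have h12 : LinearMap.det (L₀ * P) = LinearMap.det Z := by
      rw [map_mul, (hf.sim (M := M) h11 fun y => by simp [hL₀, hf.ρs, hf.fs]).det_eq, det_prodMap,
        h8.det_eq, hZ]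
      simp
    have h13 : LinearMap.det Z ≠ 0 := hZ ▸ mul_ne_zero (mul_ne_zero ha hM) hP
    have h14 := (hcy L₀ (fun z => ⟨a * f z, by simp [hL₀]⟩) h11).map (L₀ * P)
      ((Module.End.isUnit_iff _).1 ((isUnit_iff_isUnit_det _).2 (h12 ▸ h13).isUnit)).2 fun _ => rfl
    obtain ⟨ψ, h15⟩ := h14.place Z.charpoly_monic Z.charpoly_natDegree (by omega)
    have h16 : ψ u = 0 := by
      have e : L₀ * P + ψ.smulRight ((L₀ * P) u) = L₀ * P * transvection ψ u := by
        ext; simp [transvection.apply]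
      have := det_eq_dd (L₀ * P + ψ.smulRight ((L₀ * P) u))
      rw [h15, ← det_eq_dd, e, map_mul, h12, transvection.det] at this
      simpa [h13] using this
    have hSv : S v = u := hPu ▸ LinearMap.congr_fun hS u
    obtain ⟨L, hL⟩ : ∃ L : End F V, L = L₀ + (ψ ∘ₗ S).smulRight (a • v) := ⟨_, rfl⟩
    have h17 : L v = a • v := by simp [hL, h11, hSv, h16]
    have h18 : ∀ z, ∃ c : F, L z = s (M (ρ z)) + c • v := fun z =>
      ⟨a * f z + ψ (S z) * a, by simp [hL, hL₀, add_smul, mul_smul, add_assoc]⟩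
    have h19 : L * P = L₀ * P + ψ.smulRight ((L₀ * P) u) := by
      ext z; simp [hL, hPu, h11, show S (P z) = z from LinearMap.congr_fun hS z]
    refine ⟨L, M, h17, fun z => ?_, h8, hcy L h18 h17, h19 ▸ h15, ?_⟩
    · obtain ⟨t, ht⟩ := h18 z
      simp [ht, hf.ρs, hv]
    let x : ℕ → V := fun i =>
      if i = 1 then a • v else (if i = 0 then 1 else a) • s (((M * K) ^ (i - 1)) (ρ u))
    have h20 : ∀ z, ∃ t : F, (L * P) (s z) + g (s z) • ((L * P) v - a • v) =
        s ((M * K) z) + t • v := fun z => by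
      obtain ⟨t, ht⟩ := h18 (P (transvection g (v - u) (s z)))
      exact ⟨t, by rw [← h17]; simpa [transvection.apply, hKd, hPu] using ht⟩
    obtain ⟨t₀, ht₀⟩ := h20 (ρ u)
    rw [hsu, h3, one_smul, show (L * P) u = a • v by simp [hPu, h17], add_sub_cancel] at ht₀
    rw [det_chain b x (by simp [x, hsu]) fun i hi => ?_]
    · have := b.det_comp (transvection ((c - 1) • θ ∘ₗ ρ) (s y)) fun i => x₀ i
      rw [transvection.det, show 1 + ((c - 1) • θ ∘ₗ ρ) (s y) = c by simp [hf.ρs, h6]] at this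
      rw [← this]
      congr 1
      funext i
      simp only [x, x₀, Function.comp]
      split_ifs with h21 h22 <;> try rw [h10 _ (by omega)]
      all_goals simp [transvection.apply, hv, hf.ρs, smul_smul, mul_comm]
    have h21 : ∀ j ≤ i, x j ∈ Submodule.span F (x '' Set.Iic i) := fun j hj =>
      Submodule.subset_span ⟨j, hj, rfl⟩
    generalize Submodule.span F (x '' Set.Iic i) = U at h21
    rcases i with _ | _ | i
    · simp [x, hsu, hPu, h17]
    all_goals have h22 : v ∈ U := by simpa [x, U.smul_mem_iff ha] using h21 1 (by omega)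
    · simpa [x, ht₀, smul_smul] using U.smul_mem (a * t₀) h22
    have h23 : s ((M * K) (ρ u)) ∈ U := by simpa [x, U.smul_mem_iff ha] using h21 2 (by omega)
    obtain ⟨t, ht⟩ := h20 (((M * K) ^ (i + 1)) (ρ u))
    have h24 := U.smul_mem a (U.sub_mem (U.smul_mem t h22) (U.smul_mem
      (g (s (((M * K) ^ (i + 1)) (ρ u)))) (U.sub_mem (ht₀ ▸ U.add_mem h23 (U.smul_mem t₀ h22))
        (U.smul_mem a h22))))
    convert h24 using 1
    simp only [x, Nat.succ_ne_zero, Nat.add_sub_cancel, if_false, add_eq_right, map_smul,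
      eq_sub_of_add_eq ht, pow_succ' _ (i + 1), Module.End.mul_apply]
    module
  obtain ⟨w, cZ⟩ := cZ
  obtain ⟨L, M, h8, h9, h10, h11, h12, h13⟩ := key 1 one_ne_zero (Or.inr rfl)
  by_cases h3n : 3 ≤ finrank F V
  · have h14 := h11.det_ne b
    rw [h13, one_mul] at h14
    obtain ⟨L, M, h8, h9, h10, h11, h12, h13⟩ := key _ (div_ne_zero (cZ.det_ne b) h14)
      (Or.inl (by omega))
    have h15 := cZ.sc h11 h12.symm b (by rw [h13, div_mul_cancel₀ _ h14])
    exact ⟨L, M, h8, h9, h10, h15.sim, fun _ => h15⟩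
  · exact ⟨L, M, h8, h9, h10, sim_of_cy ⟨w, cZ⟩ ⟨u, h11⟩ h12.symm, fun h => (h3n h).elim⟩

/-- A cyclic class with a simple eigenvalue times a non-scalar element meets every cyclic class. -/
theorem tc (h4 : 4 ≤ Cardinal.mk F) {Y P Z : End F V} (hY : One Y) (cY : ∃ y, Cy Y y)
    (dY : LinearMap.det Y ≠ 0) (hP : LinearMap.det P ≠ 0) (nP : NS P) (cZ : ∃ y, Cy Z y)
    (hZ : LinearMap.det Z = LinearMap.det Y * LinearMap.det P) :
    ∃ L : End F V, Sim Y L ∧ Sim Z (L * P) ∧ (3 ≤ finrank F V → SC Z (L * P)) := by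
  obtain ⟨f, v, ρ, a, M₀, hf, h1, h2⟩ := hY.exists_fr
  have h3 : ∀ x, ρ (Y x) = M₀ (ρ x) := fun x => by
    conv_lhs => rw [← hf.dec x]
    simpa [h1, hf.ρv, h2] using hf.ρs _
  obtain ⟨w, hw⟩ := cY
  have c₀ : ∃ y, Cy M₀ y := ⟨_, hw.map ρ hf.surj h3⟩
  have h5 := (hf.sim h1 h2).det_eq
  rw [det_prodMap, LinearMap.det_smul, finrank_self, pow_one, map_one, mul_one] at h5
  have h6 : M₀.charpoly.eval a ≠ 0 := fun e => M₀.charpoly_monic.ne_zero <| hw.eq_zero (by
    rw [degree_eq_natDegree M₀.charpoly_monic.ne_zero, M₀.charpoly_natDegree, hf.finrank]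
    exact_mod_cast Nat.lt_succ_self _) (by
    have hv : v ≠ 0 := by rintro rfl; simpa using hf.fv
    rw [← hf.dec w, map_add, ← intertwine_aeval _ (fun y => (h2 y).symm), aeval_self_charpoly,
      map_smul, Module.End.aeval_apply_of_hasEigenvector
        (Module.End.hasEigenvector_iff.2 ⟨Module.End.mem_eigenspace_iff.2 h1, hv⟩), e]
    simp)
  obtain ⟨u, hu⟩ := nP.exists
  obtain ⟨f', h7, -⟩ := exists_dual hu
  obtain ⟨ρ', hf'⟩ := exists_fr h7
  obtain ⟨L, M, h8, h9, h10, h11⟩ := tc0 h4 hP hu hf'.surj hf'.ρv hf'.ker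
    (left_ne_zero_of_mul (h5 ▸ dY)) c₀ (right_ne_zero_of_mul (h5 ▸ dY))
    (by have := hf.finrank; have := hf'.finrank; omega) cZ (by rw [hZ, h5])
  obtain ⟨h12, h13⟩ := nice_ext hf' h8 h9 (Sim.cy h10.symm c₀) (h10.charpoly_eq ▸ h6)
  exact ⟨L, sim_of_cy ⟨w, hw⟩ h12 (by
    rw [h13, (nice_ext hf h1 h3 c₀ h6).2, h10.charpoly_eq]), h11⟩

variable {A P Y Z : End F V} {i j : ℕ}

omit [FiniteDimensional F V] in
theorem NS.inv {S : End F V} (h : NS A) (hS : S * A = 1) : NS S := fun c e => by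
  have h1 : c • A = 1 := by simpa [e] using hS
  rcases eq_or_ne c 0 with rfl | hc
  · exact h 0 (by rw [← one_mul A, ← h1]; simp)
  · exact h c⁻¹ (by rw [← h1, inv_smul_smul₀ hc])

theorem Pw.nice (h4 : 4 ≤ Cardinal.mk F) (h3 : 3 ≤ finrank F V) (dA : LinearMap.det A ≠ 0)
    (nA : NS A) (h : Pw A j Z) (cZ : ∃ y, Cy Z y) (hY : One Y) (cY : ∃ y, Cy Y y)
    (dY : LinearMap.det Y = LinearMap.det A ^ (j + 1)) : Pw A (j + 1) Y := by
  obtain ⟨S, h1, h2⟩ := exists_inv dA
  obtain ⟨L, h5, -, h6⟩ := tc h4 hY cY (dY ▸ pow_ne_zero _ dA) (det_ne_zero_of_mul h1) (nA.inv h1)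
    cZ (by rw [h.det, dY, pow_succ, mul_assoc, ← map_mul, h2, map_one, mul_one])
  have := (h.sc (h6 h3)).mul (Pw.one (SC.refl A))
  rw [mul_assoc, h1, mul_one] at this
  exact this.sc (hY.sc h5).symm

theorem Pw.nonscalar (h4 : 4 ≤ Cardinal.mk F) (h3 : 3 ≤ finrank F V) (dA : LinearMap.det A ≠ 0)
    (h : Pw A i Y) (hY : One Y) (cY : ∃ y, Cy Y y) (h' : Pw A j Z) (cZ : ∃ y, Cy Z y) (nP : NS P)
    (dP : LinearMap.det P = LinearMap.det A ^ (i + j)) : Pw A (i + j) P := by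
  obtain ⟨S, h1, h2⟩ := exists_inv (h.det ▸ pow_ne_zero _ dA : LinearMap.det Y ≠ 0)
  obtain ⟨y, cY⟩ := cY
  obtain ⟨L, h5, -, h6⟩ := tc h4 (hY.inv h1 h2) ⟨y, cY.inv h2⟩ (det_ne_zero_of_mul h1)
    (dP ▸ pow_ne_zero _ dA) nP cZ (by
      rw [h'.det, dP, pow_add, ← h.det, ← mul_assoc, ← map_mul, h1, map_one, one_mul])
  obtain ⟨S', h7, h8⟩ := exists_inv (h5.det_eq ▸ det_ne_zero_of_mul h1 : LinearMap.det L ≠ 0)
  have := (h.sc (hY.sc (Sim.inv h5 h1 h7))).mul (h'.sc (h6 h3))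
  rwa [← mul_assoc, h7, one_mul] at this

theorem dd_X_pow_sub {n : ℕ} (hn : n ≠ 0) (d : F) : Ore.dd (X ^ n - C d) = (-1) ^ (n + 1) * d := by
  simp [Ore.dd, hn.symm, pow_succ, coeff_X_pow]

/-- Scalars, via `(L A) ^ n = ∏ Lⁱ A L⁻ⁱ · Lⁿ`. -/
theorem pw_scalar (h4 : 4 ≤ Cardinal.mk F) (h3 : 3 ≤ finrank F V) (dA : LinearMap.det A ≠ 0)
    (nA : NS A) (h : Odd (finrank F V) ∨ One A) : ∃ c : F, Pw A (finrank F V) (c • 1) := by
  obtain ⟨u, hu⟩ := nA.exists
  obtain ⟨f, h1, -⟩ := exists_dual hu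
  obtain ⟨ρ, hf⟩ := exists_fr h1
  have hn := hf.finrank
  generalize hn' : finrank F V = n at *
  have h2 : (X - C 1) * ∑ i ∈ Finset.range n, (X : F[X]) ^ i = X ^ n - C 1 := by
    rw [map_one, mul_geom_sum]
  have h5 : (∑ i ∈ Finset.range n, (X : F[X]) ^ i).Monic := monic_geom_sum_X (by omega)
  obtain ⟨M₀, c₀, h6⟩ := exists_cy (V := ker f) h5 (by
    have := congrArg natDegree h2
    rw [(monic_X_sub_C 1).natDegree_mul h5, natDegree_X_sub_C, natDegree_X_pow_sub_C] at this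
    omega)
  obtain ⟨Z, cZ, h7⟩ := exists_cy (V := V) (monic_X_pow_sub_C (LinearMap.det A) (by omega : n ≠ 0))
    (by rw [natDegree_X_pow_sub_C, hn'])
  have h8 : LinearMap.det M₀ = (-1) ^ (n + 1) := by
    have := congrArg Ore.dd h2
    rwa [Ore.dd_mul (X_sub_C_ne_zero 1) h5.ne_zero, Ore.dd_X_sub_C, dd_X_pow_sub (by omega),
      one_mul, mul_one, ← h6, ← det_eq_dd] at this
  have h9 : LinearMap.det Z = (-1) ^ (n + 1) * LinearMap.det A := by
    rw [det_eq_dd, h7, dd_X_pow_sub (by omega)]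
  obtain ⟨L, M, h10, h11, h12, h13, -⟩ := tc0 h4 dA hu hf.surj hf.ρv hf.ker one_ne_zero c₀
    (by simp [h8]) rfl cZ (by rw [h9, h8, one_mul])
  have h14 : L ^ n = 1 := by
    have := aeval_ext hf.ker h10 h11 M.aeval_self_charpoly
    rw [h12.charpoly_eq, h6, h2] at this
    simpa [sub_eq_zero] using this
  have h15 : (L * A) ^ n = LinearMap.det A • 1 := by
    have := (L * A).aeval_self_charpoly
    rw [← h13.charpoly_eq, h7] at this
    simpa [sub_eq_zero, Algebra.algebraMap_eq_smul_one] using this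
  have h16 : LinearMap.det L = (-1) ^ (n + 1) :=
    mul_right_cancel₀ dA (by rw [← map_mul, ← h13.det_eq, h9])
  have key : ∀ k, ∃ Q, Pw A k Q ∧ (L * A) ^ k = Q * L ^ k := fun k => by
    induction k with
    | zero => exact ⟨1, Pw.zero, by simp⟩
    | succ k ih =>
      obtain ⟨Q, h17, h18⟩ := ih
      obtain ⟨S, h19, h20⟩ := exists_inv (A := L ^ (k + 1)) (by simp [h16])
      have h21 : L ^ (k + 1) * A = L ^ (k + 1) * A * S * L ^ (k + 1) := by
        rw [mul_assoc _ S, h19, mul_one]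
      refine ⟨Q * (L ^ (k + 1) * A * S), h17.mul (Pw.one ?_), by
        rw [mul_assoc Q, ← h21, pow_succ, h18, pow_succ]; simp [mul_assoc]⟩
      rcases h with h | h
      · exact ⟨_, by rw [map_pow, h16, h.add_one.neg_one_pow, one_pow], h21⟩
      · exact h.sc ⟨LinearEquiv.ofLinearMap _ S h20 h19, LinearMap.congr_fun h21⟩
  obtain ⟨Q, h17, h18⟩ := key n
  rw [h15, h14, mul_one] at h18
  exact ⟨_, h18 ▸ h17⟩

end Cfsg.Agent.Cl.CN
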