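import Mathlib
import Cfsg.Agent.Cl.CovNB

/-! Products of `n` conjugates of a transvection or a dilatation. -/

set_option autoImplicit false

namespace Cfsg.Agent.Cl.CN

open Module Polynomial Cls LinearMap

variable {F : Type*} [Field F] {V W V' W' : Type*} [AddCommGroup V] [Module F V] [AddCommGroup W]
  [Module F W] [AddCommGroup V'] [Module F V'] [AddCommGroup W'] [Module F W']

theorem Fr.equiv {v : V} {f : Dual F V} {ρ : V →ₗ[F] W} {s : W →ₗ[F] V} (h : Fr v f ρ s)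
    {v' : V'} {f' : Dual F V'} {ρ' : V' →ₗ[F] W'} {s' : W' →ₗ[F] V'} (h' : Fr v' f' ρ' s')
    (k : W ≃ₗ[F] W') : ∃ e : V ≃ₗ[F] V', ∀ x, e x = s' (k (ρ x)) + f x • v' :=
  ⟨LinearEquiv.ofLinearMap (s' ∘ₗ k ∘ₗ ρ + f.smulRight v') (s ∘ₗ k.symm ∘ₗ ρ' + f'.smulRight v)
    (LinearMap.ext fun x => by simpa [h.ρs, h.ρv, h.fs, h.fv] using h'.dec x)
    (LinearMap.ext fun x => by simpa [h'.ρs, h'.ρv, h'.fs, h'.fv] using h.dec x), fun _ => rfl⟩

theorem exists_equiv [FiniteDimensional F V] [FiniteDimensional F V']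
    (hd : finrank F V = finrank F V') {a : V} {a' : V'} (h : a = 0 ↔ a' = 0) :
    ∃ e : V ≃ₗ[F] V', e a = a' := by
  by_cases ha : a = 0
  · exact ⟨LinearEquiv.ofFinrankEq _ _ hd, by simp [ha, h.1 ha]⟩
  obtain ⟨f, h1, -⟩ := exists_dual (p := (⊥ : Submodule F V)) (x := a) (by simpa)
  obtain ⟨f', h2, -⟩ := exists_dual (p := (⊥ : Submodule F V')) (x := a') (by simpa [← h])
  obtain ⟨ρ, h3⟩ := exists_fr h1
  obtain ⟨ρ', h4⟩ := exists_fr h2
  obtain ⟨e, he⟩ := h3.equiv h4 (LinearEquiv.ofFinrankEq _ _ (by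
    have := h3.finrank; have := h4.finrank; omega))
  exact ⟨e, by simp [he, h3.ρv, h1]⟩

omit [Field F] in
theorem pick (h4 : 4 ≤ Cardinal.mk F) {p q r : F → Prop} (hp : ∀ s t, p s → p t → s = t)
    (hq : ∀ s t, q s → q t → s = t) (hr : ∀ s t, r s → r t → s = t) :
    ∃ t, ¬ p t ∧ ¬ q t ∧ ¬ r t := by
  classical
  by_contra! h
  have := Cardinal.mk_le_of_injective (f := fun t : F => ULift.up
    (if p t then (0 : Fin 3) else if q t then 1 else 2)) fun s t e => by
      simp only [ULift.up.injEq] at e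
      split_ifs at e <;> first | exact hp _ _ ‹_› ‹_› | exact hq _ _ ‹_› ‹_› | contradiction |
        exact hr _ _ (h _ ‹_› ‹_›) (h _ ‹_› ‹_›)
  simp only [Cardinal.mk_fintype, Fintype.card_ulift, Fintype.card_fin] at this
  exact absurd (h4.trans this) (by norm_num)

omit [Field F] in
theorem pick' (h4 : 4 ≤ Cardinal.mk F) (a b c : F) : ∃ t, t ≠ a ∧ t ≠ b ∧ t ≠ c :=
  pick h4 (fun _ _ h h' => h.trans h'.symm) (fun _ _ h h' => h.trans h'.symm)
    fun _ _ h h' => h.trans h'.symm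

theorem exists_mem_notMem {U U' : Submodule F V} [FiniteDimensional F U']
    (h : finrank F U' < finrank F U) : ∃ x ∈ U, x ∉ U' := by
  by_contra! h1
  exact absurd (Submodule.finrank_mono (show U ≤ U' from h1)) (by omega)

/-- Transvections (`δ = 1`) and dilatations of determinant `δ`. -/
def R1 (δ : F) (B : End F V) : Prop :=
  ∃ (c : V) (φ : Dual F V), c ≠ 0 ∧ φ ≠ 0 ∧ φ c = δ - 1 ∧ B = transvection φ c

variable [FiniteDimensional F V] {δ : F} {A B P : End F V}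

theorem R1.one (h : R1 δ B) (h3 : 3 ≤ finrank F V) : One B := by
  obtain ⟨c, φ, -, -, -, rfl⟩ := h
  obtain ⟨v, h1, h2⟩ := exists_mem_notMem (U := ker φ) (U' := F ∙ c) (by
    have := Lev.finrank_span_le_one (K := F) c
    have := φ.finrank_range_add_finrank_ker
    have := (Submodule.finrank_le (range φ)).trans (finrank_self F).le
    omega)
  obtain ⟨f, h4, h5⟩ := exists_dual h2
  exact ⟨v, f, 1, by simp [transvection.apply, mem_ker.1 h1], fun x => by
    simp [transvection.apply, h5 c (Submodule.mem_span_singleton_self c)], h4⟩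

theorem R1.sim (h : R1 δ A) (h' : R1 δ B) : Sim A B := by
  have key : ∀ {c : V} {φ : Dual F V}, c ≠ 0 → φ ≠ 0 → φ c = δ - 1 → ∃ (x : V) (ρ : V →ₗ[F] ker φ),
      Fr x φ ρ (ker φ).subtype ∧ (ρ c = 0 ↔ δ ≠ 1) := fun {c φ} h1 h2 h3 => by
    by_cases hδ : δ = 1
    · obtain ⟨x, hx⟩ := DFunLike.ne_iff.1 h2
      obtain ⟨ρ, h⟩ := exists_fr (v := (φ x)⁻¹ • x) (f := φ) (by simpa using inv_mul_cancel₀ hx)
      exact ⟨_, ρ, h, iff_of_false (fun e => h1 (by simpa [e, h3, hδ] using (h.dec c).symm))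
        (by simpa)⟩
    · have h5 := sub_ne_zero.2 hδ
      obtain ⟨ρ, h⟩ := exists_fr (v := (δ - 1)⁻¹ • c) (f := φ) (by simp [h3, h5])
      exact ⟨_, ρ, h, iff_of_true (by simpa [h5] using h.ρv) hδ⟩
  obtain ⟨c, φ, h1, h2, h3, rfl⟩ := h
  obtain ⟨c', φ', h1', h2', h3', rfl⟩ := h'
  obtain ⟨x, ρ, h, h4⟩ := key h1 h2 h3
  obtain ⟨x', ρ', h', h4'⟩ := key h1' h2' h3'
  obtain ⟨k, hk⟩ := exists_equiv (F := F) (by have := h.finrank; have := h'.finrank; omega)
    (h4.trans h4'.symm)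
  obtain ⟨e, he⟩ := h.equiv h' k
  have h5 : e c = c' := by rw [he, hk, h3, ← h3', h'.dec]
  refine ⟨e, fun y => ?_⟩
  have h6 : φ' (e y) = φ y := by rw [he, map_add, h'.fs, map_smul, h'.fv]; simp
  simp [transvection.apply, h5, h6]

theorem R1.det (h : R1 δ B) : LinearMap.det B = δ := by
  obtain ⟨c, φ, -, -, h, rfl⟩ := h
  simp [h]

omit [FiniteDimensional F V] in
theorem rk_tv (φ : Dual F V) (c : V) : finrank F (range (transvection φ c - 1)) ≤ 1 :=
  (Submodule.finrank_mono (t := F ∙ c) (by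
    rintro _ ⟨x, rfl⟩
    simpa [transvection.apply] using Submodule.smul_mem _ _ (Submodule.mem_span_singleton_self c))).trans
    (Lev.finrank_span_le_one c)

theorem r1_of_rk (h : finrank F (range (P - 1)) = 1) : R1 (LinearMap.det P) P := by
  obtain ⟨c, h1, h2⟩ := finrank_eq_one_iff'.1 h
  have h3 : (c : V) ≠ 0 := fun e => h1 (Subtype.ext e)
  obtain ⟨g, h4, -⟩ := exists_dual (p := (⊥ : Submodule F V)) (x := c) (by simpa)
  have h5 : P = transvection (g ∘ₗ (P - 1)) (c : V) := LinearMap.ext fun x => by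
    obtain ⟨t, ht⟩ := h2 ⟨(P - 1) x, x, rfl⟩
    have h6 : t • (c : V) = P x - x := congrArg Subtype.val ht
    simp [transvection.apply, h4, sub_eq_iff_eq_add'.1 h6.symm]
  refine ⟨c, _, h3, fun e => ?_, by rw [congrArg LinearMap.det h5]; simp, h5⟩
  obtain ⟨x, hx⟩ := c.2
  simpa [hx, h4] using LinearMap.congr_fun e x

/-- Non-scalar on the image of `P - 1`. -/
def NSK (P : End F V) : Prop := ∀ μ : F, ∃ y ∈ range (P - 1), P y ≠ μ • y

/-- The inductive hypothesis on `P`. -/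
def Gd (k : ℕ) (P : End F V) : Prop :=
  finrank F (range (P - 1)) ≤ k ∧ (finrank F (range (P - 1)) = k → k = 1 ∨ NSK P) ∧ (k = 1 → P ≠ 1)

omit [FiniteDimensional F V] in
theorem tv_inv (hδ : δ ≠ 0) {c : V} {φ : Dual F V} (h : φ c = δ - 1) :
    transvection φ c * transvection (-δ⁻¹ • φ) c = 1 := by
  ext x
  simp only [Module.End.mul_apply, transvection.apply, map_add, map_smul, h, add_assoc,
    smul_add, smul_smul, ← add_smul, LinearMap.smul_apply, smul_eq_mul, Module.End.one_apply]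
  rw [show φ x + (-δ⁻¹ * φ x + -δ⁻¹ * φ x * (δ - 1)) = 0 by field_simp; ring, zero_smul, add_zero]

theorem step_top (hδ : δ ≠ 0) (hP : LinearMap.det P ≠ 0) {k : ℕ} (hk : 1 ≤ k)
    (h : finrank F (range (P - 1)) = k + 1) (h' : NSK P) :
    ∃ B Q, R1 δ B ∧ P = B * Q ∧ Gd k Q := by
  have hI : ∀ y ∈ range (P - 1), P y ∈ range (P - 1) := by
    rintro _ ⟨x, rfl⟩; exact ⟨P x, by simp⟩
  obtain ⟨⟨_, v, rfl⟩, hc⟩ := NS.exists (A := P.restrict hI) fun μ e => by
    obtain ⟨y, h1, h2⟩ := h' μ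
    exact h2 (congrArg Subtype.val (LinearMap.congr_fun e ⟨y, h1⟩))
  obtain ⟨c, hcv⟩ : ∃ c, (P - 1) v = c := ⟨_, rfl⟩
  have h1 : P c - c ∉ F ∙ c := fun e => hc (by
    obtain ⟨t, ht⟩ := Submodule.mem_span_singleton.1 e
    exact Submodule.mem_span_singleton.2 ⟨t + 1, Subtype.ext (by
      simp only [SetLike.mk_smul_mk, coe_restrict_apply, hcv, add_smul, ht]; simp)⟩)
  have h0 : c ≠ 0 := by rintro rfl; simp at h1
  obtain ⟨f, h2, h3⟩ := exists_dual h1
  obtain ⟨g, h4, h5⟩ := exists_dual (notMem_span_symm h0 h1)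
  replace h3 := h3 c (Submodule.mem_span_singleton_self _)
  replace h5 := h5 _ (Submodule.mem_span_singleton_self _)
  have key : ∀ l : Dual F V, l c = 1 → l (P c - c) = δ - 1 → (k = 1 ∨ ∀ μ : F, ∃ y ∈ range (P - 1),
      P y - (δ⁻¹ * l (P y)) • (P c - c) - μ • y ∉ F ∙ c) → ∃ B Q, R1 δ B ∧ P = B * Q ∧ Gd k Q :=
    fun l h6 h7 h8 => by
    have h9 := tv_inv (φ := l ∘ₗ (P - 1)) hδ h7
    obtain ⟨S, hS⟩ : ∃ S, S = transvection (-δ⁻¹ • l ∘ₗ (P - 1)) c := ⟨_, rfl⟩
    rw [← hS] at h9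
    have h10 : ∀ x, (S * P - 1) x = S ((P - 1) x - l ((P - 1) x) • c) := fun x => by
      have := LinearMap.congr_fun (mul_eq_one_comm.1 h9) x
      simp only [Module.End.mul_apply, transvection.apply, Module.End.one_apply] at this
      rw [LinearMap.sub_apply, Module.End.one_apply]
      nth_rw 2 [← this]
      rw [Module.End.mul_apply, ← map_sub]
      simp [sub_sub]
    refine ⟨_, S * P, ⟨c, l ∘ₗ (P - 1), h0, fun e => by
      simpa only [comp_apply, hcv, h6, LinearMap.zero_apply, one_ne_zero]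
        using LinearMap.congr_fun e v, h7, rfl⟩, by rw [← mul_assoc, h9, one_mul], ?_, fun _ => h8.imp_right fun h8 μ => ?_,
      fun _ e => ?_⟩
    · have h11 : range (S * P - 1) ≤ (range (P - 1) ⊓ ker l).map S := by
        rintro _ ⟨x, rfl⟩
        exact ⟨_, ⟨Submodule.sub_mem _ ⟨x, rfl⟩ (Submodule.smul_mem _ _ ⟨v, hcv⟩), by simp [h6]⟩,
          (h10 x).symm⟩
      have h12 := Submodule.finrank_lt_finrank_of_lt (s := range (P - 1) ⊓ ker l)
        (t := range (P - 1)) (lt_of_le_of_ne inf_le_left fun e => by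
          simpa [h6] using (e.ge ⟨v, hcv⟩).2)
      have := (Submodule.finrank_mono h11).trans (Submodule.finrank_map_le _ _)
      omega
    · obtain ⟨_, ⟨x, rfl⟩, h11⟩ := h8 μ
      refine ⟨_, ⟨x, rfl⟩, fun e => h11 ?_⟩
      have h12 : (S * P - 1) ((S * P) x - μ • x) = 0 := by
        rw [map_sub, map_smul, ← e]; simp
      rw [h10] at h12
      have h13 := sub_eq_zero.1 (inj_of_det (det_ne_zero_of_mul (mul_eq_one_comm.1 h9)) h12)
      refine Submodule.mem_span_singleton.2 ⟨_, h13.symm.trans ?_⟩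
      simp [hS, transvection.apply]
      module
    · have := rk_tv (l ∘ₗ (P - 1)) c
      rw [show transvection (l ∘ₗ (P - 1)) c = P from
        calc _ = transvection (l ∘ₗ (P - 1)) c * (S * P) := by rw [e, mul_one]
          _ = P := by rw [← mul_assoc, h9, one_mul]] at this
      omega
  have h18 : (g + (δ - 1) • f) (P c - c) = δ - 1 := by
    simp only [LinearMap.add_apply, LinearMap.smul_apply, h2, h5]
    simp
  rcases hk.eq_or_lt with rfl | hk
  · exact key (g + (δ - 1) • f) (by simp [h3, h4]) h18 (Or.inl rfl)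
  obtain ⟨y₀, h6, h7⟩ := exists_mem_notMem (U := range (P - 1))
    (U' := Submodule.span F {c, P c - c}) (by
      classical
      have := finrank_span_finset_le_card (R := F) ({c, P c - c} : Finset V)
      rw [Set.finrank, Finset.coe_pair] at this
      have := Finset.card_le_two (a := c) (b := P c - c)
      omega)
  obtain ⟨ψ, h8, h9⟩ := exists_dual h7
  have h10 := h9 c (Submodule.subset_span (by simp))
  have h11 := h9 (P c - c) (Submodule.subset_span (by simp))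
  by_contra hcon
  have h12 := fun l a b => not_or.1 (mt (key l a b) hcon)
  obtain ⟨μ, hμ⟩ := not_forall.1 (h12 (g + (δ - 1) • f) (by simp [h3, h4]) h18).2
  obtain ⟨μ', hμ'⟩ := not_forall.1 (h12 (g + (δ - 1) • f + ψ) (by simp [h3, h4, h10]) (by
    rw [LinearMap.add_apply, h18, h11, add_zero])).2
  push Not at hμ hμ'
  have h13 : ∀ y ∈ range (P - 1), ∃ t : F,
      t • c = (δ⁻¹ * ψ (P y)) • (P c - c) + (μ' - μ) • y := fun y hy => by
    obtain ⟨t, ht⟩ := Submodule.mem_span_singleton.1 (Submodule.sub_mem _ (hμ y hy) (hμ' y hy))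
    exact ⟨t, by rw [ht, LinearMap.add_apply _ ψ]; module⟩
  have h14 : μ' - μ = 0 := by
    obtain ⟨t, ht⟩ := h13 y₀ h6
    simpa only [map_add, map_smul, h8, h10, h11, smul_eq_mul, mul_zero, mul_one, zero_add]
      using (congrArg ψ ht).symm
  obtain ⟨S, h15, h16⟩ := exists_inv hP
  obtain ⟨x, rfl⟩ := h6
  obtain ⟨t, ht⟩ := h13 _ ⟨S x, rfl⟩
  have h17 : P ((P - 1) (S x)) = (P - 1) x := by
    simp [show P (S x) = x from LinearMap.congr_fun h16 x]
  have := congrArg f ht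
  simp only [h14, h17, h8, map_add, map_smul, h2, h3, smul_eq_mul] at this
  simp [hδ.symm] at this

theorem step_low (h4 : 4 ≤ Cardinal.mk F) (hδ : δ ≠ 0) (hA : R1 δ A) (h2 : 2 ≤ finrank F V)
    (hP : LinearMap.det P ≠ 0) {k : ℕ} (hk : 1 ≤ k) (h : finrank F (range (P - 1)) ≤ k) :
    ∃ B Q, R1 δ B ∧ P = B * Q ∧ Gd k Q := by
  by_cases h0 : P = 1
  · obtain ⟨c, φ, h1, h3, h5, rfl⟩ := hA
    have := rk_tv (-δ⁻¹ • φ) c
    refine ⟨_, _, ⟨c, φ, h1, h3, h5, rfl⟩, h0.trans (tv_inv hδ h5).symm, by omega,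
      fun _ => Or.inl (by omega), fun _ e => h3 (LinearMap.ext fun x => ?_)⟩
    simpa [transvection.apply, h1, hδ] using LinearMap.congr_fun e x
  obtain ⟨v, hv⟩ := DFunLike.ne_iff.1 (sub_ne_zero.2 h0)
  obtain ⟨c, hcv⟩ : ∃ c, (P - 1) v = c := ⟨_, rfl⟩
  have h1 : c ≠ 0 := hcv ▸ hv
  obtain ⟨y₀, h3, h5⟩ : ∃ y₀, y₀ ∉ F ∙ c ∧ (2 ≤ finrank F (range (P - 1)) → y₀ ∈ range (P - 1)) := by
    have := Lev.finrank_span_le_one (K := F) c
    by_cases h : 2 ≤ finrank F (range (P - 1))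
    · obtain ⟨y, h3, h5⟩ := exists_mem_notMem (U := range (P - 1)) (U' := F ∙ c) (by omega)
      exact ⟨y, h5, fun _ => h3⟩
    · obtain ⟨y, -, h5⟩ := exists_mem_notMem (U := ⊤) (U' := F ∙ c) (by rw [finrank_top]; omega)
      exact ⟨y, h5, fun e => (h e).elim⟩
  obtain ⟨ψ, h6, h7⟩ := exists_dual h3
  replace h7 := h7 c (Submodule.mem_span_singleton_self _)
  obtain ⟨g, h8, -⟩ := exists_dual (p := (⊥ : Submodule F V)) (x := c) (by simpa)
  obtain ⟨S, h9, h10⟩ := exists_inv hP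
  obtain ⟨t, h11, h12, h13⟩ := pick h4 (p := fun t => (δ - 1) • g + t • ψ = 0)
    (q := fun t => transvection ((δ - 1) • g + t • ψ) c = P)
    (r := fun t => 2 ≤ finrank F (range (P - 1)) ∧ ∃ μ : F, ∀ y ∈ range (P - 1),
      transvection (-δ⁻¹ • ((δ - 1) • g + t • ψ)) c (P y) = μ • y)
    (fun s t e e' => by simpa [h6] using LinearMap.congr_fun (e.trans e'.symm) y₀)
    (fun s t e e' => by
      simpa [transvection.apply, h6, smul_left_inj h1] using LinearMap.congr_fun (e.trans e'.symm) y₀)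
    (fun s t ⟨e, μ, hμ⟩ ⟨_, μ', hμ'⟩ => by
      have h11 : ∀ y ∈ range (P - 1), (δ⁻¹ * (t - s) * ψ (P y)) • c = (μ - μ') • y := fun y hy => by
        rw [sub_smul, ← hμ y hy, ← hμ' y hy]
        simp [transvection.apply]
        module
      have h12 : μ - μ' = 0 := by simpa [h6, h7] using (congrArg ψ (h11 y₀ (h5 e))).symm
      obtain ⟨x, rfl⟩ := h5 e
      have := h11 _ ⟨S x, rfl⟩
      rw [show P ((P - 1) (S x)) = (P - 1) x by
        simp [show P (S x) = x from LinearMap.congr_fun h10 x], h6, h12] at this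
      simpa [h1, hδ, sub_eq_zero, eq_comm] using this)
  have h14 : ((δ - 1) • g + t • ψ) c = δ - 1 := by simp [h7, h8]
  have h15 := tv_inv hδ h14
  have h16 : range (transvection (-δ⁻¹ • ((δ - 1) • g + t • ψ)) c * P - 1) ≤ range (P - 1) := by
    rintro _ ⟨x, rfl⟩
    rw [LinearMap.sub_apply, Module.End.mul_apply, transvection.apply, add_sub_right_comm]
    exact Submodule.add_mem _ ⟨x, rfl⟩ (Submodule.smul_mem _ _ ⟨v, hcv⟩)
  have h17 := Submodule.finrank_mono h16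
  refine ⟨_, transvection (-δ⁻¹ • ((δ - 1) • g + t • ψ)) c * P, ⟨c, _, h1, h11, h14, rfl⟩,
    by rw [← mul_assoc, h15, one_mul], by omega, fun e => or_iff_not_imp_left.2 fun e' μ => ?_,
    fun _ e => h12 (by
      have := (mul_assoc _ _ P).symm.trans (congrArg (· * P) h15)
      rwa [e, mul_one, one_mul] at this)⟩
  rw [Submodule.eq_of_le_of_finrank_le h16 (by omega)]
  by_contra! h18
  exact h13 ⟨by omega, μ, h18⟩

theorem R1.pw (h4 : 4 ≤ Cardinal.mk F) (h3 : 3 ≤ finrank F V) (hδ : δ ≠ 0) (hA : R1 δ A) (k : ℕ) :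
    ∀ P : End F V, LinearMap.det P = δ ^ (k + 1) → Gd (k + 1) P → Pw A (k + 1) P := by
  induction k with
  | zero =>
    intro P h1 ⟨h2, _, h5⟩
    have h6 : finrank F (range (P - 1)) ≠ 0 := fun e => h5 rfl <| sub_eq_zero.1 <|
      range_eq_bot.1 (Submodule.finrank_eq_zero.1 e)
    have := r1_of_rk (P := P) (by omega)
    rw [h1, zero_add, pow_one] at this
    exact Pw.one ((hA.one h3).sc (hA.sim this))
  | succ k ih =>
    intro P h1 ⟨h2, h5, _⟩
    have hP : LinearMap.det P ≠ 0 := h1 ▸ pow_ne_zero _ hδ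
    obtain ⟨B, Q, h6, rfl, h7⟩ : ∃ B Q, R1 δ B ∧ P = B * Q ∧ Gd (k + 1) Q := by
      rcases h2.eq_or_lt with e | e
      · exact step_top hδ hP (by omega) e ((h5 e).resolve_left (by omega))
      · exact step_low h4 hδ hA (by omega) hP (by omega) (by omega)
    rw [map_mul, h6.det, pow_succ'] at h1
    exact Pw.succ ((hA.one h3).sc (hA.sim h6)) (ih Q (mul_left_cancel₀ hδ h1) h7)

theorem rank_one (h4 : 4 ≤ Cardinal.mk F) (h3 : 3 ≤ finrank F V) (dA : LinearMap.det A ≠ 0)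
    (nA : NS A) {a : F} (h : finrank F (range (A - a • 1)) ≤ 1) : One A ∧ ∀ P, NS P →
      LinearMap.det P = LinearMap.det A ^ finrank F V → Pw A (finrank F V) P := by
  have ha : a ≠ 0 := by
    rintro rfl
    rw [zero_smul, sub_zero, range_eq_top.2 ((Module.End.isUnit_iff _).1
      ((isUnit_iff_isUnit_det _).2 dA.isUnit)).2, finrank_top] at h
    omega
  have h1 : R1 (LinearMap.det (a⁻¹ • A)) (a⁻¹ • A) := r1_of_rk (by
    rw [show a⁻¹ • A - 1 = a⁻¹ • (A - a • 1) by rw [smul_sub, inv_smul_smul₀ ha],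
      range_smul _ _ (inv_ne_zero ha)]
    have : finrank F (range (A - a • 1)) ≠ 0 := fun e => nA a <| sub_eq_zero.1 <|
      range_eq_bot.1 (Submodule.finrank_eq_zero.1 e)
    omega)
  refine ⟨?_, fun P nP dP => ?_⟩
  · obtain ⟨v, f, b, h5, h6, h7⟩ := h1.one h3
    refine ⟨v, f, a * b, by rw [mul_smul, ← h5]; simp [ha], fun x => ?_, h7⟩
    rw [mul_assoc, ← h6]; simp [ha]
  obtain ⟨n, hn⟩ : ∃ n, finrank F V = n + 1 := ⟨finrank F V - 1, by omega⟩
  have h5 := (h1.pw h4 h3 (by simp [ha, dA]) n ((a ^ (n + 1))⁻¹ • P) (by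
    simp [dP, hn, mul_pow]) ⟨(Submodule.finrank_le _).trans hn.le, fun e => Or.inr fun μ => ?_,
      by omega⟩).smul a
  · rwa [smul_inv_smul₀ ha, smul_inv_smul₀ (pow_ne_zero _ ha), ← hn] at h5
  rw [Submodule.eq_top_of_finrank_eq (e.trans hn.symm)]
  by_contra! h6
  exact nP (a ^ (n + 1) * μ) (LinearMap.ext fun x => by
    rw [LinearMap.smul_apply, mul_smul, Module.End.one_apply, ← h6 x trivial]; simp [ha])

end Cfsg.Agent.Cl.CN
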