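import Mathlib
import Cfsg.Agent.Cl.CovNC

/-! Subspaces `L` with `L ∩ A L = 0`; removing two Jordan blocks of size one. -/

set_option autoImplicit false

namespace Cfsg.Agent.Cl.CN

open Module Polynomial Cls LinearMap

variable {F : Type*} [Field F] {V W W₀ : Type*} [AddCommGroup V] [Module F V] [AddCommGroup W]
  [Module F W] [AddCommGroup W₀] [Module F W₀]

section Free

/-- `L ∩ A L = 0`, with `A` injective on `L`. -/
def Fe (A : End F V) (L : Submodule F V) : Prop := ∀ z ∈ L, A z ∈ L → z = 0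

variable {A : End F V} {L : Submodule F V}

theorem Fe.shift (h : Fe A L) (a : F) : Fe (A - a • 1) L := fun z hz h1 =>
  h z hz (by simpa using L.add_mem h1 (L.smul_mem a hz))

theorem Fe.four (h : Fe A L) (h2 : finrank F L = 2) :
    ∃ x y, LinearIndependent F ![x, A x, y, A y] := by
  have : FiniteDimensional F L := finite_of_finrank_eq_succ h2
  let b := Module.finBasisOfFinrankEq F L h2
  have h1 : ∀ s t : F, s • (b 0 : V) + t • (b 1 : V) = 0 → s = 0 ∧ t = 0 := fun s t e => by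
    have := Fintype.linearIndependent_iff.1 b.linearIndependent ![s, t]
      (Subtype.ext (by simpa [Fin.sum_univ_two] using e))
    exact ⟨this 0, this 1⟩
  refine ⟨b 0, b 1, Fintype.linearIndependent_iff.2 fun c hc => ?_⟩
  simp only [Fin.sum_univ_four, Matrix.cons_val] at hc
  have hm : ∀ s t : F, s • (b 0 : V) + t • (b 1 : V) ∈ L := fun s t =>
    L.add_mem (L.smul_mem _ (b 0).2) (L.smul_mem _ (b 1).2)
  obtain ⟨h3, h4⟩ := h1 _ _ (h _ (hm (c 1) (c 3)) (by
    convert hm (-c 0) (-c 2) using 1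
    rw [map_add, map_smul, map_smul]
    linear_combination (norm := module) hc))
  obtain ⟨h5, h6⟩ := h1 (c 0) (c 2) (by simpa [h3, h4] using hc)
  intro i
  fin_cases i <;> assumption

variable [FiniteDimensional F V]

theorem Fe.finrank_sup (h : Fe A L) : finrank F ↥(L ⊔ L.map A) = 2 * finrank F L := by
  have h1 := Submodule.finrank_sup_add_finrank_inf_eq L (L.map A)
  have h2 : L ⊓ L.map A = ⊥ := eq_bot_iff.2 <| by
    rintro _ ⟨h2, z, h3, rfl⟩
    simp [h z h3 h2]
  have h3 := (A.domRestrict L).finrank_range_add_finrank_ker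
  rw [range_domRestrict, ker_eq_bot'.2 fun z hz => Subtype.ext (h z z.2 (by
    rw [show A z = 0 from hz]; exact L.zero_mem))] at h3
  rw [h2] at h1
  simp only [finrank_bot] at h1 h3
  omega

theorem Fe.exchange (h : Fe A L) (h1 : range A ≤ L ⊔ L.map A)
    (h2 : finrank F L < finrank F (range A)) (h3 : 2 * finrank F L + 2 ≤ finrank F V) :
    ∃ L' : Submodule F V, Fe A L' ∧ finrank F L' = finrank F L + 1 := by
  have hW := h.finrank_sup
  set U := L ⊔ L.map A with hU
  have h4 : ∀ U' : Submodule F V, L ≤ U' → finrank F U' < finrank F V → ∃ x, A x ∈ L ∧ x ∉ U' :=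
    fun U' h4 h5 => by
    obtain ⟨v, -, hv⟩ := exists_mem_notMem (U := ⊤) (U' := U') (by rwa [finrank_top])
    obtain ⟨a, ha, _, ⟨b, hb, rfl⟩, e⟩ := Submodule.mem_sup.1 (h1 ⟨v, rfl⟩)
    exact ⟨v - b, by simpa [← e], fun h6 => hv (by simpa using U'.add_mem h6 (h4 hb))⟩
  obtain ⟨x, hx, hxU, hx0⟩ : ∃ x, A x ∈ L ∧ x ∉ U ∧ A x ≠ 0 := by
    obtain ⟨x, h5, h6⟩ := h4 U le_sup_left (by omega)
    obtain ⟨_, ⟨v, rfl⟩, h7⟩ := exists_mem_notMem (U := range A) (U' := L.map A)
      ((Submodule.finrank_map_le _ _).trans_lt h2)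
    obtain ⟨a, ha, _, ⟨b, hb, rfl⟩, e⟩ := Submodule.mem_sup.1 (h1 ⟨v, rfl⟩)
    have h8 : A (v - b) = a := by simp [← e]
    have h9 : a ≠ 0 := by rintro rfl; exact h7 ⟨b, hb, by simpa using e⟩
    by_cases h10 : A x = 0
    · by_cases h11 : v - b ∈ U
      · exact ⟨x + (v - b), by simpa only [map_add, h10, h8, zero_add],
          fun h12 => h6 (by simpa using U.sub_mem h12 h11), by simpa only [map_add, h10, h8, zero_add]⟩
      · exact ⟨v - b, h8 ▸ ha, h11, h8 ▸ h9⟩
    · exact ⟨x, h5, h6, h10⟩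
  obtain ⟨y, hy, hyU⟩ := h4 (U ⊔ F ∙ x) (le_sup_of_le_left le_sup_left) (by
    rw [Submodule.finrank_sup_span_singleton hxU]; omega)
  obtain ⟨f, h5, -⟩ := exists_dual (p := (⊥ : Submodule F V)) (x := A x) (by simpa)
  have hLU : ∀ z ∈ L, z ∈ U := fun z hz => Submodule.mem_sup_left hz
  have hAU : ∀ z, A z ∈ U := fun z => h1 ⟨z, rfl⟩
  have h6 : ∀ s t : F, s • x + t • y ∈ U → s = 0 ∧ t = 0 := fun s t e => by
    have : t = 0 := by
      by_contra ht
      have := Submodule.sub_mem _ (Submodule.mem_sup_left (T := F ∙ x) e) (Submodule.mem_sup_right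
        (Submodule.smul_mem _ s (Submodule.mem_span_singleton_self x)))
      exact hyU (by simpa [Submodule.smul_mem_iff _ ht] using this)
    refine ⟨by_contra fun hs => hxU ?_, this⟩
    simpa [this, Submodule.smul_mem_iff _ hs] using e
  have h7 : ∀ z, z ∈ (L ⊓ ker f ⊔ F ∙ x) ⊔ (F ∙ (A x + y)) ↔
      ∃ l ∈ L, f l = 0 ∧ ∃ s t : F, l + s • x + t • (A x + y) = z := fun z => by
    simp only [Submodule.mem_sup, Submodule.mem_span_singleton, Submodule.mem_inf, mem_ker]
    constructor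
    · rintro ⟨_, ⟨l, ⟨h7, h8⟩, _, ⟨s, rfl⟩, rfl⟩, _, ⟨t, rfl⟩, rfl⟩
      exact ⟨l, h7, h8, s, t, rfl⟩
    · rintro ⟨l, h7, h8, s, t, rfl⟩
      exact ⟨_, ⟨l, ⟨h7, h8⟩, _, ⟨s, rfl⟩, rfl⟩, _, ⟨t, rfl⟩, rfl⟩
  refine ⟨(L ⊓ ker f ⊔ F ∙ x) ⊔ (F ∙ (A x + y)), fun z hz hz' => ?_, ?_⟩
  · obtain ⟨l, h8, h9, s, t, rfl⟩ := (h7 _).1 hz
    obtain ⟨l', h10, h11, s', t', e⟩ := (h7 _).1 hz'
    obtain ⟨rfl, rfl⟩ := h6 s' t' (by
      convert U.sub_mem (U.sub_mem (e ▸ hAU _) (hLU _ h10)) (U.smul_mem t' (hAU x)) using 1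
      module)
    have h12 := h (l + t • A x) (L.add_mem h8 (L.smul_mem _ hx)) (by
      convert L.sub_mem (L.sub_mem h10 (L.smul_mem s hx)) (L.smul_mem t hy) using 1
      simp only [map_add, map_smul, zero_smul, add_zero] at e ⊢
      rw [e]; module)
    have h13 : t = 0 := by simpa [h9, h5] using congrArg f h12
    have h14 : l = 0 := by simpa [h13] using h12
    have h15 : s = 0 := by simpa [h11, h13, h14, h5] using (congrArg f e).symm
    simp [h13, h14, h15]
  · have h8 : L ⊓ ker f ⊔ F ∙ A x = L := le_antisymm (sup_le inf_le_left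
      ((Submodule.span_singleton_le_iff_mem _ _).2 hx)) fun l hl => Submodule.mem_sup.2
        ⟨l - f l • A x, ⟨L.sub_mem hl (L.smul_mem _ hx), by simp [h5]⟩, _,
          Submodule.smul_mem _ (f l) (Submodule.mem_span_singleton_self _), by simp⟩
    rw [Submodule.finrank_sup_span_singleton, Submodule.finrank_sup_span_singleton
      fun e => hxU (hLU _ (Submodule.mem_inf.1 e).1),
      ← congrArg (fun M : Submodule F V => finrank F M) h8,
      Submodule.finrank_sup_span_singleton fun e => by simpa [h5] using (Submodule.mem_inf.1 e).2]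
    intro e
    obtain ⟨l, h9, _, h10, e⟩ := Submodule.mem_sup.1 e
    obtain ⟨s, rfl⟩ := Submodule.mem_span_singleton.1 h10
    simpa using (h6 (-s) 1 (by
      convert U.sub_mem (hLU _ h9.1) (hAU x) using 1
      rw [eq_sub_iff_add_eq, one_smul, add_assoc, add_comm y, ← e]; module)).2

theorem pow_le_of_cover [Fintype F] {ι : Type*} [Fintype ι] (U : ι → Submodule F V)
    (h : ∀ x, ∃ i, x ∈ U i) :
    Fintype.card F ^ finrank F V ≤ ∑ i, Fintype.card F ^ finrank F (U i) := by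
  classical
  have := Module.finite_of_finite F (M := V)
  cases nonempty_fintype V
  simp only [← Module.card_eq_pow_finrank]
  refine (Finset.card_le_card (t := Finset.univ.biUnion fun i => Finset.univ.filter (· ∈ U i))
    fun x _ => by simpa using h x).trans (Finset.card_biUnion_le.trans ?_)
  simp [Fintype.card_subtype]

theorem exists_fe [Fintype F] (h4 : 4 ≤ Cardinal.mk F) (dA : LinearMap.det A ≠ 0) {k : ℕ}
    (h : ∀ a : F, k ≤ finrank F (range (A - a • 1))) (hk : 2 * k ≤ finrank F V) :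
    ∃ L : Submodule F V, Fe A L ∧ finrank F L = k := by
  classical
  induction k with
  | zero => exact ⟨⊥, fun z hz _ => by simpa using hz, finrank_bot _ _⟩
  | succ k ih =>
    obtain ⟨L, h1, rfl⟩ := ih (fun a => (Nat.le_succ k).trans (h a)) (by omega)
    have hW := h1.finrank_sup
    set U := L ⊔ L.map A with hU
    by_cases h2 : ∃ a : F, range (A - a • 1) ≤ U
    · obtain ⟨a, h2⟩ := h2
      obtain ⟨L', h3, h5⟩ := (h1.shift a).exchange (h2.trans (sup_le le_sup_left <| by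
        rintro _ ⟨z, hz, rfl⟩
        exact Submodule.mem_sup.2 ⟨_, L.smul_mem a hz, _, ⟨z, hz, rfl⟩, by simp⟩)) (h a) (by omega)
      exact ⟨L', by simpa using h3.shift (-a), h5⟩
    obtain ⟨x, hx, hx'⟩ : ∃ x, x ∉ U ∧ ∀ a : F, (A - a • 1 : End F V) x ∉ U := by
      by_contra! h3
      have h5 := pow_le_of_cover (fun i : Option F => i.elim U fun a => U.comap (A - a • 1))
        fun x => (em (x ∈ U)).elim (fun e => ⟨none, e⟩) fun e => (h3 x e).elim fun a e => ⟨some a, e⟩
      obtain ⟨m, hm⟩ : ∃ m, finrank F V = m + 2 := ⟨finrank F V - 2, by omega⟩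
      obtain ⟨q, hq⟩ : ∃ q, Fintype.card F = q + 4 :=
        ⟨Fintype.card F - 4, by have : 4 ≤ Fintype.card F := by simpa using h4
                                omega⟩
      have h6 : finrank F ↥(U.comap (A - (0 : F) • 1)) ≤ m := by
        obtain ⟨S, h6, -⟩ := exists_inv dA
        have := (Submodule.finrank_mono (s := U.comap (A - (0 : F) • 1)) (t := U.map S) fun z hz =>
          ⟨A z, by simpa using hz, LinearMap.congr_fun h6 z⟩).trans (Submodule.finrank_map_le _ _)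
        omega
      have h7 : ∑ a ∈ Finset.univ.erase (0 : F), (q + 4) ^ finrank F ↥(U.comap (A - a • 1)) ≤
          (q + 3) * (q + 4) ^ (m + 1) := by
        refine (Finset.sum_le_card_nsmul _ _ ((q + 4) ^ (m + 1)) fun a _ =>
          Nat.pow_le_pow_right (by omega) ?_).trans (by simp [hq])
        have := Submodule.finrank_lt (s := U.comap (A - a • 1)) fun e => h2 ⟨a, by
          rintro _ ⟨z, rfl⟩; exact (e ▸ Submodule.mem_top : z ∈ U.comap (A - a • 1))⟩
        omega
      rw [Fintype.sum_option, ← Finset.add_sum_erase _ _ (Finset.mem_univ 0), hq, hm] at h5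
      have h8 := Nat.pow_le_pow_right (n := q + 4) (by omega) h6
      have h9 := Nat.pow_le_pow_right (n := q + 4) (by omega) (show finrank F U ≤ m by omega)
      have h10 := pow_pos (show 0 < q + 4 by omega) m
      simp only [Option.elim_none, Option.elim_some, pow_succ] at h5 h7
      have h11 := h5.trans (add_le_add h9 (add_le_add h8 h7))
      generalize (q + 4) ^ m = X at h10 h11
      nlinarith [Nat.zero_le (X * q)]
    refine ⟨L ⊔ F ∙ x, fun z hz hz' => ?_,
      Submodule.finrank_sup_span_singleton fun e => hx (Submodule.mem_sup_left e)⟩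
    obtain ⟨l, h3, _, h5, rfl⟩ := Submodule.mem_sup.1 hz
    obtain ⟨t, rfl⟩ := Submodule.mem_span_singleton.1 h5
    obtain ⟨l', h6, _, h7, e⟩ := Submodule.mem_sup.1 hz'
    obtain ⟨s, rfl⟩ := Submodule.mem_span_singleton.1 h7
    have h8 : t • A x - s • x ∈ U := by
      convert U.sub_mem (Submodule.mem_sup_left h6) (Submodule.mem_sup_right ⟨l, h3, rfl⟩) using 1
      simp only [map_add, map_smul] at e
      linear_combination (norm := module) -e
    obtain rfl : t = 0 := by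
      by_contra ht
      exact hx' (t⁻¹ * s) (by simpa [smul_sub, smul_smul, ht] using U.smul_mem t⁻¹ h8)
    obtain rfl : s = 0 := by
      by_contra hs
      exact hx (by simpa [U.smul_mem_iff hs] using h8)
    simp only [zero_smul, add_zero] at e ⊢
    exact h1 l h3 (e ▸ h6)

end Free

section Peel

variable {v x : V} {f : Dual F V} {ρ : V →ₗ[F] W} {s : W →ₗ[F] V} {P : End F V}

theorem Fr.lift (h : Fr v f ρ s) (hP : P x = v) (g : Dual F V) (M : End F W) {a : F} (ha : a ≠ 0) :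
    ∃ L : End F V, Sim L ((a • 1 : End F F).prodMap M) ∧ (∀ y, L (s y) = s (M y)) ∧ ∀ u, f u = 0 →
      (∀ U : Submodule F V, (∀ z ∈ U, (L * P) z ∈ U) → u ∈ U → x ∈ U) →
      Cy (M * (ρ ∘ₗ P ∘ₗ transvection g (v - x) ∘ₗ s)) (ρ u) → Cy (L * P) u := by
  have h1 : (s ∘ₗ M ∘ₗ ρ + (a • f).smulRight v) v = a • v := by simp [h.ρv, h.fv]
  have h2 : ∀ y, (s ∘ₗ M ∘ₗ ρ + (a • f).smulRight v) (s y) = s (M y) := by simp [h.ρs, h.fs]
  refine ⟨_, h.sim h1 h2, h2, fun u h3 h4 h5 U h6 h7 => ?_⟩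
  obtain ⟨h8, h9⟩ := h.red (M := M) hP (fun z => ⟨a * f z, by simp⟩) h1 ha g h7 (h4 U h7 h6)
  exact h.top h8 (h5 _ (by simpa [h.s_ρ h3]) h9)

variable [FiniteDimensional F V] [FiniteDimensional F W₀]

theorem peel (h4 : 4 ≤ Cardinal.mk F) {A : End F V} (dA : LinearMap.det A ≠ 0) {u x : V}
    (li : LinearIndependent F ![u, A u, x, A x]) {Z : End F W₀} (cZ : ∃ y, Cy Z y)
    (hd : finrank F V = finrank F W₀ + 2) (h2 : 2 ≤ finrank F W₀) {b : F} (hb : b ≠ 0) :
    ∃ L : End F V, Sim L ((b • 1 : End F F).prodMap ((b • 1 : End F F).prodMap Z)) ∧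
      ∃ u, Cy (L * A) u := by
  obtain ⟨φ, hφ⟩ := exists_duals li
  have e : ∀ i, φ i u = (if i = 0 then 1 else 0) ∧ φ i (A u) = (if i = 1 then 1 else 0) ∧
      φ i x = (if i = 2 then 1 else 0) ∧ φ i (A x) = (if i = 3 then 1 else 0) :=
    fun i => ⟨hφ i 0, hφ i 1, hφ i 2, hφ i 3⟩
  obtain ⟨ρ, hf⟩ := exists_fr (f := φ 1) (v := A u) (by simp [e])
  generalize (ker (φ 1)).subtype = s at hf
  have hK := hf.det_red (g := φ 0) dA rfl (by simp [e]) (by simp [e])
  have hu := hf.s_ρ (x := u) (by simp [e])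
  have hx := hf.s_ρ (x := x) (by simp [e])
  have hn := hf.finrank
  suffices ∃ M, Sim M ((b • 1 : End F F).prodMap Z) ∧
      Cy (M * (ρ ∘ₗ A ∘ₗ transvection (φ 0) (A u - u) ∘ₗ s)) (ρ u) by
    obtain ⟨M, h5, h6⟩ := this
    obtain ⟨L, h7, -, h8⟩ := hf.lift rfl (φ 0) M hb
    exact ⟨L, h7.trans ((Sim.refl _).prodMap h5), u, h8 u (by simp [e]) (fun _ _ h => h) h6⟩
  have hKx : (ρ ∘ₗ A ∘ₗ transvection (φ 0) (A u - u) ∘ₗ s) (ρ x) = ρ (A x) := by
    simp [hx, transvection.apply, e]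
  generalize ρ ∘ₗ A ∘ₗ transvection (φ 0) (A u - u) ∘ₗ s = K at hK hKx
  have hu0 : ρ u ≠ 0 := fun h => by simpa [h, e] using congrArg (φ 0) hu
  by_cases hc : K (ρ u) ∈ F ∙ ρ u
  · obtain ⟨κ, hκ⟩ := Submodule.mem_span_singleton.1 hc
    have h5 : ∀ i, i ≠ 1 → φ i (s (ρ (A x))) = φ i (A x) := fun i hi => by
      simpa [e, hi] using congrArg (φ i) (hf.dec (A x))
    obtain ⟨ρ', hf'⟩ := exists_fr (f := φ 3 ∘ₗ s) (v := ρ (A x)) (by simp [h5, e])
    generalize (ker (φ 3 ∘ₗ s)).subtype = s' at hf'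
    have hK' := hf'.det_red (g := φ 2 ∘ₗ s) hK hKx (by simp [hx, e]) (by simp [hx, e])
    have hu' := hf'.s_ρ (x := ρ u) (by simp [hu, e])
    have hx' := hf'.s_ρ (x := ρ x) (by simp [hx, e])
    have hn' := hf'.finrank
    have h6 : (ρ' ∘ₗ K ∘ₗ transvection (φ 2 ∘ₗ s) (ρ (A x) - ρ x) ∘ₗ s') (ρ' (ρ u)) =
        κ • ρ' (ρ u) := by simp [hu', transvection.apply, hu, e, ← hκ]
    have h7 : ∀ a c : F, a • ρ' (ρ u) = c • ρ' (ρ x) → a = 0 ∧ c = 0 := fun a c h => by
      have := congrArg (s ∘ₗ s') h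
      simp only [map_smul, comp_apply, hu', hx', hu, hx] at this
      exact ⟨by simpa [e] using congrArg (φ 0) this, by simpa [e] using (congrArg (φ 2) this).symm⟩
    obtain ⟨N, θ, y, h8, -, h9, h10⟩ := gamma h4 (finrank F W₀ - 2) (by omega) hK'
      (u := ρ' (ρ u)) (x := ρ' (ρ x)) (fun h => by simpa using (h7 1 0 (by simp [h])).1)
      (fun h => by
        obtain ⟨t, ht⟩ := Submodule.mem_span_singleton.1 h
        simpa using (h7 t 1 (by simp [ht])).2) (fun h => by
        obtain ⟨t, ht⟩ := Submodule.mem_span_singleton.1 h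
        exact hu0 (inj_of_det hK (by rw [← hκ, (h7 κ t (by rw [ht, h6])).1, zero_smul])))
    have h11 := h10 1 one_ne_zero
    simp only [sub_self, zero_smul, transvection.of_left_eq_zero, ← Module.End.one_eq_id,
      one_mul] at h11
    obtain ⟨M, z, h12, h13⟩ := h11.exists hK' cZ (by omega) (by omega)
    obtain ⟨L, h14, h15, h16⟩ := hf'.lift hKx (φ 2 ∘ₗ s) M hb
    refine ⟨L, h14.trans ((Sim.refl _).prodMap h12), h16 _ (by simp [hu, e]) (fun U h17 h18 => ?_)
      (h13 ▸ h11.cy z)⟩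
    have h19 := LinearMap.congr_fun h13 (ρ' (ρ u))
    rw [Module.End.mul_apply, h6] at h19
    have := h17 _ h18
    rwa [Module.End.mul_apply, ← hκ, ← hu', ← map_smul, h15, h19, LinearMap.add_apply, h9,
      smulRight_apply, h8, zero_smul, add_zero, hx'] at this
  · obtain ⟨f', h5, h6⟩ := exists_dual hc
    obtain ⟨g', h7, -⟩ := exists_dual (notMem_span_symm hu0 hc)
    replace h6 := h6 _ (Submodule.mem_span_singleton_self _)
    obtain ⟨ρ', hf'⟩ := exists_fr h5
    have hn' := hf'.finrank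
    obtain ⟨N, θ, y, -, h8⟩ := gamma_c h4 (hf'.det_red hK rfl h6 h7) (u := ρ' (ρ u))
      (fun h => hu0 (by rw [← hf'.s_ρ h6, h, map_zero])) cZ (by omega)
    obtain ⟨M, h9, h10, -⟩ := h8 1 one_ne_zero (Or.inr rfl)
    obtain ⟨L, h11, -, h12⟩ := hf'.lift rfl g' M hb
    exact ⟨L, h11.trans ((Sim.refl _).prodMap h9), h12 _ h6 (fun _ _ h => h) h10⟩

end Peel

end Cfsg.Agent.Cl.CN
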