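import Mathlib
import Cfsg.Agent.Cl.CovND

/-! If every `A - a` has rank at least `⌊n / 2⌋`, a product of two conjugates of `A` is cyclic. -/

set_option autoImplicit false

namespace Cfsg.Agent.Cl.CN

open Module Polynomial Cls LinearMap

variable {F : Type*} [Field F] {V Y D : Type*} [AddCommGroup V] [Module F V] [AddCommGroup Y]
  [Module F Y] [AddCommGroup D] [Module F D]

theorem det_ext [FiniteDimensional F V] {T : End F V} {T₁ : End F D} {T₂ : End F Y}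
    (ι : D →ₗ[F] V) (π : V →ₗ[F] Y) (hι : Function.Injective ι) (hπ : Function.Surjective π)
    (hk : ∀ x, π x = 0 → ∃ y, ι y = x) (h1 : ∀ y, ι (T₁ y) = T (ι y))
    (h2 : ∀ x, π (T x) = T₂ (π x)) (h0 : ∀ y, π (ι y) = 0) :
    LinearMap.det T = LinearMap.det T₁ * LinearMap.det T₂ := by
  have he : ker π ≤ (ker π).comap T := fun x hx => by
    simp [h2, show π x = 0 from hx]
  rw [T.det_eq_det_mul_det _ he]
  congr 1
  · exact (sim_of_bijective (f := T₁) (g := T.restrict he) (ι.codRestrict (ker π) h0)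
      ⟨fun a b e => hι (congrArg Subtype.val e), fun x => (hk x x.2).imp fun y hy => Subtype.ext hy⟩
      fun y => Subtype.ext (h1 y)).det_eq.symm
  · refine Sim.det_eq ⟨π.quotKerEquivOfSurjective hπ, fun x => ?_⟩
    obtain ⟨x, rfl⟩ := Submodule.Quotient.mk_surjective _ x
    simp [h2]

theorem link [FiniteDimensional F Y] {T : End F V} {S : End F Y} {ρ : V →ₗ[F] Y} {w : V}
    (hs : Function.Surjective ρ) (hk : ∀ x, ρ x = 0 → x ∈ F ∙ w) (hw : ρ w = 0)
    (h2 : ∀ x, ρ (T x) = S (ρ x)) (c : ∃ y, Cy S y) (h0 : 0 < finrank F Y) :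
    ∃ φ : Dual F Y, ∃ u, Cy (T + (φ ∘ₗ ρ).smulRight w) u := by
  obtain ⟨y, c⟩ := c
  obtain ⟨m, hm⟩ : ∃ m, finrank F Y = m + 1 := ⟨_, (Nat.succ_pred_eq_of_pos h0).symm⟩
  obtain ⟨φ, hφ⟩ := c.kd hm
  obtain ⟨u, rfl⟩ := hs y
  have h3 : KD T u (φ ∘ₗ ρ) (m + 1) := fun i hi => by
    have := intertwine_aeval ρ h2 (X ^ i) u
    simp only [map_pow, aeval_X] at this
    rw [comp_apply, this, hφ i hi]
  obtain ⟨t, ht⟩ := Submodule.mem_span_singleton.1 (hk (aeval T S.charpoly u) (by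
    rw [intertwine_aeval ρ h2, S.aeval_self_charpoly, LinearMap.zero_apply]))
  have h4 := h3.aeval_add ((1 - t) • w) S.charpoly_monic (by rw [charpoly_natDegree, hm])
  have h5 : (φ ∘ₗ ρ).smulRight ((1 - t) • w) = (((1 - t) • φ) ∘ₗ ρ).smulRight w := by
    ext; simp [smul_smul, mul_comm]
  rw [h5, ← ht, ← add_smul, add_sub_cancel, one_smul] at h4
  refine ⟨(1 - t) • φ, u, fun U h6 h7 => eq_top_iff.2 fun x _ => ?_⟩
  have h8 : w ∈ U := h4 ▸ aeval_mem h7 _ h6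
  have h9 := c (U.map ρ) ⟨u, h6, rfl⟩ (by
    rintro _ ⟨z, hz, rfl⟩
    exact ⟨_, h7 z hz, by simp [h2, hw]⟩)
  obtain ⟨z, hz, e⟩ : ρ x ∈ U.map ρ := h9 ▸ Submodule.mem_top
  obtain ⟨s, hs⟩ := Submodule.mem_span_singleton.1 (hk (x - z) (by simp [e]))
  simpa [hs] using U.add_mem hz (U.smul_mem s h8)

theorem pick_sq (h4 : 4 ≤ Cardinal.mk F) (d : F) : ∃ t : F, t ≠ 0 ∧ t ^ 2 ≠ d := by
  by_cases h : ∃ r, r ^ 2 = d
  · obtain ⟨r, rfl⟩ := h
    obtain ⟨t, h1, h2, h3⟩ := pick' h4 0 r (-r)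
    exact ⟨t, h1, by simp [sq_eq_sq_iff_eq_or_eq_neg, h2, h3]⟩
  · exact ⟨1, one_ne_zero, fun e => h ⟨1, e⟩⟩

theorem pick_sq' [Fintype F] (h4 : 4 ≤ Cardinal.mk F) (b c : F) :
    ∃ t : F, t ≠ 0 ∧ t ≠ b ∧ t ^ 2 ≠ c ^ 2 := by
  classical
  by_cases h : ringChar F = 2
  · obtain ⟨t, h1, h2, h3⟩ := pick' h4 0 b c
    have : CharP F 2 := h ▸ ringChar.charP F
    exact ⟨t, h1, h2, by simp [sq_eq_sq_iff_eq_or_eq_neg, h3, CharTwo.neg_eq]⟩
  · have h1 := FiniteField.odd_card_of_char_ne_two h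
    have h2 : 4 ≤ Fintype.card F := by simpa using h4
    obtain ⟨t, -, ht⟩ := Finset.exists_mem_notMem_of_card_lt_card
      (s := ({0, b, c, -c} : Finset F)) (t := Finset.univ)
      (Finset.card_le_four.trans_lt (by rw [Finset.card_univ]; omega))
    simp only [Finset.mem_insert, Finset.mem_singleton, not_or] at ht
    exact ⟨t, ht.1, ht.2.1, by simp [sq_eq_sq_iff_eq_or_eq_neg, ht]⟩

theorem exists_tv {P : End F V} {u : V} (hu : P u ∉ F ∙ u) (c : F) :
    ∃ φ : Dual F V, φ u = c - 1 ∧ P (transvection φ u (P u)) ∉ F ∙ u := by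
  have hu0 : u ≠ 0 := by rintro rfl; simp at hu
  obtain ⟨f, h1, h2⟩ := exists_dual hu
  obtain ⟨g, h3, h4⟩ := exists_dual (notMem_span_symm (by rintro e; simp [e] at hu) hu)
  replace h2 := h2 u (Submodule.mem_span_singleton_self _)
  replace h4 := h4 _ (Submodule.mem_span_singleton_self _)
  by_cases h : P (P u) ∈ F ∙ u
  · exact ⟨(c - 1) • g + f, by simp [h2, h3], fun e => hu (by
      simpa [transvection.apply, h1, h4] using Submodule.sub_mem _ e h)⟩
  · exact ⟨(c - 1) • g, by simp [h3], by simpa [transvection.apply, h4]⟩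

variable [FiniteDimensional F V] [FiniteDimensional F Y] [FiniteDimensional F D]

theorem dd_pow (a : F) (k : ℕ) : Ore.dd ((X - C a) ^ k) = a ^ k := by
  induction k with
  | zero => simp [Ore.dd]
  | succ k ih => rw [pow_succ, Ore.dd_mul (pow_ne_zero _ (X_sub_C_ne_zero a)) (X_sub_C_ne_zero a),
      ih, Ore.dd_X_sub_C, pow_succ]

theorem exists_split (h4 : 4 ≤ Cardinal.mk F) (h2 : 2 ≤ finrank F V) {d : F} :
    ∃ T : End F V, One T ∧ (∃ u, Cy T u) ∧ LinearMap.det T = d ∧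
      ∀ χ : F[X], (∀ l, χ.eval l ≠ 0) → IsUnit (aeval T χ) := by
  obtain ⟨a, b, h1, h3, rfl⟩ : ∃ a b : F, a ≠ 1 ∧ a ≠ b ∧ a * b = d := by
    obtain ⟨t, h1, h3⟩ := pick_sq h4 d
    have h5 : d / t ≠ t := fun e => h3 (by rw [div_eq_iff h1] at e; rw [e, sq])
    by_cases h : t = 1
    · exact ⟨d / t, t, h ▸ h ▸ h5, h5, by field_simp⟩
    · exact ⟨t, d / t, h, h5.symm, by field_simp⟩
  obtain ⟨m, hm⟩ : ∃ m, finrank F V = m + 2 := ⟨_, (Nat.sub_add_cancel h2).symm⟩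
  have h5 : ((X - C b) * (X - C 1) ^ m : F[X]).Monic :=
    (monic_X_sub_C b).mul ((monic_X_sub_C 1).pow m)
  have h6 : ((X - C b) * (X - C 1) ^ m : F[X]).natDegree = m + 1 := by
    rw [(monic_X_sub_C b).natDegree_mul ((monic_X_sub_C 1).pow m), natDegree_pow,
      natDegree_X_sub_C, natDegree_X_sub_C]; omega
  obtain ⟨T, c, h7⟩ := exists_cy (V := V) ((monic_X_sub_C a).mul h5) (by
    rw [(monic_X_sub_C a).natDegree_mul h5, natDegree_X_sub_C]; omega)
  refine ⟨T, Cy.one c (h7 ▸ T.aeval_self_charpoly) (by simp [sub_eq_zero, h1, h3]) (by omega), c,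
    ?_, fun χ h => isUnit_aeval_of_coprime ?_ (h7 ▸ T.aeval_self_charpoly)⟩
  · rw [det_eq_dd, h7, Ore.dd_mul (X_sub_C_ne_zero a) h5.ne_zero, Ore.dd_mul (X_sub_C_ne_zero b)
      (pow_ne_zero _ (X_sub_C_ne_zero 1)), dd_pow, Ore.dd_X_sub_C, Ore.dd_X_sub_C, one_pow, mul_one]
  · exact (Ore.isCoprime_X_sub_C (h a)).mul_right ((Ore.isCoprime_X_sub_C (h b)).mul_right
      (Ore.isCoprime_X_sub_C (h 1)).pow_right)

theorem exists_rootless [Finite F] (h2 : 2 ≤ finrank F V) {d : F} (hd : d ≠ 0) :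
    ∃ T : End F V, (∃ u, Cy T u) ∧ LinearMap.det T = d ∧ ∀ l, T.charpoly.eval l ≠ 0 := by
  obtain ⟨χ, h1, h3, h4, h5⟩ := Ore.exists_chi h2 hd
  obtain ⟨T, c, rfl⟩ := exists_cy (V := V) h1 h3
  exact ⟨T, c, by rw [det_eq_dd, h4], h5⟩

theorem core {A : End F ((Y × D) × Y)} {P : End F (Y × D)} (hA : ∀ z, (A z).1.1 = z.2)
    (hP : ∀ p, A (p, 0) = ((0, (P p).2), (P p).1)) : ∃ s : F, s ≠ 0 ∧
      ∀ (k₁ k₁' k₂ : End F (Y × D)) (g₁ g₂ R : End F Y) (χ : F[X]), k₁ * k₁' = 1 →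
      (∀ d, k₁ (0, d) = k₂ (0, d)) → (∀ p, (k₁ p).1 = g₁ p.1) → (∀ p, (k₂ p).1 = g₂ p.1) →
      R * g₂ = g₁ → s * LinearMap.det k₁ * LinearMap.det g₂ = 1 →
      (∃ u, Cy (k₂ * P * k₁' * P) u) → (∃ y, Cy R y) → aeval R χ = 0 →
      IsUnit (aeval (k₂ * P * k₁' * P) χ) → ∃ T, Pw A 2 T ∧ ∃ u, Cy T u := by
  obtain ⟨σ, hσ⟩ : ∃ σ : End F ((Y × D) × Y), ∀ z, σ z = ((z.2, z.1.2), z.1.1) :=
    ⟨((snd F _ _).prod (snd F _ _ ∘ₗ fst F _ _)).prod (fst F _ _ ∘ₗ fst F _ _), fun _ => rfl⟩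
  have h1 : σ * σ = 1 := LinearMap.ext fun z => by simp [hσ]
  refine ⟨LinearMap.det σ, det_ne_zero_of_mul h1,
    fun k₁ k₁' k₂ g₁ g₂ R χ h2 h3 h4 h5 h6 h7 c1 c2 h8 h9 => ?_⟩
  obtain ⟨κ, hκ⟩ : ∃ κ : End F ((Y × D) × Y),
      ∀ z, κ z = (k₁ z.1 + (0, (k₂ (z.2, 0)).2), g₂ z.2) :=
    ⟨(k₁ ∘ₗ fst F _ _ + inr F _ _ ∘ₗ snd F _ _ ∘ₗ k₂ ∘ₗ inl F _ _ ∘ₗ snd F _ _).prod
      (g₂ ∘ₗ snd F _ _), fun _ => rfl⟩
  have hk : ∀ x : (Y × D) × Y, snd F _ _ x = 0 → ∃ y, inl F _ _ y = x :=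
    fun x hx => ⟨x.1, Prod.ext rfl hx.symm⟩
  have h0 : k₂ (0, 0) = 0 := map_zero _
  have h10 : LinearMap.det (σ * κ) = 1 := by
    rw [map_mul, det_ext (T := κ) (T₁ := k₁) (T₂ := g₂) (inl F _ _) (snd F _ _) inl_injective
      snd_surjective hk (by simp [hκ, h0]) (by simp [hκ]) (by simp), ← mul_assoc, h7]
  obtain ⟨κ', h11, h12⟩ := exists_inv (A := κ) fun e => by simp [e] at h10
  have h13 : ∀ q, κ' (q, 0) = (k₁' q, 0) := fun q => by
    have := LinearMap.congr_fun h2 q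
    rw [Module.End.mul_apply] at this
    simpa [hκ, h0, this, Prod.mk_zero_zero] using LinearMap.congr_fun h11 (k₁' q, 0)
  have h14 : ∀ z, g₂ (κ' z).2 = z.2 := fun z => by
    simpa [hκ] using congrArg Prod.snd (LinearMap.congr_fun h12 z)
  refine ⟨σ * κ * A * κ' * σ * A, (Pw.one ⟨σ * κ, h10, ?_⟩).mul (Pw.one (SC.refl A)),
    cy_ext (inl F _ _) (snd F _ _) snd_surjective hk (fun p => ?_) (fun z => ?_) (by simp)
      c1 c2 h8 h9⟩
  · rw [mul_assoc _ σ, ← mul_assoc σ σ, h1, one_mul, mul_assoc _ κ', h11, mul_one]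
  · simp only [Module.End.mul_apply, inl_apply, hP, hσ, h13, hκ, h3, Prod.mk.eta]
    generalize P (k₁' (P p)) = q
    have := map_add k₂ (q.1, 0) (0, q.2)
    simp only [Prod.mk_add_mk, add_zero, zero_add, Prod.mk.eta] at this
    rw [this]
    ext <;> simp [h5, add_comm]
  · simp [hσ, hκ, h4, hA, ← h6, h14]

theorem irreducible_quad {τ μ : F} (h : ∀ l : F, l ^ (0 + 2) - τ * l + μ ≠ 0) :
    Irreducible (X ^ 2 - C τ * X + C μ : F[X]) := by
  have hd : (X ^ 2 - C τ * X + C μ : F[X]).natDegree = 2 := by compute_degree!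
  have hm : (X ^ 2 - C τ * X + C μ : F[X]).Monic := by monicity!
  refine (hm.irreducible_iff_roots_eq_zero_of_degree_le_three (by omega) (by omega)).2 ?_
  refine Multiset.eq_zero_of_forall_notMem fun l hl => h l ?_
  simpa using (mem_roots hm.ne_zero).1 hl

theorem even_scalar [Fintype F] (h4 : 4 ≤ Cardinal.mk F) (h2 : 2 ≤ finrank F Y) {π κ : F}
    (hπ : π ≠ 0) (hκ : κ ≠ 0) (β : F) : ∃ (y : F) (R R' : End F Y) (χ : F[X]), y ≠ 0 ∧
      R * R' = 1 ∧ LinearMap.det R = κ * y ^ 2 ∧ (∃ u, Cy R u) ∧ aeval R χ = 0 ∧ χ.eval β ≠ 0 ∧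
      IsUnit (aeval (π ^ 2 • R') χ) := by
  obtain ⟨m, hm⟩ : ∃ m, finrank F Y = m + 2 := ⟨_, (Nat.sub_add_cancel h2).symm⟩
  obtain ⟨r, r0, r1, r2⟩ := pick_sq' h4 β π
  obtain ⟨y, y0, ν, y1, y2⟩ : ∃ y ≠ 0, ∃ ν, r ^ m * ν = κ * y ^ 2 ∧ ν ≠ π ^ 2 := by
    obtain ⟨t, h1, h3⟩ := pick_sq h4 (r ^ m * π ^ 2 / κ)
    exact ⟨t, h1, κ * t ^ 2 / r ^ m, by field_simp, fun e => h3 (by rw [← e]; field_simp)⟩
  have ν0 : ν ≠ 0 := by rintro rfl; simp [hκ, y0] at y1
  obtain ⟨τ, hτ⟩ := Ore.exists_rootless (m := 0) ν0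
  have hq := irreducible_quad hτ
  have hd : (X ^ 2 - C τ * X + C ν : F[X]).natDegree = 2 := by compute_degree!
  have hM : (X ^ 2 - C τ * X + C ν : F[X]).Monic := by monicity!
  have he : ∀ l, (X ^ 2 - C τ * X + C ν : F[X]).eval l ≠ 0 := fun l => by simpa using hτ l
  have h1 : IsCoprime (C ν * X ^ 2 - C (τ * π ^ 2) * X + C (π ^ 4))
      ((X - C r) ^ m * (X ^ 2 - C τ * X + C ν) : F[X]) := by
    refine (Ore.isCoprime_X_sub_C fun e => hτ (π ^ 2 / r) ?_).pow_right.mul_right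
      (hq.coprime_iff_not_dvd.2 fun e => ?_).symm
    · simp only [eval_add, eval_sub, eval_mul, eval_C, eval_pow, eval_X] at e
      rw [zero_add]
      field_simp
      linear_combination e
    have h1 := eq_zero_of_dvd_of_natDegree_lt (dvd_sub e (dvd_mul_left _ (C ν))) (by
      rw [hd, show C ν * X ^ 2 - C (τ * π ^ 2) * X + C (π ^ 4) - C ν * (X ^ 2 - C τ * X + C ν) =
        C (τ * ν - τ * π ^ 2) * X + C (π ^ 4 - ν ^ 2) by simp only [map_sub, map_mul, map_pow]; ring]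
      exact natDegree_linear_le.trans_lt one_lt_two)
    have h3 := congrArg (eval 0) h1
    have h5 := congrArg (eval 1) h1
    simp only [eval_add, eval_sub, eval_mul, eval_C, eval_pow, eval_X, eval_zero] at h3 h5
    have h6 := sub_ne_zero.2 y2
    have h7 : τ = 0 := mul_right_cancel₀ h6 (by linear_combination h5 - h3)
    exact hτ π (mul_right_cancel₀ h6 (by rw [h7]; linear_combination -h3))
  have h3 : Ore.dd (X ^ 2 - C τ * X + C ν : F[X]) = ν := by simp [Ore.dd, hd]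
  generalize hp : (X ^ 2 - C τ * X + C ν : F[X]) = p at h1 h3 hd hM he
  obtain ⟨R, c, hR⟩ := exists_cy (V := Y) (((monic_X_sub_C r).pow m).mul hM) (by
    rw [((monic_X_sub_C r).pow m).natDegree_mul hM, natDegree_pow, natDegree_X_sub_C]; omega)
  have h5 : LinearMap.det R = κ * y ^ 2 := by
    rw [det_eq_dd, hR, Ore.dd_mul (pow_ne_zero _ (X_sub_C_ne_zero r)) hM.ne_zero, dd_pow, h3, y1]
  obtain ⟨R', h6, h7⟩ := exists_inv (A := R) (by simp [h5, hκ, y0])
  have h8 : aeval R ((X - C r) ^ m * p) = 0 := hR ▸ R.aeval_self_charpoly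
  refine ⟨y, R, R', _, y0, h7, h5, c, h8, by simp [he, sub_eq_zero, r1.symm], ?_⟩
  have h9 := isUnit_aeval_of_coprime (Ore.isCoprime_X_sub_C (a := π ^ 2 / r) (by
    simp [he, sub_eq_zero, div_eq_iff r0, ← sq, r2.symm])).symm h8
  have h10 := isUnit_aeval_of_coprime h1 h8
  have h11 : IsUnit R' := IsUnit.of_mul_eq_one _ h6
  rw [map_mul, map_pow]
  refine (IsUnit.pow _ ?_).mul ?_
  · convert ((isUnit_aeval_smul_one (a := 1) (χ := C (-r)) (by simpa)).mul h9).mul h11 using 1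
    simp only [map_sub, aeval_X, aeval_C, Algebra.algebraMap_eq_smul_one, sub_mul, h7,
      smul_mul_assoc, one_mul, smul_sub, smul_smul]
    rw [show -r * (π ^ 2 / r) = -π ^ 2 by field_simp]
    module
  · convert (h10.mul h11).mul h11 using 1
    simp only [← hp, map_sub, map_add, map_mul, aeval_X, aeval_C, sq (X : F[X]), h7, one_mul,
      Algebra.algebraMap_eq_smul_one, mul_assoc, sub_mul, add_mul, smul_mul_assoc, mul_smul_comm]
    module

theorem even_data [Fintype F] (h4 : 4 ≤ Cardinal.mk F) (h2 : 2 ≤ finrank F Y) {P : End F Y}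
    (dP : LinearMap.det P ≠ 0) {κ : F} (hκ : κ ≠ 0) (β : F) :
    ∃ (g g' R R' : End F Y) (χ : F[X]), g * g' = 1 ∧ R * R' = 1 ∧
      LinearMap.det R = κ * LinearMap.det g ^ 2 ∧ (∃ u, Cy R u) ∧ aeval R χ = 0 ∧ χ.eval β ≠ 0 ∧
      (∃ u, Cy (R' * g * P * g' * P) u) ∧ IsUnit (aeval (R' * g * P * g' * P) χ) := by
  by_cases nP : NS P
  · obtain ⟨u, hu⟩ := nP.exists
    obtain ⟨φ, h1, h3⟩ := exists_tv hu 1
    have h5 := tv_inv one_ne_zero h1
    have h6 := mul_eq_one_comm.1 h5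
    have h7 : LinearMap.det (transvection (-(1 : F)⁻¹ • φ) u) = 1 := by simp [h1]
    have h8 : ∀ c : F, transvection φ u (c • u) = c • u := by simp [transvection.apply, h1]
    generalize transvection φ u = g' at *
    generalize transvection (-(1 : F)⁻¹ • φ) u = g at *
    have h9 : NS (g * P * g' * P) := fun c e => h3 (Submodule.mem_span_singleton.2 ⟨c, by
      have := congrArg g' (LinearMap.congr_fun e u)
      rw [LinearMap.smul_apply, Module.End.one_apply, h8, mul_assoc g, mul_assoc g,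
        Module.End.mul_apply, ← Module.End.mul_apply g', h5] at this
      exact this.symm⟩)
    have h10 : LinearMap.det (g * P * g' * P) ≠ 0 := by
      simp [h7, dP, det_ne_zero_of_mul h5]
    obtain ⟨Q, h11, h12⟩ := exists_inv h10
    obtain ⟨R₀, c, h13, h14⟩ := exists_rootless (V := Y) h2 hκ
    obtain ⟨R₁, h15, h16⟩ := exists_inv (A := R₀) (h13 ▸ hκ)
    obtain ⟨S, h17, h18, h19, h20⟩ := exists_split (V := Y) h4 h2
      (d := LinearMap.det R₁ * LinearMap.det (g * P * g' * P))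
    obtain ⟨L, h21, h22, -⟩ := tc h4 h17 h18 (h19 ▸ mul_ne_zero (det_ne_zero_of_mul h15) h10)
      (det_ne_zero_of_mul h11) (h9.inv h11) (c.imp fun _ c => c.inv h16)
      (by rw [h19, mul_assoc, ← map_mul, h12, map_one, mul_one])
    obtain ⟨R, h23, h24⟩ := exists_inv (A := L * Q) (h22.det_eq ▸ det_ne_zero_of_mul h15)
    have h25 := Sim.inv h22 h15 h23
    have h26 : L * Q * g * P * g' * P = L := by
      simp only [mul_assoc] at h11 ⊢
      rw [h11, mul_one]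
    refine ⟨g, g', R, L * Q, R₀.charpoly, h6, h23, by rw [← h25.det_eq, h13, h7]; simp,
      Sim.cy h25 c, h25.charpoly_eq ▸ R.aeval_self_charpoly, h14 β, h26.symm ▸ Sim.cy h21 h18, ?_⟩
    rw [h26, isUnit_iff_isUnit_det, ← (h21.aeval _).det_eq, ← isUnit_iff_isUnit_det]
    exact h20 _ h14
  · obtain ⟨π, rfl⟩ : ∃ π : F, P = π • 1 := by simpa [NS] using nP
    have hπ : π ≠ 0 := by rintro rfl; exact dP (by simp; omega)
    obtain ⟨y, R, R', χ, h1, h3, h5, c, h6, h7, h8⟩ := even_scalar h4 h2 hπ hκ β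
    obtain ⟨g, -, -, rfl, -⟩ := exists_split (V := Y) h4 h2 (d := y)
    obtain ⟨g', -, h9⟩ := exists_inv h1
    have h10 : R' * g * π • 1 * g' * π • 1 = π ^ 2 • R' := by
      simp [mul_assoc, h9, smul_smul, sq]
    exact ⟨g, g', R, R', χ, h9, h3, h5, c, h6, h7,
      h10 ▸ c.imp fun _ c => (c.inv h3).smul (pow_ne_zero 2 hπ), h10 ▸ h8⟩

theorem nf [Fintype F] (h4 : 4 ≤ Cardinal.mk F) (h2 : 2 ≤ finrank F Y) {A : End F ((Y × D) × Y)}
    (dA : LinearMap.det A ≠ 0) (hA : ∀ z, (A z).1.1 = z.2) {d₀ : D} (hD : ∀ d, d ∈ F ∙ d₀) :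
    ∃ T, Pw A 2 T ∧ ∃ u, Cy T u := by
  obtain ⟨P, hP⟩ : ∃ P : End F (Y × D), ∀ p, A (p, 0) = ((0, (P p).2), (P p).1) :=
    ⟨(snd F _ _ ∘ₗ A ∘ₗ inl F _ _).prod (snd F _ _ ∘ₗ fst F _ _ ∘ₗ A ∘ₗ inl F _ _),
      fun p => Prod.ext (Prod.ext (hA _) rfl) rfl⟩
  have dP : LinearMap.det P ≠ 0 := det_ne_zero_of_inj fun p h =>
    congrArg Prod.fst (inj_of_det dA (x := (p, 0)) (by rw [hP, h]; rfl))
  obtain ⟨s, hs, H⟩ := core hA hP
  have hk : ∀ x : Y × D, fst F Y D x = 0 → x ∈ F ∙ ((0, d₀) : Y × D) := fun x hx => by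
    obtain ⟨t, ht⟩ := Submodule.mem_span_singleton.1 (hD x.2)
    exact Submodule.mem_span_singleton.2 ⟨t, Prod.ext (by simpa using hx.symm) ht⟩
  have hw : fst F Y D (0, d₀) = 0 := rfl
  generalize ((0, d₀) : Y × D) = w at hk hw
  have hw' : w.1 = 0 := hw
  by_cases h : P w ∈ F ∙ w
  · obtain ⟨a, ha⟩ := Submodule.mem_span_singleton.1 h
    have h1 : ∀ d, P (0, d) = a • (0, d) := fun d => by
      obtain ⟨t, ht⟩ := Submodule.mem_span_singleton.1 (hk (0, d) rfl)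
      rw [← ht, map_smul, ← ha, smul_comm]
    obtain ⟨P', h3⟩ : ∃ P' : End F Y, ∀ p, (P p).1 = P' p.1 :=
      ⟨fst F _ _ ∘ₗ P ∘ₗ inl F _ _, fun p => by
        simpa [h1] using congrArg Prod.fst (map_add P (p.1, 0) (0, p.2))⟩
    have hk' : ∀ x : Y × D, fst F Y D x = 0 → ∃ d, inr F Y D d = x :=
      fun x hx => ⟨x.2, Prod.ext hx.symm rfl⟩
    have h5 : LinearMap.det P' ≠ 0 := right_ne_zero_of_mul (det_ext (T₁ := a • 1) _ _ inr_injective
      fst_surjective hk' (by simp [h1]) h3 (fun _ => rfl) ▸ dP)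
    obtain ⟨g, g', R, R', χ, h6, h7, h8, c, h9, h10, c', h11⟩ := even_data h4 h2 h5 hs (a ^ 2)
    obtain ⟨φ, c''⟩ := link (T := (R' * g).prodMap 1 * P * g'.prodMap 1 * P) fst_surjective hk hw
      (by simp [h3]) c' (by omega)
    obtain ⟨N, h12, -⟩ := exists_inv (A := P' * g' * P') (by
      simp [h5, det_ne_zero_of_mul (mul_eq_one_comm.1 h6)])
    have h13 : ((R' * g).prodMap 1 + (φ ∘ₗ N ∘ₗ fst F Y D).smulRight w) * P * g'.prodMap 1 * P =
        (R' * g).prodMap 1 * P * g'.prodMap 1 * P + (φ ∘ₗ fst F Y D).smulRight w := by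
      simp only [add_mul, add_right_inj]
      exact LinearMap.ext fun p => by
        simpa [h3] using congrArg (fun z => φ z • w) (LinearMap.congr_fun h12 p.1)
    refine H (g.prodMap 1) (g'.prodMap 1) _ g (R' * g) R χ (by simp [prodMap_mul, h6]) (by simp)
      (by simp) (by simp [hw']) (by rw [← mul_assoc, h7, one_mul]) (by
        have := congrArg LinearMap.det h7
        simp only [map_mul, det_prodMap, map_one, h8] at this ⊢
        linear_combination this) (h13 ▸ c'') c h9 ?_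
    rw [isUnit_iff_isUnit_det, det_ext (T₁ := aeval (a ^ 2 • 1 : End F D) χ) _ _ inr_injective
      fst_surjective hk' (intertwine_aeval _ (by simp [h1, smul_smul, sq]) _)
      (intertwine_aeval _ (g := R' * g * P' * g' * P') (by simp [h3, hw']) _) fun _ => rfl]
    exact ((isUnit_iff_isUnit_det _).1 (isUnit_aeval_smul_one h10)).mul
      ((isUnit_iff_isUnit_det _).1 h11)
  · obtain ⟨φ, h1, h3⟩ := exists_tv h s
    have h5 := tv_inv hs h1
    have h6 := mul_eq_one_comm.1 h5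
    have h7 : s * LinearMap.det (transvection (-s⁻¹ • φ) w) = 1 := by simp [h1]; field_simp; ring
    have h8 : ∀ x ∈ F ∙ w, transvection φ w x ∈ F ∙ w := fun x hx =>
      Submodule.add_mem _ hx (Submodule.smul_mem _ _ (Submodule.mem_span_singleton_self _))
    have h9 : ∀ p, (transvection (-s⁻¹ • φ) w p).1 = p.1 := by simp [transvection.apply, hw']
    generalize transvection φ w = k' at *
    generalize transvection (-s⁻¹ • φ) w = k at *
    have h10 : LinearMap.det (k * P * k' * P) ≠ 0 := by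
      simp [dP, det_ne_zero_of_mul h5, det_ne_zero_of_mul h6]
    obtain ⟨Q, -, h11⟩ := exists_inv h10
    replace h11 : (k * P * k' * P) (Q w) = w := LinearMap.congr_fun h11 w
    obtain ⟨R₀, c, h13, h14⟩ := exists_rootless (V := Y) h2 (one_ne_zero (α := F))
    obtain ⟨R₁, h15, h16⟩ := exists_inv (A := R₀) (h13 ▸ one_ne_zero)
    obtain ⟨Z, -, h18, h19, h20⟩ := exists_split (V := Y × D) h4 (by rw [finrank_prod]; omega)
      (d := 1 * LinearMap.det R₁ * LinearMap.det (k * P * k' * P))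
    obtain ⟨L, M, h21, h22, h23, h24, -⟩ := tc0 h4 h10 (u := Q w) (fun e => h3 (by
        obtain ⟨t, ht⟩ := Submodule.mem_span_singleton.1 (h11 ▸ e)
        have := h8 ((k * P * k' * P) w) (Submodule.mem_span_singleton.2 ⟨t, by
          rw [← congrArg (k * P * k' * P) ht, map_smul, h11]⟩)
        rwa [mul_assoc k, mul_assoc k, Module.End.mul_apply, ← Module.End.mul_apply k', h5] at this))
      fst_surjective (h11.symm ▸ hw) (h11.symm ▸ hk) one_ne_zero (c.imp fun _ c => c.inv h16)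
      (det_ne_zero_of_mul h15) rfl h18 h19
    obtain ⟨R, h25, -⟩ := exists_inv (A := M) (h23.det_eq ▸ det_ne_zero_of_mul h15)
    have h26 := Sim.inv h23.symm h15 h25
    have h27 : L * k * P * k' * P = L * (k * P * k' * P) := by simp only [mul_assoc]
    refine H k k' (L * k) 1 M R R₀.charpoly h6 (fun d => ?_) h9 (fun p => by
      simpa [h9] using h22 (k p)) h25 ?_ (h27 ▸ Sim.cy h24 h18) (Sim.cy h26 c)
      (h26.charpoly_eq ▸ R.aeval_self_charpoly) ?_
    · obtain ⟨t, ht⟩ := Submodule.mem_span_singleton.1 (hk (k (0, d)) (h9 _))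
      rw [Module.End.mul_apply, ← ht, map_smul, ← h11, h21, one_smul]
    · simpa [h7, h23.det_eq, h13] using congrArg LinearMap.det h15
    · rw [h27, isUnit_iff_isUnit_det, ← (h24.aeval _).det_eq, ← isUnit_iff_isUnit_det]
      exact h20 _ h14

omit [FiniteDimensional F V] in
theorem Pw.of_sim {W : Type*} [AddCommGroup W] [Module F W] {A : End F V} {A' P' : End F W} {k : ℕ}
    (h : Sim A' A) (h' : Pw A' k P') : ∃ P, Pw A k P ∧ Sim P' P := by
  obtain ⟨e, rfl⟩ := sim_iff_conj.1 h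
  exact ⟨_, h'.conj e, sim_iff_conj.2 ⟨e, rfl⟩⟩

theorem base [Fintype F] (h4 : 4 ≤ Cardinal.mk F) {A : End F V} (dA : LinearMap.det A ≠ 0)
    (hn : 4 ≤ finrank F V) (h : ∀ a : F, finrank F V / 2 ≤ finrank F (range (A - a • 1))) :
    ∃ T, Pw A 2 T ∧ ∃ u, Cy T u := by
  obtain ⟨L, h1, h2⟩ := exists_fe h4 dA h (by omega)
  have h3 := h1.finrank_sup
  obtain ⟨U, h5, h6⟩ : ∃ U : Submodule F V, finrank F U + finrank F V / 2 = finrank F V ∧
      U ⊔ U.map A = ⊤ := by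
    by_cases h5 : L ⊔ L.map A = ⊤
    · exact ⟨L, by rw [h5, finrank_top] at h3; omega, h5⟩
    obtain ⟨x, hx⟩ : ∃ x, x ∉ L ⊔ L.map A := by simpa [Submodule.eq_top_iff'] using h5
    have h6 := Submodule.finrank_sup_span_singleton hx
    have h7 := Submodule.finrank_le ((L ⊔ L.map A) ⊔ F ∙ x)
    refine ⟨L ⊔ F ∙ x, by
      rw [Submodule.finrank_sup_span_singleton fun e => hx (Submodule.mem_sup_left e)]; omega,
      eq_top_mono ?_ (Submodule.eq_top_of_finrank_eq (S := (L ⊔ L.map A) ⊔ F ∙ x) (by omega))⟩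
    exact sup_le (sup_le_sup le_sup_left (Submodule.map_mono le_sup_left))
      (le_sup_of_le_left le_sup_right)
  have hi : Function.Injective A := ker_eq_bot.1 (ker_eq_bot'.2 fun _ => inj_of_det dA)
  have h7 := (Submodule.equivMapOfInjective A hi U).finrank_eq
  have h8 := Submodule.finrank_sup_add_finrank_inf_eq U (U.map A)
  have h9 := (U.map A).finrank_quotient_add_finrank
  rw [h6, finrank_top] at h8
  obtain ⟨r, hr⟩ := (U ⊓ U.map A).subtype.exists_leftInverse_of_injective (Submodule.ker_subtype _)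
  obtain ⟨d₀, hD⟩ := finrank_le_one_iff.1 (show finrank F ↥(U ⊓ U.map A) ≤ 1 by omega)
  have h10 : Function.Injective (((U.map A).mkQ.prod r).prod ((U.map A).mkQ ∘ₗ A)) :=
    ker_eq_bot.1 (ker_eq_bot'.2 fun x hx => by
      obtain ⟨z, hz, e⟩ := (Submodule.Quotient.mk_eq_zero _).1 (congrArg Prod.snd hx)
      have := LinearMap.congr_fun hr ⟨x, hi e ▸ hz,
        (Submodule.Quotient.mk_eq_zero _).1 (congrArg (·.1.1) hx)⟩
      simpa [show r x = 0 from congrArg (·.1.2) hx] using congrArg Subtype.val this.symm)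
  let e := LinearEquiv.ofBijective _ ⟨h10, (injective_iff_surjective_of_finrank_eq_finrank (by
    simp only [finrank_prod]; omega)).1 h10⟩
  have h11 : Sim A (e.conj A) := sim_iff_conj.2 ⟨e, rfl⟩
  obtain ⟨T, h12, c⟩ := nf h4 (by omega) (h11.det_eq ▸ dA) (fun z => by
    obtain ⟨x, rfl⟩ := e.surjective z
    rw [LinearEquiv.conj_apply_apply, e.symm_apply_apply]; rfl)
    fun d => Submodule.mem_span_singleton.2 (hD d)
  obtain ⟨T', h13, h14⟩ := h12.of_sim h11.symm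
  exact ⟨T', h13, Sim.cy h14 c⟩

end Cfsg.Agent.Cl.CN
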