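import Mathlib
import Cfsg.Agent.Cl.CovNE

/-! Every element of the right determinant is a product of `n` conjugates, up to scalars. -/

set_option autoImplicit false

namespace Cfsg.Agent.Cl.CN

open Module Polynomial Cls LinearMap

universe u

variable {F : Type*} [Field F] {V W : Type*} [AddCommGroup V] [Module F V] [AddCommGroup W]
  [Module F W] [FiniteDimensional F V] [FiniteDimensional F W] {A : End F V}

omit [FiniteDimensional F V] in
theorem aeval_sub (A : End F V) (a : F) : aeval A (X - C a) = A - a • 1 := by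
  simp [Algebra.algebraMap_eq_smul_one]

theorem rank_add_nul (A : End F V) (a : F) :
    finrank F (range (A - a • 1)) + nul A (X - C a) = finrank F V := by
  rw [nul_def, aeval_sub, finrank_range_add_finrank_ker]

omit [FiniteDimensional F V] in
theorem disjoint_ker {a b : F} (h : a ≠ b) : ker (A - a • 1) ⊓ ker (A - b • 1) = ⊥ :=
  eq_bot_iff.2 fun x hx => by
    have : (a - b) • x = 0 := by
      have h1 : A x - a • x = 0 := hx.1
      have h2 : A x - b • x = 0 := hx.2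
      linear_combination (norm := module) h2 - h1
    simpa [sub_eq_zero, h] using this

theorem nul_add_nul {a b : F} (h : a ≠ b) : nul A (X - C a) + nul A (X - C b) ≤ finrank F V := by
  rw [nul_def, nul_def, aeval_sub, aeval_sub, ← Submodule.finrank_sup_add_finrank_inf_eq,
    disjoint_ker h, finrank_bot]
  exact Submodule.finrank_le _

theorem noncyc (h : ¬ ∃ u, Cy A u) :
    ∃ p : F[X], p.Monic ∧ 0 < p.natDegree ∧ 2 * p.natDegree ≤ nul A p := by
  classical
  obtain ⟨t, p, hp, hs⟩ := exists_sim_cycPi A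
  have h0 : ∀ i, p i ≠ 0 := fun i => (hp i).1.ne_zero
  have h1 : ¬ Pairwise (Function.onFun IsCoprime p) := fun e =>
    h (Sim.cy ((sim_cyc_prod e).trans hs.symm) ⟨_, cy_cyc _⟩)
  obtain ⟨i, j, h2, h3⟩ : ∃ i j, i ≠ j ∧ ¬ IsCoprime (p i) (p j) := by simpa [Pairwise] using h1
  obtain ⟨q, h4, h5, h6⟩ := exists_monic_irreducible_factor _ (mt (gcd_isUnit_iff _ _).1 h3)
  have h7 : ∀ k, q ∣ p k → q.natDegree ≤ (gcd (p k) q).natDegree := fun k hk =>
    natDegree_le_of_dvd (dvd_gcd hk dvd_rfl) (by simp [h0])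
  refine ⟨q, h4, h5.natDegree_pos, ?_⟩
  rw [hs.nul_eq, nul_cycPi h0]
  refine le_trans ?_ (Finset.sum_le_sum_of_subset (Finset.subset_univ {i, j}))
  rw [Finset.sum_pair h2, two_mul]
  exact add_le_add (h7 i (h6.trans (gcd_dvd_left _ _))) (h7 j (h6.trans (gcd_dvd_right _ _)))

theorem noncyc' (h : ¬ ∃ u, Cy A u) (h3 : finrank F V ≤ 3) : ∃ a, 2 ≤ nul A (X - C a) := by
  obtain ⟨p, h1, h2, h4⟩ := noncyc h
  have := nul_le A p
  have h5 : p.natDegree = 1 := by omega
  exact ⟨-p.coeff 0, by rwa [C_neg, sub_neg_eq_add, ← h1.eq_X_add_C h5, ← mul_one 2, ← h5]⟩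

theorem split {a : F} (h : ¬ ker (A - a • 1) ≤ range (A - a • 1)) :
    ∃ (U : Submodule F V) (A' : End F U), Sim A ((a • 1 : End F F).prodMap A') ∧
      finrank F V = finrank F U + 1 ∧ nul A (X - C a) = nul A' (X - C a) + 1 := by
  obtain ⟨v, h1, h2⟩ := SetLike.not_le_iff_exists.1 h
  obtain ⟨f, h3, h4⟩ := exists_dual h2
  obtain ⟨ρ, hf⟩ := exists_fr h3
  have h5 := hf.sim (M := ρ ∘ₗ A ∘ₗ (ker f).subtype) (sub_eq_zero.1 h1) fun y =>
    (hf.s_ρ (by simpa [show f y = 0 from y.2] using h4 _ ⟨y, rfl⟩)).symm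
  refine ⟨_, _, h5, hf.finrank, ?_⟩
  rw [h5.nul_eq, nul_prodMap, (nul_eq_finrank_iff _ _).2 (by rw [aeval_sub, sub_self]), finrank_self,
    add_comm]

theorem split' {a : F} (h : finrank F V < 2 * nul A (X - C a)) :
    ∃ (U : Submodule F V) (A' : End F U), Sim A ((a • 1 : End F F).prodMap A') ∧
      finrank F V = finrank F U + 1 ∧ nul A (X - C a) = nul A' (X - C a) + 1 :=
  split fun e => by
    have := Submodule.finrank_mono e
    have := rank_add_nul A a
    rw [nul_def, aeval_sub] at *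
    omega

omit [FiniteDimensional F V] in
theorem det_split {a : F} {A' : End F W} (h : Sim A ((a • 1 : End F F).prodMap A'))
    (dA : LinearMap.det A ≠ 0) : a ≠ 0 ∧ LinearMap.det A' ≠ 0 := by
  simpa [h.det_eq, det_prodMap] using dA

theorem quad_or (h : finrank F V = 4) (hr : ∀ a, nul A (X - C a) ≤ 2) :
    (∃ u, Cy A u) ∨ (∃ (a : F) (U : Submodule F V) (A' : End F U),
      Sim A ((a • 1 : End F F).prodMap A') ∧ finrank F U = 3 ∧ ∃ u, Cy A' u) ∨
      ∃ s d : F, ∀ x, A (A x) = s • A x - d • x := by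
  by_cases hc : ∃ u, Cy A u
  · exact Or.inl hc
  refine Or.inr ?_
  obtain ⟨p, h1, h2, h4⟩ := noncyc hc
  have h5 := nul_le A p
  by_cases h6 : p.natDegree = 2
  · have := (nul_eq_finrank_iff A p).1 (by omega)
    rw [aeval_monic h1, h6] at this
    refine Or.inr ⟨-p.coeff 1, p.coeff 0, fun x => ?_⟩
    have := LinearMap.congr_fun this x
    simp [Finset.sum_range_succ, sq] at this
    linear_combination (norm := module) this
  obtain ⟨a, rfl⟩ : ∃ a, p = X - C a :=
    ⟨-p.coeff 0, by rw [C_neg, sub_neg_eq_add, ← h1.eq_X_add_C (by omega)]⟩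
  rw [natDegree_X_sub_C] at h4
  have h7 := hr a
  by_cases h8 : ker (A - a • 1) ≤ range (A - a • 1)
  · have h9 := rank_add_nul A a
    rw [nul_def, aeval_sub] at *
    refine Or.inr ⟨2 * a, a ^ 2, fun x => ?_⟩
    have : (A - a • 1) ((A - a • 1 : End F V) x) = 0 :=
      (Submodule.eq_of_le_of_finrank_eq h8 (by omega)).ge ⟨x, rfl⟩
    simp at this
    linear_combination (norm := module) this
  obtain ⟨U, A', h9, h10, h11⟩ := split h8
  by_cases h12 : ∃ u, Cy A' u
  · exact Or.inl ⟨a, U, A', h9, by omega, h12⟩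
  obtain ⟨b, h13⟩ := noncyc' h12 (by omega)
  have h14 : a ≠ b := by rintro rfl; omega
  have h15 : 2 ≤ nul A (X - C b) := by rw [h9.nul_eq, nul_prodMap]; omega
  have h16 := Submodule.finrank_sup_add_finrank_inf_eq (ker (A - a • 1)) (ker (A - b • 1))
  have h17 := Submodule.finrank_le (ker (A - a • 1) ⊔ ker (A - b • 1))
  rw [nul_def, aeval_sub] at h4 h15
  rw [disjoint_ker h14, finrank_bot] at h16
  refine Or.inr ⟨a + b, a * b, fun x => ?_⟩
  obtain ⟨y, hy, z, hz, rfl⟩ := Submodule.mem_sup.1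
    ((Submodule.eq_top_of_finrank_eq (by omega)).ge (Submodule.mem_top (x := x)) :
      x ∈ ker (A - a • 1) ⊔ ker (A - b • 1))
  replace hy : A y = a • y := sub_eq_zero.1 hy
  replace hz : A z = b • z := sub_eq_zero.1 hz
  simp only [map_add, map_smul, hy, hz]
  module

section Quad

open Matrix

theorem cy_toLin' {a b c d : F} (h : a ≠ d ∨ c ≠ 0) : ∃ u, Cy (toLin' !![a, b; c, d]) u := by
  obtain ⟨u, hu⟩ := NS.exists (A := toLin' !![a, b; c, d]) fun t e => by
    have h1 := LinearMap.congr_fun e ![1, 0]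
    have h2 := LinearMap.congr_fun e ![0, 1]
    simp [funext_iff, Fin.forall_fin_two] at h1 h2
    grind
  exact ⟨u, cy_two (by simp) hu⟩

theorem sc_two {B g g' C C' : Matrix (Fin 2) (Fin 2) F} (h : g.det * g'.det = 1)
    (h1 : g * B = C * g) (h2 : g' * B = C' * g') :
    Pw ((toLin' B).prodMap (toLin' B)) 2 ((toLin' (C * B)).prodMap (toLin' (C' * B))) := by
  have := (Pw.one (A := (toLin' B).prodMap (toLin' B)) (B := (toLin' C).prodMap (toLin' C'))
    ⟨(toLin' g).prodMap (toLin' g'), by simpa [det_prodMap], by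
      simp only [prodMap_comp, Module.End.mul_eq_comp, ← toLin'_mul, h1, h2]⟩).mul
    (Pw.one (SC.refl _))
  simpa only [prodMap_comp, Module.End.mul_eq_comp, ← toLin'_mul] using this

theorem quad [Fintype F] (h4 : 4 ≤ Cardinal.mk F) (dA : LinearMap.det A ≠ 0) (h : finrank F V = 4)
    (hr : ∀ a, nul A (X - C a) ≤ 2) {s d : F} (hq : ∀ x, A (A x) = s • A x - d • x) :
    Pw A 2 (d • 1) ∧ ∃ Y, Pw A 2 Y ∧ One Y ∧ ∃ u, Cy Y u := by
  obtain ⟨L, h1, h2⟩ := exists_fe (k := 2) h4 dA (fun a => by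
    have := rank_add_nul A a; have := hr a; omega) (by omega)
  obtain ⟨x, y, li⟩ := h1.four h2
  have h3 : Function.Injective ((Fintype.linearCombination F ![x, A x]).coprod
      (Fintype.linearCombination F ![y, A y])) := ker_eq_bot.1 (ker_eq_bot'.2 fun p hp => by
    have := Fintype.linearIndependent_iff.1 li ![p.1 0, p.1 1, p.2 0, p.2 1] (by
      simpa [Fin.sum_univ_four, Fintype.linearCombination_apply, add_assoc] using hp)
    ext i <;> fin_cases i
    exacts [this 0, this 1, this 2, this 3])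
  have h5 : Sim ((toLin' !![0, -d; 1, s]).prodMap (toLin' !![0, -d; 1, s])) A :=
    sim_of_bijective _ ⟨h3, (injective_iff_surjective_of_finrank_eq_finrank (by simp [h])).1 h3⟩
      fun p => by
        simp [Fintype.linearCombination_apply, hq, vecHead, vecTail]
        module
  have hd : d ≠ 0 := by simpa [← h5.det_eq, det_prodMap] using dA
  constructor
  · obtain ⟨P, h6, h7⟩ := (sc_two (B := !![0, -d; 1, s]) (g := !![0, d; 1, 0])
      (g' := d⁻¹ • !![0, d; 1, 0]) (C := !![s, d; -1, 0]) (C' := !![s, d; -1, 0])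
      (by simp; field_simp) (by simp [mul_comm]) (by simp [mul_comm])).of_sim h5
    obtain ⟨e, he⟩ := h7
    convert h6
    ext z
    obtain ⟨z, rfl⟩ := e.surjective z
    rw [← he, LinearMap.smul_apply, Module.End.one_apply, ← map_smul]
    congr 1
    ext i <;> fin_cases i <;> simp [vecHead, vecTail, mul_comm]
  obtain ⟨r, r0, r1⟩ := pick_sq h4 (d ^ 2)
  obtain ⟨t, t1, t2⟩ : ∃ t, t ≠ s ∧ r * d + d / r + (s - t) * (s - r * t) ≠ r + d ^ 2 / r := by
    by_cases h6 : ∃ t, r * d + d / r + (s - t) * (s - r * t) = r + d ^ 2 / r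
    · obtain ⟨t₀, h6⟩ := h6
      obtain ⟨t, h7, h8, h9⟩ := pick' h4 s t₀ (s + s / r - t₀)
      refine ⟨t, h7, fun e => h9 (mul_left_cancel₀ (mul_ne_zero r0 (sub_ne_zero.2 h8)) ?_)⟩
      have : r * (s / r) = s := by field_simp
      linear_combination e - h6 - (t - t₀) * this
    · obtain ⟨t, h7, -⟩ := pick' h4 s s s
      exact ⟨t, h7, fun e => h6 ⟨t, e⟩⟩
  have h6 := sc_two (B := !![0, -d; 1, s]) (g := !![0, r; 1, 0]) (g' := !![1, t; 0, -r⁻¹])
    (C := !![s, r; -d / r, 0]) (C' := !![t, r * (d - t * (s - t)); -r⁻¹, s - t])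
    (by simp [r0]) (by simp [mul_comm]; field_simp) (by simp; constructor <;> field_simp <;> ring)
  simp only [mul_fin_two, mul_zero, mul_one, zero_add, add_zero, zero_mul] at h6
  obtain ⟨Y, h7, h8⟩ := h6.of_sim h5
  have h9 : r ≠ -d / r * -d := fun e => r1 (by field_simp at e; exact e)
  have h10 : aeval (toLin' !![r, s * -d + r * s; 0, -d / r * -d])
      ((X - C r) * (X - C (-d / r * -d))) = 0 := by
    convert LinearMap.aeval_self_charpoly (toLin' !![r, s * -d + r * s; 0, -d / r * -d])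
    simp [charpoly_toLin', charpoly_fin_two]
    ring
  have c := cy_toLin' (b := s * -d + r * s) (Or.inl h9 : _ ∨ (0 : F) ≠ 0)
  refine ⟨Y, h7, ((Cy.one c h10 (by simpa only [eval_sub, eval_X, eval_C, sub_ne_zero])
      (by rw [natDegree_X_sub_C]; simp)).prod_left _).of_sim h8,
    Sim.cy h8 (cy_prod c (cy_toLin' (Or.inr (sub_ne_zero.2 t1.symm)))
      (LinearMap.aeval_self_charpoly _) (isUnit_aeval_of_coprime ?_ h10))⟩
  refine (Ore.isCoprime_X_sub_C fun e => t2 ?_).mul_right (Ore.isCoprime_X_sub_C fun e => t2 ?_)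
  all_goals
    simp [charpoly_toLin', charpoly_fin_two, det_fin_two] at e
    field_simp at e ⊢
  · linear_combination -e
  · exact mul_left_cancel₀ (pow_ne_zero 2 hd) (by linear_combination -e)

end Quad

theorem ns_of_nul (hr : ∀ a, nul A (X - C a) < finrank F V) : NS A := fun c e =>
  (hr c).ne ((nul_eq_finrank_iff _ _).2 (by rw [aeval_sub, e, sub_self]))

theorem Pw.nice' (h4 : 4 ≤ Cardinal.mk F) (h3 : 3 ≤ finrank F V) (dA : LinearMap.det A ≠ 0)
    (nA : NS A) {j : ℕ} (h : ∃ Z, Pw A j Z ∧ ∃ u, Cy Z u) :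
    ∃ Y, Pw A (j + 1) Y ∧ One Y ∧ ∃ u, Cy Y u := by
  obtain ⟨Z, h, c⟩ := h
  obtain ⟨Y, h1, h2, h5, -⟩ := exists_split (V := V) h4 (by omega) (d := LinearMap.det A ^ (j + 1))
  exact ⟨Y, h.nice h4 h3 dA nA c h1 h2 h5, h1, h2⟩

theorem pad (h4 : 4 ≤ Cardinal.mk F) (h3 : 3 ≤ finrank F V) (dA : LinearMap.det A ≠ 0)
    (nA : NS A) {j k : ℕ} (h : ∃ Z, Pw A j Z ∧ ∃ u, Cy Z u) (hk : j ≤ k) :
    ∃ Z, Pw A k Z ∧ ∃ u, Cy Z u := by
  induction k, hk using Nat.le_induction with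
  | base => exact h
  | succ k _ ih => exact (Pw.nice' h4 h3 dA nA ih).imp fun _ h => ⟨h.1, h.2.2⟩

omit [FiniteDimensional F V] in
theorem nice_of_split [Finite F] (h4 : 4 ≤ Cardinal.mk F) (h3 : 3 ≤ finrank F W)
    (dA : LinearMap.det A ≠ 0) {a : F} {A' : End F W} (hs : Sim A ((a • 1 : End F F).prodMap A'))
    (nA : NS A') {j : ℕ} (h : ∃ Z, Pw A' j Z ∧ ∃ u, Cy Z u) :
    ∃ Y, Pw A (j + 1) Y ∧ One Y ∧ ∃ u, Cy Y u := by
  obtain ⟨Z, h, c⟩ := h
  obtain ⟨ha, dA'⟩ := det_split hs dA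
  obtain ⟨t, t0, t1, -⟩ := pick' h4 0 (a ^ (j + 1)) 0
  obtain ⟨χ, h1, h2, h5, h6⟩ := Ore.exists_chi (m := finrank F W - 1) (by omega)
    (div_ne_zero (pow_ne_zero (j + 1) dA') t0)
  obtain ⟨Y, cY, hY⟩ := exists_cy (V := W) ((monic_X_sub_C t).mul h1) (by
    rw [(monic_X_sub_C t).natDegree_mul h1, natDegree_X_sub_C]; omega)
  have h7 : aeval Y ((X - C t) * χ) = 0 := hY ▸ Y.aeval_self_charpoly
  obtain ⟨Y', h8, h9⟩ := ((h.nice h4 h3 dA' nA c (Cy.one cY h7 (h6 t) (by omega)) cY (by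
    rw [det_eq_dd, hY, Ore.dd_mul (X_sub_C_ne_zero t) h1.ne_zero, Ore.dd_X_sub_C, h5]
    field_simp)).prod (W := F) a).of_sim hs.symm
  exact ⟨Y', h8, ((one_smul_one _).prod_left _).of_sim h9, Sim.cy h9 (cy_prod (cy_smul_one _) cY h7
    (isUnit_aeval_smul_one (by simp [h6, sub_eq_zero, t1.symm])))⟩

omit [FiniteDimensional F V] in
theorem nul_split {a : F} {A' : End F W} (hn : finrank F V = finrank F W + 1)
    (h1 : nul A (X - C a) = nul A' (X - C a) + 1) (h2 : nul A (X - C a) + 2 ≤ finrank F V)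
    (h3 : 3 ≤ nul A (X - C a)) (b : F) : nul A' (X - C b) + 2 ≤ finrank F W := by
  rcases eq_or_ne a b with rfl | h
  · omega
  · have := nul_add_nul (A := A') h
    omega

variable [Fintype F]

theorem base' (h4 : 4 ≤ Cardinal.mk F) (dA : LinearMap.det A ≠ 0) (hn : 4 ≤ finrank F V) :
    (∃ T, Pw A 2 T ∧ ∃ u, Cy T u) ∨ ∃ a, finrank F V + 2 ≤ 2 * nul A (X - C a) := by
  by_cases h : ∀ a : F, finrank F V / 2 ≤ finrank F (range (A - a • 1))
  · exact Or.inl (base h4 dA hn h)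
  · obtain ⟨a, h⟩ := not_forall.1 h
    have := rank_add_nul A a
    exact Or.inr ⟨a, by omega⟩

theorem half (h4 : 4 ≤ Cardinal.mk F) (n : ℕ) : ∀ {V : Type u} [AddCommGroup V] [Module F V]
    [FiniteDimensional F V] {A : End F V}, finrank F V = n → 3 ≤ n → LinearMap.det A ≠ 0 →
    (∀ a, nul A (X - C a) + 2 ≤ n) → ∃ Z, Pw A (n / 2) Z ∧ ∃ u, Cy Z u := by
  induction n using Nat.strong_induction_on with
  | _ n ih =>
  intro V _ _ _ A hn h3 dA hr
  rcases h3.eq_or_lt with rfl | h5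
  · refine ⟨A, Pw.one (SC.refl A), by_contra fun h => ?_⟩
    obtain ⟨a, h⟩ := noncyc' h hn.le
    have := hr a
    omega
  rcases base' h4 dA (by omega) with h | ⟨a, h⟩
  · exact pad h4 (by omega) dA (ns_of_nul fun a => by have := hr a; omega) h (by omega)
  have h6 := hr a
  obtain ⟨U, A', h7, h8, h9⟩ := split' (A := A) (a := a) (by omega)
  obtain ⟨U', A'', h10, h11, h12⟩ := split' (A := A') (a := a) (by omega)
  obtain ⟨ha, dA'⟩ := det_split h7 dA
  obtain ⟨Z, h13, c⟩ := ih (n - 2) (by omega) (A := A'') (by omega) (by omega) (det_split h10 dA').2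
    fun b => by have := nul_split h11 h12 (by omega) (by omega) b; omega
  obtain ⟨Y, h14, h15⟩ := ((h13.prod (W := F) a).prod (W := F) a).of_sim
    (h7.trans ((Sim.refl _).prodMap h10)).symm
  obtain ⟨L, h16, h17⟩ := exists_fe (k := 2) h4 dA (fun a => by
    have := rank_add_nul A a; have := hr a; omega) (by omega)
  obtain ⟨x, y, li⟩ := h16.four h17
  obtain ⟨L', h18, c'⟩ := peel h4 dA li c (by omega) (by omega) (pow_ne_zero ((n - 2) / 2) ha)
  refine ⟨L' * A, ?_, c'⟩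
  rw [show n / 2 = (n - 2) / 2 + 1 by omega]
  exact (h14.sc ((((one_smul_one _).prod_left _).of_sim h15).sc (h15.symm.trans h18.symm))).mul
    (Pw.one (SC.refl A))

omit [Fintype F] in
theorem scalar_of (h4 : 4 ≤ Cardinal.mk F) (dA : LinearMap.det A ≠ 0) (nA : NS A) {i : ℕ}
    (h : ∃ Z, Pw A i Z ∧ ∃ u, Cy Z u) (h3 : 3 ≤ finrank F V) (hi : 2 * i + 2 ≤ finrank F V) :
    ∃ c : F, Pw A (finrank F V) (c • 1) := by
  obtain ⟨S, h1, -⟩ := exists_inv dA
  obtain ⟨Y, h5, h6, c⟩ := Pw.nice' h4 h3 dA nA h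
  obtain ⟨j, hj⟩ : ∃ j, finrank F V = i + 1 + j + 1 := ⟨finrank F V - i - 2, by omega⟩
  obtain ⟨Z, h7, c'⟩ := pad h4 h3 dA nA h (show i ≤ j by omega)
  have := (h5.nonscalar h4 h3 dA h6 c h7 c' (P := LinearMap.det A • S) (fun t e =>
    nA.inv h1 ((LinearMap.det A)⁻¹ * t) (by rw [mul_smul, ← e, inv_smul_smul₀ dA])) (by
    rw [det_smul, hj, pow_succ, mul_assoc, mul_comm _ (LinearMap.det S), ← map_mul, h1, map_one,
      mul_one])).mul (Pw.one (SC.refl A))
  exact ⟨_, by rwa [smul_mul_assoc, h1, ← hj] at this⟩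

theorem main (h4 : 4 ≤ Cardinal.mk F) (h3 : 3 ≤ finrank F V) (dA : LinearMap.det A ≠ 0)
    (nA : NS A) : (∀ P, NS P → LinearMap.det P = LinearMap.det A ^ finrank F V →
      Pw A (finrank F V) P) ∧ ∃ c : F, Pw A (finrank F V) (c • 1) := by
  by_cases h : ∃ a : F, finrank F (range (A - a • 1)) ≤ 1
  · obtain ⟨a, h⟩ := h
    obtain ⟨h1, h2⟩ := rank_one h4 h3 dA nA h
    exact ⟨h2, pw_scalar h4 h3 dA nA (Or.inr h1)⟩
  have hr : ∀ a, nul A (X - C a) + 2 ≤ finrank F V := fun a => by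
    have := rank_add_nul A a
    have := not_exists.1 h a
    omega
  have h1 := half h4 _ rfl h3 dA hr
  rcases Nat.even_or_odd' (finrank F V) with ⟨j, hj | hj⟩
  swap
  · obtain ⟨Y, h5, h6, c⟩ := Pw.nice' h4 h3 dA nA h1
    obtain ⟨Z, h7, c'⟩ := h1
    refine ⟨fun P nP dP => ?_, pw_scalar h4 h3 dA nA (Or.inl ⟨j, hj⟩)⟩
    have e : finrank F V = finrank F V / 2 + 1 + finrank F V / 2 := by omega
    rw [e] at dP ⊢
    exact h5.nonscalar h4 h3 dA h6 c h7 c' nP dP
  suffices (∃ Y, Pw A j Y ∧ One Y ∧ ∃ u, Cy Y u) ∧ ∃ c : F, Pw A (finrank F V) (c • 1) by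
    obtain ⟨⟨Y, h5, h6, c⟩, h7⟩ := this
    refine ⟨fun P nP dP => ?_, h7⟩
    rw [hj, two_mul] at dP ⊢
    exact h5.nonscalar h4 h3 dA h6 c h5 c nP dP
  by_cases h2 : j = 2
  · subst h2
    rcases quad_or (A := A) hj (fun a => by have := hr a; omega) with c | ⟨a, U, A', h5, h6, c⟩ |
      ⟨s, d, h5⟩
    · exact ⟨Pw.nice' h4 h3 dA nA ⟨A, Pw.one (SC.refl A), c⟩,
        scalar_of h4 dA nA ⟨A, Pw.one (SC.refl A), c⟩ h3 hj.ge⟩
    · refine ⟨nice_of_split h4 h6.ge dA h5 (fun t e => ?_) ⟨A', Pw.one (SC.refl A'), c⟩,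
        pw_scalar h4 h3 dA nA (Or.inr (((one_smul_one _).prod_left _).of_sim h5.symm))⟩
      obtain ⟨u, c⟩ := c
      exact X_sub_C_ne_zero t (c.eq_zero (by rw [degree_X_sub_C, h6]; norm_num)
        (by rw [aeval_sub, e, sub_self, LinearMap.zero_apply]))
    · obtain ⟨h6, h7⟩ := quad h4 dA hj (fun a => by have := hr a; omega) h5
      exact ⟨h7, d * d, by simpa [hj, smul_smul] using h6.mul h6⟩
  obtain ⟨k, rfl⟩ : ∃ k, j = k + 1 := ⟨j - 1, by omega⟩
  rcases base' h4 dA (by omega) with h5 | ⟨a, h5⟩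
  · exact ⟨Pw.nice' h4 h3 dA nA (pad h4 h3 dA nA h5 (by omega)),
      scalar_of h4 dA nA h5 h3 (by omega)⟩
  obtain ⟨U, A', h7, h8, h9⟩ := split' (A := A) (a := a) (by omega)
  have h10 := nul_split h8 h9 (hr a) (by omega)
  refine ⟨nice_of_split h4 (by omega) dA h7 (ns_of_nul fun b => by have := h10 b; omega) ?_,
    pw_scalar h4 h3 dA nA (Or.inr (((one_smul_one _).prod_left _).of_sim h7.symm))⟩
  rw [show k = finrank F U / 2 by omega]
  exact half h4 _ rfl (by omega) (det_split h7 dA).2 h10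

omit [Fintype F] in
theorem Pw.rank_le {k : ℕ} {P : End F V} (h : Pw A k P) (hA : finrank F (range (A - 1)) ≤ 1) :
    finrank F (range (P - 1)) ≤ k := by
  induction h with
  | zero => simp
  | @succ k B P h1 _ ih =>
    have h2 := (h1.sim.aeval (X - C 1)).finrank_range
    rw [aeval_sub, aeval_sub, one_smul] at h2
    have h3 := Submodule.finrank_add_le_finrank_add_finrank (range (B - 1)) (range (P - 1))
    have h4 := Submodule.finrank_mono (show range (B * P - 1) ≤ range (B - 1) ⊔ range (P - 1) by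
      rintro _ ⟨x, rfl⟩
      exact Submodule.mem_sup.2 ⟨_, ⟨P x, rfl⟩, _, ⟨x, rfl⟩, by simp⟩)
    omega

end Cfsg.Agent.Cl.CN
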