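import Mathlib
import Cfsg.Agent.Cl.FormRep

/-!
# Weights of an abelian subgroup in a cross-characteristic representation

`exists_weight_set`: for `ρ : G →* GL_d(K)` and `ι : A →* G` with `A` finite abelian of order
prime to `char K`, the set `S` of weights of `A` (over the algebraic closure) has at most `d`
elements, separates `ρ ∘ ι`, and is stable under the normaliser.  Also the Siegel radical and
Levi subgroup of the symplectic group as homomorphisms.
-/

set_option autoImplicit false

namespace Cfsg.Agent.Cl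

open Matrix Module

theorem weight_linearIndependent {L : Type*} [Field L] {A : Type*} [Monoid A] {V : Type*}
    [AddCommGroup V] [Module L V] (ρ : A →* Module.End L V) (S : Set (A →* L)) (v : S → V)
    (hv : ∀ χ, v χ ≠ 0) (h : ∀ (χ : S) a, ρ a (v χ) = χ.1 a • v χ) : LinearIndependent L v := by
  rw [linearIndependent_iff']
  intro s c hc χ hχ
  have hli := (linearIndependent_monoidHom A L).comp (Subtype.val : S → A →* L)
    Subtype.val_injective
  obtain ⟨f, hf⟩ := Module.Projective.exists_dual_ne_zero L (hv χ)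
  have := linearIndependent_iff'.1 hli s (fun ψ => c ψ * f (v ψ)) (funext fun a => by
    have h1 := congrArg (fun x => f (ρ a x)) hc
    simp only [map_sum, map_smul, h, map_zero, smul_eq_mul] at h1
    simp only [Finset.sum_apply, Pi.smul_apply, Function.comp_apply, smul_eq_mul, Pi.zero_apply]
    rw [← h1]
    exact Finset.sum_congr rfl fun ψ _ => by ring) χ hχ
  exact (mul_eq_zero.1 this).resolve_right hf

theorem exists_weight_of_ne_one {L : Type*} [Field L] [IsAlgClosed L] {A : Type*} [CommGroup A]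
    [Finite A] (hA : (Nat.card A : L) ≠ 0) {V : Type*} [AddCommGroup V] [Module L V]
    [FiniteDimensional L V] (ρ : Representation L A V) {a₀ : A} (h : ρ a₀ ≠ 1) :
    ∃ (χ : A →* L) (v : V), v ≠ 0 ∧ (∀ a, ρ a v = χ a • v) ∧ χ a₀ ≠ 1 := by
  have hinv : ∀ (a : A) (c : L), RepInv ρ (Module.End.eigenspace (ρ a) c) := fun a c g v hv => by
    rw [Module.End.mem_eigenspace_iff] at hv ⊢
    rw [← Module.End.mul_apply, ← map_mul, mul_comm, map_mul, Module.End.mul_apply, hv, map_smul]
  obtain ⟨M, -, hM, hM'⟩ := (repInv_top (ρ := ρ)).exists_repMin_disjoint hA (hinv a₀ 1)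
    fun hle => h (LinearMap.ext fun v => by
      simpa [Module.End.mem_eigenspace_iff] using hle (Submodule.mem_top (x := v)))
  haveI : Nontrivial M := Submodule.nontrivial_iff_ne_bot.2 hM.2.1
  have hsc : ∀ a, ∃ c : L, ∀ v ∈ M, ρ a v = c • v := fun a => by
    obtain ⟨c, hc⟩ := Module.End.exists_eigenvalue ((ρ a).restrict (hM.1 a))
    obtain ⟨w, hw⟩ := hc.exists_hasEigenvector
    refine ⟨c, fun v hv => Module.End.mem_eigenspace_iff.1 ?_⟩
    by_contra hn
    exact hw.2 (Subtype.ext (hM.eq_zero (hinv a c) (fun hle => hn (hle hv)) w.2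
      (Module.End.mem_eigenspace_iff.2 (congrArg Subtype.val hw.apply_eq_smul))))
  choose c hc using hsc
  obtain ⟨v, hv, hv0⟩ := (Submodule.ne_bot_iff _).1 hM.2.1
  refine ⟨⟨⟨c, smul_left_injective L hv0 ?_⟩, fun a b => smul_left_injective L hv0 ?_⟩, v, hv0,
    fun a => hc a v hv, fun h1 => hv0 (hM' v hv (Module.End.mem_eigenspace_iff.2 ?_))⟩
  · simp [← hc 1 v hv]
  · change c (a * b) • v = (c a * c b) • v
    rw [← hc _ v hv, map_mul, Module.End.mul_apply, hc b v hv, map_smul, hc a v hv, smul_smul,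
      mul_comm]
  · rw [hc a₀ v hv, show c a₀ = 1 from h1]

/-- The set of weights of an abelian group in a matrix representation. -/
theorem exists_weight_set {K : Type*} [Field K] {G : Type*} [Group G] {d : Type*} [Fintype d]
    [DecidableEq d] (ρ : G →* GL d K) {A : Type*} [CommGroup A] [Finite A]
    (hA : (Nat.card A : K) ≠ 0) (ι : A →* G) :
    ∃ S : Set (A →* AlgebraicClosure K), S.Finite ∧ S.ncard ≤ Fintype.card d ∧
      (∀ a, ρ (ι a) ≠ 1 → ∃ χ ∈ S, χ a ≠ 1) ∧
      ∀ (g : G) (α : A →* A), (∀ a, ι (α a) * g = g * ι a) → ∀ χ ∈ S, χ.comp α ∈ S := by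
  set L := AlgebraicClosure K
  set σ : G →* Module.End L (d → L) := (Matrix.toLinAlgEquiv' (R := L) (n := d)).toMonoidHom.comp
    ((algebraMap K L).mapMatrix.toMonoidHom.comp ((Units.coeHom _).comp ρ))
  set S : Set (A →* L) := {χ | ∃ v : d → L, v ≠ 0 ∧ ∀ a, σ (ι a) v = χ a • v}
  choose v hv hv' using fun χ : S => χ.2
  have hli := weight_linearIndependent (σ.comp ι) S v hv hv'
  haveI : Finite S := hli.finite
  refine ⟨S, Set.toFinite S, ?_, fun a ha => ?_, ?_⟩
  · haveI := Fintype.ofFinite S
    have := hli.fintype_card_le_finrank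
    rwa [← Nat.card_eq_fintype_card, Module.finrank_fintype_fun_eq_card] at this
  · obtain ⟨χ, w, hw, h1, h2⟩ := exists_weight_of_ne_one (L := L)
      (by rwa [← map_natCast (algebraMap K L), map_ne_zero]) (σ.comp ι) (a₀ := a) fun h => ha (by
        have h1 : (algebraMap K L).mapMatrix (ρ (ι a)).1 = 1 :=
          (Matrix.toLinAlgEquiv' (R := L) (n := d)).injective (h.trans (map_one _).symm)
        refine Units.ext (Matrix.map_injective (algebraMap K L).injective (h1.trans ?_))
        exact (map_one (algebraMap K L).mapMatrix).symm)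
    exact ⟨χ, ⟨w, hw, h1⟩, h2⟩
  · rintro g α hα χ ⟨w, hw, h⟩
    refine ⟨σ g⁻¹ w, fun h0 => hw ?_, fun a => ?_⟩
    · have := congrArg (σ g) h0
      rwa [← Module.End.mul_apply, ← map_mul, mul_inv_cancel, map_one, map_zero] at this
    · rw [← Module.End.mul_apply, ← map_mul, show ι a * g⁻¹ = g⁻¹ * ι (α a) by
        rw [eq_inv_mul_iff_mul_eq, ← mul_assoc, ← hα, mul_inv_cancel_right], map_mul,
        Module.End.mul_apply, h, map_smul]
      rfl

theorem weight_natCast_ne_zero {F K : Type*} [Field F] [Finite F] [Field K]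
    (hK : ringChar K ≠ ringChar F) (n : ℕ) : ((Nat.card F ^ n : ℕ) : K) ≠ 0 := by
  haveI := Fintype.ofFinite F
  obtain ⟨k, hp, hk⟩ := FiniteField.card F (ringChar F)
  rw [Nat.card_eq_fintype_card, hk, ← pow_mul, Nat.cast_pow]
  refine pow_ne_zero _ fun h => ?_
  have h1 := (ringChar.spec K _).1 h
  rcases (Nat.dvd_prime hp).1 h1 with h2 | h2
  · exact CharP.ringChar_ne_one h2
  · exact hK h2

/-- The largest subspace on which a character of a vector space is trivial. -/
def weightKer (F : Type*) [Field F] {W : Type*} [AddCommGroup W] [Module F W] {L : Type*}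
    [Monoid L] (χ : Multiplicative W →* L) : Submodule F W where
  carrier := {x | ∀ c : F, χ (Multiplicative.ofAdd (c • x)) = 1}
  add_mem' {x y} hx hy c := by rw [smul_add, ofAdd_add, map_mul, hx, hy, one_mul]
  zero_mem' c := by simp
  smul_mem' a x hx c := by rw [smul_smul]; exact hx _

theorem sub_mem_weightKer {F : Type*} [Field F] {W : Type*} [AddCommGroup W] [Module F W]
    {L : Type*} [Monoid L] {χ : Multiplicative W →* L} {x y : W}
    (h : ∀ c : F, χ (Multiplicative.ofAdd (c • x)) = χ (Multiplicative.ofAdd (c • y))) :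
    x - y ∈ weightKer F χ := fun c => by
  rw [smul_sub, sub_eq_add_neg, ofAdd_add, map_mul, h, ← map_mul, ← ofAdd_add, add_neg_cancel,
    ofAdd_zero, map_one]

theorem exists_dual_weightKer {F : Type*} [Field F] {W : Type*} [AddCommGroup W] [Module F W]
    {L : Type*} [Monoid L] {χ : Multiplicative W →* L} {x : W}
    (h : χ (Multiplicative.ofAdd x) ≠ 1) :
    ∃ β : W →ₗ[F] F, β x ≠ 0 ∧ ∀ y ∈ weightKer F χ, β y = 0 :=
  Submodule.exists_le_ker_of_notMem (p := weightKer F χ) fun hx => h (by simpa using hx 1)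

variable {n : Type*} [Fintype n] [DecidableEq n] {F : Type*} [Field F]

variable (n F) in
/-- The unipotent radical of the Siegel parabolic subgroup. -/
def spSiegel : Multiplicative (Matrix n n F) →* symplecticGroup n F where
  toFun M := ⟨fromBlocks 1 (M.toAdd + M.toAddᵀ) 0 1, by
    rw [SymplecticGroup.fromBlocks_mem_iff]
    simp [add_comm]⟩
  map_one' := Subtype.ext (by simp)
  map_mul' X Y := Subtype.ext (by simp [fromBlocks_multiply]; abel)

variable (n F) in
/-- The Levi subgroup `GL_n` of the Siegel parabolic subgroup. -/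
def spLevi : GL n F →* symplecticGroup n F where
  toFun X := ⟨fromBlocks X.1 0 0 (X⁻¹).1ᵀ, by
    rw [SymplecticGroup.fromBlocks_mem_iff]
    simp [← transpose_mul]⟩
  map_one' := Subtype.ext (by simp)
  map_mul' X Y := Subtype.ext (by simp [fromBlocks_multiply])

theorem spSiegel_mul_spLevi (X : GL n F) (M : Matrix n n F) :
    spSiegel n F (Multiplicative.ofAdd (X.1 * M * X.1ᵀ)) * spLevi n F X =
      spLevi n F X * spSiegel n F (Multiplicative.ofAdd M) := by
  refine Subtype.ext ?_
  change fromBlocks 1 (X.1 * M * X.1ᵀ + (X.1 * M * X.1ᵀ)ᵀ) 0 1 * fromBlocks X.1 0 0 (X⁻¹).1ᵀ =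
    fromBlocks X.1 0 0 (X⁻¹).1ᵀ * fromBlocks 1 (M + Mᵀ) 0 1
  have h : X.1ᵀ * (X⁻¹).1ᵀ = 1 := by rw [← transpose_mul, Units.inv_mul, transpose_one]
  simp only [fromBlocks_multiply, Matrix.one_mul, Matrix.mul_zero, add_zero, zero_add,
    Matrix.zero_mul, Matrix.mul_one, transpose_mul, transpose_transpose, Matrix.add_mul,
    Matrix.mul_assoc, h, Matrix.mul_add]

theorem spSiegel_mem_center {M : Matrix n n F}
    (h : spSiegel n F (Multiplicative.ofAdd M) ∈ Subgroup.center (symplecticGroup n F)) :
    M + Mᵀ = 0 := by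
  have h1 : J n F * fromBlocks 1 (M + Mᵀ) 0 1 = fromBlocks 1 (M + Mᵀ) 0 1 * J n F :=
    congrArg Subtype.val (Subgroup.mem_center_iff.1 h (SymplecticGroup.symJ n F))
  rw [J, fromBlocks_multiply, fromBlocks_multiply, fromBlocks_inj] at h1
  simpa using h1.2.2.2

end Cfsg.Agent.Cl
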