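import Mathlib
import Cfsg.Agent.Cl.MaxSLDec

/-!
# Overgroups of `SL_m(K)` in `GL(V)` for a field extension `K / F` of prime degree, I

If such an overgroup contains a root group of `F`-transvections it contains all of them.
-/

set_option autoImplicit false
set_option linter.unusedSectionVars false
set_option linter.unusedVariables false

namespace Cfsg.Agent.Cl.MSL

open Module

section Comm

variable {F V : Type*} [Field F] [AddCommGroup V] [Module F V] {M : Subgroup (V ≃ₗ[F] V)}

theorem Has.neg_of_sq {A : V →ₗ[F] V} (h : Has M fun x => x + A x) (e : ∀ x, A (A x) = 0) :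
    Has M fun x => x - A x := h.inv fun x => by simp [e]

/-- The commutator of two quadratic unipotent elements. -/
theorem Has.comm {A B : V →ₗ[F] V} (hA : Has M fun x => x + A x) (hB : Has M fun x => x + B x)
    (h1 : ∀ x, A (A x) = 0) (h2 : ∀ x, B (B x) = 0) (h3 : ∀ x, A (B (A x)) = 0)
    (h4 : ∀ x, B (A (B x)) = 0) : Has M fun x => x + (A (B x) - B (A x)) :=
  (((hA.comp hB).comp (hA.neg_of_sq h1)).comp (hB.neg_of_sq h2)).congr fun x => by
    simp only [map_add, map_sub, h1, h2, h3, h4]
    abel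

end Comm

variable {F K V : Type*} [Field F] [Field K] [Algebra F K] [AddCommGroup V] [Module F V]
  [Module K V] [IsScalarTower F K V] [FiniteDimensional F K] [FiniteDimensional K V]

theorem submodule_eq_top (hr : (finrank F K).Prime) (S : Submodule F K) {κ : K}
    (hκ : ∀ c : F, κ ≠ algebraMap F K c) (h : ∀ s ∈ S, κ * s ∈ S) {s : K} (hs : s ∈ S)
    (hs0 : s ≠ 0) (k : K) : k ∈ S := by
  let A : Subalgebra F K :=
    { carrier := {k | ∀ s ∈ S, k * s ∈ S}
      mul_mem' := fun {a b} ha hb s hs => by rw [mul_assoc]; exact ha _ (hb s hs)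
      add_mem' := fun {a b} ha hb s hs => by rw [add_mul]; exact S.add_mem (ha s hs) (hb s hs)
      algebraMap_mem' := fun c s hs => by rw [← Algebra.smul_def]; exact S.smul_mem c hs }
  rcases (Subalgebra.isSimpleOrder_of_finrank_prime F K hr).eq_bot_or_eq_top A with e | e
  · obtain ⟨c, hc⟩ := Algebra.mem_bot.1 (e ▸ h : κ ∈ (⊥ : Subalgebra F K))
    exact absurd hc.symm (hκ c)
  · have := (e ▸ Algebra.mem_top : k * s⁻¹ ∈ A) s hs
    rwa [inv_mul_cancel_right₀ hs0] at this

theorem exists_norm_one [Finite F] (hr : 2 ≤ finrank F K) :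
    ∃ b : K, Algebra.norm F b = 1 ∧ ∀ c : F, b ≠ algebraMap F K c := by
  by_contra! H
  have : Finite K := Module.finite_of_finite F
  have := Fintype.ofFinite F
  have h1 : 1 < Fintype.card F := Fintype.one_lt_card
  have h2 : ∀ a : Kˣ, a ^ ((Fintype.card F - 1) * (Fintype.card F - 1)) = 1 := fun a => by
    obtain ⟨c, hc⟩ := H ((a : K) ^ (Fintype.card F - 1)) (by
      rw [map_pow, FiniteField.pow_card_sub_one_eq_one _ (Algebra.norm_ne_zero_iff.2 a.ne_zero)])
    have h0 : c ≠ 0 := fun e => pow_ne_zero _ a.ne_zero (by rw [hc, e, map_zero])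
    ext
    rw [Units.val_pow_eq_pow_val, pow_mul, hc, ← map_pow, FiniteField.pow_card_sub_one_eq_one _ h0,
      map_one, Units.val_one]
  have h3 := Nat.le_of_dvd (Nat.mul_pos (by omega) (by omega))
    (Monoid.exponent_dvd_of_forall_pow_eq_one h2)
  rw [IsCyclic.exponent_eq_card, Nat.card_units, Module.natCard_eq_pow_finrank (K := F),
    Nat.card_eq_fintype_card] at h3
  have h4 := Nat.pow_le_pow_right (by omega : 0 < Fintype.card F) hr
  obtain ⟨q, hq⟩ : ∃ q, Fintype.card F = q + 1 := ⟨Fintype.card F - 1, by omega⟩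
  rw [hq] at h1 h3 h4
  rw [Nat.add_sub_cancel, tsub_le_iff_right] at h3
  nlinarith

variable (F K) in
/-- The points over the extension field. -/
def kp (v : V) : Submodule F V := (K ∙ v).restrictScalars F

theorem mem_kp {v x : V} : x ∈ kp F K v ↔ ∃ k : K, x = k • v := by
  simp [kp, Submodule.mem_span_singleton, eq_comm]

theorem smul_mem_kp (k : K) (v : V) : k • v ∈ kp F K v := mem_kp.2 ⟨k, rfl⟩

theorem self_mem_kp (v : V) : v ∈ kp F K v := mem_kp.2 ⟨1, (one_smul K v).symm⟩

theorem notMem_kp {v x : V} : x ∉ kp F K v ↔ ∀ k : K, x ≠ k • v := by simp [mem_kp]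

theorem finrank_kp {v : V} (hv : v ≠ 0) : finrank F (kp F K v) = finrank F K :=
  ((LinearEquiv.toSpanNonzeroSingleton K V v hv).restrictScalars F).finrank_eq.symm

variable (F) in
/-- The nilpotent part of a transvection over the extension field. -/
def kN (ψ : Dual K V) (w : V) : V →ₗ[F] V := (ψ.smulRight w).restrictScalars F

@[simp] theorem kN_apply (ψ : Dual K V) (w x : V) : kN F ψ w x = ψ x • w := rfl

theorem dual_fsmul (ψ : Dual K V) (c : F) (x : V) : ψ (c • x) = c • ψ x := by
  rw [← algebraMap_smul K, map_smul, smul_eq_mul, Algebra.smul_def]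

variable {M : Subgroup (V ≃ₗ[F] V)}
  (hK : ∀ T : V →ₗ[K] V, Algebra.norm F (LinearMap.det T) = 1 → Has M T)
include hK

theorem has_kdil {ψ : Dual K V} {w : V} (h : Algebra.norm F (1 + ψ w) = 1) :
    Has M fun x => x + ψ x • w :=
  (hK (LinearMap.transvection ψ w) (by rw [det_tv, h])).congr (LinearMap.transvection.apply ψ w)

theorem has_ktv {ψ : Dual K V} {w : V} (h : ψ w = 0) : Has M fun x => x + ψ x • w :=
  has_kdil hK (by rw [h, add_zero, map_one])

variable [Finite F] (hr : (finrank F K).Prime)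
include hr

/-- The orbit of `z` under the stabiliser of `u` spans. -/
theorem eq_zero_of_orbit {U : Type*} [AddCommGroup U] [Module F U] {u z : V} (hz : z ∉ kp F K u)
    (ε : V →ₗ[F] U) (h : ∀ T : V →ₗ[K] V, Has M T → T u = u → ε (T z) = 0) : ε = 0 := by
  obtain ⟨ψ, h1, h2⟩ := exists_dual_pair (notMem_kp.1 hz)
  have h3 : ∀ w, Algebra.norm F (1 + ψ w) = 1 → ε (z + w) = 0 := fun w hw => by
    simpa [LinearMap.transvection.apply, h1] using h (LinearMap.transvection ψ w)
      (hK _ (by rw [det_tv, hw])) (by simp [LinearMap.transvection.apply, h2])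
  have h4 : ∀ b : K, Algebra.norm F b = 1 → ε (b • z) = 0 := fun b hb => by
    simpa [sub_smul] using h3 ((b - 1) • z) (by simpa [h1] using hb)
  let S : Submodule F K :=
    { carrier := {k | ∀ b : K, Algebra.norm F b = 1 → ε ((k * b) • z) = 0}
      zero_mem' := fun b _ => by simp
      add_mem' := fun {k l} hk hl b hb => by
        rw [add_mul, add_smul, map_add, hk b hb, hl b hb, add_zero]
      smul_mem' := fun c k hk b hb => by
        rw [smul_mul_assoc, smul_assoc, map_smul, hk b hb, smul_zero] }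
  obtain ⟨b, hb, hb'⟩ := exists_norm_one (F := F) (K := K) hr.two_le
  have h5 : ∀ k : K, ε (k • z) = 0 := fun k => by
    simpa using submodule_eq_top hr S hb' (fun s hs c hc => by
      rw [mul_comm b, mul_assoc]; exact hs _ (by rw [map_mul, hb, hc, one_mul])) (s := 1)
      (fun c hc => by rw [one_mul]; exact h4 c hc) one_ne_zero k 1 (map_one _)
  ext x
  have h6 := h3 (x - ψ x • z) (by simp [h1])
  have h7 := h5 1
  rw [one_smul] at h7
  simpa [h5, h7] using h6

theorem tv_of_axis {y : V} {φ : Dual F V} (hφ : φ ∈ axes M y) (h0 : φ ≠ 0) {χ : Dual F V}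
    (h : ∀ k : K, χ (k • y) = 0) : TV M y χ := by
  have : FiniteDimensional F V := Module.Finite.trans K V
  refine tv_of_mem_axes (mem_of_forall_zero _ fun z hz => ?_)
  by_contra h1
  refine h0 (eq_zero_of_orbit hK hr (u := y) (z := z) (fun hz => ?_) φ fun T hT hy =>
    hz (φ ∘ₗ T.restrictScalars F) fun c => (hφ c).pull_fix hT hy fun _ => rfl)
  obtain ⟨k, rfl⟩ := mem_kp.1 hz
  exact h1 (h k)

theorem cen_eq_top_of_axis (h2 : 2 ≤ finrank K V) {y : V} (hy : y ≠ 0) {φ : Dual F V}
    (hφ : φ ∈ axes M y) (h0 : φ ≠ 0) : cen M = ⊤ := by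
  have : FiniteDimensional F V := Module.Finite.trans K V
  obtain ⟨u, hu⟩ := exists_not_smul h2 y
  obtain ⟨ψ, h3, h4⟩ := exists_dual_pair (F := K) (v := y) (w := u) fun c hc => by
    by_cases e : c = 0
    · exact hy (by simp [hc, e])
    · exact hu c⁻¹ (by simp [hc, e])
  have h5 : ∀ χ : Dual F V, (∀ k : K, χ (k • (y + u)) = 0) → TV M (y + u) χ := fun χ hχ => by
    have := (tv_of_axis hK hr hφ h0 (χ := χ ∘ₗ (LinearMap.id + kN F ψ u)) fun k => by
      simpa [h3] using hχ k).conj (ψ := χ) (has_ktv hK h4) fun x => rfl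
    simpa [h3] using this
  have h6 : y + u ∉ kp F K y := fun h => by
    obtain ⟨k, hk⟩ := mem_kp.1 ((kp F K y).sub_mem h (self_mem_kp y))
    exact hu k (by simpa using hk)
  have h7 : y ∈ cen M := mem_cen_of_axes fun z hz => by
    by_contra! h8
    obtain ⟨k, rfl⟩ : ∃ k : K, z = k • y := by
      by_contra h9
      obtain ⟨χ, h10, h11⟩ := exists_dual_of_notMem (mem_kp.not.2 h9 : z ∉ kp F K y)
      have := hz χ fun c => tv_of_axis hK hr hφ h0 fun k => by simp [h11 _ (smul_mem_kp k y)]
      simp [h10] at this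
    obtain ⟨χ, h9, h10⟩ := exists_dual_of_notMem (v := k • y) (W := kp F K (y + u) ⊔ F ∙ y) (by
      intro h
      obtain ⟨_, h9, _, h10, e⟩ := Submodule.mem_sup.1 h
      obtain ⟨l, rfl⟩ := mem_kp.1 h9
      obtain ⟨c, rfl⟩ := Submodule.mem_span_singleton.1 h10
      by_cases hl : l = 0
      · exact h8 c (by simpa [hl] using e.symm)
      · refine h6 (mem_kp.2 ⟨l⁻¹ * (k - algebraMap F K c), ?_⟩)
        rw [mul_smul, sub_smul, algebraMap_smul, ← e, add_sub_cancel_right, inv_smul_smul₀ hl])
    obtain ⟨ρ, h11, h12⟩ := exists_dual_of_notMem h6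
    have := hz χ fun c => by
      simpa [h11] using (tv_of_axis hK hr hφ h0 (χ := c • ρ) fun k => by
        simp [h12 _ (smul_mem_kp k y)]).comm (h5 χ fun k =>
          h10 _ (Submodule.mem_sup_left (smul_mem_kp k _)))
          (h10 _ (Submodule.mem_sup_right (Submodule.mem_span_singleton_self y)))
    simp [h9] at this
  have h8 := eq_zero_of_orbit hK hr (u := 0) (z := y) (by simpa [mem_kp] using hy) (cen M).mkQ
    fun T hT _ => by simpa using hT.mem_cen h7
  rw [← (cen M).ker_mkQ, h8, LinearMap.ker_zero]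

end Cfsg.Agent.Cl.MSL
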