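import Mathlib
import Cfsg.Agent.Cl.MaxSLExtA
import Cfsg.Agent.Cl.MxLin2

/-!
# Overgroups of `SL_m(K)` in `GL(V)` for a field extension `K / F` of prime degree, II

Maximality of the normaliser of an extension field of prime degree.
-/

set_option autoImplicit false
set_option linter.unusedSectionVars false
set_option linter.unusedVariables false

namespace Cfsg.Agent.Cl.MSL

open Module

variable {F K V : Type*} [Field F] [Field K] [Algebra F K] [AddCommGroup V] [Module F V]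
  [Module K V] [IsScalarTower F K V] [FiniteDimensional F K] [FiniteDimensional K V]

variable (K) in
/-- The map is semilinear over the extension field. -/
def PK (T : V →ₗ[F] V) : Prop := ∀ k : K, ∃ l : K, ∀ z, T (k • z) = l • T z

theorem pk_of_kp (h2 : 2 ≤ finrank K V) {g : V ≃ₗ[F] V}
    (h : ∀ (v : V) (k : K), g (k • v) ∈ kp F K (g v)) : PK K (g : V →ₗ[F] V) := fun k => by
  have : Nontrivial V := Module.nontrivial_of_finrank_pos (R := K) (by omega)
  obtain ⟨z₀, h0⟩ := exists_ne (0 : V)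
  obtain ⟨l, hl⟩ := mem_kp.1 (h z₀ k)
  have h1 : ∀ z, g z ∉ kp F K (g z₀) → g (k • z) = l • g z := fun z hz => by
    obtain ⟨a, ha⟩ := mem_kp.1 (h z k)
    obtain ⟨b, hb⟩ := mem_kp.1 (h (z + z₀) k)
    rw [smul_add, map_add, ha, hl, map_add] at hb
    have e : (a - b) • g z = (b - l) • g z₀ := by linear_combination (norm := module) hb
    have hab : a = b := by
      by_contra hab
      refine hz (mem_kp.2 ⟨(a - b)⁻¹ * (b - l), ?_⟩)
      rw [mul_smul, ← e, inv_smul_smul₀ (sub_ne_zero.2 hab)]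
    rw [hab, sub_self, zero_smul, eq_comm, smul_eq_zero, sub_eq_zero] at e
    rw [ha, hab, e.resolve_right (g.map_ne_zero_iff.2 h0)]
  refine ⟨l, fun z => ?_⟩
  by_cases hz : g z ∈ kp F K (g z₀)
  · obtain ⟨w, hw⟩ := exists_not_smul h2 (g z₀)
    obtain ⟨w, rfl⟩ := g.surjective w
    have h3 := h1 w (notMem_kp.2 hw)
    have h4 := h1 (z + w) fun e => notMem_kp.2 hw (by
      simpa using (kp F K (g z₀)).sub_mem e hz)
    rw [smul_add, map_add, h3, map_add, smul_add] at h4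
    exact add_right_cancel h4
  · exact h1 z hz

variable {M : Subgroup (V ≃ₗ[F] V)}

variable (K M) in
/-- The images of the points over the extension field. -/
def SS (W : Submodule F V) : Prop :=
  ∃ g ∈ M, ∃ v : V, v ≠ 0 ∧ W = (kp F K v).map (g : V →ₗ[F] V)

variable (M) in
/-- There are many unipotent elements with commutator space `W`. -/
def TW (W : Submodule F V) : Prop :=
  ∀ z ∉ W, ∀ w ∈ W, ∃ N : V →ₗ[F] V, (∀ c : F, Has M fun x => x + (c • N) x) ∧ N z = w ∧
    (∀ x, N x ∈ W) ∧ (∀ x ∈ W, N x = 0) ∧ (w ≠ 0 → ∀ u ∈ W, ∃ x, N x = u)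

theorem ss_kp {v : V} (hv : v ≠ 0) : SS K M (kp F K v) := ⟨1, M.one_mem, v, hv, by simp⟩

theorem SS.map {W : Submodule F V} (h : SS K M W) {g : V ≃ₗ[F] V} (hg : g ∈ M) :
    SS K M (W.map (g : V →ₗ[F] V)) := by
  obtain ⟨k, hk, v, hv, rfl⟩ := h
  exact ⟨g * k, M.mul_mem hg hk, v, hv, by rw [← Submodule.map_comp]; rfl⟩

theorem SS.finrank_eq {W : Submodule F V} (h : SS K M W) : finrank F W = finrank F K := by
  obtain ⟨k, hk, v, hv, rfl⟩ := h
  rw [LinearEquiv.finrank_map_eq, finrank_kp hv]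

theorem SS.exists_notMem {W W' : Submodule F V} (h : SS K M W) (h' : SS K M W') (hne : W ≠ W') :
    ∃ x ∈ W, x ∉ W' := by
  have : FiniteDimensional F V := Module.Finite.trans K V
  by_contra! H
  exact hne (Submodule.eq_of_le_of_finrank_eq H (h.finrank_eq.trans h'.finrank_eq.symm))

theorem has_conj {N : V →ₗ[F] V} (h : Has M fun x => x + N x) {g : V ≃ₗ[F] V} (hg : g ∈ M) :
    Has M fun x => x + g (N (g.symm x)) :=
  (((has_of_mem hg).comp h).comp (has_symm hg)).congr fun x => by simp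

theorem exists_kN {v : V} {ψ : Dual K V} (h0 : ψ ≠ 0) {u : V} (hu : u ∈ kp F K v) :
    ∃ x, kN F ψ v x = u := by
  obtain ⟨k, rfl⟩ := mem_kp.1 hu
  obtain ⟨x, hx⟩ := exists_apply_one h0
  exact ⟨k • x, by simp [hx]⟩

theorem kN_eq_zero {v : V} {ψ : Dual K V} (h : ψ v = 0) (w : V) {u : V} (hu : u ∈ kp F K v) :
    kN F ψ w u = 0 := by
  obtain ⟨k, rfl⟩ := mem_kp.1 hu
  simp [h]

variable (hK : ∀ T : V →ₗ[K] V, Algebra.norm F (LinearMap.det T) = 1 → Has M T)
include hK

theorem has_kN {ψ : Dual K V} {w : V} (h : ψ w = 0) (c : F) :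
    Has M fun x => x + (c • kN F ψ w) x :=
  (has_ktv hK (ψ := ψ) (w := c • w) (by rw [dual_fsmul, h, smul_zero])).congr fun x => by
    simp [smul_comm c]

theorem SS.tw {W : Submodule F V} (h : SS K M W) : TW M W := by
  obtain ⟨g, hg, v, hv, rfl⟩ := h
  rintro z hz _ ⟨w, hw, rfl⟩
  obtain ⟨z, rfl⟩ := g.surjective z
  obtain ⟨ψ, h1, h2⟩ := exists_dual_pair (notMem_kp.1 fun h => hz (Submodule.mem_map_of_mem h))
  obtain ⟨k, rfl⟩ := mem_kp.1 hw
  refine ⟨(g : V →ₗ[F] V) ∘ₗ kN F (k • ψ) v ∘ₗ (g.symm : V →ₗ[F] V), fun c => ?_, by simp [h1],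
    fun x => Submodule.mem_map_of_mem (smul_mem_kp _ v), ?_, fun h0 => ?_⟩
  · exact (has_conj (has_kN hK (ψ := k • ψ) (w := v) (by simp [h2]) c) hg).congr fun x => by simp
  · rintro _ ⟨x, hx, rfl⟩
    simpa using kN_eq_zero (ψ := k • ψ) (by simp [h2]) v hx
  · rintro _ ⟨u, hu, rfl⟩
    obtain ⟨x, hx⟩ := exists_kN (F := F) (ψ := k • ψ) (smul_ne_zero (by
      rintro rfl; simp at h0) (fun e => by simp [e] at h1)) hu
    exact ⟨g x, by simpa using hx⟩

variable [Finite F] (hr : (finrank F K).Prime)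
include hr

theorem codim_one {d : ℕ}
    (hmax : ∀ W W', SS K M W → SS K M W' → W ≠ W' → finrank F (W ⊓ W' : Submodule F V) ≤ d)
    {W W' : Submodule F V} (hW : SS K M W) (hW' : SS K M W') (hne : W ≠ W')
    (hd : finrank F (W ⊓ W' : Submodule F V) = d) (h0 : 0 < d) {x : V} (hx : x ∈ W') (hx' : x ∉ W)
    {y : V} (hy : y ∈ W') : ∃ c : F, y - c • x ∈ W := by
  have : FiniteDimensional F V := Module.Finite.trans K V
  wlog hv : ∃ v, v ≠ 0 ∧ W = kp F K v generalizing W W' x y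
  · obtain ⟨g, hg, v, hv0, rfl⟩ := hW
    have e : ((kp F K v).map (g : V →ₗ[F] V)).map (g.symm : V →ₗ[F] V) = kp F K v := by
      rw [← Submodule.map_comp]; simp
    obtain ⟨c, hc⟩ := this (ss_kp hv0) (hW'.map (symm_mem hg))
      (fun h => hne (Submodule.map_injective_of_injective g.symm.injective (e.trans h))) (by
        rw [← e, ← Submodule.map_inf _ g.symm.injective, LinearEquiv.finrank_map_eq, hd])
      (x := g.symm x) (y := g.symm y) (Submodule.mem_map_of_mem hx)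
      (fun h => hx' ⟨_, h, by simp⟩) (Submodule.mem_map_of_mem hy) ⟨v, hv0, rfl⟩
    exact ⟨c, _, hc, by simp⟩
  obtain ⟨v, hv, rfl⟩ := hv
  have key : ∀ ψ : Dual K V, ψ v = 0 → ψ x • v ∈ W' → ψ y • v ∈ W' := fun ψ h1 h2 => by
    obtain ⟨t, ht, H⟩ := has_ktv hK h1
    have e : W'.map (t : V →ₗ[F] V) = W' := by
      by_contra hn
      have h3 := hmax _ _ (hW'.map ht) hW' hn
      refine absurd (h3.trans hd.ge) (not_le.2 (Submodule.finrank_lt_finrank_of_lt (lt_of_le_of_ne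
        (fun z hz => Submodule.mem_inf.2 ⟨⟨z, hz.2, ?_⟩, hz.2⟩) fun e => hx' ?_)))
      · simpa [H] using kN_eq_zero h1 v hz.1
      · have h4 : t x ∈ kp F K v ⊓ W' :=
          e ▸ ⟨Submodule.mem_map_of_mem hx, H x ▸ W'.add_mem hx h2⟩
        simpa [H] using (kp F K v).sub_mem h4.1 (smul_mem_kp (ψ x) v)
    have h3 : t y ∈ W' := e ▸ Submodule.mem_map_of_mem hy
    simpa [H] using W'.sub_mem h3 hy
  obtain ⟨w, hw, hw'⟩ := hW.exists_notMem hW' hne
  obtain ⟨k, rfl⟩ := mem_kp.1 hw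
  by_cases h1 : y ∈ Submodule.span K {v, x}
  · obtain ⟨a, κ, rfl⟩ := Submodule.mem_span_pair.1 h1
    by_cases h2 : ∃ c : F, κ = algebraMap F K c
    · obtain ⟨c, rfl⟩ := h2
      exact ⟨c, by simpa using smul_mem_kp a v⟩
    push Not at h2
    obtain ⟨ψ, h3, h4⟩ := exists_dual_pair (notMem_kp.1 hx')
    obtain ⟨u, hu, hu0⟩ := (kp F K v ⊓ W').exists_mem_ne_zero_of_ne_bot (by
      intro e; rw [e, finrank_bot] at hd; omega)
    obtain ⟨s, rfl⟩ := mem_kp.1 hu.1
    exact absurd (submodule_eq_top hr (W'.comap ((LinearMap.toSpanSingleton K V v).restrictScalars F))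
      h2 (fun s hs => by
        simpa [h3, h4, mul_comm] using key (s • ψ) (by simp [h4]) (by simpa [h3] using hs))
      (s := s) hu.2 (by rintro rfl; simp at hu0) k) hw'
  · obtain ⟨ψ, h3, h4⟩ := exists_dual_of_notMem h1
    have h5 := h4 v (Submodule.subset_span (by simp))
    have h6 := h4 x (Submodule.subset_span (by simp))
    exact absurd (by simpa [h3] using key (k • ψ) (by simp [h5]) (by simp [h6])) hw'

theorem cen_eq_top_of_eps (h2 : 2 ≤ finrank K V) {v x : V} {W' : Submodule F V} (hW' : SS K M W')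
    (hx : x ∈ W') (hx' : x ∉ kp F K v) {μ : Dual F V} (hμ : μ x = 1)
    (hμ' : ∀ y ∈ W', y - μ y • x ∈ kp F K v) {ε : V →ₗ[F] V} (h : Has M fun z => z + ε z)
    (h0 : ε ≠ 0) (h1 : ∀ z ∈ kp F K v, ε z = 0) (h3 : ∀ z, ε z ∈ kp F K v) (h4 : ∀ z, ε z ∈ W')
    {w : V} (hw : w ∉ W') : cen M = ⊤ := by
  obtain ⟨T, hT, hv, h5⟩ : ∃ T : V →ₗ[K] V, Has M T ∧ T v = v ∧ ε (T x) ≠ 0 := by
    by_contra! H
    exact h0 (eq_zero_of_orbit hK hr hx' ε H)
  have h6 : ∀ z ∈ kp F K v, T z = z := fun z hz => by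
    obtain ⟨k, rfl⟩ := mem_kp.1 hz
    rw [map_smul, hv]
  let η : V →ₗ[F] V := ε ∘ₗ T.restrictScalars F
  have h7 : Has M fun z => z + η z := hT.cancel (h.comp hT) fun z => by
    rw [map_add, h6 (η z) (h3 _)]; rfl
  have h8 : ∀ z ∈ kp F K v, η z = 0 := fun z hz => (congrArg ε (h6 z hz)).trans (h1 z hz)
  obtain ⟨N, hN, -, hN1, hN2, hN3⟩ := hW'.tw hK w hw x hx
  have hx0 : x ≠ 0 := fun e => by simp [e] at hμ
  have h9 : ∀ z, η (N z) = μ (N z) • η x := fun z => by
    have := h8 _ (hμ' _ (hN1 z))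
    rwa [map_sub, map_smul, sub_eq_zero] at this
  have h10 : ∀ z, N (η z) = 0 := fun z => hN2 _ (h4 _)
  refine cen_eq_top_of_axis hK hr h2 (y := η x) h5 (φ := μ ∘ₗ N) (fun c => ⟨by simp [h10],
    (h7.comm (hN c) (fun z => h8 _ (h3 _)) (fun z => by simp [hN2 _ (hN1 z)])
      (fun z => by simp [h10]) (fun z => by simp [h10])).congr fun z => ?_⟩) fun e => ?_
  · simp [h10, h9, smul_smul]
  · obtain ⟨z, hz⟩ := hN3 hx0 x hx
    simpa [hz, hμ] using LinearMap.congr_fun e z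

theorem cen_eq_top_of_plane (h2 : 2 ≤ finrank K V) {x y : V} {ω : K} (hxy : x ∉ kp F K y)
    (hy : y ≠ 0) (hω : ∀ c : F, ω ≠ algebraMap F K c)
    (hKω : ∀ k : K, ∃ a b : F, k = algebraMap F K a + b • ω)
    (hV : ∀ z, z ∈ Submodule.span K {y, x}) {W : Submodule F V} (hW : TW M W) (hx : x ∈ W)
    (hyW : y ∈ W) (hW' : ∀ z ∈ W, ∃ a b : F, z = a • x + b • y) : cen M = ⊤ := by
  obtain ⟨ψ, hψx, hψy⟩ := exists_dual_pair (notMem_kp.1 hxy)
  have hx0 : x ≠ 0 := fun e => by simp [e] at hψx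
  obtain ⟨χ, hχy, hχx⟩ := exists_dual_pair (F := K) (v := y) (w := x) fun c hc => by
    have := hψy
    rw [hc, map_smul, hψx, smul_eq_mul, mul_one] at this
    exact hy (by simp [hc, this])
  obtain ⟨A, hA, hA1, hA2, hA3, -⟩ := hW (ω • x) (fun h => by
    obtain ⟨a, b, e⟩ := hW' _ h
    have := congrArg ψ e
    simp only [map_smul, map_add, dual_fsmul, hψx, hψy, smul_eq_mul, mul_one, smul_zero,
      add_zero] at this
    exact hω a (by rw [this, Algebra.algebraMap_eq_smul_one])) y hyW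
  obtain ⟨im, him, him1⟩ := exists_dual_pair (F := F) (v := ω) (w := (1 : K)) fun c hc =>
    hω c (by rw [hc, Algebra.algebraMap_eq_smul_one])
  have him2 : ∀ c : F, im (algebraMap F K c) = 0 := fun c => by
    rw [Algebra.algebraMap_eq_smul_one, map_smul, him1, smul_zero]
  have hext : ∀ f g : V →ₗ[F] V, f x = g x → f y = g y → f (ω • x) = g (ω • x) →
      f (ω • y) = g (ω • y) → ∀ z, f z = g z := fun f g h1 h3 h4 h5 z => by
    obtain ⟨k, l, rfl⟩ := Submodule.mem_span_pair.1 (hV z)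
    obtain ⟨a, b, rfl⟩ := hKω k
    obtain ⟨c, d, rfl⟩ := hKω l
    simp [add_smul, h1, h3, h4, h5]
  let β : Dual F V := im ∘ₗ χ.restrictScalars F
  have hβ : β ≠ 0 := fun e => by simpa [β, hχy, him] using LinearMap.congr_fun e (ω • y)
  by_cases hq : ∃ c : F, c ≠ 0 ∧ c ≠ 1
  · obtain ⟨c, hc0, hc1⟩ := hq
    have hn : ∀ z ∈ W, χ z • x ∈ W := fun z hz => by
      obtain ⟨a, b, rfl⟩ := hW' z hz
      simpa [dual_fsmul, hχx, hχy] using W.smul_mem b hx
    have hAx : ∀ k : K, A (k • x) = im k • y := fun k => by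
      obtain ⟨a, b, rfl⟩ := hKω k
      simp [add_smul, hA3 x hx, hA1, him, him2]
    have h1 : ∀ e c : F, Has M fun z => z + e • (A z + c • (χ (A z) • x - β z • y) -
        (c * c) • β z • x) := fun e c =>
      (((has_kN hK hχx c).comp (hA e)).comp (has_kN hK hχx (-c))).congr fun z => by
        simp only [LinearMap.smul_apply, kN_apply, map_add, map_smul, hχx, hχy, hAx,
          β, LinearMap.comp_apply, LinearMap.restrictScalars_apply, smul_eq_mul, mul_zero,
          one_smul]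
        module
    refine cen_eq_top_of_axis hK hr h2 hx0 (φ := (c * c - c) • β) (fun e => ⟨by simp [β, hχx],
      (((h1 (e * c) 1).comp (h1 (-e) c)).comp (hA (e - e * c))).congr fun z => ?_⟩)
      (smul_ne_zero (by
        rw [← mul_sub_one]; exact mul_ne_zero hc0 (sub_ne_zero.2 hc1)) hβ)
    have h3 : β (A z) = 0 := by
      obtain ⟨a, b, e⟩ := hW' _ (hA2 z)
      simp [β, e, hχx, hχy, him1]
    have h4 : β (χ (A z) • x) = 0 := by simp [β, hχx]
    have h5 : β x = 0 := by simp [β, hχx]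
    have h6 : β y = 0 := by simp [β, hχy, him1]
    simp only [LinearMap.smul_apply, map_add, map_sub, map_smul, hA3 _ (hA2 z), hA3 _ hx, hA3 _ hyW,
      hA3 _ (hn _ (hA2 z)), h3, h4, h5, h6, smul_zero, add_zero, sub_zero, smul_eq_mul, mul_zero]
    module
  push Not at hq
  have hq' : ∀ c : F, c = 0 ∨ c = 1 := fun c => or_iff_not_imp_left.2 (hq c)
  have htwo : (2 : F) = 0 := (hq' 2).resolve_right fun e => one_ne_zero (α := F) (by
    linear_combination e)
  have hax : ∀ {v : V} {φ : Dual F V}, TV M v φ → φ ∈ axes M v := fun h c => by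
    rcases hq' c with rfl | rfl
    · rw [zero_smul]; exact tv_zero_right _
    · rwa [one_smul]
  have hA' : Has M fun z => z + A z := by simpa using hA 1
  obtain ⟨a, b, hab⟩ := hW' _ (hA2 (ω • y))
  let α : Dual F V := im ∘ₗ ψ.restrictScalars F
  rcases hq' a with rfl | rfl
  · refine cen_eq_top_of_axis hK hr h2 hy (φ := α + b • β) (hax ⟨by simp [α, β, hψy, hχy, him1],
      hA'.congr fun z => ?_⟩) fun e => ?_
    · rw [hext A ((α + b • β).smulRight y) ?_ ?_ ?_ ?_ z, LinearMap.smulRight_apply] <;>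
        simp [α, β, hψx, hψy, hχx, hχy, him1, him, hA3 _ hx, hA3 _ hyW, hA1, hab]
    · simpa [α, β, hψx, hχx, him] using LinearMap.congr_fun e (ω • x)
  have htwoK : (2 : K) = 0 := by rw [← map_ofNat (algebraMap F K) 2, htwo, map_zero]
  have hωω : ω * ω = 1 + ω := by
    obtain ⟨c, d, e⟩ := hKω (ω * ω)
    have h0 : ω ≠ 0 := by simpa using hω 0
    have h1 : ω ≠ 1 := by simpa using hω 1
    rcases hq' c with rfl | rfl <;> rcases hq' d with rfl | rfl
    · simp [h0] at e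
    · simp [h0, h1] at e
    · refine absurd (mul_self_eq_zero.1 (?_ : (ω - 1) * (ω - 1) = 0)) (sub_ne_zero.2 h1)
      simp only [map_one, zero_smul, add_zero] at e
      linear_combination e + (1 - ω) * htwoK
    · simpa using e
  have hlin : ∀ p q : V, (∀ z, ψ z • p + χ z • q = 0 → z = 0) →
      Has M fun z => ψ z • p + χ z • q := fun p q h => by
    refine hK (ψ.smulRight p + χ.smulRight q) (hq _ (Algebra.norm_ne_zero_iff.2 fun e => ?_))
    obtain ⟨z, hz, h0⟩ := LinearMap.det_eq_zero_iff_ker_ne_bot.1 e |>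
      Submodule.exists_mem_ne_zero_of_ne_bot
    exact h0 (h z hz)
  have hz : ∀ z, ψ z = 0 → χ z = 0 → z = 0 := fun z h1 h3 => by
    obtain ⟨k, l, rfl⟩ := Submodule.mem_span_pair.1 (hV z)
    simp only [map_add, map_smul, hψx, hψy, hχx, hχy, smul_eq_mul, mul_zero, mul_one, add_zero,
      zero_add] at h1 h3
    simp [h1, h3]
  have h0 : ω ≠ 0 := by simpa using hω 0
  have h1 := hlin (ω • y) (ω • x) fun z e => hz z (by simpa [hχx, hχy, h0] using congrArg χ e)
    (by simpa [hψx, hψy, h0] using congrArg ψ e)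
  have hb0 : ω + algebraMap F K b ≠ 0 := fun e => hω (-b) (by rw [map_neg]; linear_combination e)
  have h3 := hlin (ω • x) ((ω + algebraMap F K b) • y) fun z e =>
    hz z (by simpa [hψx, hψy, h0] using congrArg ψ e) (by simpa [hχx, hχy, hb0] using congrArg χ e)
  obtain ⟨re, hre, hre1⟩ := exists_dual_pair (F := F) (v := (1 : K)) (w := ω) fun c hc => by
    rcases hq' c with rfl | rfl
    · simp at hc
    · exact hω 1 (by simpa using hc.symm)
  let φ : Dual F V := re ∘ₗ (ψ + χ).restrictScalars F + b • β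
  obtain ⟨g, hg, H⟩ := ((hA'.comp h1).comp hA').comp h3
  have hωx : ω • ω • x = x + ω • x := by rw [smul_smul, hωω, add_smul, one_smul]
  have hωy : ω • ω • y = y + ω • y := by rw [smul_smul, hωω, add_smul, one_smul]
  have hvv : ∀ v : V, v + v = 0 := fun v => by rw [← two_smul F, htwo, zero_smul]
  have hφ : φ x = 1 ∧ φ y = 1 ∧ φ (ω • x) = 0 ∧ φ (ω • y) = b := by
    simp [φ, β, hψx, hψy, hχx, hχy, hre, hre1, him, him1]
  refine cen_eq_top_of_axis hK hr h2 (y := b • y + ω • x + ω • y) (fun e => ?_) (φ := φ)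
    (hax ⟨?_, g, hg, fun z => ?_⟩) fun e => by simpa [e] using hφ.1
  · simpa [dual_fsmul, hψx, hψy, h0] using congrArg ψ e
  · rw [map_add, map_add, map_smul, hφ.2.1, hφ.2.2.1, hφ.2.2.2, smul_eq_mul]
    linear_combination b * htwo
  · refine hext g (LinearMap.id + φ.smulRight _) ?_ ?_ ?_ ?_ z <;>
    rcases hq' b with rfl | rfl <;>
    simp only [LinearEquiv.coe_coe, H, LinearMap.add_apply, LinearMap.id_apply,
      LinearMap.smulRight_apply, hφ.1, hφ.2.1, hφ.2.2.1, hφ.2.2.2, map_add, map_smul, hψx, hψy, hχx,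
      hχy, smul_eq_mul, mul_one, mul_zero, zero_smul, one_smul, add_zero, zero_add, map_zero,
      map_one, add_smul, smul_add, hωx, hωy, hA1, hab, hA3 _ hx, hA3 _ hyW] <;>
    refine smul_right_injective V (one_ne_zero (α := K)) ?_ <;>
    dsimp only <;> match_scalars <;> grind

theorem cen_eq_top_of_not_pk (h2 : 2 ≤ finrank K V) {g : V ≃ₗ[F] V} (hg : g ∈ M)
    (hn : ¬ PK K (g : V →ₗ[F] V)) : cen M = ⊤ := by
  have : FiniteDimensional F V := Module.Finite.trans K V
  let S : Set ℕ := {d | ∃ W W', SS K M W ∧ SS K M W' ∧ W ≠ W' ∧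
    finrank F (W ⊓ W' : Submodule F V) = d}
  have hb : BddAbove S := ⟨finrank F V, by
    rintro _ ⟨W, W', -, -, -, rfl⟩; exact Submodule.finrank_le _⟩
  obtain ⟨d, hdS, hd0⟩ : ∃ d ∈ S, 0 < d := by
    obtain ⟨v, k, h⟩ : ∃ (v : V) (k : K), g (k • v) ∉ kp F K (g v) := by
      by_contra! H
      exact hn (pk_of_kp h2 H)
    have hv : v ≠ 0 := by rintro rfl; simp at h
    refine ⟨_, ⟨_, _, ss_kp (g.map_ne_zero_iff.2 hv), (ss_kp hv).map hg, fun e =>
      h (e ▸ Submodule.mem_map_of_mem (smul_mem_kp k v)), rfl⟩, ?_⟩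
    rw [pos_iff_ne_zero, Ne, Submodule.finrank_eq_zero, ← Ne, Submodule.ne_bot_iff]
    exact ⟨g v, ⟨self_mem_kp _, Submodule.mem_map_of_mem (self_mem_kp v)⟩, g.map_ne_zero_iff.2 hv⟩
  obtain ⟨W, W', hW, hW', hne, hd⟩ := Nat.sSup_mem ⟨d, hdS⟩ hb
  have h0 : 0 < sSup S := hd0.trans_le (le_csSup hb hdS)
  have hmax : ∀ W W', SS K M W → SS K M W' → W ≠ W' →
      finrank F (W ⊓ W' : Submodule F V) ≤ sSup S := fun W W' h h' e =>
    le_csSup hb ⟨W, W', h, h', e, rfl⟩
  wlog hv : ∃ v, v ≠ 0 ∧ W = kp F K v generalizing W W'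
  · obtain ⟨g, hg, v, hv0, rfl⟩ := hW
    have e : ((kp F K v).map (g : V →ₗ[F] V)).map (g.symm : V →ₗ[F] V) = kp F K v := by
      rw [← Submodule.map_comp]; simp
    exact this _ _ (ss_kp hv0) (hW'.map (symm_mem hg))
      (fun h => hne (Submodule.map_injective_of_injective g.symm.injective (e.trans h))) (by
        rw [← e, ← Submodule.map_inf _ g.symm.injective, LinearEquiv.finrank_map_eq, hd])
      ⟨v, hv0, rfl⟩
  obtain ⟨v, hv, rfl⟩ := hv
  obtain ⟨w, hw, hw'⟩ := hW.exists_notMem hW' hne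
  obtain ⟨x, hx, hx'⟩ := hW'.exists_notMem hW hne.symm
  obtain ⟨μ, hμ, hμ0⟩ := exists_dual_of_notMem hx'
  obtain ⟨ν, hν, hν0⟩ := exists_dual_of_notMem hw'
  have hμ1 : ∀ y ∈ W', y - μ y • x ∈ kp F K v := fun y hy => by
    obtain ⟨c, hc⟩ := codim_one hK hr hmax hW hW' hne hd h0 hx hx' hy
    have := hμ0 _ hc
    rw [map_sub, map_smul, hμ, smul_eq_mul, mul_one, sub_eq_zero] at this
    rwa [this]
  have hν1 : ∀ y ∈ kp F K v, y - ν y • w ∈ W' := fun y hy => by
    obtain ⟨c, hc⟩ := codim_one hK hr hmax hW' hW hne.symm (by rwa [inf_comm]) h0 hw hw' hy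
    have := hν0 _ hc
    rw [map_sub, map_smul, hν, smul_eq_mul, mul_one, sub_eq_zero] at this
    rwa [this]
  obtain ⟨y, ⟨hy, hy'⟩, hy0⟩ := (kp F K v ⊓ W').exists_mem_ne_zero_of_ne_bot (by
    intro e; rw [e, finrank_bot] at hd; omega)
  obtain ⟨N', hN', e', hN'1, hN'2, hN'3⟩ := hW'.tw hK w hw' y hy'
  have key : ∀ N : V →ₗ[F] V, (Has M fun z => z + N z) → (∀ z, N z ∈ kp F K v) →
      (∀ z ∈ kp F K v, N z = 0) → N x ∈ W' → (∃ z, μ (N' z) • N x ≠ ν (N z) • y) → cen M = ⊤ := by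
    intro N hN hN1 hN2 hN3 ⟨z, hz⟩
    have h3 : ∀ z, N (N' z) = μ (N' z) • N x := fun z => by
      have := hN2 _ (hμ1 _ (hN'1 z))
      rwa [map_sub, map_smul, sub_eq_zero] at this
    have h4 : ∀ z, N' (N z) = ν (N z) • y := fun z => by
      have := hN'2 _ (hν1 _ (hN1 z))
      rwa [map_sub, map_smul, sub_eq_zero, e'] at this
    refine cen_eq_top_of_eps hK hr h2 hW' hx hx' hμ hμ1 (ε := N ∘ₗ N' - N' ∘ₗ N)
      (hN.comm (by simpa using hN' 1) (fun z => hN2 _ (hN1 z)) (fun z => hN'2 _ (hN'1 z))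
        (fun z => by rw [h4, map_smul, hN2 _ hy, smul_zero])
        (fun z => by rw [h3, map_smul, hN'2 _ hN3, smul_zero]))
      (fun e => hz (by simpa [h3, h4, sub_eq_zero] using LinearMap.congr_fun e z))
      (fun z hz => ?_) (fun z => ?_) (fun z => ?_) hw'
    · have := hN'2 _ (hν1 z hz)
      rw [map_sub, map_smul, sub_eq_zero, e'] at this
      simp [hN2 z hz, this, hN2 _ hy]
    · simpa [h4] using (kp F K v).sub_mem (hN1 _) ((kp F K v).smul_mem _ hy)
    · simpa [h3] using W'.sub_mem (W'.smul_mem _ hN3) (hN'1 _)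
  by_cases hB : ∃ u ∈ kp F K v, u ∈ W' ∧ ∀ c : F, u ≠ c • y
  · obtain ⟨u, hu, hu', h3⟩ := hB
    obtain ⟨N, hN, e, hN1, hN2, -⟩ := hW.tw hK x hx' u hu
    obtain ⟨z, hz⟩ := hN'3 hy0 x hx
    exact key N (by simpa using hN 1) hN1 hN2 (e ▸ hu') ⟨z, by simpa [hz, hμ, e] using h3 _⟩
  by_cases hA : ∃ z, z ∉ Submodule.span K {v, x}
  · obtain ⟨z, hz⟩ := hA
    obtain ⟨ψ, h3, h4⟩ := exists_dual_of_notMem hz
    have h5 := h4 v (Submodule.subset_span (by simp))
    have h6 := h4 x (Submodule.subset_span (by simp))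
    obtain ⟨z, hz⟩ := exists_kN (F := F) (ψ := ψ) (fun e => by simp [e] at h3) hw
    exact key (kN F ψ v) (has_ktv hK h5) (fun z => smul_mem_kp _ v) (fun z hz => kN_eq_zero h5 v hz)
      (by simp [h6]) ⟨z, by rw [hz]; simpa [h6, hν] using hy0.symm⟩
  push Not at hA hB
  obtain ⟨k, rfl⟩ := mem_kp.1 hy
  have hk : k ≠ 0 := by rintro rfl; simp at hy0
  obtain ⟨l, rfl⟩ := mem_kp.1 hw
  have hinj : ∀ {a b : K}, a • v = b • v → a = b := fun h => smul_left_injective K hv h
  refine cen_eq_top_of_plane hK hr h2 (x := x) (y := k • v) (ω := l / k) (fun h => hx' ?_) hy0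
    (fun c hc => hw' ?_) (fun a => ?_) (fun z => ?_) (hW'.tw hK) hx hy' fun z hz => ?_
  · obtain ⟨a, rfl⟩ := mem_kp.1 h
    rw [smul_smul]; exact smul_mem_kp _ v
  · rw [(div_eq_iff hk).1 hc, mul_smul, algebraMap_smul]
    exact W'.smul_mem c hy'
  · obtain ⟨c, hc⟩ := hB _ ((kp F K v).sub_mem (smul_mem_kp (a * k) v)
      ((kp F K v).smul_mem (ν ((a * k) • v)) hw)) (hν1 _ (smul_mem_kp _ v))
    refine ⟨c, ν ((a * k) • v), ?_⟩
    generalize ν ((a * k) • v) = b at hc
    rw [← smul_assoc, ← smul_assoc, ← sub_smul] at hc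
    have := hinj hc
    simp only [Algebra.smul_def] at this ⊢
    field_simp
    linear_combination this
  · obtain ⟨a, b, rfl⟩ := Submodule.mem_span_pair.1 (hA z)
    exact Submodule.mem_span_pair.2 ⟨a / k, b, by rw [smul_smul, div_mul_cancel₀ _ hk]⟩
  · obtain ⟨c, hc⟩ := hB _ (hμ1 z hz) (W'.sub_mem hz (W'.smul_mem _ hx))
    exact ⟨μ z, c, by rw [← hc]; abel⟩

omit hK in
theorem exists_not_pk (h2 : 2 ≤ finrank K V) :
    ∃ T : V →ₗ[F] V, LinearMap.det T = 1 ∧ ¬ PK K T := by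
  have : FiniteDimensional F V := Module.Finite.trans K V
  have : Nontrivial V := Module.nontrivial_of_finrank_pos (R := K) (by omega)
  obtain ⟨v, hv⟩ := exists_ne (0 : V)
  obtain ⟨x, hx⟩ := exists_not_smul h2 v
  obtain ⟨b, -, hb⟩ := exists_norm_one (F := F) (K := K) hr.two_le
  obtain ⟨φ, h1, h3⟩ := exists_dual_of_notMem (v := b • v) (W := Submodule.span F {v, x}) (by
    intro h
    obtain ⟨c, d, e⟩ := Submodule.mem_span_pair.1 h
    by_cases hd : d = 0
    · rw [hd, zero_smul, add_zero, ← algebraMap_smul K] at e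
      exact hb c (smul_left_injective K hv e.symm)
    · refine hx (d⁻¹ • (b - algebraMap F K c)) ?_
      rw [smul_assoc, sub_smul, algebraMap_smul, ← e, add_sub_cancel_left, inv_smul_smul₀ hd])
  refine ⟨LinearMap.transvection φ x, det_tv_one (h3 x (Submodule.subset_span (by simp))),
    fun h => ?_⟩
  obtain ⟨l, hl⟩ := h b
  have := hl v
  simp only [LinearMap.transvection.apply, h1, h3 v (Submodule.subset_span (by simp)), one_smul,
    zero_smul, add_zero] at this
  exact hx (l - b) (by rw [sub_smul, ← this, add_sub_cancel_left])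

end Cfsg.Agent.Cl.MSL

namespace Cfsg.Agent.Cl.MSL

open Module Matrix Cfsg.Geo Cfsg.Agent.Cl.Max Cfsg.Agent.Cl.Mx in
theorem field_normalizer_maximal_aux {F : Type*} {ι : Type} [Field F] [Fintype ι] [DecidableEq ι]
    [Finite F] {K : Type*} [Field K] [Algebra F K] [FiniteDimensional F K]
    (hr' : (finrank F K).Prime) (hlt : finrank F K < Fintype.card ι) (ρ : K →ₐ[F] Matrix ι ι F) :
    IsCoatom (subalgebraNormalizer ρ.range) ∧
      IsMaximalIn (specialLinear ι F) (subalgebraNormalizer ρ.range ⊓ specialLinear ι F) := by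
  have : Nonempty ι := Fintype.card_pos_iff.1 (by omega)
  have : Finite K := Module.finite_of_finite F
  let _ : Module K (ι → F) := Module.compHom (ι → F)
    (((Matrix.toLinAlgEquiv' : Matrix ι ι F ≃ₐ[F] Module.End F (ι → F)) :
      Matrix ι ι F →+* Module.End F (ι → F)).comp (ρ : K →+* Matrix ι ι F))
  have hs : ∀ (k : K) (x : ι → F), k • x = ρ k *ᵥ x := fun _ _ => rfl
  have : IsScalarTower F K (ι → F) := ⟨fun c k x => by rw [hs, hs, map_smul, smul_mulVec]⟩
  have : FiniteDimensional K (ι → F) := Module.Finite.of_restrictScalars_finite F K _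
  have h2 : 2 ≤ finrank K (ι → F) := by
    have := Module.finrank_mul_finrank F K (ι → F)
    rw [finrank_fintype_fun_eq_card] at this
    by_contra! h
    nlinarith [hr'.pos]
  let e := LinearEquiv.refl F (ι → F)
  have hP : ∀ g : GL ι F, g ∈ subalgebraNormalizer ρ.range ↔
      PK K (toE e g : (ι → F) →ₗ[F] (ι → F)) := fun g => by
    refine ⟨fun h k => ?_, fun h => mem_subalgebraNormalizer_of_maps ?_⟩
    · obtain ⟨l, hl⟩ := (mem_subalgebraNormalizer.1 h (ρ k)).1 ⟨k, rfl⟩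
      exact ⟨l, fun z => (cj_mulVec g _ z).symm.trans (congrArg (· *ᵥ _) hl.symm)⟩
    · rintro _ ⟨k, rfl⟩
      obtain ⟨l, hl⟩ := h k
      refine ⟨l, Matrix.toLin'.injective (LinearMap.ext fun z => ?_)⟩
      obtain ⟨z, rfl⟩ := (toLinE g).surjective z
      exact ((cj_mulVec g _ z).trans (hl z)).symm
  have hlin : ∀ T : (ι → F) →ₗ[K] (ι → F), PK K (T.restrictScalars F) := fun T k =>
    ⟨k, T.map_smul k⟩
  have main : ∀ M : Subgroup ((ι → F) ≃ₗ[F] (ι → F)),
      (∀ T : (ι → F) →ₗ[F] (ι → F), LinearMap.det T = 1 → PK K T → Has M T) →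
      ∀ g ∈ M, ¬ PK K (g : (ι → F) →ₗ[F] (ι → F)) → cen M = ⊤ := fun M hM g hg hn =>
    cen_eq_top_of_not_pk (K := K) (fun T hT => hM (T.restrictScalars F)
      (by rw [LinearMap.det_restrictScalars, hT]) (hlin T)) hr' h2 hg hn
  have hmax := isMaximalIn_of_abs e _ (PK K) hP (exists_not_pk hr' h2)
    fun M hM _ => main M hM
  refine ⟨⟨fun h => hmax.1.ne (by rw [h, top_inf_eq]), fun M hM => ?_⟩, hmax⟩
  obtain ⟨g, hg, hn⟩ := SetLike.exists_of_lt hM
  have h1 := specialLinear_le_of_cen e (main _ (has_map_of_le e hP (inf_le_left.trans hM.le))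
    (toE e g) (Subgroup.mem_map_of_mem _ hg) fun h => hn ((hP g).2 h))
  refine eq_top_iff.2 fun a _ => ?_
  obtain ⟨b, hb⟩ := FiniteField.norm_surjective F K (a : Matrix ι ι F).det
  have : Nontrivial (ι → F) := inferInstance
  obtain ⟨v, hv⟩ := exists_ne (0 : ι → F)
  obtain ⟨ψ, hψ⟩ := exists_dual_one (F := K) hv
  have hd : LinearMap.det ((LinearMap.transvection ((b - 1) • ψ) v).restrictScalars F) =
      (a : Matrix ι ι F).det := by
    rw [LinearMap.det_restrictScalars, det_tv, ← hb]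
    simp [hψ]
  obtain ⟨m, hm⟩ := exists_toE_of_det e (hd.trans_ne a.det_ne_zero)
  have h3 : m ∈ M := hM.le ((hP m).2 (hm ▸ hlin _))
  rw [← hm, det_toE] at hd
  have h4 : m⁻¹ * a ∈ specialLinear ι F := by
    rw [specialLinear, MonoidHom.mem_ker, map_mul, map_inv, inv_mul_eq_one]
    exact Units.ext hd
  simpa using M.mul_mem h3 (h1 h4)

open Module Cfsg.Geo Cfsg.Agent.Cl.Max in
theorem field_normalizer_maximal {F : Type*} {ι : Type} [Field F] [Fintype ι] [DecidableEq ι]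
    [Finite F] {r : ℕ} (hr : r.Prime) (hlt : r < Fintype.card ι)
    {K : Subalgebra F (Matrix ι ι F)} (hK : IsFieldSubalgebra r K) :
    IsCoatom (subalgebraNormalizer K) ∧
      IsMaximalIn (specialLinear ι F) (subalgebraNormalizer K ⊓ specialLinear ι F) := by
  have : Nonempty ι := Fintype.card_pos_iff.1 (by omega)
  have := @field_normalizer_maximal_aux F ι _ _ _ _ K (IsFieldSubalgebra.isField hK).toField
    K.algebra (inferInstanceAs (Module.Finite F K)) (hK.finrank_eq ▸ hr)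
    (hK.finrank_eq.trans_lt hlt) K.val
  rwa [Subalgebra.range_val] at this

end Cfsg.Agent.Cl.MSL
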