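import Mathlib
import Cfsg.Agent.Cl.MaxSLCore
import Cfsg.Agent.Cl.MaxSpX

/-!
# McLaughlin's theorem for groups generated by full transvection subgroups

`Hyp H`: the group `H` is generated by transvections, all multiples of which lie in `H`, and has no
non-trivial element acting trivially on the factors of an invariant chain of length three.
Every non-trivial transvection of `H` then has its centre in a `Block`: an invariant subspace with
an invariant complement on which `H` has all transvections of `SL` or of a symplectic group.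
-/

set_option autoImplicit false
set_option linter.unusedSectionVars false
set_option linter.unusedVariables false

namespace Cfsg.Agent.Cl.MaxSp.McL

open Module Cfsg.Agent.Cl.MSL

variable {F V : Type*} [Field F] [AddCommGroup V] [Module F V]

/-- Invariance of a subspace under the transvections of `H`. -/
def Inv (H : Subgroup (V ≃ₗ[F] V)) (Z : Submodule F V) : Prop :=
  ∀ v φ, TV H v φ → ∀ z ∈ Z, φ z • v ∈ Z

/-- Invariance of a subspace of the dual. -/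
def InvD (H : Subgroup (V ≃ₗ[F] V)) (Φ : Submodule F (Dual F V)) : Prop :=
  ∀ v φ, TV H v φ → ∀ χ ∈ Φ, χ v • φ ∈ Φ

structure Hyp (H : Subgroup (V ≃ₗ[F] V)) : Prop where
  full : ∀ v φ (c : F), TV H v φ → TV H v (c • φ)
  gen : ∀ P : Subgroup (V ≃ₗ[F] V),
    (∀ g ∈ H, ∀ (v : V) (φ : Dual F V), φ v = 0 → (∀ x, g x = x + φ x • v) → g ∈ P) → H ≤ P
  k3 : ∀ Z₁ Z₂ : Submodule F V, (∀ g ∈ H, ∀ z ∈ Z₁, g z ∈ Z₁) → (∀ g ∈ H, ∀ z ∈ Z₂, g z ∈ Z₂) →
    ∀ g ∈ H, (∀ x ∈ Z₁, g x = x) → (∀ x ∈ Z₂, g x - x ∈ Z₁) → (∀ x, g x - x ∈ Z₂) → g = 1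
  two : (2 : F) ≠ 0

variable {H : Subgroup (V ≃ₗ[F] V)}

/-- The stabiliser of a subspace. -/
def stab (Z : Submodule F V) : Subgroup (V ≃ₗ[F] V) where
  carrier := {g | ∀ z, g z ∈ Z ↔ z ∈ Z}
  one_mem' := fun z => Iff.rfl
  mul_mem' := fun {a b} ha hb z => (ha (b z)).trans (hb z)
  inv_mem' := fun {a} ha z => by
    have := ha (a.symm z)
    rw [a.apply_symm_apply] at this
    exact this.symm

theorem Hyp.le_stab (h : Hyp H) {Z : Submodule F V} (hZ : Inv H Z) : H ≤ stab Z :=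
  h.gen _ fun g hg v φ h0 e z => by
    have ht : TV H v φ := ⟨h0, g, hg, e⟩
    rw [e]
    refine ⟨fun hz => ?_, fun hz => Z.add_mem hz (hZ v φ ht z hz)⟩
    have := hZ v φ ht _ hz
    rw [map_add, map_smul, h0, smul_zero, add_zero] at this
    simpa using Z.sub_mem hz this

theorem Hyp.maps (h : Hyp H) {Z : Submodule F V} (hZ : Inv H Z) : ∀ g ∈ H, ∀ z ∈ Z, g z ∈ Z :=
  fun g hg z hz => (h.le_stab hZ hg z).2 hz

theorem Inv.inf {Z Z' : Submodule F V} (h : Inv H Z) (h' : Inv H Z') : Inv H (Z ⊓ Z') :=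
  fun v φ ht z hz => ⟨h v φ ht z hz.1, h' v φ ht z hz.2⟩

theorem InvD.perp {Φ : Submodule F (Dual F V)} (h : InvD H Φ) : Inv H Φ.dualCoannihilator :=
  fun v φ ht z hz => by
    rw [Submodule.mem_dualCoannihilator] at hz ⊢
    intro χ hχ
    have := hz _ (h v φ ht χ hχ)
    simp only [LinearMap.smul_apply, smul_eq_mul, map_smul] at this ⊢
    linear_combination this

theorem Hyp.k2 (h : Hyp H) {Z : Submodule F V} (hZ : Inv H Z) {v : V} {φ : Dual F V}
    (ht : TV H v φ) (hv : v ∈ Z) (hφ : ∀ z ∈ Z, φ z = 0) : v = 0 ∨ φ = 0 := by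
  obtain ⟨h0, g, hg, e⟩ := ht
  have := h.k3 Z Z (h.maps hZ) (h.maps hZ) g hg (fun x hx => by simp [e, hφ x hx])
    (fun x hx => by simpa [e] using Z.smul_mem _ hv) fun x => by simpa [e] using Z.smul_mem _ hv
  by_contra! hc
  obtain ⟨x, hx⟩ := exists_apply_one hc.2
  have h1 : g x = x + φ x • v := e x
  rw [this, hx, one_smul] at h1
  exact hc.1 (by simpa using h1)

theorem Hyp.mem_axes (h : Hyp H) {v : V} {φ : Dual F V} : φ ∈ axes H v ↔ TV H v φ :=
  ⟨tv_of_mem_axes, fun ht c => h.full v φ c ht⟩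

theorem Hyp.full_left (h : Hyp H) {v : V} {φ : Dual F V} (ht : TV H v φ) (c : F) :
    TV H (c • v) φ := (h.full v φ c ht).smul_left

theorem Hyp.of_smul (h : Hyp H) {v : V} {φ : Dual F V} {c : F} (hc : c ≠ 0)
    (ht : TV H v (c • φ)) : TV H v φ := by
  simpa [smul_smul, hc] using h.full v _ c⁻¹ ht

theorem Hyp.of_smul_left (h : Hyp H) {v : V} {φ : Dual F V} {c : F} (hc : c ≠ 0)
    (ht : TV H (c • v) φ) : TV H v φ := h.of_smul hc ht.smul_right

theorem Hyp.exists_opp (h : Hyp H) {x : V} {φ : Dual F V} (ht : TV H x φ) (hx : x ≠ 0)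
    (hφ : φ ≠ 0) : ∃ y ψ φ₀, TV H y ψ ∧ TV H x φ₀ ∧ ψ x ≠ 0 ∧ φ₀ y ≠ 0 := by
  by_contra! hc
  have hZ : Inv H (axes H x).dualCoannihilator := fun y ψ hy z hz => by
    rw [Submodule.mem_dualCoannihilator] at hz ⊢
    intro χ hχ
    rw [map_smul, smul_eq_mul]
    by_cases e : χ y = 0
    · rw [e, mul_zero]
    have hχ' := h.mem_axes.1 hχ
    have e' : ψ x = 0 := by
      by_contra e'
      exact e (hc y ψ χ hy hχ' e')
    rw [hz ψ (h.mem_axes.2 (h.of_smul e (hχ'.comm hy e'))), zero_mul]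
  rcases h.k2 hZ ht ((Submodule.mem_dualCoannihilator _).2 fun χ hχ => (h.mem_axes.1 hχ).1)
    (fun z hz => (Submodule.mem_dualCoannihilator _).1 hz φ (h.mem_axes.2 ht)) with e | e
  exacts [hx e, hφ e]

/-- `H` contains all transvections inside `U` (relative to the complement `Z`). -/
def TypeSL (H : Subgroup (V ≃ₗ[F] V)) (U Z : Submodule F V) : Prop :=
  ∀ u ∈ U, ∀ χ : Dual F V, (∀ z ∈ Z, χ z = 0) → χ u = 0 → TV H u χ

/-- `H` acts on `U` as the symplectic group of a form. -/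
def TypeSp (H : Subgroup (V ≃ₗ[F] V)) (U Z : Submodule F V) : Prop :=
  ∃ θ : U →ₗ[F] Dual F V, (∀ u : U, TV H u (θ u)) ∧ (∀ u, ∀ z ∈ Z, θ u z = 0) ∧
    (∀ u, θ u = 0 → u = 0) ∧
    ∀ y ω, TV H y ω → ∀ u u' : U, (u' : V) = u + ω u • y → θ u' = θ u - θ u y • ω

structure PreBlock (H : Subgroup (V ≃ₗ[F] V)) (U Z : Submodule F V) : Prop where
  compl : IsCompl U Z
  invU : Inv H U
  invZ : Inv H Z
  cent : ∀ u ∈ U, u ≠ 0 → ∃ χ : Dual F V, χ ≠ 0 ∧ TV H u χ

theorem PreBlock.eq_zero {U Z : Submodule F V} (h : PreBlock H U Z) {x : V} (hU : x ∈ U)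
    (hZ : x ∈ Z) : x = 0 := Submodule.disjoint_def.1 h.compl.disjoint x hU hZ

theorem PreBlock.exists_add {U Z : Submodule F V} (h : PreBlock H U Z) (x : V) :
    ∃ u ∈ U, ∃ z ∈ Z, u + z = x := Submodule.mem_sup.1 (by rw [h.compl.sup_eq_top]; trivial)

/-- Every transvection lies inside `U` or inside the complement. -/
theorem PreBlock.cases {U Z : Submodule F V} (h : PreBlock H U Z) {w : V} {ψ : Dual F V}
    (ht : TV H w ψ) (hw : w ≠ 0) (hψ : ψ ≠ 0) :
    (w ∈ U ∧ ∀ z ∈ Z, ψ z = 0) ∨ (w ∈ Z ∧ ∀ u ∈ U, ψ u = 0) := by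
  have k1 : ∀ u ∈ U, ψ u ≠ 0 → w ∈ U := fun u hu e => (U.smul_mem_iff e).1 (h.invU w ψ ht u hu)
  have k2 : ∀ u ∈ Z, ψ u ≠ 0 → w ∈ Z := fun u hu e => (Z.smul_mem_iff e).1 (h.invZ w ψ ht u hu)
  by_cases e : ∀ u ∈ U, ψ u = 0
  · refine Or.inr ⟨?_, e⟩
    obtain ⟨x, hx⟩ := exists_apply_one hψ
    obtain ⟨u, hu, z, hz, rfl⟩ := h.exists_add x
    refine k2 z hz ?_
    rw [map_add, e u hu, zero_add] at hx
    simp [hx]
  · push Not at e
    obtain ⟨u, hu, e⟩ := e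
    refine Or.inl ⟨k1 u hu e, fun z hz => ?_⟩
    by_contra e'
    exact hw (h.eq_zero (k1 u hu e) (k2 z hz e'))

theorem PreBlock.le_of_ne {U Z U' Z' : Submodule F V} (h : PreBlock H U Z) (h' : PreBlock H U' Z')
    (hne : U ≠ U') : U ≤ Z' := by
  have key : ∀ {U Z U' Z' : Submodule F V}, PreBlock H U Z → PreBlock H U' Z' → U ≤ U' ∨ U ≤ Z' :=
    fun {U Z U' Z'} h h' => le_or_le fun x hx => by
      by_cases h0 : x = 0
      · exact Or.inl (h0 ▸ U'.zero_mem)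
      obtain ⟨χ, hχ, ht⟩ := h.cent x hx h0
      exact (h'.cases ht h0 hχ).imp And.left And.left
  rcases key h h' with e | e
  · rcases key h' h with e' | e'
    · exact absurd (le_antisymm e e') hne
    · intro x hx
      rw [h.eq_zero hx (e' (e hx))]; exact Z'.zero_mem
  · exact e

section SL

variable [FiniteDimensional F V]

/-- The block defined by an invariant subspace of the dual. -/
theorem Hyp.block_of_invD (h : Hyp H) {Φ : Submodule F (Dual F V)} (hΦ : InvD H Φ)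
    (h2 : ∀ y, ∃ χ ∈ Φ, χ ≠ 0 ∧ χ y = 0) {x : V} (hx : x ≠ 0)
    (hxΦ : ∀ χ ∈ Φ, χ x = 0 → TV H x χ) :
    ∃ U Z, PreBlock H U Z ∧ TypeSL H U Z ∧ x ∈ U := by
  have hZ := hΦ.perp
  set Z := Φ.dualCoannihilator with hZdef
  have mZ : ∀ z, z ∈ Z ↔ ∀ χ ∈ Φ, χ z = 0 := fun z => Submodule.mem_dualCoannihilator z
  have mΦ : ∀ χ : Dual F V, (∀ z ∈ Z, χ z = 0) → χ ∈ Φ := fun χ hχ =>
    mem_of_forall_zero Φ fun z hz => hχ z ((mZ z).2 hz)
  have kz : ∀ z ∈ Z, ∀ χ ∈ Φ, χ ≠ 0 → TV H z χ → z = 0 := fun z hz χ hχ h0 ht =>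
    (h.k2 hZ ht hz fun z' hz' => (mZ z').1 hz' χ hχ).resolve_right h0
  have hsm : ∀ (c : F) (v : V), (∀ χ ∈ Φ, χ v = 0 → TV H v χ) →
      ∀ χ ∈ Φ, χ (c • v) = 0 → TV H (c • v) χ := fun c v hv χ hχ e => by
    by_cases hc : c = 0
    · rw [hc, zero_smul]; exact tv_zero_left χ
    · exact h.full_left (hv χ hχ (by simpa [hc] using e)) c
  let U : Submodule F V :=
    { carrier := {v | ∀ χ ∈ Φ, χ v = 0 → TV H v χ}
      zero_mem' := fun χ _ _ => tv_zero_left χ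
      smul_mem' := hsm
      add_mem' := fun {v w} hv hw χ hχ e => by
        by_cases hd : ∃ ψ ∈ Φ, ψ v = 0 ∧ ψ w ≠ 0
        · obtain ⟨ψ, hψ, h3, h1⟩ := hd
          have h4 := hv ((ψ w)⁻¹ • ψ) (Φ.smul_mem _ hψ) (by simp [h3])
          have h5 := (hw (χ + χ v • (ψ w)⁻¹ • ψ)
            (Φ.add_mem hχ (Φ.smul_mem _ (Φ.smul_mem _ hψ))) (by
            rw [map_add] at e
            simp only [LinearMap.add_apply, LinearMap.smul_apply, smul_eq_mul, inv_mul_cancel₀ h1]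
            linear_combination e)).move h4
          simp only [LinearMap.smul_apply, smul_eq_mul, inv_mul_cancel₀ h1, one_smul,
            LinearMap.add_apply, h3, mul_zero, add_zero, add_sub_cancel_right] at h5
          rwa [add_comm]
        · push Not at hd
          obtain ⟨χ₀, hχ₀, h0, e0⟩ := h2 v
          by_cases hv0 : v ∈ Z
          · rw [kz v hv0 χ₀ hχ₀ h0 (hv χ₀ hχ₀ e0), zero_add] at e ⊢
            exact hw χ hχ e
          obtain ⟨ψ, hψ, hψv⟩ : ∃ ψ ∈ Φ, ψ v ≠ 0 := by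
            by_contra! hc
            exact hv0 ((mZ v).2 hc)
          have hz : w - (ψ w / ψ v) • v ∈ Z := (mZ _).2 fun ω hω => by
            have := hd (ω - (ω v / ψ v) • ψ) (Φ.sub_mem hω (Φ.smul_mem _ hψ)) (by
              simp only [LinearMap.sub_apply, LinearMap.smul_apply, smul_eq_mul]; field_simp; ring)
            simp only [LinearMap.sub_apply, LinearMap.smul_apply, smul_eq_mul, map_sub,
              map_smul] at this ⊢
            rw [← this]; field_simp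
          have := kz _ hz χ₀ hχ₀ h0
            ((hw χ₀ hχ₀ (hd χ₀ hχ₀ e0)).sub_left (h.full_left (hv χ₀ hχ₀ e0) _))
          have e1 : v + w = (1 + ψ w / ψ v) • v := by
            rw [sub_eq_zero.1 this]; simp only [map_smul, smul_eq_mul]
            match_scalars; field_simp
          rw [e1] at e ⊢
          exact hsm _ v hv χ hχ e }
  have mU : ∀ v, v ∈ U ↔ ∀ χ ∈ Φ, χ v = 0 → TV H v χ := fun v => Iff.rfl
  have hU : Inv H U := fun w ψ ht u hu => by
    have : u + ψ u • w ∈ U := (mU _).2 fun χ hχ e => by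
      have := ((mU u).1 hu (χ + χ w • ψ) (Φ.add_mem hχ (hΦ w ψ ht χ hχ)) (by
        simp only [map_add, map_smul, smul_eq_mul, LinearMap.add_apply,
          LinearMap.smul_apply] at e ⊢
        linear_combination e)).move ht
      simpa [ht.1] using this
    simpa using U.sub_mem this hu
  refine ⟨U, Z, ⟨⟨Submodule.disjoint_def.2 fun v hv hz => ?_, codisjoint_iff.2 ?_⟩, hU, hZ,
    fun u hu _ => ?_⟩, fun u hu χ hχ e => (mU u).1 hu χ (mΦ χ hχ) e, hxΦ⟩
  · obtain ⟨χ, hχ, h0, e⟩ := h2 v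
    exact kz v hz χ hχ h0 ((mU v).1 hv χ hχ e)
  · by_contra hc
    obtain ⟨y, -, hy⟩ := SetLike.exists_of_lt (lt_top_iff_ne_top.2 hc)
    obtain ⟨χ, h1, h3⟩ := exists_dual_of_notMem hy
    have hχ := mΦ χ fun z hz => h3 z (Submodule.mem_sup_right hz)
    have hxU : x ∈ U := hxΦ
    rcases h.k2 hU (hxΦ χ hχ (h3 x (Submodule.mem_sup_left hxU))) hxU
      (fun u hu => h3 u (Submodule.mem_sup_left hu)) with e | e
    · exact hx e
    · simp [e] at h1
  · obtain ⟨χ, hχ, h0, e⟩ := h2 u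
    exact ⟨χ, h0, (mU u).1 hu χ hχ e⟩

/-- A centre with two independent axes lies in a block of type `SL`. -/
theorem Hyp.block_sl (h : Hyp H) {x : V} {φ φ' : Dual F V} (hx : x ≠ 0) (ht : TV H x φ)
    (ht' : TV H x φ') (hφ : φ ≠ 0) (hind : ∀ c : F, φ' ≠ c • φ) :
    ∃ U Z, PreBlock H U Z ∧ TypeSL H U Z ∧ x ∈ U := by
  obtain ⟨y, ψ, φ₀, hy, hφ₀, h1, h2⟩ := h.exists_opp ht hx hφ
  obtain ⟨χ₀, hχ₀, h0, hχy⟩ : ∃ χ₀, TV H x χ₀ ∧ χ₀ ≠ 0 ∧ χ₀ y = 0 := by
    by_cases e : φ y = 0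
    · exact ⟨φ, ht, hφ, e⟩
    · exact ⟨φ' - (φ' y / φ y) • φ, ht'.sub_right (h.full _ _ _ ht), sub_ne_zero.2 (hind _), by
        simp [e]⟩
  let Ψ : Submodule F (Dual F V) := axes H x ⊔ F ∙ ψ
  have hψΨ : ψ ∈ Ψ := Submodule.mem_sup_right (Submodule.mem_span_singleton_self ψ)
  have hxΨ : ∀ χ, TV H x χ → χ ∈ Ψ := fun χ hχ => Submodule.mem_sup_left (h.mem_axes.2 hχ)
  have hΨx : ∀ χ ∈ Ψ, χ x = 0 → TV H x χ := fun χ hχ e => by
    obtain ⟨a, ha, b, hb, rfl⟩ := Submodule.mem_sup.1 hχ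
    obtain ⟨c, rfl⟩ := Submodule.mem_span_singleton.1 hb
    have ha' := h.mem_axes.1 ha
    have : c = 0 := by simpa [ha'.1, h1] using e
    simpa [this] using ha'
  have step : ∀ u w ω, (∀ χ, TV H u χ → χ ∈ Ψ) → TV H w ω → ω ∈ Ψ →
      ∀ χ, TV H (u + ω u • w) χ → χ ∈ Ψ := fun u w ω hu hw hω χ hχ => by
    have := hχ.move hw.neg_right
    simp only [LinearMap.neg_apply, map_add, map_smul, hw.1, smul_zero, add_zero, neg_smul,
      add_neg_cancel_right, neg_zero] at this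
    have h3 := Ψ.sub_mem (hu _ this) (Ψ.smul_mem (χ w) hω)
    simpa using h3
  have hyΨ : ∀ χ, TV H y χ → χ ∈ Ψ := by
    have s1 := step x y _ hxΨ (h.full _ _ (ψ x)⁻¹ hy) (Ψ.smul_mem _ hψΨ)
    have s2 := step _ x _ s1 (h.full _ _ (-(φ₀ y)⁻¹) hφ₀) (Ψ.smul_mem _ (hxΨ _ hφ₀))
    simpa [h1, h2, hφ₀.1] using s2
  have hχ₀y : TV H y χ₀ := h.of_smul h1 (hy.comm hχ₀ hχy)
  have claim : ∀ z ω χ, TV H z ω → TV H x χ → χ y = 0 → χ z ≠ 0 → ω ∈ Ψ := by
    intro z ω χ hz hχ e e'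
    by_cases hω : ω x = 0
    · exact hxΨ ω (h.of_smul e' (hχ.comm hz hω))
    have hχ' : TV H y χ := h.of_smul h1 (hy.comm hχ e)
    have s1 := step y x _ hyΨ (h.full _ _ (-(ω y / ω x) * (φ₀ y)⁻¹) hφ₀)
      (Ψ.smul_mem _ (hxΨ _ hφ₀))
    simp only [LinearMap.smul_apply, smul_eq_mul, mul_assoc, inv_mul_cancel₀ h2, mul_one] at s1
    exact s1 ω (h.of_smul e' ((hχ'.add_left (h.full_left hχ _)).comm hz (by simp [hω])))
  let G : Set (Dual F V) := {ω | ∃ z χ, TV H z ω ∧ TV H x χ ∧ χ y = 0 ∧ χ z ≠ 0}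
  have hGΨ : Submodule.span F G ≤ Ψ :=
    Submodule.span_le.2 fun ω ⟨z, χ, a, b, c, d⟩ => claim z ω χ a b c d
  have hinv : InvD H (Submodule.span F G) := fun w η hw ω hω => by
    induction hω using Submodule.span_induction with
    | zero => simp
    | add a b _ _ ha hb => simpa [add_smul] using Submodule.add_mem _ ha hb
    | smul c a _ ha => simpa [mul_smul] using Submodule.smul_mem _ c ha
    | mem ω hω =>
      obtain ⟨z, χ, a, b, c, d⟩ := hω
      by_cases e : χ w = 0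
      · have h3 : ω - ω w • η ∈ Submodule.span F G :=
          Submodule.subset_span ⟨_, χ, a.move hw, b, c, by simpa [e] using d⟩
        have h4 : ω ∈ Submodule.span F G := Submodule.subset_span ⟨z, χ, a, b, c, d⟩
        simpa using Submodule.sub_mem _ h4 h3
      · exact Submodule.smul_mem _ _ (Submodule.subset_span ⟨w, χ, hw, b, c, e⟩)
  obtain ⟨z, ω, hz, hω0, hχz⟩ : ∃ z ω, TV H z ω ∧ ω ≠ 0 ∧ χ₀ z ≠ 0 := by
    by_contra! hc
    have hZ : Inv H (LinearMap.ker χ₀) := fun z ω hz u _ => by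
      by_cases e : ω = 0
      · simp [e]
      · simp [hc z ω hz e]
    rcases h.k2 hZ hχ₀ hχ₀.1 (fun z hz => hz) with e | e
    exacts [hx e, h0 e]
  have hωG : ω ∈ Submodule.span F G := Submodule.subset_span ⟨z, χ₀, hz, hχ₀, hχy, hχz⟩
  refine h.block_of_invD hinv (fun u => ?_) hx fun χ hχ => hΨx χ (hGΨ hχ)
  by_cases e : ω u = 0
  · exact ⟨ω, hωG, hω0, e⟩
  by_contra! hc
  have hmul : ∀ η ∈ Submodule.span F G, η = (η u / ω u) • ω := fun η hη => by
    by_contra hne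
    exact hc _ (Submodule.sub_mem _ hη (Submodule.smul_mem _ _ hωG)) (sub_ne_zero.2 hne)
      (by simp [e])
  rcases h.k2 hinv.perp hz ((Submodule.mem_dualCoannihilator _).2 fun η hη => by
    rw [hmul η hη]; simp [hz.1])
    (fun z hz => (Submodule.mem_dualCoannihilator _).1 hz ω hωG) with e | e
  · simp [e] at hχz
  · exact hω0 e

end SL

end Cfsg.Agent.Cl.MaxSp.McL
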