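import Mathlib
import Cfsg.Agent.Cl.MaxSpMcL

/-!
# McLaughlin's theorem: the symplectic blocks and the decomposition
-/

set_option autoImplicit false
set_option linter.unusedSectionVars false
set_option linter.unusedVariables false

namespace Cfsg.Agent.Cl.MaxSp.McL

open Module Cfsg.Agent.Cl.MSL

variable {F V : Type*} [Field F] [AddCommGroup V] [Module F V] [FiniteDimensional F V]
  {H : Subgroup (V ≃ₗ[F] V)}

/-- The vector lies in no block of type `SL`. -/
def Good (H : Subgroup (V ≃ₗ[F] V)) (x : V) : Prop :=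
  ¬ ∃ U Z, PreBlock H U Z ∧ TypeSL H U Z ∧ x ∈ U

theorem Hyp.good_axes (h : Hyp H) {x : V} {φ φ' : Dual F V} (hg : Good H x) (hx : x ≠ 0)
    (ht : TV H x φ) (ht' : TV H x φ') (hφ : φ ≠ 0) : ∃ c : F, φ' = c • φ := by
  by_contra! hc
  exact hg (h.block_sl hx ht ht' hφ hc)

theorem Hyp.sym1 (h : Hyp H) {x w : V} {φ ψ : Dual F V} (hg : Good H x) (hx : x ≠ 0)
    (ht : TV H x φ) (hw : TV H w ψ) (hψ : ψ ≠ 0) (e : ψ x = 0) : φ w = 0 := by
  by_contra e'
  have hφ : φ ≠ 0 := by rintro rfl; simp at e'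
  obtain ⟨c, hc⟩ := h.good_axes hg hx ht (h.of_smul e' (ht.comm hw e)) hφ
  have := hw.1
  rw [hc] at this hψ
  simp only [LinearMap.smul_apply, smul_eq_mul, mul_eq_zero, e', or_false] at this
  simp [this] at hψ

theorem Good.of_adj {x w : V} {φ : Dual F V} (hg : Good H x) (hx : x ≠ 0) (ht : TV H x φ)
    (e : φ w ≠ 0) : Good H w := fun ⟨U, Z, hB, hS, hw⟩ => by
  rcases hB.cases ht hx (by rintro rfl; simp at e) with k | k
  · exact hg ⟨U, Z, hB, hS, k.1⟩
  · exact e (k.2 w hw)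

theorem Hyp.sym2 (h : Hyp H) {x w : V} {φ ψ : Dual F V} (hg : Good H x) (hx : x ≠ 0)
    (ht : TV H x φ) (hφ : φ ≠ 0) (hw : TV H w ψ) (hw0 : w ≠ 0) (e : φ w = 0) : ψ x = 0 := by
  by_cases hgw : Good H w
  · exact h.sym1 hgw hw0 hw ht hφ e
  · obtain ⟨U, Z, hB, hS, hwU⟩ := not_not.1 hgw
    by_cases hψ : ψ = 0
    · simp [hψ]
    rcases hB.cases ht hx hφ with k | k
    · exact absurd ⟨U, Z, hB, hS, k.1⟩ hg
    · rcases hB.cases hw hw0 hψ with l | l
      · exact l.2 x k.1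
      · exact absurd (hB.eq_zero hwU l.1) hw0

/-- The pairing on `V × V*`. -/
def pairB (F V : Type*) [Field F] [AddCommGroup V] [Module F V] :
    LinearMap.BilinForm F (V × Dual F V) :=
  LinearMap.mk₂ F (fun s t => t.2 s.1) (fun a b c => by simp) (fun a b c => by simp)
    (fun a b c => by simp) fun a b c => by simp

@[simp] theorem pairB_apply (s t : V × Dual F V) : pairB F V s t = t.2 s.1 := rfl

theorem Hyp.block_of_S (h : Hyp H) {S : Submodule F (V × Dual F V)}
    (hS : ∀ s ∈ S, TV H s.1 s.2)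
    (hinv : ∀ y ω, TV H y ω → ∀ s ∈ S, (s.1 + ω s.1 • y, s.2 - s.2 y • ω) ∈ S)
    (hrad : ∀ s ∈ S, (∀ t ∈ S, t.2 s.1 = 0) → s = 0)
    (hrad' : ∀ s ∈ S, (∀ t ∈ S, s.2 t.1 = 0) → s = 0) :
    ∃ U Z, PreBlock H U Z ∧ TypeSp H U Z ∧ ∀ s ∈ S, s.1 ∈ U := by
  let U := S.map (LinearMap.fst F V (Dual F V))
  let Φ := S.map (LinearMap.snd F V (Dual F V))
  have mU : ∀ u, u ∈ U ↔ ∃ s ∈ S, s.1 = u := fun u => Submodule.mem_map
  have mΦ : ∀ u, u ∈ Φ ↔ ∃ s ∈ S, s.2 = u := fun u => Submodule.mem_map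
  have hU : Inv H U := fun y ω hy u hu => by
    obtain ⟨s, hs, rfl⟩ := (mU u).1 hu
    exact (mU _).2 ⟨_, S.sub_mem (hinv y ω hy s hs) hs, by simp⟩
  have hΦ : InvD H Φ := fun y ω hy u hu => by
    obtain ⟨s, hs, rfl⟩ := (mΦ u).1 hu
    exact (mΦ _).2 ⟨_, S.sub_mem hs (hinv y ω hy s hs), by simp⟩
  have mZ : ∀ z, z ∈ Φ.dualCoannihilator ↔ ∀ s ∈ S, s.2 z = 0 := fun z => by
    rw [Submodule.mem_dualCoannihilator]
    exact ⟨fun k s hs => k _ ((mΦ _).2 ⟨s, hs, rfl⟩), fun k χ hχ => by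
      obtain ⟨s, hs, rfl⟩ := (mΦ χ).1 hχ
      exact k s hs⟩
  have hinj : ∀ s ∈ S, s.1 = 0 → s = 0 := fun s hs e => hrad s hs fun t _ => by simp [e]
  let f : S →ₗ[F] U := (LinearMap.fst F V (Dual F V)).restrict fun s hs => (mU _).2 ⟨s, hs, rfl⟩
  have hf : Function.Bijective f := by
    refine ⟨fun s t e => Subtype.ext (sub_eq_zero.1 (hinj _ (S.sub_mem s.2 t.2) ?_)), fun u => ?_⟩
    · exact sub_eq_zero.2 (congrArg Subtype.val e)
    · obtain ⟨s, hs, e⟩ := (mU u).1 u.2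
      exact ⟨⟨s, hs⟩, Subtype.ext e⟩
  let e := LinearEquiv.ofBijective f hf
  let θ : U →ₗ[F] Dual F V := LinearMap.snd F V (Dual F V) ∘ₗ S.subtype ∘ₗ (e.symm : U →ₗ[F] S)
  have hθ : ∀ u : U, ((u : V), θ u) ∈ S := fun u => by
    have h1 : (e.symm u : V × Dual F V).1 = u := congrArg Subtype.val (e.apply_symm_apply u)
    have : ((u : V), θ u) = (e.symm u : V × Dual F V) := Prod.ext h1.symm rfl
    rw [this]; exact (e.symm u).2
  refine ⟨U, Φ.dualCoannihilator, ⟨⟨Submodule.disjoint_def.2 fun v hv hz => ?_,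
    codisjoint_iff.2 ?_⟩, hU, hΦ.perp, fun u hu h0 => ?_⟩, ⟨θ, fun u => hS _ (hθ u),
    fun u z hz => (mZ z).1 hz (u, θ u) (hθ u), fun u hu => ?_, fun y ω hy u u' hu => ?_⟩,
    fun s hs => (mU _).2 ⟨s, hs, rfl⟩⟩
  · obtain ⟨s, hs, rfl⟩ := (mU v).1 hv
    rw [hrad s hs ((mZ _).1 hz)]; rfl
  · by_contra hc
    obtain ⟨y, -, hy⟩ := SetLike.exists_of_lt (lt_top_iff_ne_top.2 hc)
    obtain ⟨χ, h1, h3⟩ := exists_dual_of_notMem hy
    have hχ : χ ∈ Φ := mem_of_forall_zero Φ fun z hz =>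
      h3 z (Submodule.mem_sup_right ((Submodule.mem_dualCoannihilator _).2 hz))
    obtain ⟨s, hs, rfl⟩ := (mΦ χ).1 hχ
    rw [hrad' s hs fun t ht => h3 _ (Submodule.mem_sup_left ((mU _).2 ⟨t, ht, rfl⟩))] at h1
    simp at h1
  · obtain ⟨s, hs, rfl⟩ := (mU u).1 hu
    refine ⟨s.2, fun e => h0 ?_, hS s hs⟩
    rw [hrad' s hs fun t _ => by simp [e]]; rfl
  · have := hrad' _ (hθ u) fun t _ => by simp [hu]
    exact Subtype.ext (congrArg Prod.fst this)
  · have := hinj _ (S.sub_mem (hθ u') (hinv y ω hy _ (hθ u))) (by simp [hu])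
    exact sub_eq_zero.1 (congrArg Prod.snd this)

/-- A good centre lies in a symplectic block. -/
theorem Hyp.block_sp (h : Hyp H) {v : V} {φ : Dual F V} (hg : Good H v) (hv : v ≠ 0)
    (ht : TV H v φ) (hφ : φ ≠ 0) : ∃ U Z, PreBlock H U Z ∧ TypeSp H U Z ∧ v ∈ U := by
  obtain ⟨w, ψ, hw, h1, h2⟩ : ∃ w ψ, TV H w ψ ∧ ψ v = 1 ∧ φ w = -1 := by
    obtain ⟨y, ψ, φ₀, hy, hφ₀, h1, h2⟩ := h.exists_opp ht hv hφ
    obtain ⟨c, rfl⟩ := h.good_axes hg hv ht hφ₀ hφ
    have h3 : φ y ≠ 0 := fun e => h2 (by simp [e])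
    exact ⟨(-(φ y)⁻¹) • y, (ψ v)⁻¹ • ψ, h.full_left (h.full _ _ _ hy) _, by simp [h1], by simp [h3]⟩
  have hw0 : w ≠ 0 := by rintro rfl; simp at h2
  have hψ0 : ψ ≠ 0 := by rintro rfl; simp at h1
  have hgw : Good H w := hg.of_adj hv ht (by simp [h2])
  -- the plane
  have plane : ∀ a b : F, (a ≠ 0 ∨ b ≠ 0) → TV H (a • v + b • w) (a • φ + b • ψ) ∧
      Good H (a • v + b • w) ∧ a • v + b • w ≠ 0 ∧ a • φ + b • ψ ≠ 0 := fun a b hab => by
    refine ⟨?_, ?_, fun e => ?_, fun e => ?_⟩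
    · by_cases ha : a = 0
      · simpa [ha] using h.full_left (h.full _ _ b hw) b
      · have := h.full_left (h.full _ _ a (ht.move (h.full _ _ (b / a) hw))) a
        convert this using 1
        · simp only [LinearMap.smul_apply, h1, smul_eq_mul]; match_scalars <;> field_simp
        · rw [h2]; match_scalars <;> field_simp
    · by_cases hb : b = 0
      · exact hgw.of_adj hw0 hw (by simpa [hb, h1, hw.1] using hab)
      · exact hg.of_adj hv ht (by simpa [h2, ht.1] using hb)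
    · have e1 := congrArg φ e
      have e2 := congrArg ψ e
      simp [h1, h2, ht.1, hw.1] at e1 e2
      simp [e1, e2] at hab
    · have e1 := LinearMap.congr_fun e v
      have e2 := LinearMap.congr_fun e w
      simp [h1, h2, ht.1, hw.1] at e1 e2
      simp [e1, e2] at hab
  let X : Set (V × Dual F V) :=
    {s | TV H s.1 s.2 ∧ s.2 v = -φ s.1 ∧ s.2 w = -ψ s.1 ∧ (φ s.1 ≠ 0 ∨ ψ s.1 ≠ 0)}
  have hXg : ∀ s ∈ X, Good H s.1 ∧ s.1 ≠ 0 ∧ s.2 ≠ 0 := fun s ⟨a, b, c, d⟩ => by
    refine ⟨d.elim (hg.of_adj hv ht) (hgw.of_adj hw0 hw), fun e => by simp [e] at d, fun e => ?_⟩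
    simp only [e, LinearMap.zero_apply, zero_eq_neg] at b c
    simp [b, c] at d
  have normal : ∀ y ω, TV H y ω → ω ≠ 0 → (φ y ≠ 0 ∨ ψ y ≠ 0) → ∃ c : F, c ≠ 0 ∧ (y, c • ω) ∈ X := by
    intro y ω hy hω hadj
    have hy0 : y ≠ 0 := by rintro rfl; simp at hadj
    obtain ⟨p1, p2, p3, p4⟩ := plane (ψ y) (-φ y) (by simpa [or_comm] using hadj)
    have k := h.sym2 p2 p3 p1 p4 hy hy0 (by simp; ring)
    simp only [map_add, map_smul, smul_eq_mul] at k
    by_cases e : φ y = 0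
    · have e' : ψ y ≠ 0 := by simpa [e] using hadj
      have k1 : ω w ≠ 0 := fun k1 => e' (h.sym1 hgw hw0 hw hy hω k1)
      refine ⟨-ψ y / ω w, by simp [e', k1], h.full _ _ _ hy, ?_, ?_, hadj⟩
      · have : ω v = 0 := by simpa [e, e'] using k
        simp [this, e]
      · simp [k1]
    · have k1 : ω v ≠ 0 := fun k1 => e (h.sym1 hg hv ht hy hω k1)
      refine ⟨-φ y / ω v, by simp [e, k1], h.full _ _ _ hy, by simp [k1], ?_, hadj⟩
      simp only [LinearMap.smul_apply, smul_eq_mul]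
      field_simp
      linear_combination k
  have tri : ∀ s ∈ X, ∀ t ∈ X, t.2 s.1 + s.2 t.1 = 0 := by
    rintro ⟨x, χ⟩ hs ⟨y, ω⟩ ht'
    obtain ⟨g1, g2, g3⟩ := hXg _ hs
    obtain ⟨l1, l2, l3⟩ := hXg _ ht'
    obtain ⟨a1, a2, a3, a4⟩ := hs
    obtain ⟨b1, b2, b3, b4⟩ := ht'
    simp only at *
    by_cases e : ω x = 0
    · rw [e, h.sym1 g1 g2 a1 b1 l3 e, add_zero]
    obtain ⟨a, b, k1, k2⟩ : ∃ a b : F, a * φ x + b * ψ x ≠ 0 ∧ a * φ y + b * ψ y ≠ 0 := by
      by_cases e1 : φ x = 0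
      · have e2 : ψ x ≠ 0 := by simpa [e1] using a4
        by_cases e3 : ψ y = 0
        · exact ⟨1, 1, by simpa [e1] using e2, by simpa [e3] using b4⟩
        · exact ⟨0, 1, by simpa using e2, by simpa using e3⟩
      · by_cases e3 : φ y = 0
        · have e4 : ψ y ≠ 0 := by simpa [e3] using b4
          by_cases e2 : ψ x = 0
          · exact ⟨1, 1, by simpa [e2] using e1, by simpa [e3] using e4⟩
          · exact ⟨0, 1, by simpa using e2, by simpa using e4⟩
        · exact ⟨1, 0, by simpa using e1, by simpa using e3⟩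
    obtain ⟨p1, p2, p3, p4⟩ := plane a b (by
      by_contra! hc
      simp [hc.1, hc.2] at k1)
    obtain ⟨c, hc⟩ : ∃ c : F, (a * φ x + b * ψ x) + c * ω x * (a * φ y + b * ψ y) = 0 :=
      ⟨-(a * φ x + b * ψ x) / (ω x * (a * φ y + b * ψ y)), by field_simp; ring⟩
    have hc0 : c ≠ 0 := by rintro rfl; simp [k1] at hc
    have m := a1.move (h.full _ _ c b1)
    have k := h.sym2 p2 p3 p1 p4 m (fun e0 => e (by simpa [b1.1] using congrArg ω e0)) (by
      simp only [map_add, map_smul, smul_eq_mul, LinearMap.add_apply, LinearMap.smul_apply]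
      linear_combination hc)
    simp only [map_add, map_smul, smul_eq_mul, LinearMap.sub_apply, LinearMap.smul_apply, a2, a3,
      b2, b3] at k
    have : c * (a * φ y + b * ψ y) * (ω x + χ y) = 0 := by linear_combination hc + k
    simpa [hc0, k2] using this
  let S := Submodule.span F X
  have hβ : ∀ s ∈ S, ∀ t ∈ S, t.2 s.1 + s.2 t.1 = 0 := fun s hs t ht => by
    induction hs, ht using Submodule.span_induction₂ with
    | mem_mem s t hs ht => exact tri s hs t ht
    | zero_left => simp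
    | zero_right => simp
    | add_left a b c _ _ _ ha hb =>
      simp only [Prod.fst_add, Prod.snd_add, map_add, LinearMap.add_apply]
      linear_combination ha + hb
    | add_right a b c _ _ _ ha hb =>
      simp only [Prod.fst_add, Prod.snd_add, map_add, LinearMap.add_apply]
      linear_combination ha + hb
    | smul_left r a b _ _ ha =>
      simp only [Prod.smul_fst, Prod.smul_snd, map_smul, LinearMap.smul_apply, smul_eq_mul]
      linear_combination r * ha
    | smul_right r a b _ _ ha =>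
      simp only [Prod.smul_fst, Prod.smul_snd, map_smul, LinearMap.smul_apply, smul_eq_mul]
      linear_combination r * ha
  have hinv : ∀ y ω, TV H y ω → ∀ s ∈ S, (s.1 + ω s.1 • y, s.2 - s.2 y • ω) ∈ S := by
    intro y ω hy s hs
    induction hs using Submodule.span_induction with
    | zero => convert S.zero_mem using 1; simp
    | add a b _ _ ha hb =>
      convert S.add_mem ha hb using 1
      refine Prod.ext ?_ ?_ <;>
        simp only [Prod.fst_add, Prod.snd_add, map_add, LinearMap.add_apply] <;> module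
    | smul c a _ ha =>
      convert S.smul_mem c ha using 1
      refine Prod.ext ?_ ?_ <;>
        simp only [Prod.smul_fst, Prod.smul_snd, map_smul, LinearMap.smul_apply, smul_eq_mul] <;>
        module
    | mem s hs =>
      by_cases hω : ω = 0
      · simpa [hω] using Submodule.subset_span hs
      by_cases hadj : φ y ≠ 0 ∨ ψ y ≠ 0
      · obtain ⟨c, hc, hX⟩ := normal y ω hy hω hadj
        have k := tri s hs _ hX
        simp only [LinearMap.smul_apply, smul_eq_mul] at k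
        convert S.add_mem (Submodule.subset_span hs)
          (S.smul_mem (ω s.1) (Submodule.subset_span hX)) using 1
        refine Prod.ext rfl ?_
        simp only [Prod.snd_add, Prod.smul_snd]
        rw [eq_neg_of_add_eq_zero_right k]; module
      · push Not at hadj
        by_cases hy0 : y = 0
        · simpa [hy0] using Submodule.subset_span hs
        have k1 := h.sym2 hg hv ht hφ hy hy0 hadj.1
        have k2 := h.sym2 hgw hw0 hw hψ0 hy hy0 hadj.2
        obtain ⟨a1, a2, a3, a4⟩ := hs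
        exact Submodule.subset_span ⟨a1.move hy, by simp [k1, hadj.1, a2],
          by simp [k2, hadj.2, a3], by simpa [hadj.1, hadj.2] using a4⟩
  have hvX : (v, φ) ∈ X := ⟨ht, by simp [ht.1], by simp [h1, h2], by simp [h1]⟩
  have hwX : (w, ψ) ∈ X := ⟨hw, by simp [h1, h2], by simp [hw.1], by simp [h2]⟩
  have hvS : (v, φ) ∈ S := Submodule.subset_span hvX
  have hwS : (w, ψ) ∈ S := Submodule.subset_span hwX
  let B : LinearMap.BilinForm F S := (pairB F V).restrict S
  have hB : ∀ s t : S, B s t = t.1.2 s.1.1 := fun s t => rfl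
  have hA : B.IsAlt := fun s => by
    have := hβ s s.2 s s.2
    rw [← two_mul, mul_eq_zero] at this
    exact this.resolve_left h.two
  have hcl : TClosed (V := S) B {s : S | TV H s.1.1 s.1.2} := by
    refine ⟨tv_zero_left _, fun a s hs => h.full_left (h.full _ _ a hs) a, fun {s t} hs ht e => ?_⟩
    have m := TV.move hs (h.full _ _ (t.1.2 s.1.1)⁻¹ ht)
    rw [hB] at e
    have k := eq_neg_of_add_eq_zero_right (hβ s s.2 t t.2)
    rw [k] at m
    simpa [e, smul_smul] using m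
  obtain ⟨U', u1, u2, u3, u4⟩ := hcl.exists_comp_pair hA ⟨-1, by simp, fun e => h.two (by
    linear_combination -e)⟩ (u := ⟨_, hvS⟩) (v := ⟨_, hwS⟩) ht hw (by simp [hB, h1])
  have hU' : U' = ⊤ := by
    have : ∀ s (hs : s ∈ S), (⟨s, hs⟩ : S) ∈ U' := fun s hs => by
      induction hs using Submodule.span_induction with
      | zero => exact U'.zero_mem
      | add a b _ _ ha hb => exact U'.add_mem ha hb
      | smul c a _ ha => exact U'.smul_mem c ha
      | mem s hs =>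
        refine (u3 _ hs.1).resolve_right fun k => ?_
        have k1 := k _ u1
        have k2 := k _ u2
        change s.2 v = 0 at k1
        change s.2 w = 0 at k2
        obtain ⟨-, a2, a3, a4⟩ := hs
        rw [k1, zero_eq_neg] at a2
        rw [k2, zero_eq_neg] at a3
        simp [a2, a3] at a4
    exact eq_top_iff.2 fun s _ => this s.1 s.2
  subst hU'
  have nr : ∀ s ∈ S, (∃ t ∈ S, s.2 t.1 ≠ 0) → TV H s.1 s.2 := fun s hs ⟨t, ht, e⟩ =>
    u4 ⟨s, hs⟩ trivial fun k => e (k ⟨t, ht⟩ trivial)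
  have hrad' : ∀ s ∈ S, (∀ t ∈ S, s.2 t.1 = 0) → s = 0 := by
    rintro ⟨z, ζ⟩ hs k
    have k' : ∀ t ∈ S, t.2 z = 0 := fun t ht => by simpa [k t ht] using hβ _ hs t ht
    have kv : ζ v = 0 := k _ hvS
    have kw : ζ w = 0 := k _ hwS
    have kz : φ z = 0 := k' _ hvS
    have t1 : TV H (v + z) (φ + ζ) := nr _ (S.add_mem hvS hs) ⟨_, hwS, by simp [h2, kw]⟩
    obtain ⟨g, hgH, e⟩ := t1.2.comp ht.neg_right.2
    have e' : ∀ x, g x = x + φ x • z + ζ x • v + ζ x • z := fun x => by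
      rw [e]
      simp only [map_add, map_smul, LinearMap.add_apply, LinearMap.neg_apply, ht.1, kv,
        smul_eq_mul]
      module
    let U := S.map (LinearMap.fst F V (Dual F V))
    let Φ := S.map (LinearMap.snd F V (Dual F V))
    have hU : Inv H U := fun y ω hy u ⟨s, hs, e⟩ =>
      ⟨_, S.sub_mem (hinv y ω hy s hs) hs, by simp [← e]⟩
    have hΦ : InvD H Φ := fun y ω hy u ⟨s, hs, e⟩ =>
      ⟨_, S.sub_mem hs (hinv y ω hy s hs), by simp [← e]⟩
    have hzU : z ∈ U := ⟨_, hs, rfl⟩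
    have hvU : v ∈ U := ⟨_, hvS, rfl⟩
    have hz1 : z ∈ U ⊓ Φ.dualCoannihilator :=
      ⟨hzU, (Submodule.mem_dualCoannihilator _).2 fun χ ⟨t, ht, e⟩ => e ▸ k' t ht⟩
    have g1 := h.k3 (U ⊓ Φ.dualCoannihilator) U (h.maps (hU.inf hΦ.perp)) (h.maps hU) g hgH
      (fun x hx => by
        have := (Submodule.mem_dualCoannihilator _).1 hx.2
        simp [e', this φ ⟨_, hvS, rfl⟩, this ζ ⟨_, hs, rfl⟩])
      (fun x ⟨t, ht, et⟩ => by
        have : ζ x = 0 := et ▸ k t ht
        simpa [e', this] using Submodule.smul_mem _ (φ x) hz1)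
      (fun x => by
        rw [e', show x + φ x • z + ζ x • v + ζ x • z - x = φ x • z + ζ x • v + ζ x • z by abel]
        exact U.add_mem (U.add_mem (U.smul_mem _ hzU) (U.smul_mem _ hvU)) (U.smul_mem _ hzU))
    subst g1
    have z0 : z = 0 := by simpa [h2, kw] using e' w
    subst z0
    refine Prod.ext rfl (LinearMap.ext fun x => ?_)
    simpa [hv] using e' x
  obtain ⟨U, Z, b1, b2, b3⟩ := h.block_of_S (S := S) (fun s hs => by
    by_cases e : ∀ t ∈ S, s.2 t.1 = 0
    · rw [hrad' s hs e]; exact tv_zero_left _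
    · push Not at e
      exact nr s hs e) hinv
    (fun s hs k => hrad' s hs fun t ht => by simpa [k t ht] using hβ s hs t ht) hrad'
  exact ⟨U, Z, b1, b2, b3 _ hvS⟩

theorem Hyp.exists_block (h : Hyp H) {v : V} {φ : Dual F V} (hv : v ≠ 0) (ht : TV H v φ)
    (hφ : φ ≠ 0) : ∃ U Z, PreBlock H U Z ∧ (TypeSL H U Z ∨ TypeSp H U Z) ∧ v ∈ U := by
  by_cases hg : Good H v
  · obtain ⟨U, Z, a, b, c⟩ := h.block_sp hg hv ht hφ
    exact ⟨U, Z, a, Or.inr b, c⟩
  · obtain ⟨U, Z, a, b, c⟩ := not_not.1 hg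
    exact ⟨U, Z, a, Or.inl b, c⟩

/-- Restriction of a group to an invariant subspace. -/
def resHom (K : Subgroup (V ≃ₗ[F] V)) (U : Submodule F V) (h : ∀ g ∈ K, ∀ u ∈ U, g u ∈ U) :
    K →* (U ≃ₗ[F] U) where
  toFun g :=
    { toFun := fun u => ⟨g.1 u, h g g.2 u u.2⟩
      invFun := fun u => ⟨g.1⁻¹ u, h _ (K.inv_mem g.2) u u.2⟩
      map_add' := fun a b => Subtype.ext (by simp)
      map_smul' := fun a b => Subtype.ext (by simp)
      left_inv := fun u => Subtype.ext (g.1.symm_apply_apply u)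
      right_inv := fun u => Subtype.ext (g.1.apply_symm_apply u) }
  map_one' := rfl
  map_mul' a b := rfl

theorem resHom_apply (K : Subgroup (V ≃ₗ[F] V)) (U : Submodule F V)
    (h : ∀ g ∈ K, ∀ u ∈ U, g u ∈ U) (g : K) (u : U) : (resHom K U h g u : V) = g.1 u := rfl

/-- The transvections of `H` inside `U`. -/
def TU (H : Subgroup (V ≃ₗ[F] V)) (U Z : Submodule F V) : Set (V ≃ₗ[F] V) :=
  {g | g ∈ H ∧ ∃ u ∈ U, ∃ χ : Dual F V, χ u = 0 ∧ (∀ z ∈ Z, χ z = 0) ∧ ∀ x, g x = x + χ x • u}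

/-- The group generated by the transvections of `H` inside `U`. -/
def KU (H : Subgroup (V ≃ₗ[F] V)) (U Z : Submodule F V) : Subgroup (V ≃ₗ[F] V) :=
  Subgroup.closure (TU H U Z)

variable {U Z : Submodule F V}

theorem KU_le : KU H U Z ≤ H := (Subgroup.closure_le _).2 fun g hg => hg.1

theorem KU_fix {g : V ≃ₗ[F] V} (hg : g ∈ KU H U Z) : ∀ z ∈ Z, g z = z := by
  induction hg using Subgroup.closure_induction with
  | mem g hg =>
    obtain ⟨-, u, -, χ, -, h1, e⟩ := hg
    intro z hz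
    simp [e, h1 z hz]
  | one => simp
  | mul a b _ _ ha hb => intro z hz; simp [hb z hz, ha z hz]
  | inv a _ ha => intro z hz; exact a.injective (by rw [ha z hz]; exact a.apply_symm_apply z)

theorem Hyp.KU_normal (h : Hyp H) (hB : PreBlock H U Z) : ((KU H U Z).subgroupOf H).Normal := by
  refine (Subgroup.normal_subgroupOf_iff KU_le).2 fun g a hg ha => ?_
  induction hg using Subgroup.closure_induction with
  | mem g hg =>
    obtain ⟨hg, u, hu, χ, h0, h1, e⟩ := hg
    refine Subgroup.subset_closure ⟨H.mul_mem (H.mul_mem ha hg) (H.inv_mem ha), a u,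
      h.maps hB.invU a ha u hu, χ ∘ₗ (a.symm : V →ₗ[F] V), by simp [h0], fun z hz => ?_,
      fun x => ?_⟩
    · exact h1 _ (h.maps hB.invZ _ (H.inv_mem ha) z hz)
    · change a (g (a.symm x)) = _
      simp [e]
  | one => simp
  | mul x y _ _ hx hy =>
    have := (KU H U Z).mul_mem hx hy
    rwa [show a * x * a⁻¹ * (a * y * a⁻¹) = a * (x * y) * a⁻¹ by group] at this
  | inv x _ hx =>
    have := (KU H U Z).inv_mem hx
    rwa [show (a * x * a⁻¹)⁻¹ = a * x⁻¹ * a⁻¹ by group] at this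

theorem range_res_le {hm : ∀ g ∈ KU H U Z, ∀ u ∈ U, g u ∈ U} {P : Subgroup (U ≃ₗ[F] U)}
    (hP : ∀ (u : U) (χ : Dual F V), TV H u χ → ∀ f : U ≃ₗ[F] U, (∀ x, f x = x + χ x • u) → f ∈ P) :
    (resHom (KU H U Z) U hm).range ≤ P := by
  rintro _ ⟨⟨g, hg⟩, rfl⟩
  induction hg using Subgroup.closure_induction with
  | mem g hg =>
    obtain ⟨hg, u, hu, χ, h0, h1, e⟩ := hg
    exact hP ⟨u, hu⟩ χ ⟨h0, g, hg, e⟩ _ fun x => Subtype.ext (e x)
  | one => exact P.one_mem
  | mul x y hx' hy' hx hy => exact P.mul_mem hx hy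
  | inv x hx' hx =>
    have := P.inv_mem hx
    rwa [← map_inv] at this

theorem mem_range_res {hm : ∀ g ∈ KU H U Z, ∀ u ∈ U, g u ∈ U} {u : U} {χ : Dual F V}
    (ht : TV H u χ) (hZ : ∀ z ∈ Z, χ z = 0) {f : U ≃ₗ[F] U} (hf : ∀ x, f x = x + χ x • u) :
    f ∈ (resHom (KU H U Z) U hm).range := by
  obtain ⟨h0, g, hg, e⟩ := ht
  refine ⟨⟨g, Subgroup.subset_closure ⟨hg, u, u.2, χ, h0, hZ, e⟩⟩, LinearEquiv.ext fun x => ?_⟩
  rw [hf]
  exact Subtype.ext (e x)

theorem range_sl (hB : PreBlock H U Z) (hS : TypeSL H U Z)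
    (hm : ∀ g ∈ KU H U Z, ∀ u ∈ U, g u ∈ U) :
    ((resHom (KU H U Z) U hm).range : Set (U ≃ₗ[F] U)) =
      {f : U ≃ₗ[F] U | LinearMap.det (f : U →ₗ[F] U) = 1} := by
  refine Set.Subset.antisymm (fun f hf => ?_) fun f hf => ?_
  · have := range_res_le (P := LinearEquiv.det.ker) (fun u χ ht f e => ?_) hf
    · simpa using congrArg Units.val (MonoidHom.mem_ker.1 this)
    · rw [MonoidHom.mem_ker, ← Units.val_eq_one, LinearEquiv.coe_det,
        ← det_tv_one (φ := χ ∘ₗ U.subtype) (v := u) ht.1]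
      congr 1
      exact LinearMap.ext fun x => by simp [e, LinearMap.transvection.apply]
  · let e := (Module.finBasis F U).equivFun.symm
    obtain ⟨m, rfl⟩ := toE_surjective e f
    have key : (Subgroup.comap (toE e) (resHom (KU H U Z) U hm).range).map (toE e) = _ :=
      Subgroup.map_comap_eq_self_of_surjective (toE_surjective e) _
    change m ∈ Subgroup.comap (toE e) (resHom (KU H U Z) U hm).range
    refine specialLinear_le_of_cen e ?_
      ((Max.mem_specialLinear_iff m).2 (by rw [← det_toE e]; exact hf))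
    rw [key]
    refine eq_top_iff.2 fun u _ φ h0 => ⟨h0, ?_⟩
    let χ : Dual F V := φ ∘ₗ U.projectionOnto Z hB.compl
    have hχ : ∀ x : U, χ x = φ x := fun x => by simp [χ]
    have hZ : ∀ z ∈ Z, χ z = 0 := fun z hz => by
      simp [χ, Submodule.projectionOnto_apply_of_mem_right hB.compl hz]
    exact ⟨LinearEquiv.transvection h0, mem_range_res (hS u u.2 χ hZ (by rw [hχ, h0])) hZ
      fun x => by simp [hχ, LinearMap.transvection.apply],
      fun x => by simp [LinearMap.transvection.apply]⟩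

theorem range_sp (hB : PreBlock H U Z) (h : Hyp H) (hS : TypeSp H U Z)
    (hm : ∀ g ∈ KU H U Z, ∀ u ∈ U, g u ∈ U) :
    ∃ B : LinearMap.BilinForm F U, B.IsAlt ∧ B.Nondegenerate ∧
      ((resHom (KU H U Z) U hm).range : Set (U ≃ₗ[F] U)) =
        {f : U ≃ₗ[F] U | ∀ x y, B (f x) (f y) = B x y} := by
  obtain ⟨θ, h1, h2, h3, h4⟩ := hS
  let B : LinearMap.BilinForm F U := LinearMap.mk₂ F (fun x y => θ y x) (fun a b c => by simp)
    (fun a b c => by simp) (fun a b c => by simp) fun a b c => by simp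
  have hBa : ∀ x y, B x y = θ y x := fun x y => rfl
  have hA : B.IsAlt := fun x => (h1 x).1
  have hN : B.Nondegenerate := by
    refine (hA.isRefl.nondegenerate_iff_separatingRight).2 fun y hy => h3 y ?_
    refine LinearMap.ext fun x => ?_
    obtain ⟨u, hu, z, hz, rfl⟩ := hB.exists_add x
    rw [map_add, h2 y z hz, add_zero]
    exact hy ⟨u, hu⟩
  refine ⟨B, hA, hN, Set.Subset.antisymm (fun f hf => ?_) fun f hf => ?_⟩
  · refine range_res_le (P := SpG B) (fun u χ ht f e x y => ?_) hf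
    change θ (f y) (f x) = θ y x
    rw [h4 u χ ht y (f y) (by simp [e]), e x]
    simp only [Submodule.coe_add, Submodule.coe_smul, map_add, map_smul, LinearMap.sub_apply,
      LinearMap.smul_apply, smul_eq_mul, ht.1]
    ring
  · have : (⟨f, hf⟩ : SpG B) ∈ ((resHom (KU H U Z) U hm).range).comap (SpG B).subtype := by
      have e : ((resHom (KU H U Z) U hm).range).comap (SpG B).subtype = ⊤ := by
        rw [eq_top_iff, ← sp_closure_spT hN hA, Subgroup.closure_le]
        rintro _ ⟨v, c, rfl⟩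
        exact mem_range_res (h.full _ _ c (h1 v)) (fun z hz => by simp [h2 v z hz]) fun x => rfl
      rw [e]; trivial
    exact this

/-- McLaughlin's theorem. -/
theorem Hyp.main [Finite V] (h : Hyp H) :
    ∃ (n : ℕ) (W : Fin (n + 1) → Submodule F V) (K : Fin n → Subgroup (V ≃ₗ[F] V)),
      1 ≤ n ∧ DirectSum.IsInternal W ∧
      (∀ h ∈ H, ∀ i, (W i).map (h : V →ₗ[F] V) = W i) ∧
      (∀ j, K j ≤ H ∧ ((K j).subgroupOf H).Normal) ∧ ⨆ j, K j = H ∧
      (∀ j, K j ⊓ (⨆ j' ∈ {j' : Fin n | j' ≠ j}, K j') = ⊥) ∧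
      (∀ j j', j ≠ j' → ∀ a ∈ K j, ∀ b ∈ K j', a * b = b * a) ∧
      (∀ j, ∀ h ∈ K j, ∀ i : Fin (n + 1), i ≠ j.succ → ∀ v ∈ W i, h v = v) ∧
      (∀ j, ∃ ρ : ↥(K j) →* (↥(W j.succ) ≃ₗ[F] ↥(W j.succ)),
        (∀ (h : ↥(K j)) (v : ↥(W j.succ)), ((ρ h v : ↥(W j.succ)) : V) = (h : V ≃ₗ[F] V) (v : V)) ∧
        ((ρ.range : Set (↥(W j.succ) ≃ₗ[F] ↥(W j.succ))) =
            {f : ↥(W j.succ) ≃ₗ[F] ↥(W j.succ) |
              LinearMap.det (f : ↥(W j.succ) →ₗ[F] ↥(W j.succ)) = 1} ∨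
          ∃ B : LinearMap.BilinForm F ↥(W j.succ), B.IsAlt ∧ B.Nondegenerate ∧
            (ρ.range : Set (↥(W j.succ) ≃ₗ[F] ↥(W j.succ))) =
              {f : ↥(W j.succ) ≃ₗ[F] ↥(W j.succ) | ∀ x y, B (f x) (f y) = B x y})) := by
  classical
  let I := {U : Submodule F V // ∃ Z, PreBlock H U Z ∧ (TypeSL H U Z ∨ TypeSp H U Z)}
  have hI : Nonempty I := ⟨⟨⊥, ⊤, ⟨isCompl_bot_top, fun v φ _ z hz => by
    simp [(Submodule.mem_bot F).1 hz], fun _ _ _ _ _ => trivial, fun u hu h0 =>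
      absurd ((Submodule.mem_bot F).1 hu) h0⟩, Or.inl fun u hu χ _ _ => by
        rw [(Submodule.mem_bot F).1 hu]; exact tv_zero_left χ⟩⟩
  let e := (Finite.equivFin I).symm
  set n := Nat.card I
  let U : Fin n → Submodule F V := fun j => (e j).1
  have hUZ : ∀ j, ∃ Z, PreBlock H (U j) Z ∧ (TypeSL H (U j) Z ∨ TypeSp H (U j) Z) :=
    fun j => (e j).2
  choose Z hB hT using hUZ
  have hle : ∀ i j, i ≠ j → U i ≤ Z j := fun i j hij =>
    (hB i).le_of_ne (hB j) fun k => hij (e.injective (Subtype.ext k))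
  let W : Fin (n + 1) → Submodule F V := Fin.cons (⨅ j, Z j) U
  have hW : ∀ j i, i ≠ Fin.succ j → W i ≤ Z j := fun j i => by
    refine Fin.cases (fun _ => iInf_le Z j) (fun i hi => hle i j fun k => hi (by rw [k])) i
  let π : Fin n → V →ₗ[F] V := fun j => (U j).projection (Z j) (hB j).compl
  have π1 : ∀ j, ∀ x ∈ U j, π j x = x := fun j x hx =>
    Submodule.projection_apply_of_mem_left _ hx
  have π2 : ∀ j, ∀ x ∈ Z j, π j x = 0 := fun j x hx =>
    Submodule.projection_apply_of_mem_right _ hx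
  have π3 : ∀ j x, π j x ∈ U j := fun j x => Submodule.projection_apply_mem _ x
  have π4 : ∀ j x, π j x = 0 → x ∈ Z j := fun j x hx => by
    obtain ⟨u, hu, z, hz, rfl⟩ := (hB j).exists_add x
    rw [map_add, π1 j u hu, π2 j z hz, add_zero] at hx
    simpa [hx] using hz
  have πs : ∀ j x, π j (∑ i, π i x) = π j x := fun j x => by
    rw [map_sum, Finset.sum_eq_single j (fun i _ hi => π2 j _ (hle i j hi (π3 i x))) (by simp),
      π1 j _ (π3 j x)]
  have hfix : ∀ j, ∀ a ∈ KU H (U j) (Z j), ∀ x, a x - x ∈ U j := fun j a ha x => by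
    obtain ⟨u, hu, z, hz, rfl⟩ := (hB j).exists_add x
    rw [map_add, KU_fix ha z hz, add_sub_add_right_eq_sub]
    exact (U j).sub_mem (h.maps (hB j).invU a (KU_le ha) u hu) hu
  refine ⟨n, W, fun j => KU H (U j) (Z j), Nat.card_pos, ?_, fun g hg i => ?_,
    fun j => ⟨KU_le, h.KU_normal (hB j)⟩, le_antisymm (iSup_le fun j => KU_le) ?_, fun j => ?_,
    fun j j' hj a ha b hb => ?_, fun j g hg i hi v hv => KU_fix hg v (hW j i hi hv), fun j => ?_⟩
  · refine DirectSum.isInternal_submodule_of_iSupIndep_of_iSup_eq_top (fun i => ?_) ?_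
    · refine Fin.cases ?_ (fun j => ?_) i
      · have : (⨆ k, ⨆ (_ : k ≠ 0), W k) ≤ LinearMap.ker ((∑ i, π i) - LinearMap.id) := by
          refine iSup₂_le fun k => Fin.cases (fun hk => absurd rfl hk) (fun k _ x hx => ?_) k
          rw [LinearMap.mem_ker, LinearMap.sub_apply, LinearMap.sum_apply, Finset.sum_eq_single k
            (fun i _ hi => π2 i _ (hle k i hi.symm hx)) (by simp), π1 k x hx]
          simp
        refine Submodule.disjoint_def.2 fun x hx hx' => ?_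
        have h1 := this hx'
        rw [LinearMap.mem_ker, LinearMap.sub_apply, LinearMap.sum_apply,
          Finset.sum_eq_zero fun i _ => π2 i x ((Submodule.mem_iInf _).1 hx i)] at h1
        simpa using h1
      · exact (hB j).compl.disjoint.mono_right (iSup₂_le fun i hi => hW j i hi)
    · refine eq_top_iff.2 fun x _ => ?_
      have h1 : x - ∑ i, π i x ∈ W 0 :=
        (Submodule.mem_iInf _).2 fun j => π4 j _ (by rw [map_sub, πs, sub_self])
      have h2 : ∑ i, π i x ∈ ⨆ i, W i :=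
        Submodule.sum_mem _ fun i _ => Submodule.mem_iSup_of_mem i.succ (π3 i x)
      simpa using Submodule.add_mem _ (Submodule.mem_iSup_of_mem 0 h1) h2
  · have hi : Inv H (W i) := by
      refine Fin.cases (fun v φ ht z hz => ?_) (fun j => (hB j).invU) i
      exact (Submodule.mem_iInf _).2 fun j => (hB j).invZ v φ ht z ((Submodule.mem_iInf _).1 hz j)
    refine le_antisymm ?_ fun x hx => ⟨g.symm x, h.maps hi _ (H.inv_mem hg) x hx, by simp⟩
    rintro _ ⟨x, hx, rfl⟩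
    exact h.maps hi g hg x hx
  · refine h.gen _ fun g hg v φ h0 eg => ?_
    by_cases hv : v = 0 ∨ φ = 0
    · have : g = 1 := LinearEquiv.ext fun x => by rcases hv with hv | hv <;> simp [eg, hv]
      rw [this]; exact one_mem _
    push Not at hv
    have ht : TV H v φ := ⟨h0, g, hg, eg⟩
    obtain ⟨U', Z', b1, b2, b3⟩ := h.exists_block hv.1 ht hv.2
    obtain ⟨j, hj⟩ := e.surjective ⟨U', Z', b1, b2⟩
    have hvj : v ∈ U j := by simpa [U, hj] using b3
    refine Subgroup.mem_iSup_of_mem j (Subgroup.subset_closure ⟨hg, v, hvj, φ, h0, ?_, eg⟩)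
    rcases (hB j).cases ht hv.1 hv.2 with k | k
    · exact k.2
    · exact absurd ((hB j).eq_zero hvj k.1) hv.1
  · refine eq_bot_iff.2 fun g ⟨hg, hg'⟩ => LinearEquiv.ext fun x => ?_
    have : (⨆ j' ∈ {j' : Fin n | j' ≠ j}, KU H (U j') (Z j')) ≤
        ⨅ u ∈ U j, MulAction.stabilizer _ u :=
      iSup₂_le fun i hi a ha => Subgroup.mem_iInf.2 fun u => Subgroup.mem_iInf.2 fun hu =>
        KU_fix ha u (hle j i (Ne.symm hi) hu)
    obtain ⟨u, hu, z, hz, rfl⟩ := (hB j).exists_add x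
    have h1 : g u = u := Subgroup.mem_iInf.1 (Subgroup.mem_iInf.1 (this hg') u) hu
    rw [map_add, KU_fix hg z hz, h1]; rfl
  · refine LinearEquiv.ext fun x => ?_
    have h1 := KU_fix ha _ (hle j' j hj.symm (hfix j' b hb x))
    have h2 := KU_fix hb _ (hle j j' hj (hfix j a ha x))
    rw [map_sub] at h1 h2
    change a (b x) = b (a x)
    linear_combination (norm := module) h1 - h2
  · have hm : ∀ g ∈ KU H (U j) (Z j), ∀ u ∈ U j, g u ∈ U j := fun g hg =>
      h.maps (hB j).invU g (KU_le hg)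
    exact ⟨resHom _ (U j) hm, fun _ _ => rfl,
      (hT j).imp (fun k => range_sl (hB j) k hm) fun k => range_sp (hB j) h k hm⟩

end Cfsg.Agent.Cl.MaxSp.McL
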