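import Mathlib
import Cfsg.Agent.Cl.MaxSpTwoB

/-!
# Irreducible subgroups of `Sp(V)` with large `2`-transvection groups: the theorem
-/

set_option autoImplicit false
set_option linter.unusedSectionVars false
set_option linter.unusedVariables false

namespace Cfsg.Agent.Cl.MaxSp.Two

open Module Cfsg.Agent.Cl.MSL

variable {F V : Type*} [Field F] [CharP F 2] [AddCommGroup V] [Module F V]
  [FiniteDimensional F V] [Finite F]
  {B : LinearMap.BilinForm F V} {M : Subgroup (V ≃ₗ[F] V)} {S : Set V} {a b p u u' w : V}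
  {γ γ' α β : F}

theorem card_eq_two (h2 : ∀ t : F, t ≠ 0 → t = 1) : Nat.card F = 2 :=
  Nat.card_eq_two_iff' 0 |>.2 ⟨1, one_ne_zero, fun y hy => h2 y hy⟩

theorem Ctx.main (h : Ctx B M) (ha0 : a ≠ 0) (ha : Full B M a) :
    M = SpG B ∨ (∃ Q : QuadraticForm F V, (∀ x y, QuadraticMap.polar Q x y = B x y) ∧
      (M = OG Q ∨ ∀ g, g ∈ M ↔ ∃ hg : g ∈ OG Q, Even (orank ⟨g, hg⟩))) ∨
      (Nat.card F = 2 ∧ finrank F V = 4 ∧ 120 ≤ Nat.card M) := by
  let S : Set V := {p | ∃ g ∈ M, ∃ c : F, c ≠ 0 ∧ p = c • g a}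
  have haS : a ∈ S := ⟨1, M.one_mem, 1, one_ne_zero, by simp⟩
  have hS : Pts B M S := by
    refine ⟨?_, ?_, ?_, ?_, ⟨a, haS⟩⟩
    · rintro _ ⟨g, hg, c, hc, rfl⟩
      simp [hc, ha0]
    · rintro k hk _ ⟨g, hg, c, hc, rfl⟩
      exact ⟨k * g, M.mul_mem hk hg, c, hc, by simp⟩
    · rintro _ ⟨g, hg, c, hc, rfl⟩ d hd
      exact ⟨g, hg, d * c, mul_ne_zero hd hc, by rw [smul_smul]⟩
    · rintro _ ⟨g, hg, c, hc, rfl⟩
      exact (ha.conj h hg).smul hc
  by_cases hT : NoT B M a
  swap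
  · obtain ⟨δ, hδ⟩ := not_forall.1 hT
    rw [Classical.not_imp] at hδ
    obtain ⟨p, hp, hp'⟩ := hS.exists_full_t h (by
      rintro _ ⟨g, hg, c, hc, rfl⟩
      exact ⟨δ / c ^ 2, by simp [hδ.2, hc], by simpa using (hδ.1.conj h hg).smul hc⟩)
    exact Or.inl (le_antisymm (fun g hg => h.iso g hg) (h.sp_le (hS.ne p hp) (hS.full p hp) hp'))
  have hn : ∀ p ∈ S, NoT B M p := by
    rintro _ ⟨g, hg, c, hc, rfl⟩ δ hδ
    have := (hδ.smul (inv_ne_zero hc)).conj h (M.inv_mem hg)
    simp only [smul_smul, inv_mul_cancel₀ hc, one_smul, smul_zero, map_zero] at this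
    change R B M (g.symm (g a)) 0 _ at this
    rw [g.symm_apply_apply] at this
    simpa [hc] using hT _ this
  obtain ⟨b, hb, e⟩ := hS.opp h ha0
  by_cases ht : Thin (F := F) S a b
  · exact Or.inr (Or.inl (ht.main h hS haS hb e))
  obtain ⟨γ, hγ⟩ := not_forall.1 ht
  rw [Classical.not_imp] at hγ
  have h2 := hS.two_of_line h hn haS hb e hγ.2 hγ.1
  have hl : ∀ γ : F, b + γ • a ∈ S := fun c => by
    by_cases hc : c = 0
    · simpa [hc] using hb
    · rw [h2 c hc, ← h2 γ hγ.2]; exact hγ.1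
  have hall := fun x => hS.all_of_off h ha0 (hS.off_of_line h haS e hl) haS (x := x)
  have hd : finrank F V = 4 := le_antisymm (hS.dim_le_four h hn h2 hall) h.dim
  refine Or.inr (Or.inr ⟨card_eq_two h2, hd, ?_⟩)
  have hV : Finite V := Module.finite_of_finite F
  have horb : MulAction.orbit M a = {0}ᶜ := by
    ext x
    constructor
    · rintro ⟨g, rfl⟩
      exact hS.ne _ (hS.map g g.2 a haS)
    · intro hx
      obtain ⟨g, hg, c, hc, rfl⟩ := hall x hx
      exact ⟨⟨g, hg⟩, by rw [h2 c hc, one_smul]; rfl⟩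
  have c1 : Nat.card (MulAction.orbit M a) = 15 := by
    rw [horb, Nat.card_coe_set_eq, Set.ncard_compl, Set.ncard_singleton,
      Module.natCard_eq_pow_finrank (K := F), hd, card_eq_two h2]
    norm_num
  obtain ⟨p, p1, p2⟩ := hT.surj h ha e 1
  have hp0 : p ≠ 0 := by rintro rfl; exact one_ne_zero (hT _ p2)
  obtain ⟨p', q1, q2, q3⟩ := h.exists_pair e hp0 p2.1 p1 1
  have hp := hall p hp0
  have e' : B a p = 0 := by rw [h.sym, p2.1]
  obtain ⟨β, hβ⟩ := hS.full p hp a e'
  obtain ⟨z, hz, ez⟩ := z_of_r h p2.1 (s := 1) (by simpa using p2) (by simpa using hβ)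
  have key : ∀ x : F × F × F, ∃ k : MulAction.stabilizer M a,
      k.1.1 b = b + (x.1 • p + x.2.1 • p') + x.2.2 • a := fun ⟨s, t, ε⟩ => by
    obtain ⟨c, h1, g, hg, eg⟩ := ha (s • p + t • p') (by simp [p2.1, q1])
    have ga : g a = a := by rw [eg]; simp [h.self, h.sym a, p2.1, q1]
    have gb : g b = b + (s • p + t • p') + c • a := by rw [eg]; simp [e, h.sym b, p1, q2]
    by_cases hc : ε = c
    · exact ⟨⟨⟨g, hg⟩, ga⟩, hc ▸ gb⟩
    · refine ⟨⟨⟨g * z, M.mul_mem hg hz⟩, show g (z a) = a by simp [ez, h.self, e', ga]⟩, ?_⟩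
      change g (z b) = _
      have := h2 (ε + c) (fun k => hc (CharTwo.add_eq_zero.1 k))
      rw [show ε = 1 + c by grind]
      simp only [ez, e, h.sym b p, p1, map_add, map_smul, ga, gb]
      module
  choose k hk using key
  have hinj : Function.Injective k := fun x y hxy => by
    have k1 := (hk x).symm.trans (hxy ▸ hk y)
    have k2 := congrArg (B p) k1
    have k3 := congrArg (B p') k1
    have k4 := congrArg (B b) k1
    simp only [map_add, map_smul, smul_eq_mul, h.self, p1, q2, h.sym p p', q3, p2.1, q1, e,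
      h.sym b p, h.sym b p'] at k2 k3 k4
    exact Prod.ext (by simpa using k3) (Prod.ext (by simpa using k2) (by simpa using k4))
  have : Finite (V ≃ₗ[F] V) := Finite.of_injective _ DFunLike.coe_injective
  have c2 := Nat.card_le_card_of_injective k hinj
  simp only [Nat.card_prod, card_eq_two h2] at c2
  rw [← Nat.card_congr (MulAction.orbitProdStabilizerEquivGroup M a), Nat.card_prod, c1]
  omega

/-- A normal `2`-subgroup of the stabiliser of `a` acts trivially on `a^⊥ / a`. -/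
theorem Ctx.core_trivial (h : Ctx B M) (ha0 : a ≠ 0) {H : Type*} [Group H]
    (φ : H →* (V ≃ₗ[F] V)) (h1 : ∀ g, φ g ∈ SpG B) (h2 : ∀ g, φ g a = a)
    (h3 : ∀ v, B v a = 0 → ∃ g, ∀ x, φ g x = x + B x v • v) (N : Subgroup H) [hN : N.Normal]
    (hP : IsPGroup 2 N) : ∀ n ∈ N, ∀ v, B v a = 0 → ∃ s : F, φ n v = v + s • a := by
  obtain ⟨b, -, e⟩ := h.sep (p := a) (a := 0) (by simpa using ha0) 1
  have e' : B a b = 1 := by rw [h.sym, e]
  have hV : Finite V := Module.finite_of_finite F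
  let W : Submodule F V := LinearMap.ker (B.flip a) ⊓ LinearMap.ker (B.flip b)
  have mW : ∀ w, w ∈ W ↔ B w a = 0 ∧ B w b = 0 := fun w => Iff.rfl
  have k0 : ∀ g v, B (φ g v) a = B v a := fun g v => by
    conv_lhs => rw [← h2 g]
    exact h1 g v a
  letI : MulAction N W :=
    { smul := fun g w => ⟨φ g w + B (φ g w) b • a, (mW _).2
        ⟨by simp [k0, h.self, ((mW _).1 w.2).1], by simp [e', CharTwo.add_self_eq_zero]⟩⟩
      one_smul := fun w => Subtype.ext (show φ (1 : N) w + B (φ (1 : N) w) b • a = w by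
        simp [((mW _).1 w.2).2])
      mul_smul := fun g g' w => Subtype.ext (show φ (g * g' : N) w + B (φ (g * g' : N) w) b • a =
          φ g (φ g' w + B (φ g' w) b • a) + B (φ g (φ g' w + B (φ g' w) b • a)) b • a by
        simp only [Subgroup.coe_mul, map_mul, LinearEquiv.mul_apply, map_add, map_smul, h2,
          LinearMap.add_apply, LinearMap.smul_apply, e', smul_eq_mul]
        match_scalars <;> grind) }
  obtain ⟨u, hu0, hu1, hu2⟩ := h.exists_W a b
  obtain ⟨w, hw, hw0⟩ := hP.exists_fixed_point_of_prime_dvd_card_of_fixed_point (α := W) (by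
    rw [Module.natCard_eq_pow_finrank (K := F)]
    have := Fintype.ofFinite F
    obtain ⟨n, -, hn⟩ := FiniteField.card F 2
    have : Nontrivial W := ⟨⟨⟨u, hu1, hu2⟩, 0, fun k => hu0 (congrArg Subtype.val k)⟩⟩
    refine dvd_pow ?_ Module.finrank_pos.ne'
    rw [Nat.card_eq_fintype_card, hn]; exact dvd_pow_self 2 n.ne_zero) (a := 0)
    (fun g => Subtype.ext (show φ g 0 + B (φ g 0) b • a = 0 by simp))
  let U : Submodule F V :=
    { carrier := {v | ∀ n ∈ N, φ n v - v ∈ F ∙ a}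
      zero_mem' := fun n _ => by simp
      add_mem' := fun {x y} hx hy n hn => by
        rw [map_add, add_sub_add_comm]; exact Submodule.add_mem _ (hx n hn) (hy n hn)
      smul_mem' := fun c x hx n hn => by
        rw [map_smul, ← smul_sub]; exact Submodule.smul_mem _ _ (hx n hn) }
  have hwU : (w : V) ∈ U := fun n hn => by
    have : φ n w + B (φ n w) b • a = w := congrArg Subtype.val (hw ⟨n, hn⟩)
    refine Submodule.mem_span_singleton.2 ⟨-B (φ n w) b, ?_⟩
    linear_combination (norm := module) -this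
  have hU : ∀ g, ∀ v ∈ U, φ g v ∈ U := fun g v hv n hn => by
    obtain ⟨s, hs⟩ := Submodule.mem_span_singleton.1 (hv _ (hN.conj_mem' n hn g))
    refine Submodule.mem_span_singleton.2 ⟨s, ?_⟩
    have := congrArg (φ g) hs
    rwa [map_smul, h2, map_sub, ← LinearEquiv.mul_apply, ← map_mul, ← mul_assoc, ← mul_assoc,
      mul_inv_cancel, one_mul, map_mul, LinearEquiv.mul_apply] at this
  obtain ⟨v₁, v1, -, v3⟩ := h.exists_pair e (fun k => hw0 (Subtype.ext k.symm)) w.2.1 w.2.2 1
  intro n hn v hv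
  have : v ∈ U := le_of_compl_ker (W := LinearMap.ker (B.flip a)) (φ := B w) (x := v₁) v1
    (by simp [h.sym w, v3]) (fun y hy hne => by
      obtain ⟨g, hg⟩ := h3 y hy
      have := U.sub_mem (hU g _ hwU) hwU
      rw [hg, add_sub_cancel_left] at this
      exact (U.smul_mem_iff hne).1 this) v hv
  obtain ⟨s, hs⟩ := Submodule.mem_span_singleton.1 (this n hn)
  exact ⟨s, by rw [hs]; abel⟩

theorem Ctx.full_of (h : Ctx B M) (ha0 : a ≠ 0) {X : Type*} [Group X] (φ : X →* (V ≃ₗ[F] V))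
    (hφ : Function.Injective φ) (h1 : ∀ g, φ g ∈ M) (h2 : ∀ g, φ g a = a)
    (h3 : ∀ g v, B v a = 0 → ∃ s : F, φ g v = v + s • a)
    (h4 : ∀ g (γ : F), (∀ x, φ g x = x + (γ * B x a) • a) → γ = 0)
    (hc : Nat.card X = Nat.card F ^ (finrank F V - 2)) : Full B M a := by
  obtain ⟨b, -, e⟩ := h.sep (p := a) (a := 0) (by simpa using ha0) 1
  have e' : B a b = 1 := by rw [h.sym, e]
  have hV : Finite V := Module.finite_of_finite F
  let l : V →ₗ[F] F × F := (B.flip a).prod (B.flip b)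
  have mW : ∀ w, w ∈ LinearMap.ker l ↔ B w a = 0 ∧ B w b = 0 := fun w => by simp [l]
  have hl : LinearMap.range l = ⊤ := LinearMap.range_eq_top.2 fun x =>
    ⟨x.1 • b + x.2 • a, by simp [l, e, e', h.self]⟩
  have hd := l.finrank_range_add_finrank_ker
  rw [hl, finrank_top, finrank_prod, finrank_self] at hd
  have key : ∀ g, ∃ w : LinearMap.ker l, ∃ γ : F,
      ∀ x, φ g x = x + B x w • a + B x a • (w : V) + (γ * B x a) • a := fun g => by
    obtain ⟨w, w1, w2, w3⟩ := h.decomp e (φ g b)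
    have k0 : B (φ g b) a = 1 := by
      conv_lhs => rw [← h2 g]
      rw [h.iso _ (h1 g), e]
    rw [k0, one_smul] at w3
    refine ⟨⟨w, (mW w).2 ⟨w1, w2⟩⟩, B (φ g b) b, fun x => ?_⟩
    obtain ⟨v, v1, v2, v3⟩ := h.decomp e x
    obtain ⟨s, hs⟩ := h3 g v v1
    have k1 := h.iso _ (h1 g) v b
    rw [hs, w3] at k1
    generalize B (φ g b) b = γ at *
    generalize B x a = β at *
    generalize B x b = α at *
    subst v3
    simp only [map_add, map_smul, LinearMap.add_apply, LinearMap.smul_apply, smul_eq_mul, h.self,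
      v1, v2, e, e', h.sym a w, h.sym b w, w1, w2, hs, h2, w3] at k1 ⊢
    match_scalars <;> grind
  choose f c hf using key
  have hinj : Function.Injective f := fun g g' k => by
    have := h4 (g * g') (c g + c g') fun x => by
      simp only [map_mul, LinearEquiv.mul_apply, hf, k, map_add, map_smul, LinearMap.add_apply,
        LinearMap.smul_apply, smul_eq_mul, h.self, h.sym a (f g'), ((mW _).1 (f g').2).1]
      match_scalars <;> grind
    exact hφ (LinearEquiv.ext fun x => by rw [hf, hf, k, CharTwo.add_eq_zero.1 this])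
  have hsurj := (hinj.bijective_of_nat_card_le (by
    rw [hc, Module.natCard_eq_pow_finrank (K := F), ← hd]; simp)).2
  intro u hu
  obtain ⟨w, w1, w2, w3⟩ := h.decomp e u
  obtain ⟨g, hg⟩ := hsurj ⟨w, (mW w).2 ⟨w1, w2⟩⟩
  have : R B M a w (c g) := ⟨w1, φ g, h1 g, fun x => by rw [hf, hg]⟩
  rw [hu, zero_smul, zero_add] at w3
  exact ⟨c g, w3 ▸ this.add_self h _⟩

end Cfsg.Agent.Cl.MaxSp.Two
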