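import Mathlib
import Cfsg.Agent.Cl.ClassSemis
import Cfsg.Agent.Cl.PSL2Finite

/-! Every non-scalar element of `SL₃(F)` is a product of two matrices with characteristic
polynomial `(t - μ⁻¹)(t² - τ t + μ)`. -/

set_option autoImplicit false

open Matrix Polynomial

namespace Cfsg.Agent.Cl.Ore3

variable {F : Type*} [Field F]

/-- The polynomial `(t - μ⁻¹)(t² - τ t + μ)`. -/
noncomputable def chi (τ μ : F) : F[X] := (X - C μ⁻¹) * (X ^ 2 - C τ * X + C μ)

/-- Products of two matrices with characteristic polynomial `chi τ μ`. -/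
def Good (τ μ : F) (G : Matrix (Fin 3) (Fin 3) F) : Prop :=
  ∃ A B : Matrix (Fin 3) (Fin 3) F, A.charpoly = chi τ μ ∧ B.charpoly = chi τ μ ∧ G = A * B

theorem charpoly_lower {τ μ a b c d r s : F} (ht : a + d = τ) (hd : a * d - b * c = μ) :
    (!![a, b, 0; c, d, 0; r, s, μ⁻¹] : Matrix (Fin 3) (Fin 3) F).charpoly = chi τ μ := by
  rw [chi, ← ht, ← hd, Matrix.charpoly, Matrix.det_fin_three]
  simp
  ring

theorem charpoly_upper {τ μ a b c d r s : F} (ht : a + d = τ) (hd : a * d - b * c = μ) :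
    (!![a, b, r; c, d, s; 0, 0, μ⁻¹] : Matrix (Fin 3) (Fin 3) F).charpoly = chi τ μ := by
  rw [chi, ← ht, ← hd, Matrix.charpoly, Matrix.det_fin_three]
  simp
  ring

theorem Good.of_conj {τ μ : F} {G G' P : Matrix (Fin 3) (Fin 3) F} (h : Good τ μ G')
    (hP : P.det ≠ 0) (e : G * P = P * G') : Good τ μ G := by
  obtain ⟨A, B, hA, hB, rfl⟩ := h
  have hu : IsUnit P.det := isUnit_iff_ne_zero.2 hP
  have h1 : P * P⁻¹ = 1 := Matrix.mul_nonsing_inv P hu
  have h2 : P⁻¹ * P = 1 := Matrix.nonsing_inv_mul P hu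
  have key : ∀ M : Matrix (Fin 3) (Fin 3) F, (P * M * P⁻¹).charpoly = M.charpoly := fun M => by
    rw [Matrix.charpoly_mul_comm, ← Matrix.mul_assoc, h2, Matrix.one_mul]
  refine ⟨P * A * P⁻¹, P * B * P⁻¹, by rw [key, hA], by rw [key, hB], ?_⟩
  calc G = G * P * P⁻¹ := by rw [Matrix.mul_assoc, h1, Matrix.mul_one]
    _ = P * A * (P⁻¹ * P) * B * P⁻¹ := by rw [e, h2]; simp only [Matrix.mul_assoc, Matrix.one_mul]
    _ = _ := by simp only [Matrix.mul_assoc]

theorem good_block {τ μ a b c d a' b' c' d' : F} (hμ : μ ≠ 0) (ht : a + d = τ)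
    (hd : a * d - b * c = μ) (ht' : a' + d' = τ) (hd' : a' * d' - b' * c' = μ)
    {G : Matrix (Fin 3) (Fin 3) F} (hG : G.det = 1) (h00 : G 0 0 = a * a' + b * c')
    (h01 : G 0 1 = a * b' + b * d') (h10 : G 1 0 = c * a' + d * c')
    (h11 : G 1 1 = c * b' + d * d') : Good τ μ G := by
  refine ⟨!![a, b, 0; c, d, 0; (G 2 0 * d' - G 2 1 * c') / μ, (G 2 1 * a' - G 2 0 * b') / μ, μ⁻¹],
    !![a', b', (d * G 0 2 - b * G 1 2) / μ; c', d', (a * G 1 2 - c * G 0 2) / μ; 0, 0, μ⁻¹],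
    charpoly_lower ht hd, charpoly_upper ht' hd', ?_⟩
  rw [Matrix.det_fin_three, h00, h01, h10, h11] at hG
  ext i j
  fin_cases i <;> fin_cases j <;> simp [Matrix.mul_apply, Fin.sum_univ_three, h00, h01, h10, h11]
  · field_simp; linear_combination (-G 0 2) * hd
  · field_simp; linear_combination (-G 1 2) * hd
  · field_simp; linear_combination (-G 2 0) * hd'
  · field_simp; linear_combination (-G 2 1) * hd'
  · field_simp
    linear_combination hG - G 2 2 * (a' * d' - b' * c') * hd - G 2 2 * μ * hd'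

/-- Matrices with a cyclic vector. -/
theorem good_of_cyclic {τ μ : F} (hμ : μ ≠ 0) {G : Matrix (Fin 3) (Fin 3) F} (hG : G.det = 1)
    {v : Fin 3 → F} (hv : (Matrix.of ![v, G *ᵥ v, G *ᵥ (G *ᵥ v)]).det ≠ 0) : Good τ μ G := by
  set h1 : F := μ * τ + (τ - 1 - μ) - μ ^ 2 with hh1
  set P : Matrix (Fin 3) (Fin 3) F :=
    (Matrix.of ![v, G *ᵥ v, G *ᵥ (G *ᵥ v) - h1 • (G *ᵥ v) + μ ^ 2 • v])ᵀ with hPd
  have hP : P.det ≠ 0 := by
    intro h
    apply hv
    rw [← h, hPd, Matrix.det_transpose, Matrix.det_fin_three, Matrix.det_fin_three]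
    simp
    ring
  have hu : IsUnit P.det := isUnit_iff_ne_zero.2 hP
  have hc : ∀ k : Fin 3, P⁻¹ *ᵥ (P *ᵥ Pi.single k 1) = Pi.single k 1 := fun k => by
    rw [Matrix.mulVec_mulVec, Matrix.nonsing_inv_mul P hu, Matrix.one_mulVec]
  have c0 : P *ᵥ Pi.single 0 1 = v := by
    rw [Matrix.mulVec_single_one]; rfl
  have c1 : P *ᵥ Pi.single 1 1 = G *ᵥ v := by
    rw [Matrix.mulVec_single_one]; rfl
  have c2 : P *ᵥ Pi.single 2 1 = G *ᵥ (G *ᵥ v) - h1 • (G *ᵥ v) + μ ^ 2 • v := by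
    rw [Matrix.mulVec_single_one]; rfl
  have k0 : (P⁻¹ * G * P) *ᵥ Pi.single 0 1 = Pi.single 1 1 := by
    rw [← Matrix.mulVec_mulVec, ← Matrix.mulVec_mulVec, c0, ← c1, hc]
  have k1 : (P⁻¹ * G * P) *ᵥ Pi.single 1 1 =
      Pi.single 2 1 + h1 • Pi.single 1 1 - μ ^ 2 • Pi.single 0 1 := by
    rw [← Matrix.mulVec_mulVec, ← Matrix.mulVec_mulVec, c1]
    have : G *ᵥ (G *ᵥ v) = P *ᵥ Pi.single 2 1 + h1 • P *ᵥ Pi.single 1 1 -
        μ ^ 2 • P *ᵥ Pi.single 0 1 := by
      rw [c0, c1, c2]; abel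
    rw [this, Matrix.mulVec_sub, Matrix.mulVec_add, Matrix.mulVec_smul, Matrix.mulVec_smul, hc, hc,
      hc]
  rw [Matrix.mulVec_single_one] at k0 k1
  have hdet : (P⁻¹ * G * P).det = 1 := by
    rw [Matrix.det_mul, Matrix.det_mul, hG, mul_one, ← Matrix.det_mul,
      Matrix.nonsing_inv_mul P hu, Matrix.det_one]
  refine Good.of_conj (G' := P⁻¹ * G * P) ?_ hP ?_
  · have e00 := congrFun k0 0
    have e10 := congrFun k0 1
    have e01 := congrFun k1 0
    have e11 := congrFun k1 1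
    simp only [Matrix.col_apply] at e00 e10 e01 e11
    refine good_block (a := 1) (b := τ - 1 - μ) (c := 1) (d := τ - 1)
      (a' := -(τ - 1 - μ) / μ) (b' := (-μ ^ 2 * (τ - 1) - (τ - 1 - μ) * h1) / μ) (c' := 1 / μ)
      (d' := (μ ^ 2 + h1) / μ) hμ (by ring) (by ring) ?_ ?_ hdet ?_ ?_ ?_ ?_
    · rw [hh1]; field_simp; ring
    · field_simp; ring
    · rw [e00]; simp; field_simp; ring
    · rw [e01]; simp; field_simp; ring
    · rw [e10]; simp; field_simp; ring
    · rw [e11]; simp; field_simp; ring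
  · rw [← Matrix.mul_assoc, ← Matrix.mul_assoc, Matrix.mul_nonsing_inv P hu, Matrix.one_mul]

/-- The normal form with first column `e₁`. -/
theorem good_of_col {τ μ : F} (hμ : μ ≠ 0) {b c d e f g : F}
    (hG : (!![0, b, c; 1, d, e; 0, f, g] : Matrix (Fin 3) (Fin 3) F).det = 1) :
    Good τ μ !![0, b, c; 1, d, e; 0, f, g] := by
  by_cases hf : f = 0
  swap
  · refine good_of_cyclic hμ hG (v := ![1, 0, 0]) ?_
    simpa [Matrix.det_fin_three, dotProduct, Fin.sum_univ_three] using hf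
  subst hf
  have cyc : ∀ y : F, c + g * e + (g * (d - g) + b) * y ≠ 0 →
      Good τ μ !![0, b, c; 1, d, e; 0, 0, g] := fun y hy => by
    refine good_of_cyclic hμ hG (v := ![-e - (d - g) * y, y, 1]) ?_
    intro h
    apply pow_ne_zero 2 hy
    rw [← h]
    simp [Matrix.det_fin_three, Matrix.mulVec, dotProduct, Fin.sum_univ_three]
    ring
  by_cases h1 : c + g * e = 0
  swap
  · exact cyc 0 (by simpa using h1)
  by_cases h2 : g * (d - g) + b = 0
  swap
  · exact cyc 1 (by simpa [h1] using h2)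
  have hc : c = -g * e := by linear_combination h1
  have hb : b = -g * (d - g) := by linear_combination h2
  subst hb hc
  have hG' : g * g * (d - g) = 1 := by
    rw [Matrix.det_fin_three] at hG
    simp at hG
    linear_combination hG
  have hg : g ≠ 0 := by
    rintro rfl
    simp at hG'
  set α : F := μ ^ 2 / g - g with hα
  set β : F := τ * (1 - μ / g) with hβ
  refine Good.of_conj (G' := !![g + α, 0, α * (d - 2 * g - α); β, g, β * (d - 2 * g - α);
      1, 0, g + (d - 2 * g - α)]) (P := !![1, -e, -g - α + β * e; 0, 0, 1; 0, 1, -β]) ?_ ?_ ?_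
  · refine good_block (a := 0) (b := -μ) (c := 1) (d := τ) (a' := τ) (b' := g) (c' := -μ / g)
      (d' := 0) hμ (by ring) (by ring) (by ring) (by field_simp; ring) ?_ ?_ ?_ ?_ ?_
    · rw [Matrix.det_fin_three]
      simp
      linear_combination hG'
    · simp [hα]; field_simp
    · simp
    · simp [hβ]; field_simp; ring
    · simp
  · simp [Matrix.det_fin_three]
  · ext i j
    fin_cases i <;> fin_cases j <;> simp [Matrix.mul_apply, Fin.sum_univ_three] <;> ring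

theorem exists_basis_of_not_scalar {G : Matrix (Fin 3) (Fin 3) F} (h : ∀ a : F, G ≠ a • 1) :
    ∃ v u : Fin 3 → F, (Matrix.of ![v, G *ᵥ v, u]).det ≠ 0 := by
  by_contra hn
  push Not at hn
  have t := fun v u => hn v u
  have t1 := t ![1, 0, 0] ![0, 0, 1]
  have t2 := t ![1, 0, 0] ![0, 1, 0]
  have t3 := t ![0, 1, 0] ![0, 0, 1]
  have t4 := t ![0, 1, 0] ![1, 0, 0]
  have t5 := t ![0, 0, 1] ![0, 1, 0]
  have t6 := t ![0, 0, 1] ![1, 0, 0]
  have t7 := t ![1, 1, 0] ![0, 0, 1]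
  have t8 := t ![1, 0, 1] ![0, 1, 0]
  simp [Matrix.det_fin_three, Matrix.mulVec, dotProduct, Fin.sum_univ_three] at t1 t2 t3 t4 t5 t6 t7 t8
  apply h (G 0 0)
  ext i j
  fin_cases i <;> fin_cases j <;> simp [t1, t2, t3, t4, t5, t6]
  · linear_combination t7 - t1 + t3
  · linear_combination -t8 - t2 + t5

theorem good_of_not_scalar {τ μ : F} (hμ : μ ≠ 0) {G : Matrix (Fin 3) (Fin 3) F} (hG : G.det = 1)
    (h : ∀ a : F, G ≠ a • 1) : Good τ μ G := by
  obtain ⟨v, u, hv⟩ := exists_basis_of_not_scalar h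
  set P : Matrix (Fin 3) (Fin 3) F := (Matrix.of ![v, G *ᵥ v, u])ᵀ with hPd
  have hP : P.det ≠ 0 := by rwa [hPd, Matrix.det_transpose]
  have hu : IsUnit P.det := isUnit_iff_ne_zero.2 hP
  have c0 : P *ᵥ Pi.single 0 1 = v := by
    rw [Matrix.mulVec_single_one]; rfl
  have c1 : P *ᵥ Pi.single 1 1 = G *ᵥ v := by
    rw [Matrix.mulVec_single_one]; rfl
  have k0 : (P⁻¹ * G * P) *ᵥ Pi.single 0 1 = Pi.single 1 1 := by
    rw [← Matrix.mulVec_mulVec, ← Matrix.mulVec_mulVec, c0, ← c1, Matrix.mulVec_mulVec,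
      Matrix.nonsing_inv_mul P hu, Matrix.one_mulVec]
  rw [Matrix.mulVec_single_one] at k0
  have hdet : (P⁻¹ * G * P).det = 1 := by
    rw [Matrix.det_mul, Matrix.det_mul, hG, mul_one, ← Matrix.det_mul,
      Matrix.nonsing_inv_mul P hu, Matrix.det_one]
  set H := P⁻¹ * G * P with hH
  have e0 := congrFun k0 0
  have e1 := congrFun k0 1
  have e2 := congrFun k0 2
  simp only [Matrix.col_apply] at e0 e1 e2
  have hH' : H = !![0, H 0 1, H 0 2; 1, H 1 1, H 1 2; 0, H 2 1, H 2 2] := by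
    ext i j
    fin_cases i <;> fin_cases j <;> simp [e0, e1, e2]
  refine Good.of_conj (G' := H) ?_ hP ?_
  · rw [hH'] at hdet ⊢
    exact good_of_col hμ hdet
  · rw [hH, ← Matrix.mul_assoc, ← Matrix.mul_assoc, Matrix.mul_nonsing_inv P hu, Matrix.one_mul]

theorem squarefree_chi {τ μ : F} (h : ∀ l : F, l ^ 2 - τ * l + μ ≠ 0) : Squarefree (chi τ μ) := by
  have hd : (X ^ 2 - C τ * X + C μ : F[X]).natDegree = 2 := by compute_degree!
  have hm : (X ^ 2 - C τ * X + C μ : F[X]).Monic := by monicity!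
  have hi : Irreducible (X ^ 2 - C τ * X + C μ : F[X]) := by
    refine (hm.irreducible_iff_roots_eq_zero_of_degree_le_three (by omega) (by omega)).2 ?_
    refine Multiset.eq_zero_of_forall_notMem fun l hl => h l ?_
    simpa using (mem_roots hm.ne_zero).1 hl
  rw [chi, squarefree_mul_iff]
  refine ⟨?_, (irreducible_X_sub_C _).squarefree, hi.squarefree⟩
  refine (irreducible_X_sub_C _).isRelPrime_iff_not_dvd.2 fun hdv => h μ⁻¹ ?_
  simpa using dvd_iff_isRoot.1 hdv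

theorem det_of_charpoly {τ μ : F} (hμ : μ ≠ 0) {A : Matrix (Fin 3) (Fin 3) F}
    (h : A.charpoly = chi τ μ) : A.det = 1 := by
  have := Cls.coeff_zero_charpoly A
  rw [h, chi, mul_coeff_zero] at this
  simp [hμ] at this
  norm_num at this
  exact this.symm

/-- There is a semisimple `x ∈ SL₃(F)` such that every non-central element is a product of two
conjugates of `x`. -/
theorem exists_class [Finite F] : ∃ x : SpecialLinearGroup (Fin 3) F,
    Cls.IsSS (x : Matrix (Fin 3) (Fin 3) F) ∧ ∀ g : SpecialLinearGroup (Fin 3) F,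
      g ∉ Subgroup.center _ → ∃ u v, g = (u * x * u⁻¹) * (v * x * v⁻¹) := by
  obtain ⟨μ, hμ⟩ := L2.exists_irreducible_quadratic (F := F)
  have h0 : μ ≠ 0 := by simpa using hμ 0
  have hsq : Squarefree (chi (1 : F) μ) := squarefree_chi fun l => by simpa using hμ l
  have ss : ∀ A : Matrix (Fin 3) (Fin 3) F, A.charpoly = chi 1 μ → Cls.IsSS A := fun A hA =>
    Cls.isSS_of_aeval_eq_zero hsq (hA ▸ A.aeval_self_charpoly)
  have lift : ∀ A : Matrix (Fin 3) (Fin 3) F, A.charpoly = chi 1 μ →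
      ∃ a : SpecialLinearGroup (Fin 3) F, (a : Matrix (Fin 3) (Fin 3) F) = A := fun A hA =>
    ⟨⟨A, det_of_charpoly h0 hA⟩, rfl⟩
  have hx0 : (!![0, -μ, 0; 1, 1, 0; 0, 0, μ⁻¹] : Matrix (Fin 3) (Fin 3) F).charpoly = chi 1 μ :=
    charpoly_lower (by ring) (by ring)
  obtain ⟨x, hx⟩ := lift _ hx0
  rw [← hx] at hx0
  refine ⟨x, ss _ hx0, fun g hg => ?_⟩
  obtain ⟨A, B, hA, hB, e⟩ := good_of_not_scalar (τ := 1) h0 g.det_coe fun a ha => hg (by
    rw [Subgroup.mem_center_iff]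
    intro k
    apply Subtype.ext
    simp [ha])
  obtain ⟨a, rfl⟩ := lift A hA
  obtain ⟨b, rfl⟩ := lift B hB
  have conj : ∀ m : SpecialLinearGroup (Fin 3) F,
      (m : Matrix (Fin 3) (Fin 3) F).charpoly = chi 1 μ → IsConj x m := fun m hm =>
    Cls.IsSS.isConj_SL (ss _ hx0) (((ss _ hx0).isConj_iff (ss _ hm)).2 (hx0.trans hm.symm))
  obtain ⟨u, hu⟩ := isConj_iff.1 (conj a hA)
  obtain ⟨v, hv⟩ := isConj_iff.1 (conj b hB)
  exact ⟨u, v, by rw [hu, hv]; exact Subtype.ext e⟩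

end Cfsg.Agent.Cl.Ore3
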