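import Mathlib
import Cfsg.Agent.Cl.OreSpA
import Cfsg.Agent.Cl.QuadOmega

/-! Wonenburger's theorem in odd characteristic, in a balanced form: an isometry of determinant one
of a nondegenerate quadratic space is a product of two involutions of the same rank. -/

set_option autoImplicit false

namespace Cfsg.Agent.Cl.OreO

open Module Cls Polynomial SpO OreSp QuadraticMap

variable {F V : Type*} [Field F] [AddCommGroup V] [Module F V] {B : LinearMap.BilinForm F V}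
  {Y : End F V}

/-- `U = P ⊥ M` with `Y` interchanging `P` and `M`, and `dim P - dim M ∈ {0, 1}`. -/
def Won (B : LinearMap.BilinForm F V) (Y : End F V) (U : Submodule F V) : Prop :=
  ∃ P M : Submodule F V, P ⊔ M = U ∧ (∀ p ∈ P, ∀ m ∈ M, B p m = 0) ∧ (∀ p ∈ P, Y p ∈ M) ∧
    (∀ m ∈ M, Y m ∈ P) ∧ finrank F M ≤ finrank F P ∧ finrank F P ≤ finrank F M + 1

/-- A skew-adjoint endomorphism of a symmetric form in odd characteristic. -/
structure Sk (B : LinearMap.BilinForm F V) (Y : End F V) : Prop where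
  two : (2 : F) ≠ 0
  symm : ∀ x y, B x y = B y x
  skew : ∀ x y, B (Y x) y = -B x (Y y)

theorem map_sup_mem {P M P' M' : Submodule F V} (h : ∀ p ∈ P, Y p ∈ M) (h' : ∀ p ∈ P', Y p ∈ M') :
    ∀ p ∈ P ⊔ P', Y p ∈ M ⊔ M' := fun x hx => by
  obtain ⟨a, ha, b, hb, rfl⟩ := Submodule.mem_sup.1 hx
  rw [map_add]
  exact Submodule.add_mem_sup (h a ha) (h' b hb)

theorem orth_sup {P M P' M' : Submodule F V} (h1 : ∀ p ∈ P, ∀ m ∈ M, B p m = 0)
    (h2 : ∀ p ∈ P, ∀ m ∈ M', B p m = 0) (h3 : ∀ p ∈ P', ∀ m ∈ M, B p m = 0)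
    (h4 : ∀ p ∈ P', ∀ m ∈ M', B p m = 0) : ∀ p ∈ P ⊔ P', ∀ m ∈ M ⊔ M', B p m = 0 :=
  fun x hx y hy => by
    obtain ⟨a, ha, b, hb, rfl⟩ := Submodule.mem_sup.1 hx
    obtain ⟨c, hc, d, hd, rfl⟩ := Submodule.mem_sup.1 hy
    simp [h1 a ha c hc, h2 a ha d hd, h3 b hb c hc, h4 b hb d hd]

theorem finrank_sup_eq [FiniteDimensional F V] {U W : Submodule F V} (h : Disjoint U W) :
    finrank F ↥(U ⊔ W) = finrank F U + finrank F W := by
  rw [← Submodule.finrank_sup_add_finrank_inf_eq, h.eq_bot, finrank_bot, add_zero]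

theorem Won.sup [FiniteDimensional F V] (hs : ∀ x y, B x y = B y x) {U U' : Submodule F V}
    (h : Won B Y U) (h' : Won B Y U') (hd : Disjoint U U') (ho : ∀ x ∈ U, ∀ y ∈ U', B x y = 0) :
    Won B Y (U ⊔ U') := by
  obtain ⟨P, M, rfl, h1, h2, h3, h4, h5⟩ := h
  obtain ⟨P', M', rfl, k1, k2, k3, k4, k5⟩ := h'
  have e1 := finrank_sup_eq (hd.mono (le_sup_left (a := P)) (le_sup_right (b := M')))
  have e2 := finrank_sup_eq (hd.mono (le_sup_right (b := M)) (le_sup_left (a := P')))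
  have o : ∀ p ∈ P ⊔ M', ∀ m ∈ M ⊔ P', B p m = 0 := orth_sup h1
    (fun p hp m hm => ho p (Submodule.mem_sup_left hp) m (Submodule.mem_sup_left hm))
    (fun p hp m hm => by
      rw [hs]; exact ho m (Submodule.mem_sup_right hm) p (Submodule.mem_sup_right hp))
    fun p hp m hm => by rw [hs]; exact k1 m hm p hp
  have e : P ⊔ M' ⊔ (M ⊔ P') = P ⊔ M ⊔ (P' ⊔ M') := by ac_rfl
  by_cases hl : finrank F ↥(M ⊔ P') ≤ finrank F ↥(P ⊔ M')
  · exact ⟨_, _, e, o, map_sup_mem h2 k3, map_sup_mem h3 k2, hl, by omega⟩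
  · exact ⟨_, _, (sup_comm _ _).trans e, fun p hp m hm => by rw [hs]; exact o m hm p hp,
      map_sup_mem h3 k2, map_sup_mem h2 k3, by omega, by omega⟩

theorem Won.lift {U : Submodule F V} (hU : ∀ x ∈ U, Y x ∈ U)
    (h : Won (B.restrict U) (Y.restrict hU) ⊤) : Won B Y U := by
  obtain ⟨P, M, e, h1, h2, h3, h4, h5⟩ := h
  refine ⟨P.map U.subtype, M.map U.subtype, by
    rw [← Submodule.map_sup, e, Submodule.map_subtype_top], ?_, ?_, ?_, by
    simpa only [Submodule.finrank_map_subtype_eq] using h4, by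
    simpa only [Submodule.finrank_map_subtype_eq] using h5⟩
  · rintro _ ⟨x, hx, rfl⟩ _ ⟨y, hy, rfl⟩
    exact h1 x hx y hy
  · rintro _ ⟨x, hx, rfl⟩
    exact ⟨_, h2 x hx, rfl⟩
  · rintro _ ⟨x, hx, rfl⟩
    exact ⟨_, h3 x hx, rfl⟩

theorem finrank_range_eq {W : Type*} [AddCommGroup W] [Module F W] {f f' : W →ₗ[F] V}
    (h : ∀ w, f w = 0 ↔ f' w = 0) :
    finrank F (LinearMap.range f) = finrank F (LinearMap.range f') := by
  have e : LinearMap.ker f = LinearMap.ker f' := Submodule.ext h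
  rw [← f.quotKerEquivRange.finrank_eq, ← f'.quotKerEquivRange.finrank_eq, e]

theorem aeval_X_pow_mul (Y : End F V) (i : ℕ) (p : F[X]) (u : V) :
    aeval Y (X ^ i * p) u = (Y ^ i) (aeval Y p u) := by
  rw [map_mul, map_pow, aeval_X, Module.End.mul_apply]

theorem aeval_top {H : ℕ} {u : V} (hu : (Y ^ (H + 1)) u = 0) (p : F[X]) :
    (Y ^ H) (aeval Y p u) = p.coeff 0 • (Y ^ H) u := by
  conv_lhs => rw [← X_mul_divX_add p]
  rw [map_add, LinearMap.add_apply, map_add, ← aeval_X_pow_mul, ← mul_assoc, ← pow_succ, mul_comm,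
    ← aeval_aeval, map_pow, aeval_X, hu, map_zero, zero_add, aeval_C]
  simp [Module.algebraMap_end_apply]

theorem pair_dvd {H : ℕ} {u v : V} (hu : (Y ^ (H + 1)) u = 0) (hv : (Y ^ (H + 1)) v = 0)
    (h1 : B ((Y ^ H) u) u = 0) (h2 : B ((Y ^ H) v) v = 0) (h3 : B ((Y ^ H) u) v ≠ 0)
    (h4 : B ((Y ^ H) v) u ≠ 0) {a b : F[X]}
    (h : ∀ i, B ((Y ^ i) (aeval Y a u + aeval Y b v)) u = 0 ∧
      B ((Y ^ i) (aeval Y a u + aeval Y b v)) v = 0) : X ^ (H + 1) ∣ a ∧ X ^ (H + 1) ∣ b := by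
  suffices ∀ i ≤ H + 1, X ^ i ∣ a ∧ X ^ i ∣ b from this _ le_rfl
  intro i hi
  induction i with
  | zero => simp
  | succ i ih =>
  obtain ⟨⟨a', rfl⟩, b', rfl⟩ := ih (by omega)
  obtain ⟨d, rfl⟩ := Nat.exists_eq_add_of_le' (Nat.le_of_succ_le_succ hi)
  obtain ⟨e1, e2⟩ := h d
  rw [aeval_X_pow_mul, aeval_X_pow_mul, ← map_add, ← Module.End.mul_apply, ← pow_add, map_add,
    aeval_top hu, aeval_top hv] at e1 e2
  simp only [map_add, map_smul, LinearMap.add_apply, LinearMap.smul_apply, smul_eq_mul, h1, h2,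
    mul_zero, zero_add, add_zero, mul_eq_zero, h3, h4, or_false] at e1 e2
  exact ⟨pow_succ (X : F[X]) i ▸ mul_dvd_mul_left _ (X_dvd_iff.2 e2),
    pow_succ (X : F[X]) i ▸ mul_dvd_mul_left _ (X_dvd_iff.2 e1)⟩

theorem aeval_zero_of_dvd {H : ℕ} {u : V} (hu : (Y ^ (H + 1)) u = 0) {a : F[X]}
    (h : X ^ (H + 1) ∣ a) : aeval Y a u = 0 := by
  obtain ⟨c, rfl⟩ := h
  rw [mul_comm, ← aeval_aeval, map_pow, aeval_X, hu, map_zero]

theorem comm_sq (Y : End F V) (p : F[X]) (x : V) :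
    Y (aeval (Y ^ 2) p x) = aeval (Y ^ 2) p (Y x) :=
  LinearMap.congr_fun (commute_aeval (Commute.self_pow Y 2) p).eq x

theorem sq_mem_E {u x : V} (hx : x ∈ E (Y ^ 2) u) : Y (Y x) ∈ E (Y ^ 2) u := by
  simpa [pow_two] using apply_mem_E hx

theorem aeval_sq (Y : End F V) (p : F[X]) : aeval (Y ^ 2) p = aeval Y (expand F 2 p) :=
  (expand_aeval 2 p Y).symm

theorem aeval_sq' (Y : End F V) (p : F[X]) (u : V) :
    Y (aeval (Y ^ 2) p u) = aeval Y (X * expand F 2 p) u := by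
  rw [map_mul, aeval_X, aeval_sq, Module.End.mul_apply]

namespace Sk

variable (S : Sk B Y)
include S

theorem restrict {U : Submodule F V} (hU : ∀ x ∈ U, Y x ∈ U) :
    Sk (B.restrict U) (Y.restrict hU) := ⟨S.two, fun x y => S.symm x y, fun x y => S.skew x y⟩

theorem pow (i : ℕ) : ∀ x y, B ((Y ^ i) x) y = (-1) ^ i * B x ((Y ^ i) y) := by
  induction i with
  | zero => simp
  | succ i ih =>
    intro x y
    rw [pow_succ', Module.End.mul_apply, S.skew, ih, ← Module.End.mul_apply, ← pow_succ, ← pow_succ']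
    ring

theorem sap (p : F[X]) (x y : V) : B (aeval (Y ^ 2) p x) y = B x (aeval (Y ^ 2) p y) :=
  sa_aeval (fun x y => by simp [S.pow]) p x y

theorem orth_E (u : V) : ∀ p ∈ E (Y ^ 2) u, ∀ m ∈ (E (Y ^ 2) u).map Y, B p m = 0 := by
  rintro _ ⟨a, rfl⟩ _ ⟨_, ⟨b, rfl⟩, rfl⟩
  change B (aeval (Y ^ 2) a u) (Y (aeval (Y ^ 2) b u)) = 0
  have e : ∀ c : F[X], B u (Y (aeval (Y ^ 2) c u)) = 0 := fun c => by
    have := S.skew u (aeval (Y ^ 2) c u)
    rw [← S.sap, ← comm_sq, S.symm] at this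
    exact (mul_eq_zero.1 (by linear_combination this : 2 * B u (Y (aeval (Y ^ 2) c u)) = 0)
      ).resolve_left S.two
  rw [S.sap, ← comm_sq, aeval_aeval, e]

theorem won_cyc [FiniteDimensional F V] (u : V) :
    Won B Y (E (Y ^ 2) u ⊔ (E (Y ^ 2) u).map Y) := by
  refine ⟨_, _, rfl, S.orth_E u, fun p hp => ⟨p, hp, rfl⟩, ?_, Submodule.finrank_map_le _ _, ?_⟩
  · rintro _ ⟨x, hx, rfl⟩
    exact sq_mem_E hx
  have : E (Y ^ 2) u ≤ (F ∙ u) ⊔ ((E (Y ^ 2) u).map Y).map Y := by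
    rintro _ ⟨a, rfl⟩
    change aeval (Y ^ 2) a u ∈ _
    rw [← X_mul_divX_add a, map_add, map_mul, aeval_X, aeval_C, LinearMap.add_apply, add_comm]
    refine Submodule.add_mem_sup (Submodule.smul_mem _ _ (Submodule.mem_span_singleton_self u))
      ⟨_, ⟨_, aeval_mem_E a.divX u, rfl⟩, by simp [pow_two]⟩
  have h1 := Submodule.finrank_mono this
  have h2 := Submodule.finrank_add_le_finrank_add_finrank (F ∙ u) (((E (Y ^ 2) u).map Y).map Y)
  have h3 := Submodule.finrank_map_le Y ((E (Y ^ 2) u).map Y)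
  have h4 : finrank F (F ∙ u) ≤ 1 := finrank_span_le_card ({u} : _root_.Set V) |>.trans (by simp)
  omega

omit S in
theorem cyc_inv (u : V) : ∀ x ∈ E (Y ^ 2) u ⊔ (E (Y ^ 2) u).map Y,
    Y x ∈ E (Y ^ 2) u ⊔ (E (Y ^ 2) u).map Y := fun x hx => by
  rw [sup_comm]
  refine map_sup_mem (fun p hp => Submodule.mem_map_of_mem hp) ?_ x hx
  rintro _ ⟨x, hx, rfl⟩
  exact sq_mem_E hx

theorem blk_of {U : Submodule F V} {u : V} (hu : u ∈ U) (h0 : u ≠ 0) (hU : ∀ x ∈ U, Y x ∈ U)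
    (h : ∀ x ∈ U, (∀ y ∈ U, B x y = 0) → x = 0) : Blk B Y U :=
  ⟨fun e => h0 (by rwa [e] at hu), hU, B.nondegenerate_restrict_of_disjoint_orthogonal
    (fun x y e => by rwa [S.symm]) (Submodule.disjoint_def.2 fun x hx ho => h x hx fun y hy => by
      rw [S.symm]; exact ho y hy)⟩

variable [FiniteDimensional F V]

theorem exists_aniso (hB : B.Nondegenerate) {π : End F V} {j : ℕ} {c : F}
    (h1 : ∀ x y, B ((π ^ finrank F V) x) y = c * B x ((π ^ finrank F V) y))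
    (h2 : ∀ x y, B ((π ^ j) x) y = B x ((π ^ j) y)) {w : V} (hw : (π ^ finrank F V) w = 0)
    (hw' : (π ^ j) w ≠ 0) : ∃ u, (π ^ finrank F V) u = 0 ∧ B ((π ^ j) u) u ≠ 0 := by
  by_contra hne
  push Not at hne
  refine hw' (hB.1 _ fun y => ?_)
  obtain ⟨a, b, rfl⟩ := exists_add_of_isCompl (isCompl_fit (π + 1)) y
  have ha : (π ^ finrank F V) a = 0 := by simpa [fitK] using a.2
  obtain ⟨b', hb'⟩ : ∃ b', (π ^ finrank F V) b' = b := by simpa [fitR] using b.2
  have e1 := hne (w + a) (by simp [hw, ha])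
  simp only [map_add, LinearMap.add_apply, hne w hw, hne a ha, zero_add, add_zero] at e1
  rw [h2 a, S.symm a] at e1
  rw [map_add, ← hb', S.symm _ ((π ^ finrank F V) b'), h1, ← Module.End.mul_apply, pow_mul_comm π,
    Module.End.mul_apply, hw, map_zero, map_zero, mul_zero, add_zero]
  exact (mul_eq_zero.1 (by linear_combination e1 : 2 * B ((π ^ j) w) a = 0)).resolve_left S.two

theorem exists_blk_inj [Nontrivial V] (hB : B.Nondegenerate) (hY : ∀ z, Y z = 0 → z = 0) :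
    ∃ U, Blk B Y U ∧ Won B Y U := by
  obtain ⟨P, hP, z, hz, hz'⟩ := exists_irreducible_ker (Y ^ 2)
  set π := aeval (Y ^ 2) P with hπ
  obtain ⟨n, hn⟩ : ∃ n, finrank F V = n + 1 := Nat.exists_eq_succ_of_ne_zero finrank_pos.ne'
  obtain ⟨j, w, hj, hw, hw'⟩ := exists_top (π := π) (n := finrank F V) hz (by
    rw [hn, pow_succ, Module.End.mul_apply, hz', map_zero])
  have hsa : ∀ i x y, B ((π ^ i) x) y = B x ((π ^ i) y) := fun i x y => by
    rw [hπ, ← map_pow, S.sap]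
  obtain ⟨u, hu, hu'⟩ := S.exists_aniso hB (c := 1) (by simp [hsa]) (hsa j) hw hw'
  let l : F[X] →ₗ[F] F := B.flip u ∘ₗ LinearMap.applyₗ u ∘ₗ (aeval (Y ^ 2)).toLinearMap
  have hl : ∀ p, l p = B (aeval (Y ^ 2) p u) u := fun _ => rfl
  have h0 : ∀ c, aeval (Y ^ 2) (P ^ (j + 1) * c) u = 0 := fun c => by
    rw [mul_comm, ← aeval_aeval, map_pow, hj u hu, map_zero]
  have key : ∀ x ∈ E (Y ^ 2) u, (∀ y ∈ E (Y ^ 2) u, B x y = 0) → x = 0 := by
    rintro _ ⟨c, rfl⟩ hc
    obtain ⟨d, rfl⟩ := dvd_of_ell hP l (fun c => by rw [hl, h0]; simp) (by rwa [hl, map_pow])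
      (c := c) fun b => by rw [hl, mul_comm, ← aeval_aeval, S.sap]; exact hc _ (aeval_mem_E b u)
    exact h0 d
  refine ⟨_, S.blk_of (Submodule.mem_sup_left (self_mem_E _ u)) (by rintro rfl; simp at hu')
    (cyc_inv u) fun x hx ho => ?_, S.won_cyc u⟩
  obtain ⟨a, ha, _, ⟨b, hb, rfl⟩, rfl⟩ := Submodule.mem_sup.1 hx
  have ea : a = 0 := key a ha fun y hy => by
    have := ho y (Submodule.mem_sup_left hy)
    rwa [map_add, LinearMap.add_apply, S.symm (Y b), S.orth_E u y hy _ ⟨b, hb, rfl⟩,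
      add_zero] at this
  rw [ea, zero_add] at ho ⊢
  refine hY _ (key _ (sq_mem_E hb) fun y hy => ?_)
  rw [S.skew, ho _ (Submodule.mem_sup_right ⟨y, hy, rfl⟩), neg_zero]

theorem exists_blk_nil (hB : B.Nondegenerate) {z : V} (hz : z ≠ 0) (hz' : Y z = 0) :
    ∃ U, Blk B Y U ∧ Won B Y U := by
  have : Nontrivial V := ⟨z, 0, hz⟩
  obtain ⟨n, hn⟩ : ∃ n, finrank F V = n + 1 := Nat.exists_eq_succ_of_ne_zero finrank_pos.ne'
  obtain ⟨H, w, hj, hw, hw'⟩ := exists_top (π := Y) (n := finrank F V) hz (by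
    rw [hn, pow_succ, Module.End.mul_apply, hz', map_zero])
  have hdv : ∀ u v, (Y ^ (H + 1)) u = 0 → B ((Y ^ H) u) v ≠ 0 → ∀ c : F[X],
      (∀ b, B (aeval Y (c * b) u) v = 0) → X ^ (H + 1) ∣ c := fun u v h1 h2 c hc =>
    dvd_of_ell irreducible_X (B.flip v ∘ₗ LinearMap.applyₗ u ∘ₗ (aeval Y).toLinearMap)
      (fun c => by
        change B (aeval Y _ u) v = 0
        rw [aeval_zero_of_dvd h1 (dvd_mul_right _ _), map_zero, LinearMap.zero_apply])
      (by change B (aeval Y _ u) v ≠ 0; rwa [map_pow, aeval_X]) hc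
  have hrad : ∀ {U : Submodule F V}, (∀ x ∈ U, Y x ∈ U) → ∀ {x}, (∀ y ∈ U, B x y = 0) →
      ∀ (i : ℕ), ∀ y ∈ U, B ((Y ^ i) x) y = 0 := fun hU x hx i y hy => by
    rw [S.pow, hx _ (Module.End.pow_apply_mem_of_forall_mem _ hU _ hy), mul_zero]
  rcases Nat.even_or_odd H with hH | hH
  · obtain ⟨u, hu, hu'⟩ := S.exists_aniso hB (S.pow _) (j := H)
      (fun x y => by rw [S.pow, hH.neg_one_pow, one_mul]) hw hw'
    have m := Submodule.mem_sup_left (T := (E (Y ^ 2) u).map Y) (self_mem_E (Y ^ 2) u)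
    refine ⟨_, S.blk_of m (by rintro rfl; simp at hu') (cyc_inv u) fun x hx ho => ?_, S.won_cyc u⟩
    obtain ⟨_, ⟨a, rfl⟩, _, ⟨_, ⟨b, rfl⟩, rfl⟩, rfl⟩ := Submodule.mem_sup.1 hx
    change aeval (Y ^ 2) a u + Y (aeval (Y ^ 2) b u) = 0
    change ∀ y ∈ _, B (aeval (Y ^ 2) a u + Y (aeval (Y ^ 2) b u)) y = 0 at ho
    rw [aeval_sq', aeval_sq, ← LinearMap.add_apply, ← map_add] at ho ⊢
    refine aeval_zero_of_dvd (hj u hu) (hdv u u (hj u hu) hu' _ fun b => ?_)
    rw [mul_comm, ← aeval_aeval]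
    induction b using Polynomial.induction_on' with
    | add p q hp hq => simp only [map_add (aeval Y) p q, LinearMap.add_apply, map_add B, hp, hq,
        add_zero]
    | monomial i c =>
      rw [aeval_monomial, Module.End.mul_apply, Module.algebraMap_end_apply, map_smul,
        LinearMap.smul_apply, hrad (cyc_inv u) ho i u m, smul_zero]
  have hn0 : (Y ^ H) w ∉ E (Y ^ 2) w := by
    rintro ⟨p, hp⟩
    change aeval (Y ^ 2) p w = _ at hp
    obtain ⟨v, hv⟩ : ∃ v, B ((Y ^ H) w) v ≠ 0 := by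
      by_contra hne
      push Not at hne
      exact hw' (hB.1 _ hne)
    have := X_pow_dvd_iff.1 (hdv w v (hj w hw) hv (expand F 2 p - X ^ H) fun b => by
      rw [mul_comm, ← aeval_aeval, map_sub, ← aeval_sq, LinearMap.sub_apply, hp]; simp) H (by omega)
    rw [coeff_sub, coeff_expand two_pos, if_neg (by rwa [← even_iff_two_dvd, Nat.not_even_iff_odd]),
      coeff_X_pow_self] at this
    simp at this
  obtain ⟨v, hv, h1, h2⟩ : ∃ v, (Y ^ finrank F V) v = 0 ∧ (∀ x ∈ E (Y ^ 2) w, B x v = 0) ∧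
      B ((Y ^ H) w) v ≠ 0 := by
    obtain ⟨f, h1, h2⟩ := (E (Y ^ 2) w).exists_dual_map_eq_bot_of_notMem hn0 inferInstance
    obtain ⟨v, hv⟩ := (B.flip.toDual hB.flip).surjective f
    obtain ⟨a, b, rfl⟩ := exists_add_of_isCompl (isCompl_fit (Y + 1)) v
    obtain ⟨b', hb'⟩ : ∃ b', (Y ^ finrank F V) b' = b := by simpa [fitR] using b.2
    have key : ∀ p : F[X], B (aeval Y p w) a = f (aeval Y p w) := fun p => by
      rw [← hv, LinearMap.BilinForm.toDual_def, LinearMap.BilinForm.flip_apply, map_add, ← hb',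
        S.symm _ ((Y ^ finrank F V) b'), S.pow, ← aeval_X_pow_mul, mul_comm (X ^ _), ← aeval_aeval,
        map_pow, aeval_X, hw]
      simp
    refine ⟨a, by simpa [fitK] using a.2, ?_, by
      have := key (X ^ H)
      rw [map_pow, aeval_X] at this
      rwa [this]⟩
    rintro _ ⟨p, rfl⟩
    change B (aeval (Y ^ 2) p w) a = 0
    rw [aeval_sq, key, ← Submodule.mem_bot F, ← h2]
    exact ⟨_, aeval_sq Y p ▸ aeval_mem_E p w, rfl⟩
  have alt : ∀ x, B ((Y ^ H) x) x = 0 := fun x => by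
    have := S.pow H x x
    rw [hH.neg_one_pow, S.symm x] at this
    exact (mul_eq_zero.1 (by linear_combination this : 2 * B ((Y ^ H) x) x = 0)).resolve_left S.two
  have h3 : B ((Y ^ H) v) w ≠ 0 := by rwa [S.pow, hH.neg_one_pow, neg_one_mul, neg_ne_zero, S.symm]
  have ho : ∀ x ∈ E (Y ^ 2) w, ∀ y ∈ E (Y ^ 2) v, B x y = 0 := by
    rintro x hx _ ⟨p, rfl⟩
    change B x (aeval (Y ^ 2) p v) = 0
    rw [← S.sap]
    exact h1 _ (aeval_mem (fun _ => apply_mem_E) p hx)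
  let f : V → V → F[X] × F[X] →ₗ[F] V := fun u v =>
    (LinearMap.applyₗ u ∘ₗ (aeval (Y ^ 2)).toLinearMap).coprod
      (Y ∘ₗ LinearMap.applyₗ v ∘ₗ (aeval (Y ^ 2)).toLinearMap)
  have hf : ∀ u v p, f u v p = aeval Y (expand F 2 p.1) u + aeval Y (X * expand F 2 p.2) v :=
    fun u v p => by rw [← aeval_sq, ← aeval_sq']; rfl
  have hr : ∀ u v, LinearMap.range (f u v) = E (Y ^ 2) u ⊔ (E (Y ^ 2) v).map Y := fun u v => by
    rw [LinearMap.range_coprod, LinearMap.range_comp _ Y]; rfl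
  have hk : ∀ u v, (Y ^ (H + 1)) u = 0 → (Y ^ (H + 1)) v = 0 → B ((Y ^ H) u) v ≠ 0 →
      B ((Y ^ H) v) u ≠ 0 → ∀ p, f u v p = 0 → f v u p = 0 := fun u v k1 k2 k3 k4 p hp => by
    rw [hf] at hp ⊢
    obtain ⟨d1, d2⟩ := pair_dvd k1 k2 (alt u) (alt v) k3 k4 (fun i => by rw [hp]; simp)
    rw [aeval_zero_of_dvd k2 d1, aeval_zero_of_dvd k1 d2, add_zero]
  have hd := finrank_range_eq fun p => Iff.intro (hk w v (hj w hw) (hj v hv) h2 h3 p)
    (hk v w (hj v hv) (hj w hw) h3 h2 p)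
  rw [hr, hr] at hd
  have hi : ∀ u v, ∀ p ∈ E (Y ^ 2) u ⊔ (E (Y ^ 2) v).map Y,
      Y p ∈ E (Y ^ 2) v ⊔ (E (Y ^ 2) u).map Y := fun u v p hp => by
    rw [sup_comm]
    refine map_sup_mem (fun p hp => Submodule.mem_map_of_mem hp) ?_ p hp
    rintro _ ⟨x, hx, rfl⟩
    exact sq_mem_E hx
  have hU : ∀ x ∈ (E (Y ^ 2) w ⊔ (E (Y ^ 2) v).map Y) ⊔ (E (Y ^ 2) v ⊔ (E (Y ^ 2) w).map Y),
      Y x ∈ (E (Y ^ 2) w ⊔ (E (Y ^ 2) v).map Y) ⊔ (E (Y ^ 2) v ⊔ (E (Y ^ 2) w).map Y) :=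
    fun x hx => sup_comm (α := Submodule F V) _ _ ▸ map_sup_mem (hi w v) (hi v w) x hx
  have m1 := Submodule.mem_sup_left (T := E (Y ^ 2) v ⊔ (E (Y ^ 2) w).map Y)
    (Submodule.mem_sup_left (T := (E (Y ^ 2) v).map Y) (self_mem_E (Y ^ 2) w))
  have m2 := Submodule.mem_sup_right (S := E (Y ^ 2) w ⊔ (E (Y ^ 2) v).map Y)
    (Submodule.mem_sup_left (T := (E (Y ^ 2) w).map Y) (self_mem_E (Y ^ 2) v))
  refine ⟨_, S.blk_of m1 (by rintro rfl; simp at hw') hU fun x hx hx' => ?_, _, _, rfl,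
    orth_sup ho (S.orth_E w) (fun p hp m hm => by rw [S.symm]; exact S.orth_E v m hm p hp) ?_,
    hi w v, hi v w, hd.ge, by omega⟩
  · obtain ⟨a, ha, b, hb, rfl⟩ := Submodule.mem_sup.1 hx
    rw [← hr] at ha hb
    obtain ⟨⟨p, rfl⟩, q, rfl⟩ := And.intro ha hb
    have e : f w v p + f v w q = aeval Y (expand F 2 p.1 + X * expand F 2 q.2) w +
        aeval Y (X * expand F 2 p.2 + expand F 2 q.1) v := by
      simp only [hf, map_add, LinearMap.add_apply]; abel
    rw [e] at hx' ⊢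
    obtain ⟨d1, d2⟩ := pair_dvd (hj w hw) (hj v hv) (alt w) (alt v) h2 h3
      fun i => ⟨hrad hU hx' i w m1, hrad hU hx' i v m2⟩
    rw [aeval_zero_of_dvd (hj w hw) d1, aeval_zero_of_dvd (hj v hv) d2, add_zero]
  · rintro _ ⟨x, hx, rfl⟩ _ ⟨y, hy, rfl⟩
    rw [S.skew, S.symm, ho _ (sq_mem_E hy) x hx, neg_zero]

end Sk

theorem won_aux {F : Type*} [Field F] (n : ℕ) : ∀ {V : Type*} [AddCommGroup V] [Module F V]
    [FiniteDimensional F V] {B : LinearMap.BilinForm F V} {Y : End F V}, finrank F V = n →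
    B.Nondegenerate → Sk B Y → Won B Y ⊤ := by
  induction n using Nat.strong_induction_on with
  | _ n ih =>
  intro V _ _ _ B Y hn hB S
  rcases subsingleton_or_nontrivial V with h0 | h0
  · exact ⟨⊥, ⊥, Subsingleton.elim _ _, by simp, by simp, by simp, le_rfl, by simp⟩
  obtain ⟨U, ⟨h1, h2, h3⟩, h4⟩ : ∃ U, Blk B Y U ∧ Won B Y U := by
    by_cases hY : ∀ z, Y z = 0 → z = 0
    · exact S.exists_blk_inj hB hY
    push Not at hY
    obtain ⟨z, hz, hz'⟩ := hY
    exact S.exists_blk_nil hB hz' hz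
  have hr : B.IsRefl := fun x y e => by rwa [S.symm]
  have hc := LinearMap.BilinForm.isCompl_orthogonal_of_restrict_nondegenerate hr h3
  have hi : ∀ x ∈ B.orthogonal U, Y x ∈ B.orthogonal U := fun x hx y hy => by
    have := S.skew y x
    rw [hx _ (h2 y hy)] at this
    exact neg_eq_zero.1 this.symm
  have hd := Submodule.finrank_add_eq_of_isCompl hc
  have hp : finrank F U ≠ 0 := fun h => h1 (Submodule.finrank_eq_zero.1 h)
  rw [← hc.sup_eq_top]
  exact h4.sup S.symm ((ih _ (by omega) rfl (nondeg_right hB hr hc fun u hu w hw => hw u hu)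
    (S.restrict hi)).lift hi) hc.disjoint fun u hu w hw => hw u hu

theorem Sk.won [FiniteDimensional F V] (S : Sk B Y) {U : Submodule F V} (hU : ∀ x ∈ U, Y x ∈ U)
    (h : (B.restrict U).Nondegenerate) : Won B Y U :=
  (won_aux _ rfl h (S.restrict hU)).lift hU

variable {Q : QuadraticForm F V}

theorem exists_invol {P M : Submodule F V} (hc : IsCompl P M)
    (ho : ∀ p ∈ P, ∀ m ∈ M, polarBilin Q p m = 0) :
    ∃ σ : OG Q, (∀ p ∈ P, σ.1 p = p) ∧ ∀ m ∈ M, σ.1 m = -m := by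
  let f := LinearMap.ofIsCompl hc P.subtype (-M.subtype)
  have hf : ∀ (p : P) (m : M), f (p + m) = p + (-m : M) := fun p m => by simp [f]
  have hff : ∀ x, f (f x) = x := fun x => by
    obtain ⟨p, m, rfl⟩ := exists_add_of_isCompl hc x
    rw [hf, hf, neg_neg]
  refine ⟨OG.ofLinear f f hff hff fun x => ?_, fun p hp => by simpa using hf ⟨p, hp⟩ 0,
    fun m hm => by simpa using hf 0 ⟨m, hm⟩⟩
  obtain ⟨p, m, rfl⟩ := exists_add_of_isCompl hc x
  have := ho p p.2 m m.2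
  rw [polarBilin_apply_apply] at this
  simp [hf, oexp, this]

theorem ocomm_eq (h2 : (2 : F) ≠ 0) {P M : Submodule F V} (hc : IsCompl P M) {σ : OG Q}
    (h1 : ∀ p ∈ P, σ.1 p = p) (h1' : ∀ m ∈ M, σ.1 m = -m) : ocomm σ = M := by
  refine le_antisymm ?_ fun m hm => ⟨(-(2 : F)⁻¹) • m, ?_⟩
  · rintro _ ⟨x, rfl⟩
    obtain ⟨p, m, rfl⟩ := exists_add_of_isCompl hc x
    have : σ.1 (p + m) - (p + m) = (-2 : F) • m := by
      rw [map_add, h1 p p.2, h1' m m.2]; module
    change σ.1 (p + m) - (p + m) ∈ M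
    exact this ▸ M.smul_mem _ m.2
  · change σ.1 _ - (-(2 : F)⁻¹) • m = m
    rw [map_smul, h1' m hm, ← smul_sub, ← neg_add', ← two_smul F, ← neg_smul, smul_smul]
    simp [h2]

theorem ext_compl {P M : Submodule F V} (hc : IsCompl P M) {f f' : End F V}
    (h : ∀ p ∈ P, f p = f' p) (h' : ∀ m ∈ M, f m = f' m) : f = f' := LinearMap.ext fun x => by
  obtain ⟨p, m, rfl⟩ := exists_add_of_isCompl hc x
  rw [map_add, map_add, h p p.2, h' m m.2]

variable [FiniteDimensional F V]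

omit [FiniteDimensional F V] in
theorem orank_eq_of_mul {a b : OG Q} {J : End F V} (hJ : IsUnit J)
    (h : (a.1 : End F V) * J = J * b.1) : orank a = orank b := by
  obtain ⟨J, rfl⟩ := hJ
  have e : (a.1 : End F V) - 1 = J * ((b.1 : End F V) - 1) * J⁻¹ := by
    rw [mul_sub, sub_mul, ← h]; simp
  let j := LinearMap.GeneralLinearGroup.toLinearEquiv J
  have : ocomm a = (ocomm b).map (j : V →ₗ[F] V) := by
    rw [ocomm, e, Module.End.mul_eq_comp, LinearMap.range_comp_of_range_eq_top (f := J⁻¹.1) _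
      (LinearMap.range_eq_top.2 (LinearMap.GeneralLinearGroup.toLinearEquiv J⁻¹).surjective),
      Module.End.mul_eq_comp, LinearMap.range_comp]
    rfl
  rw [orank, this, LinearEquiv.finrank_map_eq, orank]

omit [FiniteDimensional F V] in
theorem isCompl_of_sup (hQ : (polarBilin Q).Nondegenerate) {P M : Submodule F V} (h : P ⊔ M = ⊤)
    (ho : ∀ p ∈ P, ∀ m ∈ M, polarBilin Q p m = 0) : IsCompl P M :=
  ⟨Submodule.disjoint_def.2 fun x hx hx' => hQ.1 x fun y => by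
    obtain ⟨p, hp, m, hm, rfl⟩ := Submodule.mem_sup.1 (h ▸ Submodule.mem_top : y ∈ P ⊔ M)
    rw [map_add, ho x hx m hm, o_isRefl Q _ _ (ho p hp x hx'), add_zero], codisjoint_iff.2 h⟩

/-- Wonenburger's theorem, balanced form. -/
theorem wonenburger (hQ : (polarBilin Q).Nondegenerate) (h2 : (2 : F) ≠ 0) (g : OG Q)
    (hg : dickson hQ g = 1) :
    ∃ σ τ : OG Q, σ * σ = 1 ∧ τ * τ = 1 ∧ g = σ * τ ∧ orank σ = orank τ := by
  set G : End F V := g.1.toLinearMap with hG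
  have hi : IsIsom (polarBilin Q) (-G) := IsIsom.neg fun x y => OG.polar_app g x y
  have hc := (isCompl_fit (-G)).symm
  set R := fitR (-G)
  set K := fitK (-G)
  have ho : ∀ x ∈ R, ∀ y ∈ K, polarBilin Q x y = 0 := fun x hx y hy =>
    o_isRefl Q _ _ (hi.fit_orth hQ y hy x hx)
  have cR : ∀ {f : End F V}, Commute f G → ∀ x ∈ R, f x ∈ R := fun h => fitR_of_commute h.neg_right
  have cK : ∀ {f : End F V}, Commute f G → ∀ x ∈ K, f x ∈ K := fun h => fitK_of_commute h.neg_right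
  obtain ⟨ε, e1, e2⟩ := exists_invol hc ho
  set e : End F V := ε.1.toLinearMap with he
  have ce : ∀ {f : End F V}, (∀ x ∈ R, f x ∈ R) → (∀ x ∈ K, f x ∈ K) → e * f = f * e :=
    fun h h' => ext_compl hc (fun x hx => by simp [he, e1 x hx, e1 _ (h x hx)])
      fun x hx => by simp [he, e2 x hx, e2 _ (h' x hx)]
  have ee : e * e = 1 := ext_compl hc (fun x hx => by simp [he, e1 x hx])
    fun x hx => by simp [he, e2 x hx]
  have eG : Commute e G := ce (cR (Commute.refl G)) (cK (Commute.refl G))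
  have hJ : IsUnit (e * G + 1) := (LinearMap.isUnit_iff_ker_eq_bot _).2 <|
    LinearMap.ker_eq_bot'.2 fun x hx => by
      obtain ⟨r, k, rfl⟩ := exists_add_of_isCompl hc x
      have cJ : Commute (e * G + 1) G :=
        (eG.mul_left (Commute.refl G)).add_left (Commute.one_left G)
      rw [map_add, add_eq_zero_iff_eq_neg] at hx
      have hr := Submodule.disjoint_def.1 hc.disjoint _ (cR cJ r r.2)
        (hx ▸ neg_mem (cK cJ k k.2))
      rw [hr, eq_comm, neg_eq_zero] at hx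
      have h1 : r = 0 := (LinearMap.ker_eq_bot'.1 ((LinearMap.isUnit_iff_ker_eq_bot _).1
        (isUnit_onR_sub_one (-G)))) r (Subtype.ext (by
          change -G r - r = 0
          rw [LinearMap.add_apply, Module.End.mul_apply, he, LinearEquiv.coe_coe,
            e1 _ (cR (Commute.refl G) r r.2)] at hr
          rw [← neg_add', ← neg_zero, ← hr]; rfl))
      have h3 : G k = k := by
        rw [LinearMap.add_apply, Module.End.mul_apply, he, LinearEquiv.coe_coe,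
          e2 _ (cK (Commute.refl G) k k.2)] at hx
        exact (neg_add_eq_zero.1 hx)
      have h4 : ∀ i, ((-G - 1) ^ i) k = (-2 : F) ^ i • (k : V) := fun i => by
        induction i with
        | zero => simp
        | succ i ih =>
          rw [pow_succ', Module.End.mul_apply, ih, map_smul, LinearMap.sub_apply,
            LinearMap.neg_apply, h3, Module.End.one_apply]
          module
      have h5 := (h4 _).symm.trans (mem_fitK.1 k.2)
      rw [h1, (smul_eq_zero.1 h5).resolve_left (pow_ne_zero _ (neg_ne_zero.2 h2))]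
      simp
  set h := e * G with hh
  have hG' : Commute h G := eG.mul_left (Commute.refl G)
  have ih : ∀ x y, polar Q (h x) (h y) = polar Q x y := fun x y => OG.polar_app (ε * g) x y
  obtain ⟨J, hJ'⟩ := hJ
  set Y := (h - 1) * J⁻¹ with hY
  have cY : ∀ {f : End F V}, Commute f h → Commute f Y := fun c =>
    (c.sub_right (Commute.one_right _)).mul_right
      (Commute.units_inv_right (hJ' ▸ c.add_right (Commute.one_right _)))
  have eY : Y * (h + 1) = h - 1 := by rw [← hJ', hY, Units.inv_mul_cancel_right]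
  have S : Sk (polarBilin Q) Y := ⟨h2, polar_comm Q, fun x y => by
    obtain ⟨a, rfl⟩ := (LinearMap.GeneralLinearGroup.toLinearEquiv J).surjective x
    obtain ⟨b, rfl⟩ := (LinearMap.GeneralLinearGroup.toLinearEquiv J).surjective y
    change polar Q ((Y * J) a) (J.1 b) = -polar Q (J.1 a) ((Y * J) b)
    rw [hJ', eY]
    simp only [LinearMap.add_apply, LinearMap.sub_apply, Module.End.one_apply, oexp, ih]
    ring⟩
  obtain ⟨P, M, s1, o1, a1, b1, -, -⟩ := S.won (cR (cY hG'.symm).symm)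
    (hi.nondeg_fitR hQ (o_isRefl Q))
  obtain ⟨P', M', s2, o2, a2, b2, d1, d2⟩ := S.won (cK (cY hG'.symm).symm)
    (hi.nondeg_fitK hQ (o_isRefl Q))
  have l1 : P ≤ R := s1 ▸ le_sup_left
  have l2 : M ≤ R := s1 ▸ le_sup_right
  have l3 : P' ≤ K := s2 ▸ le_sup_left
  have l4 : M' ≤ K := s2 ▸ le_sup_right
  have ho' : ∀ x ∈ K, ∀ y ∈ R, polarBilin Q x y = 0 := hi.fit_orth hQ
  have o3 := orth_sup o1 (fun p hp m hm => ho p (l1 hp) m (l4 hm))
    (fun p hp m hm => ho' p (l3 hp) m (l2 hm)) o2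
  have o4 := orth_sup o1 (fun p hp m hm => ho p (l1 hp) m (l3 hm))
    (fun p hp m hm => ho' p (l4 hp) m (l2 hm)) fun p hp m hm => o_isRefl Q _ _ (o2 m hm p hp)
  have c1 := isCompl_of_sup hQ (by rw [sup_sup_sup_comm, s1, s2, hc.sup_eq_top]) o3
  have c2 := isCompl_of_sup hQ (by
    rw [sup_sup_sup_comm, s1, sup_comm M', s2, hc.sup_eq_top]) o4
  obtain ⟨σ, f1, f2⟩ := exists_invol c1 o3
  set s : End F V := σ.1.toLinearMap with hs
  have ss : s * s = 1 := ext_compl c1 (fun x hx => by simp [hs, f1 x hx])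
    fun x hx => by simp [hs, f2 x hx]
  have sY : s * Y = -(Y * s) := ext_compl c1
    (fun x hx => by simp [hs, f1 x hx, f2 _ (map_sup_mem a1 a2 x hx)])
    fun x hx => by simp [hs, f2 x hx, f1 _ (map_sup_mem b1 b2 x hx)]
  have es : e * s = s * e := ce (by
    rw [← s1]
    exact map_sup_mem (fun p hp => by simpa [hs, f1 p (Submodule.mem_sup_left hp)])
      fun p hp => by simpa [hs, f2 p (Submodule.mem_sup_left hp)]) (by
    rw [← s2]
    exact map_sup_mem (fun p hp => by simpa [hs, f1 p (Submodule.mem_sup_right hp)])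
      fun p hp => by simpa [hs, f2 p (Submodule.mem_sup_right hp)])
  have cy := (cY (Commute.refl h)).eq
  have hsh : h * s * h = s := by
    have u1 : (1 - Y) * (h + 1) = (2 : F) • 1 := by
      rw [sub_mul, eY, two_smul]; noncomm_ring
    have u2 : h * (1 - Y) = 1 + Y := by
      rw [mul_sub, cy, sub_eq_iff_eq_add, add_assoc, add_comm Y, ← mul_add_one, eY]; noncomm_ring
    have u3 : (h * s * h) * (1 - Y) = s * (1 - Y) := by
      rw [mul_assoc, u2, mul_assoc, mul_add s, sY, mul_one, ← sub_eq_add_neg, ← one_sub_mul,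
        ← mul_assoc, u2, mul_sub, sY]
      noncomm_ring
    have u4 := congrArg (· * (h + 1)) u3
    simp only [mul_assoc _ (1 - Y), u1, mul_smul_comm, mul_one] at u4
    exact smul_right_injective _ h2 u4
  have hGe : G = e * h := by rw [hh, ← mul_assoc, ee, one_mul]
  have eh : e * h = h * e := (Commute.refl e).mul_right eG
  have r1 : orank (σ * ε) = orank (σ * g) := orank_eq_of_mul (J := s * J)
    ((IsUnit.of_mul_eq_one _ ss).mul J.isUnit) (by
      change s * e * (s * J) = s * J * (s * G)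
      rw [hJ', hGe, ← es, mul_assoc e, ← mul_assoc s s, ss, eh, mul_add s, add_mul, mul_one s,
        ← mul_assoc s s, ss, ← mul_assoc s h e, ← mul_assoc (s * h), mul_assoc s h,
        ← mul_assoc h, hsh, ss, ← eh]
      noncomm_ring)
  have r2 : orank σ = finrank F M + finrank F M' := by
    rw [orank, ocomm_eq h2 c1 f1 f2, finrank_sup_eq (hc.disjoint.mono l2 l4)]
  have r3 : orank (σ * ε) = finrank F M + finrank F P' := by
    rw [orank, ocomm_eq h2 c2, finrank_sup_eq (hc.disjoint.mono l2 l3)]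
    · intro x hx
      obtain ⟨a, ha, b, hb, rfl⟩ := Submodule.mem_sup.1 hx
      simp [e1 a (l1 ha), e2 b (l4 hb), f1 a (Submodule.mem_sup_left ha),
        f2 b (Submodule.mem_sup_right hb)]
    · intro x hx
      obtain ⟨a, ha, b, hb, rfl⟩ := Submodule.mem_sup.1 hx
      simp [e1 a (l2 ha), e2 b (l3 hb), f2 a (Submodule.mem_sup_left ha),
        f1 b (Submodule.mem_sup_right hb), add_comm]
  have hσ : σ * σ = 1 := OG.ext fun x => LinearMap.congr_fun ss x
  refine ⟨σ, σ * g, hσ, OG.ext fun x => LinearMap.congr_fun (show s * G * (s * G) = 1 by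
    calc s * G * (s * G) = s * (e * h) * (s * e) * h := by rw [hGe]; noncomm_ring
      _ = s * h * (e * e) * s * h := by rw [eh, ← es]; noncomm_ring
      _ = s * (h * s * h) := by rw [ee]; noncomm_ring
      _ = 1 := by rw [hsh, ss]) x,
    by rw [← mul_assoc, hσ, one_mul], ?_⟩
  have p : dickson hQ (σ * g) = dickson hQ σ := by rw [map_mul, hg, mul_one]
  have p' := (dickson_eq_one_iff hQ _).symm.trans (p ▸ dickson_eq_one_iff hQ σ)
  rw [← r1, r2, r3, Nat.even_iff, Nat.even_iff] at p'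
  rw [← r1, r2, r3]
  omega

end Cfsg.Agent.Cl.OreO
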