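import Mathlib
import Cfsg.Agent.Cl.OreOA
import Cfsg.Agent.Cl.DerQ2
import Cfsg.Agent.Cl.ClassSpOInvO

/-! Products of two conjugate involutions as commutators in `Ω`, odd characteristic: tools. -/

set_option autoImplicit false
set_option linter.unusedSectionVars false

namespace Cfsg.Agent.Cl.OreO

open Module Der
open QuadraticMap hiding sq

variable {F V : Type*} [Field F] [AddCommGroup V] [Module F V] [FiniteDimensional F V]
  {Q : QuadraticForm F V}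

/-- `g` is a commutator of two elements of `Ω(Q)`. -/
def Cm (g : OG Q) : Prop :=
  ∃ x ∈ commutator (OG Q), ∃ y ∈ commutator (OG Q), g = x * y * x⁻¹ * y⁻¹

theorem finrank_span_le (v : V) : finrank F (F ∙ v) ≤ 1 :=
  finrank_span_le_card ({v} : Set V) |>.trans (by simp)

theorem finrank_map_add (f : End F V) (S : Submodule F V) :
    finrank F (S.map f) + finrank F ↥(S ⊓ LinearMap.ker f) = finrank F S := by
  rw [← LinearMap.finrank_range_add_finrank_ker (f.domRestrict S), LinearMap.range_domRestrict,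
    LinearMap.ker_domRestrict, ← Submodule.finrank_map_subtype_eq, Submodule.map_comap_subtype]

theorem not_le_sup_span {T A : Submodule F V} (h : finrank F ↥(T ⊓ A) + 2 ≤ finrank F T) (v : V) :
    ¬ T ≤ A ⊔ F ∙ v := fun hl => by
  obtain ⟨t, ht, ht'⟩ : ∃ t ∈ T, t ∉ A := SetLike.not_le_iff_exists.1 fun e => by
    rw [inf_eq_left.2 e] at h; omega
  have : T ≤ T ⊓ A ⊔ F ∙ t := fun x hx => by
    obtain ⟨a, ha, _, hs, e⟩ := Submodule.mem_sup.1 (hl ht)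
    obtain ⟨b, hb, _, hr, e'⟩ := Submodule.mem_sup.1 (hl hx)
    obtain ⟨s, rfl⟩ := Submodule.mem_span_singleton.1 hs
    obtain ⟨r, rfl⟩ := Submodule.mem_span_singleton.1 hr
    have hs : s ≠ 0 := by rintro rfl; exact ht' (by simpa [← e] using ha)
    have e2 : x - (r / s) • t = b - (r / s) • a := by
      rw [← e, ← e', smul_add, smul_smul, div_mul_cancel₀ _ hs]; abel
    exact Submodule.mem_sup.2 ⟨x - (r / s) • t, ⟨sub_mem hx (T.smul_mem _ ht),
      e2 ▸ sub_mem hb (A.smul_mem _ ha)⟩, _,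
      Submodule.smul_mem _ (r / s) (Submodule.mem_span_singleton_self t), sub_add_cancel _ _⟩
  have h1 := Submodule.finrank_mono this
  have h2 := Submodule.finrank_add_le_finrank_add_finrank (T ⊓ A) (F ∙ t)
  have h3 := finrank_span_le (F := F) t
  omega

theorem exists_notMem_two {X A B : Submodule F V} (h : ¬ X ≤ A) (h' : ¬ X ≤ B) :
    ∃ x ∈ X, x ∉ A ∧ x ∉ B := by
  by_contra hne
  exact (SpO.le_or_le_of_forall_mem fun x hx => by
    by_contra e
    exact hne ⟨x, hx, not_or.1 e⟩).elim h h'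

theorem le_perp_sup (h2 : (2 : F) ≠ 0) {T : Submodule F V} {x : V} (hx : x ∈ T) (h0 : Q x ≠ 0) :
    T ≤ T ⊓ perpQ Q (F ∙ x) ⊔ F ∙ x := fun t ht =>
  Submodule.mem_sup.2 ⟨t - (polar Q x t / (2 * Q x)) • x, ⟨sub_mem ht (T.smul_mem _ hx),
    mem_perp_span.2 fun y hy => by
      rw [hy, polarBilin_apply_apply]
      simp only [oexp]
      field_simp
      ring⟩, _, Submodule.smul_mem _ _ (Submodule.mem_span_singleton_self x), sub_add_cancel _ _⟩

theorem avoid_aux (h2 : (2 : F) ≠ 0) {T A A' : Submodule F V} {x : V} (hx : x ∈ T) (h0 : Q x ≠ 0)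
    (hA : finrank F ↥(T ⊓ A) + 2 ≤ finrank F T) (hA' : finrank F ↥(T ⊓ A') + 2 ≤ finrank F T)
    (hxA : x ∈ A) : ∃ y ∈ T, Q y = Q x ∧ y ∉ A ∧ y ∉ A' := by
  set H := T ⊓ perpQ Q (F ∙ x)
  have hH : ∀ h ∈ H, polar Q x h = 0 := fun h hh => hh.2 x (Submodule.mem_span_singleton_self x)
  have hT := le_perp_sup h2 hx h0
  have n1 : ∀ v, ¬ H ≤ A ⊔ F ∙ v := fun v e => not_le_sup_span hA v (hT.trans (sup_le e
    ((Submodule.span_singleton_le_iff_mem _ _).2 (Submodule.mem_sup_left hxA))))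
  have m := Submodule.mem_sup_right (S := A') (Submodule.mem_span_singleton_self (R := F) x)
  by_contra hne
  have key : ∀ h ∈ H, h ∉ A → h ∉ A' ⊔ F ∙ x → Q h = -Q x := fun h hh k1 k2 => by
    by_contra k
    have k' : Q x + Q h ≠ 0 := fun e => k (eq_neg_of_add_eq_zero_right e)
    have hl : 2 * Q x / (Q x + Q h) ≠ 0 := div_ne_zero (mul_ne_zero h2 h0) k'
    refine hne ⟨(1 - 2 * Q x / (Q x + Q h)) • x - (2 * Q x / (Q x + Q h)) • h,
      sub_mem (T.smul_mem _ hx) (T.smul_mem _ hh.1), ?_, fun e => k1 ?_, fun e => k2 ?_⟩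
    · simp only [oexp, hH h hh]
      field_simp
      ring
    · exact (A.smul_mem_iff hl).1 ((A.sub_mem_iff_right (A.smul_mem _ hxA)).1 e)
    · exact (Submodule.smul_mem_iff _ hl).1 ((Submodule.sub_mem_iff_right _
        (Submodule.smul_mem _ _ m)).1 (Submodule.mem_sup_left e))
  obtain ⟨v, hv, v1, v2⟩ := exists_notMem_two (fun e => n1 0 (e.trans le_sup_left))
    (fun e : H ≤ A' ⊔ F ∙ x => not_le_sup_span hA' x (hT.trans (sup_le e le_sup_right)))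
  have mv : ∀ S : Submodule F V, v ∈ S ⊔ F ∙ v := fun S =>
    Submodule.mem_sup_right (Submodule.mem_span_singleton_self v)
  have pm : ∀ {S : Submodule F V} {u}, u ∉ S ⊔ F ∙ v → v + u ∉ S ∧ v - u ∉ S := fun hu =>
    ⟨fun e => hu ((Submodule.add_mem_iff_right _ (mv _)).1 (Submodule.mem_sup_left e)),
      fun e => hu ((Submodule.sub_mem_iff_right _ (mv _)).1 (Submodule.mem_sup_left e))⟩
  have kv := key v hv v1 v2
  by_cases hc : H ≤ (A' ⊔ F ∙ x) ⊔ F ∙ v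
  · obtain ⟨u, hu, u1⟩ := SetLike.not_le_iff_exists.1 (show ¬ H ⊓ (A' ⊔ F ∙ x) ≤ A ⊔ F ∙ v from
      fun e => n1 v fun h hh => by
        obtain ⟨a, ha, _, hs, rfl⟩ := Submodule.mem_sup.1 (hc hh)
        obtain ⟨s, rfl⟩ := Submodule.mem_span_singleton.1 hs
        exact add_mem (e ⟨(H.add_mem_iff_left (H.smul_mem s hv)).1 hh, ha⟩)
          (Submodule.smul_mem _ s (mv A)))
    have e1 := key _ (add_mem hv hu.1) (pm u1).1 fun e =>
      v2 ((Submodule.add_mem_iff_left _ hu.2).1 e)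
    have e2 := key _ (sub_mem hv hu.1) (pm u1).2 fun e =>
      v2 ((Submodule.sub_mem_iff_left _ hu.2).1 e)
    simp only [oexp, kv] at e1 e2
    have e3 : Q u = 0 :=
      (mul_eq_zero.1 (by linear_combination e1 + e2 : 2 * Q u = 0)).resolve_left h2
    have uA : u ∉ A := fun e => u1 (Submodule.mem_sup_left e)
    have f1 : x + u ∈ A' := by
      by_contra e
      exact hne ⟨x + u, add_mem hx hu.1.1, by simp [oexp, e3, hH u hu.1],
        fun e => uA ((A.add_mem_iff_right hxA).1 e), e⟩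
    have f2 : x - u ∈ A' := by
      by_contra e
      exact hne ⟨x - u, sub_mem hx hu.1.1, by simp [oexp, e3, hH u hu.1],
        fun e => uA ((A.sub_mem_iff_right hxA).1 e), e⟩
    have f3 : x ∈ A' := (A'.smul_mem_iff h2).1 (by simpa [two_smul] using add_mem f1 f2)
    rw [sup_eq_left.2 ((Submodule.span_singleton_le_iff_mem _ _).2 f3)] at hc
    exact not_le_sup_span hA' v (hT.trans (sup_le hc
      ((Submodule.span_singleton_le_iff_mem _ _).2 (Submodule.mem_sup_left f3))))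
  obtain ⟨u, hu, u1, u2⟩ := exists_notMem_two (n1 v) hc
  have e1 := key _ (add_mem hv hu) (pm u1).1 (pm u2).1
  have e2 := key _ (sub_mem hv hu) (pm u1).2 (pm u2).2
  have e3 := key u hu (fun e => u1 (Submodule.mem_sup_left e)) fun e => u2 (Submodule.mem_sup_left e)
  simp only [oexp, kv, e3] at e1 e2
  exact mul_ne_zero h2 h0 (by linear_combination -e1 - e2)

theorem avoid (h2 : (2 : F) ≠ 0) {T A A' : Submodule F V} {x : V} (hx : x ∈ T) (h0 : Q x ≠ 0)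
    (hA : finrank F ↥(T ⊓ A) + 2 ≤ finrank F T) (hA' : finrank F ↥(T ⊓ A') + 2 ≤ finrank F T) :
    ∃ y ∈ T, Q y = Q x ∧ y ∉ A ∧ y ∉ A' := by
  by_cases h : x ∈ A
  · exact avoid_aux h2 hx h0 hA hA' h
  by_cases h' : x ∈ A'
  · obtain ⟨y, k1, k2, k3, k4⟩ := avoid_aux h2 hx h0 hA' hA h'
    exact ⟨y, k1, k2, k4, k3⟩
  · exact ⟨x, hx, rfl, h, h'⟩

/-- The radical of a subspace. -/
abbrev rad (Q : QuadraticForm F V) (T : Submodule F V) : Submodule F V := T ⊓ perpQ Q T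

theorem exists_eq_of_rank [Finite F] {T : Submodule F V}
    (h : finrank F (rad Q T) + 2 ≤ finrank F T) (c : F) : ∃ x ∈ T, Q x = c := by
  obtain ⟨Y, h1, h2, h3⟩ := exists_disjoint_sup_eq (U := rad Q T) (W := T) inf_le_left
  have hY : NDQ Q Y := fun y hy hy' => Submodule.disjoint_def.1 h2 y ⟨h1 hy, fun x hx => by
    obtain ⟨a, ha, b, hb, rfl⟩ := Submodule.mem_sup.1 (h3.ge hx)
    rw [map_add, LinearMap.add_apply, symm_polarBilin Q a, ha.2 y (h1 hy), symm_polarBilin Q b,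
      hy' b hb, add_zero]⟩ hy
  have := finrank_sup_of_disjoint h2
  rw [h3] at this
  obtain ⟨x, hx, e⟩ := hY.exists_eq (by omega) c
  exact ⟨x, h1 hx, e⟩

theorem rank_perp (hG : GeomQ Q) {P : Submodule F V} (hP : NDQ Q P) (W : Submodule F V) :
    finrank F P ≤ finrank F ↥(P ⊓ perpQ Q W) + finrank F W ∧
      finrank F (rad Q (P ⊓ perpQ Q W)) + finrank F ↥(P ⊓ perpQ Q W) ≤ finrank F P := by
  have h1 := hG.finrank_add_perp W
  have h2 := Submodule.finrank_sup_add_finrank_inf_eq P (perpQ Q W)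
  have h3 := Submodule.finrank_le (P ⊔ perpQ Q W)
  have h4 := hG.finrank_add_perp_inf hP (inf_le_left : P ⊓ perpQ Q W ≤ P)
  have h5 : finrank F (rad Q (P ⊓ perpQ Q W)) ≤ finrank F ↥(perpQ Q (P ⊓ perpQ Q W) ⊓ P) :=
    Submodule.finrank_mono fun x hx => ⟨hx.2, hx.1.1⟩
  omega

variable {σ τ a : OG Q}

theorem invol_app (hσ : σ * σ = 1) (x : V) : σ.1 (σ.1 x) = x := by
  rw [← OG.mul_app, hσ, OG.one_app]

theorem neg_of_mem (hσ : σ * σ = 1) {m : V} (hm : m ∈ ocomm σ) : σ.1 m = -m := by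
  obtain ⟨x, rfl⟩ := mem_ocomm.1 hm
  rw [map_sub, invol_app hσ, neg_sub]

theorem perp_ocomm (hG : GeomQ Q) (σ : OG Q) : perpQ Q (ocomm σ) = ofix σ :=
  operp_ocomm hG.nondegenerate σ

theorem perp_ofix (hG : GeomQ Q) (σ : OG Q) : perpQ Q (ofix σ) = ocomm σ :=
  operp_ofix hG.nondegenerate σ

theorem nd_ocomm (hG : GeomQ Q) (h2 : (2 : F) ≠ 0) (hσ : σ * σ = 1) : NDQ Q (ocomm σ) :=
  hG.nd_iff.2 (Submodule.disjoint_def.2 fun x hx hx' => by
    rw [perp_ocomm hG, mem_ofix, neg_of_mem hσ hx, neg_eq_iff_add_eq_zero, ← two_smul F] at hx'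
    exact (smul_eq_zero.1 hx').resolve_left h2)

theorem nd_ofix (hG : GeomQ Q) (h2 : (2 : F) ≠ 0) (hσ : σ * σ = 1) : NDQ Q (ofix σ) :=
  perp_ocomm hG σ ▸ hG.nd_perp (nd_ocomm hG h2 hσ)

theorem app_conj (ha : a * σ = τ * a) (x : V) : a.1 (σ.1 x) = τ.1 (a.1 x) := by
  rw [← OG.mul_app, ha, OG.mul_app]

theorem conj_symm (ha : a * σ = τ * a) : a⁻¹ * τ = σ * a⁻¹ := by
  rw [inv_mul_eq_iff_eq_mul, ← mul_assoc, ha, mul_inv_cancel_right]

theorem map_mem_ocomm (ha : a * σ = τ * a) {m : V} (hm : m ∈ ocomm σ) : a.1 m ∈ ocomm τ := by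
  obtain ⟨x, rfl⟩ := mem_ocomm.1 hm
  rw [map_sub, app_conj ha]
  exact sub_mem_ocomm _ _

theorem conj_of_map (hG : GeomQ Q) (h2 : (2 : F) ≠ 0) (hσ : σ * σ = 1) (hτ : τ * τ = 1)
    (hr : orank σ = orank τ) (h : ∀ m ∈ ocomm σ, a.1 m ∈ ocomm τ) : a * σ = τ * a := by
  have e : (ocomm σ).map (a.1 : V →ₗ[F] V) = ocomm τ := Submodule.eq_of_le_of_finrank_eq
    (by rintro _ ⟨m, hm, rfl⟩; exact h m hm) ((LinearEquiv.finrank_map_eq _ _).trans hr)
  refine OG.ext fun x => ?_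
  obtain ⟨m, p, rfl⟩ := SpO.exists_add_of_isCompl (hG.isCompl_perp (nd_ocomm hG h2 hσ)) x
  have h1 : a.1 p ∈ ofix τ := by
    rw [← perp_ocomm hG, ← e]
    rintro _ ⟨y, hy, rfl⟩
    exact (OG.polar_app a y p).trans (p.2 y hy)
  have h3 : σ.1 p = p := mem_ofix.1 (perp_ocomm hG σ ▸ p.2)
  simp only [OG.mul_app, map_add, neg_of_mem hσ m.2, h3, neg_of_mem hτ (h m m.2), mem_ofix.1 h1,
    map_neg]

theorem exists_conj [Finite F] (hG : GeomQ Q) (h2 : (2 : F) ≠ 0) (hσ : σ * σ = 1) (hτ : τ * τ = 1)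
    (hr : orank σ = orank τ) (hs : ospin hG.nondegenerate σ = ospin hG.nondegenerate τ) :
    ∃ a : OG Q, a * σ = τ * a := by
  have inv : ∀ {σ : OG Q}, σ * σ = 1 →
      ospin hG.nondegenerate σ = sqSign (2 : F) ^ orank σ * dsc Q (ocomm σ) := fun hσ =>
    (hG.invariants_of_neg h2 (nd_ocomm hG h2 hσ) _ (fun _ => neg_of_mem hσ)
      fun v hv => mem_ofix.1 (perp_ocomm hG _ ▸ hv)).2
  rw [inv hσ, inv hτ, hr, mul_right_inj] at hs
  obtain ⟨e, he⟩ := isomQ_iff.1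
    ((isomQ_iff_dsc h2 (nd_ocomm hG h2 hσ) (nd_ocomm hG h2 hτ) hr).2 hs)
  obtain ⟨a, ha⟩ := quad_exists_map_eq hG.nondegenerate e he
  exact ⟨a, conj_of_map hG h2 hσ hτ hr fun m hm => ha ▸ ⟨m, hm, rfl⟩⟩

/-- The vectors whose components in `[V, σ]` and `[V, τ]` correspond under `a`. -/
noncomputable def TT (σ a : OG Q) : Submodule F V :=
  perpQ Q ((ocomm σ).map ((a.1 : End F V) - 1))

theorem mem_TT {x : V} : x ∈ TT σ a ↔ ∀ m ∈ ocomm σ, polar Q (a.1 m) x = polar Q m x := by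
  simp [TT, mem_perp, sub_eq_zero]

theorem exists_fix (hG : GeomQ Q) (h2 : (2 : F) ≠ 0) (hσ : σ * σ = 1) (hτ : τ * τ = 1)
    (hr : orank σ = orank τ) (ha : a * σ = τ * a) {W : Submodule F V} (hW : W ≤ TT σ a)
    (h1 : Disjoint W (ocomm σ)) (h1' : Disjoint W (ocomm τ)) :
    ∃ b : OG Q, b * σ = τ * b ∧ ∀ x ∈ W, b.1 x = x := by
  obtain ⟨C, hC, hc⟩ := h1.exists_isCompl
  let f := LinearMap.ofIsCompl hc C.subtype ((a.1 : V →ₗ[F] V) ∘ₗ (ocomm σ).subtype)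
  have hf : ∀ w ∈ W, ∀ m ∈ ocomm σ, f (w + m) = w + a.1 m := fun w hw m hm => by
    simpa [f] using congrArg₂ (· + ·) (LinearMap.ofIsCompl_apply_left hc ⟨w, hC hw⟩ (φ := C.subtype)
      (ψ := (a.1 : V →ₗ[F] V) ∘ₗ (ocomm σ).subtype)) (LinearMap.ofIsCompl_apply_right hc ⟨m, hm⟩
      (φ := C.subtype) (ψ := (a.1 : V →ₗ[F] V) ∘ₗ (ocomm σ).subtype))
  obtain ⟨b, hb, hb'⟩ := witt_quadratic hG.nondegenerate (W ⊔ ocomm σ) (f ∘ₗ Submodule.subtype _)
    ((injective_iff_map_eq_zero _).2 fun x hx => by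
      obtain ⟨w, hw, m, hm, e⟩ := Submodule.mem_sup.1 x.2
      rw [LinearMap.comp_apply, Submodule.subtype_apply, ← e, hf w hw m hm] at hx
      have := Submodule.disjoint_def.1 h1' w hw
        (eq_neg_of_add_eq_zero_left hx ▸ neg_mem (map_mem_ocomm ha hm))
      rw [this, zero_add, OG.app_eq_zero_iff] at hx
      exact Subtype.ext (by rw [← e, this, hx, add_zero]; rfl)) fun x => by
      obtain ⟨w, hw, m, hm, e⟩ := Submodule.mem_sup.1 x.2
      rw [LinearMap.comp_apply, Submodule.subtype_apply, ← e, hf w hw m hm, o_qadd, o_qadd,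
        OG.map_app, polar_comm, mem_TT.1 (hW hw) m hm, polar_comm]
  refine ⟨⟨b, hb⟩, conj_of_map hG h2 hσ hτ hr fun m hm => ?_, fun x hx => ?_⟩
  · have := hb' ⟨m, Submodule.mem_sup_right hm⟩
    have e : b m = a.1 m := this.trans (by simpa using hf 0 W.zero_mem m hm)
    exact (congrArg (· ∈ ocomm τ) e).mpr (map_mem_ocomm ha hm)
  · simpa using (hb' ⟨x, Submodule.mem_sup_left hx⟩).trans
      (by simpa using hf x hx 0 (Submodule.zero_mem _))

/-- Reflections of both classes commuting with `σ` and fixing `W`. -/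
def Adj (σ : OG Q) (W : Submodule F V) : Prop :=
  ∀ s : ℤˣ, ∃ y, Q y ≠ 0 ∧ sqSign (Q y) = s ∧ (y ∈ ofix σ ∨ y ∈ ocomm σ) ∧ y ∈ perpQ Q W

variable [Finite F]

theorem exists_sqSign (h2 : (2 : F) ≠ 0) (s : ℤˣ) : ∃ c : F, c ≠ 0 ∧ sqSign c = s := by
  rcases Int.units_eq_one_or s with rfl | rfl
  · exact ⟨1, one_ne_zero, sqSign_one⟩
  obtain ⟨c, hc⟩ := FiniteField.exists_nonsquare (F := F) (o_ringChar_ne_two h2)
  exact ⟨c, by rintro rfl; exact hc IsSquare.zero, sqSign_eq_neg_one_iff.2 hc⟩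

theorem adj_of_rank (h2 : (2 : F) ≠ 0) {W S : Submodule F V} (hS : S = ofix σ ∨ S = ocomm σ)
    (h : finrank F (rad Q (S ⊓ perpQ Q W)) + 2 ≤ finrank F ↥(S ⊓ perpQ Q W)) : Adj σ W := fun s => by
  obtain ⟨c, hc, rfl⟩ := exists_sqSign h2 s
  obtain ⟨x, hx, rfl⟩ := exists_eq_of_rank h c
  exact ⟨x, hc, rfl, hS.imp (fun e => e.le hx.1) fun e => e.le hx.1, hx.2⟩

theorem cm_of_adj (hG : GeomQ Q) (h2 : (2 : F) ≠ 0) (hσ : σ * σ = 1) (hτ : τ * τ = 1)
    (hr : orank σ = orank τ) (ha : a * σ = τ * a) {W : Submodule F V} (hW : W ≤ TT σ a)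
    (h1 : Disjoint W (ocomm σ)) (h1' : Disjoint W (ocomm τ)) (hA : Adj σ W) {c : OG Q}
    (hc : ∀ b : OG Q, (∀ x ∈ W, b.1 x = x) → b * c = c * b)
    (hΩ : σ * c ∈ commutator (OG Q)) : Cm (σ * τ) := by
  obtain ⟨b, hb, hb'⟩ := exists_fix hG h2 hσ hτ hr ha hW h1 h1'
  let S : Subgroup (OG Q) :=
    { carrier := {k | k * σ = σ * k ∧ ∀ x ∈ W, k.1 x = x}
      mul_mem' := fun {k l} hk hl => ⟨by rw [mul_assoc, hl.1, ← mul_assoc, hk.1, mul_assoc],
        fun x hx => by rw [OG.mul_app, hl.2 x hx, hk.2 x hx]⟩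
      one_mem' := ⟨by simp, fun _ _ => rfl⟩
      inv_mem' := fun {k} hk => ⟨conj_symm hk.1, fun x hx => (OG.inv_app_eq_iff k).2 (hk.2 x hx).symm⟩ }
  have hS : ∀ s : ℤˣ, ∃ r ∈ S, dickson hG.nondegenerate r = -1 ∧ ospin hG.nondegenerate r = s :=
    fun s => by
      obtain ⟨y, k1, k2, k3, k4⟩ := hA s
      refine ⟨orefl Q y, ⟨?_, fun x hx => orefl_app_of_polar (k4 x hx)⟩, dickson_orefl _ k1,
        by rw [ospin_orefl _ k1, k2]⟩
      rw [mul_orefl]
      rcases k3 with k3 | k3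
      · rw [mem_ofix.1 k3]
      · rw [neg_of_mem hσ k3, orefl_neg]
  obtain ⟨r, r1, r2, r3⟩ := hS 1
  obtain ⟨k, hk, hk'⟩ := quad_exists_mul_mem_commutator hG.nondegenerate
    (not_oExc_of_two_ne_zero h2) S b (Or.inr ⟨r, r1, r2⟩) fun s _ => by
      obtain ⟨t, t1, t2, t3⟩ := hS (sqSign s)
      exact ⟨r * t, mul_mem r1 t1, by simp [r2, t2], by simp [r3, t3]⟩
  refine ⟨_, hΩ, _, hk', ?_⟩
  have e1 := hc (b * k) fun x hx => by rw [OG.mul_app, hk.2 x hx, hb' x hx]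
  have e2 : b * k * σ = τ * (b * k) := by rw [mul_assoc, hk.1, ← mul_assoc, hb, mul_assoc]
  rw [mul_assoc σ, ← e1, mul_inv_rev, inv_eq_of_mul_eq_one_right hσ, mul_assoc σ,
    mul_assoc (b * k), mul_inv_cancel_left, e2]
  group

end Cfsg.Agent.Cl.OreO
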