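import Mathlib
import Cfsg.Agent.Cl.OreOB

/-! Every element of `Ω(Q)` is a commutator: odd characteristic, dimension at least seven. -/

set_option autoImplicit false
set_option linter.unusedSectionVars false

namespace Cfsg.Agent.Cl.OreO

open Module Der
open QuadraticMap hiding sq

variable {F V : Type*} [Field F] [AddCommGroup V] [Module F V] [FiniteDimensional F V]
  {Q : QuadraticForm F V} {σ τ a : OG Q}

/-- The vectors `m` of `[V, σ]` with `a m - m` in the radical of `TT σ a`. -/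
noncomputable def ZZ (σ a : OG Q) : Submodule F V :=
  ocomm σ ⊓ (TT σ a).comap ((a.1 : End F V) - 1)

theorem mem_ZZ {x : V} : x ∈ ZZ σ a ↔ x ∈ ocomm σ ∧
    ∀ m ∈ ocomm σ, polar Q (a.1 x) m + polar Q x (a.1 m) = 2 * polar Q x m := by
  refine and_congr_right fun _ => mem_TT.trans (forall₂_congr fun m _ => ?_)
  change polar Q (a.1 m) (a.1 x - x) = polar Q m (a.1 x - x) ↔ _
  rw [polar_sub_right, polar_sub_right, OG.polar_app, polar_comm Q m, polar_comm Q m,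
    polar_comm Q (a.1 m)]
  exact ⟨fun h => by linear_combination -h, fun h => by linear_combination -h⟩

theorem finrank_TT (hG : GeomQ Q) (σ a : OG Q) : finrank F (TT σ a) =
    finrank F (ofix σ) + finrank F ↥(ocomm σ ⊓ LinearMap.ker ((a.1 : End F V) - 1)) := by
  have h1 := hG.finrank_add_perp ((ocomm σ).map ((a.1 : End F V) - 1))
  have h2 := finrank_map_add ((a.1 : End F V) - 1) (ocomm σ)
  have h3 := orank_add_finrank_ofix σ
  unfold orank at h3
  unfold TT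
  omega

theorem rank_TT (hG : GeomQ Q) (σ a : OG Q) :
    finrank F (rad Q (TT σ a)) + finrank F (ofix σ) ≤ finrank F (TT σ a) + finrank F (ZZ σ a) := by
  have h1 : rad Q (TT σ a) ≤ (ZZ σ a).map ((a.1 : End F V) - 1) := fun x hx => by
    obtain ⟨m, hm, rfl⟩ := (hG.perp_perp _).le hx.2
    exact ⟨m, ⟨hm, hx.1⟩, rfl⟩
  have := (Submodule.finrank_mono h1).trans (Submodule.finrank_map_le _ _)
  have := finrank_TT hG σ a
  omega

theorem neg_conj (ha : a * σ = τ * a) : a * OG.negOne Q * σ = τ * (a * OG.negOne Q) := by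
  rw [mul_assoc, ← OG.negOne_comm, ← mul_assoc, ha, mul_assoc]

theorem disjoint_ZZ (hG : GeomQ Q) (h2 : (2 : F) ≠ 0) (hσ : σ * σ = 1) (a : OG Q) :
    Disjoint (ZZ σ a) (ZZ σ (a * OG.negOne Q)) := Submodule.disjoint_def.2 fun x hx hx' =>
  nd_ocomm hG h2 hσ x hx.1 fun m hm => by
    have e1 := (mem_ZZ.1 hx).2 m hm
    have e2 := (mem_ZZ.1 hx').2 m hm
    simp only [OG.mul_app, OG.negOne_app, map_neg, oexp] at e2
    exact (mul_eq_zero.1 (by linear_combination -e1 - e2 : 2 * 2 * polar Q x m = 0)).resolve_left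
      (mul_ne_zero h2 h2)

theorem finrank_ZZ (hG : GeomQ Q) (h2 : (2 : F) ≠ 0) (hσ : σ * σ = 1) (a : OG Q) :
    finrank F (ZZ σ a) + finrank F (ZZ σ (a * OG.negOne Q)) ≤ orank σ := by
  rw [← finrank_sup_of_disjoint (disjoint_ZZ hG h2 hσ a)]
  exact Submodule.finrank_mono (sup_le inf_le_left inf_le_left)

theorem TT_inv (ha : a * σ = τ * a) : TT τ a⁻¹ = TT σ a := Submodule.ext fun x => by
  rw [mem_TT, mem_TT]
  refine ⟨fun h m hm => ?_, fun h m hm => ?_⟩
  · simpa using (h _ (map_mem_ocomm ha hm)).symm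
  · simpa using (h _ (map_mem_ocomm (conj_symm ha) hm)).symm

/-- Totally singular subspaces of the fixed space have codimension at least `k`. -/
def Hk (σ : OG Q) (k : ℕ) : Prop :=
  ∀ S ≤ ofix σ, (∀ x ∈ S, Q x = 0) → finrank F S + k ≤ finrank F (ofix σ)

theorem finrank_ofix_eq (hr : orank σ = orank τ) : finrank F (ofix σ) = finrank F (ofix τ) := by
  have := orank_add_finrank_ofix σ
  have := orank_add_finrank_ofix τ
  omega

theorem codim_TT (hG : GeomQ Q) (hr : orank σ = orank τ) (ha : a * σ = τ * a) {k : ℕ}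
    (h : Hk τ k) : finrank F ↥(TT σ a ⊓ ocomm σ) + k ≤ finrank F (TT σ a) := by
  have h1 := h ((TT σ a ⊓ ocomm σ).map ((a.1 : End F V) - 1)) (by
    rintro _ ⟨x, hx, rfl⟩
    rw [← perp_ocomm hG]
    intro m hm
    have := mem_TT.1 hx.1 _ (map_mem_ocomm (conj_symm ha) hm)
    change polar Q m (a.1 x - x) = 0
    rw [polar_sub_right, ← OG.polar_inv_left, ← this, OG.app_inv_app, sub_self]) (by
    rintro _ ⟨x, hx, rfl⟩
    change Q (a.1 x - x) = 0
    rw [o_qsub, mem_TT.1 hx.1 x hx.2, OG.map_app, o_polar_self]; ring)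
  have h2 := finrank_map_add ((a.1 : End F V) - 1) (TT σ a ⊓ ocomm σ)
  have h3 : finrank F ↥(TT σ a ⊓ ocomm σ ⊓ LinearMap.ker ((a.1 : End F V) - 1)) ≤
      finrank F ↥(ocomm σ ⊓ LinearMap.ker ((a.1 : End F V) - 1)) :=
    Submodule.finrank_mono (inf_le_inf_right _ inf_le_right)
  have := finrank_TT hG σ a
  have := finrank_ofix_eq hr
  omega

theorem codim_TT' (hG : GeomQ Q) (hr : orank σ = orank τ) (ha : a * σ = τ * a) {k : ℕ}
    (h : Hk σ k) : finrank F ↥(TT σ a ⊓ ocomm τ) + k ≤ finrank F (TT σ a) :=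
  TT_inv ha ▸ codim_TT hG hr.symm (conj_symm ha) h

theorem hk_of_le (hG : GeomQ Q) (h2 : (2 : F) ≠ 0) (hσ : σ * σ = 1) {k : ℕ}
    (h : 2 * k ≤ finrank F (ofix σ)) : Hk σ k := fun S hS hS' => by
  have := hG.two_mul_le_of_hasTS (nd_ofix hG h2 hσ) ⟨S, hS, tsQ_iff.2 hS', rfl⟩
  omega

theorem ofix_neg (hG : GeomQ Q) (h2 : (2 : F) ≠ 0) (hσ : σ * σ = 1) :
    ocomm (σ * OG.negOne Q) = ofix σ :=
  ocomm_eq h2 (perp_ocomm hG σ ▸ hG.isCompl_perp (nd_ocomm hG h2 hσ))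
    (fun m hm => by simp [neg_of_mem hσ hm]) fun p hp => by simp [mem_ofix.1 hp]

theorem neg_invol (hσ : σ * σ = 1) : σ * OG.negOne Q * (σ * OG.negOne Q) = 1 :=
  OG.ext fun x => by simp [invol_app hσ]

/-- In dimension four one can make one of the two spaces `ZZ` small. -/
theorem exists_small (hG : GeomQ Q) (h2 : (2 : F) ≠ 0) (hσ : σ * σ = 1) (h4 : orank σ = 4)
    (ha : a * σ = τ * a) : ∃ b : OG Q, b * σ = τ * b ∧ finrank F (ZZ σ b) ≤ 1 := by
  by_contra hne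
  have big : ∀ b : OG Q, b * σ = τ * b → finrank F (ZZ σ b) = 2 ∧
      finrank F (ZZ σ (b * OG.negOne Q)) = 2 ∧ ZZ σ b ⊔ ZZ σ (b * OG.negOne Q) = ocomm σ :=
    fun b hb => by
      have h1 : ¬ finrank F (ZZ σ b) ≤ 1 := fun e => hne ⟨b, hb, e⟩
      have h3 : ¬ finrank F (ZZ σ (b * OG.negOne Q)) ≤ 1 := fun e => hne ⟨_, neg_conj hb, e⟩
      have h5 := finrank_ZZ hG h2 hσ b
      refine ⟨by omega, by omega, Submodule.eq_of_le_of_finrank_eq
        (sup_le inf_le_left inf_le_left) ?_⟩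
      rw [finrank_sup_of_disjoint (disjoint_ZZ hG h2 hσ b)]
      unfold orank at h4 h5
      omega
  have mn : ∀ {b : OG Q} {x}, x ∈ ZZ σ (b * OG.negOne Q) ↔ x ∈ ocomm σ ∧
      ∀ m ∈ ocomm σ, polar Q (b.1 x) m + polar Q x (b.1 m) = -2 * polar Q x m := by
    intro b x
    simp only [mem_ZZ, OG.mul_app, OG.negOne_app, map_neg, oexp]
    exact and_congr_right fun _ => forall₂_congr fun m _ =>
      ⟨fun h => by linear_combination -h, fun h => by linear_combination -h⟩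
  have h4' : (2 * 2 : F) ≠ 0 := mul_ne_zero h2 h2
  have ho : ∀ x ∈ ZZ σ a, ∀ z ∈ ZZ σ (a * OG.negOne Q), polar Q x z = 0 := fun x hx z hz => by
    have e1 := (mem_ZZ.1 hx).2 z hz.1
    have e2 := (mn.1 hz).2 x hx.1
    rw [polar_comm Q (a.1 z), polar_comm Q z, polar_comm Q z] at e2
    exact (mul_eq_zero.1 (by linear_combination e2 - e1 : 2 * 2 * polar Q x z = 0)).resolve_left h4'
  obtain ⟨d1, d2, d3⟩ := big a ha
  obtain ⟨v, hv, hv0⟩ : ∃ v ∈ ZZ σ a, Q v ≠ 0 := by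
    by_contra hs
    push Not at hs
    obtain ⟨x, hx, hx0⟩ := Submodule.exists_mem_ne_zero_of_ne_bot (p := ZZ σ a) fun e => by
      rw [e, finrank_bot] at d1; omega
    refine hx0 (nd_ocomm hG h2 hσ x hx.1 fun m hm => ?_)
    obtain ⟨p, hp, q, hq, rfl⟩ := Submodule.mem_sup.1 (d3.ge hm)
    rw [map_add, polarBilin_apply_apply, polarBilin_apply_apply, ho x hx q hq,
      o_polar_eq_zero_of_singular hs hx hp, add_zero]
  have hb : a * orefl Q v * σ = τ * (a * orefl Q v) := by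
    rw [mul_assoc, ← orefl_neg, ← neg_of_mem hσ hv.1, ← mul_orefl, ← mul_assoc, ha,
      neg_of_mem hσ hv.1, orefl_neg, mul_assoc]
  obtain ⟨-, e2, e3⟩ := big _ hb
  obtain ⟨p, hp, q, hq, e⟩ := Submodule.mem_sup.1 (e3.ge hv.1)
  have k0 : polar Q v (a.1 v) = 2 * Q v := by
    have := (mem_ZZ.1 hv).2 v hv.1
    rw [polar_comm, o_polar_self] at this
    exact mul_left_cancel₀ h2 (by linear_combination this)
  have k1 : ∀ m ∈ ocomm σ, polar Q (a.1 v) m = polar Q (q - p) m := fun m hm => by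
    have f1 := (mem_ZZ.1 hp).2 m hm
    have f2 := (mn.1 hq).2 m hm
    have f3 := (mem_ZZ.1 hv).2 m hm
    have f4 : polar Q ((a * orefl Q v).1 (p + q)) m + polar Q (p + q) ((a * orefl Q v).1 m) =
        2 * polar Q p m + -2 * polar Q q m := by
      rw [map_add, polar_add_left, polar_add_left]
      linear_combination f1 + f2
    rw [e, OG.mul_app, OG.mul_app, orefl_app_self hv0, orefl_app] at f4
    simp only [map_neg, map_sub, map_smul, oexp, k0, polar_comm Q m v] at f4 ⊢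
    refine mul_left_cancel₀ h2 ?_
    field_simp at f4
    linear_combination f3 - f4
  have k2 : ∀ z ∈ ZZ σ (a * OG.negOne Q), polar Q (a.1 v) z = 0 := fun z hz => by
    have hu : q - p ∈ ocomm σ := sub_mem hq.1 hp.1
    have f1 := (mem_ZZ.1 hp).2 z hz.1
    have f2 := (mn.1 hq).2 z hz.1
    have f3 := (mn.1 hz).2 _ hu
    have f4 : polar Q ((a * orefl Q v).1 (q - p)) z + polar Q (q - p) ((a * orefl Q v).1 z) =
        -2 * polar Q (p + q) z := by
      rw [map_sub, polar_sub_left, polar_sub_left, polar_add_left]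
      linear_combination f2 - f1
    have f5 : polar Q z v = 0 := (polar_comm Q z v).trans (ho v hv z hz)
    rw [e, OG.mul_app, OG.mul_app, orefl_app_of_polar f5, orefl_app, ← k1 v hv.1, polar_comm Q _ v, k0,
      map_sub, map_smul, polar_sub_left, o_polar_smul_left, ho v hv z hz] at f4
    rw [polar_comm Q (a.1 z), polar_comm Q z, polar_comm Q z, ← k1 z hz.1] at f3
    field_simp at f4
    exact (mul_eq_zero.1 (by linear_combination f3 - f4 : 2 * 2 * polar Q (a.1 v) z = 0)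
      ).resolve_left h4'
  have k3 : ZZ σ (a * OG.negOne Q) = ZZ σ (a * orefl Q v * OG.negOne Q) :=
    Submodule.eq_of_le_of_finrank_eq (fun z hz => mn.2 ⟨hz.1, fun m hm => by
      have f5 : polar Q z v = 0 := (polar_comm Q z v).trans (ho v hv z hz)
      rw [OG.mul_app, OG.mul_app, orefl_app_of_polar f5, orefl_app, map_sub, map_smul,
        polar_sub_right, o_polar_smul_right, polar_comm Q z (a.1 v), k2 z hz, mul_zero, sub_zero]
      exact (mn.1 hz).2 m hm⟩) (d2.trans e2.symm)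
  have k4 := k1 v hv.1
  have k5 : polar Q q v = 0 := (polar_comm Q q v).trans (ho v hv q (k3 ▸ hq))
  rw [polar_comm, k0, show q - p = (2 : F) • q - v by rw [← e]; module] at k4
  simp only [oexp, k5] at k4
  exact mul_ne_zero h4' hv0 (by linear_combination k4)

variable [Finite F]

theorem adj_of_le (hG : GeomQ Q) (h2 : (2 : F) ≠ 0) (hσ : σ * σ = 1) {W : Submodule F V}
    (h : 2 * finrank F W + 2 ≤ finrank F (ofix σ)) : Adj σ W := by
  have := rank_perp hG (nd_ofix hG h2 hσ) W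
  exact adj_of_rank h2 (Or.inl rfl) (by omega)

theorem disjoint_span {A : Submodule F V} {x : V} (h : x ∉ A) : Disjoint (F ∙ x) A :=
  ((Submodule.disjoint_span_singleton' (by rintro rfl; exact h A.zero_mem)).2 h).symm

theorem exists_rank (hG : GeomQ Q) (h2 : (2 : F) ≠ 0) (hσ : σ * σ = 1) (ha : a * σ = τ * a) :
    ∃ b : OG Q, b * σ = τ * b ∧ 2 * finrank F (ZZ σ b) ≤ orank σ := by
  have := finrank_ZZ hG h2 hσ a
  by_cases h : 2 * finrank F (ZZ σ a) ≤ orank σ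
  exacts [⟨a, ha, h⟩, ⟨_, neg_conj ha, by omega⟩]

theorem cm_B (hG : GeomQ Q) (h2 : (2 : F) ≠ 0) (hσ : σ * σ = 1) (hτ : τ * τ = 1)
    (hr : orank σ = orank τ) (ha : a * σ = τ * a) (h4 : 4 ≤ finrank F (ofix σ))
    (hle : orank σ ≤ finrank F (ofix σ)) {z : OG Q} (hz : ∀ b, b * z = z * b)
    (hd : dickson hG.nondegenerate (σ * z) = -1) : Cm (σ * τ) := by
  obtain ⟨b, hb, hb'⟩ := exists_rank hG h2 hσ ha
  have h1 := rank_TT hG σ b
  obtain ⟨c, hc, hc'⟩ := exists_sqSign h2 (ospin hG.nondegenerate (σ * z))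
  obtain ⟨x, hx, rfl⟩ := exists_eq_of_rank (Q := Q) (T := TT σ b) (by omega) c
  obtain ⟨y, k1, k2, k3, k4⟩ := avoid h2 hx hc
    (codim_TT hG hr hb (hk_of_le hG h2 hτ (finrank_ofix_eq hr ▸ h4)))
    (codim_TT' hG hr hb (hk_of_le hG h2 hσ h4))
  have := finrank_span_le (F := F) y
  rw [← k2] at hc hc'
  refine cm_of_adj hG h2 hσ hτ hr hb ((Submodule.span_singleton_le_iff_mem _ _).2 k1)
    (disjoint_span k3) (disjoint_span k4) (adj_of_le hG h2 hσ (by omega)) (c := z * orefl Q y)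
    (fun k hk => by
      rw [← mul_assoc, hz, mul_assoc, mul_orefl, hk y (Submodule.mem_span_singleton_self y),
        mul_assoc]) ((mem_commutator_OG_iff hG.nondegenerate (not_oExc_of_two_ne_zero h2) _).2 ?_)
  rw [← mul_assoc, map_mul, map_mul _ (σ * z), hd, dickson_orefl _ hc, ospin_orefl _ hc, hc']
  simp

theorem adj_four (hG : GeomQ Q) (h2 : (2 : F) ≠ 0) (hσ : σ * σ = 1) (h4 : orank σ = 4)
    (h4' : finrank F (ofix σ) = 4) (hP : dsc Q (ofix σ) = -1) (hM : dsc Q (ocomm σ) = -1)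
    {W : Submodule F V} (hW : NDQ Q W) (hW2 : finrank F W = 2) (hW' : dsc Q W = -1) : Adj σ W := by
  have key : ∀ S : Submodule F V, NDQ Q S → finrank F S = 4 → dsc Q S = -1 →
      finrank F (rad Q (S ⊓ perpQ Q W)) + 2 ≤ finrank F ↥(S ⊓ perpQ Q W) ∨ ∃ s y, s ∈ S ∧ y ∈ S ∧
        s ∈ perpQ Q W ∧ y ∈ perpQ Q W ∧ s ≠ 0 ∧ Q s = 0 ∧ Q y ≠ 0 ∧ polar Q s y = 0 := by
    intro S h1 h3 h5
    have hp : ∀ U ≤ S, TSQ Q U → finrank F U ≤ 1 := fun U hU hU' => by
      have := hG.two_mul_le_of_hasTS h1 ⟨U, hU, hU', rfl⟩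
      by_contra e
      have := (plusQ_iff_dsc h2 h1 (m := 2) h3).1 ⟨U, hU, hU', by omega⟩
      rw [h5, Int.units_sq] at this
      exact absurd this (by decide)
    refine or_iff_not_imp_left.2 fun hl => ?_
    have := rank_perp hG h1 W
    obtain ⟨s, hs, hs0⟩ := Submodule.exists_mem_ne_zero_of_ne_bot (p := rad Q (S ⊓ perpQ Q W))
      fun e => by rw [e, finrank_bot] at hl; omega
    obtain ⟨y, hy, hy0⟩ : ∃ y ∈ S ⊓ perpQ Q W, Q y ≠ 0 := by
      by_contra! e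
      have := hp _ inf_le_left (tsQ_iff.2 e)
      omega
    have e := hs.2 s hs.1
    rw [polarBilin_self] at e
    exact ⟨s, y, hs.1.1, hy.1, hs.1.2, hy.2, hs0, (mul_eq_zero.1 e).resolve_left h2, hy0,
      (polar_comm Q s y).trans (hs.2 y hy)⟩
  refine (key _ (nd_ofix hG h2 hσ) h4' hP).elim (adj_of_rank h2 (Or.inl rfl))
    fun ⟨s, y, s1, y1, s2, y2, s3, s4, y3, sy⟩ => ?_
  refine (key _ (nd_ocomm hG h2 hσ) h4 hM).elim (adj_of_rank h2 (Or.inr rfl))
    fun ⟨s', y', s1', y1', s2', y2', s3', s4', y3', sy'⟩ => ?_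
  have ho : ∀ p ∈ ofix σ, ∀ m ∈ ocomm σ, polar Q p m = 0 := fun p hp m hm =>
    (perp_ofix hG σ).ge hm p hp
  have hd := hG.nd_iff.1 (nd_ofix hG h2 hσ)
  rw [perp_ofix hG] at hd
  have sp := fun {A : Submodule F V} {x : V} => (Submodule.span_singleton_le_iff_mem x A).2
  have pp : ∀ {x y : V}, polar Q x y = 0 → (F ∙ y) ≤ perpQ Q (F ∙ x) := fun h =>
    sp (mem_perp_span.2 fun _ e => e ▸ h)
  have n1 := hG.nd_span h2 y3
  have n2 := hG.nd_span h2 y3'
  have nY := hG.nd_sup n1 n2 (pp (ho y y1 y' y1'))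
  have tU := hG.ts_sup (hG.ts_span_singleton s4) (hG.ts_span_singleton s4') (pp (ho s s1 s' s1'))
  have dU : finrank F ↥((F ∙ s) ⊔ F ∙ s') = 2 := by
    rw [finrank_sup_of_disjoint (hd.mono (sp s1) (sp s1')), finrank_span_singleton s3,
      finrank_span_singleton s3']
  have dY : finrank F ↥((F ∙ y) ⊔ F ∙ y') = 2 := by
    rw [finrank_sup_of_disjoint (hd.mono (sp y1) (sp y1')), finrank_span_singleton
      (o_ne_zero_of_norm y3), finrank_span_singleton (o_ne_zero_of_norm y3')]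
  have YU : (F ∙ y) ⊔ (F ∙ y') ≤ perpQ Q ((F ∙ s) ⊔ F ∙ s') := by
    rw [perp_sup]
    exact le_inf (sup_le (pp sy) (pp (ho s s1 y' y1')))
      (sup_le (pp ((polar_comm Q _ _).trans (ho y y1 s' s1'))) (pp sy'))
  have nW := hG.nd_perp hW
  have UW : (F ∙ s) ⊔ (F ∙ s') ≤ perpQ Q W := sup_le (sp s2) (sp s2')
  have YW : (F ∙ y) ⊔ (F ∙ y') ≤ perpQ Q W := sup_le (sp y2) (sp y2')
  have dV := orank_add_finrank_ofix σ
  have dW := hG.finrank_add_perp W
  have dUY := (hG.disjoint_of_le_perp nY (hG.le_perp_comm.1 YU)).symm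
  have e1 : ((F ∙ s) ⊔ F ∙ s') ⊔ ((F ∙ y) ⊔ F ∙ y') = perpQ Q ((F ∙ s) ⊔ F ∙ s') ⊓ perpQ Q W :=
    Submodule.eq_of_le_of_finrank_eq (le_inf (sup_le tU.le_perp YU) (sup_le UW YW)) (by
      have := hG.finrank_add_perp_inf nW UW
      rw [finrank_sup_of_disjoint dUY]
      omega)
  have e2 : PlusQ Q (perpQ Q W) ↔ PlusQ Q ((F ∙ y) ⊔ F ∙ y') := by
    rw [plus_iff (a := 3) (by omega), plus_iff (a := 1) dY]
    refine ⟨fun h => hG.hasTS_of_compl tU UW e1 (dU ▸ h), fun ⟨Z, z1, z2, z3⟩ =>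
      ⟨_, sup_le UW (z1.trans YW), hG.ts_sup tU z2 (z1.trans YU), ?_⟩⟩
    rw [finrank_sup_of_disjoint (dUY.mono_right z1), dU, z3]
  have e3 := hG.dsc_sup hW nW le_rfl
  have e4 := hG.dsc_sup (nd_ofix hG h2 hσ) (nd_ocomm hG h2 hσ) (perp_ofix hG σ).ge
  rw [(hG.isCompl_perp hW).sup_eq_top, hW'] at e3
  rw [← perp_ofix hG, (hG.isCompl_perp (nd_ofix hG h2 hσ)).sup_eq_top, perp_ofix hG, hP, hM,
    e3] at e4
  rw [plusQ_iff_dsc h2 nW (m := 3) (by omega), plusQ_iff_dsc h2 nY (m := 1) dY,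
    hG.dsc_sup n1 n2 (pp (ho y y1 y' y1')), dsc_span_singleton (o_ne_zero_of_norm y3),
    dsc_span_singleton (o_ne_zero_of_norm y3'), sqSign_mul h2 y3, sqSign_mul h2 y3'] at e2
  intro t
  by_cases ht : sqSign (Q y) = t
  · exact ⟨y, y3, ht, Or.inl y1, y2⟩
  refine ⟨y', y3', ?_, Or.inr y1', y2'⟩
  revert e2 e4 ht
  generalize sqSign (Q y) = u, sqSign (Q y') = u', sqSign (2 : F) = w, chi F = w',
    dsc Q (perpQ Q W) = w''
  revert t u u' w w' w''
  decide

theorem cm_C (hG : GeomQ Q) (h2 : (2 : F) ≠ 0) (hσ : σ * σ = 1) (hτ : τ * τ = 1)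
    (hr : orank σ = orank τ) (ha : a * σ = τ * a)
    (hZ : finrank F (ZZ σ a) + 3 ≤ finrank F (ofix σ)) (hk : Hk σ 3) (hk' : Hk τ 3)
    (hA : ∀ W, NDQ Q W → finrank F W = 2 → dsc Q W = -1 → Adj σ W)
    (hd : dickson hG.nondegenerate σ = 1) (hs : ospin hG.nondegenerate σ = -1) : Cm (σ * τ) := by
  have h1 := rank_TT hG σ a
  have c1 := codim_TT hG hr ha hk'
  have c2 := codim_TT' hG hr ha hk
  obtain ⟨x, hx, ex⟩ := exists_eq_of_rank (Q := Q) (T := TT σ a) (by omega) 1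
  obtain ⟨y, k1, k2, k3, k4⟩ := avoid (A := ocomm σ) (A' := ocomm τ) h2 hx (ex ▸ one_ne_zero)
    (by omega) (by omega)
  rw [ex] at k2
  have y0 : Q y ≠ 0 := k2 ▸ one_ne_zero
  have sp := fun {A : Submodule F V} {x : V} => (Submodule.span_singleton_le_iff_mem x A).2
  set T := TT σ a ⊓ perpQ Q (F ∙ y)
  have hT := le_perp_sup h2 k1 y0
  have hd' : Disjoint (F ∙ y) T :=
    hG.disjoint_of_le_perp (hG.nd_span h2 y0) inf_le_right
  have dy := finrank_span_singleton (K := F) (o_ne_zero_of_norm y0)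
  have d1 : finrank F (TT σ a) ≤ finrank F T + 1 :=
    (Submodule.finrank_mono hT).trans (dy ▸ Submodule.finrank_add_le_finrank_add_finrank _ _)
  have d2 : finrank F (rad Q T) ≤ finrank F (rad Q (TT σ a)) :=
    Submodule.finrank_mono fun z hz => ⟨hz.1.1, perp_anti hT (perp_sup.ge ⟨hz.2, hz.1.2⟩)⟩
  have d3 : ∀ A : Submodule F V, finrank F ↥(T ⊓ (A ⊔ F ∙ y)) ≤ finrank F ↥(TT σ a ⊓ A) :=
    fun A => by
      have e1 := finrank_sup_of_disjoint (hd'.mono_right (inf_le_left (b := A ⊔ F ∙ y)))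
      have e2 : (F ∙ y) ⊔ T ⊓ (A ⊔ F ∙ y) ≤ TT σ a ⊓ A ⊔ F ∙ y := by
        rw [inf_sup_assoc_of_le _ (sp k1)]
        exact sup_le (le_inf (sp k1) le_sup_right) (inf_le_inf_right _ inf_le_left)
      have e3 := Submodule.finrank_mono e2
      have e4 := Submodule.finrank_add_le_finrank_add_finrank (TT σ a ⊓ A) (F ∙ y)
      omega
  obtain ⟨c, hc, hc'⟩ := exists_sqSign (F := F) h2 (-1)
  obtain ⟨u, hu, rfl⟩ := exists_eq_of_rank (Q := Q) (T := T) (by omega) c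
  have := d3 (ocomm σ)
  have := d3 (ocomm τ)
  obtain ⟨z, j1, j2, j3, j4⟩ := avoid (A := ocomm σ ⊔ F ∙ y) (A' := ocomm τ ⊔ F ∙ y) h2 hu hc
    (by omega) (by omega)
  rw [← j2] at hc hc'
  have dj : ∀ {A : Submodule F V}, y ∉ A → z ∉ A ⊔ F ∙ y → Disjoint ((F ∙ y) ⊔ F ∙ z) A :=
    fun h h' => (((disjoint_span h).symm).disjoint_sup_right_of_disjoint_sup_left
      (disjoint_span h').symm).symm
  have n1 := hG.nd_span h2 y0
  have n2 := hG.nd_span h2 hc
  refine cm_of_adj hG h2 hσ hτ hr ha (sup_le (sp k1) (sp j1.1)) (dj k3 j3) (dj k4 j4)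
    (hA _ (hG.nd_sup n1 n2 (sp j1.2)) ?_ ?_) (c := orefl Q y * orefl Q z) (fun k hk => by
      rw [← mul_assoc, mul_orefl k, mul_assoc, mul_orefl k,
        hk y (Submodule.mem_sup_left (Submodule.mem_span_singleton_self y)),
        hk z (Submodule.mem_sup_right (Submodule.mem_span_singleton_self z)), mul_assoc])
    ((mem_commutator_OG_iff hG.nondegenerate (not_oExc_of_two_ne_zero h2) _).2 ?_)
  · rw [hG.finrank_sup_of_le_perp n1 (sp j1.2), dy, finrank_span_singleton (o_ne_zero_of_norm hc)]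
  · rw [hG.dsc_sup n1 n2 (sp j1.2), dsc_span_singleton (o_ne_zero_of_norm y0),
      dsc_span_singleton (o_ne_zero_of_norm hc), sqSign_mul h2 hc, k2, mul_one, hc', ← mul_assoc,
      Int.units_mul_self, one_mul]
  · simp [hd, hs, dickson_orefl _ hc, ospin_orefl _ hc, dickson_orefl _ y0, ospin_orefl _ y0, hc',
      k2]

theorem cm_of_le (hG : GeomQ Q) (h2 : (2 : F) ≠ 0) (hn : 7 ≤ finrank F V) (hσ : σ * σ = 1)
    (hτ : τ * τ = 1) (hr : orank σ = orank τ) (hΩ : σ * τ ∈ commutator (OG Q))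
    (hle : orank σ ≤ finrank F (ofix σ)) : Cm (σ * τ) := by
  have hx := not_oExc_of_two_ne_zero (Q := Q) h2
  have hQ := hG.nondegenerate
  have hs : ospin hQ σ = ospin hQ τ := units_mul_eq_one_iff.1
    ((map_mul _ _ _).symm.trans ((mem_commutator_OG_iff hQ hx _).1 hΩ).2)
  obtain ⟨a, ha⟩ := exists_conj hG h2 hσ hτ hr hs
  have dV := orank_add_finrank_ofix σ
  have dτ := finrank_ofix_eq hr
  have hA : ∀ z : OG Q, (∀ b, b * z = z * b) → dickson hQ (σ * z) = 1 → ospin hQ (σ * z) = 1 →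
      Cm (σ * τ) := fun z hz h1 h3 => cm_of_adj hG h2 hσ hτ hr ha bot_le disjoint_bot_left
    disjoint_bot_left (adj_of_le hG h2 hσ (by rw [finrank_bot]; omega)) (fun b _ => hz b)
    ((mem_commutator_OG_iff hQ hx _).2 ⟨h1, h3⟩)
  rcases Int.units_eq_one_or (dickson hQ σ) with d1 | d1
  swap
  · exact cm_B hG h2 hσ hτ hr ha (by omega) hle (z := 1) (by simp) (by simpa)
  rcases Int.units_eq_one_or (dickson hQ (σ * OG.negOne Q)) with d2 | d2
  swap
  · exact cm_B hG h2 hσ hτ hr ha (by omega) hle OG.negOne_comm d2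
  rcases Int.units_eq_one_or (ospin hQ σ) with s1 | s1
  · exact hA 1 (by simp) (by simpa) (by simpa)
  rcases Int.units_eq_one_or (ospin hQ (σ * OG.negOne Q)) with s2 | s2
  · exact hA _ OG.negOne_comm d2 s2
  have e1 := (dickson_eq_one_iff hQ _).1 d1
  have e2 := (dickson_eq_one_iff hQ _).1 d2
  rw [orank, ofix_neg hG h2 hσ, Nat.even_iff] at e2
  rw [Nat.even_iff] at e1
  by_cases h6 : 6 ≤ finrank F (ofix σ)
  · obtain ⟨b, hb, hb'⟩ := exists_rank hG h2 hσ ha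
    exact cm_C hG h2 hσ hτ hr hb (by omega) (hk_of_le hG h2 hσ h6) (hk_of_le hG h2 hτ (dτ ▸ h6))
      (fun W _ hW _ => adj_of_le hG h2 hσ (by omega)) d1 s1
  have h4 : orank σ = 4 := by omega
  have inv : ∀ {σ : OG Q}, σ * σ = 1 → orank σ = 4 → dsc Q (ocomm σ) = ospin hQ σ :=
    fun {σ} hσ h => by
      have := (hG.invariants_of_neg h2 (nd_ocomm hG h2 hσ) _ (fun _ => neg_of_mem hσ)
        fun v hv => mem_ofix.1 (perp_ocomm hG _ ▸ hv)).2
      rw [show finrank F (ocomm σ) = 2 + 2 from h, pow_add, Int.units_sq, one_mul, one_mul] at this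
      exact this.symm
  have inv' : ∀ {σ : OG Q}, σ * σ = 1 → finrank F (ofix σ) = 4 →
      ospin hQ (σ * OG.negOne Q) = -1 → dsc Q (ofix σ) = -1 := fun {σ} hσ h h' => by
    rw [← ofix_neg hG h2 hσ, inv (neg_invol hσ) (by rwa [orank, ofix_neg hG h2 hσ]), h']
  have hk : ∀ {σ : OG Q}, σ * σ = 1 → finrank F (ofix σ) = 4 →
      ospin hQ (σ * OG.negOne Q) = -1 → Hk σ 3 := fun {σ} hσ h h' S hS hS' => by
    have := hG.two_mul_le_of_hasTS (nd_ofix hG h2 hσ) ⟨S, hS, tsQ_iff.2 hS', rfl⟩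
    by_contra e
    have := (plusQ_iff_dsc h2 (nd_ofix hG h2 hσ) (m := 2) h).1 ⟨S, hS, tsQ_iff.2 hS', by omega⟩
    rw [inv' hσ h h', Int.units_sq] at this
    exact absurd this (by decide)
  obtain ⟨b, hb, hb'⟩ := exists_small hG h2 hσ h4 ha
  exact cm_C hG h2 hσ hτ hr hb (by omega) (hk hσ (by omega) s2)
    (hk hτ (by omega) (by rwa [map_mul, ← hs, ← map_mul]))
    (fun W => adj_four hG h2 hσ h4 (by omega) (inv' hσ (by omega) s2) (inv hσ h4 ▸ s1)) d1 s1

/-- Ore's conjecture for `Ω(Q)` in odd characteristic and dimension at least seven. -/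
theorem cm_odd (hQ : (polarBilin Q).Nondegenerate) (h2 : (2 : F) ≠ 0) (hn : 7 ≤ finrank F V)
    {g : OG Q} (hg : g ∈ commutator (OG Q)) : Cm g := by
  have hG := geom_quad hQ
  obtain ⟨σ, τ, hσ, hτ, rfl, hr⟩ := wonenburger hQ h2 g
    ((mem_commutator_OG_iff hQ (not_oExc_of_two_ne_zero h2) _).1 hg).1
  by_cases hle : orank σ ≤ finrank F (ofix σ)
  · exact cm_of_le hG h2 hn hσ hτ hr hg hle
  have e : σ * OG.negOne Q * (τ * OG.negOne Q) = σ * τ := OG.ext fun x => by simp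
  have h1 := orank_add_finrank_ofix σ
  have h3 := orank_add_finrank_ofix (σ * OG.negOne Q)
  have h4 : orank (σ * OG.negOne Q) = finrank F (ofix σ) := by rw [orank, ofix_neg hG h2 hσ]
  exact e ▸ cm_of_le hG h2 hn (neg_invol hσ) (neg_invol hτ)
    (by rw [h4, orank, ofix_neg hG h2 hτ, finrank_ofix_eq hr]) (e ▸ hg) (by omega)

theorem Cm.omega {ι : Type} [Fintype ι] [DecidableEq ι] {P : QuadraticForm F (ι → F)}
    (h : ∀ g ∈ commutator (OG P), Cm g) (g : Cfsg.Omega F ⇑P) :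
    ∃ a b : Cfsg.Omega F ⇑P, g = a * b * a⁻¹ * b⁻¹ := by
  obtain ⟨x, hx, y, hy, e⟩ := h _ (SpO.omegaMatEquiv P g).2
  refine ⟨(SpO.omegaMatEquiv P).symm ⟨x, hx⟩, (SpO.omegaMatEquiv P).symm ⟨y, hy⟩,
    (SpO.omegaMatEquiv P).injective (Subtype.ext ?_)⟩
  simpa using e

end Cfsg.Agent.Cl.OreO
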