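import Mathlib
import Cfsg.Agent.Cl.OreSpA
import Cfsg.Agent.Cl.OreC
import Cfsg.Agent.Cl.Ore4

/-! Ore's property for the finite symplectic groups. -/

set_option autoImplicit false

namespace Cfsg.Agent.Cl.OreSp

open Module Cls Polynomial SpO Matrix Sum

section Abstract

variable {F V V' : Type*} [Field F] [AddCommGroup V] [Module F V] [AddCommGroup V'] [Module F V']
  {B : LinearMap.BilinForm F V} {B' : LinearMap.BilinForm F V'} {g : End F V} {g' : End F V'}

/-- `g` is a commutator of two isometries. -/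
def Comm (B : LinearMap.BilinForm F V) (g : End F V) : Prop :=
  ∃ a b : End F V, IsIsom B a ∧ IsIsom B b ∧ g * b * a = a * b

theorem comm_one : Comm B 1 := ⟨1, 1, isIsom_one, isIsom_one, by simp⟩

theorem Comm.of_isoConj (h : IsoConj B g B' g') (h' : Comm B' g') : Comm B g := by
  obtain ⟨e, he, hc⟩ := h
  obtain ⟨a, b, ha, hb, hab⟩ := h'
  refine ⟨e.symm.conj a, e.symm.conj b, fun x y => ?_, fun x y => ?_, LinearMap.ext fun x => ?_⟩
  · simp [← he, ha _ _]
  · simp [← he, hb _ _]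
  · apply e.injective
    simpa [hc] using LinearMap.congr_fun hab (e x)

theorem comm_of_isoConj {y : End F V} (hy : IsIsom B y) (h : IsoConj B y B (g * y)) :
    Comm B g := by
  obtain ⟨e, he, hc⟩ := h
  exact ⟨e, y, he, hy, LinearMap.ext fun x => (hc x).symm⟩

theorem Comm.glue {U W : Submodule F V} (hc : IsCompl U W) (hr : B.IsRefl)
    (ho : ∀ u ∈ U, ∀ w ∈ W, B u w = 0) (hU : ∀ u ∈ U, g u ∈ U) (hW : ∀ w ∈ W, g w ∈ W)
    (h₁ : Comm (B.restrict U) (g.restrict hU)) (h₂ : Comm (B.restrict W) (g.restrict hW)) :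
    Comm B g := by
  obtain ⟨a, b, ha, hb, hab⟩ := h₁
  obtain ⟨c, d, hc', hd, hcd⟩ := h₂
  let s : End F U → End F W → End F V := fun x y =>
    LinearMap.ofIsCompl hc (U.subtype ∘ₗ x) (W.subtype ∘ₗ y)
  have hs : ∀ x y (u : U) (w : W), s x y (u + w) = x u + y w := fun x y u w => by simp [s]
  have hi : ∀ x y, IsIsom (B.restrict U) x → IsIsom (B.restrict W) y → IsIsom B (s x y) :=
    fun x y hx hy p q => by
      obtain ⟨u, w, rfl⟩ := exists_add_of_isCompl hc p
      obtain ⟨u', w', rfl⟩ := exists_add_of_isCompl hc q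
      have e1 : B (x u) (x u') = B u u' := hx u u'
      have e2 : B (y w) (y w') = B w w' := hy w w'
      simp [hs, e1, e2, ho, hr _ _ (ho _ (Subtype.property _) _ (Subtype.property _))]
  refine ⟨s a c, s b d, hi _ _ ha hc', hi _ _ hb hd, LinearMap.ext fun p => ?_⟩
  obtain ⟨u, w, rfl⟩ := exists_add_of_isCompl hc p
  have e1 : g (b (a u)) = a (b u) := congrArg Subtype.val (LinearMap.congr_fun hab u)
  have e2 : g (d (c w)) = c (d w) := congrArg Subtype.val (LinearMap.congr_fun hcd w)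
  simp only [Module.End.mul_apply, hs, map_add g, e1, e2]

variable [FiniteDimensional F V]

theorem comm_of_sq [Finite F] (hB : B.Nondegenerate) (hA : B.IsAlt) {z : End F V}
    (hz : IsIsom B z) (hu : IsUnit (z * z - 1)) : Comm B (z * z) := by
  obtain ⟨k, S⟩ := exists_set hB hA hz
  have e : z * z - 1 = (z - 1) * (z + 1) := by noncomm_ring
  have e' : (z - 1) * (z + 1) = (z + 1) * (z - 1) := by noncomm_ring
  obtain ⟨h1, h2⟩ := (Commute.isUnit_mul_iff e').1 (e ▸ hu)
  refine comm_of_isoConj S.isom' (IsoConj.symm ?_)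
  rw [mul_assoc, S.gk, mul_one]
  refine isoConj_of_isUnit hB hB (isEps_of_isAlt hA) (isEps_of_isAlt hA) (by ring) hz S.isom' h1
    (by rw [show -z - 1 = -(z + 1) by abel]; exact h2.neg) (sim_iff_ed_eq.2 ?_)
  rw [ed_eq_map_recip S.kg, Der.ed_eq_map_uDual (σ := RingHom.id F) Function.bijective_id B hB.2
    rfl hz]
  conv_rhs => rw [← Der.ed_eq_map_uDual (σ := RingHom.id F) Function.bijective_id B hB.2 rfl hz]
  exact Multiset.map_congr rfl fun e _ => by rw [uDual, Polynomial.map_id]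

theorem comm_of_hom [Finite F] (h2 : (2 : F) ≠ 0) (hB : B.Nondegenerate) (hA : B.IsAlt)
    (hg : IsIsom B g) {h : ℕ} (hh : Even h) {ι : F × F →ₗ[F] V} (H : IsHom h g ι) :
    Comm B (-g) := by
  obtain ⟨U, _, _, _, S, f, s1, s2, -, s3, s4⟩ := rlz_odd_block h2 hh.add_one
  have hN : (f - 1) ^ (h + 1) = 0 := (pow_eq_zero_iff_of_jt s4 _).2 (by simp)
  obtain ⟨_, ⟨r, rfl⟩, hr⟩ := exists_odd_pow_eq_one h2 hN
  let C : LinearMap.BilinForm F (U × U) :=
    S.compl₁₂ (LinearMap.fst F _ _) (LinearMap.snd F _ _) -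
      S.compl₁₂ (LinearMap.snd F _ _) (LinearMap.fst F _ _)
  have hC : ∀ x y, C x y = S x.1 y.2 - S x.2 y.1 := fun _ _ => rfl
  have cA : C.IsAlt := fun x => by rw [hC, s2, one_mul, sub_self]
  have c1 : ∀ x, (∀ y, C x y = 0) → x = 0 := fun x hx => Prod.ext
    (s1.1 _ fun y => by simpa [hC] using hx (0, y)) (s1.1 _ fun y => by simpa [hC] using hx (y, 0))
  have cN : C.Nondegenerate := ⟨c1, fun x hx => c1 x fun y => cA.isRefl _ _ (hx y)⟩
  have cf : IsIsom C (f.prodMap f) := fun x y => by simp [hC, s3 _ _]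
  have cN' : (f.prodMap f - 1) ^ (h + 1) = 0 := by
    have : ∀ n : ℕ, (f.prodMap f - 1) ^ n = ((f - 1) ^ n).prodMap ((f - 1) ^ n) := fun n => by
      induction n with
      | zero => exact LinearMap.prodMap_one.symm
      | succ n ih => rw [pow_succ, ih, pow_succ, ← LinearMap.prodMap_mul]; rfl
    rw [this, hN, LinearMap.prodMap_zero]
  have hs : Sim g (f.prodMap f) := sim_iff_ed_eq.2 (by
    rw [H.ed_eq, ed_prodMap, s4]; simp [jt])
  have hm : ∀ j : ℕ, (-1 : F) ^ j * -1 = 1 → mult g (j + 1) = 0 := fun j hj => by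
    rw [H.mult_eq, if_neg]
    intro e
    rw [Nat.succ_injective e, hh.neg_one_pow] at hj
    exact h2 (by linear_combination -hj)
  have key := (isoConj_iff_unip h2 (by ring) hB cN (isEps_of_isAlt hA) (isEps_of_isAlt cA) hg cf H.1
    cN').2 ⟨hs, fun j hj => by
      rw [sg_eq_one_of_mult h2 hB (isEps_of_isAlt hA) hg (hm j hj), sg_eq_one_of_mult h2 cN
        (isEps_of_isAlt cA) cf (SpO.Sim.mult_eq hs _ ▸ hm j hj)]⟩
  refine Comm.of_isoConj key.neg ?_
  let z : End F (U × U) :=
    ((-(f ^ (r + 1))) ∘ₗ LinearMap.snd F U U).prod ((f ^ (r + 1)) ∘ₗ LinearMap.fst F U U)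
  have hz : ∀ x, z x = (-(f ^ (r + 1)) x.2, (f ^ (r + 1)) x.1) := fun _ => rfl
  have e : f ^ (r + 1) * f ^ (r + 1) = f := by
    rw [← pow_add, show r + 1 + (r + 1) = 2 * r + 1 + 1 by ring, pow_succ, hr, one_mul]
  have e' : ∀ x, (f ^ (r + 1)) ((f ^ (r + 1)) x) = f x := LinearMap.congr_fun e
  have hzz : z * z = -f.prodMap f := LinearMap.ext fun x => by simp [hz, e']
  rw [← hzz]
  refine comm_of_sq cN cA (fun x y => ?_) (hzz ▸ isUnit_neg_sub_one h2 cN')
  simp only [hC, hz, map_neg, LinearMap.neg_apply, s3.pow _ _ _]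
  ring

theorem LU.exists_sp (hB : B.Nondegenerate) (hA : B.IsAlt) (hg : IsIsom B g) (h : LU B g ⊤) {m : ℕ}
    (hm : finrank F V = 2 * m) : ∃ G : Matrix.symplecticGroup (Fin m) F,
      IsoConj B g (spB m F) (specSp F m G) ∧ G.1.toBlocks₁₁ = 1 := by
  obtain ⟨L, L', e, h1, h2, h3⟩ := h
  have d1 : ∀ M : Submodule F V, TI B M → 2 * finrank F M ≤ 2 * m := fun M hM => by
    have := Submodule.finrank_mono (show M ≤ B.orthogonal M from fun x hx y hy => hM y hy x hx)
    rw [B.finrank_orthogonal hB, hm] at this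
    omega
  have d2 := Submodule.finrank_sup_add_finrank_inf_eq L L'
  have d3 := d1 L h1
  have d4 := d1 L' h2
  rw [e, finrank_top, hm] at d2
  have hc : IsCompl L L' := ⟨disjoint_iff.2 (Submodule.finrank_eq_zero.1 (by omega)),
    codisjoint_iff.2 e⟩
  let φ : L' →ₗ[F] Dual F L := B.compl₁₂ L'.subtype L.subtype
  have hφ : Function.Injective φ := (injective_iff_map_eq_zero _).2 fun y hy =>
    Subtype.ext (hB.1 _ fun x => by
      obtain ⟨u, w, rfl⟩ := exists_add_of_isCompl hc x
      rw [map_add, h2 _ y.2 _ w.2, add_zero]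
      exact LinearMap.congr_fun hy u)
  let ψ := φ.linearEquivOfInjective hφ (by rw [Subspace.dual_finrank_eq]; omega)
  let b := Module.finBasisOfFinrankEq F L (show finrank F L = m by omega)
  let c := ((b.prod (b.dualBasis.map ψ.symm)).map (L.prodEquivOfIsCompl L' hc))
  have c1 : ∀ i, c (inl i) = b i := fun i => by simp [c]
  have c2 : ∀ i, c (inr i) = ψ.symm (b.coord i) := fun i => by simp [c]
  have c3 : ∀ i j, B (c (inr i)) (c (inl j)) = if i = j then 1 else 0 := fun i j => by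
    rw [c1, c2]
    change ψ (ψ.symm (b.coord i)) (b j) = _
    simp [Finsupp.single_apply, eq_comm]
  have he := sp_equivFun_of_basis hA c c3 (fun i j => by rw [c1, c1]; exact h1 _ (b i).2 _ (b j).2)
    (fun i j => by rw [c2, c2]; exact h2 _ (Subtype.property _) _ (Subtype.property _))
  obtain ⟨G, hG⟩ := exists_specSp_eq (y := c.equivFun.conj g) fun u v => by
    obtain ⟨u, rfl⟩ := c.equivFun.surjective u
    obtain ⟨v, rfl⟩ := c.equivFun.surjective v
    rw [LinearEquiv.conj_apply_apply, LinearEquiv.conj_apply_apply, he, he,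
      LinearEquiv.symm_apply_apply, LinearEquiv.symm_apply_apply, hg]
  have hs : ∀ i, c.equivFun (c i) = Pi.single i 1 := fun i => by
    ext l; simp [Pi.single_apply, eq_comm]
  have hx : ∀ x, c.equivFun (g x) = specSp F m G (c.equivFun x) := fun x => by
    rw [hG, LinearEquiv.conj_apply_apply, LinearEquiv.symm_apply_apply]
  refine ⟨G, ⟨c.equivFun, he, hx⟩, Matrix.ext fun i j => ?_⟩
  have := he (c (inr i)) (g (c (inl j)))
  rw [hx, hs, hs, spB_single_inr, one_mul, specSp_eq, Matrix.toLin'_apply,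
    Matrix.mulVec_single_one, ← sub_add_cancel (g _) (c (inl j)), map_add, c3,
    h2 _ (by rw [c2]; exact Subtype.property _) _ (h3 _ (by rw [c1]; exact (b j).2)),
    zero_add] at this
  rw [Matrix.one_apply, ← this]
  rfl

end Abstract

variable {F : Type*} [Field F] {m : ℕ}

/-- `M' = M⁻¹` has characteristic polynomial prime to that of `M`. -/
def Good (M M' : Matrix (Fin m) (Fin m) F) : Prop :=
  M * M' = 1 ∧ IsCoprime M.charpoly M'.charpoly

theorem Good.eval_ne {M M' : Matrix (Fin m) (Fin m) F} (h : Good M M') {c : F} (hc : c * c = 1) :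
    (M.charpoly * M'.charpoly).eval c ≠ 0 := by
  have e : (Matrix.scalar (Fin m) c - M) * M' = (-c) • (Matrix.scalar (Fin m) c - M') := by
    rw [sub_mul, h.1, smul_sub, Matrix.scalar_apply, ← smul_eq_diagonal_mul, ← smul_one_eq_diagonal,
      smul_smul, neg_mul, hc, neg_smul, neg_smul, one_smul]
    abel
  have e1 := congrArg Matrix.det e
  have d := congrArg Matrix.det h.1
  rw [det_mul, det_smul, ← eval_charpoly, ← eval_charpoly] at e1
  rw [det_mul, det_one] at d
  have hc0 : (-c) ^ Fintype.card (Fin m) ≠ 0 :=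
    pow_ne_zero _ (neg_ne_zero.2 (left_ne_zero_of_mul_eq_one hc))
  have := aeval_ne_zero_of_isCoprime h.2 c
  rw [coe_aeval_eq_eval] at this
  rw [eval_mul]
  refine mul_ne_zero (fun h0 => ?_) fun h0 => ?_
  · rw [h0, zero_mul] at e1
    exact this.elim (· h0) (· ((mul_eq_zero.1 e1.symm).resolve_left hc0))
  · rw [h0, mul_zero] at e1
    exact this.elim (· ((mul_eq_zero.1 e1).resolve_right (right_ne_zero_of_mul_eq_one d))) (· h0)

theorem isUnit_of_eval {n : Type*} [Fintype n] [DecidableEq n] {Y : Matrix n n F} {c : F}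
    (h : Y.charpoly.eval c ≠ 0) : IsUnit (c • 1 - Matrix.toLin' Y) := by
  rw [eval_charpoly, Matrix.scalar_apply, ← smul_one_eq_diagonal] at h
  have := ((Matrix.isUnit_iff_isUnit_det _).2 h.isUnit).map
    (Matrix.toLinAlgEquiv' (R := F) (n := n))
  rwa [map_sub, map_smul, map_one] at this

theorem comm_of_siegel [Finite F] {G : Matrix (Fin m ⊕ Fin m) (Fin m ⊕ Fin m) F}
    (hG : G ∈ Matrix.symplecticGroup (Fin m) F) {M M' N N' : Matrix (Fin m) (Fin m) F}
    (hM : Good M M') (hN : Good N N') (h : G.toBlocks₁₁ * N = M)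
    (he : edM M + edM M' = edM N + edM N') : Comm (spB m F) (Matrix.toLin' G) := by
  obtain ⟨A, B, C, D, rfl⟩ : ∃ A B C D, G = fromBlocks A B C D :=
    ⟨_, _, _, _, (fromBlocks_toBlocks G).symm⟩
  rw [toBlocks_fromBlocks₁₁] at h
  subst h
  obtain ⟨h1, -, -⟩ := SymplecticGroup.fromBlocks_mem_iff.1 hG
  have hX : fromBlocks (A * N) 0 (C * N) M'ᵀ ∈ Matrix.symplecticGroup (Fin m) F := by
    refine SymplecticGroup.fromBlocks_mem_iff.2 ⟨?_, by simp, ?_⟩
    · rw [transpose_mul, transpose_mul, Matrix.mul_assoc, ← Matrix.mul_assoc Aᵀ, h1]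
      simp only [Matrix.mul_assoc]
    · rw [Matrix.mul_zero, sub_zero, ← transpose_mul, mul_eq_one_comm.1 hM.1, transpose_one]
  set Y : Matrix.symplecticGroup (Fin m) F := (⟨_, hG⟩ : Matrix.symplecticGroup (Fin m) F)⁻¹ *
    ⟨_, hX⟩ with hY
  have hXY : ⟨_, hG⟩ * Y = ⟨_, hX⟩ := by rw [hY, mul_inv_cancel_left]
  obtain ⟨P, Q, R, T, hP⟩ : ∃ P Q R T, Y.1 = fromBlocks P Q R T :=
    ⟨_, _, _, _, (fromBlocks_toBlocks Y.1).symm⟩
  have e : fromBlocks A B C D * Y.1 = fromBlocks (A * N) 0 (C * N) M'ᵀ := congrArg Subtype.val hXY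
  have e' : Y.1 = fromBlocks N Q 0 T := by
    refine (SymplecticGroup.symplectic_det hG |> (Matrix.isUnit_iff_isUnit_det _).2).mul_left_cancel ?_
    rw [e]
    rw [hP, fromBlocks_multiply] at e
    obtain ⟨-, e2, -, e4⟩ := fromBlocks_inj.1 e
    rw [fromBlocks_multiply, e2, e4]
    simp
  have hY2 := Y.2
  rw [e'] at hY2
  obtain ⟨-, -, y3⟩ := SymplecticGroup.fromBlocks_mem_iff.1 hY2
  have hT : T = N'ᵀ := by
    rw [transpose_zero, Matrix.zero_mul, sub_zero] at y3
    rw [← Matrix.one_mul T, ← transpose_one, ← hN.1, transpose_mul, Matrix.mul_assoc, y3,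
      Matrix.mul_one]
  subst hT
  have hc : Y.1.charpoly = N.charpoly * N'.charpoly := by
    rw [e', charpoly_fromBlocks_zero₂₁, charpoly_transpose]
  refine comm_of_isoConj (isIsom_specSp Y) ?_
  have e2 : Matrix.toLin' (fromBlocks A B C D) * specSp F m Y = specSp F m ⟨_, hX⟩ := by
    rw [← hXY, map_mul (specSp F m) _ Y]; rfl
  rw [e2]
  refine isoConj_of_isUnit spB_nondegenerate spB_nondegenerate (isEps_of_isAlt spB_isAlt)
    (isEps_of_isAlt spB_isAlt) (by ring) (isIsom_specSp _) (isIsom_specSp _) ?_ ?_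
    (sim_iff_ed_eq.2 ?_)
  · convert isUnit_neg_one.mul (isUnit_of_eval (hc ▸ hN.eval_ne (one_mul 1))) using 1
    exact LinearMap.ext fun x => by simp [specSp_eq]
  · convert isUnit_of_eval (hc ▸ hN.eval_ne (c := -1) (by ring)) using 1
    exact LinearMap.ext fun x => by simp [specSp_eq]; abel
  · change edM Y.1 = edM (fromBlocks (A * N) 0 (C * N) M'ᵀ)
    rw [e', Ore.edM_upper (by rw [charpoly_transpose]; exact hN.2),
      Ore.edM_lower (by rw [charpoly_transpose]; exact hM.2), edM_transpose, edM_transpose, he]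

theorem exists_good_of_poly {χ : F[X]} (hχ : χ.Monic) (hd : χ.natDegree = m) (h0 : χ.coeff 0 ≠ 0)
    (h : ∀ a b : AlgebraicClosure F, a * b = 1 → aeval a χ = 0 → aeval b χ ≠ 0) :
    ∃ M M' : Matrix (Fin m) (Fin m) F, Good M M' := by
  obtain ⟨M, hM⟩ := Ore.exists_isCyc (ι := Fin m) hχ.ne_zero (by simp [hd])
  have hu : IsUnit M.det := by rw [hM.det hχ]; exact (Ore.dd_ne_zero h0).isUnit
  refine ⟨M, M⁻¹, mul_nonsing_inv M hu, ?_⟩
  rw [charpoly_eq_prod_edM M⁻¹, edM_inv ((Matrix.isUnit_iff_isUnit_det _).2 hu),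
    ← recip_multiset_prod, ← charpoly_eq_prod_edM, hM.charpoly hχ,
    isCoprime_iff_aeval_ne_zero_of_isAlgClosed F (AlgebraicClosure F)]
  intro a
  by_contra hn
  push Not at hn
  have ha : a ≠ 0 := by
    rintro rfl
    rw [← coeff_zero_eq_aeval_zero', map_eq_zero] at hn
    exact h0 hn.1
  have := aeval_recip_eq_zero (mul_inv_cancel₀ ha) hn.2
  rw [recip_recip hχ h0] at this
  exact h a _ (mul_inv_cancel₀ ha) hn.1 this

theorem exists_good_tri {k : ℕ} (hk : 0 < k) (hm : k < m)
    (h : ∀ a : AlgebraicClosure F, a ^ m = a ^ k + 1 → a ^ (2 * k) + a ^ k + 1 ≠ 0) :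
    ∃ M M' : Matrix (Fin m) (Fin m) F, Good M M' := by
  have hd : (X ^ k + 1 : F[X]).degree < m := by
    rw [← C_1, degree_X_pow_add_C hk]; exact_mod_cast hm
  refine exists_good_of_poly (χ := X ^ m - (X ^ k + 1)) (monic_X_pow_sub hd) ?_ ?_ fun a b e ha hb => ?_
  · rw [natDegree_eq_of_degree_eq_some]
    rw [degree_sub_eq_left_of_degree_lt (by rwa [degree_X_pow]), degree_X_pow]
  · simp [coeff_X_pow, hk.ne, (hk.trans hm).ne]
  · simp only [map_sub, map_add, map_pow, aeval_X, map_one, sub_eq_zero] at ha hb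
    have e1 : a ^ m * b ^ m = 1 := by rw [← mul_pow, e, one_pow]
    have e2 : a ^ k * b ^ k = 1 := by rw [← mul_pow, e, one_pow]
    refine h a ha ?_
    rw [ha, hb] at e1
    rw [two_mul, pow_add]
    linear_combination a ^ k * e1 - (a ^ k + 1) * e2

theorem exists_good [Fintype F] (h1 : m = 1 → 4 ≤ Fintype.card F)
    (h2 : m = 2 → 3 ≤ Fintype.card F) : ∃ M M' : Matrix (Fin m) (Fin m) F, Good M M' := by
  rcases Nat.eq_zero_or_pos m with rfl | hm
  · exact ⟨1, 1, by simp, by simp [isCoprime_one_left]⟩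
  by_cases h4 : 4 ≤ Fintype.card F
  · obtain ⟨l, l0, l1, l2⟩ := Ore.exists_avoid (F := F) (by rwa [Nat.card_eq_fintype_card]) 1 (-1)
    refine exists_good_of_poly (χ := (X - C l) ^ m) ((monic_X_sub_C l).pow m) (by simp)
      (by rw [coeff_zero_eq_eval_zero]; simp [l0]) fun a b e ha hb => ?_
    simp only [map_pow, map_sub, aeval_X, aeval_C, pow_eq_zero_iff hm.ne', sub_eq_zero] at ha hb
    rw [ha, hb, ← map_mul, ← map_one (algebraMap F _), (algebraMap F _).injective.eq_iff,
      mul_self_eq_one_iff] at e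
    exact e.elim (fun h => l1 h.symm) fun h => l2 h.symm
  have hq := Fintype.one_lt_card (α := F)
  have hc : ((Fintype.card F : ℕ) : AlgebraicClosure F) = 0 := by
    rw [← map_natCast (algebraMap F _), FiniteField.cast_card_eq_zero, map_zero]
  have p3 : ∀ a : AlgebraicClosure F, a ^ 2 + a + 1 = 0 → a ^ m = a ^ (m % 3) := fun a ha => by
    conv_lhs => rw [← Nat.div_add_mod m 3, pow_add, pow_mul,
      show a ^ 3 = 1 by linear_combination (a - 1) * ha, one_pow, one_mul]
  rcases (by omega : Fintype.card F = 2 ∨ Fintype.card F = 3) with h | h <;> rw [h] at hc <;>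
    push_cast at hc
  · by_cases h3 : m % 3 = 2
    · refine exists_good_tri (k := 2) two_pos (by omega) fun a ha hb => ?_
      have : a ^ 2 + a + 1 = 0 := (pow_eq_zero_iff two_ne_zero).1 (by
        linear_combination hb + (a ^ 3 + a ^ 2 + a) * hc)
      rw [p3 a this, h3] at ha
      simp at ha
    · refine exists_good_tri (k := 1) one_pos (by omega) fun a ha hb => ?_
      have : a ^ 2 + a + 1 = 0 := by linear_combination hb
      rw [p3 a this] at ha
      rcases (by omega : m % 3 = 0 ∨ m % 3 = 1) with h | h <;> rw [h] at ha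
      · exact one_ne_zero (α := AlgebraicClosure F) (by linear_combination this + (a + 1) * ha)
      · simp at ha
  · refine exists_good_tri (k := 1) one_pos (by omega) fun a ha hb => ?_
    have : a = 1 := sub_eq_zero.1 ((pow_eq_zero_iff two_ne_zero).1 (by
      linear_combination hb - a * hc))
    rw [this] at ha
    simp at ha

theorem edM_eq_replicate {A : Matrix (Fin m) (Fin m) F} {p : F[X]} (hp : p.Monic)
    (hi : Irreducible p) (hd : p.natDegree = 2) (h : aeval A p = 0) {j : ℕ} (hj : m = 2 * j) :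
    edM A = Multiset.replicate j p := by
  have h1 : ∀ e ∈ edM A, e = p := fun e he =>
    eq_of_monic_of_associated (isPP_of_mem_edM he).monic hp
      ((isSS_of_aeval_eq_zero hi.squarefree h e he).associated_of_dvd hi
        ((aeval_eq_zero_iff_edM A p).1 h e he))
  have h2 := sum_natDegree_edM A
  rw [Multiset.eq_replicate_of_mem h1, Multiset.map_replicate, Multiset.sum_replicate, hd,
    Fintype.card_fin, smul_eq_mul] at h2
  exact Multiset.eq_replicate.2 ⟨by omega, h1⟩

theorem exists_good_neg [Fintype F] (h3 : Fintype.card F = 3) {j : ℕ} (hj : m = 2 * j) :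
    ∃ M M' N N' : Matrix (Fin m) (Fin m) F, Good M M' ∧ Good N N' ∧ -N = M ∧
      edM M + edM M' = edM N + edM N' := by
  have hc := FiniteField.cast_card_eq_zero F
  rw [h3] at hc
  push_cast at hc
  have hr : ∀ τ : F, τ * τ = 1 → ∀ l : F, l ^ 2 - τ * l + -1 ≠ 0 := fun τ hτ l h => by
    have := FiniteField.pow_card l
    rw [h3] at this
    exact one_ne_zero (α := F) (by
      linear_combination (1 + (l - 2 * τ) * (l + τ)) * h - (l - 2 * τ) * this +
        ((l - 2 * τ) * l - 2) * hτ)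
  have i1 := Ore4.irreducible_quad (hr 1 (by ring))
  have i2 := Ore4.irreducible_quad (hr (-1) (by ring))
  have m1 : ∀ τ : F, (X ^ 2 - C τ * X + C (-1) : F[X]).Monic ∧
      (X ^ 2 - C τ * X + C (-1) : F[X]).natDegree = 2 := fun τ => ⟨by monicity!, by compute_degree!⟩
  obtain ⟨N, hN⟩ := exists_edM_eq (n := Fin m) (s := Multiset.replicate j (X ^ 2 - C (-1) * X +
    C (-1) : F[X])) (fun e he => by
      rw [Multiset.eq_of_mem_replicate he]; exact isPP_of_irreducible (m1 _).1 i2) (by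
      rw [Multiset.map_replicate, (m1 _).2]; simp [hj, mul_comm])
  have e : N * N + N - 1 = 0 := by
    have := (aeval_eq_zero_iff_edM N (X ^ 2 - C (-1) * X + C (-1))).2
      fun e he => by rw [hN] at he; rw [Multiset.eq_of_mem_replicate he]
    simpa [sq, sub_eq_add_neg] using this
  have e1 := edM_eq_replicate (A := N + 1) (m1 _).1 i1 (m1 _).2 (by
    simp [sq]; rw [← e]; noncomm_ring) hj
  have e2 := edM_eq_replicate (A := -N) (m1 _).1 i1 (m1 _).2 (by
    simp [sq]; rw [← e]; noncomm_ring) hj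
  have e3 := edM_eq_replicate (A := -(N + 1)) (m1 _).1 i2 (m1 _).2 (by
    simp [sq]; rw [← e]; noncomm_ring) hj
  have c : IsCoprime (X ^ 2 - C (-1) * X + C (-1) : F[X]) (X ^ 2 - C 1 * X + C (-1)) :=
    ⟨1 - X, X + 1, by
      have := congrArg (C : F → F[X]) hc
      simp only [map_ofNat, map_zero, map_neg, map_one] at this ⊢
      linear_combination -this⟩
  have e0 : N * (N + 1) = 1 := by rw [← sub_eq_zero, ← e]; noncomm_ring
  refine ⟨-N, -(N + 1), N, N + 1, ⟨by rw [neg_mul_neg, e0], ?_⟩, ⟨e0, ?_⟩, rfl, by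
    rw [hN, e1, e2, e3, add_comm]⟩
  · rw [charpoly_eq_prod_edM, charpoly_eq_prod_edM, e2, e3, Multiset.prod_replicate,
      Multiset.prod_replicate]
    exact c.symm.pow
  · rw [charpoly_eq_prod_edM, charpoly_eq_prod_edM, hN, e1, Multiset.prod_replicate,
      Multiset.prod_replicate]
    exact c.pow

theorem eq_one_of_oddPair {V : Type*} [AddCommGroup V] [Module F V] [FiniteDimensional F V]
    {B : LinearMap.BilinForm F V} {g : End F V} (hA : B.IsAlt) (hd : finrank F V = 2)
    (h : OddPair B g) : g = 1 := by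
  obtain ⟨h, u, v, ⟨r, rfl⟩, h1, h2, h3⟩ := h
  rcases r with _ | r
  · refine (basisOfLinearIndependentOfCardEqFinrank (sp_linearIndependent_pair hA h3)
      (by simp [hd])).ext fun i => ?_
    fin_cases i
    exacts [by simpa [sub_eq_zero] using h1, by simpa [sub_eq_zero] using h2]
  · have := mem_fitK.1 (mem_fitK_of_pow h1)
    rw [show r + 1 + (r + 1) = r + r + 2 by ring, pow_add, Module.End.mul_apply, ← hd, this] at h3
    simp at h3

theorem comm_aux [Fintype F] (n : ℕ) : ∀ {V : Type*} [AddCommGroup V] [Module F V]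
    [FiniteDimensional F V] {B : LinearMap.BilinForm F V} {g : End F V}, finrank F V = n →
    B.Nondegenerate → B.IsAlt → IsIsom B g → (n = 2 → 4 ≤ Fintype.card F) →
    (n = 4 → 3 ≤ Fintype.card F) → Comm B g := by
  induction n using Nat.strong_induction_on with
  | _ n ih =>
  intro V _ _ _ B g hn hB hA hg q1 q2
  obtain ⟨m, hm⟩ := sp_even_finrank hB hA
  rw [← two_mul] at hm
  rcases lu_or_oddPair hB hA hg with h | ⟨h2, h, u, v, k1, k2, k3, k4⟩
  · obtain ⟨G, hG, hG'⟩ := h.exists_sp hB hA hg hm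
    obtain ⟨M, M', hM⟩ := exists_good (F := F) (m := m) (by omega) (by omega)
    exact Comm.of_isoConj hG (comm_of_siegel G.2 hM hM ((congrArg (· * M) hG').trans (one_mul M)) rfl)
  obtain ⟨U, W, hU, hW, ι, hc, ho, -, H⟩ := exists_hom_split hB (isEps_of_isAlt hA) hg.neg
    (pairMap F u v) (fun w => by simp only [pairMap_apply, map_add, map_smul, k2, k3]; simp)
    (pair_sep hA hg.neg k2 (altAt_of_isAlt hA hg.neg k1 u k2) k4)
  have hU' : ∀ x ∈ U, g x ∈ U := fun x hx => by simpa using hU x hx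
  have hW' : ∀ x ∈ W, g x ∈ W := fun x hx => by simpa using hW x hx
  have n1 := nondeg_left hB hA.isRefl hc ho
  have n2 := nondeg_right hB hA.isRefl hc ho
  have c1 := comm_of_hom h2 n1 (fun x => hA x) (hg.neg.restrict hU) k1 H
  rw [neg_restrict hU' hU, neg_neg] at c1
  have hd := Submodule.finrank_add_eq_of_isCompl hc
  have hd' := H.finrank_eq
  rw [finrank_prod, finrank_self] at hd'
  have hq : Fintype.card F ≠ 2 := fun e => h2 (by
    simpa [e] using FiniteField.cast_card_eq_zero F)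
  have hq' := Fintype.one_lt_card (α := F)
  by_cases h3 : finrank F W = 2 → 4 ≤ Fintype.card F
  · exact c1.glue hc hA.isRefl ho hU' hW' (ih _ (by omega) rfl n2 (fun x => hA x) (hg.restrict hW')
      h3 (by omega))
  push Not at h3
  rcases lu_or_oddPair n2 (fun x => hA x) (hg.neg.restrict hW) with l2 | ⟨-, l2⟩
  · rcases lu_or_oddPair n1 (fun x => hA x) (hg.neg.restrict hU) with l1 | ⟨-, j, x, y, -, l1, -, l3⟩
    · have l := (l1.lift hU).sup hA.isRefl (l2.lift hW) ho
      rw [hc.sup_eq_top] at l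
      obtain ⟨G, hG, hG'⟩ := l.exists_sp hB hA hg.neg hm
      obtain ⟨r, rfl⟩ := k1
      obtain ⟨M, M', N, N', g1, g2, g3, g4⟩ := exists_good_neg (F := F) (m := m) (j := r + 1)
        (by omega) (by omega)
      have := hG.neg
      rw [neg_neg, specSp_eq, ← map_neg] at this
      refine Comm.of_isoConj this (comm_of_siegel (SymplecticGroup.neg_mem G.2) g1 g2 ?_ g4)
      rw [← g3, show (-G.1).toBlocks₁₁ = -G.1.toBlocks₁₁ from rfl, hG', neg_one_mul]
    · rw [LinearMap.ker_eq_bot'.1 ((LinearMap.isUnit_iff_ker_eq_bot _).1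
        ((isUnit_neg_sub_one h2 H.1).pow _)) x l1] at l3
      simp at l3
  · rw [neg_restrict hW' hW, neg_neg] at l2
    refine c1.glue hc hA.isRefl ho hU' hW' ?_
    rw [eq_one_of_oddPair (B := B.restrict W) (fun x => hA x) h3.1 l2]
    exact comm_one

theorem sp_comm [Fintype F] (m : ℕ) (h1 : m = 1 → 4 ≤ Fintype.card F)
    (h2 : m = 2 → 3 ≤ Fintype.card F) (g : Matrix.symplecticGroup (Fin m) F) :
    ∃ a b : Matrix.symplecticGroup (Fin m) F, g = a * b * a⁻¹ * b⁻¹ := by
  obtain ⟨a, b, ha, hb, e⟩ := comm_aux _ sp_finrank_std spB_nondegenerate spB_isAlt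
    (isIsom_specSp g) (by omega) (by omega)
  obtain ⟨a, rfl⟩ := exists_specSp_eq ha
  obtain ⟨b, rfl⟩ := exists_specSp_eq hb
  rw [← map_mul, ← map_mul, ← map_mul] at e
  exact ⟨a, b, by rw [← specSp_injective e]; group⟩

end Cfsg.Agent.Cl.OreSp
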