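import Mathlib
import Cfsg.Agent.Cl.OreSpB
import Cfsg.Agent.Cl.ClassSpOInvL

/-! Transvections in characteristic two as quotients of endomorphisms without inverse pairs of
eigenvalues. -/

set_option autoImplicit false

namespace Cfsg.Agent.Cl.OreO

open Module Cls Polynomial Matrix Ore OreSp

variable {F : Type*} [Field F] {m : ℕ}

/-- `f'` is the inverse of `f`, and `f`, `f'` are killed by coprime polynomials. -/
def Gd (F : Type*) [Field F] {A : Type*} [Ring A] [Algebra F A] (f f' : A) : Prop :=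
  f * f' = 1 ∧ f' * f = 1 ∧ ∃ χ ψ : F[X], IsCoprime χ ψ ∧ aeval f χ = 0 ∧ aeval f' ψ = 0

theorem Gd.map {A A' : Type*} [Ring A] [Algebra F A] [Ring A'] [Algebra F A'] (φ : A →ₐ[F] A')
    {f f' : A} (h : Gd F f f') : Gd F (φ f) (φ f') := by
  obtain ⟨h1, h2, χ, ψ, h3, h4, h5⟩ := h
  exact ⟨by rw [← map_mul, h1, map_one], by rw [← map_mul, h2, map_one], χ, ψ, h3,
    by rw [aeval_algHom_apply, h4, map_zero], by rw [aeval_algHom_apply, h5, map_zero]⟩

theorem gd_of_good {M M' : Matrix (Fin m) (Fin m) F} (h : Good M M') : Gd F M M' :=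
  ⟨h.1, mul_eq_one_comm.1 h.1, _, _, h.2, M.aeval_self_charpoly, M'.aeval_self_charpoly⟩

theorem good_of_charpoly {M : Matrix (Fin m) (Fin m) F} (h0 : M.charpoly.coeff 0 ≠ 0)
    (h : ∀ a b : AlgebraicClosure F, a * b = 1 → aeval a M.charpoly = 0 → aeval b M.charpoly ≠ 0) :
    Good M M⁻¹ := by
  have hu : IsUnit M.det := by rw [det_eq_dd]; exact (dd_ne_zero h0).isUnit
  refine ⟨mul_nonsing_inv M hu, ?_⟩
  rw [charpoly_eq_prod_edM M⁻¹, edM_inv ((Matrix.isUnit_iff_isUnit_det _).2 hu),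
    ← recip_multiset_prod, ← charpoly_eq_prod_edM,
    isCoprime_iff_aeval_ne_zero_of_isAlgClosed F (AlgebraicClosure F)]
  intro a
  by_contra hn
  push Not at hn
  have ha : a ≠ 0 := by
    rintro rfl
    rw [← coeff_zero_eq_aeval_zero', map_eq_zero] at hn
    exact h0 hn.1
  have := aeval_recip_eq_zero (mul_inv_cancel₀ ha) hn.2
  rw [recip_recip M.charpoly_monic h0] at this
  exact h a _ (mul_inv_cancel₀ ha) hn.1 this

theorem exists_poly (h2 : (2 : F) = 0) (hm : 3 ≤ m) : ∃ χ : F[X], χ.Monic ∧ χ.natDegree = m ∧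
    χ.coeff 0 = -1 ∧ ∀ a b : AlgebraicClosure F, a * b = 1 → aeval a χ = 0 → aeval b χ ≠ 0 := by
  have hc : (2 : AlgebraicClosure F) = 0 := by
    rw [← map_ofNat (algebraMap F _), h2, map_zero]
  have p3 : ∀ a : AlgebraicClosure F, a ^ 2 + a + 1 = 0 → a ^ m = a ^ (m % 3) := fun a ha => by
    conv_lhs => rw [← Nat.div_add_mod m 3, pow_add, pow_mul,
      show a ^ 3 = 1 by linear_combination (a - 1) * ha, one_pow, one_mul]
  obtain ⟨k, hk, hk', h⟩ : ∃ k, 0 < k ∧ k < m ∧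
      ∀ a : AlgebraicClosure F, a ^ m = a ^ k + 1 → a ^ (2 * k) + a ^ k + 1 ≠ 0 := by
    by_cases h3 : m % 3 = 2
    · refine ⟨2, two_pos, by omega, fun a ha hb => ?_⟩
      have : a ^ 2 + a + 1 = 0 := (pow_eq_zero_iff two_ne_zero).1 (by
        linear_combination hb + (a ^ 3 + a ^ 2 + a) * hc)
      rw [p3 a this, h3] at ha
      simp at ha
    · refine ⟨1, one_pos, by omega, fun a ha hb => ?_⟩
      have : a ^ 2 + a + 1 = 0 := by linear_combination hb
      rw [p3 a this] at ha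
      rcases (by omega : m % 3 = 0 ∨ m % 3 = 1) with h | h <;> rw [h] at ha
      · exact one_ne_zero (α := AlgebraicClosure F) (by linear_combination this + (a + 1) * ha)
      · simp at ha
  have hd : (X ^ k + 1 : F[X]).degree < m := by
    rw [← C_1, degree_X_pow_add_C hk]; exact_mod_cast hk'
  refine ⟨X ^ m - (X ^ k + 1), monic_X_pow_sub hd, ?_, ?_, fun a b e ha hb => ?_⟩
  · rw [natDegree_eq_of_degree_eq_some]
    rw [degree_sub_eq_left_of_degree_lt (by rwa [degree_X_pow]), degree_X_pow]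
  · simp [coeff_X_pow, hk.ne, (hk.trans hk').ne]
  · simp only [map_sub, map_add, map_pow, aeval_X, map_one, sub_eq_zero] at ha hb
    have e1 : a ^ m * b ^ m = 1 := by rw [← mul_pow, e, one_pow]
    have e2 : a ^ k * b ^ k = 1 := by rw [← mul_pow, e, one_pow]
    refine h a ha ?_
    rw [ha, hb] at e1
    rw [two_mul, pow_add]
    linear_combination a ^ k * e1 - (a ^ k + 1) * e2

theorem kry_inv {M N : Matrix (Fin m) (Fin m) F} (h : M * N = 1) {u : Fin m → F} (hu : Kry M u) :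
    Kry N u := fun S hS => by
  have hc : Commute M N := h.trans (mul_eq_one_comm.1 h).symm
  refine hu.mulVec (P := N ^ (m - 1)) ((IsUnit.of_mul_eq_one_right _ h).pow _) (hc.pow_right _) S
    fun j hj => ?_
  rw [Fintype.card_fin] at hj
  obtain ⟨i, hi⟩ := Nat.exists_eq_add_of_le (show j ≤ m - 1 by omega)
  rw [mulVec_mulVec, hi, pow_add, ← Matrix.mul_assoc, ← hc.mul_pow, h, one_pow, Matrix.one_mul]
  exact hS i (by rw [Fintype.card_fin]; omega)

theorem exists_pair_tv (h2 : (2 : F) = 0) (hm : 3 ≤ m) :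
    ∃ M M' N N' : Matrix (Fin m) (Fin m) F, Good M M' ∧ Good N N' ∧ IsConj N M' ∧
      (M * N' - 1) ^ 2 = 0 ∧ (M * N' - 1).rank = 1 := by
  obtain ⟨χ, h1, h3, h4, h5⟩ := exists_poly h2 hm
  have g : ∀ {M : Matrix (Fin m) (Fin m) F}, IsCyc M χ → Good M M⁻¹ := fun hM =>
    good_of_charpoly (by simp [hM.charpoly h1, h4]) (by rwa [hM.charpoly h1])
  obtain ⟨M, hM⟩ := exists_isCyc (ι := Fin m) h1.ne_zero (by simp [h3])
  obtain ⟨u, hu⟩ := hM.exists_kry h1
  obtain ⟨θ, hθ⟩ := (kry_inv (g hM).1 hu).exists_kd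
  obtain ⟨z, hz⟩ := hθ.exists_isCyc h1 (by simp [h3]) (by simp; omega)
  have e0 := mul_eq_one_comm.1 (g hM).1
  have e : (M⁻¹ + vecMulVec z θ) * M - 1 = vecMulVec z (θ ᵥ* M) := by
    rw [add_mul, e0, vecMulVec_mul, add_sub_cancel_left]
  have e1 : θ ᵥ* M ⬝ᵥ z = 0 := by
    have := congrArg det (sub_eq_iff_eq_add'.1 e)
    rw [det_mul, hz.det h1, hM.det h1, dd, h4, vecMulVec_eq Unit, det_one_add_replicateCol_mul_replicateRow,
      ← sq, mul_pow, ← pow_mul, mul_comm _ 2, pow_mul] at this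
    simpa using this
  refine ⟨_, _, M⁻¹, M, g hz, ⟨e0, (g hM).2.symm⟩, isConj_iff_edM_eq.2 ?_, ?_, ?_⟩
  · rw [edM_eq_map_recip e0, edM_eq_map_recip (mul_eq_one_comm.1 (g hz).1), hz.edM_eq hM]
  · rw [e, sq, vecMulVec_mul_vecMulVec, e1, zero_smul, vecMulVec_zero]
  refine le_antisymm (e ▸ rank_vecMulVec_le _ _) (Nat.one_le_iff_ne_zero.2 fun h0 => ?_)
  have e2 : M⁻¹ + vecMulVec z θ = M⁻¹ := by
    have : (M⁻¹ + vecMulVec z θ) * M - 1 = 0 := by
      rwa [Matrix.rank, Submodule.finrank_eq_zero, LinearMap.range_eq_bot, ← toLin'_apply',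
        LinearEquiv.map_eq_zero_iff] at h0
    rw [← Matrix.mul_one (M⁻¹ + _), ← (g hM).1, ← Matrix.mul_assoc, sub_eq_zero.1 this,
      Matrix.one_mul]
  have := (g hM).2
  rw [← e2, hz.charpoly h1, hM.charpoly h1, isCoprime_self] at this
  have := natDegree_eq_zero_of_isUnit this
  omega

theorem exists_gd_tv {W : Type*} [AddCommGroup W] [Module F W] [FiniteDimensional F W]
    (h2 : (2 : F) = 0) (hm : 3 ≤ finrank F W) (φ : W →ₗ[F] F) {u : W} (hu : φ u = 0) :
    ∃ M M' N N' : End F W, Gd F M M' ∧ Gd F N N' ∧ (∀ x, M x = N x + φ (N x) • u) ∧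
      (M = N ∨ (φ.smulRight u ≠ 0 ∧ Sim N M')) := by
  obtain ⟨M, M', N, N', h1, h3, h4, h5, h6⟩ := exists_pair_tv h2 hm
  let e := LinearMap.toMatrixAlgEquiv (finBasis F W)
  by_cases h0 : φ.smulRight u = 0
  · exact ⟨_, _, _, _, (gd_of_good h1).map e.symm, (gd_of_good h1).map e.symm,
      fun x => by rw [← LinearMap.smulRight_apply, h0]; simp, Or.inl rfl⟩
  have e1 : e (1 + φ.smulRight u) - 1 = e (φ.smulRight u) := by simp
  obtain ⟨c, hc⟩ := isConj_iff_exists_unit.1 (SpO.isConj_of_sq_zero (B := e (1 + φ.smulRight u)) h5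
    (by rw [e1, ← map_pow, show φ.smulRight u ^ 2 = 0 from LinearMap.ext fun x => by simp [sq, hu],
      map_zero]) (by
      rw [e1, h6, Matrix.rank_eq_finrank_range_toLin _ (finBasis F W) (finBasis F W)]
      erw [Matrix.toLin_toMatrix]
      refine le_antisymm (Nat.one_le_iff_ne_zero.2 fun h => h0 ?_) ?_
      · rwa [Submodule.finrank_eq_zero, LinearMap.range_eq_bot] at h
      · simpa using LinearMap.finrank_range_le (φ.smulRight u) |>.trans_eq' rfl |> fun _ =>
          (Submodule.finrank_mono (show LinearMap.range (φ.smulRight u) ≤ F ∙ u by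
            rintro _ ⟨x, rfl⟩
            exact Submodule.smul_mem _ _ (Submodule.mem_span_singleton_self u))).trans
            ((finrank_span_le_card ({u} : _root_.Set W)).trans (by simp))))
  let ψ : Matrix (Fin (finrank F W)) (Fin (finrank F W)) F →ₐ[F] End F W :=
    (e.symm : _ →ₐ[F] _).comp (MulSemiringAction.toAlgHom F _ (ConjAct.toConjAct c))
  have hψ : ∀ x, ψ x = e.symm (c * x * (c⁻¹ : _ˣ)) := fun _ => rfl
  refine ⟨_, _, _, _, (gd_of_good h1).map ψ, (gd_of_good h3).map ψ, fun x => ?_,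
    Or.inr ⟨h0, isConj_end_iff_sim.1 ((ψ : _ →* End F W).map_isConj h4)⟩⟩
  have : ψ M = (1 + φ.smulRight u) * ψ N := by
    rw [← e.symm_apply_apply (1 + _), ← hc, ← hψ, ← map_mul, Matrix.mul_assoc,
      mul_eq_one_comm.1 h3.1, Matrix.mul_one]
  rw [this]
  simp

end Cfsg.Agent.Cl.OreO
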