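import Mathlib
import Cfsg.Agent.Cl.OreOB
import Cfsg.Agent.Cl.OreOD

/-! A Gauss decomposition lemma for orthogonal groups in characteristic two. -/

set_option autoImplicit false
set_option linter.unusedSectionVars false

namespace Cfsg.Agent.Cl.OreO

open Module Der Polynomial Cls
open QuadraticMap hiding sq

variable {F V : Type*} [Field F] [AddCommGroup V] [Module F V] [FiniteDimensional F V]
  {Q : QuadraticForm F V} {U L L' : Submodule F V} {g X Y : OG Q}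

/-- `n` acts trivially on `U^⊥ / U`. -/
def Tr (U : Submodule F V) (n : OG Q) : Prop := ∀ v ∈ perpQ Q U, n.1 v - v ∈ U

/-- The unipotent radical of the stabiliser of `U`. -/
def NN (Q : QuadraticForm F V) (U : Submodule F V) : Subgroup (OG Q) where
  carrier := {n | (∀ u ∈ U, n.1 u = u) ∧ Tr U n}
  mul_mem' {a b} ha hb := ⟨fun u hu => by rw [OG.mul_app, hb.1 u hu, ha.1 u hu], fun v hv => by
    have : a.1 (b.1 v) - v = (b.1 v - v) + (a.1 v - v) := by
      rw [← ha.1 _ (hb.2 v hv), map_sub]; abel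
    exact (congrArg (· ∈ U) this).mpr (add_mem (hb.2 v hv) (ha.2 v hv))⟩
  one_mem' := ⟨fun _ _ => rfl, fun v _ => by simp⟩
  inv_mem' {a} ha := ⟨fun u hu => (OG.inv_app_eq_iff a).2 (ha.1 u hu).symm, fun v hv => by
    have : a⁻¹.1 v = v - (a.1 v - v) := by
      rw [OG.inv_app_eq_iff, map_sub, ha.1 _ (ha.2 v hv), sub_sub_cancel]
    rw [this]
    simpa using neg_mem (ha.2 v hv)⟩

/-- `Y` and `Y⁻¹` are killed on `U` by coprime polynomials. -/
def Pl (U : Submodule F V) (Y : OG Q) : Prop := ∃ χ ψ : F[X], IsCoprime χ ψ ∧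
  ∀ u ∈ U, aeval (Y.1 : End F V) χ u = 0 ∧ aeval (Y⁻¹.1 : End F V) ψ u = 0

theorem polar_aeval (Y : OG Q) (p : F[X]) (x y : V) :
    polar Q x (aeval (Y.1 : End F V) p y) = polar Q (aeval (Y⁻¹.1 : End F V) p x) y := by
  induction p using Polynomial.induction_on generalizing x with
  | C a => simp [Module.algebraMap_end_apply]
  | add p q hp hq => simp [hp, hq]
  | monomial n a ih =>
    have := ih (Y⁻¹.1 x)
    simp only [map_mul, aeval_C, map_pow, aeval_X, Module.End.mul_apply,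
      Module.algebraMap_end_apply, oexp] at this ⊢
    rw [pow_succ', pow_succ, Module.End.mul_apply, Module.End.mul_apply, LinearEquiv.coe_coe,
      ← OG.polar_inv_left]
    exact this

theorem Pl.fix (h : Pl U Y) {u : V} (hu : u ∈ U) (e : Y.1 u = u) : u = 0 := by
  obtain ⟨χ, ψ, ⟨a, b, hab⟩, h⟩ := h
  obtain ⟨h1, h2⟩ := h u hu
  rw [Module.End.aeval_apply_of_mem_apply_eq_smul (μ := 1) (by simpa using e)] at h1
  rw [Module.End.aeval_apply_of_mem_apply_eq_smul (μ := 1)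
    (by simpa using (OG.inv_app_eq_iff Y).2 e.symm)] at h2
  have := congrArg (fun p => eval 1 p • u) hab
  simpa [add_smul, mul_smul, h1, h2] using this.symm

theorem inv_mem_of (hY : ∀ u ∈ U, Y.1 u ∈ U) : ∀ u ∈ U, Y⁻¹.1 u ∈ U := fun u hu => by
  obtain ⟨v, hv, rfl⟩ := (quad_mem_stab.1 (quad_mem_stab_of_le hY)).ge hu
  simpa using hv

theorem perp_mem_of (hY : ∀ u ∈ U, Y.1 u ∈ U) : ∀ v ∈ perpQ Q U, Y⁻¹.1 v ∈ perpQ Q U :=
  fun v hv u hu => (OG.polar_inv_right Y u v).trans (hv _ (hY u hu))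

theorem Pl.eq_one (hG : GeomQ Q) (h : Pl U Y) (hY : Tr U Y) {k : OG Q} (hk : k ∈ NN Q U)
    (e : k * Y = Y * k) : k = 1 := by
  have c := app_conj e
  have h1 : ∀ p ∈ perpQ Q U, k.1 p = p := fun p hp => sub_eq_zero.1 (h.fix (hk.2 p hp) (by
    rw [map_sub, ← c, ← sub_add_cancel (Y.1 p) p, map_add, hk.1 _ (hY p hp)]; abel))
  obtain ⟨χ, ψ, ⟨a, b, hab⟩, h⟩ := h
  refine OG.ext fun v => sub_eq_zero.1 ?_
  have h2 : k.1 v - v ∈ U := (hG.perp_perp U).le fun p hp => by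
    rw [polarBilin_apply_apply, polar_sub_right, ← OG.polar_app k p v, h1 p hp, sub_self]
  have h3 : aeval (Y.1 : End F V) ψ (k.1 v - v) = 0 := by
    have := intertwine_aeval (k.1 : End F V) (f := (Y.1 : End F V)) (g := (Y.1 : End F V)) c ψ v
    rw [map_sub, sub_eq_zero, ← LinearEquiv.coe_coe, ← this]
    exact h1 _ fun u hu => by rw [polarBilin_apply_apply, polar_aeval, (h u hu).2, polar_zero_left]
  have := congrArg (fun p => aeval (Y.1 : End F V) p (k.1 v - v)) hab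
  simpa [(h _ h2).1, h3, -map_sub] using this.symm

theorem exists_conj_NN [Finite F] (hG : GeomQ Q) (h : Pl U Y) (hU : ∀ u ∈ U, Y.1 u ∈ U)
    (hY : Tr U Y) (hX : Tr U X) (e : ∀ u ∈ U, X.1 u = Y.1 u) : ∃ n : OG Q, n * Y * n⁻¹ = X ∧
      ∀ p ∈ perpQ Q U, X.1 p = p → Y.1 p = p → n.1 p = p := by
  have : Finite V := Module.finite_of_finite F
  have : Finite (OG Q) := Finite.of_injective (fun g : OG Q => (g.1 : V → V))
    fun a b e => OG.ext (congrFun e)
  let Φ : NN Q U → NN Q U := fun n => n * ⟨Y * n⁻¹ * Y⁻¹, fun u hu => by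
    rw [OG.mul_app, OG.mul_app, n⁻¹.2.1 _ (inv_mem_of hU u hu),
      OG.app_inv_app],
    fun v hv => by simpa using hU _ (n⁻¹.2.2 _ (perp_mem_of hU v hv))⟩
  have hΦ : Function.Injective Φ := fun n n' e => by
    have e' : n.1 * (Y * n⁻¹ * Y⁻¹) = n' * (Y * n'⁻¹ * Y⁻¹) := congrArg Subtype.val e
    have := h.eq_one hG hY (n'⁻¹ * n).2 (by
      have e2 : n.1 * Y * n.1⁻¹ = n'.1 * Y * n'.1⁻¹ := by simpa [← mul_assoc] using e'
      change n'.1⁻¹ * n.1 * Y = Y * (n'.1⁻¹ * n.1)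
      rw [mul_assoc, eq_mul_inv_iff_mul_eq.1 e2.symm |>.symm]; group)
    exact Subtype.ext (inv_mul_eq_one.1 this).symm
  obtain ⟨n, hn⟩ := Finite.injective_iff_surjective.1 hΦ ⟨X * Y⁻¹, fun u hu => by
    rw [OG.mul_app, e _ (inv_mem_of hU u hu), OG.app_inv_app], fun v hv => by
    simpa using sub_mem (hX _ (perp_mem_of hU v hv)) (hY _ (perp_mem_of hU v hv))⟩
  have e1 : n.1 * Y * n.1⁻¹ = X := by
    simpa [← mul_assoc, Φ] using (congrArg Subtype.val hn : n.1 * (Y * n⁻¹ * Y⁻¹) = X * Y⁻¹)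
  refine ⟨n, e1, fun p hp h1 h2 => sub_eq_zero.1 (h.fix (n.2.2 p hp) ?_)⟩
  rw [← e _ (n.2.2 p hp), map_sub, h1, ← app_conj (mul_inv_eq_iff_eq_mul.1 e1), h2]

/-- Opposite totally singular subspaces. -/
structure Opp (Q : QuadraticForm F V) (L L' : Submodule F V) : Prop where
  ts : TSQ Q L
  ts' : TSQ Q L'
  sep : ∀ x ∈ L, (∀ y ∈ L', polar Q x y = 0) → x = 0
  sep' : ∀ y ∈ L', (∀ x ∈ L, polar Q x y = 0) → y = 0
  dim : finrank F L = finrank F L'

theorem Opp.symm (h : Opp Q L L') : Opp Q L' L :=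
  ⟨h.ts', h.ts, fun x hx e => h.sep' x hx fun y hy => (polar_comm Q y x).trans (e y hy),
    fun x hx e => h.sep x hx fun y hy => (polar_comm Q x y).trans (e y hy), h.dim.symm⟩

theorem Opp.nd (h : Opp Q L L') : NDQ Q (L ⊔ L') := fun v hv e => by
  obtain ⟨x, hx, y, hy, rfl⟩ := Submodule.mem_sup.1 hv
  rw [h.sep x hx fun z hz => by simpa [h.ts'.1 y hy z hz] using e z (Submodule.mem_sup_right hz),
    h.symm.sep y hy fun z hz => by simpa [h.ts.1 x hx z hz] using e z (Submodule.mem_sup_left hz),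
    add_zero]

theorem Opp.disjoint (h : Opp Q L L') : Disjoint L L' :=
  Submodule.disjoint_def.2 fun x hx hx' => h.sep x hx (h.ts'.1 x hx')

theorem Opp.decomp (hG : GeomQ Q) (h : Opp Q L L') {v : V} (hv : v ∈ perpQ Q L) :
    ∃ x ∈ L, ∃ p ∈ perpQ Q (L ⊔ L'), v = x + p := by
  obtain ⟨⟨w, hw⟩, p, rfl⟩ := SpO.exists_add_of_isCompl (hG.isCompl_perp h.nd) v
  obtain ⟨x, hx, y, hy, rfl⟩ := Submodule.mem_sup.1 hw
  have := h.sep' y hy fun z hz => by
    have := hv z hz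
    rwa [map_add, map_add, h.ts.1 z hz x hx, p.2 z (Submodule.mem_sup_left hz), zero_add,
      add_zero] at this
  exact ⟨x, hx, p, p.2, by simp [this]⟩

theorem Opp.exists_dual (h : Opp Q L L') {W : Type*} [AddCommGroup W] [Module F W]
    [FiniteDimensional F W] (hW : finrank F W = finrank F L) (f : W →ₗ[F] V)
    (hf : ∀ y ∈ L', (∀ x, polar Q (f x) y = 0) → y = 0) :
    ∃ ψ : Dual F W →ₗ[F] L', ∀ l x, polar Q (f x) (ψ l) = l x := by
  let ψ := LinearMap.linearEquivOfInjective ((polarBilin Q).flip.compl₁₂ L'.subtype f)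
    ((injective_iff_map_eq_zero _).2 fun y hy => Subtype.ext (hf y y.2 (LinearMap.congr_fun hy)))
    (by rw [Subspace.dual_finrank_eq, hW, h.dim])
  exact ⟨ψ.symm, fun l x => LinearMap.congr_fun (ψ.apply_symm_apply l) x⟩

theorem Opp.exists_ext (hG : GeomQ Q) (h : Opp Q L L') (f : L →ₗ[F] V) (h0 : ∀ x, Q (f x) = 0)
    (hf : ∀ y ∈ L', (∀ x, polar Q (f x) y = 0) → y = 0) :
    ∃ X : OG Q, (∀ x : L, X.1 x = f x) ∧ Tr L' X := by
  obtain ⟨ψ, hψ⟩ := h.exists_dual rfl f hf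
  have hc : IsCompl L (perpQ Q L') := by
    have hd : Disjoint L (perpQ Q L') := Submodule.disjoint_def.2 fun x hx hx' =>
      h.sep x hx fun y hy => (polar_comm Q x y).trans (hx' y hy)
    exact ⟨hd, codisjoint_iff.2 (Submodule.eq_top_of_disjoint _ _
      (h.dim ▸ hG.finrank_add_perp L').ge hd)⟩
  let J : V →ₗ[F] V := LinearMap.id + L'.subtype ∘ₗ ψ ∘ₗ
    ((polarBilin Q).flip.compl₂ (L.subtype - f))
  have hJ : ∀ v, J v - v ∈ L' := fun v => by simp [J]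
  have hJ' : ∀ (x : L) v, polar Q (f x) (J v) = polar Q x v := fun x v => by simp [J, hψ]
  let K := LinearMap.ofIsCompl hc f (J ∘ₗ Submodule.subtype _)
  have hX : ∀ (x : L) (v : perpQ Q L'), K (x + v) = f x + J v := fun x v => by simp [K]
  obtain ⟨Z, hZ⟩ := hG.exists_OG (f := K) (isoQ_iff.2 fun w => by
    obtain ⟨x, v, rfl⟩ := SpO.exists_add_of_isCompl hc w
    rw [hX, o_qadd, o_qadd, h0, h.ts.2 x x.2, hJ', ← sub_add_cancel (J v) v, o_qadd,
      h.ts'.2 _ (hJ v), ← polarBilin_apply_apply, v.2 _ (hJ v)]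
    simp)
  have hZ' : ∀ w, Z.1 w = K w := LinearMap.congr_fun hZ
  exact ⟨Z, fun x => by simpa [hZ'] using hX x 0, fun v hv => by
    simpa [hZ', show K v = J v by simpa using hX 0 ⟨v, hv⟩] using hJ v⟩

theorem Tr.mem (h : Tr L' X) (ht : TSQ Q L') : ∀ y ∈ L', X.1 y ∈ L' := fun y hy => by
  simpa using add_mem (h y (ht.le_perp hy)) hy

/-- Levi elements. -/
theorem Opp.exists_levi (hG : GeomQ Q) (h : Opp Q L L') {M M' : End F L} (hM : Gd F M M') :
    ∃ d : OG Q, (∀ x : L, d.1 x = M x) ∧ Tr L d ∧ Tr L' d ∧ Pl L d ∧ Pl L' d ∧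
      (∀ p ∈ perpQ Q (L ⊔ L'), d.1 p = p) ∧ dickson hG.nondegenerate d = 1 := by
  have hs : ∀ y ∈ L', (∀ x : L, polar Q (M x) y = 0) → y = 0 := fun y hy e =>
    h.sep' y hy fun x hx => by
      simpa [← Module.End.mul_apply, hM.1] using e (M' ⟨x, hx⟩)
  obtain ⟨d, h1, h2⟩ := h.exists_ext hG (L.subtype ∘ₗ M) (fun x => h.ts.2 _ (M x).2) hs
  replace h1 : ∀ x : L, d.1 x = M x := h1
  have h3 : ∀ p ∈ perpQ Q (L ⊔ L'), d.1 p = p := fun p hp =>
    sub_eq_zero.1 (hs _ (h2 p (perp_anti le_sup_right hp)) fun x => by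
      rw [polar_sub_right, ← h1, OG.polar_app, h1, ← polarBilin_apply_apply,
        ← polarBilin_apply_apply, hp _ (Submodule.mem_sup_left x.2),
        hp _ (Submodule.mem_sup_left (M x).2), sub_self])
  have h4 : ∀ x : L, d⁻¹.1 x = M' x := fun x => by
    rw [OG.inv_app_eq_iff, h1, ← Module.End.mul_apply, hM.1]; rfl
  obtain ⟨χ, ψ, c, e1, e2⟩ := hM.2.2
  have a1 : ∀ x ∈ L, aeval (d.1 : End F V) χ x = 0 := fun x hx => by
    simpa [e1] using (intertwine_aeval L.subtype (g := (d.1 : End F V))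
      (fun x => (h1 x).symm) χ ⟨x, hx⟩).symm
  have a2 : ∀ x ∈ L, aeval (d⁻¹.1 : End F V) ψ x = 0 := fun x hx => by
    simpa [e2] using (intertwine_aeval L.subtype (g := (d⁻¹.1 : End F V))
      (fun x => (h4 x).symm) ψ ⟨x, hx⟩).symm
  have p1 : Pl L d := ⟨χ, ψ, c, fun x hx => ⟨a1 x hx, a2 x hx⟩⟩
  have p2 : Pl L' d := ⟨ψ, χ, c.symm, fun y hy =>
    ⟨h.sep' _ (OreSp.aeval_mem (h2.mem h.ts') _ hy) fun x hx => by
      rw [polar_aeval, a2 x hx, polar_zero_left],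
    h.sep' _ (OreSp.aeval_mem (inv_mem_of (h2.mem h.ts')) _ hy) fun x hx => by
      rw [polar_aeval, inv_inv, a1 x hx, polar_zero_left]⟩⟩
  have m1 : ∀ x ∈ L, d.1 x ∈ L := fun x hx => h1 ⟨x, hx⟩ ▸ (M _).2
  refine ⟨d, h1, fun v hv => ?_, h2, p1, p2, h3, (dickson_eq_one_iff _ _).2 ?_⟩
  · obtain ⟨x, hx, p, hp, rfl⟩ := h.decomp hG hv
    simpa [h3 p hp] using sub_mem (m1 x hx) hx
  have : ofix d = perpQ Q (L ⊔ L') := le_antisymm (fun v hv => by
    obtain ⟨⟨w, hw⟩, p, rfl⟩ := SpO.exists_add_of_isCompl (hG.isCompl_perp h.nd) v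
    obtain ⟨x, hx, y, hy, rfl⟩ := Submodule.mem_sup.1 hw
    have e : d.1 x - x = y - d.1 y := by
      rw [mem_ofix, map_add, map_add, h3 p p.2, add_left_inj] at hv
      rw [sub_eq_sub_iff_add_eq_add, add_comm y]
      exact hv
    have e' := Submodule.disjoint_def.1 h.disjoint _ (sub_mem (m1 x hx) hx)
      (e ▸ sub_mem hy (h2.mem h.ts' y hy))
    simp [p1.fix hx (sub_eq_zero.1 e'), p2.fix hy (sub_eq_zero.1 (e ▸ e')).symm])
    fun p hp => mem_ofix.2 (h3 p hp)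
  rw [orank, ← perp_ofix hG, this, hG.perp_perp, finrank_sup_of_disjoint h.disjoint, h.dim]
  exact Even.add_self _

/-- The Gauss decomposition lemma. -/
theorem Opp.gauss [Finite F] (hG : GeomQ Q) (h2 : (2 : F) = 0) (h : Opp Q L L')
    (h3 : 3 ≤ finrank F L) (φ : L →ₗ[F] F) {u : L} (hu : φ u = 0)
    (hA : ∀ (x : L), ∀ y ∈ L', polar Q (g.1 x) y = polar Q (x + φ x • u : L) y)
    (hP : ∀ p ∈ perpQ Q (L ⊔ L'), g.1 p - p ∈ L.map (g.1 : End F V) ⊔ L') :
    ∃ d b c : OG Q, dickson hG.nondegenerate d = 1 ∧ (∀ p ∈ perpQ Q (L ⊔ L'), d.1 p = p) ∧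
      g = b * d * b⁻¹ * (c * d * c⁻¹)⁻¹ ∧
      (φ.smulRight u = 0 → ∀ p ∈ perpQ Q (L ⊔ L'), g.1 p = p → b.1 p = p ∧ c.1 p = p) := by
  obtain ⟨M, M', N, N', hM, hN, e, e'⟩ := exists_gd_tv h2 h3 φ hu
  have hs : ∀ y ∈ L', (∀ x : L, polar Q (M x) y = 0) → y = 0 := fun y hy e =>
    h.sep' y hy fun x hx => by
      simpa [← Module.End.mul_apply, hM.1] using e (M' ⟨x, hx⟩)
  have hA' : ∀ (x : L), ∀ y ∈ L', polar Q (g.1 (N x)) y = polar Q (M x) y := fun x y hy => by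
    rw [hA _ y hy, e]
  obtain ⟨X, x1, x2⟩ := h.exists_ext hG ((g.1 : End F V) ∘ₗ L.subtype ∘ₗ N)
    (fun x => (g.2 _).trans (h.ts.2 _ (N x).2)) fun y hy e => hs y hy fun x => by
      rw [← hA' x y hy]; exact e x
  replace x1 : ∀ x : L, X.1 x = g.1 (N x) := x1
  obtain ⟨d, d1, d2, d3, d4, d5, d6, d7⟩ := h.exists_levi hG hM
  have key : ∀ p ∈ perpQ Q (L ⊔ L'), ∀ x ∈ L, ∀ y ∈ L', g.1 (p + x) = p + y → X.1 p = p + y :=
    fun p hp x hx y hy e => sub_eq_zero.1 (hs _ (by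
      simpa [sub_sub] using sub_mem (x2 p (perp_anti le_sup_right hp)) hy) fun z => by
      have : X.1 p - (p + y) ∈ L' := by
        simpa [sub_sub] using sub_mem (x2 p (perp_anti le_sup_right hp)) hy
      rw [← hA' z _ this, polar_sub_right, ← e, OG.polar_app, ← x1, OG.polar_app, polar_add_right,
        ← polarBilin_apply_apply, ← polarBilin_apply_apply, ← polarBilin_apply_apply,
        hp _ (Submodule.mem_sup_left z.2), hp _ (Submodule.mem_sup_left (N z).2),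
        h.ts.1 _ (N z).2 x hx]
      simp)
  obtain ⟨b, b1, b2⟩ := exists_conj_NN hG d5 (d3.mem h.ts') d3 x2 fun y hy =>
    sub_eq_zero.1 (hs _ (sub_mem (x2.mem h.ts' y hy) (d3.mem h.ts' y hy)) fun x => by
      rw [polar_sub_right, ← hA' x _ (x2.mem h.ts' y hy), ← x1, ← d1, OG.polar_app, OG.polar_app,
        sub_self])
  have y1 : ∀ x : L, (g⁻¹ * X).1 x = N x := fun x => by rw [OG.mul_app, x1, OG.inv_app_app]
  have y2 : Tr L (g⁻¹ * X) := fun v hv => by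
    obtain ⟨x, hx, p, hp, rfl⟩ := h.decomp hG hv
    obtain ⟨_, ⟨x', hx', rfl⟩, y, hy, e⟩ := Submodule.mem_sup.1 (hP p hp)
    have e1 : g.1 (p + -x') = p + y := by
      rw [map_add, map_neg, eq_add_of_sub_eq e.symm, LinearEquiv.coe_coe]; abel
    rw [map_add, y1 ⟨x, hx⟩, OG.mul_app, key p hp _ (neg_mem hx') y hy e1, ← e1, OG.inv_app_app]
    convert sub_mem (sub_mem (N ⟨x, hx⟩).2 hx') hx using 1
    abel
  suffices ∃ c : OG Q, c * d * c⁻¹ = g⁻¹ * X ∧
      (φ.smulRight u = 0 → ∀ p ∈ perpQ Q (L ⊔ L'), g.1 p = p → c.1 p = p) by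
    obtain ⟨c, c1, c2⟩ := this
    exact ⟨d, b, c, d7, d6, by rw [b1, c1]; group, fun h0 p hp e => ⟨b2 p (perp_anti le_sup_right hp)
      (by simpa using key p hp 0 L.zero_mem 0 L'.zero_mem (by simpa)) (d6 p hp), c2 h0 p hp e⟩⟩
  rcases e' with rfl | ⟨h0, e'⟩
  · obtain ⟨c, c1, c2⟩ := exists_conj_NN hG d4 (d2.mem h.ts) d2 y2 fun x hx =>
      (y1 ⟨x, hx⟩).trans (d1 ⟨x, hx⟩).symm
    refine ⟨c, c1, fun _ p hp e => c2 p (perp_anti le_sup_left hp) ?_ (d6 p hp)⟩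
    rw [OG.mul_app, OG.inv_app_eq_iff, e]
    simpa using key p hp 0 L.zero_mem 0 L'.zero_mem (by simpa)
  obtain ⟨j, hj⟩ : Sim N ((d.1 : End F V).restrict (d3.mem h.ts')) := e'.trans (sim_iff_ed_eq.2 (by
    rw [ed_eq_map_recip hM.2.1, ed_eq_map_uDual (σ := RingHom.id F) Function.bijective_id
      ((polarBilin Q).compl₁₂ L.subtype L'.subtype)
      (fun y hy => Subtype.ext (h.sep' y y.2 fun x hx => hy ⟨x, hx⟩)) h.dim (f := M)
      fun x y => by
        change polar Q (M x) (d.1 y) = polar Q x y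
        rw [← d1, OG.polar_app]]
    exact Multiset.map_congr rfl fun e _ => (uDual_id e).symm))
  obtain ⟨a, ha, ha'⟩ := witt_quadratic hG.nondegenerate L (L'.subtype ∘ₗ j.toLinearMap)
    (L'.injective_subtype.comp j.injective) fun x => (h.ts'.2 _ (j x).2).trans (h.ts.2 _ x.2).symm
  let a' : OG Q := ⟨a, ha⟩
  replace ha' : ∀ x : L, a'.1 x = j x := ha'
  obtain ⟨c, c1, -⟩ := exists_conj_NN hG d5 (d3.mem h.ts') d3 (X := a' * (g⁻¹ * X) * a'⁻¹)
    (fun v hv => by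
      have := y2 (a'⁻¹.1 v) fun x hx => by
        rw [polarBilin_apply_apply, OG.polar_inv_right, ha' ⟨x, hx⟩]
        exact hv _ (j _).2
      simpa using (ha' ⟨_, this⟩ ▸ (j _).2 : a'.1 (⟨_, this⟩ : L) ∈ L')) fun y hy => by
      obtain ⟨x, hx⟩ := j.surjective ⟨y, hy⟩
      have e1 : y = a'.1 x := by rw [ha', hx]
      rw [e1, OG.mul_app, OG.inv_app_app, OG.mul_app, y1, ha', hj, ha']
      rfl
  refine ⟨a'⁻¹ * c, ?_, fun e => absurd e h0⟩
  rw [mul_inv_rev, inv_inv, mul_assoc a'⁻¹, mul_assoc a'⁻¹, ← mul_assoc _ c⁻¹, c1]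
  group

theorem cm_of_conj [Finite F] (hG : GeomQ Q) (h2 : (2 : F) = 0) (hx : ¬ OExc Q) {d r : OG Q}
    (b c : OG Q) (hd : dickson hG.nondegenerate d = 1) (hr : dickson hG.nondegenerate r = -1)
    (e : r * d = d * r) : Cm (b * d * b⁻¹ * (c * d * c⁻¹)⁻¹) := by
  have m : ∀ x, dickson hG.nondegenerate x = 1 → x ∈ commutator (OG Q) := fun x hx' =>
    (mem_commutator_OG_iff _ hx x).2 ⟨hx', ospin_of_two_eq_zero _ h2 x⟩
  have m1 := m (b * d * b⁻¹) (by simp [hd])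
  rcases Int.units_eq_one_or (dickson hG.nondegenerate (c * b⁻¹)) with h | h
  · exact ⟨_, m1, _, m _ h, by group⟩
  refine ⟨_, m1, c * r * b⁻¹, m _ ?_, ?_⟩
  · rw [map_mul, map_mul, hr, mul_right_comm, ← map_mul, h]; simp
  · have : d⁻¹ = r * d⁻¹ * r⁻¹ := by rw [eq_mul_inv_iff_mul_eq, (conj_symm e.symm).symm]
    calc _ = b * d * b⁻¹ * (c * d⁻¹ * c⁻¹) := by group
      _ = b * d * b⁻¹ * (c * (r * d⁻¹ * r⁻¹) * c⁻¹) := by rw [← this]
      _ = _ := by group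

theorem Cm.inv (h : Cm g⁻¹) : Cm g := by
  obtain ⟨x, hx, y, hy, e⟩ := h
  exact ⟨y, hy, x, hx, by rw [← inv_inv g, e]; group⟩

/-- The Gauss lemma with a two-dimensional complement. -/
theorem Opp.cm [Finite F] (hG : GeomQ Q) (h2 : (2 : F) = 0) (h : Opp Q L L')
    (h3 : 3 ≤ finrank F L) (hd : 2 * finrank F L + 2 = finrank F V)
    (hg : dickson hG.nondegenerate g = 1) (φ : L →ₗ[F] F) {u : L} (hu : φ u = 0)
    (hA : ∀ (x : L), ∀ y ∈ L', polar Q (g.1 x) y = polar Q (x + φ x • u : L) y)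
    {w : V} (hw : w ∈ perpQ Q (L ⊔ L')) (hw0 : w ≠ 0)
    (hw' : g.1 w - w ∈ L.map (g.1 : End F V) ⊔ L') : Cm g := by
  have hx : ¬ OExc Q := not_oExc_of_finrank (by omega)
  have dP : finrank F (perpQ Q (L ⊔ L')) = 2 := by
    have := hG.finrank_add_perp (L ⊔ L')
    rw [finrank_sup_of_disjoint h.disjoint, ← h.dim] at this
    omega
  set P := perpQ Q (L ⊔ L')
  have nP : NDQ Q P := hG.nd_perp h.nd
  have alt : ∀ x, polar Q x x = 0 := fun x => by rw [o_polar_self, h2, zero_mul]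
  have o1 : ∀ x ∈ L, ∀ p ∈ P, polar Q x p = 0 := fun x hx p hp => hp x (Submodule.mem_sup_left hx)
  have o2 : ∀ x ∈ L', ∀ p ∈ P, polar Q x p = 0 := fun x hx p hp => hp x (Submodule.mem_sup_right hx)
  obtain ⟨v, hv, hv'⟩ : ∃ v ∈ P, polar Q w v = 1 := by
    obtain ⟨v, hv, hv'⟩ := nd_iff_ne.1 nP w hw hw0
    exact ⟨(polar Q w v)⁻¹ • v, P.smul_mem _ hv, by
      rw [o_polar_smul_right]; exact inv_mul_cancel₀ hv'⟩
  have sp : Submodule.span F {w, v} = P := Submodule.eq_of_le_of_finrank_eq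
    (Submodule.span_le.2 (by rintro _ (rfl | rfl); exacts [hw, hv])) (by
      have : LinearIndependent F ![w, v] := LinearIndependent.pair_iff.2 fun s t e => by
        have e1 := congrArg (polar Q w) e
        have e2 := congrArg (fun x => polar Q x v) e
        simp only [polar_add_right, polar_add_left, o_polar_smul_left, o_polar_smul_right, alt,
          hv', polar_zero_left, polar_zero_right] at e1 e2
        exact ⟨by simpa using e2, by simpa using e1⟩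
      rw [dP, ← Matrix.range_cons_cons_empty w v ![], finrank_span_eq_card this, Fintype.card_fin])
  have red : ∀ k : OG Q, k.1 w - w ∈ L.map (k.1 : End F V) ⊔ L' →
      k.1 v - v ∈ L.map (k.1 : End F V) ⊔ L' → ∀ p ∈ P, k.1 p - p ∈ L.map (k.1 : End F V) ⊔ L' :=
    fun k k1 k2 p hp => by
      obtain ⟨s, t, rfl⟩ := Submodule.mem_span_pair.1 (sp.ge hp)
      convert add_mem (Submodule.smul_mem _ s k1) (Submodule.smul_mem _ t k2) using 1
      simp only [map_add, map_smul]; module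
  suffices g.1 v - v ∈ L.map (g.1 : End F V) ⊔ L' by
    obtain ⟨d, b, c, d1, d2, rfl, -⟩ := h.gauss hG h2 h3 φ hu hA (red g hw' this)
    obtain ⟨z, hz, hz'⟩ := nP.exists_ne_zero (by omega)
    exact cm_of_conj hG h2 hx b c d1 (dickson_orefl _ hz') (by rw [mul_orefl, d2 z hz])
  obtain ⟨ψ, hψ⟩ := h.symm.exists_dual rfl ((g⁻¹.1 : End F V) ∘ₗ L'.subtype) fun x hx e => by
    have e1 := congrArg Subtype.val (show (⟨x, hx⟩ + φ ⟨x, hx⟩ • u : L) = 0 from
      Subtype.ext (h.sep _ (Subtype.prop _) fun y hy => by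
        rw [← hA _ y hy, polar_comm, ← OG.polar_inv_left]; exact e ⟨y, hy⟩))
    have e2 := congrArg φ (Subtype.ext e1 : (⟨x, hx⟩ + φ ⟨x, hx⟩ • u : L) = 0)
    simp only [map_add, map_smul, hu, smul_zero, add_zero, map_zero] at e2
    simpa [e2] using e1
  set x := ψ (-(polarBilin Q (g.1 v)) ∘ₗ L'.subtype)
  obtain ⟨y, hy, p, hp, e⟩ := h.symm.decomp hG (v := g.1 (v + x)) fun y hy => by
    have := hψ (-(polarBilin Q (g.1 v)) ∘ₗ L'.subtype) ⟨y, hy⟩
    rw [polarBilin_apply_apply, ← OG.polar_inv_left, polar_add_right, OG.polar_inv_left,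
      polar_comm]
    exact add_eq_zero_iff_eq_neg'.2 this
  rw [sup_comm] at hp
  obtain ⟨s, t, rfl⟩ := Submodule.mem_span_pair.1 (sp.ge hp)
  obtain ⟨_, ⟨x', hx', rfl⟩, y', hy', e'⟩ := Submodule.mem_sup.1 hw'
  have e1 : g.1 (w - x') = w + y' := by
    rw [map_sub, eq_add_of_sub_eq e'.symm, LinearEquiv.coe_coe]; abel
  have e2 := OG.polar_app g (w - x') (v + x)
  have e3 := OG.map_app g (v + x)
  rw [e1, e] at e2
  rw [e] at e3
  have c1 := fun p hp => (polar_comm Q p y).trans (o2 y hy p hp)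
  have c2 := fun p hp => (polar_comm Q p x).trans (o1 x x.2 p hp)
  simp only [oexp, hv', c1 w hw, o2 y hy w hw, o2 y hy v hv, o2 y' hy' w hw,
    o2 y' hy' v hv, o1 x' hx' v hv, c2 w hw, c2 v hv, h2, h.ts'.2 y hy, h.ts.2 x x.2,
    show polar Q y' y = 0 from h.ts'.1 _ hy' _ hy, show polar Q x' x = 0 from h.ts.1 _ hx' _ x.2]
    at e2 e3
  obtain rfl : t = 1 := by simpa using e2
  have mx : ∀ k : OG Q, ∀ z ∈ L, k.1 z ∈ L.map (k.1 : End F V) ⊔ L' := fun k z hz =>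
    Submodule.mem_sup_left ⟨z, hz, rfl⟩
  by_cases hs : s = 0
  · convert sub_mem (Submodule.mem_sup_right hy) (mx g x x.2) using 1
    rw [sub_eq_sub_iff_add_eq_add, ← map_add, e, hs]; simp
  have e4 : s * Q w = 1 := mul_left_cancel₀ hs (by linear_combination e3 - s * h2)
  have w0 : Q w ≠ 0 := fun e => by simp [e] at e4
  have r1 : ∀ z ∈ L, (g * orefl Q w).1 z = g.1 z := fun z hz => by
    rw [OG.mul_app, orefl_app_of_polar (o1 z hz w hw)]
  obtain ⟨d, b, c, d1, -, e5, -⟩ := h.gauss hG h2 h3 (g := g * orefl Q w) φ hu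
    (fun x y hy => by rw [r1 x x.2, hA x y hy]) (red _ (by
      convert add_mem (mx (g * orefl Q w) x' hx') (Submodule.mem_sup_right hy') using 1
      rw [r1 x' hx', OG.mul_app, orefl_app_of_polar (alt w), ← e', LinearEquiv.coe_coe]) (by
      convert sub_mem (sub_mem (Submodule.mem_sup_right (sub_mem hy (L'.smul_mem s hy')))
        (mx (g * orefl Q w) x x.2)) (Submodule.smul_mem _ s (mx (g * orefl Q w) x' hx')) using 1
      rw [r1 x x.2, r1 x' hx', OG.mul_app, orefl_app, polar_comm, hv', mul_one,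
        inv_eq_of_mul_eq_one_left e4, map_sub, map_smul, eq_sub_of_add_eq ((map_add _ _ _).symm.trans e),
        eq_add_of_sub_eq ((map_sub _ _ _).symm.trans e1)]
      module))
  have := congrArg (dickson hG.nondegenerate) e5
  simp [hg, d1, dickson_orefl _ w0] at this

end Cfsg.Agent.Cl.OreO
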