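import Mathlib
import Cfsg.Agent.Cl.OreOC
import Cfsg.Agent.Cl.OreOE

/-! Every element of `Ω(Q)` is a commutator: characteristic two, dimension at least eight. -/

set_option autoImplicit false
set_option linter.unusedSectionVars false

namespace Cfsg.Agent.Cl.OreO

open Module Der
open QuadraticMap hiding sq

variable {F V : Type*} [Field F] [AddCommGroup V] [Module F V] [FiniteDimensional F V]
  {Q : QuadraticForm F V} {L L' H H' : Submodule F V} {g : OG Q} {z₁ z₂ : V}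

/-- Subspaces in duality. -/
structure Du (Q : QuadraticForm F V) (L L' : Submodule F V) : Prop where
  sep : ∀ x ∈ L, (∀ y ∈ L', polar Q x y = 0) → x = 0
  sep' : ∀ y ∈ L', (∀ x ∈ L, polar Q x y = 0) → y = 0
  dim : finrank F L = finrank F L'

theorem Du.symm (h : Du Q L L') : Du Q L' L :=
  ⟨fun x hx e => h.sep' x hx fun y hy => (polar_comm Q y x).trans (e y hy),
    fun x hx e => h.sep x hx fun y hy => (polar_comm Q x y).trans (e y hy), h.dim.symm⟩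

/-- The hyperplane of `L` orthogonal to `z`. -/
def hp (Q : QuadraticForm F V) (L : Submodule F V) (z : V) : Submodule F V :=
  L ⊓ LinearMap.ker (polarBilin Q z)

theorem mem_hp {x z : V} : x ∈ hp Q L z ↔ x ∈ L ∧ polar Q x z = 0 :=
  and_congr_right fun _ => by rw [polar_comm]; rfl

theorem sub_mem_hp {x y z : V} (hx : x ∈ L) (hy : y ∈ L) (h : polar Q y z ≠ 0) :
    x - (polar Q x z / polar Q y z) • y ∈ hp Q L z :=
  mem_hp.2 ⟨sub_mem hx (L.smul_mem _ hy), by simp [h]⟩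

theorem finrank_hp {y z : V} (hy : y ∈ L) (h : polar Q y z ≠ 0) :
    finrank F (hp Q L z) + 1 = finrank F L := by
  have e : hp Q L z ⊔ (F ∙ y) = L := le_antisymm
    (sup_le inf_le_left ((Submodule.span_singleton_le_iff_mem _ _).2 hy)) fun x hx =>
      Submodule.mem_sup.2 ⟨_, sub_mem_hp hx hy h, _,
        Submodule.smul_mem _ _ (Submodule.mem_span_singleton_self y), sub_add_cancel _ _⟩
  rw [← e, finrank_sup_of_disjoint (Submodule.disjoint_span_singleton.2 fun hy =>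
    absurd (mem_hp.1 hy).2 h), finrank_span_singleton (o_ne_zero_of_polar_left h), e]

theorem Du.hp (h : Du Q L L') {y z : V} (hy : y ∈ L) (hz : z ∈ L') (e : polar Q y z ≠ 0) :
    Du Q (hp Q L z) (hp Q L' y) := by
  have e' : polar Q z y ≠ 0 := by rwa [polar_comm]
  refine ⟨fun x hx hx' => h.sep x hx.1 fun w hw => ?_, fun w hw hw' => h.sep' w hw.1 fun x hx => ?_,
    ?_⟩
  · simpa [(mem_hp.1 hx).2] using hx' _ (sub_mem_hp hw hz e')
  · simpa [(polar_comm Q y w).trans (mem_hp.1 hw).2] using hw' _ (sub_mem_hp hx hy e)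
  · have := finrank_hp hy e
    have := finrank_hp hz e'
    have := h.dim
    omega

theorem Du.exists_one (h : Du Q L L') {y : V} (hy : y ∈ L) (h0 : y ≠ 0) :
    ∃ z ∈ L', polar Q y z = 1 := by
  obtain ⟨z, hz, e⟩ : ∃ z ∈ L', polar Q y z ≠ 0 := by
    by_contra! e
    exact h0 (h.sep y hy e)
  exact ⟨(polar Q y z)⁻¹ • z, L'.smul_mem _ hz, by simp [e]⟩

variable [Finite F]

theorem Du.cm (hG : GeomQ Q) (h2 : (2 : F) = 0) (h : Du Q H H') (h3 : 3 ≤ finrank F H)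
    (hd : 2 * finrank F H + 2 = finrank F V) (hg : dickson hG.nondegenerate g = 1)
    (j j' : End F V) (hj : ∀ x ∈ H, ∀ w ∈ H', polar Q (j x) (j' w) = polar Q x w)
    (q : ∀ x ∈ H, Q (j x) = 0) (q' : ∀ w ∈ H', Q (j' w) = 0) (φ : V →ₗ[F] F) {u : V} (hu : u ∈ H)
    (hu' : φ u = 0)
    (hA : ∀ x ∈ H, ∀ w ∈ H', polar Q (g.1 (j x)) (j' w) = polar Q x w + φ x * polar Q u w)
    {y : V} (hy0 : y ≠ 0) (hy : ∀ x ∈ H, polar Q (j x) y = 0) (hy' : ∀ w ∈ H', polar Q (j' w) y = 0)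
    {x₀ w₀ : V} (hx₀ : x₀ ∈ H) (hw₀ : w₀ ∈ H') (e : g.1 (y + j x₀) = y + j' w₀) : Cm g := by
  have i1 : Function.Injective (j ∘ₗ H.subtype) := (injective_iff_map_eq_zero _).2 fun x hx =>
    Subtype.ext (h.sep x x.2 fun w hw => by rw [← hj x x.2 w hw, show j x = 0 from hx]; simp)
  have i2 : Function.Injective (j' ∘ₗ H'.subtype) := (injective_iff_map_eq_zero _).2 fun x hx =>
    Subtype.ext (h.sep' x x.2 fun w hw => by rw [← hj w hw x x.2, show j' x = 0 from hx]; simp)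
  have d1 := LinearMap.finrank_range_of_inj i1
  have o : Opp Q (LinearMap.range (j ∘ₗ H.subtype)) (LinearMap.range (j' ∘ₗ H'.subtype)) := by
    refine ⟨tsQ_iff.2 ?_, tsQ_iff.2 ?_, ?_, ?_, ?_⟩
    · rintro _ ⟨x, rfl⟩; exact q x x.2
    · rintro _ ⟨x, rfl⟩; exact q' x x.2
    · rintro _ ⟨x, rfl⟩ e
      simp [h.sep x x.2 fun w hw => (hj x x.2 w hw).symm.trans (e _ ⟨⟨w, hw⟩, rfl⟩)]
    · rintro _ ⟨x, rfl⟩ e
      simp [h.sep' x x.2 fun w hw => (hj w hw x x.2).symm.trans (e _ ⟨⟨w, hw⟩, rfl⟩)]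
    · rw [d1, LinearMap.finrank_range_of_inj i2, h.dim]
  let k := LinearEquiv.ofInjective _ i1
  refine o.cm hG h2 (d1 ▸ h3) (d1 ▸ hd) hg (φ ∘ₗ H.subtype ∘ₗ k.symm.toLinearMap) (u := k ⟨u, hu⟩)
    (by simpa) (fun x => ?_) (w := y) (perp_sup.ge ⟨?_, ?_⟩) hy0 ?_
  · obtain ⟨x, rfl⟩ := k.surjective x
    rintro _ ⟨w, rfl⟩
    simp [k, hA x x.2 w w.2, hj x x.2 w w.2, hj u hu w w.2]
  · rintro _ ⟨x, rfl⟩; exact hy x x.2
  · rintro _ ⟨x, rfl⟩; exact hy' x x.2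
  · refine Submodule.mem_sup.2 ⟨_, ⟨_, ⟨-⟨x₀, hx₀⟩, rfl⟩, rfl⟩, _, ⟨⟨w₀, hw₀⟩, rfl⟩, ?_⟩
    rw [eq_sub_of_add_eq ((map_add _ _ _).symm.trans e)]
    simp only [LinearMap.comp_apply, map_neg, Submodule.subtype_apply, LinearEquiv.coe_coe]
    abel

/-- Complementary Lagrangians with `(g - 1) L ≤ L'`. -/
structure LG (g : OG Q) (L L' : Submodule F V) (z₁ z₂ : V) : Prop where
  geom : GeomQ Q
  two : (2 : F) = 0
  sup : L ⊔ L' = ⊤
  ti : ∀ x ∈ L, ∀ y ∈ L, polar Q x y = 0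
  ti' : ∀ x ∈ L', ∀ y ∈ L', polar Q x y = 0
  lu : ∀ x ∈ L, g.1 x - x ∈ L'
  m₁ : z₁ ∈ L'
  m₂ : z₂ ∈ L
  q₁ : ∀ x ∈ L, Q x = polar Q x z₁ ^ 2
  q₂ : ∀ w ∈ L', Q w = polar Q w z₂ ^ 2

theorem lag_aux (hG : GeomQ Q) (hs : L ⊔ L' = ⊤) (h : ∀ x ∈ L, ∀ y ∈ L, polar Q x y = 0)
    (h' : ∀ x ∈ L', ∀ y ∈ L', polar Q x y = 0) :
    (∀ x ∈ L, (∀ y ∈ L', polar Q x y = 0) → x = 0) ∧ perpQ Q L' = L' := by
  have h1 : ∀ x ∈ L, (∀ y ∈ L', polar Q x y = 0) → x = 0 := fun x hx e =>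
    hG.nondeg x fun v => by
      obtain ⟨a, ha, b, hb, rfl⟩ := Submodule.mem_sup.1 (hs.ge (Submodule.mem_top (x := v)))
      simp [h x hx a ha, e b hb]
  refine ⟨h1, le_antisymm (fun v hv => ?_) fun x hx y hy => h' y hy x hx⟩
  obtain ⟨a, ha, b, hb, rfl⟩ := Submodule.mem_sup.1 (hs.ge (Submodule.mem_top (x := v)))
  rwa [h1 a ha fun y hy => by simpa [h' y hy b hb, polar_comm Q a] using hv y hy, zero_add]

theorem lag_du (hG : GeomQ Q) (hs : L ⊔ L' = ⊤) (h : ∀ x ∈ L, ∀ y ∈ L, polar Q x y = 0)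
    (h' : ∀ x ∈ L', ∀ y ∈ L', polar Q x y = 0) :
    Du Q L L' ∧ 2 * finrank F L = finrank F V := by
  obtain ⟨a, b⟩ := lag_aux hG hs h h'
  obtain ⟨c, d⟩ := lag_aux hG (sup_comm L L' ▸ hs) h' h
  have e1 := hG.finrank_add_perp L
  have e2 := hG.finrank_add_perp L'
  rw [d] at e1
  rw [b] at e2
  exact ⟨⟨a, fun y hy e => c y hy fun x hx => (polar_comm Q y x).trans (e x hx), by omega⟩,
    by omega⟩

namespace LG

variable (h : LG g L L' z₁ z₂)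
include h

theorem du : Du Q L L' := (lag_du h.geom h.sup h.ti h.ti').1

theorem dim : 2 * finrank F L = finrank F V := (lag_du h.geom h.sup h.ti h.ti').2

theorem symm : LG g⁻¹ L' L z₂ z₁ :=
  ⟨h.geom, h.two, sup_comm L L' ▸ h.sup, h.ti', h.ti, fun w hw =>
    (lag_aux h.geom (sup_comm L L' ▸ h.sup) h.ti' h.ti).2.le fun x hx => by
      rw [polarBilin_apply_apply, polar_sub_right, OG.polar_inv_right, ← polar_sub_left]
      exact h.ti' _ (h.lu x hx) w hw, h.m₂, h.m₁, h.q₂, h.q₁⟩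

theorem alt (x : V) : polar Q x x = 0 := by rw [o_polar_self, h.two, zero_mul]

theorem gw {x w : V} (hx : x ∈ L) (hw : w ∈ L') : polar Q (g.1 x) w = polar Q x w := by
  rw [← sub_eq_zero, ← polar_sub_left, h.ti' _ (h.lu x hx) w hw]

theorem gs {x y : V} (hx : x ∈ L) (hy : y ∈ L) : polar Q (g.1 x) y = polar Q (g.1 y) x := by
  have := h.gw hx (h.lu y hy)
  rw [polar_sub_right, polar_sub_right, OG.polar_app, h.ti x hx y hy, polar_comm Q x] at this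
  linear_combination -this - polar Q (g.1 y) x * h.two

theorem gq {x : V} (hx : x ∈ L) : polar Q (g.1 x) x = polar Q (g.1 z₂) x ^ 2 := by
  have := h.q₂ _ (h.lu x hx)
  rw [o_qsub, OG.map_app, polar_sub_left, h.ti x hx _ h.m₂, h.gs hx h.m₂] at this
  linear_combination -this + (Q x - polar Q (g.1 z₂) x ^ 2) * h.two

variable (hn : 8 ≤ finrank F V) (hg : dickson h.geom.nondegenerate g = 1)
include hn hg

theorem cm_hp {y z : V} (hy : y ∈ L) (hz : z ∈ L') (e : polar Q y z ≠ 0) (j j' : End F V)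
    (hj : ∀ x ∈ hp Q L z, ∀ w ∈ hp Q L' y, polar Q (j x) (j' w) = polar Q x w)
    (q : ∀ x ∈ hp Q L z, Q (j x) = 0) (q' : ∀ w ∈ hp Q L' y, Q (j' w) = 0) (φ : V →ₗ[F] F) {u : V}
    (hu : u ∈ hp Q L z) (hu' : φ u = 0) (hA : ∀ x ∈ hp Q L z, ∀ w ∈ hp Q L' y,
      polar Q (g.1 (j x)) (j' w) = polar Q x w + φ x * polar Q u w)
    {v : V} (hv0 : v ≠ 0) (hv : ∀ x ∈ hp Q L z, polar Q (j x) v = 0)
    (hv' : ∀ w ∈ hp Q L' y, polar Q (j' w) v = 0) {x₀ w₀ : V} (hx₀ : x₀ ∈ hp Q L z)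
    (hw₀ : w₀ ∈ hp Q L' y) (e' : g.1 (v + j x₀) = v + j' w₀) : Cm g := by
  have := finrank_hp hy e
  have := h.dim
  exact (h.du.hp hy hz e).cm h.geom h.two (by omega) (by omega) hg j j' hj q q' φ hu hu' hA hv0 hv
    hv' hx₀ hw₀ e'

theorem cm_gen {y z t : V} (hy : y ∈ L) (hz : z ∈ L') (ht : t ∈ L) (e : polar Q y z = 1)
    (q : ∀ x ∈ hp Q L z, Q x = 0) (q' : ∀ w ∈ hp Q L' y, Q w = polar Q w t ^ 2 * Q y)
    (h1 : polar Q (g.1 t) y = 0) (h3 : polar Q (g.1 y) y = 0) : Cm g := by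
  refine h.cm_hp hn hg hy hz (e ▸ one_ne_zero) 1 (1 + ((polarBilin Q).flip t).smulRight y)
    (fun x hx w hw => by simp [h.ti x hx.1 y hy]) q (fun w hw => ?_) (polarBilin Q (g.1 y))
    (u := t - polar Q t z • y) (mem_hp.2 ⟨sub_mem ht (L.smul_mem _ hy), by simp [e]⟩)
    (by simp [h3, h.gs hy ht, h1]) (fun x hx w hw => ?_)
    (o_ne_zero_of_polar_left (e ▸ one_ne_zero)) (fun x hx => h.ti x hx.1 y hy)
    (fun w hw => by simp [(mem_hp.1 hw).2, h.alt]) (x₀ := 0) (w₀ := g.1 y - y) (zero_mem _)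
    (mem_hp.2 ⟨h.lu y hy, by simp [h3, h.alt]⟩) (by simp [h.gs hy ht, h1, h.ti y hy t ht])
  · simp [oexp, q' w hw, (mem_hp.1 hw).2, ← two_mul, h.two]
  · simp [h.gw hx.1 hw.1, h.gs hx.1 hy, polar_comm Q y w, (mem_hp.1 hw).2, polar_comm Q t w,
      mul_comm]

theorem cm_E2 {l : F} (h1 : z₁ ≠ 0) (hb : polar Q z₂ z₁ = 0)
    (hl : ∀ y ∈ L, polar Q (g.1 z₂) y = l * polar Q y z₁) : Cm g := by
  obtain ⟨y, hy, e⟩ := h.du.symm.exists_one h.m₁ h1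
  rw [polar_comm] at e
  have e1 := h.gq hy
  rw [hl y hy, e] at e1
  refine h.cm_hp hn hg hy h.m₁ (e ▸ one_ne_zero) 1 (1 + ((polarBilin Q).flip z₂).smulRight z₂)
    (fun x hx w hw => by simp [h.ti x hx.1 _ h.m₂]) (fun x hx => by
      simp [h.q₁ x hx.1, (mem_hp.1 hx).2]) (fun w hw => ?_) 0 (zero_mem _) rfl (fun x hx w hw => ?_)
    (o_ne_zero_of_polar_left (e ▸ one_ne_zero)) (fun x hx => h.ti x hx.1 y hy)
    (fun w hw => by simp [(mem_hp.1 hw).2, h.ti _ h.m₂ y hy]) (x₀ := l • z₂)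
    (w₀ := g.1 (y + l • z₂) - (y + l • z₂)) (mem_hp.2 ⟨L.smul_mem _ h.m₂, by simp [hb]⟩)
    (mem_hp.2 ⟨h.lu _ (add_mem hy (L.smul_mem _ h.m₂)), ?_⟩) ?_
  · simp [oexp, h.q₂ w hw.1, h.q₁ _ h.m₂, hb, sq, ← two_mul, h.two]
  · simp [h.gw hx.1 hw.1, h.gs hx.1 h.m₂, hl x hx.1, (mem_hp.1 hx).2]
  · simp [e1, hl y hy, e, h.alt, h.ti _ h.m₂ y hy, sq, ← two_mul, h.two]
  · simp [h.gs hy h.m₂, hl y hy, e, hl _ h.m₂, hb, h.alt, h.ti y hy _ h.m₂]
    abel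

theorem cm_E1a {y z : V} (hy : y ∈ hp Q L z₁) (hz : z ∈ hp Q L' z₂) (e : polar Q y z = 1)
    (h1 : g.1 y = y) (h3 : polar Q (g⁻¹.1 z) z₁ = 0) : Cm g := by
  have y1 := (mem_hp.1 hy).2
  have z1 := (mem_hp.1 hz).2
  have m := h.symm.lu z hz.1
  have q : Q (y + z) = 1 := by simp [oexp, h.q₁ y hy.1, h.q₂ z hz.1, y1, z1, e]
  have h4 : polar Q (g⁻¹.1 z) z = 0 := by
    rw [h.symm.gq hz.1, h.symm.gs h.m₁ hz.1, h3]; simp
  have c1 : ∀ x ∈ hp Q L z, polar Q x (y + z) = 0 := fun x hx => by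
    simp [h.ti x hx.1 y hy.1, (mem_hp.1 hx).2]
  have c2 : ∀ w ∈ hp Q L' y, polar Q w (y + z) = 0 := fun w hw => by
    simp [h.ti' w hw.1 z hz.1, (mem_hp.1 hw).2]
  have e1 : g.1 (y + z) = y + z - g.1 (g⁻¹.1 z - z) := by
    rw [map_sub, OG.app_inv_app, map_add, h1]; abel
  have mu : g⁻¹.1 z - z ∈ hp Q L z := mem_hp.2 ⟨m, by rw [polar_sub_left, h4, h.alt, sub_self]⟩
  have h5 : polar Q (g⁻¹.1 z - z) z₁ = 0 := by
    rw [polar_sub_left, h3, h.ti' z hz.1 _ h.m₁, sub_self]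
  have c3 : ∀ x ∈ hp Q L z, polar Q (g.1 x) (y + z) = 0 := fun x hx => by
    rw [polar_add_right, h.gw hx.1 hz.1, h.gs hx.1 hy.1, h1, h.ti y hy.1 x hx.1, (mem_hp.1 hx).2,
      add_zero]
  generalize y + z = v, g⁻¹.1 z - z = u at *
  refine h.cm_hp hn hg hy.1 hz.1 (e ▸ one_ne_zero) (1 + ((polarBilin Q).flip z₁).smulRight v)
    (1 + ((polarBilin Q).flip z₂).smulRight v)
    (fun x hx w hw => by simp [c1 x hx, polar_comm Q v w, c2 w hw, h.alt]) (fun x hx => ?_)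
    (fun w hw => ?_) (-(polarBilin Q).flip z₁) mu (by simp [h5])
    (fun x hx w hw => ?_) (o_ne_zero_of_norm (q ▸ one_ne_zero))
    (fun x hx => by simp [c1 x hx, h.alt]) (fun w hw => by simp [c2 w hw, h.alt]) mu (zero_mem _)
    (by simp [h5, e1])
  · simp [oexp, h.q₁ x hx.1, q, c1 x hx, ← two_mul, h.two]
  · simp [oexp, h.q₂ w hw.1, q, c2 w hw, ← two_mul, h.two]
  · simp [e1, h.gw hx.1 hw.1, h.gw m hw.1, c3 x hx, c3 u mu, polar_comm Q v w, c2 w hw, h.alt]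

theorem cm_E1b (hn' : 10 ≤ finrank F V) (hb : polar Q z₂ z₁ ≠ 0)
    (hl : ∀ y ∈ L, polar Q z₂ z₁ * polar Q (g.1 z₂) y = polar Q y z₁)
    (hl' : ∀ w ∈ L', polar Q z₂ z₁ * polar Q (g⁻¹.1 z₁) w = polar Q w z₂) : Cm g := by
  have hG := h.geom
  have hb' : polar Q z₁ z₂ ≠ 0 := by rwa [polar_comm]
  have d0 := h.dim
  have d1 := finrank_hp h.m₂ hb
  have u1 := h.du.hp h.m₂ h.m₁ hb
  obtain ⟨y, hy, hy0⟩ := Submodule.exists_mem_ne_zero_of_ne_bot (p := hp Q L z₁) fun e => by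
    rw [e, finrank_bot] at d1; omega
  obtain ⟨z, hz, e⟩ := u1.exists_one hy hy0
  have d2 := finrank_hp hy (e ▸ one_ne_zero)
  have u2 := u1.hp hy hz (e ▸ one_ne_zero)
  have y1 := (mem_hp.1 hy).2
  have z1 := (mem_hp.1 hz).2
  have o : Opp Q (hp Q (hp Q L z₁) z) (hp Q (hp Q L' z₂) y) :=
    ⟨tsQ_iff.2 fun x hx => by simp [h.q₁ x hx.1.1, (mem_hp.1 hx.1).2],
      tsQ_iff.2 fun x hx => by simp [h.q₂ x hx.1.1, (mem_hp.1 hx.1).2], u2.sep, u2.sep', u2.dim⟩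
  have q1 : Q z₁ = polar Q z₂ z₁ ^ 2 := by rw [h.q₂ _ h.m₁, polar_comm]
  have q2 := h.q₁ _ h.m₂
  have n1 : Q z₁ ≠ 0 := q1 ▸ pow_ne_zero 2 hb
  have n2 : Q z₂ ≠ 0 := q2 ▸ pow_ne_zero 2 hb
  have g1 : g.1 z₂ = (orefl Q z₁).1 z₂ := by
    rw [orefl_app, ← sub_eq_zero, ← sub_add, h.du.sep' _ (add_mem (h.lu _ h.m₂)
      (L'.smul_mem _ h.m₁)) fun x hx => ?_]
    refine mul_left_cancel₀ hb ?_
    simp only [oexp, polar_comm Q x (g.1 z₂), mul_add, mul_sub, hl x hx, h.ti x hx _ h.m₂, q1]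
    field_simp
    linear_combination polar Q x z₁ * h.two
  have g2 : g⁻¹.1 z₁ = (orefl Q z₂).1 z₁ := by
    rw [orefl_app, ← sub_eq_zero, ← sub_add, h.du.sep _ (add_mem (h.symm.lu _ h.m₁)
      (L.smul_mem _ h.m₂)) fun x hx => ?_]
    refine mul_left_cancel₀ hb ?_
    simp only [oexp, mul_add, mul_sub, hl' x hx, h.ti' _ h.m₁ x hx, q2, polar_comm Q z₁ z₂,
      polar_comm Q z₂ x]
    field_simp
    linear_combination polar Q x z₂ * h.two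
  set k := g * orefl Q z₂ * orefl Q z₁ with hk
  have k1 : k.1 z₁ = z₁ := by
    rw [hk, OG.mul_app, OG.mul_app, orefl_app_of_polar (h.alt _), ← g2, OG.app_inv_app]
  have k2 : k.1 z₂ = z₂ := by
    have : k.1 ((orefl Q z₁).1 z₂) = (orefl Q z₁).1 z₂ := by
      rw [hk, OG.mul_app, OG.mul_app, orefl_orefl_app, orefl_app_of_polar (h.alt _), g1]
    rwa [orefl_app, map_sub, map_smul, k1, sub_left_inj] at this
  have k3 : ∀ v, polar Q v z₁ = 0 → polar Q v z₂ = 0 → k.1 v = g.1 v := fun v a b => by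
    rw [hk, OG.mul_app, OG.mul_app, orefl_app_of_polar a, orefl_app_of_polar b]
  have k4 : ∀ x ∈ hp Q L z₁, k.1 x = g.1 x := fun x hx =>
    k3 x (mem_hp.1 hx).2 (h.ti x hx.1 _ h.m₂)
  have p1 : ∀ v, (∀ x ∈ hp Q (hp Q L z₁) z, polar Q x v = 0) →
      (∀ x ∈ hp Q (hp Q L' z₂) y, polar Q x v = 0) →
      v ∈ perpQ Q (hp Q (hp Q L z₁) z ⊔ hp Q (hp Q L' z₂) y) := fun v a b => perp_sup.ge ⟨a, b⟩
  have a1 : polar Q (g.1 z₂) y = 0 := mul_left_cancel₀ hb (by rw [hl y hy.1, y1, mul_zero])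
  have a2 : polar Q (g⁻¹.1 z₁) z = 0 := mul_left_cancel₀ hb (by rw [hl' z hz.1, z1, mul_zero])
  obtain ⟨d, b, c, f1, f2, f3, f4⟩ := o.gauss hG h.two (by omega) (g := k) 0 (u := 0) rfl
    (fun x w hw => by simp [k4 x x.2.1, h.gw x.2.1.1 hw.1.1]) fun p hp' => by
      obtain ⟨x, hx, w, hw, rfl⟩ := Submodule.mem_sup.1 (h.sup.ge (Submodule.mem_top (x := p)))
      have b1 := u2.sep _ (sub_mem_hp (sub_mem_hp hx h.m₂ hb) hy (e ▸ one_ne_zero)) fun v hv => by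
        have := hp' v (Submodule.mem_sup_right hv)
        simp [polar_comm Q v, h.ti' w hw v hv.1.1] at this
        simp [this, polar_comm Q z₂ v, polar_comm Q y v, (mem_hp.1 hv).2, (mem_hp.1 hv.1).2]
      have b2 := u2.sep' _ (sub_mem_hp (sub_mem_hp hw h.m₁ hb') hz
        (polar_comm Q y z ▸ e ▸ one_ne_zero)) fun v hv => by
        have := hp' v (Submodule.mem_sup_left hv)
        simp [h.ti v hv.1.1 x hx] at this
        simp [this, (mem_hp.1 hv).2, (mem_hp.1 hv.1).2]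
      rw [sub_sub, sub_eq_zero] at b1 b2
      have b3 : k.1 y - y ∈ hp Q (hp Q L' z₂) y := by
        rw [k4 y hy]
        exact mem_hp.2 ⟨mem_hp.2 ⟨h.lu y hy.1, by simp [h.gs hy.1 h.m₂, a1, h.ti y hy.1 _ h.m₂]⟩,
          by simp [h.gq hy.1, a1, h.alt]⟩
      have b4 : g⁻¹.1 z - z ∈ hp Q (hp Q L z₁) z :=
        mem_hp.2 ⟨mem_hp.2 ⟨h.symm.lu z hz.1, by
          rw [polar_sub_left, h.symm.gs hz.1 h.m₁, a2, h.ti' z hz.1 _ h.m₁, sub_self]⟩, by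
          rw [polar_sub_left, h.symm.gq hz.1, a2, h.alt]; simp⟩
      have b5 : k.1 z - z = -k.1 (g⁻¹.1 z - z) := by
        rw [k4 _ b4.1, k3 z (h.ti' z hz.1 _ h.m₁) z1]; simp
      rw [b1, b2]
      generalize polar Q _ z / polar Q y z = s, polar Q _ y / polar Q z y = t
      convert add_mem (Submodule.mem_sup_right (Submodule.smul_mem _ s b3))
        (Submodule.smul_mem _ t (b5 ▸ neg_mem (Submodule.mem_sup_left
          (Submodule.mem_map_of_mem (f := (k.1 : End F V)) b4)))) using 1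
      simp only [map_add, map_smul, k1, k2]
      module
  have m1 := p1 z₁ (fun x hx => (mem_hp.1 hx.1).2) fun x hx => h.ti' x hx.1.1 _ h.m₁
  have m2 := p1 z₂ (fun x hx => h.ti x hx.1.1 _ h.m₂) fun x hx => (mem_hp.1 hx.1).2
  have m3 := p1 (y + z) (fun x hx => by simp [h.ti x hx.1.1 y hy.1, (mem_hp.1 hx).2])
    fun x hx => by simp [h.ti' x hx.1.1 z hz.1, (mem_hp.1 hx).2]
  have q3 : Q (y + z) = 1 := by simp [oexp, h.q₁ y hy.1, h.q₂ z hz.1, y1, z1, e]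
  have n3 : Q (z₁ - z₂) ≠ 0 := by
    rw [o_qsub, q1, q2, ← two_mul, h.two, zero_mul, zero_sub, neg_ne_zero]; exact hb'
  have cm : ∀ {a : OG Q} {v}, a.1 v = v → Commute a (orefl Q v) := fun {a v} e => by
    rw [Commute, SemiconjBy, mul_orefl, e]
  have cm' : ∀ {a : OG Q}, a.1 z₁ = z₁ → a.1 z₂ = z₂ →
      Commute a (orefl Q z₁) ∧ Commute a (orefl Q (z₁ - z₂)) := fun e e' =>
    ⟨cm e, cm (by rw [map_sub, e, e'])⟩
  obtain ⟨s1, s2⟩ := cm' (f2 _ m1) (f2 _ m2)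
  obtain ⟨s3, s4⟩ := cm' (f4 (by simp) _ m1 k1).1 (f4 (by simp) _ m2 k2).1
  obtain ⟨s5, s6⟩ := cm' (f4 (by simp) _ m1 k1).2 (f4 (by simp) _ m2 k2).2
  have s7 := conj_orefl (orefl Q (z₁ - z₂)) z₁
  rw [orefl_sub_app (q1.trans q2.symm) n3, orefl_inv] at s7
  have := cm_of_conj hG h.two (not_oExc_of_finrank (by omega)) (r := orefl Q (y + z))
    (d := d * (orefl Q z₁ * orefl Q (z₁ - z₂))) b (c * orefl Q (z₁ - z₂))
    (by simp [f1, dickson_orefl _ n1, dickson_orefl _ n3]) (dickson_orefl _ (q3 ▸ one_ne_zero))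
    ((cm (f2 _ m3)).symm.mul_right (Commute.mul_right
      (orefl_comm_of_polar (by simp [y1, h.ti' z hz.1 _ h.m₁]))
      (orefl_comm_of_polar (by simp [y1, z1, h.ti' z hz.1 _ h.m₁, h.ti y hy.1 _ h.m₂])))).eq
  convert this using 1
  have i1 := orefl_mul_self (Q := Q) z₁
  have i2 := orefl_mul_self (Q := Q) z₂
  have i3 := orefl_mul_self (Q := Q) (z₁ - z₂)
  clear_value k
  generalize orefl Q (z₁ - z₂) = r, orefl Q z₁ = r₁, orefl Q z₂ = r₂ at *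
  have t1 : b * (d * (r₁ * r)) * b⁻¹ = b * d * b⁻¹ * (r₁ * r) := by
    rw [← mul_assoc, mul_assoc _ _ b⁻¹, ← (s3.mul_right s4).inv_left.eq, ← mul_assoc]
  have t2 : c * r * (d * (r₁ * r)) * (c * r)⁻¹ = r * r₁ * (c * d * c⁻¹) := by
    rw [((s6.mul_right s5).symm.mul_right (s2.mul_right s1).symm |>.mul_right
      (s6.mul_right s5).symm.inv_right).eq, mul_assoc _ c⁻¹, (s6.mul_right s5).inv_left.eq,
      mul_assoc c r, ← mul_assoc r, ← s2.eq]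
    group
  have t3 : Commute (c * d * c⁻¹)⁻¹ (r₁ * r) :=
    (((s5.mul_right s6).mul_left (s1.mul_right s2)).mul_left (s5.mul_right s6).inv_left).inv_left
  have t4 : g = k * r₁ * r₂ := by
    rw [hk, mul_assoc _ r₁ r₁, i1, mul_one, mul_assoc, i2, mul_one]
  rw [t1, t2, t4, f3, ← s7, mul_inv_rev (r * r₁), mul_assoc _ (r₁ * r), ← mul_assoc (r₁ * r),
    ← t3.eq, mul_inv_rev r, inv_eq_of_mul_eq_one_right i1, inv_eq_of_mul_eq_one_right i3]
  group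

end LG

end Cfsg.Agent.Cl.OreO
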