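import Mathlib
import Cfsg.Agent.Cl.OreOF
import Cfsg.Agent.Cl.ClassSpOInvO

/-! Every element of `Ω(Q)` is a commutator, in dimension at least eight. -/

set_option autoImplicit false
set_option linter.unusedSectionVars false

namespace Cfsg.Agent.Cl.OreO

open Module Der
open QuadraticMap hiding sq

variable {F V : Type*} [Field F] [AddCommGroup V] [Module F V] [FiniteDimensional F V]
  {Q : QuadraticForm F V} {L L' : Submodule F V} {g : OG Q} {z₁ z₂ : V}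

theorem Du.exists_rep (h : Du Q L L') (l : L →ₗ[F] F) : ∃ z ∈ L', ∀ x : L, polar Q x z = l x := by
  let ψ : L' →ₗ[F] Dual F L := ((polarBilin Q).flip.domRestrict₁₂ L' L)
  have hi : Function.Injective ψ := (injective_iff_map_eq_zero _).2 fun y hy =>
    Subtype.ext (h.sep' y y.2 fun x hx => LinearMap.congr_fun hy ⟨x, hx⟩)
  obtain ⟨z, hz⟩ := (LinearMap.injective_iff_surjective_of_finrank_eq_finrank
    (by rw [Subspace.dual_finrank_eq, h.dim])).1 hi l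
  exact ⟨z, z.2, fun x => LinearMap.congr_fun hz x⟩

theorem exists_prop {a b : V} (h : ¬ ∃ y ∈ L, polar Q y a = 1 ∧ polar Q b y = 0) :
    ∃ c : F, ∀ y ∈ L, polar Q y a = c * polar Q b y := by
  have h1 : ∀ y ∈ L, polar Q b y = 0 → polar Q y a = 0 := fun y hy e => by
    by_contra e'
    exact h ⟨(polar Q y a)⁻¹ • y, L.smul_mem _ hy, by simp [e'], by simp [e]⟩
  by_cases h2 : ∀ y ∈ L, polar Q b y = 0
  · exact ⟨0, fun y hy => by rw [h1 y hy (h2 y hy), zero_mul]⟩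
  push Not at h2
  obtain ⟨x, hx, e⟩ := h2
  refine ⟨polar Q x a / polar Q b x, fun y hy => ?_⟩
  have := h1 _ (sub_mem hy (L.smul_mem (polar Q b y / polar Q b x) hx)) (by simp [e])
  simp only [oexp, sub_eq_zero] at this
  rw [this]
  ring

variable [Finite F]

namespace LG

variable (h : LG g L L' z₁ z₂) (hn : 8 ≤ finrank F V)
  (hg : dickson h.geom.nondegenerate g = 1)
include h

theorem eq_polar {c : F} (hc : ∀ y ∈ L, polar Q y z₁ = c * polar Q (g.1 z₂) y)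
    (hb : polar Q z₂ z₁ ≠ 0) : c = polar Q z₂ z₁ := by
  have e := h.gq h.m₂
  rw [hc _ h.m₂] at hb ⊢
  rw [mul_left_cancel₀ (right_ne_zero_of_mul hb) ((sq _).symm.trans (e.symm.trans (mul_one _).symm)),
    mul_one]

include hn hg

theorem cm_E1 (hb : polar Q z₂ z₁ ≠ 0)
    (hl : ∀ y ∈ L, polar Q z₂ z₁ * polar Q (g.1 z₂) y = polar Q y z₁)
    (hl' : ∀ w ∈ L', polar Q z₂ z₁ * polar Q (g⁻¹.1 z₁) w = polar Q w z₂) : Cm g := by
  have d0 := h.dim
  have d1 := finrank_hp h.m₂ hb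
  by_cases h10 : 10 ≤ finrank F V
  · exact h.cm_E1b hn hg h10 hb hl hl'
  have a1 : ∀ y ∈ hp Q L z₁, polar Q (g.1 z₂) y = 0 := fun y hy =>
    mul_left_cancel₀ hb (by rw [hl y hy.1, (mem_hp.1 hy).2, mul_zero])
  let B : LinearMap.BilinForm F (hp Q L z₁) :=
    LinearMap.BilinForm.restrict ((polarBilin Q).compl₁₂ (g.1 : End F V) 1) _
  have hB : B.IsAlt := fun x => (h.gq x.2.1).trans (by rw [a1 x x.2]; simp)
  obtain ⟨y, hy, hy0⟩ : ∃ y : hp Q L z₁, (∀ x, B y x = 0) ∧ y ≠ 0 := by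
    by_contra! e
    have := sp_even_finrank (hB.isRefl.nondegenerate_iff_separatingLeft.2 e) hB
    rw [Nat.even_iff] at this
    omega
  obtain ⟨z, hz, e⟩ := (h.du.hp h.m₂ h.m₁ hb).exists_one y.2 (by simpa using hy0)
  refine h.cm_E1a hn hg y.2 hz e (sub_eq_zero.1 (h.du.sep' _ (h.lu _ y.2.1) fun x hx => ?_))
    (mul_left_cancel₀ hb ?_)
  · have : polar Q (g.1 y) (x - _ • z₂) = 0 := hy ⟨_, sub_mem_hp hx h.m₂ hb⟩
    simp only [oexp, h.gs y.2.1 h.m₂, a1 y y.2, mul_zero, sub_zero] at this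
    rw [polar_sub_right, h.ti x hx y y.2.1, polar_comm, this, sub_zero]
  · rw [h.symm.gs hz.1 h.m₁, hl' z hz.1, (mem_hp.1 hz).2, mul_zero]

theorem cm_gen' (e : ∃ y ∈ L, polar Q y z₁ = 1 ∧ polar Q (g.1 z₂) y = 0) : Cm g := by
  obtain ⟨y, hy, e, e'⟩ := e
  exact h.cm_gen hn hg hy h.m₁ h.m₂ e (fun x hx => by simp [h.q₁ x hx.1, (mem_hp.1 hx).2])
    (fun w hw => by simp [h.q₂ w hw.1, h.q₁ y hy, e]) e' (by simp [h.gq hy, e'])

theorem cm : Cm g := by
  by_cases e : ∃ y ∈ L, polar Q y z₁ = 1 ∧ polar Q (g.1 z₂) y = 0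
  · exact h.cm_gen' hn hg e
  by_cases e' : ∃ y ∈ L', polar Q y z₂ = 1 ∧ polar Q (g⁻¹.1 z₁) y = 0
  · exact (h.symm.cm_gen' hn (by rw [map_inv, hg, inv_one]) e').inv
  obtain ⟨c, hc⟩ := exists_prop e
  obtain ⟨c', hc'⟩ := exists_prop e'
  by_cases h1 : z₁ = 0
  · have h2 : z₂ = 0 := h.du.sep _ h.m₂ fun w hw => by
      rw [polar_comm, hc' w hw, h1, map_zero, polar_zero_left, mul_zero]
    have d0 := h.dim
    obtain ⟨y, hy, hy0⟩ := Submodule.exists_mem_ne_zero_of_ne_bot (p := L) fun e => by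
      rw [e, finrank_bot] at d0; omega
    obtain ⟨z, hz, e⟩ := h.du.exists_one hy hy0
    exact h.cm_gen hn hg hy hz L.zero_mem e (fun x hx => by simp [h.q₁ x hx.1, h1])
      (fun w hw => by simp [h.q₂ w hw.1, h2]) (by simp) (by simp [h.gq hy, h2])
  by_cases hb : polar Q z₂ z₁ = 0
  · have c0 : c ≠ 0 := fun c0 => h1 (h.du.sep' _ h.m₁ fun x hx => by rw [hc x hx, c0, zero_mul])
    exact h.cm_E2 hn hg (l := c⁻¹) h1 hb fun y hy => by rw [hc y hy, inv_mul_cancel_left₀ c0]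
  exact h.cm_E1 hn hg hb (fun y hy => by rw [hc y hy, ← h.eq_polar hc hb]) fun w hw => by
    rw [hc' w hw, h.symm.eq_polar hc' (by rwa [polar_comm]), polar_comm]

end LG

theorem cm_two (hQ : (polarBilin Q).Nondegenerate) (h2 : (2 : F) = 0) (hn : 8 ≤ finrank F V)
    (hg : g ∈ commutator (OG Q)) : Cm g := by
  have : CharP F 2 := CharTwo.of_one_ne_zero_of_two_eq_zero one_ne_zero h2
  obtain ⟨L, L', hs, t, t', lu⟩ := (OreSp.lu_or_oddPair (g := (g.1 : End F V)) hQ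
    (SpO.polar_isAlt Q) fun x y => OG.polar_app g x y).resolve_right fun e => e.1 h2
  have du := (lag_du (geom_quad hQ) hs t t').1
  obtain ⟨l, hl⟩ := SpO.o_exists_sqrt L t
  obtain ⟨l', hl'⟩ := SpO.o_exists_sqrt L' t'
  obtain ⟨z₁, m₁, e₁⟩ := du.exists_rep l
  obtain ⟨z₂, m₂, e₂⟩ := du.symm.exists_rep l'
  exact LG.cm ⟨geom_quad hQ, h2, hs, t, t', lu, m₁, m₂,
    fun x hx => by rw [e₁ ⟨x, hx⟩, hl], fun x hx => by rw [e₂ ⟨x, hx⟩, hl']⟩ hn
    (Abelianization.commutator_subset_ker (dickson hQ) hg)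

theorem cm_all (hQ : (polarBilin Q).Nondegenerate) (hn : 8 ≤ finrank F V)
    (hg : g ∈ commutator (OG Q)) : Cm g := by
  by_cases h2 : (2 : F) = 0
  exacts [cm_two hQ h2 hn hg, cm_odd hQ h2 (by omega) hg]

end Cfsg.Agent.Cl.OreO
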