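import Mathlib
import Cfsg.Agent.Cl.OreC
import Cfsg.Agent.Cl.ClassDet

/-! Commutators in special unitary groups: bookkeeping with elementary divisors. -/

set_option autoImplicit false
set_option linter.unusedSectionVars false

open Matrix Polynomial Sum Module

namespace Cfsg.Agent.Cl.OreU

open Cls Ore

variable {F : Type*} [Field F] {σ : F →+* F} {s t a b a' b' : Multiset F[X]} {D D' : F}

/-- Total degree. -/
noncomputable def dg (s : Multiset F[X]) : ℕ := (s.map natDegree).sum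

/-- Total determinant. -/
noncomputable def dt (s : Multiset F[X]) : F := (s.map dd).prod

theorem dg_add (s t : Multiset F[X]) : dg (s + t) = dg s + dg t := by simp [dg]

theorem dt_add (s t : Multiset F[X]) : dt (s + t) = dt s * dt t := by simp [dt]

theorem dt_lin (c : F) : dt {X - C c} = c := by simp [dt, dd_X_sub_C]

theorem dg_lin (c : F) : dg {(X - C c : F[X])} = 1 := by simp [dg]

theorem dt_edM {n : Type*} [Fintype n] [DecidableEq n] (A : Matrix n n F) : dt (edM A) = A.det :=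
  (det_eq_prod_dd A).symm

theorem dg_edM {n : Type*} [Fintype n] [DecidableEq n] (A : Matrix n n F) :
    dg (edM A) = Fintype.card n := sum_natDegree_edM A

/-- Elementary divisors of the companion matrix. -/
noncomputable def ce (f : F[X]) : Multiset F[X] :=
  open Classical in
  if h : f = 0 then 0 else edM (exists_isCyc (ι := Fin f.natDegree) h (by simp)).choose

theorem edM_ce {n : Type*} [Fintype n] [DecidableEq n] {A : Matrix n n F} {f : F[X]}
    (hA : IsCyc A f) (hf : f.Monic) : edM A = ce f := by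
  rw [ce, dif_neg hf.ne_zero]
  exact hA.edM_eq (exists_isCyc (ι := Fin f.natDegree) hf.ne_zero (by simp)).choose_spec

theorem ce_pp {e : F[X]} (he : IsPP e) : ce e = {e} := by
  obtain ⟨A, hA⟩ := exists_cyc he.monic
  rw [← edM_ce hA he.monic, hA.edM_pp he]

theorem ce_lin (c : F) : ce (X - C c) = {X - C c} := ce_pp (isPP_lin c)

theorem prod_ce {f : F[X]} (hf : f.Monic) : (ce f).prod = f := by
  obtain ⟨A, hA⟩ := exists_cyc hf
  rw [← edM_ce hA hf, ← charpoly_eq_prod_edM, hA.charpoly hf]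

theorem dg_ce {f : F[X]} (hf : f.Monic) : dg (ce f) = f.natDegree := by
  obtain ⟨A, hA⟩ := exists_cyc hf
  rw [← edM_ce hA hf, dg_edM, Fintype.card_fin]

theorem dt_ce {f : F[X]} (hf : f.Monic) : dt (ce f) = dd f := by
  obtain ⟨A, hA⟩ := exists_cyc hf
  rw [← edM_ce hA hf, dt_edM, hA.det hf]

theorem ce_mul {f f' : F[X]} (hf : f.Monic) (hf' : f'.Monic) (h : IsCoprime f f') :
    ce (f * f') = ce f + ce f' := by
  obtain ⟨A, hA⟩ := exists_cyc hf
  obtain ⟨A', hA'⟩ := exists_cyc hf'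
  obtain ⟨B, hB⟩ := exists_cyc (hf.mul hf')
  have := finiteDimensional_adjoinRoot hf.ne_zero
  have := finiteDimensional_adjoinRoot hf'.ne_zero
  have : ∀ i, FiniteDimensional F (AdjoinRoot (![f, f'] i)) := fun i => by
    fin_cases i <;> assumption
  have e := sim_cyc_prod (p := ![f, f']) fun i j hij => by
    fin_cases i <;> fin_cases j
    exacts [(hij rfl).elim, h, h.symm, (hij rfl).elim]
  rw [Fin.prod_univ_two] at e
  rw [← edM_ce hA hf, ← edM_ce hA' hf', ← edM_ce hB (hf.mul hf'), edM_def,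
    (Sim.trans hB e).ed_eq, cycPi, ed_piMap, Fin.sum_univ_two, edM_def, edM_def, Sim.ed_eq hA,
    Sim.ed_eq hA']
  rfl

variable (σ) in
/-- Unitary `g`, `Y` with elementary divisors `s` for `g`, `a` for `Y`, `b` for `Y g`. -/
def TrU (s a b : Multiset F[X]) (D : F) : Prop :=
  ∃ (ι : Type) (_ : Fintype ι) (_ : DecidableEq ι) (g Y : Matrix ι ι F), uStar σ g * g = 1 ∧
    uStar σ Y * Y = 1 ∧ edM g = s ∧ edM Y = a ∧ edM (Y * g) = b ∧ Y.det = D

variable (σ) in
/-- Elementary divisors of a unitary matrix. -/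
def Un (s : Multiset F[X]) : Prop :=
  ∃ (ι : Type) (_ : Fintype ι) (_ : DecidableEq ι) (g : Matrix ι ι F), uStar σ g * g = 1 ∧
    edM g = s

theorem TrU.add (h : TrU σ s a b D) (h' : TrU σ t a' b' D') :
    TrU σ (s + t) (a + a') (b + b') (D * D') := by
  obtain ⟨ι, _, _, g, Y, u, v, rfl, rfl, rfl, rfl⟩ := h
  obtain ⟨κ, _, _, g', Y', u', v', rfl, rfl, rfl, rfl⟩ := h'
  refine ⟨ι ⊕ κ, inferInstance, inferInstance, fromBlocks g 0 0 g', fromBlocks Y 0 0 Y',
    unitary_fromBlocks u u', unitary_fromBlocks v v', edM_fromBlocks _ _, edM_fromBlocks _ _, ?_,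
    det_fromBlocks_zero₂₁ _ _ _⟩
  rw [fromBlocks_multiply, ← edM_fromBlocks]
  simp

theorem edM_empty {ι : Type*} [Fintype ι] [DecidableEq ι] [IsEmpty ι] (A : Matrix ι ι F) :
    edM A = 0 := (ed_eq_zero_iff _).2 (by simp)

theorem trU_zero : TrU σ 0 0 0 1 :=
  ⟨Empty, inferInstance, inferInstance, 1, 1, Subsingleton.elim _ _, Subsingleton.elim _ _,
    edM_empty _, edM_empty _, edM_empty _, det_one⟩

theorem TrU.norm (h : TrU σ s a b D) : D * σ D = 1 := by
  obtain ⟨ι, _, _, g, Y, -, v, -, -, -, rfl⟩ := h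
  exact det_mul_map_det_of_unitary v

theorem ne_zero_of_norm {c : F} (h : c * σ c = 1) : c ≠ 0 := left_ne_zero_of_mul_eq_one h

theorem norm_mul {c d : F} (h : c * σ c = 1) (h' : d * σ d = 1) : c * d * σ (c * d) = 1 := by
  rw [map_mul, mul_mul_mul_comm, h, h', one_mul]

theorem norm_inv {c : F} (h : c * σ c = 1) : c⁻¹ * σ c⁻¹ = 1 := by
  rw [map_inv₀, ← mul_inv, h, inv_one]

theorem TrU.eq_of_bal (h : TrU σ s a b D) {l l' : F} (e : a + {X - C l} = b + {X - C l'}) :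
    l = l' * dt s := by
  have h0 := ne_zero_of_norm h.norm
  obtain ⟨ι, _, _, g, Y, -, -, rfl, rfl, rfl, rfl⟩ := h
  have := congrArg dt e
  rw [dt_add, dt_add, dt_edM, dt_edM, dt_lin, dt_lin, det_mul, mul_assoc] at this
  rw [mul_left_cancel₀ h0 this, dt_edM, mul_comm]

variable [Finite F]

theorem TrU.transfer (hσ : UInvol σ) {n : Type*} [Fintype n] [DecidableEq n] {g : Matrix n n F}
    (hg : uStar σ g * g = 1) (h : TrU σ (edM g) a b D) :
    ∃ Y : Matrix n n F, uStar σ Y * Y = 1 ∧ edM Y = a ∧ edM (Y * g) = b ∧ Y.det = D := by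
  obtain ⟨ι, _, _, g', Y, u, v, e, rfl, rfl, rfl⟩ := h
  have hc : Fintype.card ι = Fintype.card n := by rw [← dg_edM g', e, dg_edM]
  let τ := Fintype.equivOfCardEq hc
  obtain ⟨k, k1, k2⟩ := exists_unitary_of_isConj hσ (unitary_reindex τ u) hg
    (isConj_iff_edM_eq.2 ((edM_reindex τ g').trans e))
  have k3 : k * uStar σ k = 1 := mul_eq_one_comm.1 k1
  have ku : IsUnit k := IsUnit.of_mul_eq_one _ k3
  have conj : ∀ A : Matrix n n F, edM (k * A * uStar σ k) = edM A := fun A =>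
    edM_eq_of_mul ku (by rw [Matrix.mul_assoc, k1, Matrix.mul_one])
  refine ⟨k * reindex τ τ Y * uStar σ k, ?_, by rw [conj, edM_reindex], ?_, ?_⟩
  · rw [uStar_mul, uStar_mul, uStar_uStar hσ]
    calc _ = k * (uStar σ (reindex τ τ Y) * (uStar σ k * k) * reindex τ τ Y) * uStar σ k := by
          simp only [Matrix.mul_assoc]
      _ = 1 := by rw [k1, Matrix.mul_one, unitary_reindex τ v, Matrix.mul_one, k3]
  · have : k * reindex τ τ Y * uStar σ k * g = k * reindex τ τ (Y * g') * uStar σ k := by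
      have : g = k * reindex τ τ g' * uStar σ k := by
        rw [k2, Matrix.mul_assoc, k3, Matrix.mul_one]
      rw [this]
      simp only [reindex_apply, ← Matrix.submatrix_mul_equiv Y g' τ.symm τ.symm τ.symm,
        Matrix.mul_assoc]
      rw [← Matrix.mul_assoc (uStar σ k), k1, Matrix.one_mul]
    rw [this, conj, edM_reindex]
  · rw [det_mul, det_mul, mul_right_comm, ← det_mul, k3, det_one, one_mul, det_reindex_self]

theorem trU_of_form (hσ : UInvol σ) {ι : Type} [Fintype ι] [DecidableEq ι] {J g Y : Matrix ι ι F}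
    (hJ : IsUnit J) (hg : uStar σ g * J * g = J) (hY : uStar σ Y * J * Y = J) :
    TrU σ (edM g) (edM Y) (edM (Y * g)) Y.det := by
  have hu : ∀ A : Matrix ι ι F, uStar σ A * J * A = J → IsUnit A := fun A h =>
    isUnit_of_mul_isUnit_right (h.symm ▸ hJ : IsUnit (uStar σ A * J * A))
  obtain ⟨d, hd⟩ := exists_conj_unitary hσ (A := ![g, Y])
    (fun i => by fin_cases i; exacts [hu g hg, hu Y hY]) hJ
    fun i => by fin_cases i; exacts [hg, hY]
  have conj : ∀ A : Matrix ι ι F, edM (d * A * (d⁻¹ : GL ι F) : Matrix ι ι F) = edM A :=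
    fun A => (isConj_iff_edM_eq.1 (isConj_iff_exists_unit.2 ⟨d, rfl⟩)).symm
  refine ⟨ι, inferInstance, inferInstance, _, _, hd 0, hd 1, conj g, conj Y, ?_, ?_⟩
  · rw [← conj (Y * g)]
    simp [Matrix.mul_assoc]
  · simp only [det_mul, Matrix.cons_val_one, Matrix.cons_val_zero]
    rw [mul_right_comm, ← det_mul, Units.mul_inv, det_one, one_mul]

variable (σ) in
/-- The centraliser of a unitary matrix with these divisors has all determinants. -/
def Sp (a : Multiset F[X]) : Prop := ∃ (P : F[X]) (k : ℕ), P.Monic ∧ Irreducible P ∧ P ^ k ∈ a ∧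
  ∀ δ : F, δ * σ δ = 1 → ∃ ε : F, ε * σ ε = 1 ∧ ε ^ k = δ

theorem Sp.mono (h : Sp σ a) (e : a ≤ b) : Sp σ b :=
  let ⟨P, k, h1, h2, h3, h4⟩ := h; ⟨P, k, h1, h2, Multiset.mem_of_le e h3, h4⟩

theorem sp_of_irr {P : F[X]} (h1 : P.Monic) (h2 : Irreducible P) (h : P ∈ a) : Sp σ a :=
  ⟨P, 1, h1, h2, by rwa [pow_one], fun δ e => ⟨δ, e, pow_one δ⟩⟩

theorem sp_of_lin {c : F} (h : X - C c ∈ a) : Sp σ a :=
  sp_of_irr (monic_X_sub_C c) (irreducible_X_sub_C c) h

variable (σ) in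
/-- The final state. -/
def Done (s : Multiset F[X]) : Prop :=
  ∃ a D, ∃ ε : F, TrU σ s a a D ∧ Sp σ a ∧ ε * σ ε = 1 ∧ ε ^ dg s * D = 1

theorem Done.comm {q n : ℕ} (hq : UField σ q) {g : SU n F q}
    (h : Done σ (edM ((g : SpecialLinearGroup (Fin n) F) : Matrix (Fin n) (Fin n) F))) :
    ∃ a b : SU n F q, g = a * b * a⁻¹ * b⁻¹ := by
  obtain ⟨a, D, ε, h1, ⟨P, k, p1, p2, p3, p4⟩, h2, h3⟩ := h
  have hg := (mem_SU_iff_uStar hq _).1 g.2
  obtain ⟨Y, y0, y1, y2, y3⟩ := h1.transfer hq.invol hg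
  rw [dg_edM] at h3
  have z0 : uStar σ (ε • Y) * (ε • Y) = 1 := by
    rw [uStar_smul, Matrix.smul_mul, Matrix.mul_smul, smul_smul, y0, mul_comm, h2, one_smul]
  obtain ⟨y, hy⟩ : ∃ y : SU n F q,
      ((y : SpecialLinearGroup (Fin n) F) : Matrix (Fin n) (Fin n) F) = ε • Y :=
    ⟨⟨⟨ε • Y, by rw [det_smul, y3, h3]⟩, (mem_SU_iff_uStar hq _).2 z0⟩, rfl⟩
  refine comm_of_isConj (y := y) (isConj_of_isConj_of_centralizer (suToGU F n q) suToGU_injective
    (detGU F n q) range_suToGU (fun c => ?_) ((isConj_GU_iff_edM_eq hq _ _).2 ?_))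
  · obtain ⟨η, e1, e2⟩ := p4 _ (detGU_mem_uNormOne hq c)
    obtain ⟨d, d1, d2, d3⟩ := exists_unitary_commute_det_eq hq.invol y0 p1 p2 (y1 ▸ p3) e1
    obtain ⟨d, rfl⟩ := exists_GU_coe_eq hq d1
    refine ⟨d, Subtype.ext (Units.ext ?_), Units.ext (d3.trans e2)⟩
    exact (hy ▸ d2.smul_left ε :)
  · rw [coe_suToGU, coe_suToGU, show (((y * g : SU n F q) : SpecialLinearGroup (Fin n) F) :
      Matrix (Fin n) (Fin n) F) = ε • Y * g.1.1 from hy ▸ rfl, hy, Matrix.smul_mul, edM_smul _ (ne_zero_of_norm h2), edM_smul _ (ne_zero_of_norm h2),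
      y1, y2]

variable (σ) in
/-- A polynomial coprime to its dual. -/
def Good (χ : F[X]) : Prop := χ.Monic ∧ χ.coeff 0 ≠ 0 ∧ IsCoprime χ (uDual σ χ)

variable (σ) in
/-- A good polynomial without roots. -/
def G2 (χ : F[X]) : Prop := Good σ χ ∧ ∀ x, χ.eval x ≠ 0

/-- Coprime to all polynomials with property `c`. -/
def Cop (c : F[X] → Prop) (a : Multiset F[X]) : Prop := ∀ χ, c χ → IsCoprime χ a.prod

variable {c c' : F[X] → Prop}

theorem Cop.add (h : Cop c a) (h' : Cop c b) : Cop c (a + b) := fun χ e => by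
  rw [Multiset.prod_add]
  exact (h χ e).mul_right (h' χ e)

theorem Cop.mono (h : Cop c a) (e : c' ≤ c) : Cop c' a := fun χ x => h χ (e χ x)

theorem g2_le : G2 σ ≤ Good σ := fun _ h => h.1

theorem Good.dual (hσ : UInvol σ) {χ : F[X]} (h : Good σ χ) : Good σ (uDual σ χ) :=
  ⟨monic_uDual h.2.1, by rw [coeff_zero_uDual h.1]; simpa using h.2.1,
    by rw [uDual_uDual hσ h.1 h.2.1]; exact h.2.2.symm⟩

theorem eval_uDual {f : F[X]} {c : F} (hc : c ≠ 0) (h : f.eval c = 0) :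
    (uDual σ f).eval (σ c)⁻¹ = 0 := by
  have := aeval_recip_eq_zero (x := σ c) (y := (σ c)⁻¹) (e := f.map σ)
    (mul_inv_cancel₀ ((map_ne_zero σ).2 hc)) (by rw [coe_aeval_eq_eval, eval_map_apply, h, map_zero])
  rwa [coe_aeval_eq_eval] at this

theorem Good.eval_ne {χ : F[X]} (h : Good σ χ) {c : F} (hc : c * σ c = 1) : χ.eval c ≠ 0 :=
  fun e => by
    have := eval_uDual (σ := σ) (ne_zero_of_norm hc) e
    rw [← eq_inv_of_mul_eq_one_left hc] at this
    obtain ⟨u, v, e'⟩ := h.2.2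
    simpa [e, this] using congrArg (eval c) e'

theorem G2.dual (hσ : UInvol σ) {χ : F[X]} (h : G2 σ χ) : G2 σ (uDual σ χ) :=
  ⟨h.1.dual hσ, fun x e => by
    have x0 : x ≠ 0 := by
      rintro rfl
      exact (h.1.dual hσ).2.1 (by rwa [coeff_zero_eq_eval_zero])
    have := eval_uDual (σ := σ) x0 e
    rw [uDual_uDual hσ h.1.1 h.1.2.1] at this
    exact h.2 _ this⟩

theorem cop_lin {x : F} (hc : x * σ x = 1) : Cop (Good σ) {X - C x} := fun _ h => by
  rw [Multiset.prod_singleton]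
  exact isCoprime_X_sub_C (h.eval_ne hc)

theorem cop_g2 (x : F) : Cop (G2 σ) {X - C x} := fun _ h => by
  rw [Multiset.prod_singleton]
  exact isCoprime_X_sub_C (h.2 x)

theorem cop_zero : Cop c 0 := fun _ _ => isCoprime_one_right

theorem cop_bot : Cop ⊥ a := fun _ => False.elim

variable (σ) in
/-- Passing an eigenvalue of norm one through `s`; with spectrum coprime to the polynomials
in `c`, and optionally a large centraliser (`i`) and prescribed determinant (`d`). -/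
def FX (c : F[X] → Prop) (i d : Prop) (s : Multiset F[X]) : Prop :=
  ∀ l' D₀ : F, l' * σ l' = 1 → D₀ * σ D₀ = 1 → ∃ l D a b, l * σ l = 1 ∧ TrU σ s a b D ∧
    a + {X - C l} = b + {X - C l'} ∧ (Cop c a ∧ Cop c b) ∧ (i → Sp σ a) ∧ (d → D = D₀)

variable {i d i' d' : Prop}

theorem FX.mono (h : FX σ c i d s) (h1 : c' ≤ c) (h2 : i' → i) (h3 : d' → d) : FX σ c' i' d' s :=
  fun l' D₀ e e' =>
    let ⟨l, D, a, b, k1, k2, k3, k4, k5, k6⟩ := h l' D₀ e e'
    ⟨l, D, a, b, k1, k2, k3, ⟨k4.1.mono h1, k4.2.mono h1⟩, k5 ∘ h2, k6 ∘ h3⟩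

theorem FX.add (h : FX σ c i d s) (h' : FX σ c i' d' t) : FX σ c (i ∨ i') d (s + t) :=
  fun l' D₀ e e' => by
    obtain ⟨l, D, a, b, k1, k2, k3, k4, k5, -⟩ := h' l' D₀ e e'
    obtain ⟨l₂, D₂, a₂, b₂, j1, j2, j3, j4, j5, j6⟩ := h l (D₀ * D⁻¹) k1
      (norm_mul e' (norm_inv k2.norm))
    refine ⟨l₂, _, _, _, j1, j2.add k2, bal_add k3 j3,
      ⟨j4.1.add k4.1, j4.2.add k4.2⟩, fun x => x.elim
        (fun x => (j5 x).mono le_self_add) fun x => (k5 x).mono le_add_self, fun x => ?_⟩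
    rw [j6 x, inv_mul_cancel_right₀ (ne_zero_of_norm k2.norm)]

theorem FX.add' (h : FX σ c i d s) (h' : FX σ c i' d' t) : FX σ c i d (s + t) :=
  (h.add h').mono le_rfl Or.inl id

theorem FX.weak (h : FX σ c i d s) : FX σ ⊥ False False s := h.mono bot_le False.elim False.elim

theorem fx_zero : FX σ c False False 0 := fun l' _ e _ =>
  ⟨l', 1, 0, 0, e, trU_zero, rfl, ⟨cop_zero, cop_zero⟩, False.elim, False.elim⟩

theorem fx_lin {ζ : F} (h : ζ * σ ζ = 1) : FX σ (Good σ) i False {X - C ζ} := fun l' _ e _ => by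
  have u : ∀ x : F, x * σ x = 1 → uStar σ (Matrix.of fun _ _ : Unit => x) *
      (Matrix.of fun _ _ => x) = 1 := fun x hx => by
    ext; simp [Matrix.mul_apply, uStar_apply, mul_comm, hx]
  exact ⟨l' * ζ, l', {X - C l'}, {X - C (l' * ζ)}, norm_mul e h,
    ⟨Unit, inferInstance, inferInstance, _, _, u ζ h, u l' e, edM_unit _, edM_unit _,
      by rw [edM_unit]; simp [Matrix.mul_apply], by simp⟩, add_comm _ _,
    ⟨cop_lin e, cop_lin (norm_mul e h)⟩, fun _ => sp_of_lin (Multiset.mem_singleton_self _),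
    False.elim⟩

theorem fx_of_bal (h : TrU σ s a a D) (h' : Cop c a) : FX σ c False False s := fun l' _ e _ =>
  ⟨l', D, a, a, e, h, rfl, ⟨h', h'⟩, False.elim, False.elim⟩

theorem FX.done_of (h : FX σ c True d s) (hs : dt s = 1)
    (hd : d ∨ ∀ δ : F, δ * σ δ = 1 → ∃ ε : F, ε * σ ε = 1 ∧ ε ^ dg s = δ) : Done σ s := by
  obtain ⟨l, D, a, b, -, k2, k3, -, k5, k6⟩ := h 1 1 (by simp) (by simp)
  obtain rfl : l = 1 := by rw [k2.eq_of_bal k3, hs, one_mul]
  obtain rfl := add_right_cancel k3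
  rcases hd with hd | hd
  · exact ⟨a, D, 1, k2, k5 trivial, by simp, by simp [k6 hd]⟩
  · obtain ⟨ε, e1, e2⟩ := hd _ (norm_inv k2.norm)
    exact ⟨a, D, ε, k2, k5 trivial, e1, by rw [e2, inv_mul_cancel₀ (ne_zero_of_norm k2.norm)]⟩

theorem FX.done (h : FX σ ⊥ True True s) (h' : FX σ ⊥ i d t) (hs : dt (s + t) = 1) :
    Done σ (s + t) := (h.add' h').done_of hs (Or.inl trivial)

end Cfsg.Agent.Cl.OreU
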