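import Mathlib
import Cfsg.Agent.Cl.OreUA

/-! Commutators in special unitary groups: monomial matrices, good polynomials, and the
factorisation through opposite parabolic subgroups. -/

set_option autoImplicit false
set_option linter.unusedSectionVars false

open Matrix Polynomial Sum Module

namespace Cfsg.Agent.Cl.OreU

open Cls Ore

variable {F : Type*} [Field F] {σ : F →+* F} {s t a b a' b' : Multiset F[X]} {D D' : F}

/-- A weighted cyclic shift. -/
def mono {n : ℕ} (d : Fin (n + 1) → F) : Matrix (Fin (n + 1)) (Fin (n + 1)) F :=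
  Matrix.of fun i j => if i = j + 1 then d j else 0

theorem mono_pow {n : ℕ} (d : Fin (n + 1) → F) (k : ℕ) : mono d ^ k *ᵥ Pi.single 0 1 =
    Pi.single (Fin.ofNat (n + 1) k) (∏ i ∈ Finset.range k, d (Fin.ofNat (n + 1) i)) := by
  induction k with
  | zero => rw [pow_zero, Matrix.one_mulVec]; rfl
  | succ k ih =>
    rw [pow_succ', ← Matrix.mulVec_mulVec, ih, Matrix.mulVec_single, Finset.prod_range_succ,
      show Fin.ofNat (n + 1) (k + 1) = Fin.ofNat (n + 1) k + 1 from Fin.ext (by simp [Fin.val_add])]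
    ext i
    simp [mono, Pi.single_apply, mul_comm]

theorem mono_isCyc {n : ℕ} {d : Fin (n + 1) → F} (hd : ∀ j, d j ≠ 0) :
    IsCyc (mono d) (X ^ (n + 1) - C (∏ j, d j)) := by
  refine isCyc_of_kry (u := Pi.single 0 1) (fun S hS => ?_) (monic_X_pow_sub_C _ n.succ_ne_zero)
    (by rw [natDegree_X_pow_sub_C, Fintype.card_fin]) ?_
  · rw [eq_top_iff, ← (Pi.basisFun F _).span_eq, Submodule.span_le]
    rintro _ ⟨j, rfl⟩
    have := S.smul_mem (∏ i ∈ Finset.range j, d (Fin.ofNat (n + 1) i))⁻¹ (hS j (by simpa using j.2))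
    rwa [mono_pow, ← Pi.single_smul, smul_eq_mul,
      inv_mul_cancel₀ (Finset.prod_ne_zero_iff.2 fun _ _ => hd _), Fin.ofNat_val_eq_self,
      ← Pi.basisFun_apply] at this
  · rw [map_sub, map_pow, aeval_X, aeval_C, Matrix.sub_mulVec, mono_pow, Finset.prod_range,
      Algebra.algebraMap_eq_smul_one, Matrix.smul_mulVec, Matrix.one_mulVec, ← Pi.single_smul]
    simp

theorem mono_unitary {n : ℕ} {d : Fin (n + 1) → F} (hd : ∀ j, d j * σ (d j) = 1) :
    uStar σ (mono d) * mono d = 1 := by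
  ext i j
  rw [Matrix.mul_apply, Finset.sum_eq_single (j + 1) (fun k _ hk => by simp [mono, hk]) (by simp)]
  by_cases h : i = j
  · subst h; simp [uStar_apply, mono, mul_comm, hd]
  · simp [uStar_apply, mono, h, Ne.symm h]

theorem trU_mono {L : Multiset F} (hL : ∀ ζ ∈ L, ζ * σ ζ = 1) (h0 : L ≠ 0) (hp : L.prod = 1)
    {c : F} (hc : c * σ c = 1) : TrU σ (L.map fun ζ => X - C ζ) (ce (X ^ L.card - C c))
      (ce (X ^ L.card - C c)) ((-1) ^ (L.card + 1) * c) := by
  obtain ⟨n, z, rfl⟩ : ∃ (n : ℕ) (z : Fin (n + 1) → F), Finset.univ.val.map z = L := by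
    have h1 := exists_univ_map_eq L
    obtain ⟨n, hn⟩ := Nat.exists_eq_succ_of_ne_zero (Multiset.card_pos.2 h0).ne'
    exact ⟨n, by rwa [hn] at h1⟩
  have hz : ∀ j, z j * σ (z j) = 1 := fun j =>
    hL _ (Multiset.mem_map_of_mem _ (Finset.mem_univ_val j))
  let d : Fin (n + 1) → F := Function.update 1 0 c
  have hd : ∀ j, d j * σ (d j) = 1 := fun j => by
    by_cases h : j = 0 <;> simp [d, h, hc]
  have p1 : ∏ j, d j = c := by simp [d, Finset.prod_update_of_mem]
  have p2 : ∏ j, (d * z) j = c := by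
    simp only [Pi.mul_apply, Finset.prod_mul_distrib, p1]
    rw [show ∏ j, z j = 1 from hp, mul_one]
  have hm := monic_X_pow_sub_C c n.succ_ne_zero
  have c1 := p1 ▸ mono_isCyc fun j => ne_zero_of_norm (hd j)
  have c2 := p2 ▸ mono_isCyc (d := d * z) fun j => ne_zero_of_norm (norm_mul (hd j) (hz j))
  rw [show Multiset.card (Finset.univ.val.map z) = n + 1 by simp]
  refine ⟨Fin (n + 1), inferInstance, inferInstance, diagonal z, mono d, ?_, mono_unitary hd,
    by rw [edM_diagonal, Multiset.map_map]; rfl, edM_ce c1 hm, ?_, ?_⟩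
  · rw [uStar, diagonal_map (map_zero σ), diagonal_transpose, diagonal_mul_diagonal]
    simp [mul_comm, hz]
  · rw [← edM_ce c2 hm]
    congr 1
    ext i j
    simp [mono, Matrix.mul_diagonal]
  · rw [c1.det hm, dd, natDegree_X_pow_sub_C, pow_succ _ (n + 1)]
    simp

variable [Finite F]

theorem sp_X_pow {m : ℕ} (hm : m ≠ 0) {c : F} (hc : c ≠ 0) : Sp σ (ce (X ^ m - C c)) := by
  obtain ⟨p, hp⟩ := CharP.exists F
  have : Fact p.Prime := ⟨CharP.char_is_prime F p⟩
  obtain ⟨j, r, hr, rfl⟩ := Nat.exists_eq_pow_mul_and_not_dvd hm p (Fact.out : p.Prime).ne_one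
  have bij := (iterateFrobeniusEquiv F p j).bijective
  obtain ⟨c, rfl⟩ := bij.2 c
  have c0 : c ≠ 0 := by rintro rfl; simp at hc
  have r0 : r ≠ 0 := right_ne_zero_of_mul hm
  have sq := (separable_X_pow_sub_C c (n := r) (by rwa [Ne, CharP.cast_eq_zero_iff F p]) c0).squarefree
  have hm' := monic_X_pow_sub_C c r0
  obtain ⟨P, p1, p2, h, e⟩ := exists_monic_irreducible_factor _ (not_isUnit_of_natDegree_pos
    (X ^ r - C c) (by rw [natDegree_X_pow_sub_C]; omega))
  have h1 : h.Monic := p1.of_mul_monic_left (e ▸ hm')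
  have cp : IsCoprime P h := (IsRelPrime.of_squarefree_mul (e ▸ sq)).isCoprime
  refine ⟨P, p ^ j, p1, p2, ?_, fun δ hδ => ?_⟩
  · rw [iterateFrobeniusEquiv_def, C_pow, mul_comm, pow_mul, ← sub_pow_char_pow, e, mul_pow,
      ce_mul (p1.pow _) (h1.pow _) cp.pow, ce_pp (isPP_pow p1 p2 (pow_pos (Fact.out : p.Prime).pos j))]
    simp
  · obtain ⟨ε, rfl⟩ := bij.2 δ
    exact ⟨ε, bij.1 (by rw [map_one, ← hδ]; simp only [iterateFrobeniusEquiv_def, mul_pow, map_pow]), rfl⟩

theorem df_lines {L : Multiset F} (hL : ∀ ζ ∈ L, ζ * σ ζ = 1) (h0 : L ≠ 0) (hp : L.prod = 1) :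
    FX σ ⊥ True True (L.map fun ζ => X - C ζ) := fun l' D e e' => by
  have h1 : ((-1 : F) ^ (L.card + 1)) * (-1) ^ (L.card + 1) = 1 := by rw [← mul_pow]; simp
  have hc : (-1) ^ (L.card + 1) * D * σ ((-1) ^ (L.card + 1) * D) = 1 :=
    norm_mul (by simpa using h1) e'
  exact ⟨l', _, _, _, e, trU_mono hL h0 hp hc, rfl, ⟨cop_bot, cop_bot⟩,
    fun _ => sp_X_pow (Multiset.card_pos.2 h0).ne' (ne_zero_of_norm hc),
    fun _ => by rw [← mul_assoc, h1, one_mul]⟩

theorem exists_good {q m : ℕ} (hq : UField σ q) (hm : 2 ≤ m) (hD : D ≠ 0) :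
    ∃ χ, G2 σ χ ∧ Irreducible χ ∧ χ.natDegree = m ∧ dd χ = D := by
  obtain ⟨p, k, hp, _, -, hk⟩ := hq.exists_prime_pow
  have : Fact p.Prime := ⟨hp⟩
  have : NeZero m := ⟨by omega⟩
  have q2 := hq.two_le
  let E := FiniteField.Extension F p m
  have : CharP E p := charP_of_injective_algebraMap (algebraMap F E).injective p
  obtain ⟨γ, hγ'⟩ := IsCyclic.exists_generator (α := Eˣ)
  have hγ := orderOf_eq_card_of_forall_mem_zpowers hγ'
  rw [Nat.card_units, FiniteField.natCard_extension, hq.card, ← orderOf_units] at hγ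
  obtain ⟨u, hu⟩ : ∃ u, q ^ 2 = u + 2 := Nat.exists_eq_add_of_le' (by nlinarith)
  obtain ⟨i, hi, hi'⟩ : ∃ i < u + 1, Algebra.norm F ((γ : E) ^ (i + 1)) = D := by
    obtain ⟨x, rfl⟩ := FiniteField.norm_surjective F E D
    have x0 : x ≠ 0 := by rintro rfl; simp at hD
    obtain ⟨j, hj⟩ := mem_powers_iff_mem_zpowers.2 (hγ' (Units.mk0 x x0))
    have h1 : Algebra.norm F (γ : E) ^ (u + 1) = 1 := by
      have := Fintype.ofFinite F
      have := FiniteField.pow_card_sub_one_eq_one (Algebra.norm F (γ : E)) (by simp)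
      rwa [← Nat.card_eq_fintype_card, hq.card, hu] at this
    refine ⟨(j + u) % (u + 1), Nat.mod_lt _ u.succ_pos, ?_⟩
    rw [map_pow, pow_succ, ← pow_eq_pow_mod _ h1, ← pow_succ, add_assoc, pow_add, h1, mul_one,
      ← map_pow, ← Units.val_pow_eq_pow_val, show γ ^ j = _ from hj, Units.val_mk0]
  set α := (γ : E) ^ (i + 1) with hα
  have α0 : α ≠ 0 := pow_ne_zero _ γ.ne_zero
  have key : ∀ N, 0 < N → (u + 1) * N + 1 < (q ^ 2) ^ m → α ^ N ≠ 1 := fun N h1 h2 => by
    rw [hα, ← pow_mul]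
    refine pow_ne_one_of_lt_orderOf (by positivity) ?_
    have := Nat.mul_le_mul_right N (show i + 1 ≤ u + 1 from hi)
    omega
  clear_value α
  have hI : IsIntegral F α := .of_finite F α
  have m1 := minpoly.monic hI
  have m2 := minpoly.irreducible hI
  have m3 : (minpoly F α).natDegree = m := by
    refine le_antisymm ((minpoly.natDegree_le α).trans (FiniteField.finrank_extension F p m).le)
      (not_lt.1 fun h => ?_)
    have h1 := (minpoly.dvd_iff.1 (m2.natDegree_dvd_iff_dvd_X_pow_card_pow_sub_X.1 dvd_rfl))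
    have h2 := minpoly.natDegree_pos hI
    generalize (minpoly F α).natDegree = d at *
    obtain ⟨N, hN⟩ : ∃ N, (q ^ 2) ^ d = N + 2 := Nat.exists_eq_add_of_le'
      (le_trans (by omega) (Nat.le_self_pow h2.ne' _))
    simp only [map_sub, map_pow, aeval_X, hq.card, hN, sub_eq_zero] at h1
    refine key (N + 1) N.succ_pos ?_ (mul_right_cancel₀ α0 (by rw [← pow_succ, h1, one_mul]))
    have := Nat.pow_le_pow_right (show 0 < q ^ 2 by omega) (show d + 1 ≤ m from h)
    rw [pow_succ, hN] at this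
    nlinarith
  have c0 := minpoly.coeff_zero_ne_zero hI α0
  refine ⟨_, ⟨⟨m1, c0, m2.coprime_iff_not_dvd.2 fun h => ?_⟩, fun x =>
    m2.not_isRoot_of_natDegree_ne_one (by omega)⟩, m2, m3, ?_⟩
  · let φ := iterateFrobenius E p k
    have hφ : ∀ x, φ x = x ^ q := fun x => by rw [hk]; rfl
    have h1 := aeval_recip_eq_zero (mul_inv_cancel₀ α0) (minpoly.dvd_iff.1 h)
    rw [uDual, recip_recip (m1.map σ) (coeff_zero_map_ne_zero c0)] at h1
    have h2 : aeval (φ α⁻¹) (minpoly F α) = 0 := by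
      rw [← map_zero φ, ← h1, aeval_def, aeval_def, hom_eval₂, eval₂_map]
      congr 1
      ext x
      simp [hφ, ← map_pow, ← hq.pow, hq.invol.invol]
    obtain ⟨τ, hτ⟩ := (isConjRoot_of_aeval_eq_zero hI h2).symm.exists_algEquiv
    obtain ⟨r, hr, rfl⟩ := FiniteField.Extension.exists_frob_pow_eq F p m τ
    rw [FiniteField.Extension.frob_iterate_apply, hq.card, map_inv₀, ← pow_mul q] at hτ
    obtain ⟨w, rfl⟩ := Nat.exists_eq_add_of_le' hm
    obtain ⟨v, hv, hv'⟩ : ∃ v ≤ w, α ^ (q ^ (2 * v + 1) + 1) = 1 := by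
      have h3 := (congrArg (· * φ α) hτ).trans (inv_mul_cancel₀ ((map_ne_zero φ).2 α0))
      rcases r with _ | r
      · exact ⟨0, by omega, by simpa [hφ, pow_succ'] using h3⟩
      · refine ⟨r, by omega, φ.injective ?_⟩
        rw [map_one, ← h3, pow_succ, map_mul, hφ, ← pow_mul, ← pow_succ]
        rfl
    refine key _ (by positivity) ?_ hv'
    have h4 := Nat.pow_le_pow_right (show 0 < q by omega) (show 2 * v + 1 ≤ 2 * w + 1 by omega)
    have h5 := Nat.le_self_pow (show 2 * w + 1 ≠ 0 by omega) q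
    rw [← pow_mul, show 2 * (w + 2) = 2 * w + 1 + 2 + 1 by ring, pow_succ _ (_ + 2), pow_add _ _ 2, hu]
    generalize q ^ (2 * w + 1) = A, q ^ (2 * v + 1) = A' at *
    have h6 := Nat.mul_le_mul_left (A * (u + 2)) q2
    have h7 := Nat.mul_le_mul_left (u + 1) h4
    nlinarith
  · have : minpoly F α = (Algebra.lmul F E α).charpoly := eq_of_monic_of_dvd_of_natDegree_le m1
      (LinearMap.charpoly_monic _) (minpoly.algHom_eq (Algebra.lmul F E) Algebra.lmul_injective α ▸
        LinearMap.minpoly_dvd_charpoly _)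
      (by rw [m3, LinearMap.charpoly_natDegree, FiniteField.finrank_extension]) |>.symm
    rw [dd, m3, this, ← hi', Algebra.norm_apply, LinearMap.det_eq_sign_charpoly_coeff,
      FiniteField.finrank_extension]

end Cfsg.Agent.Cl.OreU
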