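import Mathlib
import Cfsg.Agent.Cl.OreUB

/-! Commutators in special unitary groups: factorisation through opposite parabolic
subgroups. -/

set_option autoImplicit false
set_option linter.unusedSectionVars false

open Matrix Polynomial Sum Module

namespace Cfsg.Agent.Cl.OreU

open Cls Ore

variable {F : Type*} [Field F] {σ : F →+* F} {s t a b a' b' α α' ω ω' : Multiset F[X]} {D D' : F}
  {ι κ ι' κ' : Type} [Fintype ι] [DecidableEq ι] [Fintype κ] [DecidableEq κ] [Fintype ι']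
  [DecidableEq ι'] [Fintype κ'] [DecidableEq κ']

variable (σ) in
/-- Conjugate transpose of a rectangular matrix. -/
def cs (A : Matrix ι κ F) : Matrix κ ι F := (A.map σ)ᵀ

theorem cs_eq (A : Matrix ι ι F) : cs σ A = uStar σ A := rfl

theorem cs_mul (A : Matrix ι κ F) (B : Matrix κ ι' F) : cs σ (A * B) = cs σ B * cs σ A := by
  rw [cs, Matrix.map_mul, transpose_mul]; rfl

@[simp] theorem cs_zero : cs σ (0 : Matrix ι κ F) = 0 := by ext; simp [cs]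

@[simp] theorem cs_one : cs σ (1 : Matrix ι ι F) = 1 := uStar_one

theorem cs_neg (A : Matrix ι κ F) : cs σ (-A) = -cs σ A := by ext; simp [cs]

theorem cs_cs (hσ : UInvol σ) (A : Matrix ι κ F) : cs σ (cs σ A) = A := by
  ext; simp [cs, hσ.invol]

/-- A three by three block matrix. -/
def B3 (a : Matrix ι ι F) (b : Matrix ι κ F) (c : Matrix ι ι F) (d : Matrix κ ι F)
    (e : Matrix κ κ F) (f : Matrix κ ι F) (g : Matrix ι ι F) (h : Matrix ι κ F)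
    (k : Matrix ι ι F) : Matrix (ι ⊕ κ ⊕ ι) (ι ⊕ κ ⊕ ι) F :=
  fromBlocks a (fromCols b c) (fromRows d g) (fromBlocks e f h k)

section
variable {A A' C₁ C₂ G G' K K' : Matrix ι ι F} {B B' H H' : Matrix ι κ F}
  {P P' R R' : Matrix κ ι F} {E E' : Matrix κ κ F}

theorem B3_mul : B3 A B C₁ P E R G H K * B3 A' B' C₂ P' E' R' G' H' K' =
    B3 (A * A' + B * P' + C₁ * G') (A * B' + B * E' + C₁ * H') (A * C₂ + B * R' + C₁ * K')
      (P * A' + E * P' + R * G') (P * B' + E * E' + R * H') (P * C₂ + E * R' + R * K')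
      (G * A' + H * P' + K * G') (G * B' + H * E' + K * H') (G * C₂ + H * R' + K * K') := by
  ext (i | i | i) (j | j | j) <;> simp [B3, Matrix.mul_apply, Fintype.sum_sum_type, add_assoc]

theorem B3_inj : B3 A B C₁ P E R G H K = B3 A' B' C₂ P' E' R' G' H' K' ↔ A = A' ∧ B = B' ∧
    C₁ = C₂ ∧ P = P' ∧ E = E' ∧ R = R' ∧ G = G' ∧ H = H' ∧ K = K' := by
  simp only [B3, fromBlocks_inj, fromCols_ext_iff, fromRows_ext_iff]
  tauto

theorem uStar_B3 : uStar σ (B3 A B C₁ P E R G H K) = B3 (cs σ A) (cs σ P) (cs σ G) (cs σ B)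
    (cs σ E) (cs σ H) (cs σ C₁) (cs σ R) (cs σ K) := by
  ext (i | i | i) (j | j | j) <;> rfl

theorem exists_B3 (M : Matrix (ι ⊕ κ ⊕ ι) (ι ⊕ κ ⊕ ι) F) :
    ∃ A B C₁ P E R G H K, M = B3 A B C₁ P E R G H K :=
  ⟨M.submatrix inl inl, M.submatrix inl (inr ∘ inl), M.submatrix inl (inr ∘ inr),
    M.submatrix (inr ∘ inl) inl, M.submatrix (inr ∘ inl) (inr ∘ inl),
    M.submatrix (inr ∘ inl) (inr ∘ inr), M.submatrix (inr ∘ inr) inl,
    M.submatrix (inr ∘ inr) (inr ∘ inl), M.submatrix (inr ∘ inr) (inr ∘ inr), by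
      ext (i | i | i) (j | j | j) <;> rfl⟩

theorem edM_B3_lower (h1 : IsCoprime A.charpoly (E.charpoly * K.charpoly))
    (h2 : IsCoprime E.charpoly K.charpoly) :
    edM (B3 A 0 0 P E 0 G H K) = edM A + (edM E + edM K) := by
  rw [B3, fromCols_zero, edM_lower (by rwa [charpoly_fromBlocks_zero₁₂]), edM_lower h2]

theorem edM_B3_upper (h1 : IsCoprime A.charpoly (E.charpoly * K.charpoly))
    (h2 : IsCoprime E.charpoly K.charpoly) :
    edM (B3 A B C₁ 0 E R 0 0 K) = edM A + (edM E + edM K) := by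
  rw [B3, fromRows_zero, edM_upper (by rwa [charpoly_fromBlocks_zero₂₁]), edM_upper h2]

theorem det_B3_lower : (B3 A 0 0 P E 0 G H K).det = A.det * (E.det * K.det) := by
  rw [B3, fromCols_zero, det_fromBlocks_zero₁₂, det_fromBlocks_zero₁₂]

theorem det_B3_upper : (B3 A B C₁ 0 E R 0 0 K).det = A.det * (E.det * K.det) := by
  rw [B3, fromRows_zero, det_fromBlocks_zero₂₁, det_fromBlocks_zero₂₁]

end

variable (F ι κ) in
/-- The Gram matrix of a Witt basis. -/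
def J3 : Matrix (ι ⊕ κ ⊕ ι) (ι ⊕ κ ⊕ ι) F := B3 0 0 1 0 1 0 1 0 0

variable (σ) in
/-- Unitary for the Witt basis. -/
def JU (G : Matrix (ι ⊕ κ ⊕ ι) (ι ⊕ κ ⊕ ι) F) : Prop := uStar σ G * J3 F ι κ * G = J3 F ι κ

theorem JU.mul {G G' : Matrix (ι ⊕ κ ⊕ ι) (ι ⊕ κ ⊕ ι) F} (h : JU σ G) (h' : JU σ G') :
    JU σ (G * G') := by
  rw [JU, uStar_mul]
  calc _ = uStar σ G' * (uStar σ G * J3 F ι κ * G) * G' := by simp only [Matrix.mul_assoc]
    _ = _ := by rw [h, h']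

theorem isUnit_J3 : IsUnit (J3 F ι κ) :=
  IsUnit.of_mul_eq_one (J3 F ι κ) (by
    rw [J3, B3_mul]
    ext (i | i | i) (j | j | j) <;> simp [B3, Matrix.one_apply])

theorem JU.upper {A N₂ A' : Matrix ι ι F} {N₁ H : Matrix ι κ F} {N₃ : Matrix κ ι F}
    {E : Matrix κ κ F} (h : JU σ (B3 A N₁ N₂ 0 E N₃ 0 H A')) :
    uStar σ A * H = 0 ∧ uStar σ A * A' = 1 ∧ (H = 0 → uStar σ E * E = 1) := by
  rw [JU, J3, uStar_B3, B3_mul, B3_mul, B3_inj] at h
  obtain ⟨-, h1, h2, -, h3, -⟩ := h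
  refine ⟨by simpa [← cs_eq] using h1, by simpa [← cs_eq] using h2, ?_⟩
  rintro rfl
  simpa [← cs_eq] using h3

variable (σ) in
/-- A unitary element with divisors `s` in the big cell of a parabolic subgroup, with Levi
components `α` (linear) and `ω` (unitary). -/
def GD (s α ω : Multiset F[X]) : Prop :=
  ∃ (ι κ : Type) (_ : Fintype ι) (_ : DecidableEq ι) (_ : Fintype κ) (_ : DecidableEq κ)
    (G : Matrix (ι ⊕ κ ⊕ ι) (ι ⊕ κ ⊕ ι) F) (A N₂ A' Q : Matrix ι ι F) (N₁ R : Matrix ι κ F)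
    (N₃ P : Matrix κ ι F) (E : Matrix κ κ F), JU σ G ∧ JU σ (B3 1 0 0 P 1 0 Q R 1) ∧
    B3 1 0 0 P 1 0 Q R 1 * G = B3 A N₁ N₂ 0 E N₃ 0 0 A' ∧ edM G = s ∧ edM A = α ∧ edM E = ω

theorem gd_mk (hσ : UInvol σ) {A C₁ G K : Matrix ι ι F} {B H : Matrix ι κ F} {P R : Matrix κ ι F}
    {E : Matrix κ κ F} (h : JU σ (B3 A B C₁ P E R G H K)) (hA : IsUnit A) :
    GD σ (edM (B3 A B C₁ P E R G H K)) (edM A) (edM (E - P * A⁻¹ * B)) ∧
      uStar σ (E - P * A⁻¹ * B) * (E - P * A⁻¹ * B) = 1 := by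
  have i1 : A⁻¹ * A = 1 := Matrix.nonsing_inv_mul _ ((isUnit_iff_isUnit_det _).1 hA)
  have i2 : A * A⁻¹ = 1 := mul_eq_one_comm.1 i1
  have h0 : cs σ G * A + cs σ P * P + cs σ A * G = 0 := by
    rw [JU, J3, uStar_B3, B3_mul, B3_mul, B3_inj] at h
    simpa using h.1
  set p := P * A⁻¹ with hp
  set q := G * A⁻¹ with hq
  have e1 : p * A = P := by rw [hp, Matrix.mul_assoc, i1, Matrix.mul_one]
  have e2 : q * A = G := by rw [hq, Matrix.mul_assoc, i1, Matrix.mul_one]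
  have h1 : cs σ q + cs σ p * p + q = 0 := by
    have : cs σ A⁻¹ * (cs σ G * A + cs σ P * P + cs σ A * G) * A⁻¹ = 0 := by simp [h0]
    rw [← this, hp, hq, cs_mul, cs_mul]
    simp only [Matrix.mul_add, Matrix.add_mul, Matrix.mul_assoc, i2, Matrix.mul_one]
    rw [← Matrix.mul_assoc _ (cs σ A), ← cs_mul A, i2, cs_one, Matrix.one_mul]
  have hL : JU σ (B3 1 0 0 (-p) 1 0 (cs σ q) (cs σ p) 1) := by
    rw [JU, J3, uStar_B3, B3_mul, B3_mul, B3_inj]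
    simp only [cs_neg, cs_cs hσ, cs_one, cs_zero, Matrix.mul_zero, Matrix.zero_mul, Matrix.mul_one,
      Matrix.one_mul, add_zero, zero_add, Matrix.neg_mul, Matrix.mul_neg, neg_neg, neg_add_cancel,
      and_true, true_and]
    exact ⟨by rw [← h1]; abel, by simp⟩
  have z2 : cs σ q * A + cs σ p * P + G = 0 := by
    have := congrArg (· * A) h1
    simpa only [Matrix.add_mul, Matrix.mul_assoc, e1, e2, Matrix.zero_mul] using this
  have hM : B3 1 0 0 (-p) 1 0 (cs σ q) (cs σ p) 1 * B3 A B C₁ P E R G H K = B3 A B C₁ 0 (E - p * B)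
      (R - p * C₁) 0 (cs σ q * B + cs σ p * E + H) (cs σ q * C₁ + cs σ p * R + K) := by
    rw [B3_mul, B3_inj]
    simp [e1, z2, sub_eq_neg_add]
  have z3 : cs σ q * B + cs σ p * E + H = 0 := by
    have := congrArg (cs σ A⁻¹ * ·) (hM ▸ hL.mul h).upper.1
    simp only [Matrix.mul_zero] at this
    rwa [← Matrix.mul_assoc, ← cs_eq, ← cs_mul, i2, cs_one, Matrix.one_mul] at this
  rw [z3] at hM
  exact ⟨⟨ι, κ, inferInstance, inferInstance, inferInstance, inferInstance, _, A, _, _, _, _, _, _,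
    _, _, h, hL, hM, rfl, rfl, rfl⟩, (hM ▸ hL.mul h).upper.2.2 rfl⟩

theorem GD.un (h : GD σ s α ω) : Un σ ω := by
  obtain ⟨ι, κ, _, _, _, _, G, A, N₂, A', Q, N₁, R, N₃, P, E, h1, h2, h3, -, -, rfl⟩ := h
  exact ⟨κ, inferInstance, inferInstance, E, (h3 ▸ h2.mul h1).upper.2.2 rfl, rfl⟩

theorem GD.dg (h : GD σ s α ω) : dg s = dg α + (dg ω + dg α) := by
  obtain ⟨ι, κ, _, _, _, _, G, A, N₂, A', Q, N₁, R, N₃, P, E, -, -, -, rfl, rfl, rfl⟩ := h
  simp [dg_edM]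

theorem GD.det (h : GD σ s α ω) : dt s * σ (dt α) = dt α * dt ω := by
  obtain ⟨ι, κ, _, _, _, _, G, A, N₂, A', Q, N₁, R, N₃, P, E, h1, h2, h3, rfl, rfl, rfl⟩ := h
  have e := congrArg Matrix.det (h3 ▸ h2.mul h1).upper.2.1
  have := congrArg Matrix.det h3
  simp only [det_mul, det_B3_lower, det_B3_upper, det_one, one_mul, det_uStar] at this e
  simp only [dt_edM, this]
  linear_combination A.det * E.det * e

/-- Rearranging the index set of a sum. -/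
def eSum (ι κ ι' κ' : Type) : (ι ⊕ ι') ⊕ (κ ⊕ κ') ⊕ ι ⊕ ι' ≃ (ι ⊕ κ ⊕ ι) ⊕ ι' ⊕ κ' ⊕ ι' where
  toFun := Sum.elim (Sum.map inl inl)
    (Sum.elim (Sum.map (inr ∘ inl) (inr ∘ inl)) (Sum.map (inr ∘ inr) (inr ∘ inr)))
  invFun := Sum.elim (Sum.elim (inl ∘ inl) (Sum.elim (inr ∘ inl ∘ inl) (inr ∘ inr ∘ inl)))
    (Sum.elim (inl ∘ inr) (Sum.elim (inr ∘ inl ∘ inr) (inr ∘ inr ∘ inr)))
  left_inv := by rintro ((i | i) | (i | i) | i | i) <;> rfl
  right_inv := by rintro ((i | i | i) | i | i | i) <;> rfl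

theorem B3_sum {A C₁ G K : Matrix ι ι F} {B H : Matrix ι κ F} {P R : Matrix κ ι F}
    {E : Matrix κ κ F} {A' C₂ G' K' : Matrix ι' ι' F} {B' H' : Matrix ι' κ' F}
    {P' R' : Matrix κ' ι' F} {E' : Matrix κ' κ' F} :
    (fromBlocks (B3 A B C₁ P E R G H K) 0 0 (B3 A' B' C₂ P' E' R' G' H' K')).submatrix
      (eSum ι κ ι' κ') (eSum ι κ ι' κ') = B3 (fromBlocks A 0 0 A') (fromBlocks B 0 0 B')
      (fromBlocks C₁ 0 0 C₂) (fromBlocks P 0 0 P') (fromBlocks E 0 0 E') (fromBlocks R 0 0 R')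
      (fromBlocks G 0 0 G') (fromBlocks H 0 0 H') (fromBlocks K 0 0 K') := by
  ext ((i | i) | (i | i) | i | i) ((j | j) | (j | j) | j | j) <;> rfl

theorem JU.sum {G : Matrix (ι ⊕ κ ⊕ ι) (ι ⊕ κ ⊕ ι) F} {G' : Matrix (ι' ⊕ κ' ⊕ ι') (ι' ⊕ κ' ⊕ ι') F}
    (h : JU σ G) (h' : JU σ G') :
    JU σ ((fromBlocks G 0 0 G').submatrix (eSum ι κ ι' κ') (eSum ι κ ι' κ')) := by
  have : J3 F (ι ⊕ ι') (κ ⊕ κ') = (fromBlocks (J3 F ι κ) 0 0 (J3 F ι' κ')).submatrix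
      (eSum ι κ ι' κ') (eSum ι κ ι' κ') := by
    simp only [J3, B3_sum, fromBlocks_zero, fromBlocks_one]
  rw [JU, this, show uStar σ ((fromBlocks G 0 0 G').submatrix (eSum ι κ ι' κ') (eSum ι κ ι' κ')) =
    (uStar σ (fromBlocks G 0 0 G')).submatrix (eSum ι κ ι' κ') (eSum ι κ ι' κ') from rfl,
    submatrix_mul_equiv, submatrix_mul_equiv, uStar_fromBlocks, fromBlocks_multiply,
    fromBlocks_multiply]
  simp only [Matrix.mul_zero, Matrix.zero_mul, add_zero, zero_add]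
  rw [h, h']

theorem GD.add (h : GD σ s α ω) (h' : GD σ t α' ω') : GD σ (s + t) (α + α') (ω + ω') := by
  obtain ⟨ι, κ, _, _, _, _, G, A, N₂, A', Q, N₁, R, N₃, P, E, h1, h2, h3, rfl, rfl, rfl⟩ := h
  obtain ⟨ι', κ', _, _, _, _, G', B, M₂, B', Q', M₁, R', M₃, P', E', k1, k2, k3, rfl, rfl, rfl⟩ := h'
  have e := h2.sum k2
  have e' := submatrix_mul_equiv
    (fromBlocks (B3 1 0 0 P 1 0 Q R 1) 0 0 (B3 1 0 0 P' 1 0 Q' R' 1)) (fromBlocks G 0 0 G')
    (eSum ι κ ι' κ') (eSum ι κ ι' κ') (eSum ι κ ι' κ')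
  rw [fromBlocks_multiply, h3, k3] at e'
  simp only [Matrix.mul_zero, Matrix.zero_mul, add_zero, zero_add] at e'
  simp only [B3_sum, fromBlocks_zero, fromBlocks_one] at e e'
  exact ⟨_, _, inferInstance, inferInstance, inferInstance, inferInstance, _, _, _, _, _, _, _, _, _,
    _, h1.sum k1, e, e', by rw [edM_submatrix, edM_fromBlocks], edM_fromBlocks _ _,
    edM_fromBlocks _ _⟩

theorem gd_W (hσ : UInvol σ) (h : Un σ ω) : GD σ ω 0 ω := by
  obtain ⟨κ, _, _, E, h, rfl⟩ := h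
  have := And.left <| gd_mk (ι := Empty) hσ (A := 1) (C₁ := 0) (G := 0) (K := 0) (B := 0) (H := 0) (P := 0)
    (R := 0) (E := E) (by
      rw [JU, J3, uStar_B3, B3_mul, B3_mul, B3_inj]
      simpa [← cs_eq, eq_iff_true_of_subsingleton] using h) isUnit_one
  rwa [edM_B3_lower (by simp [isCoprime_one_left]) (by simp [isCoprime_one_right]), edM_empty,
    edM_empty (ι := Empty), zero_add, add_zero, Matrix.mul_zero, sub_zero] at this

theorem GD.addW (hσ : UInvol σ) (h : GD σ s α ω) (h' : Un σ t) : GD σ (s + t) α (ω + t) := by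
  simpa using h.add (gd_W hσ h')

variable [Finite F] {c c' : F[X] → Prop} {i d d' : Prop}

theorem GD.trU (hσ : UInvol σ) (h : GD σ s α ω) (h1 : Tr α a a D) (h2 : TrU σ ω b b' D')
    (g : Good σ a.prod) (c1 : c a.prod) (c2 : c (uDual σ a.prod)) (k : Cop c b) (k' : Cop c b') :
    TrU σ s (a + (b + a.map (uDual σ))) (a + (b' + a.map (uDual σ))) (D * (D' * (σ D)⁻¹)) := by
  obtain ⟨ι, κ, _, _, _, _, G, A, N₂, A', Q, N₁, R, N₃, P, E, j1, j2, j3, rfl, rfl, rfl⟩ := h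
  obtain ⟨-, u1, u2⟩ := (j3 ▸ j2.mul j1).upper
  obtain ⟨M, rfl, m2, rfl⟩ := h1.transfer
  obtain ⟨W, w0, rfl, rfl, rfl⟩ := h2.transfer hσ (u2 rfl)
  have hM : IsUnit M := (isUnit_iff_isUnit_det _).2 (by
    rw [det_eq_dd, charpoly_eq_prod_edM]; exact (dd_ne_zero g.2.1).isUnit)
  have hA : IsUnit A := by
    have := congrArg Matrix.det u1
    rw [det_mul, det_uStar, det_one] at this
    exact (isUnit_iff_isUnit_det _).2 (Ne.isUnit fun e => by simp [e] at this)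
  have i1 : uStar σ M * (uStar σ M)⁻¹ = 1 := Matrix.mul_nonsing_inv _ (by
    rw [det_uStar]; exact ((isUnit_iff_isUnit_det _).1 hM).map σ)
  have i2 := congrArg (uStar σ) i1
  rw [uStar_mul, uStar_uStar hσ, uStar_one] at i2
  have e1 := edM_inv_uStar hσ hM
  have e2 := edM_inv_uStar hσ (hM.mul hA)
  rw [Matrix.inv_eq_right_inv (B := (uStar σ M)⁻¹ * A') (by
    rw [uStar_mul, Matrix.mul_assoc, ← Matrix.mul_assoc _ _ A', i1, Matrix.one_mul, u1]), m2] at e2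
  have e3 : (uStar σ M)⁻¹.det = (σ M.det)⁻¹ := by rw [det_nonsing_inv, det_uStar, Ring.inverse_eq_inv]
  generalize (uStar σ M)⁻¹ = M' at *
  have hΛ : JU σ (B3 M 0 0 0 W 0 0 0 M') := by
    rw [JU, J3, uStar_B3, B3_mul, B3_mul, B3_inj]
    simp [cs_eq, i1, i2, w0, show uStar σ (0 : Matrix ι ι F) = 0 from cs_zero]
  have := trU_of_form hσ isUnit_J3 j1 (hΛ.mul j2)
  rw [Matrix.mul_assoc, j3, B3_mul, B3_mul] at this
  simp only [Matrix.mul_zero, Matrix.zero_mul, Matrix.mul_one, add_zero, zero_add] at this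
  rwa [edM_B3_lower, edM_B3_upper, det_B3_lower, m2, e1, e2, e3] at this
  all_goals simp only [charpoly_eq_prod_edM, m2, e1, e2, ← uDual_multiset_prod]
  exacts [(k' _ c1).mul_right g.2.2, (k' _ c2).symm, (k _ c1).mul_right g.2.2, (k _ c2).symm]

theorem fx_gd (hσ : UInvol σ) (hω : FX σ c i d ω) (hc : c' ≤ c)
    (h : ∀ D₀, D₀ * σ D₀ = 1 → ∃ α a D, GD σ s α ω ∧ Tr α a a D ∧ Good σ a.prod ∧ c a.prod ∧
      c (uDual σ a.prod) ∧ Cop c' a ∧ Cop c' (a.map (uDual σ)) ∧ Sp σ a ∧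
      (d' → D * (σ D)⁻¹ = D₀)) : FX σ c' True d' s := fun l' D₀ e e' => by
  obtain ⟨l, D', b, b', k1, k2, k3, k4, -⟩ := hω l' D₀ e e'
  obtain ⟨α, a, D, j1, j2, j3, j4, j5, j6, j7, j8, j9⟩ := h _ (norm_mul e' (norm_inv k2.norm))
  refine ⟨l, _, _, _, k1, j1.trU hσ j2 k2 j3 j4 j5 k4.1 k4.2, ?_,
    ⟨j6.add ((k4.1.mono hc).add j7), j6.add ((k4.2.mono hc).add j7)⟩,
    fun _ => j8.mono le_self_add, fun x => ?_⟩
  · rw [add_assoc, add_right_comm, k3, add_assoc a, add_right_comm b']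
  · rw [mul_left_comm, j9 x, mul_comm, inv_mul_cancel_right₀ (ne_zero_of_norm k2.norm)]

theorem fx_big {q m : ℕ} (hq : UField σ q) (hm : 2 ≤ m) (hω : FX σ (G2 σ) i d ω)
    (h : ∀ κ : F[X], κ.Monic → κ.natDegree = m → dd κ = 1 → GD σ s (ce κ) ω) :
    FX σ ⊥ True True s := fx_gd hq.invol hω bot_le fun D₀ e => by
  obtain ⟨D, h0, rfl⟩ := hq.invol.hilbert90 e
  obtain ⟨χ, g, gi, gm, rfl⟩ := exists_good hq hm h0
  obtain ⟨M, M', K, u, h1, h2, h3, h4, h5⟩ := exists_pair (ι := Fin m) g.1.1 g.1.2.1 (by simpa)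
    (by simp; omega)
  have pp := isPP_of_irreducible g.1.1 gi
  refine ⟨_, {χ}, dd χ, h _ K.charpoly_monic (by simp) (by rw [← det_eq_dd, h4]),
    ⟨Fin m, inferInstance, inferInstance, K, M, edM_ce h5.isCyc K.charpoly_monic, h1.edM_pp pp,
      h3 ▸ h2.edM_pp pp, h1.det g.1.1⟩, ?_⟩
  rw [Multiset.prod_singleton]
  exact ⟨g.1, g, g.dual hq.invol, cop_bot, cop_bot,
    sp_of_irr g.1.1 gi (Multiset.mem_singleton_self _), fun _ => rfl⟩

theorem good_lin {l : F} (h0 : l ≠ 0) (h : l * σ l ≠ 1) : Good σ (X - C l) :=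
  ⟨monic_X_sub_C l, by simpa, by
    rw [uDual_X_sub_C h0]
    exact isCoprime_lin fun e => h ((mul_eq_one_iff_eq_inv₀ ((map_ne_zero σ).2 h0)).2 e)⟩

theorem tr_one (l : F) : Tr {X - C 1} {X - C l} {X - C l} l :=
  ⟨Unit, inferInstance, inferInstance, Matrix.of fun _ _ => 1, Matrix.of fun _ _ => l, edM_unit _,
    edM_unit _, by rw [edM_unit]; simp [Matrix.mul_apply], by simp⟩

theorem fx_one (hσ : UInvol σ) (h : GD σ s {X - C 1} ω) (hω : FX σ (Good σ) i d ω)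
    (hl : ∀ D₀, D₀ * σ D₀ = 1 → ∃ l, l ≠ 0 ∧ l * σ l ≠ 1 ∧ (d' → l * (σ l)⁻¹ = D₀)) :
    FX σ (G2 σ) True d' s := fx_gd hσ hω g2_le fun D₀ e => by
  obtain ⟨l, h0, h1, h2⟩ := hl D₀ e
  have g := good_lin h0 h1
  refine ⟨_, _, l, h, tr_one l, ?_⟩
  rw [Multiset.prod_singleton, Multiset.map_singleton]
  exact ⟨g, g, g.dual hσ, cop_g2 l, by rw [uDual_X_sub_C h0]; exact cop_g2 _,
    sp_of_lin (Multiset.mem_singleton_self _), h2⟩

theorem done_anti (hσ : UInvol σ) {L : Multiset F} (h : GD σ s {X - C 1} (L.map fun ζ => X - C ζ))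
    (hL : ∀ ζ ∈ L, ζ * σ ζ = 1) (h0 : L ≠ 0) (hs : dt s = 1) {l : F} (l0 : l ≠ 0)
    (l1 : l * σ l ≠ 1) (l2 : l ^ (L.card + 1) ≠ (-1) ^ (L.card + 1) * σ l) : Done σ s := by
  have hp : L.prod = 1 := by
    have := h.det
    rw [hs, dt_lin] at this
    simpa [dt, dd_X_sub_C] using this.symm
  have s0 := (map_ne_zero σ).2 l0
  have h1 : ((-1 : F) ^ (L.card + 1)) * (-1) ^ (L.card + 1) = 1 := by rw [← mul_pow]; simp
  set x := (-1) ^ (L.card + 1) * σ l * l⁻¹ with hx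
  have hc : x * σ x = 1 := by
    simp only [hx, map_mul, map_pow, map_neg, map_one, map_inv₀, hσ.invol]
    linear_combination (σ l * l⁻¹ * l * (σ l)⁻¹) * h1 + (l⁻¹ * l) * mul_inv_cancel₀ s0 +
      inv_mul_cancel₀ l0
  have l3 : l ^ L.card ≠ x := fun e => l2 (by rw [pow_succ, e, hx, inv_mul_cancel_right₀ l0])
  have g := good_lin l0 l1
  have k : Cop (fun χ => ∃ y, χ = X - C y ∧ y ^ L.card ≠ x) (ce (X ^ L.card - C x)) := by
    rintro _ ⟨y, rfl, hy⟩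
    rw [prod_ce (monic_X_pow_sub_C _ (Multiset.card_pos.2 h0).ne')]
    exact (isCoprime_X_sub_C (by simpa [sub_eq_zero] using hy)).symm
  have l4 : (σ l)⁻¹ ^ L.card ≠ x := fun e => l3 (by
    have := congrArg σ e
    rw [map_pow, map_inv₀, hσ.invol, eq_inv_of_mul_eq_one_right hc, inv_pow] at this
    exact inv_injective this)
  refine ⟨_, _, 1, h.trU hσ (tr_one l) (trU_mono hL h0 hp hc) (by simpa using g)
    ⟨l, by simp, l3⟩ ⟨(σ l)⁻¹, by simp [uDual_X_sub_C l0], l4⟩ k k,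
    sp_of_lin (c := l) (by simp), by simp, ?_⟩
  rw [one_pow, one_mul, hx]
  linear_combination (σ l * l⁻¹ * l * (σ l)⁻¹) * h1 + (l⁻¹ * l) * mul_inv_cancel₀ s0 +
    inv_mul_cancel₀ l0

theorem tr_two {x : F} (h0 : x ≠ 0) (h : x ≠ -1 ∨ x = 1) {χ : F[X]} (hm : χ.Monic)
    (hi : Irreducible χ) (hd : χ.natDegree = 2) :
    Tr ({X - C x} + {X - C x⁻¹}) {χ} {χ} (dd χ) := by
  have pp := isPP_of_irreducible hm hi
  by_cases h1 : x = 1
  · obtain ⟨M, hM⟩ := exists_cyc_two hm hd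
    refine ⟨Fin 2, inferInstance, inferInstance, !![1, 0; 0, 1], M, ?_, hM.edM_pp pp, ?_,
      hM.det hm⟩
    · rw [edM_diag_two, h1, inv_one]; rfl
    · rw [← Matrix.one_fin_two, Matrix.mul_one, hM.edM_pp pp]
  have h2 : 1 + x ≠ 0 := fun e => h.resolve_right h1 (by linear_combination e)
  have e := eq_quad hm hd
  generalize -χ.coeff 1 = τ, χ.coeff 0 = μ at e
  obtain ⟨y, rfl⟩ : ∃ y, τ = y * (1 + x) := ⟨τ / (1 + x), by field_simp⟩
  have c1 := isCyc_two (A := !![y, y * (x * y) - μ; 1, x * y]) (τ := y * (1 + x)) (μ := μ) (by simp)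
    (by simp; ring) (by simp)
  have c2 := isCyc_two (A := !![y, y * (x * y) - μ; 1, x * y] * !![x, 0; 0, x⁻¹])
    (τ := y * (1 + x)) (μ := μ) (by simpa) (by simp; field_simp; ring) (by simp; field_simp; ring)
  rw [← e] at c1 c2
  exact ⟨Fin 2, inferInstance, inferInstance, _, _, edM_diag_two _ _, c1.edM_pp pp, c2.edM_pp pp,
    c1.det hm⟩

theorem fx_two {q : ℕ} (hq : UField σ q) {x : F} (h0 : x ≠ 0) (hx : x ≠ -1 ∨ x = 1)
    (h : GD σ s {X - C x} ω) (h' : GD σ t {X - C x⁻¹} ω') (hω : FX σ (G2 σ) i d (ω + ω')) :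
    FX σ ⊥ True True (s + t) := fx_gd hq.invol hω bot_le fun D₀ e => by
  obtain ⟨D, h0', rfl⟩ := hq.invol.hilbert90 e
  obtain ⟨χ, g, gi, gm, rfl⟩ := exists_good hq le_rfl h0'
  refine ⟨_, {χ}, dd χ, h.add h', tr_two h0 hx g.1.1 gi gm, ?_⟩
  rw [Multiset.prod_singleton]
  exact ⟨g.1, g, g.dual hq.invol, cop_bot, cop_bot,
    sp_of_irr g.1.1 gi (Multiset.mem_singleton_self _), fun _ => rfl⟩

end Cfsg.Agent.Cl.OreU
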