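import Mathlib
import Cfsg.Agent.Cl.OreUC
import Cfsg.Agent.Cl.UMatrix

/-! Commutators in special unitary groups: Witt bases adapted to an isometry. -/

set_option autoImplicit false
set_option linter.unusedSectionVars false

open Matrix Polynomial Sum Module

namespace Cfsg.Agent.Cl.OreU

open Cls Ore

variable {F : Type*} [Field F] {σ : F →+* F} {V : Type*} [AddCommGroup V] [Module F V]
  {B : V →ₗ[F] V →ₛₗ[σ] F} {g : End F V} {ι κ : Type} [Fintype ι] [DecidableEq ι] [Fintype κ]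
  [DecidableEq κ]

theorem li_of_dual {v v' : ι → V} (h : ∀ i j, B (v i) (v' j) = if i = j then 1 else 0) :
    LinearIndependent F v := Fintype.linearIndependent_iff.2 fun c hc j => by
  simpa [LinearMap.sum_apply, h] using congrArg (B · (v' j)) hc

theorem B3_mulVec {A C₁ G K : Matrix ι ι F} {B' H : Matrix ι κ F} {P R : Matrix κ ι F}
    {E : Matrix κ κ F} (r : ι ⊕ κ ⊕ ι → F) (h : ∀ i, r (inr (inr i)) = 0) :
    (B3 A B' C₁ P E R G H K *ᵥ r) ∘ inl = A *ᵥ (r ∘ inl) + B' *ᵥ (r ∘ inr ∘ inl) ∧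
    (B3 A B' C₁ P E R G H K *ᵥ r) ∘ inr ∘ inl = P *ᵥ (r ∘ inl) + E *ᵥ (r ∘ inr ∘ inl) := by
  constructor <;> ext i <;> simp [B3, Matrix.mulVec, dotProduct, Fintype.sum_sum_type, h]

variable [FiniteDimensional F V] [Finite F]

theorem gd_of_family (h : IsHerm B) (hg : ∀ u v, B (g u) (g v) = B u v) {x y : ι → V}
    (hx : ∀ i j, B (x i) (x j) = 0) (hy : ∀ i j, B (y i) (y j) = 0)
    (hxy : ∀ i j, B (x i) (y j) = if i = j then 1 else 0) {k : ℕ}
    (hk : finrank F V = 2 * Fintype.card ι + k) {A : Matrix ι ι F}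
    (eA : ∀ i j, A i j = B (g (x j)) (y i)) (hA : IsUnit A) :
    ∃ E : Matrix (Fin k) (Fin k) F, GD σ (ed g) (edM A) (edM E) ∧ uStar σ E * E = 1 ∧
      ∀ e ζ, (∀ i, B e (x i) = 0) → (∀ i, B (g e) (y i) = 0) →
        (∀ t, (∀ i, B (x i) t = 0) → (∀ i, B (y i) t = 0) → B (g e) t = ζ * B e t) →
        ∃ c : Fin k → F, E *ᵥ c = ζ • c ∧ ∑ i, c i * σ (c i) = B e e := by
  have hyx : ∀ i j, B (y i) (x j) = if i = j then 1 else 0 := fun i j => by
    rw [← h.symm, hxy]; simp [eq_comm, apply_ite σ]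
  have li : LinearIndependent F (Sum.elim x y) := li_of_dual (B := B) (v' := Sum.elim y x) (by
    rintro (i | i) (j | j) <;> simp [hx, hy, hxy, hyx])
  set S := Submodule.span F (Set.range (Sum.elim x y)) with hS
  have dj : Disjoint S (uPerp B S) := h.disjoint_of_forall fun u hu hu' => by
    obtain ⟨c, rfl⟩ := (Submodule.mem_span_range_iff_exists_fun F).1 hu
    refine Finset.sum_eq_zero fun j _ => ?_
    have := hu' (Sum.elim y x j) (Submodule.subset_span (by
      rcases j with j | j; exacts [⟨inr j, rfl⟩, ⟨inl j, rfl⟩]))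
    rcases j with j | j <;>
      simp [LinearMap.sum_apply, Fintype.sum_sum_type, hx, hy, hxy, hyx] at this <;> simp [this]
  have hr : finrank F (uPerp B S) = k := by
    have := h.finrank_add_finrank_uPerp S
    rw [hS, finrank_span_eq_card li, Fintype.card_sum, ← hS] at this
    omega
  obtain ⟨w, hw⟩ := (h.restrict_uPerp dj).exists_orthonormal_basis hr
  have xw : ∀ i j, B (x i) (w j) = 0 := fun i j =>
    (w j).2 _ (Submodule.subset_span ⟨inl i, rfl⟩)
  have yw : ∀ i j, B (y i) (w j) = 0 := fun i j =>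
    (w j).2 _ (Submodule.subset_span ⟨inr i, rfl⟩)
  have wx : ∀ i j, B (w j) (x i) = 0 := fun i j => h.eq_zero_symm (xw i j)
  have wy : ∀ i j, B (w j) (y i) = 0 := fun i j => h.eq_zero_symm (yw i j)
  simp only [uRes_apply] at hw
  let v : ι ⊕ Fin k ⊕ ι → V := Sum.elim x (Sum.elim (fun j => w j) y)
  let v' : ι ⊕ Fin k ⊕ ι → V := Sum.elim y (Sum.elim (fun j => w j) x)
  have hv : ∀ i j, B (v i) (v' j) = if i = j then 1 else 0 := by
    rintro (i | i | i) (j | j | j) <;> simp [v, v', hx, hy, hxy, hyx, xw, yw, wx, wy, hw]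
  let b := basisOfLinearIndependentOfCardEqFinrank' v (li_of_dual hv) (by simp [hk]; omega)
  have hb : ∀ i, b i = v i := fun i => by simp [b]
  have rp : ∀ u i, b.repr u i = B u (v' i) := fun u i => by
    conv_rhs => rw [← b.sum_repr u]
    simp only [map_sum, LinearMap.sum_apply, LinearMap.map_smul, LinearMap.smul_apply, hb, hv]
    simp [-Fintype.sum_sum_type]
  have hJ : uGram B b = J3 F ι (Fin k) := by
    ext (i | i | i) (j | j | j) <;>
      simp [uGram, hb, v, J3, B3, hx, hy, hxy, hyx, xw, yw, wx, wy, hw, Matrix.one_apply]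
  have ju : JU σ (LinearMap.toMatrix b b g) := by
    have h1 := (u_preserves_iff (σ := σ) (J3 F ι (Fin k)) (LinearMap.toMatrix b b g)).1 fun u t => by
      obtain ⟨u, rfl⟩ := b.equivFun.surjective u
      obtain ⟨t, rfl⟩ := b.equivFun.surjective t
      rw [← hJ, ← u_apply_equivFun_symm, ← u_apply_equivFun_symm]
      simp only [Basis.equivFun_apply, LinearMap.toMatrix_mulVec_repr]
      simp only [← Basis.equivFun_apply, LinearEquiv.symm_apply_apply, hg]
    have h2 : (J3 F ι (Fin k))ᵀ = J3 F ι (Fin k) := by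
      ext (i | i | i) (j | j | j) <;> simp [J3, B3, Matrix.one_apply, eq_comm]
    have := congrArg transpose h1
    rwa [transpose_mul, transpose_mul, transpose_transpose, h2, ← Matrix.mul_assoc] at this
  obtain ⟨A', B', C₁, P, E, R, G, H, K, eG⟩ := exists_B3 (LinearMap.toMatrix b b g)
  obtain rfl : A = A' := by
    ext i j
    have := congrFun (congrFun eG (inl i)) (inl j)
    rw [LinearMap.toMatrix_apply, rp, hb] at this
    exact (eA i j).trans this
  obtain ⟨k1, k2⟩ := gd_mk h.toUInvol (eG ▸ ju) hA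
  rw [← eG, edM_toMatrix] at k1
  refine ⟨_, k1, k2, fun e ζ h1 h2 h3 => ⟨b.repr e ∘ inr ∘ inl, ?_, ?_⟩⟩
  · obtain ⟨e1, e2⟩ := B3_mulVec (A := A) (B' := B') (C₁ := C₁) (P := P) (E := E) (R := R) (G := G)
      (H := H) (K := K) (b.repr e) fun i => by rw [rp]; exact h1 i
    rw [← eG, LinearMap.toMatrix_mulVec_repr] at e1 e2
    have e3 : ⇑(b.repr (g e)) ∘ inl = 0 := funext fun i => (rp _ _).trans (h2 i)
    have e4 : ⇑(b.repr (g e)) ∘ inr ∘ inl = ζ • (b.repr e ∘ inr ∘ inl) := funext fun i => by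
      simpa [rp, v'] using h3 _ (xw · i) (yw · i)
    rw [Matrix.sub_mulVec, ← Matrix.mulVec_mulVec, ← Matrix.mulVec_mulVec, ← e4, e2,
      eq_neg_of_add_eq_zero_right (e1.symm.trans e3), Matrix.mulVec_neg, Matrix.mulVec_mulVec _ _ A,
      Matrix.nonsing_inv_mul _ ((isUnit_iff_isUnit_det _).1 hA), Matrix.one_mulVec,
      Matrix.mulVec_neg, sub_neg_eq_add, add_comm]
  · have : ∀ i, B (x i) e = 0 := fun i => h.eq_zero_symm (h1 i)
    rw [← congrArg (B · e) (b.sum_repr e)]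
    simp [LinearMap.sum_apply, Fintype.sum_sum_type, rp, hb, v, v', h1, this, h.symm]

theorem exists_dual (h : IsHerm B) {x y' : ι → V} (hx : ∀ i j, B (x i) (x j) = 0)
    (hxy : ∀ i j, B (x i) (y' j) = if i = j then 1 else 0) :
    ∃ y : ι → V, (∀ i j, B (y i) (y j) = 0) ∧ (∀ i j, B (x i) (y j) = if i = j then 1 else 0) ∧
      (∀ t, (∀ i, B t (y' i) = 0) → (∀ j, B t (x j) = 0 ∨ ∀ i, B (y' i) (y' j) = 0) →
        ∀ i, B t (y i) = 0) ∧ ∀ t, (∀ i, B (x i) t = 0) → ∀ i, B (y i) t = B (y' i) t := by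
  obtain ⟨β, hβ⟩ := h.toUInvol.exists_trace_one
  have hyx : ∀ i j, B (y' i) (x j) = if i = j then 1 else 0 := fun i j => by
    rw [← h.symm, hxy]; simp [eq_comm, apply_ite σ]
  refine ⟨fun i => y' i - β • ∑ j, B (y' i) (y' j) • x j, fun i j => ?_, fun i j => ?_,
    fun t h1 h2 i => ?_, fun t h1 i => ?_⟩
  · simp [LinearMap.sum_apply, hx, hxy, hyx, h.symm]
    linear_combination (-B (y' i) (y' j)) * hβ
  · simp [hx, hxy]
  · simp only [map_sub, h1, LinearMap.map_smulₛₗ, map_sum, smul_eq_mul]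
    rw [Finset.sum_eq_zero fun j _ => by rcases h2 j with e | e <;> simp [e]]
    simp
  · simp [LinearMap.sum_apply, h1]

theorem aeval_apply_eq (g : End F V) (v : V) {p : F[X]} {n : ℕ} (hn : p.natDegree < n) :
    aeval g p v = ∑ j ∈ Finset.range n, p.coeff j • (g ^ j) v := by
  rw [aeval_eq_sum_range' hn, LinearMap.sum_apply]; rfl

theorem gd_dual (h : IsHerm B) (hg : ∀ u v, B (g u) (g v) = B u v) {m k : ℕ} {v : V}
    (hk : finrank F V = 2 * (m + 1) + k) {p : F[X]} (p1 : p.Monic) (p2 : p.natDegree = m + 1)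
    (p3 : p.coeff 0 ≠ 0) (hx : ∀ i ≤ m, ∀ j ≤ m, B ((g ^ i) v) ((g ^ j) v) = 0) {y' : ℕ → V}
    (hxy : ∀ i ≤ m, ∀ j ≤ m, B ((g ^ i) v) (y' j) = if i = j then 1 else 0)
    (hz : ∀ j ≤ m, B (aeval g p v) (y' j) = 0) (h0 : ∀ j ≤ m, B (y' j) (y' 0) = 0)
    (hz' : ∀ j ≤ m, j ≠ 0 → B (aeval g p v) ((g ^ j) v) = 0) :
    ∃ E : Matrix (Fin k) (Fin k) F, GD σ (ed g) (ce p) (edM E) ∧ uStar σ E * E = 1 ∧
      ∀ e (ζ a b : F), (∀ i ≤ m, B e ((g ^ i) v) = 0) → (∀ i ≤ m, B (g e) (y' i) = 0) →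
        (∀ i ≤ m, i ≠ 0 → B (g e) ((g ^ i) v) = 0) → g e = ζ • e + a • v + b • y' 0 →
        ∃ c : Fin k → F, E *ᵥ c = ζ • c ∧ ∑ i, c i * σ (c i) = B e e := by
  have le : ∀ i : Fin (m + 1), (i : ℕ) ≤ m := fun i => Nat.le_of_lt_succ i.2
  obtain ⟨y, y1, y2, y3, y4⟩ := exists_dual h (x := fun i : Fin (m + 1) => (g ^ (i : ℕ)) v)
    (y' := fun i => y' i) (fun i j => hx _ (le i) _ (le j)) fun i j => by
      rw [hxy _ (le i) _ (le j)]; simp [Fin.ext_iff]
  have y5 : ∀ t, (∀ i ≤ m, B t (y' i) = 0) → (∀ i ≤ m, i ≠ 0 → B t ((g ^ i) v) = 0) →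
      ∀ i, B t (y i) = 0 := fun t h1 h2 => y3 t (fun i => h1 _ (le i)) fun j => by
    by_cases e : (j : ℕ) = 0
    · exact Or.inr fun i => by rw [e]; exact h0 _ (le i)
    · exact Or.inl (h2 _ (le j) e)
  let A : Matrix (Fin (m + 1)) (Fin (m + 1)) F := Matrix.of fun i j => B (g ((g ^ (j : ℕ)) v)) (y i)
  have s1 : ∀ j : Fin (m + 1), (fun i => B ((g ^ (j : ℕ)) v) (y i)) = Pi.single j 1 := fun j => by
    ext i; simp [y2, Pi.single_apply, eq_comm]
  have pw : ∀ j ≤ m + 1, A ^ j *ᵥ Pi.single 0 1 = fun i => B ((g ^ j) v) (y i) := fun j hj => by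
    induction j with
    | zero => rw [pow_zero, Matrix.one_mulVec]; exact (s1 0).symm
    | succ j ih =>
      rw [pow_succ', ← Matrix.mulVec_mulVec, ih (by omega), s1 ⟨j, hj⟩, Matrix.mulVec_single_one,
        pow_succ']
      rfl
  have cy : IsCyc A p := by
    refine isCyc_of_kry (u := Pi.single 0 1) (fun S hS => ?_) p1 (by simp [p2]) ?_
    · rw [eq_top_iff, ← (Pi.basisFun F _).span_eq, Submodule.span_le]
      rintro _ ⟨j, rfl⟩
      have := hS j (by simpa using j.2)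
      rwa [pw _ j.2.le, s1, ← Pi.basisFun_apply] at this
    · ext i
      rw [aeval_eq_sum_range' (n := m + 2) (by omega), Matrix.sum_mulVec, Pi.zero_apply,
        ← y5 _ hz hz' i, aeval_apply_eq g v (n := m + 2) (by omega), map_sum, LinearMap.sum_apply,
        Finset.sum_apply]
      refine Finset.sum_congr rfl fun j hj => ?_
      rw [Matrix.smul_mulVec, pw _ (by have := Finset.mem_range.1 hj; omega)]
      simp
  obtain ⟨E, e1, e2, e3⟩ := gd_of_family h hg (fun i j => hx _ (le i) _ (le j)) y1 y2 (k := k)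
    (by simpa) (A := A) (fun _ _ => rfl)
    ((isUnit_iff_isUnit_det _).2 (cy.det p1 ▸ (dd_ne_zero p3).isUnit))
  refine ⟨E, edM_ce cy p1 ▸ e1, e2, fun e ζ a b k1 k2 k3 k4 =>
    e3 e ζ (fun i => k1 _ (le i)) (y5 _ k2 k3) fun t t1 t2 => ?_⟩
  have a1 : B v t = 0 := t1 0
  have a2 : B (y' 0) t = 0 := (y4 t t1 0).symm.trans (t2 0)
  simp [k4, a1, a2]

/-- Krylov vectors with a banded Gram matrix. -/
structure KF (B : V →ₗ[F] V →ₛₗ[σ] F) (g : End F V) (v : V) (M : ℕ) (τ : F) : Prop where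
  zero : ∀ i j, i < j + M → j < i + M → B ((g ^ i) v) ((g ^ j) v) = 0
  top : ∀ i j, i = j + M → B ((g ^ i) v) ((g ^ j) v) = τ

variable {v : V} {M m n k : ℕ} {τ : F} {p f : F[X]}

theorem pow_pow_apply (i j : ℕ) : (g ^ i) ((g ^ j) v) = (g ^ (i + j)) v := by rw [pow_add]; rfl

theorem KF.lead (K : KF B g v M τ) (hp : p.natDegree < 2 * M) :
    B ((g ^ M) (aeval g p v)) ((g ^ p.natDegree) v) = p.leadingCoeff * τ := by
  rw [aeval_apply_eq g v p.natDegree.lt_succ_self, Finset.sum_range_succ, map_add, map_add,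
    LinearMap.add_apply, map_sum, map_sum, LinearMap.sum_apply, Finset.sum_eq_zero fun j hj => by
      rw [map_smul, pow_pow_apply, map_smul, LinearMap.smul_apply,
        K.zero _ _ (by have := Finset.mem_range.1 hj; omega) (by omega), smul_zero],
    map_smul, pow_pow_apply, map_smul, LinearMap.smul_apply, K.top _ _ (add_comm _ _), zero_add]
  rfl

theorem KF.z_pow (K : KF B g v (m + 1) τ) (p1 : p.Monic) (p2 : p.natDegree = m + 1) {i j : ℕ}
    (hj : j ≤ i + m) (hj' : i ≤ j) :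
    B (aeval g p ((g ^ i) v)) ((g ^ j) v) = if j = i then τ else 0 := by
  rw [aeval_apply_eq g _ p.natDegree.lt_succ_self, Finset.sum_range_succ, p1.coeff_natDegree, p2,
    map_add, LinearMap.add_apply, map_sum, LinearMap.sum_apply, Finset.sum_eq_zero fun j hj => by
      rw [map_smul, pow_pow_apply, LinearMap.smul_apply,
        K.zero _ _ (by have := Finset.mem_range.1 hj; omega) (by omega), smul_zero],
    one_smul, zero_add, pow_pow_apply]
  split_ifs with h
  exacts [K.top _ _ (by omega), K.zero _ _ (by omega) (by omega)]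

theorem aeval_perp {u : V} (hn : p.natDegree < n) (hu : ∀ j < n, B ((g ^ j) v) u = 0) :
    B (aeval g p v) u = 0 := by
  rw [aeval_apply_eq g v hn, map_sum, LinearMap.sum_apply]
  exact Finset.sum_eq_zero fun j hj => by simp [hu j (Finset.mem_range.1 hj)]

theorem gd_kf (h : IsHerm B) (hg : ∀ u v, B (g u) (g v) = B u v) (K : KF B g v (m + 1) τ)
    (h0 : τ ≠ 0) (hk : finrank F V = 2 * (m + 1) + k) (p1 : p.Monic) (p2 : p.natDegree = m + 1)
    (p3 : p.coeff 0 ≠ 0) {u : V} (hu : ∀ j < m + 2, B ((g ^ j) v) u = 0)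
    (huu : B u u * (τ * σ τ) = B (aeval g p v) (aeval g p v))
    (hd : ∀ i ≤ m, i ≠ 0 → ∃ d, (∀ j ≤ m, B ((g ^ j) v) d = if j = i then 1 else 0) ∧
      B (aeval g p v) d = 0 ∧ B u d = 0) :
    ∃ E : Matrix (Fin k) (Fin k) F, GD σ (ed g) (ce p) (edM E) ∧ uStar σ E * E = 1 := by
  choose! d d1 d2 d3 using hd
  have zx : ∀ j ≤ m, B (aeval g p v) ((g ^ j) v) = if j = 0 then τ else 0 := fun j hj =>
    K.z_pow (i := 0) p1 p2 (by omega) j.zero_le
  have zu : B (aeval g p v) u = 0 := aeval_perp (by omega) hu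
  have s0 := (map_ne_zero σ).2 h0
  have vu : B v u = 0 := hu 0 (by omega)
  have zv : B (aeval g p v) v = τ := zx 0 m.zero_le
  generalize hz : aeval g p v = z at *
  set y₀ := τ⁻¹ • z - B u u • v + u with hy
  have a1 : ∀ j ≤ m, B ((g ^ j) v) y₀ = if j = 0 then 1 else 0 := fun j hj => by
    have e : B ((g ^ j) v) v = 0 := K.zero j 0 (by omega) (by omega)
    simp only [hy, map_add, map_sub, LinearMap.map_smulₛₗ, e, hu j (by omega), ← h.symm z, zx j hj]
    split_ifs <;> simp [s0]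
  have a2 : B z y₀ = 0 := by
    simp only [hy, map_add, map_sub, LinearMap.map_smulₛₗ, zu, zv, ← huu, h.fixed]
    simp only [map_inv₀, smul_eq_mul]
    field_simp
    ring
  have a3 : B v y₀ = 1 := a1 0 m.zero_le
  have a4 : B u y₀ = B u u := by simp [hy, h.eq_zero_symm zu, h.eq_zero_symm vu]
  obtain ⟨E, e1, e2, -⟩ := gd_dual h hg hk p1 p2 p3
    (fun i hi j hj => K.zero _ _ (by omega) (by omega)) (y' := fun i => if i = 0 then y₀ else d i)
    (fun i hi j hj => by
      split_ifs with e e' e'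
      exacts [by rw [a1 i hi, if_pos (e'.trans e)], by rw [a1 i hi, if_neg (e ▸ e')],
        by rw [d1 j hj e i hi, if_pos e'], by rw [d1 j hj e i hi, if_neg e']])
    (fun j hj => by rw [hz]; split_ifs with e; exacts [a2, d2 j hj e])
    (fun j hj => by
      rw [if_pos rfl]
      split_ifs with e
      · nth_rewrite 1 [hy]; simp [a2, a3, a4]
      · have : B v (d j) = 0 := by simpa [Ne.symm e] using d1 j hj e 0 m.zero_le
        exact h.eq_zero_symm (by simp [hy, d2 j hj e, d3 j hj e, this]))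
    fun j hj e => by rw [hz, zx j hj, if_neg e]
  exact ⟨E, e1, e2⟩

/-- A cyclic vector. -/
def Cy (g : End F V) (v : V) (n : ℕ) : Prop :=
  finrank F V = n ∧ ∀ y, ∃ p : F[X], p.natDegree < n ∧ aeval g p v = y

theorem Cy.exists_vec (c : Cy g v n) (h : IsHerm B) (a : ℕ → F) :
    ∃ d, ∀ j < n, B ((g ^ j) v) d = a j := by
  let b := basisOfTopLeSpanOfCardEqFinrank (fun j : Fin n => (g ^ (j : ℕ)) v) (fun y _ => by
    obtain ⟨p, hp, rfl⟩ := c.2 y
    rw [aeval_apply_eq g v hp]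
    exact Submodule.sum_mem _ fun j hj => Submodule.smul_mem _ _
      (Submodule.subset_span ⟨⟨j, Finset.mem_range.1 hj⟩, rfl⟩)) (by simp [c.1])
  obtain ⟨d, hd⟩ := h.exists_rep (b.constr F fun j => a j)
  refine ⟨d, fun j hj => ?_⟩
  have := b.constr_basis F (fun j : Fin n => a j) ⟨j, hj⟩
  rw [← hd] at this
  simpa [b] using this

theorem inv_pow' (hg : ∀ u v, B (g u) (g v) = B u v) (k : ℕ) (u w : V) :
    B ((g ^ k) u) ((g ^ k) w) = B u w := by
  induction k with
  | zero => rfl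
  | succ k ih => rw [pow_succ', ← ih]; exact hg _ _

theorem surj_of_inv (h : IsHerm B) (hg : ∀ u v, B (g u) (g v) = B u v) : Function.Surjective g :=
  LinearMap.injective_iff_surjective.1 ((injective_iff_map_eq_zero g).2 fun x hx =>
    h.nondeg x fun y => by rw [← hg, hx]; simp)

theorem exists_kf (h : IsHerm B) (hg : ∀ u v, B (g u) (g v) = B u v) (c : Cy g v n)
    (hM : 2 * M ≤ n) (h0 : 0 < M) : ∃ ψ : F, (2 * M < n → ψ = 0) ∧ ∀ s, ∃ B' : V →ₗ[F] V →ₛₗ[σ] F,
      (∀ x y, σ (B' x y) = B' y x) ∧ (∀ u v, B' (g u) (g v) = B' u v) ∧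
      KF B' g v M (s * ψ + σ s) := by
  obtain ⟨u, hu⟩ := c.exists_vec h fun j => if j = 0 then 1 else 0
  obtain ⟨u, rfl⟩ := surj_of_inv h (inv_pow' hg M) u
  obtain ⟨p, -, rfl⟩ := c.2 u
  have cm : ∀ k x, aeval g p ((g ^ k) x) = (g ^ k) (aeval g p x) := fun k x => by
    rw [← aeval_X_pow (R := F), ← Module.End.mul_apply, ← Module.End.mul_apply, ← map_mul,
      ← map_mul, mul_comm]
  generalize aeval g p = T at *
  have sh : ∀ i j k, i + M = j + k →
      B ((g ^ i) v) (T ((g ^ j) v)) = B ((g ^ k) v) ((g ^ M) (T v)) := fun i j k e => by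
    rw [← inv_pow' hg M, ← inv_pow' hg j ((g ^ k) v), cm]
    simp only [pow_pow_apply, add_comm M, e]
  refine ⟨B ((g ^ (2 * M)) v) ((g ^ M) (T v)), fun e => by rw [hu _ e, if_neg (by omega)], fun s =>
    ⟨s • B.compl₂ T + σ s • B ∘ₗ T, fun x y => by simp [h.symm, h.invol, add_comm],
      fun x y => ?_, fun i j h1 h2 => ?_, fun i j e => ?_⟩⟩
  · have := cm 1
    simp only [pow_one] at this
    simp [this, hg]
  · simp [← h.symm _ (T _), sh i j (i + M - j) (by omega), sh j i (j + M - i) (by omega),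
      hu _ (show i + M - j < n by omega), hu _ (show j + M - i < n by omega),
      show i + M - j ≠ 0 by omega, show j + M - i ≠ 0 by omega]
  · have := (sh j i 0 (by omega)).trans (hu _ (show 0 < n by omega))
    simp [← h.symm _ (T _), sh i j (2 * M) (by omega), this]

theorem KF.rad_low (K : KF B g v M τ) (h0 : τ ≠ 0) (hg : ∀ u v, B (g u) (g v) = B u v)
    (hs : Function.Surjective g) (hp : p.natDegree < 2 * M) (h : ∀ y, B (aeval g p v) y = 0) :
    p = 0 := by
  obtain ⟨y, hy⟩ := (Module.End.coe_pow g M ▸ hs.iterate M :) ((g ^ p.natDegree) v)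
  have := K.lead hp
  rw [← hy, inv_pow' hg, h] at this
  exact leadingCoeff_eq_zero.1 ((mul_eq_zero.1 this.symm).resolve_right h0)

theorem KF.nondeg_odd (K : KF B g v M τ) (h0 : τ ≠ 0) (hM : 0 < M)
    (hB : ∀ x y, σ (B x y) = B y x) (hg : ∀ u v, B (g u) (g v) = B u v)
    (hs : Function.Surjective g) (c : Cy g v (2 * M + 1)) (f1 : f.Monic)
    (f2 : f.natDegree = 2 * M + 1) (f3 : aeval g f v = 0)
    (hf : ∀ ζ, f.eval ζ = 0 → ζ * τ ≠ f.coeff 0 * σ τ) (x : V) (hx : ∀ y, B x y = 0) : x = 0 := by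
  obtain ⟨p, hp, rfl⟩ := c.2 x
  by_contra hne
  have p2 : p.natDegree = 2 * M := by
    by_contra e
    exact hne (by rw [K.rad_low h0 hg hs (by omega) hx]; simp)
  have l0 : p.coeff (2 * M) ≠ 0 := p2 ▸ leadingCoeff_ne_zero.2 fun e => hne (by simp [e])
  set l := p.coeff (2 * M) with hl
  set ζ := (X * p - C l * f).coeff (2 * M) / l with hζ
  have e : X * p - C l * f - C ζ * p = 0 := by
    refine K.rad_low h0 hg hs (lt_of_le_of_lt
      (natDegree_le_iff_coeff_eq_zero.2 fun N hN => ?_) (show 2 * M - 1 < _ by omega)) fun y => ?_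
    · rcases (by omega : N = 2 * M ∨ N = 2 * M + 1 ∨ 2 * M + 1 < N) with rfl | rfl | h
      · rw [coeff_sub, coeff_C_mul, hζ, div_mul_cancel₀ _ l0, sub_self]
      · simp [coeff_X_mul, ← hl, f2 ▸ f1.coeff_natDegree,
          coeff_eq_zero_of_natDegree_lt (show p.natDegree < 2 * M + 1 by omega)]
      · obtain ⟨N, rfl⟩ := Nat.exists_eq_add_one_of_ne_zero (show N ≠ 0 by omega)
        simp [coeff_X_mul, coeff_eq_zero_of_natDegree_lt (show p.natDegree < N by omega),
          coeff_eq_zero_of_natDegree_lt (show p.natDegree < N + 1 by omega),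
          coeff_eq_zero_of_natDegree_lt (show f.natDegree < N + 1 by omega)]
    · obtain ⟨y', rfl⟩ := hs y
      simp [f3, hg, hx]
  have e1 := congrArg (eval ζ) e
  have e2 := congrArg (coeff · 0) e
  have e3 := hx ((g ^ M) v)
  rw [aeval_apply_eq g v hp, map_sum, LinearMap.sum_apply, Finset.sum_range_succ,
    Finset.sum_eq_single 0 (fun j hj j0 => by
      simp [K.zero j M (by have := Finset.mem_range.1 hj; omega) (by omega)]) (by simp; omega)] at e3
  simp only [map_smul, LinearMap.smul_apply, K.top _ _ (two_mul M), ← hB ((g ^ M) v),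
    K.top M 0 (by omega), ← hl, smul_eq_mul] at e3
  simp only [eval_sub, eval_mul, eval_X, eval_C, eval_zero, coeff_sub, coeff_C_mul, coeff_X_mul_zero,
    coeff_zero] at e1 e2
  exact hf ζ (mul_left_cancel₀ l0 (by linear_combination -e1))
    (mul_left_cancel₀ l0 (by linear_combination ζ * e3 + σ τ * e2))

end Cfsg.Agent.Cl.OreU
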