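import Mathlib
import Cfsg.Agent.Cl.OreUD

/-! Commutators in special unitary groups: Gauss decompositions of cyclic isometries. -/

set_option autoImplicit false
set_option linter.unusedSectionVars false

open Matrix Polynomial Sum Module

namespace Cfsg.Agent.Cl.OreU

open Cls Ore

variable {F : Type*} [Field F] {σ : F →+* F} {V : Type*} [AddCommGroup V] [Module F V]
  {B : V →ₗ[F] V →ₛₗ[σ] F} {g : End F V} {v : V} {M m n k : ℕ} {τ : F} {p f : F[X]}
  {s t ω : Multiset F[X]}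

/-- Images of `v` under polynomials of degree at most `k`. -/
noncomputable def PS (g : End F V) (v : V) (k : ℕ) : Submodule F V :=
  (degreeLE F k).map (LinearMap.applyₗ v ∘ₗ (aeval g).toLinearMap)

theorem mem_PS {y : V} : y ∈ PS g v k ↔ ∃ p : F[X], p.natDegree ≤ k ∧ aeval g p v = y := by
  simp [PS, mem_degreeLE, natDegree_le_iff_degree_le]

theorem pow_mem_PS {j : ℕ} (h : j ≤ k) : (g ^ j) v ∈ PS g v k := mem_PS.2 ⟨X ^ j, by simpa, by simp⟩

variable (σ) in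
/-- The characteristic polynomial of a cyclic unitary matrix. -/
structure SD (f : F[X]) : Prop where
  monic : f.Monic
  c0 : f.coeff 0 ≠ 0
  dual : (ce f).map (uDual σ) = ce f

variable (σ) in
/-- At most one root of norm one. -/
def R1 (f : F[X]) : Prop :=
  ∀ x y, f.eval x = 0 → f.eval y = 0 → x * σ x = 1 → y * σ y = 1 → x = y

theorem SD.eq (h : SD σ f) : uDual σ f = f := by
  have := congrArg Multiset.prod h.dual
  rwa [← uDual_multiset_prod, prod_ce h.monic] at this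

theorem SD.norm (h : SD σ f) : f.coeff 0 * σ (f.coeff 0) = 1 := by
  have := coeff_zero_uDual (σ := σ) h.monic
  rw [h.eq] at this
  exact (mul_eq_one_iff_eq_inv₀ ((map_ne_zero σ).2 h.c0)).2 this

theorem mem_ce (hf : f.Monic) (h0 : f.coeff 0 ≠ 0) {e : F[X]} (he : e ∈ ce f) : OK e := by
  obtain ⟨A, hA⟩ := exists_cyc hf
  rw [← edM_ce hA hf] at he
  exact ⟨isPP_of_mem_edM he, (isUnit_iff_edM A).1
    ((isUnit_iff_isUnit_det _).2 (hA.det hf ▸ (dd_ne_zero h0).isUnit)) e he⟩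

theorem Un.add (h : Un σ s) (h' : Un σ t) : Un σ (s + t) := by
  obtain ⟨ι, _, _, g, u, rfl⟩ := h
  obtain ⟨κ, _, _, g', u', rfl⟩ := h'
  exact ⟨_, inferInstance, inferInstance, _, unitary_fromBlocks u u', edM_fromBlocks _ _⟩

theorem un_lin {ζ : F} (h : ζ * σ ζ = 1) : Un σ {X - C ζ} :=
  ⟨Unit, inferInstance, inferInstance, Matrix.of fun _ _ => ζ, by
    ext; simp [Matrix.mul_apply, uStar_apply, mul_comm, h], edM_unit _⟩

theorem edM_one_dim {E : Matrix (Fin 1) (Fin 1) F} (h : uStar σ E * E = 1) :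
    ∃ ζ, ζ * σ ζ = 1 ∧ edM E = {X - C ζ} :=
  ⟨E 0 0, by simpa [det_fin_one] using det_mul_map_det_of_unitary h, by
    rw [← edM_submatrix (Equiv.ofUnique Unit (Fin 1)), edM_unit]; rfl⟩

theorem edM_two_dim (hσ : UInvol σ) {E : Matrix (Fin 2) (Fin 2) F} (h : uStar σ E * E = 1) {ζ : F}
    (hζ : ζ * σ ζ = 1) {c : Fin 2 → F} (hc : E *ᵥ c = ζ • c) (h0 : ∑ i, c i * σ (c i) ≠ 0) :
    ∃ ζ', ζ' * σ ζ' = 1 ∧ edM E = {X - C ζ} + {X - C ζ'} := by
  have hd := det_mul_map_det_of_unitary h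
  refine ⟨E.det * σ ζ, norm_mul hd (by rw [hσ.invol, mul_comm, hζ]), ?_⟩
  have e := congrFun₂ (show E.adjugate = E.det • uStar σ E by
    rw [← Matrix.one_mul E.adjugate, ← h, Matrix.mul_assoc, mul_adjugate, Matrix.mul_smul,
      Matrix.mul_one])
  have e0 := congrFun hc 0
  have e1 := congrFun hc 1
  have e2 := congrArg σ e0
  have e3 := congrArg σ e1
  have a := e 0 0
  have b := e 0 1
  have c' := e 1 0
  have d := e 1 1
  simp [adjugate_fin_two, uStar_apply, Matrix.mulVec, dotProduct] at e0 e1 e2 e3 a b c' d h0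
  refine (edM_eq_of_mul (P := !![c 0, -σ (c 1); c 1, σ (c 0)]) (G' := !![ζ, 0; 0, E.det * σ ζ])
    ((isUnit_iff_isUnit_det _).2 (Ne.isUnit (by simpa [add_comm, mul_comm] using h0))) ?_).trans
    (edM_diag_two _ _)
  ext i j
  fin_cases i <;> fin_cases j <;> simp [Matrix.mul_apply]
  · linear_combination e0
  · linear_combination -σ (c 1) * d - σ (c 0) * b - E.det * e3
  · linear_combination e1
  · linear_combination σ (c 1) * c' + σ (c 0) * a + E.det * e2

variable (σ) in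
/-- Gauss decompositions with any cyclic linear part and diagonal unitary part. -/
def Fr (m : ℕ) (s : Multiset F[X]) : Prop := ∀ c : F, c ≠ 0 → ∃ L : Multiset F, L ≠ 0 ∧
  (∀ ζ ∈ L, ζ * σ ζ = 1) ∧ ∀ p : F[X], p.Monic → p.natDegree = m → dd p = c →
    GD σ s (ce p) (L.map fun ζ => X - C ζ)

theorem fr_of (h : ∀ c : F, c ≠ 0 → ∃ L : Multiset F, (∀ ζ ∈ L, ζ * σ ζ = 1) ∧
    ∀ p : F[X], p.Monic → p.natDegree = m → dd p = c → ∃ ζ, ζ * σ ζ = 1 ∧
      GD σ s (ce p) (L.map (fun ζ => X - C ζ) + {X - C ζ})) : Fr σ m s := fun c hc => by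
  obtain ⟨L, h1, h2⟩ := h c hc
  by_cases e : ∃ p : F[X], p.Monic ∧ p.natDegree = m ∧ dd p = c
  · obtain ⟨p, p1, p2, p3⟩ := e
    obtain ⟨ζ, z1, z2⟩ := h2 p p1 p2 p3
    refine ⟨L + {ζ}, by simp, by simpa [or_imp, forall_and] using ⟨h1, z1⟩, fun r r1 r2 r3 => ?_⟩
    obtain ⟨ζ', -, z3⟩ := h2 r r1 r2 r3
    have := z2.det
    rw [dt_ce p1, p3, ← r3, ← dt_ce r1, z3.det, dt_ce r1, r3, dt_add, dt_add, dt_lin, dt_lin] at this
    have h0 : dt (L.map fun ζ => X - C ζ) ≠ 0 := by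
      simpa [dt, dd_X_sub_C] using fun h => ne_zero_of_norm (h1 0 h) rfl
    rw [mul_left_cancel₀ h0 (mul_left_cancel₀ hc this)] at z3
    simpa using z3
  · exact ⟨{1}, by simp, by simp, fun p p1 p2 p3 => (e ⟨p, p1, p2, p3⟩).elim⟩

theorem coeff_ne_of_dd {c : F} (hc : c ≠ 0) (h : dd p = c) : p.coeff 0 ≠ 0 := fun e =>
  hc (by rw [← h, dd, e, mul_zero])

variable [FiniteDimensional F V] [Finite F]

theorem KF.shift (K : KF B g v M τ) (k : ℕ) : KF B g ((g ^ k) v) M τ :=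
  ⟨fun i j h h' => by rw [pow_pow_apply, pow_pow_apply, K.zero _ _ (by omega) (by omega)],
    fun i j h => by rw [pow_pow_apply, pow_pow_apply, K.top _ _ (by omega)]⟩

theorem z_dual (p1 : p.Monic) (p2 : p.natDegree = M) {i : ℕ} (hi : i < M) {d : V}
    (hd : ∀ j ≤ M, B ((g ^ j) v) d = if j = i then 1 else if j = M then -p.coeff i else 0) :
    B (aeval g p v) d = 0 := by
  rw [aeval_apply_eq g v p.natDegree.lt_succ_self, Finset.sum_range_succ, p1.coeff_natDegree, p2,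
    map_add, LinearMap.add_apply, map_sum, LinearMap.sum_apply, Finset.sum_eq_single i
      (fun j hj e => by
        have := Finset.mem_range.1 hj
        simp [hd j this.le, e, this.ne]) (by simp; omega)]
  simp [hd i hi.le, hd M le_rfl, hi.ne']

theorem SD.un (hσ : UInvol σ) (h : SD σ f) : Un σ (ce f) := by
  obtain ⟨A, h1, h2⟩ := exists_unitary_edM_eq (ι := Fin f.natDegree) hσ
    (fun e he => (mem_ce h.monic h.c0 he).1) (fun e he => (mem_ce h.monic h.c0 he).2)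
    ((dg_ce h.monic).trans (by simp)) h.dual
  exact ⟨_, inferInstance, inferInstance, A, h1, h2⟩

theorem Un.exists_isom (h : Un σ s) : ∃ (ι : Type) (_ : Fintype ι) (_ : DecidableEq ι)
    (A : Matrix ι ι F), edM A = s ∧
      ∀ u w, uStd σ ι (Matrix.toLin' A u) (Matrix.toLin' A w) = uStd σ ι u w :=
  let ⟨ι, _, _, A, h1, h2⟩ := h
  ⟨ι, _, _, A, h2, (uStd_preserves_iff A).2 ((uStar_mul_self_eq_one_iff A).1 h1)⟩

theorem SD.exists_kf (hσ : UInvol σ) (h : SD σ f) (h1 : 2 * M ≤ f.natDegree) (h0 : 0 < M) :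
    ∃ (ι : Type) (_ : Fintype ι) (g : End F (ι → F)) (v : ι → F), ed g = ce f ∧
      Function.Surjective g ∧ Cy g v f.natDegree ∧ aeval g f v = 0 ∧
      ∃ ψ : F, (2 * M < f.natDegree → ψ = 0) ∧ ∀ s, ∃ B' : (ι → F) →ₗ[F] (ι → F) →ₛₗ[σ] F,
        (∀ x y, σ (B' x y) = B' y x) ∧ (∀ u v, B' (g u) (g v) = B' u v) ∧
        KF B' g v M (s * ψ + σ s) := by
  obtain ⟨ι, _, _, A, e, hA⟩ := (h.un hσ).exists_isom
  obtain ⟨A', hA'⟩ := exists_cyc h.monic
  have cy : IsCyc A f := Sim.trans (sim_iff_ed_eq.2 (e.trans (edM_ce hA' h.monic).symm)) hA'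
  obtain ⟨v, hv⟩ := cy.exists_kry h.monic
  have c : Cy (Matrix.toLin' A) v f.natDegree := ⟨by simp [cy.card_eq], fun y => by
    obtain ⟨p, p1, p2⟩ := mem_PS.1 ((hv (PS (Matrix.toLin' A) v (f.natDegree - 1)) fun j hj => by
      have := pow_mem_PS (g := Matrix.toLin' A) (v := v)
        (show j ≤ f.natDegree - 1 by rw [cy.card_eq] at hj; omega)
      rwa [← Matrix.toLin'_pow] at this).ge (Submodule.mem_top : y ∈ ⊤))
    exact ⟨p, by omega, p2⟩⟩
  refine ⟨ι, inferInstance, _, v, e, surj_of_inv (hσ.isHerm_uStd ι) hA, c, ?_,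
    OreU.exists_kf (hσ.isHerm_uStd ι) hA c h1 h0⟩
  rw [← toLin'_aeval, ← cy.charpoly h.monic, A.aeval_self_charpoly]
  simp

theorem fr_odd (hσ : UInvol σ) (h : SD σ f) (r : R1 σ f) (hd : f.natDegree = 2 * (m + 1) + 1) :
    Fr σ (m + 1) (ce f) := by
  obtain ⟨ι, _, g, v, e, hs, c, h0, ψ, hψ, hB⟩ := h.exists_kf hσ (M := m + 1) (by omega) (by omega)
  obtain ⟨τ, τ0, hτ⟩ : ∃ τ : F, τ ≠ 0 ∧ ∀ ζ, f.eval ζ = 0 → ζ * τ ≠ f.coeff 0 * σ τ := by
    by_contra! hc
    obtain ⟨a, ha⟩ := hσ.exists_ne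
    have a0 : a ≠ 0 := by rintro rfl; simp at ha
    obtain ⟨x, x1, x2⟩ := hc 1 one_ne_zero
    obtain ⟨y, y1, y2⟩ := hc a a0
    rw [mul_one, map_one, mul_one] at x2
    have y3 := congrArg σ y2
    rw [map_mul, map_mul, hσ.invol] at y3
    rw [← r x y x1 y1 (x2 ▸ h.norm) (mul_right_cancel₀ (mul_ne_zero a0 ((map_ne_zero σ).2 a0))
      (by linear_combination (σ y * σ a) * y2 + (f.coeff 0 * σ a) * y3 + a * σ a * h.norm)),
      x2] at y2
    exact ha (mul_left_cancel₀ h.c0 y2).symm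
  obtain ⟨B, b1, b2, K⟩ := hB (σ τ)
  rw [hψ (by omega), mul_zero, zero_add, hσ.invol] at K
  rw [hd] at c
  have H : IsHerm B := ⟨hσ, b1, K.nondeg_odd τ0 m.succ_pos b1 b2 hs c h.monic hd h0 hτ⟩
  obtain ⟨u, u1, u2⟩ := H.exists_mem_nonisotropic' (W := uPerp B (PS g ((g ^ (m + 1)) v) (m + 1)))
    fun hc => by
      obtain ⟨d, hd⟩ := c.exists_vec H fun j => if j = 0 then 1 else 0
      rw [H.uPerp_uPerp] at hc
      obtain ⟨p, p1, p2⟩ := mem_PS.1 (hc (show d ∈ _ from fun x hx => by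
        obtain ⟨p, p1, rfl⟩ := mem_PS.1 hx
        exact aeval_perp (Nat.lt_succ_of_le p1) fun j hj => by
          rw [pow_pow_apply, hd _ (by omega), if_neg (by omega)]))
      have e1 := K.lead (p := p) (by omega)
      rw [← aeval_X_pow (R := F), ← Module.End.mul_apply, ← map_mul, mul_comm, map_mul,
        Module.End.mul_apply, aeval_X_pow, p2, ← b1, hd _ (by omega)] at e1
      have p3 : p.natDegree = 0 := by
        by_contra e
        rw [if_neg e, map_zero, eq_comm, mul_eq_zero, leadingCoeff_eq_zero] at e1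
        exact e (by rw [e1.resolve_right τ0, natDegree_zero])
      have e2 := hd (2 * (m + 1)) (by omega)
      rw [eq_C_of_natDegree_eq_zero p3] at p2
      rw [eq_C_of_natDegree_eq_zero p3] at e1
      simp [← p2, K.top _ _ (two_mul (m + 1)), τ0] at e2
      simp [e2] at e1
  have u3 : ∀ j < m + 2, B ((g ^ j) ((g ^ (m + 1)) v)) u = 0 := fun j hj =>
    u1 _ (pow_mem_PS (by omega))
  refine fr_of fun a ha => ⟨0, by simp, fun p p1 p2 p3 => ?_⟩
  have s0 := (map_ne_zero σ).2 τ0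
  obtain ⟨b, hb⟩ := H.exists_smul_norm_eq u2
    (c := B (aeval g p ((g ^ (m + 1)) v)) (aeval g p ((g ^ (m + 1)) v)) / (τ * σ τ))
    (by simp [H.fixed, hσ.invol, mul_comm])
  obtain ⟨E, e1, e2⟩ := gd_kf H b2 (K.shift (m + 1)) τ0 c.1 p1 p2 (coeff_ne_of_dd ha p3)
    (u := b • u) (fun j hj => by simp [u3 j hj]) (by rw [hb]; field_simp) fun i hi i0 => by
      obtain ⟨d, hd⟩ := c.exists_vec H fun j =>
        if j = i + (m + 1) then 1 else if j = 2 * (m + 1) then -p.coeff i else 0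
      refine ⟨d - σ (B u d / B u u) • u, fun j hj => ?_, ?_, by simp [hσ.invol, u2]⟩
      · rw [map_sub, LinearMap.map_smulₛₗ, u3 j (by omega)]
        simp [pow_pow_apply, hd (j + (m + 1)) (by omega), show j + (m + 1) ≠ 2 * (m + 1) by omega]
      · rw [map_sub, z_dual p1 p2 (Nat.lt_succ_of_le hi) fun j hj => by
          simp [pow_pow_apply, hd (j + (m + 1)) (by omega), two_mul]]
        simp [aeval_perp (p := p) (n := m + 2) (by omega) u3]
  obtain ⟨ζ, z1, z2⟩ := edM_one_dim e2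
  exact ⟨ζ, z1, by rwa [e, z2] at e1⟩

theorem aeval_single {u : V} (i : ℕ) (hu : ∀ j ≤ p.natDegree, j ≠ i → B ((g ^ j) v) u = 0) :
    B (aeval g p v) u = p.coeff i * B ((g ^ i) v) u := by
  rw [aeval_apply_eq g v p.natDegree.lt_succ_self, map_sum, LinearMap.sum_apply,
    Finset.sum_eq_single i (fun j hj e => by simp [hu j (by simpa [Nat.lt_succ_iff] using hj) e])
      fun h => by simp [coeff_eq_zero_of_natDegree_lt (show p.natDegree < i by simpa using h)]]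
  simp

theorem exists_kf_even (hσ : UInvol σ) (h : SD σ f) (hd : f.natDegree = 2 * M) (h0 : 0 < M) :
    ∃ (ι : Type) (_ : Fintype ι) (g : End F (ι → F)) (v : ι → F) (τ : F)
      (B : (ι → F) →ₗ[F] (ι → F) →ₛₗ[σ] F), ed g = ce f ∧ Cy g v (2 * M) ∧ IsHerm B ∧
      (∀ u v, B (g u) (g v) = B u v) ∧ KF B g v M τ ∧ τ ≠ 0 := by
  obtain ⟨ι, _, g, v, e, hs, c, -, ψ, -, hB⟩ := h.exists_kf hσ hd.ge h0
  obtain ⟨s, s0⟩ : ∃ s, s * ψ + σ s ≠ 0 := by
    by_contra! hc
    obtain ⟨a, ha⟩ := hσ.exists_ne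
    exact ha (by linear_combination hc a - a * hc 1 + a * map_one σ)
  obtain ⟨B, b1, b2, K⟩ := hB s
  rw [hd] at c
  refine ⟨ι, inferInstance, g, v, _, B, e, c, ⟨hσ, b1, fun x hx => ?_⟩, b2, K, s0⟩
  obtain ⟨p, hp, rfl⟩ := c.2 x
  simp [K.rad_low s0 b2 hs hp hx]

theorem fr_even (hσ : UInvol σ) (h : SD σ f) (hd : f.natDegree = 2 * (m + 2)) :
    Fr σ (m + 1) (ce f) := by
  obtain ⟨ι, _, g, v, τ, B, e, c, H, hg, K, τ0⟩ := exists_kf_even hσ h hd (by omega)
  refine fr_of fun a ha => ?_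
  have s0 := (map_ne_zero σ).2 τ0
  obtain ⟨a', a0, ha'⟩ : ∃ a' : F, a' ≠ 0 ∧ (-1) ^ (m + 1) * a' = a :=
    ⟨(-1) ^ (m + 1) * a, by simpa, by rw [← mul_assoc, ← mul_pow]; simp⟩
  have a1 := (map_ne_zero σ).2 a0
  obtain ⟨ζ, hζ, z1⟩ : ∃ ζ, ζ * σ ζ = 1 ∧ ζ * (σ τ / σ a') + σ (ζ * (σ τ / σ a')) ≠ 0 := by
    by_contra! hc
    obtain ⟨u, u1, u2⟩ := hσ.exists_norm_one_ne
    have e1 := hc 1 (by simp)
    have e2 := hc u u1
    rw [one_mul] at e1
    rw [map_mul] at e2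
    exact u2 (mul_right_cancel₀ (div_ne_zero s0 a1) (by linear_combination σ u * e1 - e2))
  refine ⟨{ζ}, by simpa, fun p p1 p2 p3 => ?_⟩
  obtain rfl : p.coeff 0 = a' := mul_left_cancel₀ (a := (-1) ^ (m + 1)) (by simp) (by rw [ha', ← p3, dd, p2])
  have z0 := ne_zero_of_norm hζ
  obtain ⟨r, hr⟩ : ∃ r, r * τ = ζ * (σ τ / σ (p.coeff 0)) := ⟨_, div_mul_cancel₀ _ τ0⟩
  have r0 : r * τ ≠ 0 := hr ▸ mul_ne_zero z0 (div_ne_zero s0 a1)
  set e₀ := (g ^ 0) v + r • (g ^ (m + 2)) v with he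
  have ge : g e₀ = (g ^ 1) v + r • (g ^ (m + 3)) v := by simp [he, pow_succ']
  have A0 : B e₀ e₀ = r * τ + σ (r * τ) := by
    simp only [he, map_add, LinearMap.map_smulₛₗ, LinearMap.add_apply, LinearMap.smul_apply,
      ← H.symm ((g ^ (m + 2)) v) ((g ^ 0) v), K.zero 0 0 (by omega) (by omega), K.top (m + 2) 0
      (by omega), K.zero (m + 2) (m + 2) (by omega) (by omega)]
    simp [add_comm]
  have A1 : ∀ j ≤ m, B ((g ^ j) ((g ^ 1) v)) e₀ = 0 := fun j hj => by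
    simp only [he, map_add, LinearMap.map_smulₛₗ, pow_pow_apply, K.zero (j + 1) 0 (by omega)
      (by omega), K.zero (j + 1) (m + 2) (by omega) (by omega), smul_zero, add_zero]
  have A2 : ∀ j ≤ m + 1, B ((g ^ j) ((g ^ 1) v)) ((g ^ 1) v) = 0 := fun j hj => by
    rw [pow_pow_apply, K.zero _ _ (by omega) (by omega)]
  have A3 : ∀ j ≤ m + 1, B ((g ^ j) ((g ^ 1) v)) (g e₀) = if j = 0 then σ (r * τ) else 0 :=
    fun j hj => by
      rw [ge, map_add, A2 j hj, LinearMap.map_smulₛₗ, pow_pow_apply, ← H.symm]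
      split_ifs with e
      · simp [K.top (m + 3) (j + 1) (by omega)]
      · simp [K.zero (m + 3) (j + 1) (by omega) (by omega)]
  have A4 : B (aeval g p ((g ^ 1) v)) e₀ = τ := by
    rw [aeval_single (m + 1) fun j hj e => A1 j (by omega), ← p2, p1.coeff_natDegree, p2]
    simp only [he, map_add, LinearMap.map_smulₛₗ, pow_pow_apply, K.top (m + 1 + 1) 0 (by omega),
      K.zero (m + 1 + 1) (m + 2) (by omega) (by omega), smul_zero, add_zero, one_mul]
  have A5 : B (aeval g p ((g ^ 1) v)) (g e₀) = p.coeff 0 * σ (r * τ) := by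
    rw [aeval_single 0 fun j hj e => by rw [A3 j (by omega), if_neg e], A3 0 (by omega), if_pos rfl]
  have A6 : B (aeval g p ((g ^ 1) v)) ((g ^ 1) v) = 0 :=
    aeval_perp (n := m + 2) (by omega) fun j hj => A2 j (by omega)
  have hx : ∀ i ≤ m + 1, ∀ j ≤ m + 1, B ((g ^ i) ((g ^ 1) v)) ((g ^ j) ((g ^ 1) v)) = 0 :=
    fun i hi j hj => (K.shift 1).zero _ _ (by omega) (by omega)
  have hd : ∀ i ≤ m, i ≠ 0 → ∃ d, (∀ j ≤ m, B ((g ^ j) ((g ^ 1) v)) d = if j = i then 1 else 0) ∧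
      B (aeval g p ((g ^ 1) v)) d = 0 ∧ B e₀ d = 0 ∧ B (g e₀) d = 0 := fun i hi i0 => by
    obtain ⟨d, hd⟩ := c.exists_vec H fun j => if j = 0 then r * p.coeff i else
      if j = i + 1 then 1 else if j = m + 2 then -p.coeff i else 0
    refine ⟨d, fun j hj => ?_, z_dual p1 p2 (Nat.lt_succ_of_le hi) fun j hj => ?_, ?_, ?_⟩
    · rw [pow_pow_apply, hd _ (by omega)]; simp [show j ≠ m + 1 by omega]
    · rw [pow_pow_apply, hd _ (by omega)]; simp
    · rw [he, map_add, LinearMap.add_apply, hd _ (by omega)]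
      simp [hd (m + 2) (by omega), show m + 1 ≠ i by omega]
    · rw [ge, map_add, LinearMap.add_apply, hd _ (by omega)]
      simp [hd (m + 3) (by omega), show m + 2 ≠ i by omega, i0]
  choose! d d1 d2 d3 d4 using hd
  generalize (g ^ 1) v = x at *
  clear_value e₀
  have B1 : B x e₀ = 0 := A1 0 m.zero_le
  have B2 : B x x = 0 := A2 0 (by omega)
  have B3 : B (g e₀) x = r * τ := by rw [← H.symm, show B x _ = _ from A3 0 (by omega)]; simp [hσ.invol]
  obtain ⟨κ, hκ⟩ : ∃ κ, B (g e₀) (e₀ + κ • x) = ζ * B e₀ e₀ :=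
    ⟨σ ((ζ * B e₀ e₀ - B (g e₀) e₀) / (r * τ)), by
      rw [map_add, LinearMap.map_smulₛₗ, hσ.invol, B3, smul_eq_mul, div_mul_cancel₀ _ r0]; ring⟩
  set y := g e₀ - ζ • (e₀ + κ • x) with hy
  have C1 : B y (e₀ + κ • x) = 0 := by
    rw [hy, map_sub, LinearMap.sub_apply, hκ]; simp [B1, B2, H.eq_zero_symm B1]
  have C2 : B y (g e₀) = 0 := by
    rw [hy, map_sub, LinearMap.sub_apply, hg, map_smul, LinearMap.smul_apply, ← H.symm (g e₀), hκ,
      map_mul, H.fixed, smul_eq_mul, ← mul_assoc, hζ, one_mul, sub_self]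
  have C3 : B y y = 0 := by nth_rewrite 2 [hy]; rw [map_sub, LinearMap.map_smulₛₗ, C1, C2]; simp
  have C4 : B (aeval g p x) y = 0 := by
    have := congrArg σ hr
    rw [map_mul σ ζ, map_div₀, hσ.invol, hσ.invol] at this
    simp only [hy, map_sub, map_add, LinearMap.map_smulₛₗ, A4, A5, A6, this, smul_eq_mul]
    field_simp
    ring
  obtain ⟨E, e1, e2, e3⟩ := gd_dual H hg (k := 2) (by rw [c.1]; ring) p1 p2 a0
    (fun i hi j hj => hx i (by omega) j (by omega))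
    (y' := fun i => if i = 0 then (r * τ)⁻¹ • y else d i)
    (fun i hi j hj => by
      by_cases e : j = 0
      · simp only [e, if_true, hy, map_sub, map_add, LinearMap.map_smulₛₗ, A1 i hi,
          A2 i (by omega), A3 i (by omega)]
        split_ifs
        · rw [smul_zero, add_zero, smul_zero, sub_zero, smul_eq_mul, ← map_mul, inv_mul_cancel₀ r0,
            map_one]
        · simp
      · rw [if_neg e, d1 j hj e i hi])
    (fun j hj => by split_ifs with e; exacts [by simp [C4], d2 j hj e])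
    (fun j hj => by
      rw [if_pos rfl]
      split_ifs with e
      · simp [C3]
      · have : B x (d j) = 0 := by simpa [Ne.symm e] using d1 j hj e 0 m.zero_le
        exact H.eq_zero_symm (by simp [hy, d3 j hj e, d4 j hj e, this]))
    fun j hj _ => aeval_perp (n := m + 2) (by omega) fun i hi => hx i (by omega) j (by omega)
  obtain ⟨c, c1, c2⟩ := e3 e₀ ζ (ζ * κ) (r * τ) (fun i hi => H.eq_zero_symm (A1 i hi))
    (fun i hi => by
      split_ifs with e; exacts [by simp [H.eq_zero_symm C2], d4 i hi e])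
    (fun i hi e => H.eq_zero_symm (by rw [A3 i (by omega), if_neg e]))
    (by rw [if_pos rfl, smul_inv_smul₀ r0, hy]; module)
  obtain ⟨ζ', z2, z3⟩ := edM_two_dim hσ e2 hζ c1 (by rwa [c2, A0, hr])
  exact ⟨ζ', z2, by rwa [e, z3] at e1⟩

theorem gd_two (hσ : UInvol σ) (h : SD σ f) (hd : f.natDegree = 2) {c : F} (hc : c ≠ 0)
    (e : dt (ce f) * σ c = c) : GD σ (ce f) {X - C c} 0 := by
  obtain ⟨ι, _, g, v, τ, B, e', cy, H, hg, K, τ0⟩ := exists_kf_even (M := 1) hσ h hd one_pos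
  have key : ∀ c : F, c ≠ 0 → σ c * τ + c * σ τ = 0 → GD σ (ce f) {X - C c} 0 := fun c hc e => by
    have h1 : B (g v) v = τ := K.top 1 0 rfl
    have h2 : B v v = 0 := K.zero 0 0 one_pos one_pos
    obtain ⟨E, e1, -⟩ := gd_kf (m := 0) (k := 0) H hg K τ0 cy.1 (monic_X_sub_C c) (by simp)
      (by simpa) (u := 0) (by simp) (by
        simp [Module.algebraMap_end_apply, hg, h1, h2, ← H.symm (g v) v]
        linear_combination e) (by omega)
    rwa [e', ce_lin, edM_empty] at e1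
  obtain ⟨θ, t0, t1⟩ := hσ.exists_trace_zero
  have := (key _ (mul_ne_zero t0 τ0) (by rw [map_mul, t1]; ring)).det
  rw [dt_lin, map_mul, t1, show dt (0 : Multiset F[X]) = 1 from rfl] at this
  exact key c hc (mul_left_cancel₀ t0 (by linear_combination (-σ c) * this - θ * σ τ * e))

theorem gd_scal (hσ : UInvol σ) {η : F} (h : η * σ η = 1) :
    GD σ ({X - C η} + {X - C η}) {X - C η} 0 := by
  have := And.left <| gd_mk (ι := Unit) (κ := Empty) hσ (A := Matrix.of fun _ _ => η) (C₁ := 0)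
    (G := 0) (K := Matrix.of fun _ _ => η) (B := 0) (H := 0) (P := 0) (R := 0) (E := 0) (by
      ext (i | i | i) (j | j | j) <;> first
        | exact i.elim | exact j.elim | simp [J3, B3, uStar_apply, Matrix.mul_apply, mul_comm, h])
    ((isUnit_iff_isUnit_det _).2 (by simpa using ne_zero_of_norm h))
  rwa [B3, fromCols_zero, fromRows_zero, edM_fromBlocks, edM_fromBlocks, edM_empty (ι := Empty),
    edM_empty (ι := Empty), edM_unit, zero_add] at this

theorem gd_ext (hσ : UInvol σ) (h : SD σ f) (hd : f.natDegree = 2) (ht : Un σ t) (t0 : t ≠ 0)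
    {c : F} (hc : c ≠ 0) : ∃ E : Matrix (Fin (dg t)) (Fin (dg t)) F,
      GD σ (ce f + t) {X - C c} (edM E) ∧ uStar σ E * E = 1 := by
  obtain ⟨ι, _, g, v, τ, B, e', cy, H, hg, K, τ0⟩ := exists_kf_even (M := 1) hσ h hd one_pos
  obtain ⟨κ, _, _, A, rfl, hA⟩ := ht.exists_isom
  obtain ⟨k⟩ : Nonempty κ := not_isEmpty_iff.1 fun _ => t0 (edM_empty A)
  have H' := hσ.isHerm_uStd κ
  let B' : ((ι → F) × (κ → F)) →ₗ[F] ((ι → F) × (κ → F)) →ₛₗ[σ] F :=
    (B ∘ₗ LinearMap.fst F _ _).compl₂ (LinearMap.fst F _ _) +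
      (uStd σ κ ∘ₗ LinearMap.snd F _ _).compl₂ (LinearMap.snd F _ _)
  have hB : ∀ x y, B' x y = B x.1 y.1 + uStd σ κ x.2 y.2 := fun _ _ => rfl
  have HB : IsHerm B' := ⟨hσ, fun x y => by rw [hB, hB, map_add, H.symm, H'.symm], fun x hx =>
    Prod.ext (H.nondeg _ fun y => by simpa [hB] using hx (y, 0))
      (H'.nondeg _ fun y => by simpa [hB] using hx (0, y))⟩
  have pw : ∀ j, (g.prodMap (Matrix.toLin' A) ^ j : End F _) (v, 0) = ((g ^ j) v, 0) := fun j => by
    induction j with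
    | zero => rfl
    | succ j ih => simp [pow_succ', ih]
  obtain ⟨b, hb⟩ := HB.exists_smul_norm_eq (p := (0, Pi.single k 1)) (by simp [hB, uStd_single_left])
    (c := B' (aeval (A := End F _) (g.prodMap (Matrix.toLin' A)) (X - C c) (v, 0))
      (aeval (A := End F _) (g.prodMap (Matrix.toLin' A)) (X - C c) (v, 0)) / (τ * σ τ))
    (by rw [map_div₀, HB.fixed, hσ.norm_fixed])
  have s0 := (map_ne_zero σ).2 τ0
  obtain ⟨E, e1, e2⟩ := gd_kf (m := 0) (k := dg (edM A)) (v := (v, 0)) HB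
    (g := g.prodMap (Matrix.toLin' A)) (fun u w => by simp [hB, hg, ← hA u.2 w.2])
    ⟨fun i j h1 h2 => by simp [pw, hB, K.zero i j h1 h2], fun i j h1 => by simp [pw, hB, K.top i j h1]⟩
    τ0 (by rw [finrank_prod, cy.1, dg_edM, finrank_fintype_fun_eq_card]) (monic_X_sub_C c)
    (by simp) (by simpa) (u := b • (0, Pi.single k 1)) (fun j _ => by simp [pw, hB])
    (by rw [hb]; field_simp) (by omega)
  exact ⟨E, by rwa [ed_prodMap, e', ce_lin] at e1, e2⟩

theorem fr_ext (hσ : UInvol σ) (h : SD σ f) (hd : f.natDegree = 2) {ζ : F} (hζ : ζ * σ ζ = 1) :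
    Fr σ 1 (ce f + {X - C ζ}) := fr_of fun c hc => ⟨0, by simp, fun p p1 p2 p3 => by
  have := gd_ext hσ h hd (un_lin hζ) (by simp) hc
  rw [dg_lin] at this
  obtain ⟨E, e1, e2⟩ := this
  obtain ⟨ζ', z1, z2⟩ := edM_one_dim e2
  rw [eq_lin p1 p2, dd_X_sub_C] at p3
  exact ⟨ζ', z1, by rwa [eq_lin p1 p2, p3, ce_lin, Multiset.map_zero, zero_add, ← z2]⟩⟩

end Cfsg.Agent.Cl.OreU
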