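import Mathlib
import Cfsg.Agent.Cl.OreUE

/-! Commutators in special unitary groups: orthogonal blocks and the case division. -/

set_option autoImplicit false
set_option linter.unusedSectionVars false

open Matrix Polynomial Sum Module

namespace Cfsg.Agent.Cl.OreU

open Cls Ore

variable {F : Type*} [Field F] {σ : F →+* F} {m q : ℕ} {f f' : F[X]} {s t ω T R : Multiset F[X]}

variable (σ) in
/-- The polynomial of an indecomposable orthogonal summand. -/
structure Blk (f : F[X]) : Prop extends SD σ f where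
  r1 : R1 σ f
  pos : 0 < f.natDegree

theorem bd_add (T R : Multiset F[X]) : (T + R).bind ce = T.bind ce + R.bind ce :=
  Multiset.add_bind _ _ _

theorem bd_one (f : F[X]) : ({f} : Multiset F[X]).bind ce = ce f := Multiset.singleton_bind _ _

theorem dg_one (f : F[X]) : dg {f} = f.natDegree := by simp [dg]

theorem dg_bd (h : ∀ f ∈ T, Blk σ f) : dg (T.bind ce) = dg T := by
  induction T using Multiset.induction_on with
  | empty => rfl
  | cons f T ih =>
    rw [← Multiset.singleton_add, bd_add, dg_add, dg_add, bd_one, dg_one,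
      dg_ce (h f (by simp)).monic, ih fun e he => h e (by simp [he])]

theorem SD.mul (h : SD σ f) (h' : SD σ f') (c : IsCoprime f f') : SD σ (f * f') :=
  ⟨h.monic.mul h'.monic, by rw [mul_coeff_zero]; exact mul_ne_zero h.c0 h'.c0, by
    rw [ce_mul h.monic h'.monic c, Multiset.map_add, h.dual, h'.dual]⟩

theorem blk_lin {ζ : F} (h : ζ * σ ζ = 1) : Blk σ (X - C ζ) :=
  ⟨⟨monic_X_sub_C ζ, by simpa using ne_zero_of_norm h, by
    rw [ce_lin, Multiset.map_singleton, uDual_X_sub_C (ne_zero_of_norm h),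
      ← eq_inv_of_mul_eq_one_left h]⟩, fun x y hx hy _ _ => by
    simp only [eval_sub, eval_X, eval_C, sub_eq_zero] at hx hy
    rw [hx, hy], by simp⟩

theorem Blk.lin (h : Blk σ f) (hd : f.natDegree = 1) : ∃ ζ, ζ * σ ζ = 1 ∧ f = X - C ζ :=
  ⟨_, by simpa using h.norm, eq_lin h.monic hd⟩

theorem eq_of_root (hf : f.Monic) (hd : f.natDegree = 2) {x : F} (hx : f.eval x = 0) :
    ∃ y, f = (X - C x) * (X - C y) := by
  obtain ⟨r, rfl⟩ := dvd_iff_isRoot.2 hx
  have hr := (monic_X_sub_C x).of_mul_monic_left hf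
  rw [(monic_X_sub_C x).natDegree_mul hr, natDegree_X_sub_C] at hd
  exact ⟨_, congrArg _ (eq_lin hr (by omega))⟩

variable [Finite F]

theorem Blk.root_two (h : Blk σ f) (hd : f.natDegree = 2) {x : F} (hx : f.eval x = 0) :
    f = (X - C x) * (X - C (σ x)⁻¹) := by
  obtain ⟨y, e⟩ := eq_of_root h.monic hd hx
  have x0 : x ≠ 0 := by rintro rfl; exact h.c0 (by rwa [coeff_zero_eq_eval_zero])
  by_cases n : x * σ x = 1
  · have := h.norm
    rw [← eq_inv_of_mul_eq_one_left n, e, h.r1 x y hx (by simp [e]) n (by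
      simp only [e, mul_coeff_zero, coeff_sub, coeff_X_zero, coeff_C_zero, zero_sub, neg_mul_neg,
        map_mul] at this
      linear_combination this - y * σ y * n)]
  · have := eval_uDual (σ := σ) x0 hx
    rw [h.eq, e] at this
    simp only [eval_mul, eval_sub, eval_X, eval_C, mul_eq_zero, sub_eq_zero] at this
    rw [e, this.resolve_left fun e' => n
      ((mul_eq_one_iff_eq_inv₀ ((map_ne_zero σ).2 x0)).2 e'.symm)]

theorem Blk.cop_two (h : Blk σ f) (h' : Blk σ f') (hd : f.natDegree = 2) (hd' : f'.natDegree = 2)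
    (e : f ≠ f') : IsCoprime f f' := by
  classical
  refine isCoprime_of_irreducible_dvd (fun x => h.monic.ne_zero x.1) fun P hP h1 h2 => e ?_
  by_cases d : P.natDegree = 1
  · obtain ⟨x, hx⟩ := exists_root_of_degree_eq_one (p := P) (by
      rw [degree_eq_natDegree hP.ne_zero, d]; rfl)
    rw [h.root_two hd (hx.dvd h1), h'.root_two hd' (hx.dvd h2)]
  · have := hP.natDegree_pos
    exact eq_of_monic_of_associated h.monic h'.monic
      ((associated_of_dvd_of_natDegree_le h1 h.monic.ne_zero (by omega)).symm.trans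
        (associated_of_dvd_of_natDegree_le h2 h'.monic.ne_zero (by omega)))

theorem small_cases (h : ∀ f ∈ R, Blk σ f) (hd : dg R < 2) :
    ∃ L : Multiset F, L.card ≤ 1 ∧ (∀ ζ ∈ L, ζ * σ ζ = 1) ∧ R = L.map fun ζ => X - C ζ := by
  induction R using Multiset.induction_on with
  | empty => exact ⟨0, by simp⟩
  | cons f R _ =>
    have h1 := (h f (by simp)).pos
    rw [← Multiset.singleton_add, dg_add, dg_one] at hd
    obtain ⟨ζ, z, rfl⟩ := (h f (by simp)).lin (by omega)
    obtain rfl : R = 0 := by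
      by_contra e
      obtain ⟨f', hf⟩ := Multiset.exists_mem_of_ne_zero e
      have := (h f' (by simp [hf])).pos
      have : f'.natDegree ≤ dg R := Multiset.le_sum_of_mem (Multiset.mem_map_of_mem _ hf)
      omega
    exact ⟨{ζ}, by simp, by simpa, by simp⟩

theorem bd_lines (L : Multiset F) : (L.map fun ζ => X - C ζ).bind ce = L.map fun ζ => X - C ζ := by
  simp [Multiset.bind_map, ce_lin, Multiset.bind_singleton]

theorem split_mem (h : f ∈ T) : ∃ R, T = {f} + R :=
  Multiset.le_iff_exists_add.1 (Multiset.singleton_le.2 h)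

theorem Un.blocks (hσ : UInvol σ) (h : Un σ s) :
    ∃ T : Multiset F[X], (∀ f ∈ T, Blk σ f) ∧ s = T.bind ce := by
  induction hn : dg s using Nat.strong_induction_on generalizing s with
  | _ n ih =>
  obtain ⟨ι, _, _, x, hx, rfl⟩ := h
  by_cases h0 : edM x = 0
  · exact ⟨0, by simp, h0⟩
  obtain ⟨e, he⟩ := Multiset.exists_mem_of_ne_zero h0
  have pp := isPP_of_mem_edM he
  have c0 := (isUnit_iff_edM x).1 (IsUnit.of_mul_eq_one_right _ hx) e he
  obtain ⟨m₁, m₂, x₁, x₂, h₁, h₂, h₃, h₄, -⟩ := exists_unitary_block hσ hx he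
  obtain ⟨f, f1, f2⟩ : ∃ f, Blk σ f ∧ edM x₁ = ce f := by
    rcases h₄ with ⟨e1, e2⟩ | ⟨e1, e2⟩
    · refine ⟨e, ⟨⟨pp.monic, c0, by simp [ce_pp pp, e1]⟩, fun a b ha hb _ _ => ?_,
        pp.natDegree_pos⟩, e2.trans (ce_pp pp).symm⟩
      obtain ⟨P, k, p1, p2, p3, rfl⟩ := isPP_iff.1 pp
      rw [eval_pow, pow_eq_zero_iff p3.ne'] at ha hb
      have := eq_lin p1 (natDegree_eq_of_degree_eq_some (degree_eq_one_of_irreducible_of_root p2 ha))
      rw [this] at ha hb
      simp only [eval_sub, eval_X, eval_C, sub_eq_zero] at ha hb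
      rw [ha, hb]
    · have pp' := pp.uDual hσ c0
      have cp := pp.isCoprime_of_ne pp' (natDegree_uDual c0).symm (Ne.symm e1)
      have g : Good σ e := ⟨pp.monic, c0, cp⟩
      have e3 : edM x₁ = ce (e * uDual σ e) := by
        rw [ce_mul pp.monic pp'.monic cp, ce_pp pp, ce_pp pp', e2]; rfl
      refine ⟨_, ⟨⟨pp.monic.mul pp'.monic, ?_, e3 ▸ edM_map_uDual_of_unitary hσ h₁⟩,
        fun a b ha _ h _ => ?_, ?_⟩, e3⟩
      · rw [mul_coeff_zero]; exact mul_ne_zero c0 (g.dual hσ).2.1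
      · rw [eval_mul] at ha
        exact (mul_ne_zero (g.eval_ne h) ((g.dual hσ).eval_ne h) ha).elim
      · rw [pp.monic.natDegree_mul pp'.monic]
        exact Nat.add_pos_left pp.natDegree_pos _
  obtain ⟨T, t1, t2⟩ := ih (dg (edM x₂)) (by
    have := f1.pos
    rw [← hn, h₃, dg_add, f2, dg_ce f1.monic]; omega) ⟨_, _, _, x₂, h₂, rfl⟩ rfl
  exact ⟨{f} + T, by simpa [or_imp, forall_and] using ⟨f1, t1⟩, by rw [bd_add, bd_one, h₃, f2, t2]⟩

theorem Un.norm (h : Un σ s) : dt s * σ (dt s) = 1 := by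
  obtain ⟨ι, _, _, x, hx, rfl⟩ := h
  rw [dt_edM, det_mul_map_det_of_unitary hx]

theorem fx_lines {L : Multiset F} (h : ∀ ζ ∈ L, ζ * σ ζ = 1) :
    FX σ (Good σ) False False (L.map fun ζ => X - C ζ) := by
  induction L using Multiset.induction_on with
  | empty => exact fx_zero
  | cons ζ L ih =>
    rw [Multiset.map_cons, ← Multiset.singleton_add]
    exact (fx_lin (h ζ (by simp))).add' (ih fun x hx => h x (by simp [hx]))

theorem SD.fr (hσ : UInvol σ) (h : SD σ f) (r : R1 σ f) (hd : 3 ≤ f.natDegree) :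
    Fr σ ((f.natDegree - 1) / 2) (ce f) := by
  obtain ⟨m, e | e⟩ : ∃ m, f.natDegree = 2 * (m + 1) + 1 ∨ f.natDegree = 2 * (m + 2) :=
    ⟨(f.natDegree - 3) / 2, by omega⟩
  · convert fr_odd hσ h r e; omega
  · convert fr_even hσ h e; omega

theorem Fr.one (h : Fr σ 1 s) {c : F} (hc : c ≠ 0) : ∃ L : Multiset F, L ≠ 0 ∧
    (∀ ζ ∈ L, ζ * σ ζ = 1) ∧ GD σ s {X - C c} (L.map fun ζ => X - C ζ) :=
  let ⟨L, h1, h2, h3⟩ := h c hc
  ⟨L, h1, h2, ce_lin c ▸ h3 _ (monic_X_sub_C c) (by simp) (dd_X_sub_C c)⟩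

theorem Fr.add_lines (hσ : UInvol σ) (h : Fr σ m s) {L : Multiset F} (hL : ∀ ζ ∈ L, ζ * σ ζ = 1) :
    Fr σ m (s + L.map fun ζ => X - C ζ) := by
  induction L using Multiset.induction_on with
  | empty => simpa
  | cons ζ L ih =>
    intro c hc
    obtain ⟨L', h1, h2, h3⟩ := ih (fun x hx => hL x (by simp [hx])) c hc
    have z := hL ζ (by simp)
    refine ⟨L' + {ζ}, by simp, by simpa [or_imp, forall_and] using ⟨h2, z⟩, fun p p1 p2 p3 => ?_⟩
    rw [Multiset.map_cons, ← Multiset.singleton_add, add_comm {_}, ← add_assoc, Multiset.map_add]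
    exact (h3 p p1 p2 p3).addW hσ (un_lin z)

variable (σ) in
/-- A Gauss decomposition with a suitable linear part of size one. -/
def Fxd (t : Multiset F[X]) : Prop := ∃ c : F, c ≠ 0 ∧ (c ≠ -1 ∨ c = 1) ∧ ∃ L : Multiset F,
  (∀ ζ ∈ L, ζ * σ ζ = 1) ∧ GD σ t {X - C c} (L.map fun ζ => X - C ζ)

theorem SD.fxd (hσ : UInvol σ) (h : SD σ f) (hd : f.natDegree = 2) : Fxd σ (ce f) := by
  obtain ⟨c, c0, e⟩ := hσ.hilbert90 (h.un hσ).norm
  have e' : dt (ce f) * σ c = c := by rw [e, inv_mul_cancel_right₀ ((map_ne_zero σ).2 c0)]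
  by_cases h1 : c = -1
  · exact ⟨1, one_ne_zero, Or.inr rfl, 0, by simp, gd_two hσ h hd one_ne_zero (by
      simpa [h1] using e')⟩
  · exact ⟨c, c0, Or.inl h1, 0, by simp, gd_two hσ h hd c0 e'⟩

theorem exists_fxd (hσ : UInvol σ) (h : ∀ f ∈ R, Blk σ f) (h4 : ∀ f ∈ R, f.natDegree ≤ 4)
    (hd : 2 ≤ dg R) (hn : ({X - C (-1)} + {X - C (-1)} : Multiset F[X]) ≤ R → (-1 : F) = 1) :
    ∃ R₁ R₂, R = R₁ + R₂ ∧ Fxd σ (R₁.bind ce) := by
  by_cases e : ∃ f ∈ R, f.natDegree ≠ 1
  · obtain ⟨f, hf, e⟩ := e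
    obtain ⟨R₂, rfl⟩ := split_mem hf
    refine ⟨_, _, rfl, ?_⟩
    rw [bd_one]
    have := (h f hf).pos
    by_cases e' : f.natDegree = 2
    · exact (h f hf).fxd hσ e'
    have h1 := (h f hf).fr hσ (h f hf).r1 (by omega)
    rw [show (f.natDegree - 1) / 2 = 1 by have := h4 f hf; omega] at h1
    obtain ⟨L, -, h2⟩ := h1.one one_ne_zero
    exact ⟨1, one_ne_zero, Or.inr rfl, L, h2⟩
  push Not at e
  obtain ⟨f, hf⟩ := Multiset.exists_mem_of_ne_zero (s := R) (by rintro rfl; simp [dg] at hd)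
  obtain ⟨R, rfl⟩ := split_mem hf
  obtain ⟨f', hf'⟩ := Multiset.exists_mem_of_ne_zero (s := R) (by
    rintro rfl; simp [dg, e f hf] at hd)
  obtain ⟨R, rfl⟩ := split_mem hf'
  obtain ⟨x, hx, rfl⟩ := (h f hf).lin (e f hf)
  obtain ⟨y, hy, rfl⟩ := (h f' (by simp)).lin (e f' (by simp))
  refine ⟨_, R, (add_assoc _ _ _).symm, ?_⟩
  rw [bd_add, bd_one, bd_one]
  by_cases e' : x = y
  · subst e'
    refine ⟨x, ne_zero_of_norm hx, or_iff_not_imp_left.2 fun h1 => ?_, 0, by simp,
      ce_lin x ▸ gd_scal hσ hx⟩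
    obtain rfl := not_not.1 h1
    exact hn (by rw [← add_assoc]; exact le_self_add)
  · rw [← ce_mul (monic_X_sub_C x) (monic_X_sub_C y) (isCoprime_lin e')]
    exact ((blk_lin hx).mul (blk_lin hy).toSD (isCoprime_lin e')).fxd hσ (by
      rw [(monic_X_sub_C x).natDegree_mul (monic_X_sub_C y)]; simp)

theorem fx_fix (hq : UField σ q) (h : SD σ f) (hd : f.natDegree = 2) (ht : Fxd σ t) (h2 : dg t = 2)
    (h1 : dt (ce f + t) = 1) : FX σ ⊥ True True (ce f + t) := by
  obtain ⟨c, c0, c1, L, -, g⟩ := ht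
  obtain rfl : L = 0 := by
    have := g.dg
    rw [h2, dg_lin] at this
    simpa [dg] using (show dg (L.map fun ζ => X - C ζ) = 0 by omega)
  have e := g.det
  rw [dt_lin, Multiset.map_zero, show dt (0 : Multiset F[X]) = 1 from rfl, mul_one] at e
  have s0 := (map_ne_zero σ).2 c0
  rw [dt_add] at h1
  rw [add_comm]
  refine fx_two hq c0 c1 g (gd_two hq.invol h hd (inv_ne_zero c0) ?_) (i := False) (d := False)
    (by simpa using fx_zero)
  rw [map_inv₀]
  field_simp
  linear_combination σ c * h1 - dt (ce f) * e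

variable (σ) in
/-- Absorption of a two-dimensional block by a line. -/
def HB : Prop := ∀ f ζ, Blk σ f → f.natDegree = 2 → ζ * σ ζ = 1 →
  FX σ (G2 σ) False False (ce f + {X - C ζ})

variable (σ) in
/-- Prescribed determinant, also after adding a two-dimensional block. -/
def DP (s : Multiset F[X]) : Prop := FX σ ⊥ True True s ∧
  ∀ f, Blk σ f → f.natDegree = 2 → FX σ ⊥ True True (s + ce f)

theorem HB.lines (H : HB σ) {L : Multiset F} (h0 : L ≠ 0) (hL : ∀ ζ ∈ L, ζ * σ ζ = 1)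
    (h : Blk σ f) (hd : f.natDegree = 2) :
    FX σ (G2 σ) False False ((L.map fun ζ => X - C ζ) + ce f) := by
  obtain ⟨ζ, z⟩ := Multiset.exists_mem_of_ne_zero h0
  obtain ⟨L, rfl⟩ := Multiset.exists_cons_of_mem z
  rw [Multiset.map_cons, ← Multiset.singleton_add, add_right_comm, add_comm {_}]
  exact (H f ζ h hd (hL ζ z)).add'
    ((fx_lines fun x hx => hL x (by simp [hx])).mono g2_le id id)

theorem dp_big (hq : UField σ q) (H : HB σ) (h : Fr σ m s) (hm : 2 ≤ m) : DP σ s := by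
  obtain ⟨L, h0, h1, h2⟩ := h 1 one_ne_zero
  exact ⟨fx_big hq hm ((fx_lines h1).mono g2_le id id) h2, fun f hf hd =>
    fx_big hq hm (H.lines h0 h1 hf hd) fun p p1 p2 p3 =>
      (h2 p p1 p2 p3).addW hq.invol (hf.un hq.invol)⟩

theorem fx_fr_fxd (hq : UField σ q) (h : Fr σ 1 s) (ht : Fxd σ t) : FX σ ⊥ True True (s + t) := by
  obtain ⟨c, c0, c1, L, l1, g⟩ := ht
  obtain ⟨L', -, h1, h2⟩ := h.one (inv_ne_zero c0)
  rw [add_comm]
  exact fx_two hq c0 c1 g h2 (((fx_lines l1).add' (fx_lines h1)).mono g2_le id id)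

theorem dp_two (hq : UField σ q) (H : HB σ) (h : Fr σ 1 s) (ht : Fxd σ t) : DP σ (s + t) := by
  refine ⟨fx_fr_fxd hq h ht, fun f hf hd => ?_⟩
  obtain ⟨c, c0, c1, L, l1, g⟩ := ht
  obtain ⟨L', h0, h1, h2⟩ := h.one (inv_ne_zero c0)
  rw [add_comm s, add_assoc]
  exact fx_two hq c0 c1 g (h2.addW hq.invol (hf.un hq.invol))
    (((fx_lines l1).mono g2_le id id).add' (H.lines h0 h1 hf hd))

variable (σ) in
/-- The facts depending on the size of the field. -/
structure Hyp (P : ℕ → Prop) : Prop where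
  hA : ∀ T : Multiset F[X], (∀ f ∈ T, Blk σ f) → FX σ ⊥ False False (T.bind ce) ∨
    ((-1 : F) = 1 ∧ ∃ f, T = {f} ∧ f.natDegree = 2)
  hB : HB σ
  hC : ∀ f (L : Multiset F), Blk σ f → f.natDegree ≤ 4 → L.card ≤ 1 → (∀ ζ ∈ L, ζ * σ ζ = 1) →
    Fr σ 1 (ce f + L.map fun ζ => X - C ζ) → P (f.natDegree + L.card) →
    dt (ce f + L.map fun ζ => X - C ζ) = 1 → Done σ (ce f + L.map fun ζ => X - C ζ)
  hD : ∀ f k, Blk σ f → f.natDegree = 2 → dt ((Multiset.replicate (k + 3) f).bind ce) = 1 →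
    Done σ ((Multiset.replicate (k + 3) f).bind ce)

variable {P : ℕ → Prop}

theorem DP.done (H : Hyp σ P) (h : DP σ s) (hR : ∀ f ∈ R, Blk σ f) (h1 : dt (s + R.bind ce) = 1) :
    Done σ (s + R.bind ce) := by
  rcases H.hA R hR with e | ⟨-, f, rfl, e⟩
  · exact h.1.done e h1
  · rw [bd_one] at h1 ⊢
    exact (h.2 f (hR f (by simp)) e).done_of h1 (Or.inl trivial)

theorem tree (hq : UField σ q) (H : Hyp σ P) (hT : ∀ f ∈ T, Blk σ f) (h1 : dt (T.bind ce) = 1)
    (hn : 3 ≤ dg T) (hP : P (dg T)) : Done σ (T.bind ce) := by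
  have hσ := hq.invol
  by_cases big : ∃ f ∈ T, 4 < f.natDegree
  · obtain ⟨f, hf, e⟩ := big
    obtain ⟨R, rfl⟩ := split_mem hf
    rw [bd_add, bd_one] at h1 ⊢
    exact (dp_big hq H.hB ((hT f hf).fr hσ (hT f hf).r1 (by omega)) (by omega)).done H
      (fun e he => hT e (by simp [he])) h1
  push Not at big
  by_cases neg : ({X - C (-1)} + {X - C (-1)} : Multiset F[X]) ≤ T ∧ (-1 : F) ≠ 1
  · obtain ⟨R, rfl⟩ := Multiset.le_iff_exists_add.1 neg.1
    have := df_lines (σ := σ) (L := {-1, -1}) (by simp) (by simp) (by simp)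
    rw [← bd_lines] at this
    rw [bd_add] at h1 ⊢
    exact this.done ((H.hA R fun e he => hT e (by simp [he])).resolve_right fun e => neg.2 e.1) h1
  push Not at neg
  have main : ∀ T₁ R, T = T₁ + R → Fr σ 1 (T₁.bind ce) → 2 ≤ dg R → Done σ (T.bind ce) := by
    rintro T₁ R rfl h hd
    obtain ⟨R₁, R₂, rfl, e⟩ := exists_fxd hσ (fun e he => hT e (by simp [he]))
      (fun e he => big e (by simp [he])) hd fun e => neg (e.trans le_add_self)
    rw [bd_add, bd_add, ← add_assoc] at h1 ⊢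
    exact (dp_two hq H.hB h e).done H (fun e he => hT e (by simp [he])) h1
  have four : ∀ f R, T = {f} + R → f.natDegree = 2 → dg R = 2 → Done σ (T.bind ce) := by
    rintro f R rfl h hd
    have hR : ∀ e ∈ R, Blk σ e := fun e he => hT e (by simp [he])
    obtain ⟨R₁, R₂, rfl, e⟩ := exists_fxd hσ hR
      (fun e he => big e (by simp [he])) hd.ge fun e => neg (e.trans le_add_self)
    have h2 : 2 ≤ dg (R₁.bind ce) := by
      obtain ⟨c, -, -, L, -, g⟩ := e
      rw [g.dg, dg_lin]; omega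
    rw [dg_bd fun e he => hR e (by simp [he])] at h2
    rw [dg_add] at hd
    obtain ⟨L, -, -, rfl⟩ := small_cases (R := R₂) (fun e he => hR e (by simp [he])) (by omega)
    obtain rfl : L = 0 := by simpa [dg] using (show dg (L.map fun ζ => X - C ζ) = 0 by omega)
    rw [Multiset.map_zero, add_zero] at *
    rw [bd_add, bd_one] at h1 ⊢
    exact (fx_fix hq (hT f (by simp)).toSD h e (by rw [dg_bd hR]; simpa [dg] using hd) h1).done_of h1
      (Or.inl trivial)
  have last : ∀ f (L : Multiset F), T = {f} + L.map (fun ζ => X - C ζ) → L.card ≤ 1 →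
      (∀ ζ ∈ L, ζ * σ ζ = 1) → Fr σ 1 (ce f + L.map fun ζ => X - C ζ) → Done σ (T.bind ce) := by
    rintro f L rfl l1 l2 h
    rw [bd_add, bd_one, bd_lines] at h1 ⊢
    exact H.hC f L (hT f (by simp)) (big f (by simp)) l1 l2 h (by simpa [dg] using hP) h1
  by_cases mid : ∃ f ∈ T, 2 < f.natDegree
  · obtain ⟨f, hf, e⟩ := mid
    obtain ⟨R, rfl⟩ := split_mem hf
    have h2 := (hT f hf).fr hσ (hT f hf).r1 e
    rw [show (f.natDegree - 1) / 2 = 1 by have := big f hf; omega] at h2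
    by_cases hd : 2 ≤ dg R
    · exact main _ _ rfl (bd_one f ▸ h2) hd
    obtain ⟨L, l1, l2, rfl⟩ := small_cases (fun e he => hT e (by simp [he])) (not_le.1 hd)
    exact last f L rfl l1 l2 (h2.add_lines hσ l2)
  push Not at mid
  by_cases two : ∃ f ∈ T, f.natDegree = 2
  swap
  · push Not at two
    choose! z z1 z2 using fun f hf => (hT f hf).lin (show f.natDegree = 1 by
      have := mid f hf; have := two f hf; have := (hT f hf).pos; omega)
    have e : T = (T.map z).map fun ζ => X - C ζ := by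
      rw [Multiset.map_map]
      exact (Multiset.map_id T).symm.trans (Multiset.map_congr rfl z2)
    rw [e, bd_lines] at h1 ⊢
    exact (df_lines (by simpa using z1) (fun e' => by rw [e, e'] at hn; simp [dg] at hn)
      (by simpa [dt, dd_X_sub_C] using h1)).done_of h1 (Or.inl trivial)
  obtain ⟨f, hf, e⟩ := two
  obtain ⟨R, rfl⟩ := split_mem hf
  rw [dg_add, dg_one, e] at hn
  by_cases hd : dg R = 2
  · exact four f R rfl e hd
  by_cases oth : ∃ f' ∈ R, f' ≠ f
  · obtain ⟨f', hf', e'⟩ := oth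
    obtain ⟨R, rfl⟩ := split_mem hf'
    have b := hT f' (by simp)
    have := b.pos
    have := mid f' (by simp)
    rw [dg_add, dg_one] at hd
    by_cases e1 : f'.natDegree = 1
    · obtain ⟨ζ, z, rfl⟩ := b.lin e1
      have h2 := fr_ext hσ (hT f hf).toSD e z
      by_cases h3 : 2 ≤ dg R
      · exact main _ _ (add_assoc _ _ _).symm (by rwa [bd_add, bd_one, bd_one, ce_lin]) h3
      obtain ⟨L, -, -, rfl⟩ := small_cases (R := R) (fun e he => hT e (by simp [he])) (by omega)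
      obtain rfl : L = 0 := by
        have : dg (L.map fun ζ => X - C ζ) = L.card := by simp [dg]
        rw [← Multiset.card_eq_zero]; omega
      exact last f {ζ} (by simp) (by simp) (by simpa) h2
    have cp := (hT f hf).cop_two b e (by omega) e'.symm
    have h2 := fr_even (m := 0) hσ ((hT f hf).mul b.toSD cp) (by
      rw [(hT f hf).monic.natDegree_mul b.monic]; omega)
    rw [ce_mul (hT f hf).monic b.monic cp] at h2
    by_cases h3 : 2 ≤ dg R
    · exact main _ _ (add_assoc _ _ _).symm (by rwa [bd_add, bd_one, bd_one]) h3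
    obtain ⟨L, l1, l2, rfl⟩ := small_cases (R := R) (fun e he => hT e (by simp [he])) (by omega)
    obtain ⟨ζ, rfl⟩ : ∃ ζ, L = {ζ} := by
      have : dg (L.map fun ζ => X - C ζ) = L.card := by simp [dg]
      rw [← Multiset.card_eq_one]; omega
    refine main ({f} + {X - C ζ}) {f'} (by rw [Multiset.map_singleton]; abel) ?_
      (by rw [dg_one]; omega)
    rw [bd_add, bd_one, bd_one, ce_lin]
    exact fr_ext hσ (hT f hf).toSD e (l2 ζ (by simp))
  push Not at oth
  obtain ⟨k, hk⟩ : ∃ k, R.card = k + 2 := by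
    have : dg R = R.card * 2 := by rw [Multiset.eq_replicate_card.2 oth]; simp [dg, e]
    exact ⟨R.card - 2, by omega⟩
  rw [Multiset.eq_replicate.2 ⟨hk, oth⟩, Multiset.singleton_add, ← Multiset.replicate_succ] at h1 ⊢
  exact H.hD f k (hT f hf) e h1

end Cfsg.Agent.Cl.OreU
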