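import Mathlib
import Cfsg.Agent.Cl.OreUF

/-! Commutators in special unitary groups: fields with `q ≥ 3`. -/

set_option autoImplicit false
set_option linter.unusedSectionVars false

open Matrix Polynomial Sum Module

namespace Cfsg.Agent.Cl.OreU

open Cls Ore

variable {F : Type*} [Field F] [Finite F] {σ : F →+* F} {m q : ℕ} {f f' : F[X]}
  {s t ω T R : Multiset F[X]}

theorem exists_avoid3 {p : F → Prop} (h : 4 ≤ Nat.card {x // p x}) (x y z : F) :
    ∃ a, p a ∧ a ≠ x ∧ a ≠ y ∧ a ≠ z := by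
  classical
  by_contra! hc
  have : {a | p a}.ncard ≤ 3 := (Set.ncard_le_ncard (t := ({x, y, z} : Finset F))
    fun a ha => by have := hc a ha; simp; tauto).trans (by
      rw [Set.ncard_coe_finset]; exact Finset.card_le_three)
  exact absurd (h.trans this) (by omega)

theorem edM_tri {a b d : F} (h : a ≠ d) : edM !![a, b; 0, d] = {X - C a} + {X - C d} := by
  have := sub_ne_zero.2 h.symm
  refine (edM_eq_of_mul (P := !![1, b / (d - a); 0, 1]) (G' := !![a, 0; 0, d])
    ((isUnit_iff_isUnit_det _).2 (by simp)) ?_).trans (edM_diag_two _ _)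
  ext i j
  fin_cases i <;> fin_cases j <;> simp [Matrix.mul_apply]
  field_simp
  ring

theorem fx_refl (hq : UField σ q) (h3 : 3 ≤ q) (h : Blk σ f) (hd : f.natDegree = 2)
    (h1 : f.coeff 0 ≠ 1) : FX σ (G2 σ) True False (ce f) := fun l _ hl _ => by
  have n0 := h.norm
  have e1 := coeff_uDual (σ := σ) (e := f) (i := 1) (by omega)
  rw [h.eq, hd, ← eq_inv_of_mul_eq_one_left n0] at e1
  have f1 : f.eval 1 ≠ 0 := fun e => h1 (by rw [h.root_two hd e]; simp)
  obtain ⟨ρ, r1, r2, r3, r4⟩ : ∃ ρ, ρ * σ ρ = 1 ∧ ρ ≠ 1 ∧ ρ ≠ f.coeff 0 ∧ f.eval ρ ≠ 0 := by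
    have c := (hq.card_norm_eq one_ne_zero (map_one σ)).ge.trans' (show 4 ≤ q + 1 by omega)
    by_cases e : ∃ z, f.eval z = 0 ∧ z * σ z = 1
    · obtain ⟨z, z1, z2⟩ := e
      obtain ⟨ρ, r1, r2, r3, r4⟩ := exists_avoid3 c 1 (f.coeff 0) z
      exact ⟨ρ, r1, r2, r3, fun e => r4 (h.r1 _ _ e z1 r1 z2)⟩
    · obtain ⟨ρ, r1, r2, r3, -⟩ := exists_avoid3 c 1 (f.coeff 0) 1
      exact ⟨ρ, r1, r2, r3, fun e' => e ⟨ρ, e', r1⟩⟩
  have e := eq_quad h.monic hd
  have hm := h.monic
  obtain ⟨π, hπ⟩ : ∃ π, ρ * π = f.coeff 0 := ⟨_, mul_div_cancel₀ _ (ne_zero_of_norm r1)⟩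
  obtain ⟨τ, hτ⟩ : ∃ τ, f.coeff 1 = -τ := ⟨_, (neg_neg _).symm⟩
  rw [← hπ] at n0 r3
  rw [show 2 - 1 = 1 from rfl, hτ, ← hπ] at e1
  rw [hτ, ← hπ, neg_neg] at e
  have p1 : π * σ π = 1 := by rw [map_mul] at n0; linear_combination n0 - π * σ π * r1
  have p2 : π - 1 ≠ 0 := fun e => r3 (by linear_combination -ρ * e)
  have r5 := sub_ne_zero.2 r2
  obtain ⟨u, hu⟩ : ∃ u, u * ((ρ - 1) * (π - 1)) = τ - ρ - π :=
    ⟨_, div_mul_cancel₀ _ (mul_ne_zero r5 p2)⟩
  have u1 : σ u = u := by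
    have := congrArg σ hu
    simp only [map_mul, map_sub, map_one, map_neg] at this e1
    refine mul_right_cancel₀ (mul_ne_zero r5 p2) ?_
    linear_combination ρ * π * this - hu + e1 - (π + σ u * π * (σ π - 1)) * r1 -
      (ρ + σ u * (1 - ρ)) * p1
  have u2 : u ≠ 0 := fun e' => r4 (by rw [e]; simp; rw [e'] at hu; linear_combination ρ * hu)
  have u3 : 1 - u ≠ 0 := fun e' => f1 (by
    rw [e]; simp; linear_combination hu + (ρ - 1) * (π - 1) * e')
  have c1 := isCyc_two (A := !![ρ + (ρ - 1) * u * (π - 1), (ρ - 1) * u * π; π - 1, π]) (τ := τ)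
    (μ := ρ * π) (by simpa using p2) (by simp; linear_combination hu) (by simp; ring)
  have l0 := ne_zero_of_norm hl
  have := trU_of_form hq.invol (J := !![1, u; u, u])
    (g := !![ρ + (ρ - 1) * u * (π - 1), (ρ - 1) * u * π; π - 1, π])
    (Y := !![l, (l - l * ρ) * u; 0, l * ρ]) ((isUnit_iff_isUnit_det _).2 (Ne.isUnit (by
      convert mul_ne_zero u2 u3 using 1; simp; ring))) (by
      ext i j
      fin_cases i <;> fin_cases j <;> simp [Matrix.mul_apply, uStar_apply, u1] <;> grind) (by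
      ext i j
      fin_cases i <;> fin_cases j <;> simp [Matrix.mul_apply, uStar_apply, u1] <;> grind)
  rw [show !![l, (l - l * ρ) * u; 0, l * ρ] * !![ρ + (ρ - 1) * u * (π - 1), (ρ - 1) * u * π; π - 1, π] =
    !![l * ρ, l * ρ * (π - 1); 0, l * ρ * π]ᵀ by
      ext i j; fin_cases i <;> fin_cases j <;> simp [Matrix.mul_apply] <;> ring,
    edM_transpose, edM_ce (e ▸ c1) hm, edM_tri (fun e => r2 (mul_left_cancel₀ l0 (by simp [← e]))),
    edM_tri (fun e => p2 (mul_left_cancel₀ (mul_ne_zero l0 (ne_zero_of_norm r1))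
      (by linear_combination -e)))] at this
  exact ⟨_, _, _, _, norm_mul (norm_mul hl r1) p1, this, by abel,
    ⟨(cop_g2 _).add (cop_g2 _), (cop_g2 _).add (cop_g2 _)⟩, fun _ => sp_of_lin (c := l) (by simp),
    False.elim⟩

theorem exists_norm_ne (hq : UField σ q) (h3 : 3 ≤ q) : ∃ l : F, l ≠ 0 ∧ l * σ l ≠ 1 := by
  obtain ⟨a, a1, a2, a3⟩ := hq.exists_fixed_ne (by omega)
  obtain ⟨l, rfl⟩ := hq.exists_norm_eq a1
  exact ⟨l, left_ne_zero_of_mul a2, a3⟩

theorem fx_one' (hq : UField σ q) (h3 : 3 ≤ q) {L : Multiset F} (hL : ∀ ζ ∈ L, ζ * σ ζ = 1)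
    (h : GD σ s {X - C 1} (L.map fun ζ => X - C ζ)) : FX σ (G2 σ) True False s :=
  fx_one hq.invol h (fx_lines hL) fun _ _ =>
    let ⟨l, h1, h2⟩ := exists_norm_ne hq h3; ⟨l, h1, h2, False.elim⟩

theorem fx_small (hq : UField σ q) (h3 : 3 ≤ q) (h : Blk σ f) (hd : f.natDegree ≤ 4) :
    FX σ (G2 σ) True False (ce f) := by
  have := h.pos
  rcases (by omega : f.natDegree = 1 ∨ f.natDegree = 2 ∨ 3 ≤ f.natDegree) with e | e | e
  · obtain ⟨ζ, z, rfl⟩ := h.lin e
    exact ce_lin ζ ▸ (fx_lin z).mono g2_le id id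
  · by_cases h1 : f.coeff 0 = 1
    · exact fx_one' hq h3 (L := 0) (by simp) (gd_two hq.invol h.toSD e one_ne_zero (by
        simp [dt_ce h.monic, dd, e, h1]))
    · exact fx_refl hq h3 h e h1
  · have h1 := h.fr hq.invol h.r1 e
    rw [show (f.natDegree - 1) / 2 = 1 by omega] at h1
    obtain ⟨L, -, h2, h4⟩ := h1.one one_ne_zero
    exact fx_one' hq h3 h2 h4

theorem fx_bd {c : F[X] → Prop} (h : ∀ f ∈ T, FX σ c False False (ce f)) :
    FX σ c False False (T.bind ce) := by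
  induction T using Multiset.induction_on with
  | empty => exact fx_zero
  | cons f T ih =>
    rw [Multiset.cons_bind]
    exact (h f (by simp)).add' (ih fun e he => h e (by simp [he]))

theorem fx_blk_big (hq : UField σ q) (h : Blk σ f) (hd : 4 < f.natDegree) :
    FX σ ⊥ True True (ce f) := by
  obtain ⟨L, -, h1, h2⟩ := h.fr hq.invol h.r1 (by omega) 1 one_ne_zero
  exact fx_big hq (by omega) ((fx_lines h1).mono g2_le id id) h2

theorem hyp_three (hq : UField σ q) (h3 : 3 ≤ q) : Hyp σ fun _ => True where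
  hA T hT := Or.inl (fx_bd fun f hf => (le_or_gt f.natDegree 4).elim
    (fun h => (fx_small hq h3 (hT f hf) h).weak) fun h => (fx_blk_big hq (hT f hf) h).weak)
  hB f ζ h hd z := ((fx_small hq h3 h (by omega)).add' ((fx_lin (i := False) z).mono g2_le id id)).mono
    le_rfl False.elim id
  hC f L h hd l1 l2 hs _ h1 := by
    obtain ⟨L', k0, k1, k2⟩ := hs.one one_ne_zero
    rcases h3.eq_or_lt with rfl | h4
    · obtain ⟨l, l0, l3⟩ := exists_norm_ne hq h3
      have c := k2.dg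
      rw [dg_add, dg_ce h.monic, dg_lin] at c
      simp only [dg, Multiset.map_map, Function.comp_def, natDegree_X_sub_C, Multiset.map_const',
        Multiset.sum_replicate, smul_eq_mul, mul_one] at c
      have c0 := Multiset.card_pos.2 k0
      have e3 : (3 : F) = 0 := by simpa using hq.cast_eq_zero
      have l4 : l ≠ 1 := by rintro rfl; simp at l3
      refine done_anti hq.invol k2 k1 k0 h1 l0 l3 fun e => ?_
      have h0 := pow_ne_zero 3 l0
      rw [hq.pow] at e
      rcases (by omega : L'.card = 1 ∨ L'.card = 2 ∨ L'.card = 3) with e' | e' | e' <;> rw [e'] at e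
      · exact l4 (mul_left_cancel₀ (pow_ne_zero 2 l0) (by linear_combination -e))
      · exact h0 (by linear_combination -e + l ^ 3 * e3)
      · exact l4 (mul_left_cancel₀ h0 (by linear_combination e))
    · refine (fx_one hq.invol k2 (fx_lines k1) (d' := True) fun D e => ?_).done_of h1 (Or.inl trivial)
      obtain ⟨a, a0, rfl⟩ := hq.invol.hilbert90 e
      by_cases n : a * σ a = 1
      · obtain ⟨t, t1, t2, t3, t4⟩ := exists_avoid3 (hq.card_fixed.ge.trans' h4) 0 1 (-1)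
        refine ⟨t * a, mul_ne_zero t2 a0, fun e => ?_, fun _ => by rw [map_mul, t1]; field_simp⟩
        rw [map_mul, t1, mul_mul_mul_comm, n, mul_one, mul_self_eq_one_iff] at e
        tauto
      · exact ⟨a, a0, n, fun _ => rfl⟩
  hD f k h hd h1 := by
    obtain ⟨c, c0, c1, L, l1, g⟩ := h.fxd hq.invol hd
    obtain ⟨E, e1, e2⟩ := gd_ext hq.invol h.toSD hd (h.un hq.invol) (fun e => by
      simpa [e, hd, dg] using dg_ce h.monic) (inv_ne_zero c0)
    obtain ⟨T, t1, t2⟩ := e1.un.blocks hq.invol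
    have t3 : dg T = 2 := by rw [← dg_bd t1, ← t2, dg_edM, Fintype.card_fin, dg_ce h.monic, hd]
    have := fx_two hq c0 c1 g e1 (((fx_lines l1).mono g2_le id id).add' (t2 ▸ fx_bd fun e he =>
      (fx_small hq h3 (t1 e he) ((Multiset.le_sum_of_mem (Multiset.mem_map_of_mem _ he)).trans
        (t3.le.trans (by omega)))).mono le_rfl False.elim id))
    simp only [Multiset.replicate_succ, Multiset.cons_bind, ← add_assoc] at h1 this ⊢
    exact this.done (fx_bd fun e he => Multiset.eq_of_mem_replicate he ▸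
      (fx_small hq h3 h (by omega)).weak) h1

end Cfsg.Agent.Cl.OreU
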