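import Mathlib
import Cfsg.Agent.Cl.GFSmall
import Cfsg.Agent.Cl.OreUG

/-! Commutators in special unitary groups: the field with four elements. -/

set_option autoImplicit false
set_option linter.unusedSectionVars false

open Matrix Polynomial Sum Module

namespace Cfsg.Agent.Cl.OreU

open Cls Ore

section
variable {F : Type*} [Field F] {σ : F →+* F} {a b n : ℕ}

/-- Block sum indexed by `Fin`. -/
def ds (A : Matrix (Fin a) (Fin a) F) (B : Matrix (Fin b) (Fin b) F) :
    Matrix (Fin (a + b)) (Fin (a + b)) F :=
  reindex finSumFinEquiv finSumFinEquiv (fromBlocks A 0 0 B)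

theorem edM_ds (A : Matrix (Fin a) (Fin a) F) (B : Matrix (Fin b) (Fin b) F) :
    edM (ds A B) = edM A + edM B := by rw [ds, edM_reindex, edM_fromBlocks]

theorem smul_ds (c : F) (A : Matrix (Fin a) (Fin a) F) (B : Matrix (Fin b) (Fin b) F) :
    c • ds A B = ds (c • A) (c • B) := by
  have := fromBlocks_smul c A 0 0 B
  rw [smul_zero, smul_zero] at this
  rw [ds, ds, ← this]
  rfl

theorem edM_fin_one (x : F) : edM !![x] = {X - C x} := by
  rw [← edM_submatrix (Equiv.ofUnique Unit (Fin 1)), edM_unit]; rfl

/-- The companion matrix. -/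
def cmp (c : Fin (n + 1) → F) : Matrix (Fin (n + 1)) (Fin (n + 1)) F :=
  Matrix.of fun i j => if j = Fin.last n then c i else if (i : ℕ) = j + 1 then 1 else 0

theorem edM_cmp {c : Fin (n + 1) → F} {f : F[X]} (hf : f.Monic) (hd : f.natDegree = n + 1)
    (h : ∀ i, c i = -f.coeff i) : edM (cmp c) = ce f := by
  have pw : ∀ j (hj : j < n + 1), cmp c ^ j *ᵥ Pi.single 0 1 = Pi.single ⟨j, hj⟩ 1 := fun j hj => by
    induction j with
    | zero => rw [pow_zero, Matrix.one_mulVec]; rfl
    | succ j ih =>
      rw [pow_succ', ← Matrix.mulVec_mulVec, ih (by omega), Matrix.mulVec_single_one]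
      ext i
      simp [cmp, Fin.ext_iff, Pi.single_apply, show j ≠ n by omega]
  refine edM_ce (isCyc_of_kry (u := Pi.single 0 1) (fun S hS => ?_) hf (by simpa) ?_) hf
  · rw [eq_top_iff, ← (Pi.basisFun F _).span_eq, Submodule.span_le]
    rintro _ ⟨j, rfl⟩
    have := hS j (by simpa using j.2)
    rwa [pw _ j.2, ← Pi.basisFun_apply] at this
  · rw [aeval_eq_sum_range, hd, Finset.sum_range_succ,
      show f.coeff (n + 1) = 1 from hd ▸ hf.coeff_natDegree, one_smul,
      Matrix.add_mulVec, Matrix.sum_mulVec, pow_succ', ← Matrix.mulVec_mulVec, pw n n.lt_succ_self,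
      Finset.sum_range, Matrix.mulVec_single_one]
    simp only [Matrix.smul_mulVec, pw _ (Fin.is_lt _)]
    ext i
    simp [Pi.single_apply, cmp, h, Fin.last]

variable [Finite F]

theorem cop_nil (hF : Nat.card F = 4) {A : Matrix (Fin n) (Fin n) F} {l : F} (hl : l ^ 4 = l)
    (h : ∃ B, A * A * A * A - A = B ∧ B * B * B = 0) : Cop (G2 σ) (edM (l • A)) := fun χ hχ => by
  classical
  have := Fintype.ofFinite F
  obtain ⟨B, h1, h2⟩ := h
  have e := (aeval_eq_zero_iff_edM (l • A) ((X ^ 4 - X) ^ 3)).1 (by
    rw [map_pow, map_sub, map_pow, aeval_X, _root_.smul_pow, hl, ← smul_sub, _root_.smul_pow,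
      show A ^ 4 = A * A * A * A by simp only [pow_succ, pow_zero, one_mul], h1,
      show B ^ 3 = B * B * B by simp only [pow_succ, pow_zero, one_mul], h2, smul_zero])
  rw [Nat.card_eq_fintype_card] at hF
  have h3 : IsCoprime χ (X ^ 4 - X) := by
    rw [← hF, ← prod_multiset_X_sub_C_of_monic_of_roots_card_eq (p := X ^ Fintype.card F - X)
      (monic_X_pow_sub (by rw [degree_X, hF]; decide))
      (by rw [FiniteField.roots_X_pow_card_sub_X, FiniteField.X_pow_card_sub_X_natDegree_eq F
        Fintype.one_lt_card]; rfl)]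
    exact Multiset.prod_induction _ _ (fun _ _ => IsCoprime.mul_right) isCoprime_one_right
      fun p hp => by
        obtain ⟨x, -, rfl⟩ := Multiset.mem_map.1 hp
        exact isCoprime_X_sub_C (hχ.2 x)
  exact Multiset.prod_induction _ _ (fun _ _ => IsCoprime.mul_right) isCoprime_one_right
    fun p hp => h3.pow_right.of_isCoprime_of_dvd_right (e p hp)

theorem trU_cert (hσ : UInvol σ) {g J J' Y P Q P' Q' : Matrix (Fin (n + 1)) (Fin (n + 1)) F}
    {Z : Matrix (Fin n) (Fin n) F} {δ l : F} (hl : l * σ l = 1)
    (h : J * J' = 1 ∧ uStar σ g * J * g = J ∧ uStar σ Y * J * Y = J ∧ P * Q = 1 ∧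
      Y * P = P * ds Z !![1] ∧ P' * Q' = 1 ∧ Y * g * P' = P' * ds Z !![δ]) :
    TrU σ (edM g) (edM (l • Y)) (edM (l • (Y * g))) (l • Y).det ∧
      edM (l • Y) = edM (l • Z) + {X - C l} ∧
      edM (l • (Y * g)) = edM (l • Z) + {X - C (l * δ)} := by
  obtain ⟨h1, h2, h3, h4, h5, h6, h7⟩ := h
  refine ⟨Matrix.smul_mul l Y g ▸ trU_of_form hσ (IsUnit.of_mul_eq_one _ h1) h2 ?_, ?_, ?_⟩
  · rw [uStar_smul, Matrix.smul_mul, Matrix.smul_mul, Matrix.mul_smul, h3, smul_smul, mul_comm, hl,
      one_smul]
  · rw [edM_eq_of_mul (G' := l • ds Z !![1]) (IsUnit.of_mul_eq_one _ h4)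
      (by rw [Matrix.smul_mul, h5, Matrix.mul_smul]), smul_ds, edM_ds, ← edM_fin_one]
    simp
  · rw [edM_eq_of_mul (G' := l • ds Z !![δ]) (IsUnit.of_mul_eq_one _ h6)
      (by rw [Matrix.smul_mul, h7, Matrix.mul_smul]), smul_ds, edM_ds, ← edM_fin_one]
    simp

end

/-- The involution of the field with four elements. -/
def s4 : GF4 →+* GF4 where
  toFun x := x * x
  map_one' := mul_one 1
  map_mul' x y := mul_mul_mul_comm x y x y
  map_zero' := mul_zero 0
  map_add' := by decide +kernel

theorem uField_s4 : UField s4 2 := ⟨natCard_GF4, fun a => (sq a).symm⟩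

/-- The matrix number `k` packed in `x`. -/
def mt (n x k : ℕ) : Matrix (Fin n) (Fin n) GF4 :=
  Matrix.of fun i j => TF.ofCode gf4 (x >>> (72 * k + 2 * (i * n + j)))

/-- The identities checked on a certificate. -/
def Chk {n : ℕ} (g : Matrix (Fin (n + 1)) (Fin (n + 1)) GF4) (δ : GF4) (x : ℕ) : Prop :=
  mt (n + 1) x 0 * mt (n + 1) x 1 = 1 ∧ uStar s4 g * mt (n + 1) x 0 * g = mt (n + 1) x 0 ∧
    uStar s4 (mt (n + 1) x 2) * mt (n + 1) x 0 * mt (n + 1) x 2 = mt (n + 1) x 0 ∧
    mt (n + 1) x 3 * mt (n + 1) x 4 = 1 ∧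
    mt (n + 1) x 2 * mt (n + 1) x 3 = mt (n + 1) x 3 * ds (mt n x 7) !![1] ∧
    mt (n + 1) x 5 * mt (n + 1) x 6 = 1 ∧
    mt (n + 1) x 2 * g * mt (n + 1) x 5 = mt (n + 1) x 5 * ds (mt n x 7) !![δ]

/-- The spectrum lies in the field. -/
def Nil (A B : Matrix (Fin 3) (Fin 3) GF4) : Prop := A * A * A * A - A = B ∧ B * B * B = 0

instance decChk {n : ℕ} (g : Matrix (Fin (n + 1)) (Fin (n + 1)) GF4) (δ : GF4) (x : ℕ) :
    Decidable (Chk g δ x) := by unfold Chk; infer_instance

instance decNil (A B : Matrix (Fin 3) (Fin 3) GF4) : Decidable (Nil A B) := by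
  unfold Nil; infer_instance

theorem fx_cert {n : ℕ} {g : Matrix (Fin (n + 1)) (Fin (n + 1)) GF4} {δ : GF4} {x : ℕ}
    {c : GF4[X] → Prop} (hδ : δ * s4 δ = 1) (h : Chk g δ x)
    (hc : ∀ l : GF4, Cop c (edM (l • mt (n + 1) x 2)) ∧ Cop c (edM (l • (mt (n + 1) x 2 * g)))) :
    FX s4 c True False (edM g) := fun l _ hl _ => by
  obtain ⟨h1, h2, h3⟩ := trU_cert uField_s4.invol hl h
  exact ⟨_, _, _, _, norm_mul hl hδ, h1, by rw [h2, h3, add_right_comm], hc l,
    fun _ => sp_of_lin (c := l) (by simp [h2]), False.elim⟩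

/-- Certificates for the self-dual polynomials of degree 3. -/
def cert3 : List (ℕ × ℕ) := [(1, 0x34b00000000000000004801000000000000000387000000000000000024000000000000001330000000000000002210000000000000010101000000000000010101000000000000010084000000000000010101000000000000010101),
  (2, 0x4b3b00000000000000000000000000000000004f000000000000028902000000000000018a0300000000000000b40f000000000000004453000000000000010c6e00000000000000acbc000000000000017565),
  (3, 0x34b000000000000000048030000000000000003cf00000000000000003c00000000000000193c00000000000000b2500000000000000101010000000000000101010000000000000100cc000000000000010101000000000000010101),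
  (21, 0x2a02a00000000000001346800000000000002a02a00000000000000002800000000000002e0a800000000000001654c00000000000000860d000000000000014c2100000000000000e12000000000000001adbd00000000000000d8d8),
  (26, 0x7df00000000000000525c0000000000000269bb00000000000000006900000000000003573900000000000001588d00000000000000940d000000000000004472000000000000016931000000000000019d9d000000000000006474),
  (31, 0x800800000000000000a2390000000000000257e50000000000000000d7000000000000022cba0000000000000143e4000000000000034901000000000000014b010000000000000298e7000000000000006474000000000000019d9d),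
  (38, 0x15fea000000000000025e22000000000000015fea00000000000000001800000000000000b4250000000000000045de000000000000021c7600000000000001487800000000000001780800000000000001657500000000000000f8e8),
  (43, 0x2fbf500000000000000f70c00000000000000002c00000000000000008e00000000000003bd65000000000000005652000000000000024d25000000000000014e1100000000000003cc3200000000000001adbd00000000000000d8d8),
  (45, 0x840000000000000003b5200000000000003e5fe00000000000000005d00000000000002212900000000000001e12e00000000000001a41e00000000000000446d00000000000000ed0800000000000001756500000000000000acbc),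
  (55, 0x18c02000000000000000000000000000000000082000000000000038fc100000000000001e5c100000000000000e40a00000000000000445200000000000002004b00000000000001756500000000000000acbc),
  (57, 0x37dee000000000000017d2100000000000001ee6700000000000000003400000000000000de4900000000000000a4630000000000000328b600000000000001445800000000000001f40400000000000001d9d9000000000000007464),
  (62, 0x2edf700000000000002cec60000000000000008200000000000000000cb00000000000003265500000000000001d296000000000000025404000000000000004059000000000000030b1900000000000000acbc000000000000017565)]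

/-- Certificates for the self-dual polynomials of degree 4. -/
def cert4 : List (ℕ × ℕ) := [(1, 0xe0e40000000000192135df00000000007e786c8c0000000000faba10040000000000500401690000000000c20ccf2d000000000023c8328c0000000000328c23c8),
  (2, 0x80f0000000000077b8f9bb00000000003661b42200000000006828ac6900000000005084b44100000000009c6bc77c000000000022c832cc000000000013441184),
  (3, 0x29347000000000079bcfeff00000000001e756c0500000000001e400e230000000000104481ce0000000000a4343b0800000000002dcbb26c00000000002dcbb26c),
  (17, 0x2fe200000000000fa1585ee0000000000748ccd5100000000003140210400000000001044018c00000000009fc380b300000000006fd796ad000000000069daf67d),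
  (35, 0x2bd30000000000289c423900000000002b5b9b1a00000000000240120500000000001044c1c000000000000abc4e0100000000007b9af7b90000000000759d6759),
  (50, 0x42aa0000000000295a4b8100000000006ca10eb5000000000090d07401000000000050e0c4010000000000e4e8eafa00000000006edfa6ed000000000065d9765d),
  (69, 0x25a8c00000000006ef8d7f500000000003e659d6a0000000000f8b8b401000000000050c42801000000000091a2b56c000000000045055051000000000050541505),
  (74, 0x3f11b0000000000ce92ffe1000000000074a9c6130000000000064010020000000000100441030000000000f11067d3000000000061d8364d000000000061d8364d),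
  (79, 0x143a20000000000609f6c4a000000000063128859000000000084401001000000000010046001000000000050322482000000000021d8364c00000000004d138461),
  (85, 0xb0e80000000000f14b61ff00000000003e53f49b0000000000ffbf10040000000000500401d50000000000d30cf57f00000000005c4bb12500000000002bcaf2bc),
  (111, 0xa41400000000006d1215a800000000005cbde25b00000000006d2da6df00000000005084c15b0000000000f39b5083000000000067d9769d0000000000769d67d9),
  (122, 0x318b5000000000023e2f68000000000000363775200000000006b407bb900000000001044812f00000000007935bf6600000000005c4bb12500000000002bcaf2bc),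
  (134, 0x2cb63000000000018e6ee40000000000001543c4e0000000000f8b84cf900000000005084a8410000000000ecb102830000000000080ee03000000000000902c070),
  (139, 0xe22200000000002c4026b20000000000105f7ab600000000003e402e1300000000001044818a00000000003809b6fc000000000051541545000000000051541545),
  (141, 0x2e5da00000000004d59f0470000000000353d6dae00000000003940292300000000001044c1ce0000000000a6426844000000000004097010000000000007014090),
  (157, 0x2fb07000000000008da927b000000000054e1c0cb00000000000b40100f0000000000100441430000000000bab0113e00000000005b56d5b500000000006adaf6fd),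
  (171, 0x32200000000000ccf8c0470000000000086c88c200000000002440340100000000001044c8010000000000033c308000000000007485531900000000001f4791a4),
  (182, 0x246cc000000000088c371990000000000593899790000000000c38392c7000000000050c441d00000000000906cb2d100000000005e5795e500000000007f9fa7a9),
  (199, 0x3f97c00000000003b250a9a00000000002b386c60000000000095d585ee0000000000504481250000000000fc941a4f00000000004d0bb061000000000060d8360d),
  (201, 0x1c1bc0000000000595c37900000000000488d6a3a0000000000b2f2c3040000000000508401580000000000c218238f000000000023c8328c0000000000328c23c8),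
  (206, 0x1958800000000000c4adc320000000000265980ad0000000000c140d146000000000010448170000000000064db201d00000000001b52c5b400000000002fcbb2ac),
  (217, 0x1e3aa00000000006ae4581a0000000000791cd3e800000000003c402c0100000000001044c40100000000005a2632b6000000000068cee23d0000000000378d6398),
  (231, 0x1c9c000000000040a6da3400000000004057ff8d0000000000cc8c10cd00000000005004d0410000000000010e457000000000005b56d5b500000000006adaf6fd),
  (254, 0x95ad00000000007a9253be000000000047f68fda0000000000d797790400000000005084011a00000000004d8f0aee000000000064c5521d00000000001a46d1f4)]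

/-- Certificates for two equal blocks of size two. -/
def certP : List ℕ := [0,
  0x94cc00000000001589858c00000000003f512839000000000054401001000000000010045401000000000021433630000000000045155451000000000045155451,
  0x26cde0000000000c1a9ca7700000000007a2336a50000000000dd9dcd620000000000504481b700000000004577c3e70000000000010c20400000000000010c2040,
  0x181de000000000085b199f8000000000046d8e42f00000000001b5b3d0400000000005084014b0000000000561c78ed000000000024c1401000000000000401421c]

/-- Certificates for three equal blocks of size two. -/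
def certT : List ℕ := [0,
  0x39cf278648b082b15e3d7a803b176a059e5c5479ec615df5948b08bd4688d8dd48f500c40810804401a33e70f24e18c458ab23f0e40b1b0be0e4e11b415145454b51e1e14b4,
  0xcfc0343f3b7afaea1e805afa97f8cc40e162641d77a4a20daab400100aebabb004100040410404001bff66ac007a70c5743a3b4ff1bbb4ea17b93ae84111cc20a4062d74f9,
  0x342f34e78bbe9d8e9d6f27fe89f396540b57ac72bbdd8c15e7874001007c70109cd100040410004801a723466fda55f3f66d0f665ad9e70d50beb2f6c03604d1288c26c4d31]

/-- Certificates for a block of size two and a line with the same eigenvalue. -/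
def certB : List ℕ := [0,
  0x5aaa00000000000001a2ce00000000000001a2ce0000000000000359a9000000000000010044000000000000010044,
  0x38e9d00000000000003e9d300000000000003885e000000000000028f9c000000000000019d11000000000000019cd8,
  0x2a2a00000000000000c82900000000000000c835000000000000012b2b00000000000001d91100000000000001d89c]

theorem chk3 : ∀ a b c : GF4, a * s4 a = 1 → s4 a * b = s4 c →
    let x := (cert3.lookup (a.code + 4 * b.code + 16 * c.code)).getD 0
    Chk (cmp ![a, b, c]) a x ∧ Nil (mt 3 x 2) (mt 3 x 8) ∧ mt 3 x 2 * cmp ![a, b, c] = mt 3 x 9 ∧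
      Nil (mt 3 x 9) (mt 3 x 10) := by decide +kernel

theorem chk4 : ∀ a b c d : GF4, a * s4 a = 1 → s4 a * b = s4 d → s4 a * c = s4 c →
    Chk (cmp ![a, b, c, d]) a
      ((cert4.lookup (a.code + 4 * b.code + 16 * c.code + 64 * d.code)).getD 0) := by
  decide +kernel

theorem chkP : ∀ a : GF4, a * s4 a = 1 →
    Chk (n := 3) (ds (b := 2) (cmp (n := 1) ![a * a, 0]) (cmp (n := 1) ![a * a, 0])) a
      (certP.getD a.code 0) := by
  decide +kernel

theorem chkT : ∀ a : GF4, a * s4 a = 1 →
    Chk (n := 5) (ds (b := 4) (cmp (n := 1) ![a * a, 0])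
      (ds (cmp (n := 1) ![a * a, 0]) (cmp (n := 1) ![a * a, 0]))) 1
      (certT.getD a.code 0) ∧ (mt 6 (certT.getD a.code 0) 2).det = 1 := by
  decide +kernel

theorem chkB : ∀ a : GF4, a * s4 a = 1 →
    let x := certB.getD a.code 0
    let g : Matrix (Fin 3) (Fin 3) GF4 := ds (cmp (n := 1) ![a * a, 0]) !![a]
    mt 3 x 0 * mt 3 x 1 = 1 ∧ uStar s4 g * mt 3 x 0 * g = mt 3 x 0 ∧
      uStar s4 (mt 3 x 2) * mt 3 x 0 * mt 3 x 2 = mt 3 x 0 ∧ mt 3 x 3 * mt 3 x 4 = 1 ∧
      mt 3 x 2 * g * mt 3 x 3 = mt 3 x 3 * mt 3 x 2 ∧ Nil (mt 3 x 2) (mt 3 x 5) := by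
  decide +kernel

theorem gf4_neg : ∀ a : GF4, -a = a := by decide +kernel

theorem gf4_pow : ∀ a : GF4, a ^ 4 = a := fun a => by
  simpa [card_GF4] using FiniteField.pow_card a

theorem gf4_root : ∀ a b : GF4, a * s4 a = 1 → s4 a * b = s4 b → ∃ x, x * x + b * x + a = 0 := by
  decide +kernel

theorem gf4_norm : ∀ a : GF4, a ≠ 0 → a * s4 a = 1 := by decide +kernel

variable {f f' f'' : GF4[X]} {T : Multiset GF4[X]}

theorem SD.rel {F : Type*} [Field F] {σ : F →+* F} {f : F[X]} (h : SD σ f) {i j : ℕ}
    (e : i + j = f.natDegree) : σ (f.coeff 0) * f.coeff i = σ (f.coeff j) := by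
  have := coeff_uDual (σ := σ) (e := f) (i := i) (by omega)
  rw [h.eq, show f.natDegree - i = j by omega] at this
  rw [this, mul_inv_cancel_left₀ ((map_ne_zero σ).2 h.c0)]

theorem fx_cubic (h : SD s4 f) (hd : f.natDegree = 3) : FX s4 (G2 s4) True False (ce f) := by
  obtain ⟨h1, h2, h3, h4⟩ := chk3 _ _ _ h.norm (h.rel (i := 1) (j := 2) hd.symm)
  rw [← edM_cmp (c := ![f.coeff 0, f.coeff 1, f.coeff 2]) h.monic hd fun i => by
    fin_cases i <;> simp [gf4_neg]]
  exact fx_cert h.norm h1 fun l => ⟨cop_nil natCard_GF4 (gf4_pow l) ⟨_, h2⟩,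
    h3 ▸ cop_nil natCard_GF4 (gf4_pow l) ⟨_, h4⟩⟩

theorem fx_quartic (h : SD s4 f) (hd : f.natDegree = 4) : FX s4 ⊥ True False (ce f) := by
  rw [← edM_cmp (c := ![f.coeff 0, f.coeff 1, f.coeff 2, f.coeff 3]) h.monic hd fun i => by
    fin_cases i <;> simp [gf4_neg]]
  exact fx_cert h.norm (chk4 _ _ _ _ h.norm (h.rel (i := 1) (j := 3) hd.symm)
    (h.rel (i := 2) (j := 2) hd.symm)) fun l => ⟨cop_bot, cop_bot⟩

theorem Blk.two (h : Blk s4 f) (hd : f.natDegree = 2) : ∃ a : GF4, a * s4 a = 1 ∧
    f = (X - C a) * (X - C a) ∧ edM (cmp (n := 1) ![a * a, 0]) = ce f := by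
  obtain ⟨x, hx⟩ := gf4_root _ _ h.norm (h.rel (i := 1) (j := 1) hd.symm)
  have e : f.eval x = 0 := by
    rw [eq_quad h.monic hd]; simp; linear_combination hx
  have x0 := gf4_norm x (by rintro rfl; exact h.c0 (by rwa [coeff_zero_eq_eval_zero]))
  have := h.root_two hd e
  rw [← eq_inv_of_mul_eq_one_left x0] at this
  refine ⟨x, x0, this, edM_cmp h.monic hd fun i => ?_⟩
  rw [this, gf4_neg]
  fin_cases i
  · simp
  · simp [sub_mul, coeff_X_mul, gf4_neg]

theorem hB_two : HB s4 := fun f ζ h hd z => by
  obtain ⟨a, a1, a2, a3⟩ := h.two hd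
  by_cases e : ζ = a
  · subst e
    obtain ⟨h1, h2, h3, h4, h5, h6⟩ := chkB ζ z
    have := trU_of_form uField_s4.invol (IsUnit.of_mul_eq_one _ h1) h2 h3
    rw [edM_eq_of_mul (IsUnit.of_mul_eq_one _ h4) h5, edM_ds, a3, edM_fin_one] at this
    exact fx_of_bal this (by simpa using cop_nil natCard_GF4 (one_pow 4) ⟨_, h6⟩)
  · have cp : IsCoprime f (X - C ζ) := isCoprime_X_sub_C (by simp [a2, sub_eq_zero, e])
    have := fx_cubic (h.mul (blk_lin z).toSD cp) (by
      rw [h.monic.natDegree_mul (monic_X_sub_C ζ), hd, natDegree_X_sub_C])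
    rw [ce_mul h.monic (monic_X_sub_C ζ) cp, ce_lin] at this
    exact this.mono le_rfl False.elim id

theorem fx_mid (h : Blk s4 f) (h3 : 3 ≤ f.natDegree) : FX s4 ⊥ True False (ce f) := by
  rcases (by omega : f.natDegree = 3 ∨ f.natDegree = 4 ∨ 4 < f.natDegree) with e | e | e
  exacts [(fx_cubic h.toSD e).mono bot_le id id, fx_quartic h.toSD e,
    (fx_blk_big uField_s4 h e).mono le_rfl id False.elim]

theorem fx_not_two (h : Blk s4 f) (h2 : f.natDegree ≠ 2) : FX s4 ⊥ False False (ce f) := by
  by_cases e : f.natDegree = 1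
  · obtain ⟨ζ, z, rfl⟩ := h.lin e
    exact ce_lin ζ ▸ (fx_lin (i := False) z).weak
  · exact (fx_mid h (by have := h.pos; omega)).weak

theorem fr_pair (h : Blk s4 f) (h' : Blk s4 f') (hd : f.natDegree = 2) (hd' : f'.natDegree = 2)
    (e : f ≠ f') : Fr s4 1 (ce f + ce f') ∧ FX s4 ⊥ True False (ce f + ce f') := by
  have cp := h.cop_two h' hd hd' e
  have d : (f * f').natDegree = 4 := by rw [h.monic.natDegree_mul h'.monic, hd, hd']
  rw [← ce_mul h.monic h'.monic cp]
  exact ⟨fr_even (m := 0) uField_s4.invol (h.mul h'.toSD cp) d, fx_quartic (h.mul h'.toSD cp) d⟩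

theorem fx_pair (h : Blk s4 f) (h' : Blk s4 f') (hd : f.natDegree = 2) :
    FX s4 ⊥ False False (ce f + ce f') := by
  have := h'.pos
  have hσ := uField_s4.invol
  rcases (by omega : f'.natDegree = 1 ∨ f'.natDegree = 2 ∨ 3 ≤ f'.natDegree) with e | e | e
  · obtain ⟨ζ, z, rfl⟩ := h'.lin e
    exact ce_lin ζ ▸ (hB_two f ζ h hd z).weak
  · by_cases e' : f = f'
    · subst e'
      obtain ⟨a, a1, -, a3⟩ := h.two hd
      have := fx_cert a1 (chkP a a1) fun l => ⟨cop_bot, cop_bot⟩
      rw [edM_ds, a3] at this
      exact this.weak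
    · exact (fr_pair h h' hd e e').2.weak
  · have h1 := h'.fr hσ h'.r1 e
    rw [add_comm]
    by_cases e' : f'.natDegree ≤ 4
    · rw [show (f'.natDegree - 1) / 2 = 1 by omega] at h1
      exact (fx_fr_fxd uField_s4 h1 (h.fxd hσ hd)).weak
    · exact ((dp_big uField_s4 hB_two h1 (by omega)).2 f h hd).weak

theorem trU_three (h : Blk s4 f) (hd : f.natDegree = 2) :
    ∃ a, TrU s4 (ce f + (ce f + ce f)) a a 1 ∧ Sp s4 a := by
  obtain ⟨a, a1, -, a3⟩ := h.two hd
  obtain ⟨h1, h2⟩ := chkT a a1
  obtain ⟨k1, k2, k3⟩ := trU_cert uField_s4.invol (l := 1) (by simp) h1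
  rw [k3, mul_one, ← k2, one_smul, h2, edM_ds, edM_ds, a3] at k1
  rw [one_smul] at k2
  exact ⟨_, k1, sp_of_lin (c := 1) (by rw [k2]; simp)⟩

theorem fx_triple (h : Blk s4 f) (h' : Blk s4 f') (h'' : Blk s4 f'') (hd : f.natDegree = 2)
    (hd' : f'.natDegree = 2) (hd'' : f''.natDegree = 2) :
    FX s4 ⊥ False False (ce f + (ce f' + ce f'')) := by
  have hσ := uField_s4.invol
  by_cases e : f = f'
  · subst e
    by_cases e : f = f''
    · subst e
      obtain ⟨a, h1, -⟩ := trU_three h hd
      exact fx_of_bal h1 cop_bot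
    · rw [add_comm]
      exact (fx_fr_fxd uField_s4 (fr_pair h h'' hd hd'' e).1 (h.fxd hσ hd)).weak
  · rw [← add_assoc]
    exact (fx_fr_fxd uField_s4 (fr_pair h h' hd hd' e).1 (h''.fxd hσ hd'')).weak

theorem hA_two (hT : ∀ f ∈ T, Blk s4 f) (h : ¬ ∃ f, T = {f} ∧ f.natDegree = 2) :
    FX s4 ⊥ False False (T.bind ce) := by
  induction hn : T.card using Nat.strong_induction_on generalizing T with
  | _ n ih =>
  by_cases two : ∃ f ∈ T, f.natDegree = 2
  swap
  · exact fx_bd fun f hf => fx_not_two (hT f hf) fun e => two ⟨f, hf, e⟩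
  obtain ⟨f, hf, e⟩ := two
  obtain ⟨R, rfl⟩ := split_mem hf
  obtain ⟨f', hf'⟩ := Multiset.exists_mem_of_ne_zero (s := R) fun e' => h ⟨f, by simp [e'], e⟩
  obtain ⟨R, rfl⟩ := split_mem hf'
  have b := hT f' (by simp)
  rw [bd_add, bd_add, bd_one, bd_one]
  by_cases e' : ∃ f, R = {f} ∧ f.natDegree = 2
  · obtain ⟨f'', rfl, e''⟩ := e'
    have b' := hT f'' (by simp)
    rw [bd_one]
    by_cases e' : f'.natDegree = 2
    · exact fx_triple (hT f hf) b b' e e' e''
    · rw [add_comm (ce f'), ← add_assoc]
      exact (fx_pair (hT f hf) b' e).add' (fx_not_two b e')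
  · rw [← add_assoc]
    exact (fx_pair (hT f hf) b e).add'
      (ih _ (by simp [← hn]) (fun e he => hT e (by simp [he])) e' rfl)

theorem hyp_two : Hyp s4 fun n => n ≠ 3 where
  hA T hT := or_iff_not_imp_right.2 fun h => hA_two hT fun e => h ⟨gf4_neg 1, e⟩
  hB := hB_two
  hC f L h hd l1 l2 hs h3 h1 := by
    obtain ⟨L', k0, -, k2⟩ := hs.one one_ne_zero
    have c := k2.dg
    have c0 := Multiset.card_pos.2 k0
    have e : ∀ L : Multiset GF4, dg (L.map fun ζ => X - C ζ) = L.card := fun L => by simp [dg]
    rw [dg_add, dg_ce h.monic, dg_lin, e, e] at c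
    refine ((fx_mid h (by omega)).add' (fx_lines l2).weak).done_of h1 (Or.inr fun δ hδ => ?_)
    rw [dg_add, dg_ce h.monic, e]
    rcases (by omega : f.natDegree + L.card = 4 ∨ f.natDegree + L.card = 5) with e | e <;> rw [e]
    · exact ⟨δ, hδ, gf4_pow δ⟩
    · exact ⟨δ * δ, norm_mul hδ hδ, by
        rw [mul_pow, pow_succ, gf4_pow, ← sq, ← sq, ← pow_mul, gf4_pow]⟩
  hD f k h hd h1 := by
    by_cases e : 3 ∣ k
    · obtain ⟨j, rfl⟩ := e
      obtain ⟨a, a1, a2⟩ := trU_three h hd
      have : ∀ j, ∃ b, TrU s4 ((Multiset.replicate (3 * j) f).bind ce) b b 1 := fun j => by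
        induction j with
        | zero => exact ⟨0, trU_zero⟩
        | succ j ih =>
          obtain ⟨b, hb⟩ := ih
          exact ⟨_, by simpa [mul_add, Multiset.replicate_succ, add_assoc] using a1.add hb⟩
      obtain ⟨b, hb⟩ := this j
      exact ⟨a + b, 1, 1, by simpa [Multiset.replicate_succ, add_assoc] using a1.add hb,
        a2.mono le_self_add, by simp, by simp⟩
    · obtain ⟨a, a1, a2, -⟩ := h.two hd
      have d : dt (ce f) = a * a := by rw [dt_ce h.monic, dd, hd, a2]; simp
      have h2 : ∀ k, dt ((Multiset.replicate k f).bind ce) = (a * a) ^ k := fun k => by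
        induction k with
        | zero => rfl
        | succ k ih => rw [Multiset.replicate_succ, Multiset.cons_bind, dt_add, ih, d, pow_succ']
      have h3 : a * a = 1 := by
        have := pow_gcd_eq_one.2 ⟨(h2 _).symm.trans h1, show (a * a) ^ 3 = 1 by
          rw [← uField_s4.norm_eq_pow]; exact norm_mul a1 a1⟩
        rwa [Nat.gcd_add_self_left, Nat.coprime_comm.1 ((Nat.Prime.coprime_iff_not_dvd
          Nat.prime_three).2 e), pow_one] at this
      have := fx_fix uField_s4 h.toSD hd (h.fxd uField_s4.invol hd) (by rw [dg_ce h.monic, hd])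
        (by rw [dt_add, d, h3, mul_one])
      rw [Multiset.replicate_succ, Multiset.replicate_succ, Multiset.cons_bind, Multiset.cons_bind,
        ← add_assoc] at h1 ⊢
      refine this.done (hA_two (fun e he => Multiset.eq_of_mem_replicate he ▸ h) ?_) h1
      rintro ⟨f', e', -⟩
      obtain rfl : k = 0 := by simpa using congrArg Multiset.card e'
      exact e (dvd_zero 3)

theorem comm_of_hyp {F : Type*} [Field F] [Finite F] {σ : F →+* F} {q n : ℕ} {P : ℕ → Prop}
    (hq : UField σ q) (H : Hyp σ P) (hn : 3 ≤ n) (hP : P n) (g : SU n F q) :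
    ∃ a b : SU n F q, g = a * b * a⁻¹ * b⁻¹ := by
  obtain ⟨T, t1, t2⟩ := Un.blocks hq.invol
    ⟨_, inferInstance, inferInstance, _, (mem_SU_iff_uStar hq _).1 g.2, rfl⟩
  have t3 : dg T = n := by rw [← dg_bd t1, ← t2, dg_edM, Fintype.card_fin]
  exact Done.comm hq (t2 ▸ tree hq H t1 (by rw [← t2, dt_edM, g.1.2]) (t3 ▸ hn) (t3 ▸ hP))

end Cfsg.Agent.Cl.OreU
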