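import Mathlib
import Cfsg.Agent.Cl.AutPSU
import Cfsg.Agent.Cl.U3
import Cfsg.Agent.Cl.UOrder

/-! The centralizer of an involution in `PGU₃(q)`, `q` even, seen inside `Aut(PSU₃(q))`. -/

set_option autoImplicit false

namespace Cfsg.Agent.Cl.PG3

open Cfsg Subgroup Cfsg.Agent.Cl Cfsg.Agent.Cl.Aut Matrix

variable {F : Type*} [Field F] {τ : F →+* F} {q : ℕ}

/-- An automorphism of odd order fixing a Sylow 2-subgroup elementwise is trivial. -/
theorem eq_one_of_fix {hσ : UInvol τ} [CharP F 2] {L : Type*} [Group L] (D : U3Data hσ L)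
    (hD : Function.Injective D.act) {β : MulAut L} (hβ : Odd (orderOf β))
    (h : ∀ x, β (D.u x) = D.u x) : β = 1 := by
  have hB : ∀ {γ : MulAut L}, (∀ x, γ (D.u x) = D.u x) → ∀ b ∈ D.B, γ b ∈ D.B := by
    intro γ hγ b hb
    rw [← D.normalizer_range_u] at hb ⊢
    refine mem_normalizer_iff.mpr fun y => ⟨?_, fun hy => ?_⟩
    · rintro ⟨x, rfl⟩
      obtain ⟨z, hz⟩ := (mem_normalizer_iff.mp hb _).mp ⟨x, rfl⟩
      exact ⟨z, by rw [← hγ z, hz, map_mul, map_mul, hγ, map_inv]⟩
    · obtain ⟨x, hx⟩ := hy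
      obtain ⟨z, hz⟩ := (mem_normalizer_iff.mp (inv_mem hb) _).mp ⟨x, rfl⟩
      refine ⟨z, ?_⟩
      rw [← hγ z, hz, map_mul, map_mul, hγ, hx]
      simp [mul_assoc]
  have h' : ∀ x, β⁻¹ (D.u x) = D.u x := fun x => by
    rw [MulAut.inv_apply, MulEquiv.symm_apply_eq, h]
  obtain ⟨x, b, hb, hw⟩ : ∃ x, ∃ b ∈ D.B, β D.w = D.u x * D.w * b := by
    rcases D.bruhat (β D.w) with ⟨x, a, e⟩ | ⟨x, y, a, e⟩
    · refine absurd ?_ D.w_notMem_B
      simpa using hB h' _ (D.mem_B_iff.mpr ⟨x, a, e⟩)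
    · exact ⟨x, _, D.mem_B_iff.mpr ⟨y, a, rfl⟩, e⟩
  have hk : ∀ k : ℕ, ∃ b ∈ D.B, (β ^ k) D.w = D.u (x ^ k) * D.w * b := by
    intro k
    induction k with
    | zero => exact ⟨1, one_mem _, by simp⟩
    | succ k ih =>
      obtain ⟨c, hc, e⟩ := ih
      refine ⟨b * β c, mul_mem hb (hB h c hc), ?_⟩
      rw [pow_succ', MulAut.mul_apply, e, map_mul, map_mul, h, hw, pow_succ, map_mul]
      group
  have hx : x = 1 := by
    obtain ⟨c, hc, e⟩ := hk (orderOf β)
    rw [pow_orderOf_eq_one, MulAut.one_apply] at e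
    have e1 := congrArg (fun g => D.act g none) e
    simp only [D.act_mul, D.mem_B.mp hc, D.act_w_none, D.act_u_some, mul_one,
      Option.some.injEq] at e1
    have e2 : orderOf x ∣ Nat.gcd (orderOf β) (2 ^ 2) :=
      Nat.dvd_gcd (orderOf_dvd_of_pow_eq_one e1.symm)
        (orderOf_dvd_of_pow_eq_one (UHeis.pow_char_sq x))
    rw [(Nat.Coprime.pow_right 2 (Nat.coprime_two_right.mpr hβ)).gcd_eq_one, Nat.dvd_one,
      orderOf_eq_one_iff] at e2
    exact e2
  rw [hx, map_one, one_mul] at hw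
  have h1 : ∀ g, D.act (β g) none = D.act g none := by
    intro g
    rcases D.bruhat g with ⟨x, a, e⟩ | ⟨x, y, a, e⟩
    · have hg := D.mem_B_iff.mpr ⟨x, a, e⟩
      rw [D.mem_B.mp hg, D.mem_B.mp (hB h g hg)]
    · have hc := D.mem_B_iff.mpr ⟨y, a, rfl⟩
      generalize D.u y * D.h a = c at e hc
      rw [e, map_mul β, map_mul β, h, hw]
      simp only [D.act_mul, D.mem_B.mp hb, D.mem_B.mp (hB h _ hc), D.mem_B.mp hc]
  ext g
  refine hD (Equiv.ext fun p => ?_)
  obtain ⟨k, rfl⟩ := D.exists_act_none p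
  conv_lhs => rw [← h1 k, ← D.act_mul, ← map_mul, h1]
  rw [D.act_mul, MulAut.one_apply]

/-- The nilpotent part of the transvections used. -/
def Em (F : Type*) [Field F] : Matrix (Fin 3) (Fin 3) F := !![1, 1, 0; 1, 1, 0; 0, 0, 0]

variable [CharP F 2]

theorem Em_mul_Em : Em F * Em F = 0 := by
  ext i j
  fin_cases i <;> fin_cases j <;>
    simp [Em, Matrix.mul_apply, Fin.sum_univ_three, CharTwo.add_self_eq_zero]

theorem tm_mul (c d : F) : (1 + c • Em F) * (1 + d • Em F) = 1 + (c + d) • Em F := by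
  simp only [add_mul, mul_add, one_mul, mul_one, Matrix.smul_mul, Matrix.mul_smul, Em_mul_Em,
    smul_zero, add_zero, add_smul]
  abel

omit [CharP F 2] in
theorem tm_map {σ : Type*} [FunLike σ F F] [RingHomClass σ F F] (f : σ) (c : F) :
    (1 + c • Em F).map f = 1 + f c • Em F := by
  ext i j
  fin_cases i <;> fin_cases j <;> simp [Em]

theorem det_tm (c : F) : (1 + c • Em F).det = 1 := by
  have : (1 + c • Em F) = !![1 + c, c, 0; c, 1 + c, 0; 0, 0, 1] := by
    ext i j
    fin_cases i <;> fin_cases j <;> simp [Em]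
  rw [this, Matrix.det_fin_three]
  simp only [of_apply, cons_val', cons_val_zero, cons_val_one, cons_val_two, cons_val_fin_one]
  have h2 : (2 : F) = 0 := CharTwo.two_eq_zero
  simp
  linear_combination c * h2

variable (hq : UField τ q)

/-- The transvections with centre `(1, 1, 0)`. -/
def tr (c : {c : F // τ c = c}) : SU 3 F q :=
  ⟨⟨1 + c.1 • Em F, det_tm c.1⟩, (hq.mem_SU_iff _).mpr (by
    have : (1 + c.1 • Em F)ᵀ = 1 + c.1 • Em F := by
      ext i j
      fin_cases i <;> fin_cases j <;> simp [Em]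
    change (1 + c.1 • Em F)ᵀ * (1 + c.1 • Em F).map τ = 1
    rw [this, tm_map, c.2, tm_mul, CharTwo.add_self_eq_zero, zero_smul, add_zero])⟩

theorem coe_tr (c : {c : F // τ c = c}) :
    (suGL 3 F q (tr hq c) : Matrix (Fin 3) (Fin 3) F) = 1 + c.1 • Em F := rfl

theorem tr_comm (c d : {c : F // τ c = c}) : tr hq c * tr hq d = tr hq d * tr hq c :=
  Subtype.ext (Subtype.ext (by
    change (1 + c.1 • Em F) * (1 + d.1 • Em F) = (1 + d.1 • Em F) * (1 + c.1 • Em F)
    rw [tm_mul, tm_mul, add_comm c.1]))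

theorem tr_sq (c : {c : F // τ c = c}) : tr hq c * tr hq c = 1 :=
  Subtype.ext (Subtype.ext (by
    change (1 + c.1 • Em F) * (1 + c.1 • Em F) = 1
    rw [tm_mul, CharTwo.add_self_eq_zero, zero_smul, add_zero]))

omit [CharP F 2] in
include hq in
theorem eq_of_mk_eq {s s' : SU 3 F q} (hs : s * s = 1) (hs' : s' * s' = 1)
    (h : (QuotientGroup.mk s : PSU 3 F q) = QuotientGroup.mk s') : s = s' := by
  have hz := QuotientGroup.eq.mp h
  have h3 : (s⁻¹ * s') ^ 3 = 1 := by
    have h1 : (⟨_, hz⟩ : center (SU 3 F q)) ^ 3 = 1 := by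
      refine orderOf_dvd_iff_pow_eq_one.mp ((_root_.orderOf_dvd_natCard _).trans ?_)
      rw [hq.card_center_SU (by norm_num)]
      exact Nat.gcd_dvd_left _ _
    exact congrArg Subtype.val h1
  have h2 : (s⁻¹ * s') * (s⁻¹ * s') = 1 := by
    have e := mem_center_iff.mp hz s⁻¹
    calc s⁻¹ * s' * (s⁻¹ * s') = (s⁻¹ * s' * s⁻¹) * s' := by group
      _ = (s * s)⁻¹ * (s' * s') := by rw [← e]; group
      _ = 1 := by rw [hs, hs']; simp
  rw [pow_succ, pow_two, h2, one_mul, inv_mul_eq_one] at h3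
  exact h3

/-- The images of the transvections in `PSU₃(q)`. -/
def T (c : {c : F // τ c = c}) : PSU 3 F q := QuotientGroup.mk (tr hq c)

theorem T_sq (c : {c : F // τ c = c}) : T hq c * T hq c = 1 := by
  rw [T, ← QuotientGroup.mk_mul, tr_sq, QuotientGroup.mk_one]

theorem T_comm (c d : {c : F // τ c = c}) : T hq c * T hq d = T hq d * T hq c := by
  rw [T, T, ← QuotientGroup.mk_mul, tr_comm, QuotientGroup.mk_mul]

theorem T_injective : Function.Injective (T hq) := fun c d h => by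
  have e := congrArg (fun s => (suGL 3 F q s : Matrix (Fin 3) (Fin 3) F) 0 1)
    (eq_of_mk_eq hq (tr_sq hq c) (tr_sq hq d) h)
  simpa [coe_tr, Em, Subtype.ext_iff] using e

/-- The base involution. -/
def x0 : PSU 3 F q := T hq ⟨1, map_one τ⟩

theorem orderOf_x0 : orderOf (x0 hq) = 2 := by
  refine orderOf_eq_prime (by rw [pow_two]; exact T_sq hq _) fun h => ?_
  have e : T hq ⟨0, map_zero τ⟩ = 1 := by
    have : tr hq ⟨0, map_zero τ⟩ = 1 := Subtype.ext (Subtype.ext (by
      change (1 + (0 : F) • Em F) = 1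
      simp))
    rw [T, this, QuotientGroup.mk_one]
  simpa using T_injective hq (h.trans e.symm)

theorem aut_T (g : GU 3 F q) (σ : RingAut F) (h : (fdU hq le_rfl).aut g σ (x0 hq) = x0 hq)
    (c : {c : F // τ c = c}) :
    (fdU hq le_rfl).aut g σ (T hq c) = T hq ⟨σ c, by rw [← Aut.UField.comm hq, c.2]⟩ := by
  have key := ((fdU hq le_rfl).eq_aut_iff g σ _).mp rfl
  obtain ⟨s, hs⟩ := exists_suGL_eq (n := 3) (g := g.1 * suGL 3 F q (tr hq ⟨1, map_one τ⟩) * g.1⁻¹)
    (mul_mem (mul_mem g.2 (suGL_mem _)) (inv_mem g.2)) (by simp [det_suGL])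
  have h1 := key (tr hq ⟨1, map_one τ⟩) s (by
    rw [hs, coe_tr, tm_map, map_one]; rfl)
  have h2 : s = tr hq ⟨1, map_one τ⟩ := by
    refine eq_of_mk_eq hq (suGL_injective ?_) (tr_sq hq _) (h1.symm.trans h)
    rw [map_mul, hs, map_one]
    calc _ = g.1 * suGL 3 F q (tr hq ⟨1, map_one τ⟩ * tr hq ⟨1, map_one τ⟩) * g.1⁻¹ := by
          rw [map_mul]; group
      _ = 1 := by rw [tr_sq, map_one]; group
  have h3 : (g.1 : Matrix (Fin 3) (Fin 3) F) * Em F * ((g.1⁻¹ : GL (Fin 3) F) : Matrix _ _ F) =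
      Em F := by
    have e := congrArg Units.val hs
    rw [h2, Units.val_mul, Units.val_mul, coe_tr, one_smul, mul_add, add_mul, mul_one,
      Units.mul_inv] at e
    exact (add_left_cancel e).symm
  refine key _ _ ?_
  rw [coe_tr, coe_tr, tm_map, mul_add, add_mul, mul_one, Units.mul_inv, Matrix.mul_smul,
    Matrix.smul_mul, h3]

omit [CharP F 2] in
include hq in
theorem sq_eq_one_of_fix {σ : RingAut F} (h : ∀ c, τ c = c → σ c = c) : σ ^ 2 = 1 := by
  ext a
  have hi := hq.invol.1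
  have hc := Aut.UField.comm hq σ
  have h1 := h (a + τ a) (by rw [map_add, hi, add_comm])
  have h2 := h (a * τ a) (by rw [map_mul, hi, mul_comm])
  rw [map_add] at h1
  rw [map_mul] at h2
  have h3 : (σ a - a) * (σ a - τ a) = 0 := by
    linear_combination (σ a) * h1 - h2
  change σ (σ a) = a
  rcases mul_eq_zero.mp h3 with e | e
  · rw [sub_eq_zero.mp e, sub_eq_zero.mp e]
  · rw [sub_eq_zero.mp e, hc, sub_eq_zero.mp e, hi]

/-- What is used about the centralizer of an involution of `PGU₃(q)`. -/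
structure CP (hσ : UInvol τ) (C : Type*) [Group C] : Prop where
  ex : ∃ j : UHeis hσ →* C, Function.Injective j ∧ j.range.Normal ∧ Odd j.range.index
  cent : ∀ u : C, u * u = 1 → ∀ c, c * u = u * c
  core : ∀ N : Subgroup C, N.Normal → Odd (Nat.card N) → N = ⊥

omit [CharP F 2] in
theorem CP.of_equiv {hσ : UInvol τ} {C C' : Type*} [Group C] [Group C'] (h : CP hσ C)
    (e : C' ≃* C) : CP hσ C' := by
  obtain ⟨j, h1, h2, h3⟩ := h.ex
  refine ⟨⟨e.symm.toMonoidHom.comp j, e.symm.injective.comp h1, ?_, ?_⟩, fun u hu c => ?_,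
    fun N hN hodd => ?_⟩
  · rw [MonoidHom.range_comp]
    exact h2.map _ e.symm.surjective
  · rw [MonoidHom.range_comp]
    rwa [MulEquiv.toMonoidHom_eq_coe, index_map_of_bijective e.symm.bijective]
  · exact e.injective (by simpa using h.cent (e u) (by rw [← map_mul, hu, map_one]) (e c))
  · have := h.core (N.map e.toMonoidHom) (hN.map _ e.surjective)
      (by rwa [card_map_of_injective e.injective])
    exact (map_eq_bot_iff_of_injective _ e.injective).mp this

omit [CharP F 2] in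
include hq in
theorem conj_injective : Function.Injective (MulAut.conj : PSU 3 F q →* MulAut (PSU 3 F q)) :=
  (injective_iff_map_eq_one _).mpr fun x hx => by
    rw [← mem_bot, ← (fdU hq le_rfl).center_eq_bot]
    exact mem_center_iff.mpr fun y => by
      have := congrArg (fun β : MulAut _ => β y) hx
      simp only [MulAut.conj_apply, MulAut.one_apply, mul_inv_eq_iff_eq_mul] at this
      exact this.symm

omit [CharP F 2] in
theorem conj_conj {L : Type*} [Group L] (β : MulAut L) (x : L) :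
    β * MulAut.conj x * β⁻¹ = MulAut.conj (β x) := by
  ext y; simp

omit [CharP F 2] in
include hq in
theorem comm_iff {β : MulAut (PSU 3 F q)} {x : PSU 3 F q} :
    β * MulAut.conj x = MulAut.conj x * β ↔ β x = x := by
  rw [← mul_inv_eq_iff_eq_mul, conj_conj, (conj_injective hq).eq_iff]

/-- The centralizer of the base involution in the group of inner-diagonal automorphisms. -/
noncomputable abbrev C0 : Subgroup (MulAut (PSU 3 F q)) :=
  (fdU hq le_rfl).diag.range ⊓ MulAction.stabilizer _ (x0 hq)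

theorem cp_C0 : CP hq.invol (C0 hq) := by
  have := hq.finite
  obtain ⟨D₀, hD₀, -⟩ := hq.exists_u3Data_PSU
  have hp : IsPGroup 2 (zpowers (x0 hq)) :=
    IsPGroup.of_card (n := 1) (by rw [Nat.card_zpowers, orderOf_x0, pow_one])
  obtain ⟨S, hS⟩ := hp.exists_le_sylow
  obtain ⟨g, hg⟩ := D₀.exists_conj_range_eq S
  have hD : Function.Injective (D₀.conj g).act := by
    rw [← MonoidHom.ker_eq_bot_iff, U3Data.ker_act, (fdU hq le_rfl).center_eq_bot]
  generalize D₀.conj g = D at hg hD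
  have hx : x0 hq ∈ D.u.range := hg ▸ hS (mem_zpowers _)
  have hx1 : x0 hq ≠ 1 := fun e => by
    have := orderOf_x0 hq
    rw [e, orderOf_one] at this
    omega
  have hcen : ∀ x, D.u x * x0 hq = x0 hq * D.u x := by
    obtain ⟨z, hz⟩ := hx
    have : z * z = 1 := D.u_injective (by rw [map_mul, hz, map_one]; exact T_sq hq _)
    intro x
    rw [← hz, ← map_mul, ← map_mul,
      mem_center_iff.mp (UHeis.mem_center_iff.mpr (UHeis.mul_self_eq_one_iff.mp this))]
  have hmem : ∀ y, y * x0 hq = x0 hq * y → y ^ 2 ^ 2 = 1 → y ∈ D.u.range := fun y h1 h2 =>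
    D.mem_range_u_of_pow (D.centralizer_le_B hx hx1 (mem_centralizer_singleton_iff.mpr h1)) h2
  let j : UHeis hq.invol →* C0 hq := (MulAut.conj.comp D.u).codRestrict _ fun x =>
    ⟨(fdU hq le_rfl).inn_le ⟨_, rfl⟩, by
      change D.u x * x0 hq * (D.u x)⁻¹ = x0 hq
      rw [hcen, mul_inv_cancel_right]⟩
  have hj : ∀ x, (j x : MulAut (PSU 3 F q)) = MulAut.conj (D.u x) := fun x => rfl
  have hinj : Function.Injective j := fun x y h =>
    D.u_injective (conj_injective hq (congrArg Subtype.val h))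
  have hn : j.range.Normal := ⟨by
    rintro _ ⟨x, rfl⟩ β
    obtain ⟨y, hy⟩ := hmem (β.1 (D.u x)) (by
      have e : β.1 (x0 hq) = x0 hq := β.2.2
      conv_lhs => rw [← e]
      rw [← map_mul, hcen, map_mul, e]) (by rw [← map_pow, ← map_pow, UHeis.pow_char_sq]; simp)
    exact ⟨y, Subtype.ext (by rw [hj, hy, ← conj_conj]; rfl)⟩⟩
  have hodd : Odd j.range.index := by
    have h1 : Nat.card (C0 hq) ∣ Nat.gcd 3 (q + 1) * Nat.card (PSU 3 F q) :=
      card_range_diagU hq le_rfl ▸ card_dvd_of_le inf_le_left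
    rw [← j.range.index_mul_card, ← (D.sylow 2 : Subgroup (PSU 3 F q)).index_mul_card,
      ← Nat.card_congr (MonoidHom.ofInjective hinj).toEquiv, D.coe_sylow,
      ← Nat.card_congr (MonoidHom.ofInjective D.u_injective).toEquiv, ← mul_assoc] at h1
    refine Odd.of_dvd_nat (Odd.mul (Odd.of_dvd_nat (by decide : Odd 3) (Nat.gcd_dvd_left _ _)) ?_)
      (Nat.dvd_of_mul_dvd_mul_right Nat.card_pos h1)
    rw [← D.coe_sylow (p := 2), ← Nat.not_even_iff_odd, even_iff_two_dvd]
    exact (D.sylow 2).not_dvd_index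
  refine ⟨⟨j, hinj, hn, hodd⟩, fun u hu β => ?_, fun N hN hN2 => ?_⟩
  · obtain ⟨z, rfl⟩ : u ∈ j.range := by
      obtain ⟨k, hk⟩ := hodd
      have := j.range.pow_index_mem u
      rwa [hk, pow_succ, pow_mul, pow_two, hu, one_pow, one_mul] at this
    have hz : z ∈ center (UHeis hq.invol) := UHeis.mem_center_iff.mpr
      (UHeis.mul_self_eq_one_iff.mp (hinj (by rw [map_mul, hu, map_one])))
    have hT : ∀ c, ∃ y : center (UHeis hq.invol), D.u y = T hq c := fun c => by
      obtain ⟨y, hy⟩ := hmem (T hq c) (T_comm hq _ _) (by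
        rw [show 2 ^ 2 = 2 * 2 from rfl, pow_mul, pow_two (T hq c), T_sq, one_pow])
      exact ⟨⟨y, UHeis.mem_center_iff.mpr (UHeis.mul_self_eq_one_iff.mp (D.u_injective (by
        rw [map_mul, hy, map_one, T_sq])))⟩, hy⟩
    choose f hf using hT
    have hfi : Function.Injective f := fun c d h => T_injective hq (by rw [← hf, h, hf])
    obtain ⟨c, hc⟩ := (hfi.bijective_of_nat_card_le (by
      rw [UHeis.card_center hq, hq.card_fixed])).2 ⟨z, hz⟩
    have e : D.u z = T hq c := by rw [← hf, hc]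
    refine Subtype.ext ?_
    change β.1 * j z = j z * β.1
    rw [hj, comm_iff hq, e]
    obtain ⟨β, ⟨g, rfl⟩, hβ⟩ := β
    rw [FD.diag_eq] at hβ
    have := aut_T hq g 1 hβ c
    rwa [← FD.diag_eq] at this
  · rw [eq_bot_iff]
    intro β hβ
    refine Subtype.ext (eq_one_of_fix D hD ?_ fun x => ?_)
    · rw [Subgroup.orderOf_coe]
      exact hN2.of_dvd_nat (N.orderOf_dvd_natCard hβ)
    · have hd : Disjoint N j.range := by
        refine Subgroup.disjoint_of_coprime_natCard ?_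
        obtain ⟨k, hk⟩ := IsPGroup.iff_card.mp (UHeis.isPGroup hq.invol 2)
        rw [← Nat.card_congr (MonoidHom.ofInjective hinj).toEquiv, hk]
        exact (Nat.coprime_two_right.mpr hN2).pow_right k
      have := congrArg Subtype.val (commute_of_normal_of_disjoint N j.range hN hn hd β (j x) hβ
        ⟨x, rfl⟩).eq
      exact (comm_iff hq).mp this

/-- An automorphism fixing all the transvections `T c` with an odd power in `Inn` is
inner-diagonal. -/
theorem mem_diag (h2 : q ≠ 2) {β : MulAut (PSU 3 F q)} (h : ∀ c, β (T hq c) = T hq c) {m : ℕ}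
    (hm : Odd m) (hβ : β ^ m ∈ Inn (PSU 3 F q)) : β ∈ (fdU hq le_rfl).diag.range := by
  obtain ⟨γ, rfl⟩ := psiU_surjective hq le_rfl (fun h => h2 h.2) β
  have h1 : (fdU hq le_rfl).rho γ ^ 2 = 1 := by
    refine sq_eq_one_of_fix hq fun c hc => ?_
    rw [FD.Psi_eq] at h
    have := T_injective hq ((aut_T hq _ _ (h _) ⟨c, hc⟩).symm.trans (h _))
    exact congrArg Subtype.val this
  have h3 : (fdU hq le_rfl).rho γ ^ m = 1 := by
    obtain ⟨g, hg⟩ := (fdU hq le_rfl).inn_le hβ
    rw [← map_pow, FD.Psi_eq, FD.diag_eq] at hg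
    rw [← map_pow]
    exact ((fdU hq le_rfl).aut_inj hg).symm
  obtain ⟨k, rfl⟩ := hm
  rw [pow_succ, pow_mul, h1, one_pow, one_mul] at h3
  rw [← FD.map_ker_rho]
  exact ⟨γ, h3, rfl⟩

omit [CharP F 2] in
/-- `PGU₃(q)` as the group of inner-diagonal automorphisms. -/
theorem exists_pgu : ∃ φ : (GU 3 F q ⧸ center (GU 3 F q)) →* MulAut (PSU 3 F q),
    Function.Injective φ ∧ φ.range = (fdU hq le_rfl).diag.range := by
  have e : center (GU 3 F q) = (fdU hq le_rfl).diag.ker := by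
    rw [FD.ker_diag]
    ext g
    rw [hq.mem_center_GU_iff, mem_subgroupOf, Geo.mem_scalars_iff]
    refine ⟨fun ⟨a, ha⟩ => ⟨Units.mk0 a fun h => ?_, ha⟩, fun ⟨a, ha⟩ => ⟨a, ha⟩⟩
    have := g.1.ne_zero
    rw [ha, h, zero_smul] at this
    exact this rfl
  refine ⟨QuotientGroup.lift _ (fdU hq le_rfl).diag e.le, ?_, ?_⟩
  · rw [← MonoidHom.ker_eq_bot_iff, QuotientGroup.ker_lift, ← e, QuotientGroup.map_mk'_self]
  · ext β
    exact ⟨fun ⟨x, hx⟩ => by
      obtain ⟨g, rfl⟩ := QuotientGroup.mk_surjective x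
      exact ⟨g, hx⟩, fun ⟨g, hg⟩ => ⟨g, hg⟩⟩

omit [CharP F 2] in
include hq in
theorem map_centralizer {X : Type*} [Group X] {φ : X →* MulAut (PSU 3 F q)}
    (hφ : Function.Injective φ) {x : X} {y : PSU 3 F q} (h : φ x = MulAut.conj y) :
    (centralizer {x}).map φ = φ.range ⊓ MulAction.stabilizer _ y := by
  ext β
  constructor
  · rintro ⟨c, hc, rfl⟩
    refine ⟨⟨c, rfl⟩, (comm_iff hq).mp ?_⟩
    rw [← h, ← map_mul, mem_centralizer_singleton_iff.mp hc, map_mul]
  · rintro ⟨⟨c, rfl⟩, hc⟩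
    refine ⟨c, mem_centralizer_singleton_iff.mpr (hφ ?_), rfl⟩
    rw [map_mul, map_mul, h]
    exact (comm_iff hq).mpr hc

end Cfsg.Agent.Cl.PG3
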