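import Mathlib
import Cfsg.Agent.Cl.PSL2MaxClass
import Cfsg.Agent.Perm.Binary

/-! # Binary coset actions of `PSL₂(q)` -/

set_option autoImplicit false

open Matrix MulAction
open scoped MatrixGroups LinearAlgebra.Projectivization

namespace Cfsg.Agent.Cl.L2

open Cfsg.Agent.Perm.Bin

section General

variable {G Ω : Type*} [Group G] [MulAction G Ω]

/-- A sufficient condition for an action to be binary. -/
theorem isBin_of_TI (hTI : ∀ a b : Ω, (∀ x : G, x • a = a → x • b = b) ∨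
    ∀ (c : Ω) (x y : G), x • a = a → y • b = b → (y⁻¹ * x) • c = c → x = 1 ∨ y = 1) :
    IsBin G Ω := by
  intro n I J hn hIJ
  have hIJ' : ∀ i j, ∃ g : G, g • I i = J i ∧ g • I j = J j := by
    intro i j
    by_cases e : i = j
    · subst e
      have : Nontrivial (Fin n) := Fin.nontrivial_iff_two_le.2 hn
      obtain ⟨j, hj⟩ := exists_ne i
      obtain ⟨g, hg, -⟩ := hIJ i j hj.symm
      exact ⟨g, hg, hg⟩
    · exact hIJ i j e
  let i0 : Fin n := ⟨0, by omega⟩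
  by_cases hall : ∀ i, ∀ x : G, x • I i0 = I i0 → x • I i = I i
  · obtain ⟨g, hg, -⟩ := hIJ' i0 i0
    refine ⟨g, fun i => ?_⟩
    obtain ⟨g', h1, h2⟩ := hIJ' i0 i
    have := hall i (g⁻¹ * g') (by rw [mul_smul, h1, inv_smul_eq_iff, hg])
    rw [mul_smul, inv_smul_eq_iff, h2] at this
    exact this.symm
  · push Not at hall
    obtain ⟨i1, x0, hx0, hx0'⟩ := hall
    have hc := (hTI (I i0) (I i1)).resolve_left fun h => hx0' (h x0 hx0)
    obtain ⟨g, hg0, hg1⟩ := hIJ' i0 i1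
    refine ⟨g, fun i => ?_⟩
    obtain ⟨g0, h1, h1'⟩ := hIJ' i0 i
    obtain ⟨g1, h3, h3'⟩ := hIJ' i1 i
    rcases hc (I i) (g⁻¹ * g0) (g⁻¹ * g1) (by rw [mul_smul, h1, inv_smul_eq_iff, hg0])
      (by rw [mul_smul, h3, inv_smul_eq_iff, hg1])
      (by rw [mul_smul, inv_smul_eq_iff, mul_smul, mul_smul, h1', h3']) with e | e
    · rw [inv_mul_eq_one.1 e, h1']
    · rw [inv_mul_eq_one.1 e, h3']

theorem binSub_of_TI {H : Subgroup G} (h : ∀ a b c x y : G, x ∈ cj a H → y ∈ cj b H →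
    y⁻¹ * x ∈ cj c H → x ≠ 1 → y ≠ 1 → cj a H ≤ cj b H) : BinSub H := by
  refine isBin_of_TI fun a b => ?_
  obtain ⟨a, rfl⟩ := QuotientGroup.mk_surjective a
  obtain ⟨b, rfl⟩ := QuotientGroup.mk_surjective b
  by_cases hab : cj a H ≤ cj b H
  · exact Or.inl fun x hx => (smul_mk_eq_iff _ _ _).2 (mem_cj.1 (hab (mem_cj.2
      ((smul_mk_eq_iff _ _ _).1 hx))))
  refine Or.inr fun c x y hx hy hc => ?_
  obtain ⟨c, rfl⟩ := QuotientGroup.mk_surjective c
  rw [smul_mk_eq_iff, ← mem_cj] at hx hy hc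
  by_contra hn
  exact hab (h a b c x y hx hy hc (fun e => hn (Or.inl e)) fun e => hn (Or.inr e))

lemma exists_mem_cj {H : Subgroup G} {h x : G} (hh : h ∈ H) (hc : IsConj h x) :
    ∃ c, x ∈ cj c H := by
  obtain ⟨c, rfl⟩ := isConj_iff.1 hc
  exact ⟨c, conj_mem_cj.2 hh⟩

end General

variable {F : Type*} [Field F]

lemma cj_torS_eq {g c x : PSL(2, F)} (hg : g ≠ 1) (hx : x ∈ cj c (torS g)) (h1 : x ≠ 1) :
    cj c (torS g) = torS x := by
  rw [← torS_conj] at hx ⊢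
  exact (torS_eq_of_mem (by rwa [Ne, conj_eq_one_iff]) hx h1).symm

/-- The triple test for subgroups of a torus. -/
theorem not_binSub_of_triple {H : Subgroup PSL(2, F)} {g a b : PSL(2, F)} (hg : g ≠ 1)
    (hH : H ≤ torS g) (hab : b ∉ torS a) (ha : ∃ c, a ∈ cj c H) (hb : ∃ c, b ∈ cj c H)
    (hc : ∃ c, b⁻¹ * a ∈ cj c H) : ¬ BinSub H := fun h => by
  obtain ⟨c1, h1⟩ := ha
  obtain ⟨c2, h2⟩ := hb
  obtain ⟨c3, h3⟩ := hc
  have a1 : a ≠ 1 := by
    rintro rfl
    exact hab (mem_torS_comm.1 (one_mem _))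
  have b1 : b ≠ 1 := by
    rintro rfl
    exact hab (one_mem _)
  obtain ⟨k, k1, k2, k3⟩ := h.triple (mem_cj.1 h1) (mem_cj.1 h2) (mem_cj.1 h3)
  have e1 := cj_torS_eq hg (cj_mono _ hH h1) a1
  have e2 := cj_torS_eq hg (cj_mono _ hH h2) b1
  have k0 : k = 1 := by
    by_contra hk
    rw [cj_torS_eq hg (cj_mono _ hH (mem_cj.2 k1)) hk] at e1
    rw [cj_torS_eq hg (cj_mono _ hH (mem_cj.2 k2)) hk, e1] at e2
    exact hab (e2 ▸ self_mem_torS b)
  rw [k0, mul_one, ← mem_cj] at k3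
  have e3 := cj_torS_eq hg (cj_mono _ hH (inv_mem_iff.1 k3)) a1
  have := mul_mem (self_mem_torS a) (inv_mem (e3 ▸ cj_mono _ hH h3))
  rw [_root_.mul_inv_rev, inv_inv, mul_inv_cancel_left] at this
  exact hab this

lemma conj_mem_uniS {x : P1 F} {c u : PSL(2, F)} (hc : c • x = x) (hu : u ∈ uniS x) :
    c * u * c⁻¹ ∈ uniS x := by
  have := conj_mem_cj (c := c).2 hu
  rwa [← uniS_smul, hc] at this

lemma commutator_mem_uniS {x : P1 F} {g h : PSL(2, F)} (hg : g • x = x) (hh : h • x = x) :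
    g * h * g⁻¹ * h⁻¹ ∈ uniS x := by
  rw [mem_uniS', map_mul, map_mul, map_mul, map_inv, map_inv]
  exact commutator_mem_uni (by rwa [emb_smul]) (by rwa [emb_smul])

lemma exists_second_fixS {g : PSL(2, F)} (ht : tau (emb g) ≠ 4) {x : P1 F} (hx : g • x = x) :
    ∃ y, x ≠ y ∧ g • y = y := by
  simpa only [emb_smul] using exists_second_fix ht (x := x) (by rwa [emb_smul])

lemma eq_one_of_fix_threeS {g : PSL(2, F)} {x y z : P1 F} (hxy : x ≠ y) (hxz : x ≠ z) (hyz : y ≠ z)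
    (h1 : g • x = x) (h2 : g • y = y) (h3 : g • z = z) : g = 1 :=
  emb_eq_one.1 (eq_one_of_fix_three hxy hxz hyz (by rwa [emb_smul]) (by rwa [emb_smul])
    (by rwa [emb_smul]))

lemma eq_one_of_mem_uniS {u : PSL(2, F)} {x y : P1 F} (hu : u ∈ uniS x) (hxy : x ≠ y)
    (hy : u • y = y) : u = 1 := by_contra fun h => hxy (eq_of_mem_uniS h hu hy)

lemma comm_of_det_comm {A B : M2 F} (hA : A.det ≠ 0) (hx : ∀ x : P1 F, pm A • x ≠ x)
    (h : (A * B - B * A).det = 0) : A * B = B * A := by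
  have h0 : A 1 0 ≠ 0 := fun e => hx inf ((pm_smul_inf_eq_inf hA).2 e)
  set N := A * B - B * A with hN
  have h1 : N 1 1 = -N 0 0 := by simp [hN, mul_apply]; ring
  have h2 : A 0 0 * N 0 0 + A 0 1 * N 1 0 + A 1 0 * N 0 1 - A 1 1 * N 0 0 = 0 := by
    simp [hN, mul_apply]; ring
  rw [det_fin_two, h1] at h
  have h3 : N 1 0 = 0 := by
    by_contra h3
    refine hx (pt (N 0 0 / N 1 0)) ((pm_smul_pt_eq_pt hA).2 ?_)
    field_simp
    linear_combination N 1 0 * h2 + A 1 0 * h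
  have h4 : N 0 0 = 0 := by
    rw [h3] at h
    exact mul_self_eq_zero.1 (by linear_combination -h)
  have h5 : N 0 1 = 0 := by
    rw [h3, h4] at h2
    exact (mul_eq_zero.1 (by linear_combination h2)).resolve_left h0
  rw [← sub_eq_zero, ← hN]
  ext i j
  fin_cases i <;> fin_cases j <;> simp [h1, h3, h4, h5]

/-- Unipotent subgroups in odd characteristic. -/
theorem not_binSub_of_uni (h2 : (2 : F) ≠ 0) {H : Subgroup PSL(2, F)} {x : P1 F} (hH : H ≤ uniS x)
    (h1 : H ≠ ⊥) : ¬ BinSub H := by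
  obtain ⟨⟨h, hh⟩, h1⟩ := Subgroup.ne_bot_iff_exists_ne_one.1 h1
  replace h1 : h ≠ 1 := fun e => h1 (Subtype.ext e)
  obtain ⟨c, rfl⟩ := exists_smul_one x
  obtain ⟨b, hb⟩ := mem_uni_smul_inf.1 (hH hh)
  have hb0 : b ≠ 0 := by
    rintro rfl
    exact h1 (emb_eq_one.1 (by rw [hb, aff_one_zero, mul_one, mul_inv_cancel]))
  let u : SL(2, F) := ⟨!![1, 2; 0, 1], by simp [det_fin_two]⟩
  let w : SL(2, F) := ⟨!![0, -1; 1, 0], by simp [det_fin_two]⟩
  let y : SL(2, F) := ⟨!![1, 0; -1, 1], by simp [det_fin_two]⟩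
  have hu : (u : M2 F) = !![1, 2; 0, 1] := rfl
  have hw : (w : M2 F) = !![0, -1; 1, 0] := rfl
  have hy : (y : M2 F) = !![1, 0; -1, 1] := rfl
  have e1 : (w : PSL(2, F)) * u * (w : PSL(2, F))⁻¹ * u = y * (u : PSL(2, F))⁻¹ * (y : PSL(2, F))⁻¹ := by
    change ((w * u * w⁻¹ * u : SL(2, F)) : PSL(2, F)) = (y * u⁻¹ * y⁻¹ : SL(2, F))
    refine mk_eq_mk_iff.2 (Or.inr ?_)
    ext i j
    fin_cases i <;> fin_cases j <;> simp [hu, hw, hy] <;> norm_num
  have e2 : (u : PSL(2, F)) * (w * u * (w : PSL(2, F))⁻¹) ≠ w * u * (w : PSL(2, F))⁻¹ * u := by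
    change ((u * (w * u * w⁻¹) : SL(2, F)) : PSL(2, F)) ≠ (w * u * w⁻¹ * u : SL(2, F))
    intro e
    rcases mk_eq_mk_iff.1 e with e | e
    · have := congrArg (fun A : SL(2, F) => A.1 0 0) e
      simp [hu, hw] at this
      exact h2 this
    · have := congrArg (fun A : SL(2, F) => A.1 0 1) e
      simp [hu, hw] at this
      exact four_ne_zero_of_two h2 (by linear_combination this)
  let φ := conjS (c * aff (b / 2) 0)
  have e3 : φ u = h := emb_injective (by
    rw [emb_conjS, hb, emb_mk, _root_.mul_inv_rev, mul_assoc c, mul_assoc c, mul_assoc c,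
      ← mul_assoc _ _ c⁻¹]
    congr 2
    rw [← div_mul_cancel₀ b h2, mul_div_cancel_right₀ _ h2]
    exact aff_conj_one (div_ne_zero hb0 h2) 0 2)
  refine not_binSub_of_triple (a := h) (b := φ w * h⁻¹ * (φ w)⁻¹) h1
    (torS_eq_uniS (hH hh) h1 ▸ hH) (fun e => e2 (φ.injective ?_)) ⟨1, by rwa [cj_one]⟩
    ⟨_, conj_mem_cj.2 (inv_mem hh)⟩ ⟨φ y, ?_⟩
  · have := comm_of_mem_torS (inv_mem e)
    simp only [map_mul, map_inv, e3]
    simpa [mul_assoc] using this
  · have := congrArg φ e1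
    simp only [map_mul, map_inv, e3] at this
    rw [conj_inv, inv_inv, this]
    exact conj_mem_cj.2 (inv_mem hh)

variable [Finite F]

/-- The quadruple test for subgroups of a point stabiliser. -/
theorem not_binSub_of_fix {H : Subgroup PSL(2, F)} {x : P1 F} (hH : H ≤ stabilizer PSL(2, F) x)
    {h : PSL(2, F)} (hh : h ∈ H) (ht : tau (emb h) ≠ 4) (h2 : h * h ≠ 1) : ¬ BinSub H := fun hb => by
  have h1 := ne_one_of_tauS ht
  have hx : h • x = x := hH hh
  obtain ⟨y, hxy, hy⟩ := exists_second_fixS ht hx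
  obtain ⟨w, hw, hw'⟩ := exists_mem_ntorS_not_mem ht
  have e1 : w⁻¹ * h * w = h⁻¹ := by
    have := conj_eq_inv_of_mem_ntorS ht (inv_mem hw) (fun e => hw' (inv_mem_iff.1 e)) (self_mem_torS h)
    rwa [inv_inv] at this
  have e2 : w • x = y := by
    rcases (mem_ntor_iff_of_two_fix (emb_ne_one.2 h1) hxy (by rwa [emb_smul])
      (by rwa [emb_smul])).1 hw with ⟨a, b⟩ | ⟨a, -⟩
    · exact absurd ((mem_tor_iff_of_two_fix (emb_ne_one.2 h1) hxy (by rwa [emb_smul])
        (by rwa [emb_smul])).2 ⟨a, b⟩) hw'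
    · rwa [emb_smul] at a
  obtain ⟨u, hu, hu1⟩ := exists_ne_one_mem_uniS x
  have hux : u • x = x := uniS_le_stabilizer x hu
  have huy : u • y ≠ y := fun e => hu1 (eq_one_of_mem_uniS hu hxy e)
  have hxu : x ≠ u • y := fun e => hxy (smul_left_cancel u (hux.trans e))
  have hm : u * h * u⁻¹ * h⁻¹ ∈ uniS x := commutator_mem_uniS hux hx
  have hhh : h * h ∈ torS h := mul_mem (self_mem_torS h) (self_mem_torS h)
  have hmx : (u * h * u⁻¹ * h) • x = x := by
    simp only [mul_smul, hx, inv_smul_eq_iff.2 hux.symm, hux]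
  have hmt : tau (emb (u * h * u⁻¹ * h)) ≠ 4 := fun e => tauS_ne_four_of_mem ht hhh h2 (by
    have := mul_mem (inv_mem hm) (mem_uniS.2 ⟨hmx, e⟩)
    rw [show (u * h * u⁻¹ * h⁻¹)⁻¹ * (u * h * u⁻¹ * h) = h * h by group] at this
    exact this.2)
  obtain ⟨z, hxz, hz⟩ := exists_second_fixS hmt hmx
  obtain ⟨v, hv, rfl⟩ := exists_uniS_smul hxy hxz
  have hvx : v • x = x := uniS_le_stabilizer x hv
  have e3 : v⁻¹ * (u * h * u⁻¹ * h) * v = h * h := by
    have : v⁻¹ * (u * h * u⁻¹ * h) * v * (h * h)⁻¹ ∈ uniS x := by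
      have := mul_mem (mul_mem (inv_mem hv) hm) (conj_mem_uniS (c := h * h)
        (by rw [mul_smul, hx, hx]) hv)
      convert this using 1
      group
    refine mul_inv_eq_one.1 (eq_one_of_mem_uniS this hxy ?_)
    rw [mul_smul, inv_smul_eq_iff.2 (show y = (h * h) • y by rw [mul_smul, hy, hy]), mul_smul,
      mul_smul, hz, inv_smul_smul]
  obtain ⟨k, k0, k1, k2, k3⟩ := hb.quad (g1 := w) (g2 := u * w) (g3 := v * w) (h1 := h)
    (h2 := u * h⁻¹ * u⁻¹) hh (e1 ▸ inv_mem hh)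
    (by
      rw [show (u * w)⁻¹ * (u * h⁻¹ * u⁻¹) * (u * w) = (w⁻¹ * h * w)⁻¹ by group, e1, inv_inv]
      exact hh)
    (by
      rw [show (v * w)⁻¹ * ((u * h⁻¹ * u⁻¹)⁻¹ * h) * (v * w) =
        w⁻¹ * (v⁻¹ * (u * h * u⁻¹ * h) * v) * w by group, e3,
        show w⁻¹ * (h * h) * w = (w⁻¹ * h * w) * (w⁻¹ * h * w) by group, e1]
      exact mul_mem (inv_mem hh) (inv_mem hh))
  have key : ∀ {g k : PSL(2, F)}, g⁻¹ * k * g ∈ H → k • g • x = g • x := fun h => by
    have := mem_stabilizer_iff.1 (hH h)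
    rwa [mul_smul, mul_smul, inv_smul_eq_iff] at this
  have a1 := key k1
  have a2 := key k2
  have a3 := key k3
  rw [mul_smul u, e2] at a2
  rw [mul_smul v, e2] at a3
  rw [e2] at a1
  rw [eq_one_of_fix_threeS hxy hxu huy.symm (hH k0) a1 a2, mul_one, inv_smul_eq_iff] at a3
  have a4 : v • y = y := by_contra fun e => h1 (eq_one_of_fix_threeS hxy hxz (Ne.symm e) hx hy a3.symm)
  rw [a4, mul_smul, hy, mul_smul, mul_smul, ← eq_inv_smul_iff] at hz
  refine h1 (eq_one_of_fix_threeS hxy (z := u⁻¹ • y) (fun e => hxy ?_) (fun e => huy ?_) hx hy hz)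
  · rw [eq_inv_smul_iff.1 e] at hux
    exact hux.symm
  · exact eq_inv_smul_iff.1 e

/-- Semisimple cyclic subgroups. -/
theorem not_binSub_of_tor {H : Subgroup PSL(2, F)} {g h : PSL(2, F)} (hg : g ≠ 1) (hH : H ≤ torS g)
    (hh : h ∈ H) (ht : tau (emb h) ≠ 4) (h3 : (2 : F) ≠ 0 ∨ tau (emb h) ≠ 1) : ¬ BinSub H := by
  obtain ⟨A, rfl⟩ := exists_mk h
  rw [tauS_mk] at h3
  have ht' := ht
  rw [tauS_mk] at ht'
  set t := (A : M2 F).trace with hA
  obtain ⟨u, hu, hu'⟩ : ∃ u : F, u ^ 2 = t ^ 2 ∧ 3 * t ^ 2 - t ^ 2 * u - 4 ≠ 0 := by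
    by_cases e : t = -1
    · refine ⟨1, by rw [e]; ring, fun e' => ?_⟩
      rw [e] at e' h3
      exact h3.elim (fun h => h (by linear_combination -e')) fun h => h (by ring)
    · refine ⟨t, rfl, fun e' => ?_⟩
      have : (t - 2) ^ 2 * (t + 1) = 0 := by linear_combination -e'
      rcases mul_eq_zero.1 this with e' | e'
      · exact ht' (by rw [sub_eq_zero.1 (pow_eq_zero_iff two_ne_zero |>.1 e')]; norm_num)
      · exact e (by linear_combination e')
  obtain ⟨B, h1, h2, h4⟩ := exists_trace_pair (A := A) (by rwa [A.det_coe, mul_one]) t 1 u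
  let B' : SL(2, F) := ⟨B, h2⟩
  refine not_binSub_of_triple (a := A) (b := (B' : PSL(2, F))⁻¹) hg hH (fun e => hu' ?_)
    ⟨1, by rwa [cj_one]⟩ (exists_mem_cj hh (isConjS_of_tau ht ?_))
    (exists_mem_cj hh (isConjS_of_tau ht ?_))
  · rw [inv_mem_iff, mem_torS, emb_mk, emb_mk, pm_mem_tor (sl_det_ne_zero _) (sl_det_ne_zero _)] at e
    have := det_comm_eq (A : M2 F) B
    rw [show (A : M2 F) * B = B * A from e, sub_self, det_zero, ← show (A : M2 F) * B = B * A from e,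
      h1, h2, h4, A.det_coe, hu] at this
    · linear_combination this
  · rw [map_inv, tau_inv, tauS_mk, tauS_mk, ← hA]
    exact congrArg (· ^ 2) h1.symm
  · rw [inv_inv, map_mul, tau_mul_comm, ← map_mul, tauS_mk, ← hu, ← h4]
    exact (tauS_mk (A * B')).symm

lemma exists_mem_of_even {G : Type*} [Group G] [Finite G] {H : Subgroup G}
    (h : Even (Nat.card H)) : ∃ s ∈ H, orderOf s = 2 := by
  obtain ⟨s, hs⟩ := exists_prime_orderOf_dvd_card' (G := H) 2 h.two_dvd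
  exact ⟨s, s.2, by rwa [Subgroup.orderOf_coe]⟩

lemma orderOf_ne_two_of_odd {G : Type*} [Group G] {H : Subgroup G} (h : Odd (Nat.card H)) {s : G}
    (hs : s ∈ H) : orderOf s ≠ 2 := fun e =>
  Nat.not_even_iff_odd.2 h (even_iff_two_dvd.2 (e ▸ Subgroup.orderOf_dvd_natCard H hs))

lemma not_equiv_of_cent {G X : Type*} [Group G] [Group X] {H : Subgroup G} (e : H ≃* X)
    (hH : ∀ s ∈ H, orderOf s = 2 → ∃ r ∈ H, s * r = r * s ∧ r * r ≠ 1) {a : X} (ha : orderOf a = 2)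
    (h : ∀ r, a * r = r * a → r * r = 1) : False := by
  obtain ⟨r, hr, h1, h2⟩ := hH (e.symm a) (e.symm a).2 (by
    rw [Subgroup.orderOf_coe, MulEquiv.orderOf_eq, ha])
  have := h (e ⟨r, hr⟩) (by
    rw [← e.apply_symm_apply a, ← map_mul, ← map_mul]
    exact congrArg e (Subtype.ext h1))
  rw [← map_mul, map_eq_one_iff e e.injective] at this
  exact h2 (congrArg Subtype.val this)

/-- Subgroups of even order in odd characteristic. -/
theorem not_binSub_of_even (h2 : (2 : F) ≠ 0) (h7 : 6 ≤ Nat.card F) {H : Subgroup PSL(2, F)}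
    (hH : H ≠ ⊤) (he : Even (Nat.card H)) : ¬ BinSub H := fun hb => by
  have k1 : ∀ s ∈ H, orderOf s = 2 → ntorS s ≤ H := fun s hs ho => by
    have ht := tauS_ne_four_of_orderOf_two h2 ho
    have k : ∀ n ∈ ntorS s, n ∉ torS s → n ∈ H := fun n hn hn' =>
      hb.mem_of_commute (fun _ _ => isConjS_of_orderOf_two) ho (orderOf_of_mem_ntorS ht hn hn')
        (Subgroup.mem_centralizer_singleton_iff.1
          (centralizer_eq_ntorS_of_orderOf h2 ho ▸ hn)).symm hs
    obtain ⟨n, hn, hn'⟩ := exists_mem_ntorS_not_mem ht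
    intro m hm
    by_cases hm' : m ∈ torS s
    · simpa using mul_mem (k _ (mul_mem hm hn) fun e => hn' ((mul_mem_cancel_left hm').1 e))
        (inv_mem (k n hn hn'))
    · exact k m hm hm'
  have k2 : ∀ s : PSL(2, F), orderOf s = 2 → ∃ r ∈ torS s, r ≠ 1 ∧ tau (emb r) ≠ 4 ∧
      torS r = torS s ∧ orderOf r = Nat.card (torS s) ∧ 3 ≤ orderOf r := fun s ho => by
    obtain ⟨r, h1, h3, -, h4, h5, -⟩ := exists_gen_torS (tauS_ne_four_of_orderOf_two h2 ho)
    have := card_torS_of_orderOf_two h2 ho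
    exact ⟨r, h5 ▸ self_mem_torS r, h1, h3, h5, h4, by omega⟩
  have k3 : ∀ s ∈ H, orderOf s = 2 → ∃ r ∈ H, s * r = r * s ∧ r * r ≠ 1 := fun s hs ho => by
    obtain ⟨r, hr, -, -, -, -, h3⟩ := k2 s ho
    refine ⟨r, k1 s hs ho (torS_le_ntorS s hr), comm_of_mem_torS hr, fun e => ?_⟩
    have := Nat.le_of_dvd two_pos (orderOf_dvd_of_pow_eq_one ((sq r).trans e))
    omega
  have k4 : ∀ _ : H ≃* S4, False := fun e => not_equiv_of_cent e k3 (a := Equiv.swap 0 1)
    (orderOf_eq_prime (by decide) (by decide)) (by decide +kernel)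
  obtain ⟨s, hs, ho⟩ := exists_mem_of_even he
  have ht := tauS_ne_four_of_orderOf_two h2 ho
  rcases dickson_proper H hH with ⟨x, h⟩ | ⟨g, hg, h⟩ | ⟨-, ⟨e⟩⟩ | ⟨⟨e⟩, -⟩ | ⟨⟨e⟩, -⟩ | ⟨k, c, hk, h⟩
  · exact not_ntorS_le_stabilizer ht x ((k1 s hs ho).trans h)
  · have k5 : ∀ s ∈ H, orderOf s = 2 → torS s = torS g := fun s hs ho => by
      obtain ⟨r, hr, h1, -, h3, -, h4⟩ := k2 s ho
      rw [← h3]
      exact torS_eq_of_mem (ne_one_of_tauS hg) (mem_torS_of_orderOf hg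
        (h (k1 s hs ho (torS_le_ntorS s hr))) (by omega)) h1
    obtain ⟨n, hn, hn'⟩ := exists_mem_ntorS_not_mem ht
    refine hn' ?_
    rw [k5 s hs ho, ← k5 n (k1 s hs ho hn) (orderOf_of_mem_ntorS ht hn hn')]
    exact self_mem_torS n
  · exact not_equiv_of_cent e k3 (a := ⟨Equiv.swap 0 1 * Equiv.swap 2 3,
      Equiv.Perm.mem_alternatingGroup.2 (by decide)⟩)
      (orderOf_eq_prime (by decide) (by decide)) (by decide +kernel)
  · exact k4 e
  · exact not_equiv_of_cent e k3 orderOf_a5a (by decide +kernel)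
  · obtain ⟨m, hm, e⟩ := sq_le_of_ne_top hk
    obtain ⟨r, hr, -, hrt, -, h3, -⟩ := k2 s ho
    have h0 := two_le_card (F := k)
    have h4 : orderOf r ≤ Nat.card k + 1 := by
      rcases orderOf_dvd_of_mem_cj (le_cj_subPGL h ⟨r, k1 s hs ho (torS_le_ntorS s hr), rfl⟩) hrt
        with h | h <;> rw [orderOf_emb] at h <;> have := Nat.le_of_dvd (by omega) h <;> omega
    have h5 : Nat.card k ^ 2 ≤ Nat.card F := e ▸ Nat.pow_le_pow_right (by omega) hm
    have h6 := card_torS_of_orderOf_two h2 ho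
    have h9 : Nat.card k % 2 = 1 :=
      two_ne_zero_iff_odd.1 fun e => h2 (by
        rw [← map_ofNat k.subtype 2, e, map_zero])
    have h10 : Nat.card k ≤ 3 := by
      have : Nat.card F ≤ 2 * Nat.card k + 3 := by omega
      nlinarith
    have h11 : Nat.card k = 3 := by omega
    have h12 : 3 ∣ Nat.card F := by
      rw [← e, h11]
      exact dvd_pow_self 3 (by omega)
    rcases h with h | h
    · have a1 := Subgroup.card_dvd_of_le (k1 s hs ho)
      have a2 := card_subPSL_mul k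
      rw [card_ntorS ht, ← card_map_emb H, h, card_cj] at a1
      rw [h11] at a2
      norm_num at a2
      rw [show Nat.card (subPSL k) = 12 by omega, show Nat.card (torS s) = 4 by omega] at a1
      omega
    · obtain ⟨p, hp, _⟩ := exists_char (F := F)
      have := Fact.mk hp
      obtain ⟨φ, hφ⟩ := exists_S4_hom_char p h2
      obtain ⟨c', a1, -⟩ := S4_le_subPGL p hφ k
      have a2 : φ.range = cj c' (subPGL k) := Subgroup.eq_of_le_of_card_ge a1 (by
        rw [card_cj, card_subPGL, h11, card_range_of_injective hφ, card_S4])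
      exact k4 ((mapEmbEquiv H).trans <| (MulEquiv.subgroupCongr h).trans <|
        (cjEquiv c _).symm.trans <| (cjEquiv c' _).trans <|
          (MulEquiv.subgroupCongr a2.symm).trans (MonoidHom.ofInjective hφ).symm)

omit [Finite F] in
lemma mul_self_ne_one_of_char_two (h2 : (2 : F) = 0) {h : PSL(2, F)} (ht : tau (emb h) ≠ 4) :
    h * h ≠ 1 := fun e =>
  ht (tauS_eq_four_of_orderOf_two h2 (orderOf_eq_prime ((sq h).trans e) (ne_one_of_tauS ht)))

/-- Subgroups of even order in characteristic two. -/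
theorem eq_uniS_of_binSub (h2 : (2 : F) = 0) {H : Subgroup PSL(2, F)} (hH : H ≠ ⊤)
    (he : Even (Nat.card H)) (hb : BinSub H) : ∃ x, H = uniS x := by
  have : CharP F 2 := ringChar.eq_iff.1 (two_eq_zero_iff_ringChar.1 h2)
  obtain ⟨s, hs, ho⟩ := exists_mem_of_even he
  obtain ⟨x, hx⟩ := exists_mem_uniS (tauS_eq_four_of_orderOf_two h2 ho)
  have h1 : uniS x ≤ H := fun u hu => by
    by_cases e : u = 1
    · exact e ▸ one_mem H
    · exact hb.mem_of_commute (fun _ _ => isConjS_of_orderOf_two) ho (orderOf_of_mem_uniS 2 hu e)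
        (uniS_comm hx hu) hs
  have h3 : H ≤ stabilizer PSL(2, F) x := fun g hg => by_contra fun e =>
    hH (eq_top_of_uniS_le (Ne.symm e) h1 (by
      rw [uniS_smul, ← cj_of_mem hg]
      exact cj_mono g h1))
  exact ⟨x, le_antisymm (fun g hg => mem_uniS.2 ⟨h3 hg, by_contra fun ht =>
    not_binSub_of_fix h3 hg ht (mul_self_ne_one_of_char_two h2 ht) hb⟩) h1⟩

/-- Subgroups of odd order. -/
theorem card_eq_three_of_binSub {H : Subgroup PSL(2, F)} (hH : H ≠ ⊤) (h1 : H ≠ ⊥)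
    (ho : Odd (Nat.card H)) (hb : BinSub H) :
    (2 : F) = 0 ∧ 3 ∣ Nat.card F + 1 ∧ Nat.card H = 3 := by
  obtain ⟨⟨h, hh⟩, h0⟩ := Subgroup.ne_bot_iff_exists_ne_one.1 h1
  replace h0 : h ≠ 1 := fun e => h0 (Subtype.ext e)
  have k1 : ∀ x : P1 F, ¬ H ≤ stabilizer PSL(2, F) x := fun x hx => by
    have a1 : H ≤ uniS x := fun g hg => mem_uniS.2 ⟨hx hg, by_contra fun ht =>
      not_binSub_of_fix hx hg ht (fun e => orderOf_ne_two_of_odd ho hg
        (orderOf_eq_prime ((sq g).trans e) (ne_one_of_tauS ht))) hb⟩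
    refine not_binSub_of_uni (fun h2 => ?_) a1 h1 hb
    have : CharP F 2 := ringChar.eq_iff.1 (two_eq_zero_iff_ringChar.1 h2)
    exact orderOf_ne_two_of_odd ho hh (orderOf_of_mem_uniS 2 (a1 hh) h0)
  have ho' := Nat.odd_iff.1 ho
  rcases dickson_proper H hH with ⟨x, h⟩ | ⟨g, hg, hg'⟩ | ⟨-, ⟨e⟩⟩ | ⟨⟨e⟩, -⟩ | ⟨⟨e⟩, -⟩ | ⟨k, c, -, h⟩
  · exact absurd h (k1 x)
  · have a1 : H ≤ torS g := fun x hx => mem_torS_of_orderOf hg (hg' hx) (orderOf_ne_two_of_odd ho hx)
    have a2 : ∀ x ∈ H, x ≠ 1 → (2 : F) = 0 ∧ orderOf x = 3 := fun x hx hx1 => by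
      have := not_or.1 fun e => not_binSub_of_tor (ne_one_of_tauS hg) a1 hx
        (tauS_ne_four_of_mem hg (a1 hx) hx1) e hb
      refine ⟨not_not.1 this.1, orderOf_eq_prime ?_ hx1⟩
      rw [← emb_eq_one, map_pow]
      exact pow_three_of_tau (not_not.1 this.2)
    refine ⟨(a2 h hh h0).1, ?_, ?_⟩
    · rw [← (a2 h hh h0).2, ← orderOf_emb]
      refine orderOf_dvd_of_nofix fun x hx => k1 x fun y hy => ?_
      rw [emb_smul] at hx
      exact smul_eq_of_mem_torS h0 (torS_eq_of_mem (ne_one_of_tauS hg) (a1 hh) h0 ▸ a1 hy) hx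
    · have := isCyclic_of_le_torS hg a1
      obtain ⟨r, hr⟩ := IsCyclic.exists_ofOrder_eq_natCard (α := H)
      rw [← hr, ← Subgroup.orderOf_coe]
      refine (a2 r r.2 fun e => h1 (Subgroup.eq_bot_of_card_eq H ?_)).2
      rw [← hr, ← Subgroup.orderOf_coe, e, orderOf_one]
  · have := card_of_A4 e
    omega
  · have := card_of_S4 e
    omega
  · have := card_of_A5 e
    omega
  · obtain ⟨s, hs⟩ : ∃ s : PSL(2, k), orderOf s = 2 := by
      let w : SL(2, k) := ⟨!![0, -1; 1, 0], by simp [det_fin_two]⟩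
      refine ⟨w, orderOf_eq_prime ?_ fun e => ?_⟩
      · rw [sq, ← QuotientGroup.mk_mul, sl_mul_self_eq_neg_one (by simp [w, trace_fin_two]), mk_neg]
        rfl
      · rcases mk_eq_one_iff.1 e with e | e <;> simpa [w] using congrArg (fun A : SL(2, k) => A.1 1 0) e
    have a1 := Subgroup.card_dvd_of_le (cj_subPSL_le h)
    rw [card_cj, card_subPSL, card_map_emb] at a1
    have := (hs ▸ orderOf_dvd_natCard s).trans a1
    omega

omit [Finite F] in
theorem binSub_uniS (h2 : (2 : F) = 0) (x : P1 F) : BinSub (uniS x) := by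
  have : CharP F 2 := ringChar.eq_iff.1 (two_eq_zero_iff_ringChar.1 h2)
  have key : ∀ {y : P1 F} {u : PSL(2, F)}, u ∈ uniS y → u⁻¹ = u := fun {y u} hu => by
    rw [inv_eq_iff_mul_eq_one, ← sq, ← emb_eq_one, map_pow]
    exact pow_char_of_mem_uni 2 hu
  refine binSub_of_TI fun a b c u v hu hv hc u1 v1 => ?_
  rw [← uniS_smul] at hu hv hc ⊢
  have := key hc
  rw [_root_.mul_inv_rev, inv_inv, key hu, key hv] at this
  rw [← uniS_smul, ← torS_eq_uniS hu u1, ← torS_eq_uniS hv v1]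
  refine (torS_eq_of_mem v1 ?_ u1).le
  rw [← centralizer_eq_torS_of_char_two h2]
  exact Subgroup.mem_centralizer_singleton_iff.2 this

theorem binSub_of_card_three (h2 : (2 : F) = 0) (h3 : ¬ 3 ∣ Nat.card F - 1) {H : Subgroup PSL(2, F)}
    (hH : Nat.card H = 3) : BinSub H := by
  have k1 : ∀ {a x : PSL(2, F)}, x ∈ cj a H → x ≠ 1 → orderOf x = 3 := fun {a x} hx h1 =>
    ((Nat.dvd_prime Nat.prime_three).1 (hH ▸ card_cj a H ▸ Subgroup.orderOf_dvd_natCard _ hx)).resolve_left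
      (mt orderOf_eq_one_iff.1 h1)
  have k2 : ∀ {a x : PSL(2, F)}, x ∈ cj a H → x ≠ 1 → cj a H = Subgroup.zpowers x := fun {a x} hx h1 =>
    (Subgroup.eq_of_le_of_card_ge (Subgroup.zpowers_le.2 hx) (by
      rw [card_cj, hH, Nat.card_zpowers, k1 hx h1])).symm
  have k3 : ∀ {a : PSL(2, F)} {A : SL(2, F)}, (A : PSL(2, F)) ∈ cj a H → (A : PSL(2, F)) ≠ 1 →
      (A : M2 F).trace = 1 := fun {a A} hx h1 => by
    have := tau_of_orderOf_three ((orderOf_emb _).trans (k1 hx h1))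
    rw [tauS_mk] at this
    exact sub_eq_zero.1 (pow_eq_zero_iff two_ne_zero |>.1 (by
      linear_combination this + (1 - (A : M2 F).trace) * h2))
  refine binSub_of_TI fun a b c x y hx hy hc x1 y1 => ?_
  rw [k2 hx x1, Subgroup.zpowers_le]
  by_cases e : y⁻¹ * x = 1
  · exact inv_mul_eq_one.1 e ▸ hy
  have ht : tau (emb y) ≠ 4 := by
    rw [tau_of_orderOf_three ((orderOf_emb _).trans (k1 hy y1))]
    exact fun e => one_ne_zero (α := F) (by linear_combination e + 2 * h2)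
  obtain ⟨A, rfl⟩ := exists_mk x
  obtain ⟨B, hB⟩ := exists_mk y⁻¹
  have b1 : (B : PSL(2, F)) ≠ 1 := by rwa [hB, Ne, inv_eq_one]
  have b2 : (B : PSL(2, F)) ∈ cj b H := hB ▸ inv_mem hy
  rw [← hB, ← QuotientGroup.mk_mul] at hc e
  have b3 : (B : M2 F) * A = A * B := by
    refine comm_of_det_comm (sl_det_ne_zero _) (fun z hz => h3 ?_) ?_
    · rw [← emb_mk, hB] at hz
      have := orderOf_dvd_of_fix (by rwa [map_inv, tau_inv]) hz
      rwa [orderOf_emb, orderOf_inv, k1 hy y1] at this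
    · rw [det_comm_eq, show ((B : M2 F) * A).trace = 1 from k3 hc e, k3 hx x1, k3 b2 b1, A.det_coe,
        B.det_coe]
      linear_combination h2
  have b4 : (B : M2 F).trace ^ 2 ≠ 4 * (B : M2 F).det := by
    rwa [B.det_coe, mul_one, ← tauS_mk, hB, map_inv, tau_inv]
  obtain ⟨u, v, huv⟩ := (comm_iff_of_nonscalar (nonscalar_of_disc b4)).1 b3
  rcases eq_or_eq_adjugate b4 (x := u) (y := v) (by rw [← huv, k3 hx x1, k3 b2 b1])
    (by rw [← huv, A.det_coe, B.det_coe]) with h | h <;> rw [← huv] at h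
  · rwa [show A = B from Subtype.ext h]
  · rw [show A = B⁻¹ from Subtype.ext h, QuotientGroup.mk_inv]
    exact inv_mem b2

end Cfsg.Agent.Cl.L2
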