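import Mathlib
import Cfsg.Agent.Cl.QuadExtra
import Cfsg.Agent.S0289
import Cfsg.Agent.S0290

/-!
# Gauss sums of quadratic forms over `𝔽₂`; symmetric groups on even-weight modules
-/

set_option autoImplicit false

namespace Cfsg.Agent.Cl

open QuadraticMap Module

/-- The integral sign character of `𝔽₂`. -/
def quad_sg (t : ZMod 2) : ℤ := if t = 0 then 1 else -1

theorem quad_sg_add (s t : ZMod 2) : quad_sg (s + t) = quad_sg s * quad_sg t := by
  revert s t; decide

theorem quad_sg_injective : Function.Injective quad_sg := by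
  intro s t; revert s t; decide

@[simp] theorem quad_sg_zero : quad_sg 0 = 1 := rfl

@[simp] theorem quad_sg_one : quad_sg 1 = -1 := rfl

theorem quad_sg_sum {ι : Type*} (s : Finset ι) (f : ι → ZMod 2) :
    quad_sg (∑ i ∈ s, f i) = ∏ i ∈ s, quad_sg (f i) := by
  classical
  induction s using Finset.induction_on with
  | empty => simp
  | insert a s ha ih => rw [Finset.sum_insert ha, Finset.prod_insert ha, quad_sg_add, ih]

section Gauss

variable {U U' : Type*} [Fintype U] [Fintype U']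

/-- The Gauss sum of a function to `𝔽₂`. -/
def quad_gauss (q : U → ZMod 2) : ℤ := ∑ u, quad_sg (q u)

theorem quad_gauss_congr {q : U → ZMod 2} {q' : U' → ZMod 2} (e : U ≃ U')
    (h : ∀ u, q' (e u) = q u) : quad_gauss q = quad_gauss q' :=
  Fintype.sum_equiv e _ _ fun u => by rw [h]

theorem quad_gauss_eq (q : U → ZMod 2) :
    quad_gauss q = 2 * (Nat.card {u // q u = 0} : ℤ) - Fintype.card U := by
  classical
  have h : ∀ u, quad_sg (q u) = 2 * (if q u = 0 then 1 else 0) - 1 := fun u => by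
    unfold quad_sg; split_ifs <;> rfl
  simp only [quad_gauss, h, Finset.sum_sub_distrib, ← Finset.mul_sum, Finset.sum_boole]
  simp [Fintype.card_subtype]

theorem quad_gauss_plus {m : ℕ} (hm : 1 ≤ m) : quad_gauss (quadFormPlus m (ZMod 2)) = 2 ^ m := by
  rw [quad_gauss_eq, S0289.result (ZMod.card 2) m hm]
  obtain ⟨k, rfl⟩ := Nat.exists_eq_add_of_le' hm
  have h1 : 2 ^ k ≤ 2 ^ (2 * (k + 1) - 1) + 2 ^ (k + 1) :=
    le_add_left (Nat.pow_le_pow_right (by norm_num) (by omega))
  rw [Nat.add_sub_cancel, Nat.cast_sub h1, show 2 * (k + 1) - 1 = 2 * k + 1 by omega]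
  simp only [Fintype.card_pi, ZMod.card, Finset.prod_const, Finset.card_univ, Fintype.card_sum,
    Fintype.card_fin]
  push_cast
  ring

theorem quad_gauss_minus {m : ℕ} (hm : 1 ≤ m) :
    quad_gauss (quadFormMinus (m - 1) (ZMod 2) 1 1) = -2 ^ m := by
  rw [quad_gauss_eq, S0290.result (ZMod.card 2) m hm 1 1 (by decide)]
  obtain ⟨k, rfl⟩ := Nat.exists_eq_add_of_le' hm
  have h1 : 2 ^ (k + 1) ≤ 2 ^ (2 * (k + 1) - 1) + 2 ^ k :=
    le_add_right (Nat.pow_le_pow_right (by norm_num) (by omega))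
  rw [Nat.add_sub_cancel, Nat.cast_sub h1, show 2 * (k + 1) - 1 = 2 * k + 1 by omega]
  simp only [Fintype.card_pi, ZMod.card, Finset.prod_const, Finset.card_univ, Fintype.card_sum,
    Fintype.card_fin]
  push_cast
  ring

variable [AddCommGroup U] [Module (ZMod 2) U] {q : QuadraticForm (ZMod 2) U}

theorem quad_gauss_cases (hq : (polarBilin q).Nondegenerate) {m : ℕ} (hm : 1 ≤ m)
    (hU : finrank (ZMod 2) U = 2 * m) :
    (quad_gauss q = 2 ^ m ∧ ∃ g : U ≃ₗ[ZMod 2] (Fin m ⊕ Fin m → ZMod 2),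
      ∀ v, quadFormPlus m (ZMod 2) (g v) = q v) ∨
    (quad_gauss q = -2 ^ m ∧ ∃ g : U ≃ₗ[ZMod 2] ((Fin (m - 1) ⊕ Fin (m - 1)) ⊕ Fin 2 → ZMod 2),
      ∀ v, quadFormMinus (m - 1) (ZMod 2) 1 1 (g v) = q v) := by
  rcases quad_classify_even hq hU with ⟨g, hg⟩ | ⟨-, h⟩
  · exact .inl ⟨(quad_gauss_congr g.toEquiv hg).trans (quad_gauss_plus hm), g, hg⟩
  · obtain ⟨g, hg⟩ := h 1 1 (by decide)
    exact .inr ⟨(quad_gauss_congr g.toEquiv hg).trans (quad_gauss_minus hm), g, hg⟩

theorem quad_plus_of_gauss_pos (hq : (polarBilin q).Nondegenerate) {m : ℕ} (hm : 1 ≤ m)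
    (hU : finrank (ZMod 2) U = 2 * m) (h : 0 < quad_gauss q) :
    ∃ g : U ≃ₗ[ZMod 2] (Fin m ⊕ Fin m → ZMod 2), ∀ v, quadFormPlus m (ZMod 2) (g v) = q v := by
  rcases quad_gauss_cases hq hm hU with h' | h'
  · exact h'.2
  · have : (0 : ℤ) < 2 ^ m := by positivity
    omega

theorem quad_minus_of_gauss_neg (hq : (polarBilin q).Nondegenerate) {m : ℕ} (hm : 1 ≤ m)
    (hU : finrank (ZMod 2) U = 2 * m) (h : quad_gauss q < 0) :
    ∃ g : U ≃ₗ[ZMod 2] ((Fin (m - 1) ⊕ Fin (m - 1)) ⊕ Fin 2 → ZMod 2),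
      ∀ v, quadFormMinus (m - 1) (ZMod 2) 1 1 (g v) = q v := by
  rcases quad_gauss_cases hq hm hU with h' | h'
  · have : (0 : ℤ) < 2 ^ m := by positivity
    omega
  · exact h'.2

theorem quad_gauss_add_polar (q : QuadraticForm (ZMod 2) U) (w : U) :
    quad_gauss (fun v => q v + polar q v w) = quad_sg (q w) * quad_gauss q := by
  rw [quad_gauss, quad_gauss, Finset.mul_sum]
  refine Fintype.sum_equiv (Equiv.addRight w) _ _ fun v => ?_
  rw [← quad_sg_add, Equiv.coe_addRight, quad_add]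
  congr 1
  have h2 : (2 : ZMod 2) = 0 := rfl
  linear_combination (-q w) * h2

end Gauss

/-- An action by isometries descends along a surjective isometric map. -/
theorem quad_exists_hom_of_quot {F X V G : Type*} [Field F] [AddCommGroup X] [Module F X]
    [AddCommGroup V] [Module F V] [Group G] {qX : QuadraticForm F X} {qV : QuadraticForm F V}
    (ρ : G →* OG qX) (π : X →ₗ[F] V) (hπ : Function.Surjective π) (hq : ∀ x, qV (π x) = qX x)
    (hk : ∀ g x, π x = 0 → π ((ρ g).1 x) = 0) :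
    ∃ ρ' : G →* OG qV, ∀ g x, (ρ' g).1 (π x) = π ((ρ g).1 x) := by
  obtain ⟨s, hs⟩ := π.exists_rightInverse_of_surjective (LinearMap.range_eq_top.2 hπ)
  have hs' : ∀ v, π (s v) = v := LinearMap.congr_fun hs
  let r : G → V →ₗ[F] V := fun g => π ∘ₗ ((ρ g).1 : X →ₗ[F] X) ∘ₗ s
  have hr : ∀ g x, r g (π x) = π ((ρ g).1 x) := fun g x => by
    have := hk g (s (π x) - x) (by rw [map_sub, hs', sub_self])
    rwa [map_sub, map_sub, sub_eq_zero] at this
  have hmul : ∀ g h v, r g (r h v) = r (g * h) v := fun g h v => by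
    obtain ⟨x, rfl⟩ := hπ v
    rw [hr, hr, hr, map_mul, OG.mul_app]
  have hone : ∀ v, r 1 v = v := fun v => by
    obtain ⟨x, rfl⟩ := hπ v
    rw [hr, map_one]; rfl
  refine ⟨MonoidHom.mk' (fun g => OG.ofLinear (r g) (r g⁻¹) (fun v => by
    rw [hmul, mul_inv_cancel, hone]) (fun v => by rw [hmul, inv_mul_cancel, hone]) fun v => ?_)
    fun g h => OG.ext fun v => (hmul g h v).symm, hr⟩
  obtain ⟨x, rfl⟩ := hπ v
  rw [hr, hq, hq, OG.map_app]

section Even

variable (ι : Type*) [Fintype ι]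

/-- The even-weight vectors. -/
def quad_even : Submodule (ZMod 2) (ι → ZMod 2) :=
  LinearMap.ker (∑ i : ι, LinearMap.proj (R := ZMod 2) (φ := fun _ => ZMod 2) i)

variable {ι}

theorem quad_mem_even {x : ι → ZMod 2} : x ∈ quad_even ι ↔ ∑ i, x i = 0 := by
  simp [quad_even]

theorem quad_finrank_even [Nonempty ι] : finrank (ZMod 2) (quad_even ι) + 1 = Fintype.card ι := by
  classical
  have h := LinearMap.finrank_range_add_finrank_ker
    (∑ i : ι, LinearMap.proj (R := ZMod 2) (φ := fun _ => ZMod 2) i)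
  obtain ⟨i⟩ := ‹Nonempty ι›
  rw [LinearMap.range_eq_top.2 fun t => ⟨Pi.single i t, by simp⟩, finrank_top, finrank_self,
    Module.finrank_fintype_fun_eq_card] at h
  rw [add_comm]; exact h

/-- `i ^ a` for `a ∈ {0, 1}`. -/
def quad_eps (a : ZMod 2) : GaussianInt := if a = 0 then 1 else ⟨0, 1⟩

/-- `i ^ (weight of x)`. -/
def quad_iw (x : ι → ZMod 2) : GaussianInt := ∏ i, quad_eps (x i)

theorem quad_iw_add (x y : ι → ZMod 2) :
    quad_iw (x + y) = quad_iw x * quad_iw y * quad_sg (x ⬝ᵥ y) := by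
  have h : ∀ a b : ZMod 2, quad_eps (a + b) = quad_eps a * quad_eps b * quad_sg (a * b) := by decide
  simp only [quad_iw, Pi.add_apply, h, Finset.prod_mul_distrib, dotProduct, quad_sg_sum]
  push_cast
  rfl

theorem quad_iw_mul_self (x : ι → ZMod 2) : quad_iw x * quad_iw x = quad_sg (∑ i, x i) := by
  have h : ∀ a : ZMod 2, quad_eps a * quad_eps a = quad_sg a := by decide
  simp only [quad_iw, ← Finset.prod_mul_distrib, h, quad_sg_sum]
  push_cast
  rfl

theorem quad_iw_zero : quad_iw (0 : ι → ZMod 2) = 1 := by simp [quad_iw, quad_eps]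

theorem quad_exists_iw_eq (x : quad_even ι) : ∃ t, quad_iw x.1 = quad_sg t := by
  have h := quad_iw_mul_self x.1
  rw [quad_mem_even.1 x.2] at h
  rcases mul_self_eq_one_iff.1 h with h | h
  · exact ⟨0, h⟩
  · exact ⟨1, h⟩

theorem quad_sg_cast_injective {s t : ZMod 2} (h : (quad_sg s : GaussianInt) = quad_sg t) :
    s = t := quad_sg_injective (Int.cast_injective h)

/-- Half the weight, modulo two. -/
noncomputable def quad_hw (x : quad_even ι) : ZMod 2 := (quad_exists_iw_eq x).choose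

theorem quad_sg_hw (x : quad_even ι) : (quad_sg (quad_hw x) : GaussianInt) = quad_iw x.1 :=
  (quad_exists_iw_eq x).choose_spec.symm

theorem quad_hw_add (x y : quad_even ι) : quad_hw (x + y) = quad_hw x + quad_hw y + x.1 ⬝ᵥ y.1 :=
  quad_sg_cast_injective (by
    rw [quad_sg_add, quad_sg_add, Int.cast_mul, Int.cast_mul, quad_sg_hw, quad_sg_hw, quad_sg_hw,
      Submodule.coe_add, quad_iw_add])

theorem quad_hw_zero : quad_hw (0 : quad_even ι) = 0 :=
  quad_sg_cast_injective (by rw [quad_sg_hw]; exact quad_iw_zero)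

theorem quad_polar_hw (x y : quad_even ι) : polar quad_hw x y = x.1 ⬝ᵥ y.1 := by
  rw [polar, quad_hw_add]; ring

variable (ι) in
/-- The quadratic form "half the weight modulo two" on the even-weight vectors. -/
noncomputable def quad_evenForm : QuadraticForm (ZMod 2) (quad_even ι) :=
  QuadraticMap.ofPolar quad_hw
    (fun c u => by rcases quad_zmod2_cases c with rfl | rfl <;> simp [quad_hw_zero])
    (fun u v w => by simp [quad_polar_hw])
    (fun c u v => by simp [quad_polar_hw])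

theorem quad_evenForm_eq_iff {κ : Type*} [Fintype κ] {x : quad_even ι} {y : quad_even κ} :
    quad_evenForm ι x = quad_evenForm κ y ↔ quad_iw x.1 = quad_iw y.1 := by
  rw [← quad_sg_hw, ← quad_sg_hw]
  exact ⟨fun h => congrArg (fun t => (quad_sg t : GaussianInt)) h, quad_sg_cast_injective⟩

theorem quad_polar_evenForm (x y : quad_even ι) : polar (quad_evenForm ι) x y = x.1 ⬝ᵥ y.1 :=
  quad_polar_hw x y

theorem quad_single_add_single_mem [DecidableEq ι] (i j : ι) :
    (Pi.single i 1 + Pi.single j 1 : ι → ZMod 2) ∈ quad_even ι := by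
  rw [quad_mem_even]
  simp only [Pi.add_apply, Finset.sum_add_distrib, Finset.sum_pi_single', Finset.mem_univ, if_true]
  rfl

theorem quad_evenForm_nondeg (h : Odd (Fintype.card ι)) :
    (polarBilin (quad_evenForm ι)).Nondegenerate := by
  classical
  refine (quad_nondeg_iff _).2 fun x hx => Subtype.ext (funext fun i => ?_)
  have h1 : ∀ j, x.1 j = x.1 i := fun j => by
    have := hx ⟨_, quad_single_add_single_mem i j⟩
    simp only [quad_polar_evenForm, dotProduct_add, dotProduct_single, mul_one] at this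
    rw [← quad_zmod2_sub, sub_eq_zero] at this
    exact this.symm
  have h2 := quad_mem_even.1 x.2
  simp only [h1, Finset.sum_const, Finset.card_univ, nsmul_eq_mul] at h2
  rwa [(ZMod.natCast_eq_one_iff_odd).2 h, one_mul] at h2

theorem quad_gauss_evenForm [DecidableEq ι] [Fintype (quad_even ι)] :
    quad_gauss (quad_evenForm ι) = ((1 + ⟨0, 1⟩ : GaussianInt) ^ Fintype.card ι).re := by
  classical
  have h1 : ∑ x : ι → ZMod 2, quad_iw x = (1 + ⟨0, 1⟩ : GaussianInt) ^ Fintype.card ι := by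
    have := Finset.prod_univ_sum (fun _ : ι => (Finset.univ : Finset (ZMod 2)))
      (fun _ a => quad_eps a)
    rw [Fintype.piFinset_univ] at this
    refine this.symm.trans ?_
    rw [Finset.prod_const, Finset.card_univ]
    rfl
  let re : GaussianInt →+ ℤ := AddMonoidHom.mk' (fun z => z.re) fun _ _ => rfl
  change _ = re _
  rw [← h1, map_sum, ← Finset.sum_filter_add_sum_filter_not _ (· ∈ quad_even ι),
    Finset.sum_eq_zero (s := Finset.filter (fun x => ¬ x ∈ quad_even ι) _), add_zero,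
    Finset.sum_subtype (p := (· ∈ quad_even ι)) _ (by simp)]
  · refine Finset.sum_congr rfl fun x _ => ?_
    rw [← quad_sg_hw]; rfl
  · intro x hx
    have h2 := quad_iw_mul_self x
    rw [(quad_zmod2_cases (∑ i, x i)).resolve_left (by simpa [quad_mem_even] using hx)] at h2
    have h3 : (quad_iw x - ⟨0, 1⟩) * (quad_iw x + ⟨0, 1⟩) = 0 := by
      have : (⟨0, 1⟩ * ⟨0, 1⟩ : GaussianInt) = quad_sg 1 := by decide
      linear_combination h2 - this
    rcases mul_eq_zero.1 h3 with h | h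
    · rw [sub_eq_zero.1 h]; rfl
    · rw [eq_neg_of_add_eq_zero_left h]; rfl

variable (ι) in
/-- The action of the symmetric group on the even-weight vectors. -/
noncomputable def quad_evenPerm : Equiv.Perm ι →* OG (quad_evenForm ι) :=
  have hmem : ∀ (σ : Equiv.Perm ι) (x : quad_even ι), x.1 ∘ σ.symm ∈ quad_even ι := fun σ x => by
    rw [quad_mem_even, ← quad_mem_even.1 x.2]
    exact Equiv.sum_comp σ.symm x.1
  let r : Equiv.Perm ι → quad_even ι →ₗ[ZMod 2] quad_even ι := fun σ =>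
    { toFun := fun x => ⟨_, hmem σ x⟩, map_add' := fun _ _ => rfl, map_smul' := fun _ _ => rfl }
  MonoidHom.mk' (fun σ => OG.ofLinear (r σ) (r σ⁻¹)
    (fun x => Subtype.ext (funext fun i => congrArg x.1 (σ.apply_symm_apply i)))
    (fun x => Subtype.ext (funext fun i => congrArg x.1 (σ.symm_apply_apply i)))
    fun x => quad_evenForm_eq_iff.2 (Equiv.prod_comp σ.symm fun i => quad_eps (x.1 i)))
    fun _ _ => rfl

theorem quad_evenPerm_app (σ : Equiv.Perm ι) (x : quad_even ι) (i : ι) :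
    ((quad_evenPerm ι σ).1 x).1 i = x.1 (σ.symm i) := rfl

theorem quad_perm_eq_one (h5 : 5 ≤ Fintype.card ι) {σ : Equiv.Perm ι}
    (h : ∀ x : quad_even ι, ∃ c, ∀ i, x.1 (σ.symm i) = x.1 i + c) : σ = 1 := by
  classical
  have hex : ∀ s : Finset ι, s.card ≤ 4 → ∃ j, j ∉ s := fun s hs => by
    by_contra! H
    rw [Finset.eq_univ_of_forall H, Finset.card_univ] at hs
    omega
  ext a
  by_contra hb
  obtain ⟨j, hj⟩ := hex {a, σ a} (Finset.card_le_two.trans (by norm_num))
  obtain ⟨t, ht⟩ := hex {a, j, σ a, σ j} Finset.card_le_four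
  obtain ⟨c, hc⟩ := h ⟨_, quad_single_add_single_mem a j⟩
  simp only [Finset.mem_insert, Finset.mem_singleton, not_or] at hj ht
  have h1 := hc t
  have h2 := hc (σ a)
  simp [Equiv.symm_apply_eq, ht] at h1
  have hb' : σ a ≠ a := hb
  simp [hb', Ne.symm hj.1, Ne.symm hj.2, ← h1] at h2

theorem quad_evenPerm_injective (h5 : 5 ≤ Fintype.card ι) :
    Function.Injective (quad_evenPerm ι) :=
  (injective_iff_map_eq_one _).2 fun σ h => quad_perm_eq_one h5 fun x => ⟨0, fun i => by
    rw [← quad_evenPerm_app, h, add_zero]; rfl⟩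

/-- `Sym(n+1)` acts on the even-weight vectors of length `n` when `n ≡ 3 (mod 4)`. -/
theorem quad_exists_perm_succ {n : ℕ} (hn : n % 4 = 3) (h4 : 4 ≤ n) :
    ∃ ρ : Equiv.Perm (Fin (n + 1)) →* OG (quad_evenForm (Fin n)), Function.Injective ρ := by
  have hodd : ((n : ℕ) : ZMod 2) = 1 := (ZMod.natCast_eq_one_iff_odd).2 (Nat.odd_iff.2 (by omega))
  let π : quad_even (Fin (n + 1)) →ₗ[ZMod 2] quad_even (Fin n) :=
    { toFun := fun x => ⟨fun i => x.1 i.succ + x.1 0, by
        rw [quad_mem_even, ← quad_mem_even.1 x.2, Fin.sum_univ_succ, Finset.sum_add_distrib,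
          add_comm]
        simp [hodd]⟩
      map_add' := fun x y => Subtype.ext (funext fun i => by simp; abel)
      map_smul' := fun c x => Subtype.ext (funext fun i => by simp [mul_add]) }
  have hπ : ∀ x i, (π x).1 i = x.1 i.succ + x.1 0 := fun _ _ => rfl
  have hker : ∀ x, π x = 0 ↔ ∀ i, x.1 i = x.1 0 := fun x => by
    rw [Subtype.ext_iff, funext_iff, Fin.forall_fin_succ]
    simp only [hπ, ← quad_zmod2_sub, true_and]
    exact forall_congr' fun i => sub_eq_zero
  have hq : ∀ x, quad_evenForm (Fin n) (π x) = quad_evenForm (Fin (n + 1)) x := fun x => by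
    rw [quad_evenForm_eq_iff]
    have h1 : quad_iw (π x).1 = quad_iw (x.1 + fun _ => x.1 0) := by
      rw [quad_iw, quad_iw, Fin.prod_univ_succ]
      simp [hπ, quad_zmod2_add_self, quad_eps]
    have h2 : x.1 ⬝ᵥ (fun _ => x.1 0) = 0 := by
      rw [dotProduct, ← Finset.sum_mul, quad_mem_even.1 x.2, zero_mul]
    have h3 : ∀ c : ZMod 2, quad_iw (fun _ : Fin (n + 1) => c) = 1 := fun c => by
      obtain ⟨k, hk⟩ : ∃ k, n + 1 = 4 * k := ⟨(n + 1) / 4, by omega⟩
      rw [quad_iw, Finset.prod_const, Finset.card_univ, Fintype.card_fin, hk, pow_mul,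
        show quad_eps c ^ 4 = 1 by revert c; decide, one_pow]
    rw [h1, quad_iw_add, h2, h3]
    simp
  obtain ⟨ρ, hρ⟩ := quad_exists_hom_of_quot (qV := quad_evenForm (Fin n))
    (quad_evenPerm (Fin (n + 1))) π (fun y => ⟨⟨Fin.cons 0 y.1, by
      rw [quad_mem_even, Fin.sum_univ_succ]; simpa using quad_mem_even.1 y.2⟩,
      Subtype.ext (funext fun i => by simp [hπ])⟩) hq (fun g x hx => by
    rw [hker] at hx ⊢
    intro i
    rw [quad_evenPerm_app, quad_evenPerm_app, hx, hx (g.symm 0)])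
  refine ⟨ρ, (injective_iff_map_eq_one _).2 fun σ h => quad_perm_eq_one (by simpa) fun x => ?_⟩
  have h1 := hρ σ x
  rw [h] at h1
  have h2 := (hker ((quad_evenPerm _ σ).1 x - x)).1 (by rw [map_sub, ← h1]; exact sub_self _)
  refine ⟨((quad_evenPerm _ σ).1 x - x).1 0, fun i => ?_⟩
  rw [← quad_evenPerm_app, ← sub_eq_iff_eq_add']
  exact h2 i

theorem quad_re_one_add_pow (k r : ℕ) : ((1 + ⟨0, 1⟩ : GaussianInt) ^ (4 * k + r)).re =
    (-4) ^ k * ((1 + ⟨0, 1⟩ : GaussianInt) ^ r).re := by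
  rw [pow_add, pow_mul, show (1 + ⟨0, 1⟩ : GaussianInt) ^ 4 = ((-4 : ℤ) : GaussianInt) by decide,
    ← Int.cast_pow, Zsqrtd.re_mul]
  simp only [Zsqrtd.re_intCast, Zsqrtd.im_intCast, mul_zero, zero_mul, add_zero]

end Even

end Cfsg.Agent.Cl
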