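import Mathlib

/-!
# A regular unipotent isometry with a well placed cyclic vector
-/

set_option autoImplicit false

namespace Cfsg.Agent.Cl.Reg

open Module

variable {F : Type*} [Field F] {σ : F →+* F} {V : Type*} [AddCommGroup V] [Module F V]

/-- The vectors `(u - 1) ^ i u ^ k x`. -/
def D (u : V ≃ₗ[F] V) (x : V) (i : ℕ) (k : ℤ) : V := (((u : End F V) - 1) ^ i) ((u ^ k) x)

variable {u : V ≃ₗ[F] V} {x : V}

theorem D_zero (k : ℤ) : D u x 0 k = (u ^ k) x := rfl

theorem D_zero_zero : D u x 0 0 = x := rfl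

theorem D_succ' (i : ℕ) (k : ℤ) : D u x (i + 1) k = u (D u x i k) - D u x i k := by
  simp [D, pow_succ']

theorem D_succ (i : ℕ) (k : ℤ) : D u x (i + 1) k = D u x i (k + 1) - D u x i k := by
  rw [D, pow_succ, D, D, add_comm k, zpow_add, zpow_one]
  simp

theorem map_D (i : ℕ) (k : ℤ) : u (D u x i k) = D u x i (k + 1) :=
  sub_left_inj.1 ((D_succ' i k).symm.trans (D_succ i k))

theorem zpow_D (i : ℕ) (k j : ℤ) : (u ^ j) (D u x i k) = D u x i (k + j) := by
  induction j using Int.induction_on with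
  | zero => simp
  | succ j ih => rw [add_comm (j : ℤ), zpow_add, zpow_one, LinearEquiv.mul_apply, ih, map_D]; ring_nf
  | pred j ih =>
    apply u.injective
    rw [map_D, ← LinearEquiv.mul_apply, ← zpow_one_add, show 1 + (-(j : ℤ) - 1) = -j by ring, ih]
    ring_nf

/-- The hypotheses on `u` and `x`. -/
structure Ch (B : V →ₗ[F] V →ₛₗ[σ] F) (u : V ≃ₗ[F] V) (x : V) (l m : ℕ) (b b' : F) : Prop where
  iso : ∀ v w, B (u v) (u w) = B v w
  nil : ((u : End F V) - 1) ^ m = 0
  zero : ∀ k : ℤ, -l < k → k < l → B x (D u x 0 k) = 0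
  top : B x (D u x 0 l) = b
  top' : B x (D u x 0 (-l)) = b'

namespace Ch

variable {B : V →ₗ[F] V →ₛₗ[σ] F} {l m : ℕ} {b b' : F} (h : Ch B u x l m b b')
include h

theorem iso_zpow (j : ℤ) (v w : V) : B ((u ^ j) v) ((u ^ j) w) = B v w := by
  induction j using Int.induction_on generalizing v w with
  | zero => simp
  | succ j ih => rw [zpow_add, zpow_one, LinearEquiv.mul_apply, LinearEquiv.mul_apply, ih, h.iso]
  | pred j ih =>
    rw [← h.iso, ← LinearEquiv.mul_apply, ← LinearEquiv.mul_apply, ← zpow_one_add,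
      show 1 + (-(j : ℤ) - 1) = -j by ring, ih]

theorem pair (i : ℕ) (j : ℤ) (i' : ℕ) (k : ℤ) :
    B (D u x i j) (D u x i' k) = (-1) ^ i * B x (D u x (i + i') (k - j - i)) := by
  induction i generalizing j i' k with
  | zero =>
    rw [← h.iso_zpow (-j), zpow_D, zpow_D]
    simp [D_zero_zero, sub_eq_add_neg]
  | succ i ih =>
    rw [D_succ, map_sub, LinearMap.sub_apply, ih, ih, show i + 1 + i' = i + i' + 1 by ring, D_succ,
      map_sub]
    push_cast
    ring_nf

theorem D_eq_zero {i : ℕ} (hi : m ≤ i) (k : ℤ) : D u x i k = 0 := by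
  obtain ⟨i, rfl⟩ := Nat.exists_eq_add_of_le hi
  rw [D, pow_add, h.nil, zero_mul, LinearMap.zero_apply]

theorem psi_zero {i : ℕ} {k : ℤ} (h1 : -l < k) (h2 : k + i < l) : B x (D u x i k) = 0 := by
  induction i generalizing k with
  | zero => exact h.zero k h1 (by simpa using h2)
  | succ i ih => rw [D_succ, map_sub, ih, ih, sub_zero] <;> omega

theorem psi_top {i : ℕ} {k : ℤ} (h1 : -l < k) (h2 : k + i = l) : B x (D u x i k) = b := by
  induction i generalizing k with
  | zero => rw [show k = l by omega, h.top]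
  | succ i ih => rw [D_succ, map_sub, ih, h.psi_zero, sub_zero] <;> omega

theorem psi_bot {i : ℕ} {k : ℤ} (h1 : k = -l) (h2 : i < 2 * l) :
    B x (D u x i k) = (-1) ^ i * b' := by
  subst h1
  induction i with
  | zero => rw [h.top', pow_zero, one_mul]
  | succ i ih => rw [D_succ, map_sub, ih (by omega), h.psi_zero (by omega) (by omega)]; ring

theorem psi_both (hl : 1 ≤ l) {i : ℕ} {k : ℤ} (h1 : k = -l) (h2 : i = 2 * l) :
    B x (D u x i k) = b + b' := by
  obtain ⟨j, rfl⟩ : ∃ j, i = j + 1 := ⟨i - 1, by omega⟩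
  rw [D_succ, map_sub, h.psi_top (by omega) (by omega), h.psi_bot h1 (by omega),
    Odd.neg_one_pow ⟨l - 1, by omega⟩]
  ring

theorem map_last {i : ℕ} (hi : m = i + 1) (k : ℤ) : u (D u x i k) = D u x i k :=
  sub_eq_zero.1 ((D_succ' i k).symm.trans (h.D_eq_zero hi.le k))

theorem D_last {i : ℕ} (hi : m = i + 1) (k : ℤ) : D u x i k = D u x i 0 := by
  induction k using Int.induction_on with
  | zero => rfl
  | succ k ih => rw [← map_D, h.map_last hi, ih]
  | pred k ih => rw [← h.map_last hi, map_D, sub_add_cancel, ih]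

theorem pair_zero {i i' : ℕ} (hi : m ≤ i + i') (j k : ℤ) : B (D u x i j) (D u x i' k) = 0 := by
  rw [h.pair, h.D_eq_zero hi, map_zero, mul_zero]

theorem mem_of_perp [FiniteDimensional F V] {i : ℕ} (hi : m = i + 1) (hm : finrank F V = m)
    (he : B x (D u x i 0) ≠ 0) {S : Submodule F V} (h1 : D u x 1 0 ∈ S) (h2 : ∀ v ∈ S, u v ∈ S)
    {z : V} (hz : B z (D u x i 0) = 0) : z ∈ S := by
  have h3 : LinearIndependent F fun j : Fin m => D u x j 0 := by
    refine Fintype.linearIndependent_iff.2 fun g hg j => ?_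
    induction hj : j.1 using Nat.strong_induction_on generalizing j with
    | _ n ih =>
    have h4 := congrArg (fun v => B x ((((u : End F V) - 1) ^ (i - n)) v)) hg
    simp only [map_sum, map_smul, map_zero] at h4
    rw [Finset.sum_eq_single j] at h4
    · rw [D, ← Module.End.mul_apply, ← pow_add, show i - n + j = i by have := j.2; omega] at h4
      simpa [show B x ((((u : End F V) - 1) ^ i) x) ≠ 0 from he] using h4
    · intro k _ hk
      rcases lt_or_gt_of_ne (Fin.val_ne_of_ne hk) with hk | hk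
      · rw [ih k (by omega) k rfl]; simp
      · rw [D, ← Module.End.mul_apply, ← pow_add]
        rw [show (((u : End F V) - 1) ^ (i - n + k)) ((u ^ (0 : ℤ)) x) = 0 from
          h.D_eq_zero (by have := j.2; omega) 0]
        simp
    · simp
  have h4 : ∀ j, D u x (j + 1) 0 ∈ S := fun j => by
    induction j with
    | zero => exact h1
    | succ j ih => rw [D_succ']; exact S.sub_mem (h2 _ ih) ih
  have : Nonempty (Fin m) := ⟨⟨0, by omega⟩⟩
  obtain ⟨c, rfl⟩ := (Submodule.mem_span_range_iff_exists_fun F).1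
    ((h3.span_eq_top_of_card_eq_finrank (by simp [hm])).ge (Submodule.mem_top (x := z)))
  refine S.sum_mem fun j _ => ?_
  rcases j with ⟨_ | j, hj⟩
  · rw [map_sum, LinearMap.sum_apply, Finset.sum_eq_single ⟨0, hj⟩] at hz
    · rw [show c ⟨0, hj⟩ = 0 by simpa [D_zero_zero, he] using hz, zero_smul]
      exact S.zero_mem
    · rintro ⟨_ | k, hk⟩ _ hk'
      · exact absurd rfl hk'
      · simp [h.pair_zero (i := k + 1) (i' := i) (by omega)]
    · simp
  · exact S.smul_mem _ (h4 j)

omit h in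
theorem pow_ne {i : ℕ} (he : B x (D u x i 0) ≠ 0) : ((u : End F V) - 1) ^ i ≠ 0 := fun e =>
  he (by rw [D, e, LinearMap.zero_apply, map_zero])

end Ch

theorem Ch.step {B : V →ₗ[F] V →ₛₗ[σ] F} {W : Submodule F V} {B' : W →ₗ[F] W →ₛₗ[σ] F}
    (hB : ∀ v w : W, B' v w = B v w) {u' : W ≃ₗ[F] W} {x' : W} {l m : ℕ} {b b' : F}
    (h : Ch B' u' x' l m b b') (hl : 1 ≤ l) (hu : ∀ v w, B (u v) (u w) = B v w) {e f : V}
    (he : u e = e) (hf : u f = f + x') (hw : ∀ w : W, ∃ c : F, u w = u' w + c • e)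
    (hV : ∀ v, ∃ (a c : F) (w : W), v = a • e + c • f + w) (ee : B e e = 0) (ff : B f f = 0)
    (ew : ∀ w : W, B e w = 0) (we : ∀ w : W, B w e = 0) (fw : ∀ w : W, B f w = 0)
    (wf : ∀ w : W, B w f = 0) : Ch B u f (l + 1) (m + 2) (-b) (-b') := by
  have h1 : ∀ k : ℕ, ∀ w : W, ∃ c : F, (((u : End F V) - 1) ^ k) w =
      (((u' : End F W) - 1) ^ k) w + c • e := fun k w => by
    induction k with
    | zero => exact ⟨0, by simp⟩
    | succ k ih =>
      obtain ⟨c, hc⟩ := ih
      obtain ⟨d, hd⟩ := hw ((((u' : End F W) - 1) ^ k) w)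
      refine ⟨d, ?_⟩
      simp only [pow_succ', Module.End.mul_apply, hc, map_add, map_smul, LinearMap.sub_apply,
        LinearEquiv.coe_coe, hd, he, Module.End.one_apply, Submodule.coe_sub]
      module
  have h2 : ∀ k : ℕ, (((u : End F V) - 1) ^ (k + 1)) e = 0 := fun k => by simp [pow_succ, he]
  have h3 : ∀ w : W, (((u : End F V) - 1) ^ (m + 1)) w = 0 := fun w => by
    obtain ⟨c, hc⟩ := h1 m w
    simp [pow_succ', hc, h.nil, he]
  have h4 : ∀ k : ℤ, ∃ c : F, D u f 1 k = D u' x' 0 k + c • e := fun k => by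
    induction k using Int.induction_on with
    | zero => exact ⟨0, by simp [D_succ', D_zero_zero, hf]⟩
    | succ k ih =>
      obtain ⟨c, hc⟩ := ih
      obtain ⟨d, hd⟩ := hw (D u' x' 0 k)
      exact ⟨d + c, by rw [← map_D, hc, map_add, hd, map_smul, he, map_D]; module⟩
    | pred k ih =>
      obtain ⟨c, hc⟩ := ih
      obtain ⟨d, hd⟩ := hw (D u' x' 0 (-k - 1))
      refine ⟨c - d, u.injective ?_⟩
      rw [map_D, map_add, hd, map_smul, he, map_D, sub_add_cancel, hc]
      module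
  have h0 : Ch B u f 0 (m + 2) 0 0 := ⟨hu, LinearMap.ext fun v => by
    obtain ⟨a, c, w, rfl⟩ := hV v
    have h5 : (((u : End F V) - 1) ^ (m + 2)) w = 0 := by
      rw [pow_succ', Module.End.mul_apply, h3, map_zero]
    rw [map_add, map_add, map_smul, map_smul, h2, h5, pow_succ _ (m + 1), Module.End.mul_apply]
    simp [hf, h3], fun k h1 h2 => by omega, ff, ff⟩
  have h5 : ∀ k : ℤ, B f (D u f 0 (k + 1)) - 2 * B f (D u f 0 k) + B f (D u f 0 (k - 1)) =
      -B' x' (D u' x' 0 k) := fun k => by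
    have := h0.pair 1 0 1 k
    obtain ⟨c, hc⟩ := h4 0
    obtain ⟨d, hd⟩ := h4 k
    rw [hc, hd, D_succ, D_succ, D_succ] at this
    simp only [map_add, map_smul, LinearMap.add_apply, LinearMap.smul_apply, ee, ew, we,
      LinearMap.map_smulₛₗ, D_zero_zero, map_sub, ← hB] at this
    ring_nf at this ⊢
    linear_combination this
  have h6 : B f (D u f 0 1) = 0 := by simp [D_zero, hf, ff, fw]
  have h7 : B f (D u f 0 (-1)) = 0 := by
    rw [← hu, map_D, hf]; simp [D_zero_zero, ff, wf]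
  have h8 : ∀ k : ℕ, k < l → (B f (D u f 0 k) = 0 ∧ B f (D u f 0 (k + 1)) = 0) ∧
      B f (D u f 0 (-k)) = 0 ∧ B f (D u f 0 (-k - 1)) = 0 := fun k hk => by
    induction k with
    | zero => exact ⟨⟨ff, h6⟩, ff, h7⟩
    | succ k ih =>
      obtain ⟨⟨e1, e2⟩, e3, e4⟩ := ih (by omega)
      have e5 := h5 (k + 1)
      have e6 := h5 (-k - 1)
      rw [h.zero _ (by omega) (by omega)] at e5 e6
      rw [add_sub_cancel_right, e1, e2] at e5
      rw [sub_add_cancel, e3, e4] at e6
      push_cast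
      rw [neg_add', e2, e4]
      exact ⟨⟨rfl, by linear_combination e5⟩, rfl, by linear_combination e6⟩
  obtain ⟨l, rfl⟩ := Nat.exists_eq_add_of_le' hl
  obtain ⟨⟨e1, e2⟩, e3, e4⟩ := h8 l (by omega)
  refine ⟨hu, h0.nil, fun k h1 h2 => ?_, ?_, ?_⟩
  · obtain ⟨j, rfl | rfl⟩ := k.eq_nat_or_neg
    · by_cases hj : j = l + 1
      · rw [hj]; exact e2
      · exact (h8 j (by omega)).1.1
    · by_cases hj : j = l + 1
      · rw [hj, Nat.cast_succ, neg_add']; exact e4
      · exact (h8 j (by omega)).2.1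
  · have := h5 (l + 1)
    rw [add_sub_cancel_right, e1, e2, ← Nat.cast_succ, h.top] at this
    rw [Nat.cast_succ]
    linear_combination this
  · have := h5 (-l - 1)
    rw [sub_add_cancel, e3, e4, ← neg_add', ← Nat.cast_succ, h.top'] at this
    rw [Nat.cast_succ, neg_add']
    linear_combination this

end Cfsg.Agent.Cl.Reg
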