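import Mathlib
import Cfsg.Agent.Cl.MaxSUCore
import Cfsg.Agent.Cl.UMatrix

/-!
# Generation of `SU₃(q)` by two conjugate regular unipotent elements
-/

set_option autoImplicit false

namespace Cfsg.Agent.Cl.Reg

open Module

section Gen

variable {F : Type*} [Field F] [Finite F]

theorem subring_eq_top (K : Subring F)
    (h : ∀ k m : ℕ, 2 ≤ k → 2 ≤ m → Nat.card F = k ^ m → ∃ x ∈ K, x ^ k ≠ x) : K = ⊤ := by
  have := Fintype.ofFinite F
  let L : Subfield F := ⟨K, fun x hx => by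
    by_cases h0 : x = 0
    · rw [h0, inv_zero]; exact K.zero_mem
    have : x⁻¹ = x ^ (Fintype.card F - 2) := by
      refine inv_eq_of_mul_eq_one_right ?_
      have := Fintype.one_lt_card (α := F)
      rw [← pow_succ', show Fintype.card F - 2 + 1 = Fintype.card F - 1 by omega,
        FiniteField.pow_card_sub_one_eq_one x h0]
    rw [this]
    exact K.pow_mem hx _⟩
  have h1 := Module.natCard_eq_pow_finrank (K := L) (V := F)
  by_cases h2 : finrank L F = 1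
  · rw [h2, pow_one] at h1
    exact SetLike.coe_injective (Set.eq_univ_of_forall fun x =>
      ((Set.eq_of_subset_of_ncard_le (Set.subset_univ (K : Set F))
        (by rw [Set.ncard_univ, h1]; rfl)).ge trivial :))
  obtain ⟨x, hx, h3⟩ := h _ _ Finite.one_lt_card (by have := finrank_pos (R := L) (M := F); omega) h1
  have := Fintype.ofFinite L
  refine absurd (congrArg Subtype.val (FiniteField.pow_card (⟨x, hx⟩ : L))) ?_
  rwa [← Nat.card_eq_fintype_card]

/-- The multipliers of an additive subgroup. -/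
def mults (C : AddSubgroup F) : Subring F where
  carrier := {a | ∀ c ∈ C, a * c ∈ C}
  mul_mem' ha hb c hc := by rw [mul_assoc]; exact ha _ (hb c hc)
  one_mem' c hc := by rwa [one_mul]
  add_mem' ha hb c hc := by rw [add_mul]; exact C.add_mem (ha c hc) (hb c hc)
  zero_mem' c _ := by rw [zero_mul]; exact C.zero_mem
  neg_mem' ha c hc := by rw [neg_mul]; exact C.neg_mem (ha c hc)

theorem mem_of_mults {C : AddSubgroup F} {z : F} (hz : z ∈ C) (h0 : z ≠ 0)
    (h : ∀ k m : ℕ, 2 ≤ k → 2 ≤ m → Nat.card F = k ^ m → ∃ x ∈ mults C, x ^ k ≠ x) (c : F) :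
    c ∈ C := by
  have := (subring_eq_top _ h).ge (Subring.mem_top (c / z)) z hz
  rwa [div_mul_cancel₀ _ h0] at this

omit [Finite F] in
theorem pow_ne_of_orderOf {x : F} {k : ℕ} (hk : 1 ≤ k) (h0 : x ≠ 0) (h : ¬ orderOf x ∣ k - 1) :
    x ^ k ≠ x := fun e => h (orderOf_dvd_of_pow_eq_one (mul_right_cancel₀ h0 (by
  rw [← pow_succ, Nat.sub_add_cancel hk, e, one_mul])))

theorem exists_orderOf_eq {d : ℕ} (h : d ∣ Nat.card F - 1) : ∃ x : F, x ≠ 0 ∧ orderOf x = d := by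
  rw [← Nat.card_units] at h
  obtain ⟨g, hg⟩ := IsCyclic.exists_ofOrder_eq_natCard (α := Fˣ)
  refine ⟨(g ^ (Nat.card Fˣ / d) : Fˣ), Units.ne_zero _, ?_⟩
  rw [orderOf_units, ← hg, orderOf_pow_orderOf_div (by rw [hg]; exact Nat.card_pos.ne') (hg ▸ h)]

/-- A generator of the multiplicative group. -/
theorem exists_gen : ∃ ξ : F, ξ ≠ 0 ∧
    ∀ k m : ℕ, 2 ≤ k → 2 ≤ m → Nat.card F = k ^ m → ξ ^ k ≠ ξ := by
  obtain ⟨ξ, h0, h⟩ := exists_orderOf_eq (F := F) dvd_rfl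
  refine ⟨ξ, h0, fun k m hk hm e => pow_ne_of_orderOf (by omega) h0 fun h1 => ?_⟩
  have h2 := Nat.le_of_dvd (by omega) h1
  have h3 : k ^ 1 < k ^ m := Nat.pow_lt_pow_right (by omega) (by omega)
  rw [pow_one] at h3
  omega

end Gen

variable {F : Type*} [Field F] {σ : F →+* F} {V : Type*} [AddCommGroup V] [Module F V]
  {B : V →ₗ[F] V →ₛₗ[σ] F} {q : ℕ} {M : Subgroup (V ≃ₗ[F] V)}

theorem exists_sub_eq (h : UInvol σ) {d : F} (hd : d + σ d = 0) : ∃ c, σ c - c = d := by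
  obtain ⟨b, hb⟩ := h.exists_trace_one
  refine ⟨-b * d, ?_⟩
  rw [map_mul, map_neg]
  linear_combination d * hb - σ b * hd

/-- The multiples of `w` that occur in Eichler maps of `M`. -/
def coef (hB : IsHerm B) (M : Subgroup (V ≃ₗ[F] V)) {e : V} (he : B e e = 0) (w : V) :
    AddSubgroup F := (uYadd hB M he).comap (LinearMap.toSpanSingleton F V w).toAddMonoidHom

theorem mem_coef {hB : IsHerm B} {e w : V} {he : B e e = 0} {c : F} :
    c ∈ coef hB M he w ↔ c • w ∈ uYadd hB M he := Iff.rfl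

/-- A hyperbolic pair and a unit vector orthogonal to it. -/
structure Fr (B : V →ₗ[F] V →ₛₗ[σ] F) (e f w : V) : Prop where
  ee : B e e = 0
  ff : B f f = 0
  ef : B e f = 1
  fe : B f e = 1
  ww : B w w = 1
  we : B w e = 0
  ew : B e w = 0
  wf : B w f = 0
  fw : B f w = 0

namespace Fr

variable {e f w : V} (h : Fr B e f w)
include h

theorem symm : Fr B f e w := ⟨h.ff, h.ee, h.fe, h.ef, h.ww, h.wf, h.fw, h.we, h.ew⟩

theorem e0 (z : F) : UEich0 B e (z • w) := ⟨h.ee, by simp [h.we], by simp [h.ew]⟩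

theorem ap_e (z s : F) : uEich B e (z • w) s e = e := (h.e0 z).apply_self s

theorem ap_w (z s : F) : uEich B e (z • w) s w = w + σ z • e := by
  rw [(h.e0 z).apply_of_perp s h.we]; simp [h.ww]

theorem ap_f (z s : F) : uEich B e (z • w) s f = f - z • w + s • e := by
  rw [(h.e0 z).apply]; simp [h.fw, h.fe]

theorem mul (z s z' s' : F) : uEich B e (z • w) s * uEich B e (z' • w) s' =
    uEich B e ((z + z') • w) (s + s' - z' * σ z) := by
  rw [(h.e0 z).mul (h.e0 z'), add_smul]; simp [h.ww, mul_comm]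

theorem mem (hB : IsHerm B) {z s : F} (hs : s + σ s + z * σ z = 0) :
    uEich B e (z • w) s ∈ USG B := hB.uEich_mem (h.e0 z) (by simpa [h.ww, mul_comm] using hs)

theorem mem_coef (hB : IsHerm B) {z s : F} (hs : s + σ s + z * σ z = 0)
    (hu : uEich B e (z • w) s ∈ M) : z ∈ coef hB M h.ee w :=
  Reg.mem_coef.2 (hB.mem_uYadd.2 ⟨(h.e0 z).perp, s, by simpa [h.ww, mul_comm] using hs, hu⟩)

theorem mults_of (hB : IsHerm B) (hM : M ≤ UG B) {k : V ≃ₗ[F] V} (hk : k ∈ M) {a κ d d' : F}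
    (ha : a ≠ 0) (h1 : k e = a • e) (h2 : k w = κ • w + d • e + d' • f) :
    σ a * κ ∈ mults (coef hB M h.ee w) := fun c hc => by
  have h3 := UG_map (hM hk) w e
  rw [h1, h2] at h3
  obtain rfl : d' = 0 := by simpa [h.we, h.ee, h.fe, ha] using h3
  have := (uYadd hB M h.ee).sub_mem (hB.uYadd_map hM (Reg.mem_coef.1 hc) hk ha h1)
    (hB.smul_self_mem_uYadd h.ee (σ a * c * d))
  rw [map_smul, h2] at this
  rw [Reg.mem_coef]
  convert this using 1
  module

theorem borel (hB : IsHerm B) (hM : M ≤ UG B) {z s ζ₁ r₁ ζ₂ r₂ a : F}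
    (hu : uEich B e (z • w) s ∈ M) (h1 : uEich B f (ζ₁ • w) r₁ ∈ M)
    (h2 : uEich B f (ζ₂ • w) r₂ ∈ M) (ha : a ≠ 0) (e0 : r₁ + σ r₁ + ζ₁ * σ ζ₁ = 0)
    (e1 : a * σ r₁ = r₂) (e2 : a * ζ₁ = -(ζ₂ + r₂ * z)) (e3 : a = 1 - ζ₂ * σ z + r₂ * s) :
    σ a * (1 - σ ζ₂ * z - ζ₁ * (σ z + σ ζ₂ * s)) ∈ mults (coef hB M h.ee w) := by
  refine h.mults_of hB hM (M.mul_mem h1 (M.mul_mem hu h2)) ha ?_ (d := σ z + σ ζ₂ * s)
    (d' := (1 - σ ζ₂ * z) * σ ζ₁ + (σ z + σ ζ₂ * s) * r₁ + σ ζ₂) ?_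
  · simp only [LinearEquiv.mul_apply, h.symm.ap_f, map_add, map_sub, map_smul, h.ap_e, h.ap_w,
      h.ap_f, h.symm.ap_e, h.symm.ap_w]
    match_scalars
    · linear_combination -e3
    · linear_combination ζ₁ * e3 - e2
    · linear_combination -r₁ * e3 - σ ζ₁ * e2 - e1 + a * e0
  · simp only [LinearEquiv.mul_apply, h.symm.ap_f, map_add, map_sub, map_smul, h.ap_w,
      h.ap_f, h.symm.ap_e, h.symm.ap_w]
    module

theorem exists_conj [Finite F] (hB : IsHerm B) {z s ζ r l : F} (hs : s + σ s + z * σ z = 0)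
    (hr : r + σ r + ζ * σ ζ = 0) (hl : l ≠ 0) (hζ : ζ ≠ 0) (e1 : l * ζ = -σ l ^ 2 * z) :
    ∃ g ∈ USG B, g * uEich B e (z • w) s * g⁻¹ = uEich B f (ζ • w) r := by
  have hl' : σ l ≠ 0 := (map_ne_zero σ).2 hl
  obtain ⟨y, hy⟩ := hB.toUInvol.exists_norm_eq (a := -(l + σ l)) (by
    rw [map_neg, hB.trace_fixed])
  have h1 : uEich B e ((-y / l) • w) (σ l)⁻¹ * uEich B f (y • w) l ∈ USG B :=
    (USG B).mul_mem (h.mem hB (by
      rw [map_inv₀, hB.invol, map_div₀, map_neg]; field_simp; linear_combination hy))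
      (h.symm.mem hB (by linear_combination hy))
  set g := uEich B e ((-y / l) • w) (σ l)⁻¹ * uEich B f (y • w) l with hg
  have h2 : g e = l • f := by
    simp only [hg, LinearEquiv.mul_apply, h.symm.ap_f, map_add, map_sub, map_smul, h.ap_e, h.ap_w,
      h.ap_f, map_div₀, map_neg]
    match_scalars <;> field_simp
    · linear_combination hy
    · ring
  have h3 : g w = (-σ l / l) • w + σ y • f := by
    simp only [hg, LinearEquiv.mul_apply, h.symm.ap_w, map_add, map_smul, h.ap_w,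
      h.ap_f, map_div₀, map_neg]
    match_scalars <;> field_simp
    · linear_combination hy
    · ring
  obtain ⟨r', hr', h4⟩ : ∃ r', r' + σ r' + ζ * σ ζ = 0 ∧
      g * uEich B e (z • w) s * g⁻¹ = uEich B f (ζ • w) r' := by
    have h5 : σ l • z • g w = ζ • w + (σ l * z * σ y) • f := by
      rw [h3]
      match_scalars
      · field_simp; linear_combination -e1
      · ring
    refine ⟨l * σ l * s + σ (σ l * z * σ y) - σ l * z * σ y, ?_, ?_⟩
    · have e2 := congrArg σ e1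
      simp only [map_mul, map_neg, map_pow, hB.invol, map_add, map_sub] at e2 ⊢
      refine mul_left_cancel₀ (mul_ne_zero hl hl') ?_
      linear_combination (l * σ l) ^ 2 * hs + σ l * σ ζ * e1 - σ l ^ 2 * z * e2
    · rw [(h.e0 z).conj h1.1, h2, map_smul, hB.uEich_smul ⟨h.ff, by simp [h3, h.wf, h.ff], by
        simp [h3, h.fw, h.ff]⟩, h5, (h.symm.e0 ζ).add_smul_self]
  obtain ⟨c, hc⟩ := exists_sub_eq hB.toUInvol (d := r - r') (by
    rw [map_sub]; linear_combination hr - hr')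
  obtain ⟨t, ht⟩ := hB.exists_trace_eq (a := -(σ (c / ζ) * σ (σ (c / ζ)))) (by
    rw [map_neg, hB.norm_fixed])
  have h5 := h.symm.mem hB (z := σ (c / ζ)) (s := t) (by linear_combination ht)
  refine ⟨_ * g, (USG B).mul_mem h5 h1, ?_⟩
  rw [mul_inv_rev, ← mul_assoc, mul_assoc _ g, mul_assoc _ (g * _), h4, (h.symm.e0 ζ).conj h5.1,
    h.symm.ap_e, map_smul, h.symm.ap_w, smul_add, smul_smul, (h.symm.e0 ζ).add_smul_self,
    hB.invol, mul_div_cancel₀ _ hζ]
  congr 1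
  linear_combination hc

theorem nil {z : F} (s : F) : ((uEich B e (z • w) s : V →ₗ[F] V) - 1) ^ 3 = 0 := by
  ext x
  simp [pow_succ, (h.e0 z).apply, h.ee, h.ew, h.we]

theorem sq_ne {z : F} (hz : z ≠ 0) (s : F) : ((uEich B e (z • w) s : V →ₗ[F] V) - 1) ^ 2 ≠ 0 := by
  intro h1
  have := congrArg (fun T : V →ₗ[F] V => B (T f) f) h1
  simp [pow_succ, h.ap_e, h.ap_f, h.ap_w, h.ef, h.wf, h.ff, hz] at this

theorem le [FiniteDimensional F V] (hB : IsHerm B) (hq : UField σ q) (hn : finrank F V = 3)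
    (hM : M ≤ UG B) (h1 : ∀ c, c ∈ coef hB M h.ee w) {ζ r : F} (hr : r ≠ 0)
    (hv : uEich B f (ζ • w) r ∈ M) : USG B ≤ M := by
  refine hB.USG_le_of_uEich' hq hM h.ee (hB.uQ_of_uYadd (hz := h.ee) (hB.uTv_of_uYsub
    (hz := h.ee) (u := w) h1 (h1 1) (by simp [h.ww])) fun u hu => ?_) hv (by
      simp [h.symm.ap_f, h.ee, h.ew, h.ef, hr])
  have h2 : finrank F (uPerp B (Submodule.span F {e, f})) = 1 := by
    rw [hB.finrank_uPerp, hB.finrank_span_pair h.ee h.ff h.ef, hn]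
  obtain ⟨a, ha⟩ := (finrank_eq_one_iff_of_nonzero' (⟨w, mem_uPerp_span_pair.2 ⟨h.ew, h.fw⟩⟩ :
    uPerp B _) (fun e => by simpa [show w = 0 from congrArg Subtype.val e] using h.ww)).1 h2
    ⟨u - B u f • e, mem_uPerp_span_pair.2 ⟨by simp [hB.eq_zero_symm hu, h.ee], by
      simp [h.fe, hB.symm]⟩⟩
  rw [show u = a • w + B u f • e from (eq_sub_iff_add_eq.1 (congrArg Subtype.val ha)).symm]
  exact add_mem (h1 a) (hB.smul_self_mem_uYadd h.ee _)

/-- The conclusion for `SU₃`. -/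
def Two (B : V →ₗ[F] V →ₛₗ[σ] F) (e w : V) : Prop :=
  ∃ z s, z ≠ 0 ∧ s + σ s + z * σ z = 0 ∧ ∃ g ∈ USG B, ∀ M ≤ UG B, uEich B e (z • w) s ∈ M →
    g * uEich B e (z • w) s * g⁻¹ ∈ M → USG B ≤ M

variable [Finite F] [FiniteDimensional F V]

theorem two_of (hB : IsHerm B) (hq : UField σ q) (hn : finrank F V = 3) {z s ζ r l : F}
    (hs : s + σ s + z * σ z = 0) (hr : r + σ r + ζ * σ ζ = 0) (hl : l ≠ 0) (hζ : ζ ≠ 0)
    (e1 : l * ζ = -σ l ^ 2 * z) (hr0 : r ≠ 0)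
    (H : ∀ M ≤ UG B, uEich B e (z • w) s ∈ M → uEich B f (ζ • w) r ∈ M →
      ∀ k m : ℕ, 2 ≤ k → 2 ≤ m → q ^ 2 = k ^ m → ∃ x ∈ mults (coef hB M h.ee w), x ^ k ≠ x) :
    Two B e w := by
  have hz : z ≠ 0 := by rintro rfl; simp [hl, hζ] at e1
  obtain ⟨g, hg, e2⟩ := h.exists_conj hB hs hr hl hζ e1
  refine ⟨z, s, hz, hs, g, hg, fun M hM hu hv => ?_⟩
  rw [e2] at hv
  exact h.le hB hq hn hM (mem_of_mults (h.mem_coef hB hs hu) hz fun k m hk hm e =>
    H M hM hu hv k m hk hm (hq.card ▸ e)) hr0 hv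

theorem two_generic (hB : IsHerm B) (hq : UField σ q) (hn : finrank F V = 3) (h3 : 3 ≤ q)
    (h5 : q ≠ 5) (h8 : q ≠ 8) : Two B e w := by
  obtain ⟨α, hα0, hα⟩ := exists_orderOf_eq (F := F) (d := q + 1) (by
    rw [hq.card, ← Nat.sq_sub_sq q 1 |>.symm]; exact dvd_mul_right _ _)
  have h1 : α * σ α = 1 := by rw [hq.norm_eq_pow, ← hα, pow_orderOf_eq_one]
  obtain ⟨r, hr, e1⟩ := hB.hilbert90 h1
  have hr' : σ r ≠ 0 := (map_ne_zero σ).2 hr
  have hN : r + σ r ≠ 0 := fun e => by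
    have : α ^ 2 = 1 := by rw [e1, eq_neg_of_add_eq_zero_right e]; field_simp
    have := Nat.le_of_dvd two_pos (orderOf_dvd_of_pow_eq_one this)
    omega
  obtain ⟨ζ, hζ⟩ := hq.exists_norm_eq (a := -(r + σ r)) (by rw [map_neg, hB.trace_fixed])
  have hζ0 : ζ ≠ 0 := by rintro rfl; exact hN (by linear_combination hζ)
  have hζ1 : σ ζ = -(r + σ r) / ζ := by field_simp; linear_combination hζ
  refine h.two_of hB hq hn (z := -ζ * (r + σ r) / (r * σ r))
    (s := (σ r)⁻¹ - r⁻¹ + (r + σ r) ^ 2 / (r ^ 2 * σ r)) (ζ := ζ) (r := r)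
    (l := r * σ r / (r + σ r)) ?_ (by linear_combination hζ) (by positivity) hζ0 ?_ hr
    fun M hM hu hv k m hk hm e => ⟨_, h.borel hB hM hu hv hv hα0 (by linear_combination hζ)
      (by rw [e1]; field_simp) (by rw [e1]; field_simp; ring) ?_, ?_⟩
  · simp only [map_add, map_sub, map_mul, map_div₀, map_inv₀, map_pow, map_neg, hB.invol, hζ1]
    field_simp
    ring
  · simp only [map_add, map_mul, map_div₀, hB.invol, add_comm (σ r) r]
    field_simp
  · simp only [map_add, map_mul, map_div₀, map_neg, hB.invol, hζ1, e1]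
    field_simp
    ring
  · have h2 : σ α * (1 - σ ζ * (-ζ * (r + σ r) / (r * σ r)) - ζ * (σ (-ζ * (r + σ r) / (r * σ r)) +
        σ ζ * ((σ r)⁻¹ - r⁻¹ + (r + σ r) ^ 2 / (r ^ 2 * σ r)))) = (α ^ 3)⁻¹ := by
      simp only [map_add, map_mul, map_div₀, map_neg, map_inv₀, hB.invol, hζ1, e1]
      field_simp
      ring
    rw [h2]
    refine pow_ne_of_orderOf (by omega) (by positivity) fun h4 => ?_
    have h6 : q + 1 ∣ 3 * (k - 1) := by
      rw [← hα]
      refine orderOf_dvd_of_pow_eq_one ?_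
      rw [pow_mul, ← inv_eq_one, ← inv_pow]
      exact orderOf_dvd_iff_pow_eq_one.1 h4
    obtain rfl | hm := hm.eq_or_lt
    · obtain rfl : q = k := Nat.pow_left_injective two_ne_zero e
      have h7 : q + 1 ∣ 6 := by
        have : 3 * (q + 1) = 3 * (q - 1) + 6 := by omega
        exact (Nat.dvd_add_right h6).1 (this ▸ dvd_mul_left _ _)
      have : q < 6 := Nat.le_of_dvd (by norm_num) h7
      interval_cases q <;> omega
    have h7 := Nat.le_of_dvd (by omega) h6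
    have h9 : k ^ 3 ≤ q ^ 2 := e ▸ Nat.pow_le_pow_right (by omega) hm
    have h10 : k < 9 := by
      by_contra h10
      have h11 : q ^ 2 < (3 * k) ^ 2 := Nat.pow_lt_pow_left (by omega) two_ne_zero
      have h12 : 9 * k ^ 2 ≤ k * k ^ 2 := Nat.mul_le_mul_right _ (by omega)
      nlinarith
    have h11 : m < 9 := by
      by_contra h11
      have : 2 ^ 9 ≤ k ^ m := (Nat.pow_le_pow_left hk 9).trans (Nat.pow_le_pow_right (by omega)
        (by omega))
      have : q ≤ 20 := by omega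
      nlinarith
    have h12 : ∀ k : Fin 9, ∀ m : Fin 9, ∀ q : Fin 21, q.1 ^ 2 = k.1 ^ m.1 →
        3 * (k.1 - 1) % (q.1 + 1) = 0 → m.1 ≤ 2 ∨ q.1 < 3 ∨ q.1 = 5 ∨ q.1 = 8 := by
      decide +kernel
    have := h12 ⟨k, h10⟩ ⟨m, h11⟩ ⟨q, by omega⟩ e (Nat.mod_eq_zero_of_dvd h6)
    simp only at this
    omega

omit h in
theorem exists_cube (hF : 3 ∣ Nat.card F - 1) : ∃ ω : F, orderOf ω = 3 ∧ ω ^ 2 + ω + 1 = 0 := by
  obtain ⟨ω, -, hω⟩ := exists_orderOf_eq hF
  have h3 : ω ^ 3 = 1 := hω ▸ pow_orderOf_eq_one ω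
  refine ⟨ω, hω, (mul_eq_zero.1 (show (ω - 1) * _ = 0 by linear_combination h3)).resolve_left
    fun e => ?_⟩
  rw [sub_eq_zero.1 e, orderOf_one] at hω
  omega

theorem two_five (hB : IsHerm B) (hq : UField σ 5) (hn : finrank F V = 3) : Two B e w := by
  obtain ⟨ω, hω, h1⟩ := exists_cube (F := F) (by rw [hq.card]; norm_num)
  have h5 : (5 : F) = 0 := by exact_mod_cast hq.cast_eq_zero
  have hσ : σ ω = -1 - ω := by rw [hq.pow]; grind
  have hr : 1 + ω + σ (1 + ω) + 2 * σ 2 = 0 := by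
    simp only [map_add, map_one, map_ofNat, hσ]; grind
  refine h.two_of hB hq hn (z := 1 + 2 * ω) (s := 3 - ω) (ζ := 2) (r := 1 + ω)
    (l := -1 - 2 * ω) ?_ hr (fun e => one_ne_zero (α := F) (by
      linear_combination 2 * h5 - 12 * h1 + 3 * (-1 - 2 * ω) * e))
    (fun e => one_ne_zero (α := F) (by linear_combination h5 - 2 * e)) ?_ (by grind)
    fun M hM hu hv k m hk hm e => ?_
  · simp only [map_add, map_sub, map_mul, map_one, map_ofNat, hσ]; grind
  · simp only [map_neg, map_sub, map_mul, map_one, map_ofNat, hσ]; grind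
  have h2 := M.mul_mem hv hv
  rw [h.symm.mul] at h2
  have h3 := h.borel hB hM hu hv h2 (a := 3 * ω + 1) (fun e => one_ne_zero (α := F) (by
      linear_combination (2 - 3 * ω) * h5 - 18 * h1 + 3 * (2 * ω + 3) * e)) hr
    (by simp only [map_add, map_one, map_ofNat, hσ]; grind)
    (by simp only [map_ofNat]; grind)
    (by simp only [map_add, map_mul, map_one, map_ofNat, hσ]; grind)
  have h4 : ω ∈ mults (coef hB M h.ee w) := by
    convert Subring.sub_mem _ (ofNat_mem _ 2) h3 using 1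
    simp only [map_add, map_mul, map_one, map_ofNat, hσ]; grind
  refine ⟨ω, h4, pow_ne_of_orderOf (by omega) (by grind) ?_⟩
  have : k < 6 := by
    by_contra h6
    have : 6 ^ 2 ≤ k ^ m := (Nat.pow_le_pow_left (by omega) 2).trans
      (Nat.pow_le_pow_right (by omega) hm)
    omega
  have h7 : k ∣ 5 ^ 2 := e ▸ dvd_pow_self k (by omega)
  rw [hω]
  interval_cases k <;> omega

theorem two_eight (hB : IsHerm B) (hq : UField σ 8) (hn : finrank F V = 3) : Two B e w := by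
  obtain ⟨ω, hω, h1⟩ := exists_cube (F := F) (by rw [hq.card]; norm_num)
  have h2 : (2 : F) = 0 := pow_eq_zero_iff (n := 3) (by norm_num) |>.1 (by
    have := hq.cast_eq_zero; norm_num at this ⊢; exact this)
  obtain ⟨l, hl⟩ : ∃ l : F, l ^ 3 = l + 1 := by
    obtain ⟨l, -, hl⟩ := exists_orderOf_eq (F := F) (d := 7) (by rw [hq.card]; norm_num)
    have h3 : l ^ 7 = 1 := hl ▸ pow_orderOf_eq_one l
    have h4 : l ≠ 1 := fun e => by rw [e, orderOf_one] at hl; omega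
    by_cases h5 : l ^ 3 = l + 1
    · exact ⟨l, h5⟩
    exact ⟨l + 1, by grind⟩
  have hσ : σ ω = 1 + ω := by rw [hq.pow]; grind
  have hσ' : σ l = l := by rw [hq.pow]; grind
  refine h.two_of hB hq hn (z := 1) (s := ω + l) (ζ := 1) (r := ω) (l := 1)
    (by simp only [map_add, map_one, hσ, hσ']; grind) (by simp only [map_one, hσ]; grind)
    one_ne_zero one_ne_zero (by simp only [map_one]; grind) (by grind)
    fun M hM hu hv k m hk hm e' => ?_
  have t1 : uEich B e ((0 : F) • w) 1 ∈ M := by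
    convert M.mul_mem hu hu using 1
    rw [h.mul, map_one]; congr 1 <;> [congr 1; skip] <;> grind
  have t2 : uEich B f ((0 : F) • w) 1 ∈ M := by
    convert M.mul_mem hv hv using 1
    rw [h.symm.mul, map_one]; congr 1 <;> [congr 1; skip] <;> grind
  have hδ := M.mul_mem t1 (M.mul_mem t2 t1)
  set δ := uEich B e ((0 : F) • w) 1 * (uEich B f ((0 : F) • w) 1 * uEich B e ((0 : F) • w) 1)
    with hδ'
  have d1 : δ e = f ∧ δ f = e ∧ δ w = w := by
    simp only [hδ', LinearEquiv.mul_apply, h.symm.ap_f, map_add, map_sub, map_smul, h.ap_e, h.ap_w,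
      h.ap_f, h.symm.ap_e, h.symm.ap_w, map_zero]
    refine ⟨?_, ?_, ?_⟩ <;> match_scalars <;> grind
  have c1 : ∀ {z s}, uEich B e (z • w) s ∈ M → uEich B f (z • w) s ∈ M := fun {z s} hz => by
    have := M.mul_mem (M.mul_mem hδ hz) (M.inv_mem hδ)
    rwa [(h.e0 z).conj (hM hδ), map_smul, d1.1, d1.2.2] at this
  have c2 : uEich B e ((1 : F) • w) ω ∈ M := by
    have := M.mul_mem (M.mul_mem hδ hv) (M.inv_mem hδ)
    rwa [(h.symm.e0 1).conj (hM hδ), map_smul, d1.2.1, d1.2.2] at this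
  have t3 : uEich B e ((0 : F) • w) (1 + l) ∈ M := by
    convert M.mul_mem hu c2 using 1
    rw [h.mul, map_one]; congr 1 <;> [congr 1; skip] <;> grind
  have t4 : uEich B e ((0 : F) • w) l ∈ M := by
    convert M.mul_mem t3 t1 using 1
    rw [h.mul, map_zero]; congr 1 <;> [congr 1; skip] <;> grind
  have hk₁ := M.mul_mem (c1 t4) (M.mul_mem t3 (c1 t3))
  set k₁ := uEich B f ((0 : F) • w) l * (uEich B e ((0 : F) • w) (1 + l) *
    uEich B f ((0 : F) • w) (1 + l)) with hk'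
  have d2 : k₁ e = l ^ 2 • e ∧ k₁ w = w := by
    simp only [hk', LinearEquiv.mul_apply, h.symm.ap_f, map_add, map_sub, map_smul, h.ap_e, h.ap_w,
      h.ap_f, h.symm.ap_e, h.symm.ap_w, map_zero]
    refine ⟨?_, ?_⟩ <;> match_scalars <;> grind
  have m1 := h.mults_of hB hM hk₁ (a := l ^ 2) (κ := 1) (d := 0) (d' := 0) (by grind) d2.1
    (by simp [d2.2])
  have t5 : uEich B e (l ^ 2 • w) (ω * l ^ 4 + 1 + l ^ 2) ∈ M := by
    have := M.mul_mem (M.mul_mem (M.mul_mem hk₁ hu) (M.inv_mem hk₁)) t4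
    rw [(h.e0 1).conj (hM hk₁), map_smul, d2.1, d2.2, hB.uEich_smul (h.e0 1), smul_smul,
      h.mul] at this
    convert this using 2 <;> simp only [map_pow, hσ'] <;> [congr 1; skip] <;> grind
  have m2 := h.borel hB hM t5 (c1 hu) (c1 hu) (a := l ^ 2 * ω + l) (by grind)
    (by simp only [map_add, map_one, hσ, hσ']; grind) (by simp only [map_add, hσ, hσ']; grind)
    (by grind) (by simp only [map_pow, hσ']; grind)
  have h4 : ω ∈ mults (coef hB M h.ee w) := by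
    convert m2 using 1
    simp only [map_add, map_pow, map_mul, map_one, hσ, hσ']; grind
  rw [map_pow, hσ', mul_one] at m1
  have : k < 9 := by
    by_contra h6
    have : 9 ^ 2 ≤ k ^ m := (Nat.pow_le_pow_left (by omega) 2).trans
      (Nat.pow_le_pow_right (by omega) hm)
    omega
  have h7 : k ∣ 8 ^ 2 := e' ▸ dvd_pow_self k (by omega)
  by_cases h8 : k = 4
  · exact ⟨_, m1, by rw [h8]; grind⟩
  refine ⟨ω, h4, pow_ne_of_orderOf (by omega) (by grind) ?_⟩
  rw [hω]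
  interval_cases k <;> omega

theorem two (hB : IsHerm B) (hq : UField σ q) (hn : finrank F V = 3) (h3 : 3 ≤ q) :
    Two B e w := by
  by_cases h5 : q = 5
  · exact h.two_five hB (h5 ▸ hq) hn
  by_cases h8 : q = 8
  · exact h.two_eight hB (h8 ▸ hq) hn
  exact h.two_generic hB hq hn h3 h5 h8

end Fr

theorem exists_fr [Finite F] [FiniteDimensional F V] (hB : IsHerm B) (hn : 3 ≤ finrank F V) :
    ∃ e f w, Fr B e f w := by
  obtain ⟨e, f, h1, h2, h3⟩ := hB.exists_hyperbolic_pair (by omega)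
  obtain ⟨p, hp, hp'⟩ := hB.exists_perp_nonisotropic (hB.disjoint_span_pair h1 h2 h3)
    (by rw [hB.finrank_span_pair h1 h2 h3]; omega)
  obtain ⟨a, -, ha⟩ := hB.exists_smul_norm_one hp'
  obtain ⟨h4, h5⟩ := mem_uPerp_span_pair.1 hp
  exact ⟨e, f, a • p, h1, h2, h3, hB.eq_one_symm h3, ha, by simp [hB.eq_zero_symm h4],
    by simp [h4], by simp [hB.eq_zero_symm h5], by simp [h5]⟩

/-- Transfer to matrices. -/
theorem su_three_gen {n : ℕ} (hq : UField σ q) {u g k : (Fin n → F) ≃ₗ[F] (Fin n → F)}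
    (hu : u ∈ USG (uStd σ (Fin n))) (hg : g ∈ USG (uStd σ (Fin n)))
    (hk : k ∈ USG (uStd σ (Fin n))) (h1 : IsNilpotent ((u : End F (Fin n → F)) - 1))
    (h2 : ((u : End F (Fin n → F)) - 1) ^ (n - 1) ≠ 0)
    (h : ∀ M ≤ UG (uStd σ (Fin n)), u ∈ M → g * u * g⁻¹ ∈ M → k * u * k⁻¹ ∈ M →
      USG (uStd σ (Fin n)) ≤ M) :
    ∃ u' g' k' : SU n F q, (IsNilpotent (u'.1.1 - 1) ∧ (u'.1.1 - 1) ^ (n - 1) ≠ 0) ∧
      Subgroup.closure ({u', g' * u' * g'⁻¹, k' * u' * k'⁻¹} : Set (SU n F q)) = ⊤ ∧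
      (k = 1 → k' = 1) := by
  obtain ⟨u, rfl⟩ : ∃ x, (hq.suEquiv n x).1 = u := ⟨(hq.suEquiv n).symm ⟨u, hu⟩, by simp⟩
  obtain ⟨g, rfl⟩ : ∃ x, (hq.suEquiv n x).1 = g := ⟨(hq.suEquiv n).symm ⟨g, hg⟩, by simp⟩
  obtain ⟨k, rfl⟩ : ∃ x, (hq.suEquiv n x).1 = k := ⟨(hq.suEquiv n).symm ⟨k, hk⟩, by simp⟩
  have h3 : ((hq.suEquiv n u).1 : End F (Fin n → F)) - 1 = Matrix.toLinAlgEquiv' (u.1.1 - 1) := by
    rw [map_sub, map_one, hq.coe_suEquiv]; rfl
  rw [h3] at h1 h2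
  refine ⟨u, g, k, ⟨by simpa using h1.map Matrix.toLinAlgEquiv'.symm, fun e => h2 (by
    rw [← map_pow, e, map_zero])⟩, eq_top_iff.2 fun x _ => ?_, fun e => (hq.suEquiv n).injective
      (by rw [map_one]; exact Subtype.ext e)⟩
  let φ := (USG (uStd σ (Fin n))).subtype.comp (hq.suEquiv n).toMonoidHom
  obtain ⟨y, hy, e⟩ := h ((Subgroup.closure {u, g * u * g⁻¹, k * u * k⁻¹}).map φ)
    (by rintro _ ⟨y, -, rfl⟩; exact (hq.suEquiv n y).2.1)
    ⟨_, Subgroup.subset_closure (by simp), rfl⟩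
    ⟨g * u * g⁻¹, Subgroup.subset_closure (by simp), by simp [φ]⟩
    ⟨k * u * k⁻¹, Subgroup.subset_closure (by simp), by simp [φ]⟩ (hq.suEquiv n x).2
  rwa [← (hq.suEquiv n).injective (Subtype.ext e)]

theorem su3 [Finite F] (hq : UField σ q) (h3 : 3 ≤ q) :
    ∃ u g : SU 3 F q, (IsNilpotent (u.1.1 - 1) ∧ (u.1.1 - 1) ^ (3 - 1) ≠ 0) ∧
      Subgroup.closure ({u, g * u * g⁻¹} : Set (SU 3 F q)) = ⊤ := by
  have hB := hq.isHerm_uStd (Fin 3)
  obtain ⟨e, f, w, h⟩ := exists_fr hB (by simp)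
  obtain ⟨z, s, hz, hs, g, hg, H⟩ := h.two hB hq (by simp) h3
  obtain ⟨u, g, k, h1, h2, h4⟩ := su_three_gen hq (h.mem hB hs) hg (USG _).one_mem ⟨3, h.nil s⟩
    (h.sq_ne hz s) fun M hM hu hv _ => H M hM hu hv
  refine ⟨u, g, h1, ?_⟩
  rw [← h2, h4 rfl]
  congr 1
  ext x
  simp
  tauto

end Cfsg.Agent.Cl.Reg
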