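import Mathlib
import Cfsg.Agent.Cl.RegU3
import Cfsg.Agent.Cl.RegCh

/-!
# Generation of `SU_n(q)`, `n` odd, by three conjugate regular unipotent elements
-/

set_option autoImplicit false

namespace Cfsg.Agent.Cl.Reg

open Module

universe v

variable {F : Type*} [Field F] {σ : F →+* F} [Finite F]

theorem exists_ch_u (l : ℕ) : ∀ {V : Type v} [AddCommGroup V] [Module F V] [FiniteDimensional F V]
    {B : V →ₗ[F] V →ₛₗ[σ] F}, IsHerm B → finrank F V = 2 * (l + 1) + 1 → ∀ b : F,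
    ∃ u ∈ USG B, ∃ x, Ch B u x (l + 1) (2 * (l + 1) + 1) b (σ b) := by
  induction l with
  | zero =>
    intro V _ _ _ B hB hn b
    obtain ⟨e, f, w, h⟩ := exists_fr hB hn.ge
    obtain ⟨z, hz⟩ := hB.toUInvol.exists_norm_eq (a := -(b + σ b)) (by
      rw [map_neg, hB.trace_fixed])
    have h1 := h.mem hB (z := z) (s := σ b) (by rw [hB.invol]; linear_combination hz)
    refine ⟨_, h1, f, USG_map h1, h.nil _, fun k h2 h3 => ?_, ?_, ?_⟩
    · rw [show k = 0 by omega]; exact h.ff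
    · simp [D_zero, h.ap_f, h.ff, h.fw, h.fe, hB.invol]
    · rw [← USG_map h1, map_D]
      simp [D_zero, h.ap_f, h.ff, h.wf, h.ef]
  | succ l ih =>
    intro V _ _ _ B hB hn b
    obtain ⟨e, f, h⟩ := hB.exists_uHypPair' (by omega)
    have hW := hB.disjoint_span_pair h.left h.right h.pair
    obtain ⟨u', hu', x', hx⟩ := ih (hB.restrict_uPerp hW) (by
      rw [hB.finrank_uPerp, hB.finrank_span_pair h.left h.right h.pair]; omega) (-b)
    have ew : ∀ w : uPerp B (Submodule.span F {e, f}), B e w = 0 := fun w =>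
      (mem_uPerp_span_pair.1 w.2).1
    have fw : ∀ w : uPerp B (Submodule.span F {e, f}), B f w = 0 := fun w =>
      (mem_uPerp_span_pair.1 w.2).2
    have h0 : UEich0 B e (-x') := ⟨h.left, by simp [hB.eq_zero_symm (ew x')], by simp [ew]⟩
    obtain ⟨g, hg, h1, h2⟩ : ∃ g ∈ USG B, (∀ v ∈ Submodule.span F {e, f}, g v = v) ∧
        ∀ w : uPerp B (Submodule.span F {e, f}), g w = u' w :=
      ⟨_, (hB.fixerEquivS hW ⟨u', hu'⟩).2.1, (hB.fixerEquivS hW ⟨u', hu'⟩).2.2, fun w => by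
        rw [hB.coe_fixerEquivS, uSum_apply_right]⟩
    have h3 : uEich B e (-x') 0 * g ∈ USG B := (USG B).mul_mem (hB.uEich_mem h0 (by
      simpa [D_zero_zero, uRes_apply] using hx.zero 0 (by omega) (by omega))) hg
    refine ⟨_, h3, f, ?_⟩
    have := hx.step (uRes_apply _) (by omega) (USG_map h3) (e := e) (f := f)
      (by rw [LinearEquiv.mul_apply, h1 e (Submodule.subset_span (by simp)), h0.apply_self])
      (by rw [LinearEquiv.mul_apply, h1 f (Submodule.subset_span (by simp)), h0.apply]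
          simp [fw, h.pair'])
      (fun w => ⟨_, by rw [LinearEquiv.mul_apply, h2, h0.apply_of_perp _ (hB.eq_zero_symm (ew _))]⟩)
      (fun v => by
        obtain ⟨⟨y, hy⟩, w, rfl⟩ := u_exists_add_of_isCompl (hB.isCompl_uPerp hW) v
        obtain ⟨a, c, rfl⟩ := Submodule.mem_span_pair.1 hy
        exact ⟨a, c, w, rfl⟩) h.left h.right ew (fun w => hB.eq_zero_symm (ew w)) fw
      fun w => hB.eq_zero_symm (fw w)
    rwa [map_neg, neg_neg, neg_neg] at this

variable {V : Type*} [AddCommGroup V] [Module F V] [FiniteDimensional F V]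
  {B : V →ₗ[F] V →ₛₗ[σ] F} {q : ℕ} {M : Subgroup (V ≃ₗ[F] V)}

omit [Finite F] [FiniteDimensional F V] in
theorem comm_mem {G : Type*} [Group G] {M : Subgroup G} {u g : G} (hu : u ∈ M)
    (h : g * u * g⁻¹ ∈ M) : u * g * u⁻¹ * g⁻¹ ∈ M := by
  convert M.mul_mem hu (M.inv_mem h) using 1
  group

namespace Ch

variable {u : V ≃ₗ[F] V} {x : V} {l : ℕ} {b : F} (h : Ch B u x l (2 * l + 1) b (σ b))
  (hB : IsHerm B) (hl : 2 ≤ l)
include h hB hl

omit [Finite F] [FiniteDimensional F V] hB in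
theorem u_xe (k : ℤ) : B (D u x 0 k) (D u x (2 * l) 0) = b + σ b := by
  rw [h.pair, zero_add, h.D_last rfl, ← h.D_last rfl (-l), h.psi_both (by omega) rfl rfl]
  simp

omit [Finite F] [FiniteDimensional F V] in
theorem u_ex (k : ℤ) : B (D u x (2 * l) 0) (D u x 0 k) = b + σ b := by
  rw [← hB.symm, h.u_xe hl, hB.trace_fixed]

omit [Finite F] [FiniteDimensional F V] hB in
theorem u_xx (k : ℤ) : B (D u x 0 k) (D u x 0 k) = 0 ∧ B (D u x 0 k) (D u x 0 (k + 1)) = 0 := by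
  rw [h.pair, h.pair, h.psi_zero, h.psi_zero] <;> simp <;> omega

omit [Finite F] [FiniteDimensional F V] hB in
theorem u_dd (k : ℤ) : B (D u x 1 k) (D u x 1 k) = 0 := by
  rw [h.pair, h.psi_zero] <;> simp <;> omega

omit [Finite F] [FiniteDimensional F V] in
theorem u_y {c : F} (k : ℤ) (v : V) :
    (uRefl B (D u x 0 (k + 1)) c * (uRefl B (D u x 0 k) c)⁻¹) v =
      v - (c * B v (D u x 0 k)) • D u x 0 k + (c * B v (D u x 0 (k + 1))) • D u x 0 (k + 1) := by
  rw [uRefl_inv_of_isotropic (h.u_xx hl k).1, LinearEquiv.mul_apply,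
    uRefl_apply_of_isotropic (h.u_xx hl k).1, uRefl_apply_of_isotropic (h.u_xx hl _).1]
  simp only [map_add, map_smul, LinearMap.add_apply, LinearMap.smul_apply, (h.u_xx hl k).2]
  module

omit [Finite F] [FiniteDimensional F V] in
theorem u_ye {c : F} (k : ℤ) :
    (uRefl B (D u x 0 (k + 1)) c * (uRefl B (D u x 0 k) c)⁻¹) (D u x (2 * l) 0) =
      D u x (2 * l) 0 + (c * (b + σ b)) • D u x 1 k := by
  rw [h.u_y hB hl, h.u_ex hB hl, h.u_ex hB hl, D_succ 0]
  module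

omit [Finite F] [FiniteDimensional F V] hl in
theorem u_ymem (hM : M ≤ UG B) (hu : u ∈ M) {c : F}
    (hg : uRefl B x c * u * (uRefl B x c)⁻¹ ∈ M) (k : ℤ) :
    uRefl B (D u x 0 (k + 1)) c * (uRefl B (D u x 0 k) c)⁻¹ ∈ M := by
  have h1 := M.mul_mem (M.mul_mem (M.zpow_mem hu k) (comm_mem hu hg)) (M.inv_mem (M.zpow_mem hu k))
  rw [uRefl_conj (hM hu), ← conj_mul, ← conj_inv, uRefl_conj (hM (M.zpow_mem hu k)),
    uRefl_conj (hM (M.zpow_mem hu k))] at h1
  rwa [← map_D, D_zero, ← LinearEquiv.mul_apply, ← zpow_one_add, add_comm, zpow_add_one]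

omit [Finite F] [FiniteDimensional F V] in
/-- The action of the transvection with centre `e + κ d`. -/
theorem u_act (hM : M ≤ UG B) (he : B (D u x (2 * l) 0) (D u x (2 * l) 0) = 0) {κ μ : F}
    (hr : uRefl B (D u x (2 * l) 0 + κ • D u x 1 0) μ ∈ M) {w : V} (hw : w ∈ uYadd hB M he) :
    (μ * κ * σ κ * B w (D u x 1 0)) • D u x 1 0 ∈ uYadd hB M he := by
  have h1 : B (D u x (2 * l) 0) (D u x 1 0) = 0 := h.pair_zero le_rfl _ _
  have h2 : B (D u x (2 * l) 0 + κ • D u x 1 0) (D u x (2 * l) 0 + κ • D u x 1 0) = 0 := by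
    simp [he, h1, hB.eq_zero_symm h1, h.u_dd hl]
  have h3 := hB.uYadd_map' hM hw hr (uRefl_apply_of_perp _ (by simp [he, h1]))
  rw [uRefl_apply_of_isotropic h2] at h3
  convert sub_mem (sub_mem h3 hw) (hB.smul_self_mem_uYadd he (μ * σ κ * B w (D u x 1 0))) using 1
  simp only [map_add, (hB.mem_uYadd.1 hw).1, LinearMap.map_smulₛₗ, smul_eq_mul]
  module

theorem u_le (hq : UField σ q) (hn : finrank F V = 2 * l + 1) (hb : b + σ b ≠ 0) (hb' : b ≠ 0)
    (hM : M ≤ UG B) (hu : u ∈ M) {c : F} (hc : c ≠ 0)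
    (hg : uRefl B x c * u * (uRefl B x c)⁻¹ ∈ M) (he : B (D u x (2 * l) 0) (D u x (2 * l) 0) = 0)
    (h1 : ∀ a : F, a • D u x 1 0 ∈ uYadd hB M he) : USG B ≤ M := by
  have h2 : ∀ z, B z (D u x (2 * l) 0) = 0 → z ∈ uYsub hB M he := fun z hz =>
    h.mem_of_perp (S := uYsub hB M he) rfl hn ((h.u_xe hl 0).trans_ne hb) h1
      (fun v hv => hB.uYsub_map' hM hv hu (h.map_last rfl 0)) hz
  have h3 : B (D u x 1 (l - 1)) (D u x 1 0) = -σ b := by
    rw [h.pair, h.psi_bot (by omega) (by omega)]; simp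
  refine hB.USG_le_of_uEich' hq hM he (hB.uQ_of_uYadd (hz := he) (hB.uTv_of_uYsub (hz := he)
    (h2 _ (h.pair_zero (i := 1) (by omega) (l - 1) 0)) (by simpa using h1 1) (by simp [h3, hb']))
    fun z hz => hB.uYadd_of_uYsub (h2 z hz)) (M.mul_mem (h.u_ymem hB hM hu hg (l - 1))
      (h.u_ymem hB hM hu hg 0)) fun e => ?_
  have h4 := hB.eq_zero_symm e
  have h5 : B (D u x 1 0) (D u x (2 * l) 0) = 0 := h.pair_zero (by omega) _ _
  have h6 : B (D u x 1 0) (D u x 0 (l - 1 + 1)) = B (D u x 1 0) (D u x 0 (l - 1)) - b := by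
    have : B (D u x 1 0) (D u x (0 + 1) (l - 1)) = -b := by
      rw [← hB.symm, h3, map_neg, hB.invol]
    rw [D_succ 0 (l - 1), map_sub] at this
    linear_combination this
  rw [LinearEquiv.mul_apply, h.u_ye hB hl, h.u_y hB hl] at h4
  simp only [map_add, map_sub, map_smul, LinearMap.add_apply, LinearMap.sub_apply,
    LinearMap.smul_apply, he, h5, h.u_xe hl, h.u_ex hB hl, h6, smul_eq_mul] at h4
  exact mul_ne_zero (pow_ne_zero 2 (mul_ne_zero hc hb)) hb' (by linear_combination -h4)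

end Ch

theorem su_odd_gen (hB : IsHerm B) (hq : UField σ q) {l : ℕ} (hl : 2 ≤ l)
    (hn : finrank F V = 2 * l + 1) : ∃ u ∈ USG B, ∃ g ∈ USG B, ∃ k ∈ USG B,
      IsNilpotent ((u : End F V) - 1) ∧ ((u : End F V) - 1) ^ (2 * l) ≠ 0 ∧
      ∀ M ≤ UG B, u ∈ M → g * u * g⁻¹ ∈ M → k * u * k⁻¹ ∈ M → USG B ≤ M := by
  obtain ⟨ξ, hξ0, hξ⟩ := exists_gen (F := F)
  have hξ1 : σ ξ ≠ ξ := hq.pow ξ ▸ hξ q 2 hq.two_le le_rfl hq.card
  obtain ⟨θ, hθ0, hθ⟩ := hB.exists_trace_zero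
  obtain ⟨l, rfl⟩ := Nat.exists_eq_add_of_le' (show 1 ≤ l by omega)
  by_cases h2 : (2 : F) = 0
  · obtain ⟨u, hu, x, h⟩ := exists_ch_u l hB hn (σ ξ)
    have hτ : σ ξ + σ (σ ξ) ≠ 0 := fun e => hξ1 (by rw [hB.invol] at e; grind)
    have : CharP F 2 := CharTwo.of_one_ne_zero_of_two_eq_zero one_ne_zero h2
    obtain ⟨c, hc⟩ := (bijective_frobenius F 2).2 ((σ ξ + σ (σ ξ)) ^ 3)⁻¹
    have hc1 : σ c = c := (bijective_frobenius F 2).1 (by
      rw [frobenius_def, ← map_pow, ← frobenius_def, hc, map_inv₀, map_pow, hB.trace_fixed])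
    rw [frobenius_def] at hc
    have hc0 : c ≠ 0 := by rintro rfl; exact inv_ne_zero (pow_ne_zero 3 hτ) (by simpa using hc.symm)
    have he := h.pair_zero (i := 2 * (l + 1)) (i' := 2 * (l + 1)) (by omega) 0 0
    have h0 : ∀ k, UEich0 B (D u x (2 * (l + 1)) 0) (D u x 1 k) := fun k =>
      ⟨he, h.pair_zero (by omega) _ _, h.pair_zero (by omega) _ _⟩
    refine ⟨u, hu, uRefl B x c, hB.uRefl_mem_USG (h.u_xx hl 0).1 (by grind), uEich B _ _ 0,
      hB.uEich_mem (h0 0) (by simp [h.u_dd hl]), ⟨_, h.nil⟩, Ch.pow_ne (B := B) (x := x)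
        ((h.u_xe hl 0).trans_ne hτ), fun M hM hu hg hk => ?_⟩
    have h3 := comm_mem hu hk
    rw [(h0 0).conj (hM hu), h.map_last rfl, map_D, (h0 0).inv, (h0 _).mul (h0 0).neg,
      ← sub_eq_add_neg, ← D_succ] at h3
    have h4 : D u x 2 0 ∈ uYadd hB M he := hB.mem_uYadd.2 ⟨h.pair_zero (by omega) _ _, _, by
      rw [show D u x 2 0 = _ from D_succ 1 0]
      simp only [map_add, map_sub, map_neg, LinearMap.sub_apply, LinearMap.neg_apply, hB.symm,
        h.u_dd hl, map_zero]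
      ring, h3⟩
    have h5 : ∀ {i a} (k : ℤ), a • D u x i 0 ∈ uYadd hB M he → a • D u x i k ∈ uYadd hB M he :=
      fun k ha => by
        have := hB.uYadd_map' hM ha (M.zpow_mem hu k) (by rw [zpow_D, h.D_last rfl])
        rwa [map_smul, zpow_D, zero_add] at this
    obtain ⟨w, hw, hw'⟩ : ∃ w ∈ uYadd hB M he, B w w = σ ξ + σ (σ ξ) := by
      by_cases h6 : l = 1
      · exact ⟨_, h4, by rw [h.pair, h.psi_both (by omega) (by omega) (by omega)]; simp⟩
      refine ⟨_, add_mem h4 (by simpa using h5 (a := 1) (l - 1) (by simpa using h4)), ?_⟩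
      simp only [map_add, LinearMap.add_apply, h.pair]
      rw [h.psi_zero (by omega) (by omega), h.psi_bot (by omega) (by omega),
        h.psi_top (by omega) (by omega), h.psi_zero (by omega) (by omega)]
      ring
    have h6 : uRefl B (D u x (2 * (l + 1)) 0) (σ ξ + σ (σ ξ)) ∈ M := by
      obtain ⟨e1, s, -, hs⟩ := hB.mem_uYadd.1 hw
      have := M.mul_mem hs hs
      rwa [(hB.uEich0 he e1).mul (hB.uEich0 he e1), ← two_smul F, h2, zero_smul, uEich_zero he,
        hw', show s + s - (σ ξ + σ (σ ξ)) = σ ξ + σ (σ ξ) by grind] at this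
    have h7 := M.mul_mem (M.mul_mem (h.u_ymem hB hM hu hg 0) h6)
      (M.inv_mem (h.u_ymem hB hM hu hg 0))
    rw [uRefl_conj (hM (h.u_ymem hB hM hu hg 0)), h.u_ye hB hl] at h7
    have h8 : ∀ a : F, a • D u x 2 0 ∈ uYadd hB M he → (ξ * a) • D u x 1 0 ∈ uYadd hB M he :=
      fun a ha => by
        convert h.u_act hB hl hM he h7 (h5 (l - 1) ha) using 2
        rw [map_smul, LinearMap.smul_apply, h.pair, h.psi_bot (by omega) (by omega), map_mul, hc1,
          hB.trace_fixed, hB.invol, smul_eq_mul]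
        rw [hB.invol] at hc hτ
        field_simp at hc
        grind
    have h9 := mem_of_mults (C := coef hB M he (D u x 2 0)) (z := 1) (by simpa [mem_coef] using h4)
      one_ne_zero fun k m hk hm e => ⟨ξ, fun a ha => by
        rw [mem_coef, D_succ, smul_sub]
        exact sub_mem (h5 _ (h8 a ha)) (h8 a ha), hξ k m hk hm e⟩
    refine h.u_le hB hl hq hn hτ (by simpa using hξ0) hM hu hc0 hg he fun a => ?_
    rw [← mul_div_cancel₀ a hξ0]
    exact h8 _ (h9 _)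
  · obtain ⟨u, hu, x, h⟩ := exists_ch_u l hB hn (σ (ξ / θ))
    have hτ : σ (ξ / θ) + σ (σ (ξ / θ)) ≠ 0 := fun e => hξ1 (by
      rw [hB.invol, map_div₀, hθ] at e; field_simp at e; linear_combination -e)
    set τ := σ (ξ / θ) + σ (σ (ξ / θ)) with hτ'
    have hτ1 : σ τ = τ := hB.trace_fixed _
    obtain ⟨a, ha⟩ := exists_sub_eq hB.toUInvol (d := (θ * τ ^ 2)⁻¹) (by
      rw [map_inv₀, map_mul, map_pow, hθ, hτ1]; field_simp; ring)
    have he := h.pair_zero (i := 2 * (l + 1)) (i' := 2 * (l + 1)) (by omega) 0 0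
    have h0 : UEich0 B (D u x (2 * (l + 1)) 0) (a • D u x (2 * l + 1) 0) :=
      UEich0.smul ⟨he, h.pair_zero (by omega) _ _, h.pair_zero (by omega) _ _⟩ a
    refine ⟨u, hu, uRefl B x θ, hB.uRefl_mem_USG (h.u_xx hl 0).1 (by rw [hθ, add_neg_cancel]),
      uEich B _ _ 0, hB.uEich_mem h0 (by simp [h.pair_zero (i := 2 * l + 1) (i' := 2 * l + 1)
      (by omega)]), ⟨_, h.nil⟩, Ch.pow_ne (B := B) (x := x)
        ((h.u_xe hl 0).trans_ne hτ), fun M hM hu hg hk => ?_⟩
    have h3 := comm_mem hu hk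
    rw [h0.conj (hM hu), h.map_last rfl, map_smul, eq_add_of_sub_eq' (D_succ' _ _).symm, smul_add,
      show 2 * l + 1 + 1 = 2 * (l + 1) by ring, h0.add_smul_self, h0.inv, h0.mul h0.neg,
      add_neg_cancel, uEich_zero he] at h3
    replace h3 : uRefl B (D u x (2 * (l + 1)) 0) (θ * τ ^ 2)⁻¹ ∈ M := by
      convert h3 using 2
      simp [← ha]
    have hy := h.u_ymem hB hM hu hg 0
    have h7 := M.mul_mem (M.mul_mem hy h3) (M.inv_mem hy)
    have h8 := M.mul_mem (M.mul_mem (M.inv_mem hy) (M.inv_mem h3)) (M.inv_mem (M.inv_mem hy))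
    rw [uRefl_conj (hM hy), h.u_ye hB hl, ← hτ'] at h7
    have h5 : B (D u x (2 * (l + 1)) 0) (D u x 1 0) = 0 := h.pair_zero le_rfl _ _
    have h6 : (uRefl B (D u x 0 (0 + 1)) θ * (uRefl B (D u x 0 0) θ)⁻¹)⁻¹ (D u x (2 * (l + 1)) 0) =
        D u x (2 * (l + 1)) 0 - (θ * τ) • D u x 1 0 := by
      refine (LinearEquiv.symm_apply_eq _).2 ?_
      rw [map_sub, map_smul, h.u_ye hB hl, h.u_y hB hl, h.pair, h.pair, h.psi_zero, h.psi_zero] <;>
        simp [hτ'] <;> omega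
    rw [uRefl_inv_of_isotropic he, uRefl_conj (hM (M.inv_mem hy)), h6] at h8
    have h9 : (-2 / τ) • D u x 1 0 ∈ uYadd hB M he := hB.mem_uYadd.2 ⟨by
      simp [hB.eq_zero_symm h5], 0, by simp [h.u_dd hl], by
      convert M.mul_mem h7 h8 using 1
      ext v
      rw [UEich0.apply ⟨he, by simp [hB.eq_zero_symm h5], by simp [h5]⟩, LinearEquiv.mul_apply,
        uRefl_apply_of_isotropic (by simp [he, h5, hB.eq_zero_symm h5, h.u_dd hl]),
        uRefl_apply_of_isotropic (by simp [he, h5, hB.eq_zero_symm h5, h.u_dd hl])]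
      simp only [map_add, map_sub, map_smul, LinearMap.map_smulₛₗ, LinearMap.add_apply,
        LinearMap.sub_apply, LinearMap.smul_apply, he, h5, hB.eq_zero_symm h5, h.u_dd hl,
        ← hτ', map_mul, hθ, hτ1, map_div₀, map_neg, map_ofNat, smul_eq_mul]
      match_scalars <;> field_simp <;> ring⟩
    refine h.u_le hB hl hq hn hτ (by simp [hξ0, hθ0]) hM hu hθ0 hg he
      (mem_of_mults (C := coef hB M he (D u x 1 0)) h9 (div_ne_zero (neg_ne_zero.2 h2) hτ)
        fun k m hk hm e => ⟨ξ, fun a ha => ?_, hξ k m hk hm e⟩)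
    have := hB.uYadd_map' hM (mem_coef.1 ha) (M.zpow_mem hu l) (by rw [zpow_D, h.D_last rfl])
    rw [map_smul, zpow_D, zero_add] at this
    rw [mem_coef]
    convert h.u_act hB hl hM he h7 this using 2
    rw [map_smul, LinearMap.smul_apply, h.pair, h.psi_bot (by omega) (by omega), map_mul,
      hθ, hτ1, hB.invol, smul_eq_mul]
    field_simp
    ring

end Cfsg.Agent.Cl.Reg
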