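import Mathlib
import Cfsg.Agent.Cl.MaxSpX
import Cfsg.Agent.Cl.RegU

/-!
# Generation of `Sp_{2n}(q)` by three conjugate regular unipotent elements
-/

set_option autoImplicit false

namespace Cfsg.Agent.Cl.Reg

open Module MaxSp

universe v

variable {F : Type*} [Field F]

theorem exists_ch_sp (l : ℕ) : ∀ {V : Type v} [AddCommGroup V] [Module F V] [FiniteDimensional F V]
    {B : LinearMap.BilinForm F V}, B.Nondegenerate → B.IsAlt → finrank F V = 2 * (l + 1) →
    ∀ b : F, ∃ u : SpG B, ∃ x, Ch B u.1 x (l + 1) (2 * (l + 1)) b (-b) := by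
  have key : ∀ {V : Type v} [AddCommGroup V] [Module F V] {B : LinearMap.BilinForm F V},
      B.Nondegenerate → 0 < finrank F V → ∃ e f, B f e = 1 := fun {V} _ _ _ hB h => by
    have := Module.nontrivial_of_finrank_pos h
    obtain ⟨e, he⟩ := exists_ne (0 : V)
    obtain ⟨f, hf, -⟩ := sp_exists_ne_zero_two hB he he
    exact ⟨e, _⁻¹ • f, by rw [map_smul, LinearMap.smul_apply, smul_eq_mul, inv_mul_cancel₀ hf]⟩
  induction l with
  | zero =>
    intro V _ _ _ B hB hA hn b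
    obtain ⟨e, f, h⟩ := key hB (by omega)
    refine ⟨spT hA e b, f, spG_form _, ?_, fun k h2 h3 => ?_, ?_, ?_⟩
    · ext v
      simp [pow_two, hA.self_eq_zero]
    · rw [show k = 0 by omega]; exact hA f
    · simp [D_zero, hA.self_eq_zero, h]
    · rw [← spG_form (spT hA e b), map_D]
      simp [D_zero, hA.self_eq_zero, h, ← hA.neg_eq f e]
  | succ l ih =>
    intro V _ _ _ B hB hA hn b
    obtain ⟨e, f, h⟩ := key hB (by omega)
    have hW := nondegOn_span_pair hA (h.trans_ne one_ne_zero)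
    obtain ⟨u', x', hx⟩ := ih ((hW.orthogonal hB hA).restrict hA) (sp_restrict_isAlt hA _) (by
      have := Submodule.finrank_add_eq_of_isCompl (hW.isCompl hA)
      have h2 := finrank_span_eq_card (sp_linearIndependent_pair hA (h.trans_ne one_ne_zero))
      rw [Matrix.range_cons_cons_empty, Fintype.card_fin] at h2
      omega) (-b)
    have ew : ∀ w : B.orthogonal (Submodule.span F {f, e}), B e w = 0 := fun w =>
      w.2 e (Submodule.subset_span (by simp))
    have fw : ∀ w : B.orthogonal (Submodule.span F {f, e}), B f w = 0 := fun w =>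
      w.2 f (Submodule.subset_span (by simp))
    obtain ⟨g, h1, h2⟩ : ∃ g : SpG B, (∀ v ∈ Submodule.span F {f, e}, g.1 v = v) ∧
        ∀ w : B.orthogonal (Submodule.span F {f, e}), g.1 w = u'.1 w :=
      ⟨formExtendHom (hW.isCompl hA) (sp_add_add_of_orthogonal hA.isRefl _) (1, u'),
        fun v hv => formExtendHom_apply_left _ _ _ ⟨v, hv⟩, formExtendHom_apply_right _ _ _⟩
    have h0 := alt_zero hA (ew x')
    refine ⟨spE hA x' e * g, f, ?_⟩
    have := hx.step (fun _ _ => rfl) (by omega) (spG_form (spE hA x' e * g)) (e := e) (f := f)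
      (by rw [spG_mul_apply, h1 e (Submodule.subset_span (by simp)), spE_apply hA h0]
          simp [ew, hA.self_eq_zero])
      (by rw [spG_mul_apply, h1 f (Submodule.subset_span (by simp)), spE_apply hA h0]
          simp [fw, h])
      (fun w => ⟨_, by
        rw [spG_mul_apply, h2, spE_apply hA h0, alt_zero hA (ew _), zero_smul, add_zero]⟩)
      (fun v => by
        obtain ⟨y, hy, w, hw, rfl⟩ := hW.exists_add hA v
        obtain ⟨a, c, rfl⟩ := Submodule.mem_span_pair.1 hy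
        exact ⟨c, a, ⟨w, hw⟩, by rw [add_comm (a • f)]⟩) (hA e) (hA f) ew
      (fun w => alt_zero hA (ew w)) fw fun w => alt_zero hA (fw w)
    rwa [neg_neg] at this

variable {V : Type*} [AddCommGroup V] [Module F V] {B : LinearMap.BilinForm F V}

/-- The parameters of the elements of the unipotent radical of the stabiliser of `e` in `M`. -/
def SY (hA : B.IsAlt) (M : Subgroup (SpG B)) (e z : V) (t : F) : Prop :=
  B z e = 0 ∧ spE hA z e * spT hA e t ∈ M

namespace SY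

variable {hA : B.IsAlt} {M : Subgroup (SpG B)} {e z z' : V} {t t' : F}

theorem mul_eq (h : B z e = 0) (h' : B z' e = 0) (t t' : F) :
    spE hA z e * spT hA e t * (spE hA z' e * spT hA e t') =
      spE hA (z + z') e * spT hA e (t + t' + B z' z) := by
  rw [mul_assoc, ← mul_assoc (spT hA e t), (spT_commute_spE hA h' (alt_zero hA h') (hA e) t).eq,
    ← mul_assoc, ← mul_assoc, spE_mul hA h h', mul_assoc, mul_assoc, spT_mul, spT_mul]
  congr 2
  ring

theorem add (h : SY hA M e z t) (h' : SY hA M e z' t') : SY hA M e (z + z') (t + t' + B z' z) :=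
  ⟨by simp [h.1, h'.1], mul_eq h.1 h'.1 t t' ▸ M.mul_mem h.2 h'.2⟩

theorem neg (h : SY hA M e z t) : SY hA M e (-z) (-t) := by
  refine ⟨by simp [h.1], ?_⟩
  convert M.inv_mem h.2 using 1
  rw [eq_inv_iff_mul_eq_one, mul_eq (by simp [h.1]) h.1]
  simp [hA.self_eq_zero]

theorem map (h : SY hA M e z t) {g : SpG B} (hg : g ∈ M) (he : g.1 e = e) :
    SY hA M e (g.1 z) t := by
  refine ⟨by rw [← he, spG_form, h.1], ?_⟩
  have := M.mul_mem (M.mul_mem hg h.2) (M.inv_mem hg)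
  rwa [← conj_mul, spE_conj, spT_conj, he] at this

theorem self (a : F) : SY hA M e (a • e) (-(2 * a)) :=
  ⟨by simp [hA.self_eq_zero], by
    rw [spE_smul hA (hA e), spE_self, spT_mul, add_neg_cancel, spT_zero]; exact M.one_mem⟩

theorem zero_iff : SY hA M e 0 t ↔ spT hA e t ∈ M := by simp [SY]

theorem apply (h : B z e = 0) (t : F) {v : V} (hv : B v e = 0) :
    (spE hA z e * spT hA e t).1 v = v + B v z • e := by
  simp [spE_apply hA h, hv]

end SY

/-- The vectors `z` with `SY z t` for some `t`. -/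
def sYadd (hA : B.IsAlt) (M : Subgroup (SpG B)) (e : V) : AddSubgroup V where
  carrier := {z | ∃ t, SY hA M e z t}
  zero_mem' := ⟨0, by simp [SY.zero_iff]⟩
  add_mem' := fun ⟨_, h⟩ ⟨_, h'⟩ => ⟨_, h.add h'⟩
  neg_mem' := fun ⟨_, h⟩ => ⟨_, h.neg⟩

/-- The vectors all of whose multiples are in `sYadd`. -/
def sYsub (hA : B.IsAlt) (M : Subgroup (SpG B)) (e : V) : Submodule F V where
  carrier := {u | ∀ c : F, c • u ∈ sYadd hA M e}
  zero_mem' c := by rw [smul_zero]; exact zero_mem _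
  add_mem' hu hu' c := by rw [smul_add]; exact add_mem (hu c) (hu' c)
  smul_mem' a u hu c := by rw [smul_smul]; exact hu _

/-- The multiples of `w` in `sYadd`. -/
def sCoef (hA : B.IsAlt) (M : Subgroup (SpG B)) (e w : V) : AddSubgroup F :=
  (sYadd hA M e).comap (LinearMap.toSpanSingleton F V w).toAddMonoidHom

variable {hA : B.IsAlt} {M : Subgroup (SpG B)}

theorem sp_top [FiniteDimensional F V] (hB : B.Nondegenerate) {e : V}
    (h1 : ∀ z, B z e = 0 → z ∈ sYadd hA M e) (h2 : e ∈ XS hA M) {g : SpG B} (hg : g ∈ M)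
    (h3 : B (g.1 e) e ≠ 0) : M = ⊤ := by
  have hX := tClosed_XS hA M
  have h4 : ∀ v, B v e ≠ 0 → v ∈ XS hA M := fun v hv => by
    have h5 := hX.span_pair (XS_map hA hg h2) h2 h3 ((B v e / B (g.1 e) e) • g.1 e)
      (Submodule.smul_mem _ _ (Submodule.subset_span (by simp)))
    obtain ⟨t, h6, h7⟩ := h1 ((B v e)⁻¹ • (v - (B v e / B (g.1 e) e) • g.1 e)) (by simp [h3])
    have h8 := XS_map hA (M.mul_mem h7 (h2 (-t))) h5
    rw [mul_assoc, spT_mul, add_neg_cancel, spT_zero, mul_one, spE_apply hA h6] at h8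
    generalize B _ ((B v e)⁻¹ • _) = s at h8
    convert hX.add_smul_mem h8 h2 (by simp [h3, hv, hA.self_eq_zero]) (-s) using 1
    simp [h3, smul_smul, hv]
    abel
  refine eq_top_of_XS hB hA fun v => ?_
  by_cases hv : v = 0
  · intro c; simp [hv]
  by_cases h5 : B v e = 0
  · obtain ⟨w, h6, h7⟩ := sp_exists_ne_zero_two hB (ne_zero_right h3) hv
    simpa using hX.add_smul_mem (h4 (v + w) (by simpa [h5])) (h4 w h6)
      (by simpa [hA.self_eq_zero] using alt_ne hA h7) (-1)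
  · exact h4 v h5

namespace Ch

variable {u : SpG B} {x : V} {n : ℕ} {b : F} (h : Ch B u.1 x n (2 * n) b (-b)) (hn : 2 ≤ n)
include h hn

theorem s_xe (k : ℤ) : B (D u.1 x 0 k) (D u.1 x (2 * n - 1) 0) = b := by
  rw [h.pair, zero_add, h.D_last (by omega), ← h.D_last (by omega) (1 - n),
    h.psi_top (by omega) (by omega)]
  simp

theorem s_de {i : ℕ} (hi : 1 ≤ i) (k : ℤ) : B (D u.1 x i k) (D u.1 x (2 * n - 1) 0) = 0 :=
  h.pair_zero (by omega) _ _

theorem s_xx (k : ℤ) : B (D u.1 x 0 k) (D u.1 x 0 (k + 1)) = 0 := by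
  rw [h.pair, h.psi_zero] <;> simp <;> omega

theorem s_y (c : F) (k : ℤ) (v : V) :
    (spT hA (D u.1 x 0 (k + 1)) c * spT hA (D u.1 x 0 k) (-c)).1 v =
      v - (c * B v (D u.1 x 0 k)) • D u.1 x 0 k +
        (c * B v (D u.1 x 0 (k + 1))) • D u.1 x 0 (k + 1) := by
  rw [spG_mul_apply, spT_apply, spT_apply]
  simp only [map_add, map_smul, LinearMap.add_apply, LinearMap.smul_apply, h.s_xx hn k]
  module

theorem s_ye (c : F) (k : ℤ) :
    (spT hA (D u.1 x 0 (k + 1)) c * spT hA (D u.1 x 0 k) (-c)).1 (D u.1 x (2 * n - 1) 0) =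
      D u.1 x (2 * n - 1) 0 + (-(c * b)) • D u.1 x 1 k := by
  rw [h.s_y hn, ← hA.neg_eq, ← hA.neg_eq (D u.1 x 0 _), h.s_xe hn, h.s_xe hn, D_succ 0]
  module

theorem s_yd (c : F) (k : ℤ) :
    (spT hA (D u.1 x 0 (k + 1)) c * spT hA (D u.1 x 0 k) (-c)).1 (D u.1 x 1 k) = D u.1 x 1 k := by
  rw [h.s_y hn, h.pair, h.pair, h.psi_zero, h.psi_zero] <;> simp <;> omega

omit h hn in
theorem s_ymem (hu : u ∈ M) {c : F} (hg : spT hA x c * u * (spT hA x c)⁻¹ ∈ M) (k : ℤ) :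
    spT hA (D u.1 x 0 (k + 1)) c * spT hA (D u.1 x 0 k) (-c) ∈ M := by
  have h1 := M.mul_mem (M.mul_mem (M.zpow_mem hu k) (comm_mem hu hg)) (M.inv_mem (M.zpow_mem hu k))
  rw [spT_conj, ← conj_mul, spT_inv, spT_conj, spT_conj] at h1
  rwa [← map_D, D_zero, ← LinearEquiv.mul_apply, ← zpow_one_add, add_comm, zpow_add_one]

theorem s_shift (hu : u ∈ M) {i : ℕ} {a t : F} (k : ℤ)
    (ha : SY hA M (D u.1 x (2 * n - 1) 0) (a • D u.1 x i 0) t) :
    SY hA M (D u.1 x (2 * n - 1) 0) (a • D u.1 x i k) t := by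
  have := ha.map (M.zpow_mem hu k) (by rw [Subgroup.coe_zpow, zpow_D, h.D_last (by omega)])
  rwa [map_smul, Subgroup.coe_zpow, zpow_D, zero_add] at this

theorem s_dd : B (D u.1 x 1 (n - 1)) (D u.1 x 1 0) = b := by
  rw [h.pair, h.psi_bot (by omega) (by omega)]; simp

theorem s_full [FiniteDimensional F V] (hV : finrank F V = 2 * n) (hb : b ≠ 0) (hu : u ∈ M)
    (h1 : ∀ a : F, a • D u.1 x 1 0 ∈ sYadd hA M (D u.1 x (2 * n - 1) 0)) (z : V)
    (hz : B z (D u.1 x (2 * n - 1) 0) = 0) : z ∈ sYsub hA M (D u.1 x (2 * n - 1) 0) :=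
  h.mem_of_perp (S := sYsub hA M _) (by omega) hV ((h.s_xe hn 0).trans_ne hb) h1
    (fun v hv a => by
      obtain ⟨t, ht⟩ := hv a
      exact ⟨t, map_smul u.1 a v ▸ ht.map hu (h.map_last (by omega) 0)⟩) hz

theorem s_mult [Finite F] (hu : u ∈ M) {c μ ξ z : F} (hg : spT hA x c * u * (spT hA x c)⁻¹ ∈ M)
    (hμ : spT hA (D u.1 x (2 * n - 1) 0) μ ∈ M) (hξ : μ * c ^ 2 * b ^ 3 = ξ)
    (hξ' : ∀ k m : ℕ, 2 ≤ k → 2 ≤ m → Nat.card F = k ^ m → ξ ^ k ≠ ξ) (hz : z ≠ 0)
    (h1 : z • D u.1 x 1 0 ∈ sYadd hA M (D u.1 x (2 * n - 1) 0)) (a : F) :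
    a • D u.1 x 1 0 ∈ sYadd hA M (D u.1 x (2 * n - 1) 0) := by
  refine mem_of_mults (C := sCoef hA M _ (D u.1 x 1 0)) h1 hz
    (fun k m hk hm e => ⟨ξ, fun a ⟨t, ha⟩ => ?_, hξ' k m hk hm e⟩) a
  have hy := s_ymem hu hg 0
  have h2 := M.mul_mem (M.mul_mem hy hμ) (M.inv_mem hy)
  rw [spT_conj, h.s_ye hn] at h2
  have h3 := h.s_shift hn hu (n - 1) ha
  have h4 := alt_zero hA (h.s_de hn le_rfl 0)
  have h5 : _ ∈ sYadd hA M _ := ⟨_, ((h3.map h2 (by simp [hA.self_eq_zero, h4])).add h3.neg).add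
    (SY.self (μ * c * b ^ 2 * a))⟩
  change (ξ * a) • D u.1 x 1 0 ∈ sYadd hA M _
  convert h5 using 1
  simp only [spT_apply, map_add, map_smul, LinearMap.smul_apply, h.s_de hn le_rfl, h.s_dd hn,
    smul_eq_mul, ← hξ]
  match_scalars <;> simp <;> ring

theorem s_top [FiniteDimensional F V] (hB : B.Nondegenerate) (hV : finrank F V = 2 * n)
    (hb : b ≠ 0) (hu : u ∈ M) {c : F} (hc : c ≠ 0) (hg : spT hA x c * u * (spT hA x c)⁻¹ ∈ M)
    (h1 : ∀ a : F, a • D u.1 x 1 0 ∈ sYadd hA M (D u.1 x (2 * n - 1) 0))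
    (h2 : D u.1 x (2 * n - 1) 0 ∈ XS hA M) : M = ⊤ := by
  refine sp_top hB (fun z hz => by simpa using h.s_full hn hV hb hu h1 z hz 1) h2
    (M.mul_mem (s_ymem hu hg (n - 1)) (s_ymem hu hg 0)) fun e => ?_
  have h6 : B (D u.1 x 1 0) (D u.1 x 0 (n - 1 + 1)) = B (D u.1 x 1 0) (D u.1 x 0 (n - 1)) - b := by
    have : B (D u.1 x 1 0) (D u.1 x (0 + 1) (n - 1)) = -b := by rw [← hA.neg_eq, h.s_dd hn]
    rw [D_succ 0 (n - 1), map_sub] at this
    linear_combination this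
  rw [spG_mul_apply, h.s_ye hn, map_add, map_smul, h.s_ye hn, h.s_y hn] at e
  simp only [map_add, map_sub, map_smul, LinearMap.add_apply, LinearMap.sub_apply,
    LinearMap.smul_apply, hA.self_eq_zero, h.s_de hn le_rfl, h.s_xe hn, h6, smul_eq_mul] at e
  exact mul_ne_zero (pow_ne_zero 2 (mul_ne_zero hc hb)) hb (by linear_combination e)

theorem s_top_two [Finite F] [FiniteDimensional F V] (hB : B.Nondegenerate)
    (hV : finrank F V = 2 * n) (h2 : (2 : F) = 0)
    (hb : b ≠ 0) (hu : u ∈ M) {c : F} (hc : c ≠ 0) (hg : spT hA x c * u * (spT hA x c)⁻¹ ∈ M)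
    (h1 : ∀ a : F, a • D u.1 x 1 0 ∈ sYadd hA M (D u.1 x (2 * n - 1) 0)) {μ : F} (hμ : μ ≠ 0)
    (h3 : spT hA (D u.1 x (2 * n - 1) 0) μ ∈ M) : M = ⊤ := by
  refine h.s_top hn hB hV hb hu hc hg h1 fun a => ?_
  have : CharP F 2 := CharTwo.of_one_ne_zero_of_two_eq_zero one_ne_zero h2
  obtain ⟨δ, hδ⟩ := (bijective_frobenius F 2).2 (a / μ)
  rw [frobenius_def] at hδ
  rw [← div_mul_cancel₀ a hμ, ← hδ, ← spT_smul]
  by_cases h0 : δ = 0
  · simp [h0]
  have h4 : ∀ {v g}, spT hA v μ ∈ M → g ∈ M → spT hA (g.1 v) μ ∈ M := fun hv hg =>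
    spT_conj hA _ _ _ ▸ M.mul_mem (M.mul_mem hg hv) (M.inv_mem hg)
  have hy := s_ymem hu hg 0
  have h5 := h.s_ye (hA := hA) hn c 0
  have h6 := h.s_yd (hA := hA) hn c 0
  generalize spT hA (D u.1 x 0 (0 + 1)) c * spT hA (D u.1 x 0 0) (-c) = y at hy h5 h6
  have h7 : ∀ γ : F, ∃ g ∈ M, g.1 (D u.1 x (2 * n - 1) 0) = D u.1 x (2 * n - 1) 0 ∧
      g.1 (D u.1 x 1 0) = D u.1 x 1 0 + γ • D u.1 x (2 * n - 1) 0 := fun γ => by
    obtain ⟨t, ht, ht'⟩ := h.s_full hn hV hb hu h1 _ (h.s_de hn le_rfl (n - 1)) (-γ / b)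
    refine ⟨_, ht', by rw [SY.apply ht t (hA _), alt_zero hA ht, zero_smul, add_zero], ?_⟩
    rw [SY.apply ht t (h.s_de hn le_rfl 0), map_smul, ← hA.neg_eq, h.s_dd hn]
    simp [hb]
  obtain ⟨g, hg1, hg2, hg3⟩ := h7 (δ / (c * b))
  obtain ⟨g', hg1', hg2', hg3'⟩ := h7 (δ⁻¹ / (c * b))
  convert h4 (h4 (h4 (h4 (h4 h3 hy) hg1) hy) hg1') hy using 2
  simp only [h5, h6, hg2, hg3, hg2', hg3', map_add, map_smul]
  match_scalars <;> field_simp <;> grind

end Ch

theorem SY.of_eq {e z z' : V} {t t' : F} (h : SY hA M e z t) (h1 : z = z') (h2 : t = t') :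
    SY hA M e z' t' := h1 ▸ h2 ▸ h

theorem comm_SY {u : SpG B} (hu : u ∈ M) {e e' z : V} {μ : F} (he : u.1 e = e)
    (he' : u.1 e' = e' + e) (h1 : B e' e = 0) (h2 : B z e = 0)
    (hk : spE hA z e * spT hA e' μ * u * (spE hA z e * spT hA e' μ)⁻¹ ∈ M) :
    SY hA M e (u.1 z + μ • e' - z) (μ + μ * B e' (u.1 z) - B z (u.1 z + μ • e')) := by
  have h3 := comm_mem hu hk
  have h4 : B (u.1 z) e = 0 := by rw [← he, spG_form, h2]
  refine ⟨by simp [h1, h2, h4], ?_⟩
  convert h3 using 1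
  rw [← conj_mul, spE_conj, spT_conj, he, he']
  refine spG_ext fun v => ?_
  simp only [mul_inv_rev, spT_inv, spE_inv hA h2, spG_mul_apply, spT_apply]
  rw [spE_apply hA (by simp [h1, h2, h4]), spE_apply hA h4, spE_apply hA (by simp [h2])]
  simp only [map_add, map_sub, map_smul, map_neg, LinearMap.add_apply, LinearMap.smul_apply,
    LinearMap.neg_apply, smul_eq_mul, hA.self_eq_zero, h1, h2, h4,
    alt_zero hA h1, alt_zero hA h2, alt_zero hA h4, ← hA.neg_eq e' z]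
  module

theorem SY.of_spT {e v : V} {κ μ : F} (hv : B v e = 0) (h1 : spT hA (v + κ • e) μ ∈ M)
    (h2 : spT hA v μ ∈ M) : SY hA M e ((μ * κ) • v) (κ ^ 2 * μ) := by
  refine ⟨by simp [hv], ?_⟩
  convert M.mul_mem h1 (M.inv_mem h2) using 1
  refine spG_ext fun w => ?_
  simp only [spT_inv, spG_mul_apply, spT_apply]
  rw [spE_apply hA (by simp [hv])]
  simp only [map_add, map_smul, LinearMap.add_apply, LinearMap.smul_apply, smul_eq_mul,
    hA.self_eq_zero, hv, alt_zero hA hv]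
  module

theorem sp_gen [Finite F] [FiniteDimensional F V] (hB : B.Nondegenerate) (hA : B.IsAlt) {n : ℕ}
    (hn : 2 ≤ n) (hV : finrank F V = 2 * n) (h22 : n = 2 → ∃ a : F, a ≠ 0 ∧ a ≠ 1) :
    ∃ u g k : SpG B, IsNilpotent ((u.1 : End F V) - 1) ∧ ((u.1 : End F V) - 1) ^ (2 * n - 1) ≠ 0 ∧
      ∀ M : Subgroup (SpG B), u ∈ M → g * u * g⁻¹ ∈ M → k * u * k⁻¹ ∈ M → M = ⊤ := by
  obtain ⟨ξ, hξ0, hξ⟩ := exists_gen (F := F)
  obtain ⟨u, x, h⟩ : ∃ u : SpG B, ∃ x, Ch B u.1 x n (2 * n) 1 (-1) := by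
    obtain ⟨l, rfl⟩ := Nat.exists_eq_add_of_le' (show 1 ≤ n by omega)
    exact exists_ch_sp l hB hA hV 1
  have he := h.map_last (i := 2 * n - 1) (by omega) 0
  have he' : u.1 (D u.1 x (2 * n - 2) 0) = D u.1 x (2 * n - 2) 0 + D u.1 x (2 * n - 1) 0 := by
    rw [show 2 * n - 1 = 2 * n - 2 + 1 by omega, D_succ', add_sub_cancel]
  have h1 := h.s_de hn (i := 2 * n - 2) (by omega) 0
  suffices H : ∃ (c μ : F) (z : V), B z (D u.1 x (2 * n - 1) 0) = 0 ∧ ∀ M : Subgroup (SpG B),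
      u ∈ M → spT hA x c * u * (spT hA x c)⁻¹ ∈ M → SY hA M (D u.1 x (2 * n - 1) 0)
        (u.1 z + μ • D u.1 x (2 * n - 2) 0 - z) (μ + μ * B (D u.1 x (2 * n - 2) 0) (u.1 z) -
          B z (u.1 z + μ • D u.1 x (2 * n - 2) 0)) → M = ⊤ by
    obtain ⟨c, μ, z, hz, H⟩ := H
    exact ⟨u, _, _, ⟨_, h.nil⟩, Ch.pow_ne (x := x) ((h.s_xe hn 0).trans_ne one_ne_zero),
      fun M hu hg hk => H M hu hg (comm_SY hu he he' h1 hz hk)⟩
  have hl : ∀ k, B x (D u.1 x (2 * n - 1) k) = 1 := fun k => by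
    rw [h.D_last (by omega)]; exact h.s_xe hn 0
  have hd := h.s_de hn le_rfl
  by_cases h2 : (2 : F) = 0
  · have : CharP F 2 := CharTwo.of_one_ne_zero_of_two_eq_zero one_ne_zero h2
    by_cases h3 : n = 2
    · obtain ⟨a, ha0, ha1⟩ := h22 h3
      have hμ : a + a ^ 2 ≠ 0 := fun e => by grind
      obtain ⟨c, hc⟩ := (bijective_frobenius F 2).2 (ξ / (a + a ^ 2))
      rw [frobenius_def] at hc
      have hc0 : c ≠ 0 := by rintro rfl; exact div_ne_zero hξ0 hμ (by simpa using hc.symm)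
      refine ⟨c, a, a • D u.1 x 1 0, by simp [hd], fun M hu hg h4 => ?_⟩
      subst h3
      have h5 : D u.1 x 1 (0 + 1) = D u.1 x 1 0 + D u.1 x 2 0 := by rw [D_succ 1, add_sub_cancel]
      have h6 : spT hA (D u.1 x (2 * 2 - 1) 0) (a + a ^ 2) ∈ M := SY.zero_iff.1 (h4.of_eq (by
        rw [map_smul, map_D, h5]
        change _ + a • D u.1 x 2 0 - _ = _
        match_scalars <;> grind) (by
        rw [map_smul, map_D, h5]
        simp only [map_add, map_smul, LinearMap.smul_apply, hA.self_eq_zero,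
          smul_eq_mul, Nat.reduceMul, Nat.reduceSub] at hl ⊢
        simp only [h.pair 1, h.pair 2, hl, Nat.reduceAdd]
        grind))
      refine h.s_top_two hn hB hV h2 one_ne_zero hu hc0 hg (h.s_mult hn hu hg h6
        (by rw [hc, one_pow, mul_one, mul_div_cancel₀ _ hμ]) hξ (z := (a + a ^ 2) * c ^ 2) (by simp [hμ, hc0]) ?_) hμ h6
      have hy := fun k => M.mul_mem (M.mul_mem (Ch.s_ymem hu hg k) h6)
        (M.inv_mem (Ch.s_ymem hu hg k))
      simp only [spT_conj, h.s_ye hn] at hy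
      have h7 : D u.1 x 1 2 = D u.1 x 1 0 + D u.1 x (2 * 2 - 1) 0 := by
        change D u.1 x 1 (0 + 1 + 1) = _ + D u.1 x (1 + 1 + 1) 0
        rw [D_succ (1 + 1), D_succ 1, D_succ 1, ← one_smul F (D u.1 x 1 0)]
        match_scalars <;> grind
      have h8 := hy 2
      rw [h7, smul_add, ← add_assoc] at h8
      exact ⟨_, ((SY.of_spT (by simp [hd, hA.self_eq_zero]) h8 (hy 0)).add
        (SY.self ((a + a ^ 2) * c))).of_eq (by module) rfl⟩
    · refine ⟨1, 1, ξ • D u.1 x 1 0 + D u.1 x (2 * n - 3) 0,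
        by simp [hd, h.s_de hn (i := 2 * n - 3) (by omega)], fun M hu hg h4 => ?_⟩
      have h5 : u.1 (D u.1 x (2 * n - 3) 0) = D u.1 x (2 * n - 3) 0 + D u.1 x (2 * n - 2) 0 := by
        rw [show 2 * n - 2 = 2 * n - 3 + 1 by omega, D_succ', add_sub_cancel]
      have h6 : u.1 (D u.1 x 1 0) = D u.1 x 1 0 + D u.1 x 2 0 := by rw [D_succ' 1, add_sub_cancel]
      replace h4 : SY hA M (D u.1 x (2 * n - 1) 0) (ξ • D u.1 x 2 0) 1 := h4.of_eq (by
        rw [map_add, map_smul, h5, h6]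
        match_scalars <;> grind) (by
        have e1 : B (D u.1 x (2 * n - 2) 0) (D u.1 x 1 0) = 1 := by
          rw [h.pair, show 2 * n - 2 + 1 = 2 * n - 1 by omega, hl, CharTwo.neg_eq]; simp
        have e2 : B (D u.1 x (2 * n - 3) 0) (D u.1 x 2 0) = 1 := by
          rw [h.pair, show 2 * n - 3 + 2 = 2 * n - 1 by omega, hl, CharTwo.neg_eq]; simp
        have e3 : B (D u.1 x 1 0) (D u.1 x 2 0) = 0 := by
          rw [h.pair, h.psi_zero (by omega) (by omega), mul_zero]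
        simp only [map_add, map_smul, h5, h6, LinearMap.add_apply, LinearMap.smul_apply,
          hA.self_eq_zero, smul_eq_mul, ← hA.neg_eq (D u.1 x (2 * n - 2) 0) (D u.1 x 1 0),
          ← hA.neg_eq (D u.1 x (2 * n - 3) 0) (D u.1 x 1 0), e1, e2, e3,
          h.pair_zero (i := 2 * n - 2) (i' := 2) (by omega),
          h.pair_zero (i := 2 * n - 3) (i' := 2 * n - 2) (by omega),
          h.pair_zero (i := 2 * n - 2) (i' := 2 * n - 3) (by omega)]
        grind)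
      have hy := Ch.s_ymem hu hg 1
      have h7 := M.mul_mem (M.mul_mem hy h4.2) (M.inv_mem hy)
      have h8 : (spT hA (D u.1 x 0 (1 + 1)) 1 * spT hA (D u.1 x 0 1) (-1)).1 (D u.1 x 2 0) =
          D u.1 x 2 0 := by
        rw [h.s_y hn, h.pair, h.pair, h.psi_zero, h.psi_zero] <;> simp <;> omega
      rw [← conj_mul, spE_conj, spT_conj, h.s_ye hn, map_smul, h8] at h7
      have h9 : ∀ a, a • D u.1 x 2 0 ∈ sYadd hA M (D u.1 x (2 * n - 1) 0) →
          SY hA M (D u.1 x (2 * n - 1) 0) ((ξ * a) • D u.1 x 1 1) 0 := fun a ⟨t, ha⟩ => by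
        have e0 := h.s_shift hn hu (n - 2) ha
        have e1 : B (D u.1 x 2 (n - 2)) (D u.1 x 1 1) = 0 := by
          rw [h.pair, h.psi_zero (by omega) (by omega), mul_zero]
        have e2 : B (D u.1 x 2 (n - 2)) (D u.1 x 2 0) = -1 := by
          rw [h.pair, h.psi_bot (by omega) (by omega)]; norm_num
        have e3 : B (D u.1 x 2 0) (D u.1 x 1 1) = 0 := by
          rw [h.pair, h.psi_zero (by omega) (by omega), mul_zero]
        have e4 := h.s_de hn (i := 2) (by omega)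
        have e5 : B (ξ • D u.1 x 2 0) (D u.1 x (2 * n - 1) 0 + -(1 * 1 : F) • D u.1 x 1 1) = 0 := by
          simp [e3, e4]
        refine (((e0.map h7 ?_).add e0.neg).add (SY.self (ξ * a))).of_eq ?_ ?_ <;>
          simp only [spG_mul_apply, spT_apply, spE_apply hA e5, map_add, map_smul, map_neg,
            LinearMap.add_apply, LinearMap.smul_apply, LinearMap.neg_apply, smul_eq_mul, e1, e2,
            e4, hA.self_eq_zero, alt_zero hA (hd _), alt_zero hA (e4 _)]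
        · module
        · module
        · grind
      have h10 : ∀ a k, a • D u.1 x 2 0 ∈ sYadd hA M (D u.1 x (2 * n - 1) 0) →
          SY hA M (D u.1 x (2 * n - 1) 0) ((ξ * a) • D u.1 x 1 k) 0 := fun a k ha => by
        have := (h9 a ha).map (M.zpow_mem hu (k - 1))
          (by rw [Subgroup.coe_zpow, zpow_D, h.D_last (by omega)])
        rwa [map_smul, Subgroup.coe_zpow, zpow_D, add_sub_cancel] at this
      have h11 : ∀ a, a • D u.1 x 2 0 ∈ sYadd hA M (D u.1 x (2 * n - 1) 0) →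
          SY hA M (D u.1 x (2 * n - 1) 0) ((ξ * a) • D u.1 x 2 0) 0 := fun a ha =>
        ((h10 a (0 + 1) ha).add (h10 a 0 ha).neg).of_eq (by rw [D_succ 1]; module) (by
          simp only [map_smul, map_neg, LinearMap.smul_apply, LinearMap.neg_apply, h.pair]
          rw [h.psi_zero (by omega) (by omega)]
          simp)
      have h12 := mem_of_mults (C := sCoef hA M _ (D u.1 x 2 0)) ⟨_, h4⟩ hξ0
        fun k m hk hm e => ⟨ξ, fun a ha => ⟨_, h11 a ha⟩, hξ k m hk hm e⟩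
      refine h.s_top_two hn hB hV h2 one_ne_zero hu one_ne_zero hg (fun a => ?_) one_ne_zero
        (SY.zero_iff.1 ((h4.add (h11 1 (h12 1)).neg).of_eq (by module)
          (by simp [hA.self_eq_zero])))
      exact ⟨_, (h10 (a / ξ) 0 (h12 (a / ξ))).of_eq (by rw [mul_div_cancel₀ a hξ0]) rfl⟩
  · refine ⟨1, 0, (ξ / 2) • D u.1 x (2 * n - 2) 0, by simp [h1], fun M hu hg h4 => ?_⟩
    have h6 : spT hA (D u.1 x (2 * n - 1) 0) ξ ∈ M := SY.zero_iff.1
      ((h4.add (SY.self (-(ξ / 2)))).of_eq (by rw [map_smul, he']; module) (by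
        simp [he', hA.self_eq_zero, h1]
        field_simp))
    have hy := Ch.s_ymem hu hg 0
    have h7 := M.mul_mem (M.mul_mem hy h6) (M.inv_mem hy)
    have h8 := M.mul_mem (M.mul_mem (M.inv_mem hy) h6) (M.inv_mem (M.inv_mem hy))
    have h9 : (spT hA (D u.1 x 0 (0 + 1)) 1 * spT hA (D u.1 x 0 0) (-1))⁻¹.1
        (D u.1 x (2 * n - 1) 0) = -(-D u.1 x 1 0 - D u.1 x (2 * n - 1) 0) := by
      refine (LinearEquiv.symm_apply_eq _).2 ?_
      rw [map_neg, map_sub, map_neg, h.s_ye hn, h.s_yd hn]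
      module
    rw [spT_conj, h9, spT_neg] at h8
    rw [spT_conj, h.s_ye hn, show D u.1 x (2 * n - 1) 0 + -(1 * 1 : F) • D u.1 x 1 0 =
      -D u.1 x 1 0 - D u.1 x (2 * n - 1) 0 + (2 : F) • D u.1 x (2 * n - 1) 0 by module] at h7
    have h10 := h.s_mult hn hu hg h6 (by ring) hξ (z := -(ξ * 2)) (by simp [hξ0, h2])
      ⟨_, ((SY.of_spT (by simp [hd, hA.self_eq_zero]) h7 h8).add (SY.self (ξ * 2))).of_eq
        (by module) rfl⟩
    refine h.s_top hn hB hV one_ne_zero hu one_ne_zero hg h10 fun a => ?_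
    obtain ⟨t, ht⟩ := h10 1
    obtain ⟨t', ht'⟩ := h10 (a / 2)
    replace ht' := h.s_shift hn hu (n - 1) ht'
    refine SY.zero_iff.1 ((((ht.add ht').add ht.neg).add ht'.neg).of_eq (by module) ?_)
    simp [hA.self_eq_zero, h.s_dd hn, ← hA.neg_eq (D u.1 x 1 (n - 1)) (D u.1 x 1 0)]
    field_simp
    ring

end Cfsg.Agent.Cl.Reg
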