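import Mathlib
import Cfsg.Agent.Cl.FormRep
import Cfsg.Agent.Ch.Table
import Cfsg.Agent.Perm.PermChar

/-!
The decomposition of a permutation module of `G` on a set with a commuting free action of an
abelian group `A` such that `G` is transitive on the pairs of points in different `A`-orbits.
-/

set_option autoImplicit false

open Module

namespace Cfsg.Agent.Cl

theorem rep_irreducible_of_scalar {G : Type*} [Group G] [Finite G] {W : Type*} [AddCommGroup W]
    [Module ℂ W] {ρ : Representation ℂ G W} {U : Submodule ℂ W} (hU : RepInv ρ U) (h0 : U ≠ ⊥)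
    (h : ∀ T : Module.End ℂ W, (∀ g, T * ρ g = ρ g * T) → ∃ c : ℂ, ∀ w ∈ U, T w = c • w) :
    (ρ.subrepresentation U hU).IsIrreducible := by
  rw [Ch.isIrreducible_iff]
  refine ⟨Submodule.nontrivial_iff_ne_bot.2 h0, fun X hX => or_iff_not_imp_left.2 fun h1 => ?_⟩
  have h2 : RepInv ρ (X.map U.subtype) := by
    rintro g _ ⟨u, hu, rfl⟩; exact ⟨_, hX g u hu, rfl⟩
  obtain ⟨C, hC, hUC⟩ := h2.exists_isCompl (Nat.cast_ne_zero.2 Nat.card_pos.ne')
  obtain ⟨c, hc⟩ := h (Submodule.projection _ C hUC) fun g => LinearMap.ext fun w => by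
    obtain ⟨u, hu, c, hc, rfl⟩ := Submodule.mem_sup.1 (hUC.sup_eq_top.ge (Submodule.mem_top (x := w)))
    simp only [Module.End.mul_apply, map_add, Submodule.projection_apply_of_mem_left hUC hu,
      Submodule.projection_apply_of_mem_right hUC hc, map_zero,
      Submodule.projection_apply_of_mem_left hUC (h2 g u hu),
      Submodule.projection_apply_of_mem_right hUC (hC g c hc)]
  obtain ⟨u, hu, hu0⟩ := (Submodule.ne_bot_iff _).1 h1
  have h5 := hc u u.2
  rw [Submodule.projection_apply_of_mem_left hUC (x := u.1) ⟨u, hu, rfl⟩] at h5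
  have h6 : c = 1 := smul_left_injective ℂ (fun h => hu0 (Subtype.ext h))
    (h5.symm.trans (one_smul _ _).symm)
  refine eq_top_iff.2 fun w _ => ?_
  have h7 := Submodule.projection_apply_mem hUC w.1
  rw [hc w w.2, h6, one_smul] at h7
  obtain ⟨x, hx, h8⟩ := h7
  exact (Subtype.ext h8 : x = w) ▸ hx

theorem rep_character_sub {G : Type*} [Group G] {W : Type*} [AddCommGroup W] [Module ℂ W]
    [FiniteDimensional ℂ W] {ρ : Representation ℂ G W} {U : Submodule ℂ W} (hU : RepInv ρ U)
    {p : Module.End ℂ W} (hp : LinearMap.IsProj U p) (g : G) :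
    (ρ.subrepresentation U hU).character g = LinearMap.trace ℂ W (ρ g * p) := by
  have h1 : ρ g * p = (U.subtype ∘ₗ ρ.subrepresentation U hU g) ∘ₗ hp.codRestrict := rfl
  rw [h1, LinearMap.trace_comp_comm', Representation.character]
  congr 1
  ext w
  exact (hp.map_id _ (ρ.subrepresentation U hU g w).2).symm

variable (G A Ω : Type*) [Group G] [CommGroup A] [MulAction (G × A) Ω]

/-- The hypotheses on the action. -/
structure PermData : Prop where
  free : ∀ (s : A) (x : Ω), ((1 : G), s) • x = x → s = 1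
  trans : ∀ x y : Ω, ∃ g : G, (g, (1 : A)) • x = y
  trans₂ : ∀ x y x' y' : Ω, (∀ s : A, y ≠ ((1 : G), s) • x) → (∀ s : A, y' ≠ ((1 : G), s) • x') →
    ∃ g : G, (g, (1 : A)) • x = x' ∧ (g, (1 : A)) • y = y'
  lt : Nat.card A < Nat.card Ω

/-- The permutation representation of `G`. -/
noncomputable def permG : Representation ℂ G (Ω → ℂ) :=
  (permRep ℂ (G × A) Ω).comp (MonoidHom.inl G A)

/-- The permutation representation of `A`. -/
noncomputable def permA : Representation ℂ A (Ω → ℂ) :=
  (permRep ℂ (G × A) Ω).comp (MonoidHom.inr G A)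

/-- The all-one matrix. -/
def permJ [Fintype Ω] : Module.End ℂ (Ω → ℂ) where
  toFun f _ := ∑ y, f y
  map_add' f g := by ext; simp [Finset.sum_add_distrib]
  map_smul' c f := by ext; simp [Finset.mul_sum]

/-- The non-trivial constituents. -/
noncomputable def permU [Fintype Ω] (θ : AddChar (Additive A) ℂ) : Submodule ℂ (Ω → ℂ) where
  carrier := {f | (∀ s, permA G A Ω s f = θ (Additive.ofMul s) • f) ∧ permJ Ω f = 0}
  add_mem' {a b} ha hb := ⟨fun s => by rw [map_add, ha.1, hb.1, smul_add],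
    by rw [map_add, ha.2, hb.2, add_zero]⟩
  zero_mem' := by simp
  smul_mem' c a ha := ⟨fun s => by rw [map_smul, ha.1, smul_comm], by rw [map_smul, ha.2, smul_zero]⟩

open Classical in
/-- The projections onto the constituents. -/
noncomputable def permP [Fintype A] [Fintype Ω] (θ : AddChar (Additive A) ℂ) :
    Module.End ℂ (Ω → ℂ) :=
  (Fintype.card A : ℂ)⁻¹ • ∑ s, θ (-Additive.ofMul s) • permA G A Ω s -
    if θ = 0 then (Fintype.card Ω : ℂ)⁻¹ • permJ Ω else 0

variable {G A Ω}

theorem permG_apply (g : G) (f : Ω → ℂ) (x : Ω) : permG G A Ω g f x = f ((g⁻¹, (1 : A)) • x) := by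
  simp [permG, permRep]

theorem permA_apply (s : A) (f : Ω → ℂ) (x : Ω) : permA G A Ω s f x = f (((1 : G), s⁻¹) • x) := by
  simp [permA, permRep]

theorem permA_comm (g : G) (s : A) : permA G A Ω s * permG G A Ω g = permG G A Ω g * permA G A Ω s := by
  ext f x
  simp [permG_apply, permA_apply, smul_smul]

variable [Fintype Ω]

theorem permJ_apply (f : Ω → ℂ) (x : Ω) : permJ Ω f x = ∑ y, f y := rfl

theorem permJ_mul (g : G × A) : permJ Ω * permRep ℂ (G × A) Ω g = permJ Ω :=
  LinearMap.ext fun f => funext fun _ => Equiv.sum_comp (MulAction.toPerm g⁻¹) f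

theorem permU_inv (θ : AddChar (Additive A) ℂ) : RepInv (permG G A Ω) (permU G A Ω θ) :=
  fun g f hf => ⟨fun s => by
    rw [← Module.End.mul_apply, permA_comm, Module.End.mul_apply, hf.1, map_smul],
    (LinearMap.congr_fun (permJ_mul (g, (1 : A))) f).trans hf.2⟩

variable [Fintype A]

theorem permP_isProj [Nonempty Ω] (θ : AddChar (Additive A) ℂ) :
    LinearMap.IsProj (permU G A Ω θ) (permP G A Ω θ) := by
  have h1 : ∀ s, permJ Ω * permA G A Ω s = permJ Ω := fun s => permJ_mul ((1 : G), s)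
  have h2 : ∀ s, permA G A Ω s * permJ Ω = permJ Ω := fun s => rfl
  have hA : (Fintype.card A : ℂ) ≠ 0 := by simp
  refine ⟨fun f => ⟨fun t => ?_, ?_⟩, fun f hf => ?_⟩
  · rw [← Module.End.mul_apply, ← LinearMap.smul_apply, permP, mul_sub, smul_sub, mul_smul_comm,
      smul_comm, Finset.mul_sum, Finset.smul_sum (r := θ _), ← Equiv.sum_comp (Equiv.mulLeft t)
        fun s => θ (Additive.ofMul t) • θ (-Additive.ofMul s) • permA G A Ω s]
    congr 3
    · refine Finset.sum_congr rfl fun s _ => ?_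
      simp [smul_smul, ← AddChar.map_add_eq_mul, add_comm (-Additive.ofMul s)]
    · split_ifs with h <;> simp [h, h2]
  · rw [← Module.End.mul_apply, permP, mul_sub, mul_smul_comm, Finset.mul_sum]
    simp only [mul_smul_comm, h1, ← Finset.sum_smul]
    rw [show ∑ s : A, θ (-Additive.ofMul s) = ∑ s, θ s from
      Fintype.sum_equiv (Additive.ofMul.trans (Equiv.neg _)) _ _ fun _ => rfl]
    split_ifs with h
    · ext x
      simp [h, permJ_apply]
    · simp [AddChar.sum_eq_zero_iff_ne_zero.2 h]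
  · rw [permP, LinearMap.sub_apply, LinearMap.smul_apply, LinearMap.sum_apply]
    simp only [LinearMap.smul_apply, hf.1, smul_smul, ← AddChar.map_add_eq_mul, neg_add_cancel,
      AddChar.map_zero_eq_one, one_smul, Finset.sum_const, Finset.card_univ,
      ← Nat.cast_smul_eq_nsmul ℂ, inv_mul_cancel₀ hA]
    split_ifs <;> simp [hf.2]

theorem permP_sum : ∑ θ, permP G A Ω θ + (Fintype.card Ω : ℂ)⁻¹ • permJ Ω = 1 := by
  classical
  simp only [permP, Finset.sum_sub_distrib, ← Finset.smul_sum]
  rw [Finset.sum_comm]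
  simp only [← Finset.sum_smul, AddChar.sum_apply_eq_ite, neg_eq_zero, ofMul_eq_zero]
  simp

theorem permP_comm (θ : AddChar (Additive A) ℂ) (g : G) :
    permP G A Ω θ * permG G A Ω g = permG G A Ω g * permP G A Ω θ := by
  have h1 : permJ Ω * permG G A Ω g = permG G A Ω g * permJ Ω := permJ_mul (g, (1 : A))
  rw [permP, sub_mul, mul_sub]
  congr 1
  · simp [Finset.mul_sum, Finset.sum_mul, permA_comm]
  · split_ifs <;> simp [h1]

omit [Fintype A] in
theorem permJ_trace : LinearMap.trace ℂ _ (permJ Ω) = Fintype.card Ω := by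
  classical
  rw [LinearMap.trace_eq_matrix_trace ℂ (Pi.basisFun ℂ Ω)]
  simp [Matrix.trace, permJ_apply]

namespace PermData

variable (h : PermData G A Ω)
include h

omit [Fintype A] [Fintype Ω] in
theorem nonempty : Nonempty Ω := (Nat.card_pos_iff.1 (Nat.zero_lt_of_lt h.lt)).1

open Classical in
theorem finrank_permU (θ : AddChar (Additive A) ℂ) :
    Nat.card A * (finrank ℂ (permU G A Ω θ) + if θ = 0 then 1 else 0) = Nat.card Ω := by
  have := h.nonempty
  have h1 : ∀ s, LinearMap.trace ℂ _ (permA G A Ω s) = if s = 1 then (Fintype.card Ω : ℂ) else 0 :=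
    fun s => by
      split_ifs with hs
      · simp [hs]
      refine (congrFun (Perm.character_permRep (G := G × A) (Ω := Ω)) (1, s)).trans ?_
      have : IsEmpty (MulAction.fixedBy Ω ((1 : G), s)) := ⟨fun x => hs (h.free s x x.2)⟩
      simp
  have h2 := (permP_isProj (G := G) (Ω := Ω) θ).trace
  simp only [permP, map_sub, map_smul, map_sum, h1, smul_eq_mul, mul_ite, mul_zero,
    Finset.sum_ite_eq', Finset.mem_univ, if_true, ofMul_one, neg_zero, AddChar.map_zero_eq_one,
    one_mul] at h2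
  apply Nat.cast_injective (R := ℂ)
  push_cast
  rw [← h2, Nat.card_eq_fintype_card, Nat.card_eq_fintype_card]
  split_ifs <;> simp [permJ_trace]

theorem permU_ne_bot (θ : AddChar (Additive A) ℂ) : permU G A Ω θ ≠ ⊥ := fun h0 => by
  have h1 := h.finrank_permU θ
  have h2 := h.lt
  rw [h0, finrank_bot] at h1
  split_ifs at h1 <;> omega

theorem exists_scalar (T : Module.End ℂ (Ω → ℂ)) (hT : ∀ g, T * permG G A Ω g = permG G A Ω g * T)
    (θ : AddChar (Additive A) ℂ) : ∃ c : ℂ, ∀ w ∈ permU G A Ω θ, T w = c • w := by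
  classical
  obtain ⟨x₀⟩ := h.nonempty
  have h1 : ∀ (g : G) x y, T (Pi.single ((g, (1 : A)) • y) 1) ((g, (1 : A)) • x) =
      T (Pi.single y 1) x := fun g x y => by
    have h2 := congrFun (LinearMap.congr_fun (hT g) (Pi.single y 1)) ((g, (1 : A)) • x)
    rw [Module.End.mul_apply, Module.End.mul_apply, permG_apply, smul_smul] at h2
    simp only [Prod.mk_mul_mk, inv_mul_cancel, mul_one, Prod.mk_one_one, one_smul] at h2
    rw [← h2]
    refine congrArg (fun f => T f _) (funext fun z => ?_)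
    rw [permG_apply, Pi.single_apply, Pi.single_apply]
    congr 1
    rw [show (g⁻¹, (1 : A)) = (g, (1 : A))⁻¹ by simp, inv_smul_eq_iff]
  obtain ⟨y₀, hy₀⟩ : ∃ y, ∀ s : A, y ≠ ((1 : G), s) • x₀ := by
    by_contra! H
    exact h.lt.not_ge (Nat.card_le_card_of_surjective (fun s : A => ((1 : G), s) • x₀)
      fun y => (H y).imp fun _ => Eq.symm)
  refine ⟨∑ s : A, (T (Pi.single (((1 : G), s⁻¹) • x₀) 1) x₀ - T (Pi.single y₀ 1) x₀) *
    θ (Additive.ofMul s), fun w hw => funext fun x => ?_⟩
  have h2 : T w x = ∑ y, w y * (T (Pi.single y 1) x - T (Pi.single y₀ 1) x₀) := by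
    have h2 : ∑ y, w y = 0 := congrFun hw.2 x
    simp only [mul_sub, Finset.sum_sub_distrib, ← Finset.sum_mul, h2, zero_mul, sub_zero]
    conv_lhs => rw [pi_eq_sum_univ' w]
    simp
  rw [h2, Pi.smul_apply, smul_eq_mul, Finset.sum_mul]
  refine (Finset.sum_of_injOn (fun s : A => ((1 : G), s⁻¹) • x) (fun s _ t _ hst => ?_)
    (fun _ _ => Finset.mem_univ _) (fun y _ hy => ?_) fun s _ => ?_).symm
  · have h3 := h.free (t * s⁻¹) x (by
      rw [show ((1 : G), t * s⁻¹) = ((1 : G), t) * (1, s⁻¹) by simp, mul_smul]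
      simp only at hst
      rw [hst, smul_smul]; simp [Prod.mk_one_one])
    exact (mul_inv_eq_one.1 h3).symm
  · obtain ⟨g, rfl, rfl⟩ := h.trans₂ x₀ y₀ x y hy₀ fun s hs => hy ⟨s⁻¹, by simp, by simp [hs]⟩
    rw [h1, sub_self, mul_zero]
  · obtain ⟨g, rfl⟩ := h.trans x₀ x
    rw [← permA_apply s w, hw.1, show ((1 : G), s⁻¹) • (g, (1 : A)) • x₀ =
      (g, (1 : A)) • ((1 : G), s⁻¹) • x₀ by simp [smul_smul], h1, Pi.smul_apply, smul_eq_mul]
    ring

variable [Finite G]

theorem irreducible (θ : AddChar (Additive A) ℂ) :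
    ((permG G A Ω).subrepresentation _ (permU_inv θ)).IsIrreducible :=
  rep_irreducible_of_scalar _ (h.permU_ne_bot θ) fun T hT => h.exists_scalar T hT θ

theorem character_injective : Function.Injective fun θ : AddChar (Additive A) ℂ =>
    ((permG G A Ω).subrepresentation _ (permU_inv θ)).character := fun θ θ' hθ => by
  have := h.nonempty
  obtain ⟨φ⟩ := Ch.nonempty_equiv_of_character_eq _ _ hθ
  obtain ⟨c, hc⟩ := h.exists_scalar ((permU G A Ω θ').subtype ∘ₗ φ.toLinearEquiv.toLinearMap ∘ₗ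
    (permP_isProj θ).codRestrict) (fun g => LinearMap.ext fun f => by
      have h1 : (permP_isProj θ).codRestrict (permG G A Ω g f) =
          (permG G A Ω).subrepresentation _ (permU_inv θ) g ((permP_isProj θ).codRestrict f) :=
        Subtype.ext (LinearMap.congr_fun (permP_comm θ g) f)
      simp only [Module.End.mul_apply, LinearMap.comp_apply, h1]
      exact congrArg Subtype.val (Ch.equiv_apply_apply φ g _)) θ
  obtain ⟨w, hw, hw0⟩ := (Submodule.ne_bot_iff _).1 (h.permU_ne_bot θ)
  have h1 : (φ ⟨w, hw⟩).1 = c • w := by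
    rw [← hc w hw]
    exact congrArg (fun x => (φ x).1) (Subtype.ext ((permP_isProj θ).map_id w hw).symm)
  have h2 : c • w ≠ 0 := fun h0 => hw0 (congrArg Subtype.val
    (φ.toLinearEquiv.map_eq_zero_iff.1 (Subtype.ext (h1.trans h0))))
  ext s
  exact smul_left_injective ℂ h2 ((((permU G A Ω θ).smul_mem c hw).1 s.toMul).symm.trans
    (h1 ▸ (φ ⟨w, hw⟩).2.1 s.toMul))

omit [Finite G] in
theorem character_sum (g : G) : (Nat.card (MulAction.fixedBy Ω (g, (1 : A))) : ℂ) =
    1 + ∑ θ, ((permG G A Ω).subrepresentation _ (permU_inv θ)).character g := by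
  classical
  have := h.nonempty
  simp only [fun θ => rep_character_sub (permU_inv (G := G) (Ω := Ω) θ) (permP_isProj θ) g]
  rw [← map_sum, ← Finset.mul_sum, eq_sub_of_add_eq permP_sum, mul_sub, mul_one, map_sub,
    mul_smul_comm, map_smul, show permG G A Ω g * permJ Ω = permJ Ω from rfl, permJ_trace]
  rw [smul_eq_mul, inv_mul_cancel₀ (by simp), add_sub_cancel]
  exact (congrFun (Perm.character_permRep (G := G × A) (Ω := Ω)) (g, 1)).symm

theorem exists_finrank_le {D : Type*} [AddCommGroup D] [Module ℂ D] [FiniteDimensional ℂ D]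
    {ρ : Representation ℂ G D} (hfix : ∀ y, (∀ g, ρ g y = y) → y = 0) {d : Ω → D}
    (hd : ∀ g x, ρ g (d x) = d ((g, (1 : A)) • x)) {x : Ω} (hx : d x ≠ 0) :
    Nat.card Ω ≤ Nat.card A * (finrank ℂ D + 1) := by
  classical
  have := h.nonempty
  let Φ : (Ω → ℂ) →ₗ[ℂ] D := Fintype.linearCombination ℂ d
  have h1 : ∀ g f, Φ (permG G A Ω g f) = ρ g (Φ f) := fun g f => by
    simp only [Φ, Fintype.linearCombination_apply, map_sum, map_smul, hd, permG_apply]
    refine (Fintype.sum_equiv (MulAction.toPerm (g, (1 : A))) _ _ fun y => ?_).symm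
    simp [smul_smul, Prod.mk_one_one]
  obtain ⟨θ, hθ⟩ : ∃ θ, Φ (permP G A Ω θ (Pi.single x 1)) ≠ 0 := by
    by_contra! H
    have h2 := congrArg Φ (LinearMap.congr_fun (permP_sum (G := G) (A := A)) (Pi.single x 1))
    rw [LinearMap.add_apply, LinearMap.sum_apply, map_add, map_sum, Finset.sum_eq_zero fun θ _ => H θ,
      LinearMap.smul_apply, map_smul, hfix (Φ (permJ Ω _)) fun g => (h1 g _).symm] at h2
    exact hx (by simpa [Φ] using h2.symm)
  have h2 : Function.Injective (Φ ∘ₗ (permU G A Ω θ).subtype) := by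
    refine LinearMap.ker_eq_bot.1 ((((Ch.isIrreducible_iff _).1 (h.irreducible θ)).2 _
      fun g v hv => ?_).resolve_right fun h2 => hθ ?_)
    · exact (h1 g v).trans ((congrArg (ρ g) hv).trans (map_zero _))
    · exact h2.ge (Submodule.mem_top (x := ⟨_, (permP_isProj θ).map_mem _⟩))
  rw [← h.finrank_permU θ]
  exact Nat.mul_le_mul_left _ (add_le_add (LinearMap.finrank_le_finrank_of_injective h2)
    (by split_ifs <;> simp))

end PermData

end Cfsg.Agent.Cl
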