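import Mathlib
import Cfsg.Agent.Cl.RepSLa

/-!
A representation of `SL` of small degree is a quotient of the permutation module on vectors.
-/

set_option autoImplicit false

open Module Matrix

namespace Cfsg.Agent.Cl

variable {ι : Type*} [Fintype ι] [DecidableEq ι] {F : Type*} [Field F]

theorem slTau_tv {a φ : ι → F} (h : φ ⬝ᵥ a = 0) : slInvTranspose ι F (tv a φ) = tv (-φ) a := by
  apply sl_ext
  rw [coe_slInvTranspose, tv_inv, coe_tv (by simp [h]), coe_tv (by simp [dotProduct_comm a, h]),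
    transpose_add, transpose_one, transpose_vecMulVec]
  simp

theorem slTau_dot (g : Matrix.SpecialLinearGroup ι F) (φ x : ι → F) :
    ((slInvTranspose ι F g : Matrix ι ι F) *ᵥ φ) ⬝ᵥ ((g : Matrix ι ι F) *ᵥ x) = φ ⬝ᵥ x := by
  rw [coe_slInvTranspose, mulVec_transpose, sl_dot_conj]

theorem sl_mulVec_inj (g : Matrix.SpecialLinearGroup ι F) {x y : ι → F} :
    (g : Matrix ι ι F) *ᵥ x = (g : Matrix ι ι F) *ᵥ y ↔ x = y :=
  ⟨fun h => by rw [← sl_inv_mulVec_mulVec g x, h, sl_inv_mulVec_mulVec], fun h => by rw [h]⟩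

theorem exists_dot_extend (U : Submodule F (ι → F)) {z : ι → F} (hz : z ∉ U) (φ : ι → F) :
    ∃ φ' : ι → F, (∀ u ∈ U, φ' ⬝ᵥ u = φ ⬝ᵥ u) ∧ φ' ⬝ᵥ z = 1 := by
  obtain ⟨f, h1, h2⟩ := U.exists_dual_map_eq_bot_of_notMem hz inferInstance
  have h3 : ∀ v, (fun i => f (Pi.single i 1)) ⬝ᵥ v = f v := fun v => by
    rw [LinearMap.pi_apply_eq_sum_univ, dotProduct]
    exact Finset.sum_congr rfl fun i _ => by
      rw [smul_eq_mul, mul_comm]; congr 2; ext j; simp [Pi.single_apply, eq_comm]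
  refine ⟨φ + ((1 - φ ⬝ᵥ z) / f z) • fun i => f (Pi.single i 1), fun u hu => ?_, ?_⟩
  · have : f u = 0 := h2.le (Submodule.mem_map_of_mem hu)
    rw [add_dotProduct, smul_dotProduct, h3, this, smul_zero, add_zero]
  · rw [add_dotProduct, smul_dotProduct, h3, smul_eq_mul, div_mul_cancel₀ _ h1, add_sub_cancel]

variable {D : Type*} [AddCommGroup D] [Module ℂ D]

/-- A cocycle on pairs of vectors is the coboundary of an equivariant function. -/
theorem sl_exists_equivariant [Fintype F] (h3 : 3 ≤ Fintype.card ι)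
    (hq : 4 * Fintype.card F < Fintype.card F ^ Fintype.card ι)
    (ρ : Representation ℂ (Matrix.SpecialLinearGroup ι F) D) (E : (ι → F) → (ι → F) → D)
    (hE : ∀ g x φ, ρ g (E x φ) =
      E ((g : Matrix ι ι F) *ᵥ x) ((slInvTranspose ι F g : Matrix ι ι F) *ᵥ φ))
    (h1 : ∀ x y φ φ', φ ⬝ᵥ x = 1 → φ ⬝ᵥ y = 1 → φ' ⬝ᵥ x = 1 → φ' ⬝ᵥ y = 1 →
      E y φ - E x φ = E y φ' - E x φ')
    (h2 : ∃ x y φ, φ ⬝ᵥ x = 1 ∧ φ ⬝ᵥ y = 1 ∧ E y φ ≠ E x φ) :
    ∃ d : (ι → F) → D, (∀ g x, ρ g (d x) = d ((g : Matrix ι ι F) *ᵥ x)) ∧ ∃ x ≠ 0, d x ≠ 0 := by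
  classical
  let Δ : (ι → F) → (ι → F) → D := fun x y =>
    if h : ∃ φ, φ ⬝ᵥ x = 1 ∧ φ ⬝ᵥ y = 1 then E y h.choose - E x h.choose else 0
  have hΔ : ∀ {x y φ}, φ ⬝ᵥ x = 1 → φ ⬝ᵥ y = 1 → Δ x y = E y φ - E x φ := fun {x y φ} hx hy => by
    have h : ∃ φ, φ ⬝ᵥ x = 1 ∧ φ ⬝ᵥ y = 1 := ⟨φ, hx, hy⟩
    exact (dif_pos h).trans (h1 _ _ _ _ h.choose_spec.1 h.choose_spec.2 hx hy)
  have hΔ' : ∀ g x y, ρ g (Δ x y) = Δ ((g : Matrix ι ι F) *ᵥ x) ((g : Matrix ι ι F) *ᵥ y) :=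
    fun g x y => by
      by_cases h : ∃ φ, φ ⬝ᵥ x = 1 ∧ φ ⬝ᵥ y = 1
      · obtain ⟨φ, hx, hy⟩ := h
        rw [hΔ hx hy, hΔ ((slTau_dot g φ x).trans hx) ((slTau_dot g φ y).trans hy), map_sub, hE, hE]
      · simp only [Δ]
        rw [dif_neg h, dif_neg, map_zero]
        rintro ⟨φ, hx, hy⟩
        exact h ⟨φ ᵥ* g, by rwa [← dotProduct_mulVec], by rwa [← dotProduct_mulVec]⟩
  refine ⟨fun x => ∑ y, Δ y x, fun g x => ?_, ?_⟩
  · rw [map_sum]
    exact Fintype.sum_bijective ((g : Matrix ι ι F) *ᵥ ·) (Finite.injective_iff_bijective.1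
      fun _ _ => (sl_mulVec_inj g).1) _ _ fun y => hΔ' g y x
  by_contra! H
  obtain ⟨x₀, y₀, φ₀, h4, h5, h6⟩ := h2
  obtain ⟨l, hl⟩ := Module.Projective.exists_dual_ne_zero ℂ (sub_ne_zero.2 h6)
  obtain ⟨⟨x', x⟩, hmax⟩ := Finite.exists_max fun p : (ι → F) × (ι → F) => ‖l (Δ p.1 p.2)‖
  have hM : 0 < ‖l (Δ x' x)‖ := (norm_pos_iff.2 (hΔ h4 h5 ▸ hl)).trans_le (hmax (x₀, y₀))
  obtain ⟨φ, hx', hx⟩ : ∃ φ, φ ⬝ᵥ x' = 1 ∧ φ ⬝ᵥ x = 1 := by
    by_contra h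
    simp [Δ, dif_neg h] at hM
  have h7 : ∀ {x φ : ι → F}, φ ⬝ᵥ x = 1 → ∀ c : F, Δ (c • x) x = 0 := fun {x φ} hx c => by
    by_cases h : ∃ φ, φ ⬝ᵥ c • x = 1 ∧ φ ⬝ᵥ x = 1
    · obtain ⟨φ', h8, h9⟩ := h
      rw [hΔ h8 h9, show c = 1 by simpa [h9] using h8, one_smul, sub_self]
    · exact dif_neg h
  have h8 : ∀ y, y ∉ Submodule.span F {x} → y ∉ Submodule.span F {x'} →
      Δ y x - Δ y x' = Δ x' x := fun y hy hy' => by
    have hs : ∀ {a b z : ι → F} {φ : ι → F}, z ∉ Submodule.span F {a, b} → φ ⬝ᵥ a = 1 →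
        φ ⬝ᵥ b = 1 → ∃ φ', φ' ⬝ᵥ a = 1 ∧ φ' ⬝ᵥ b = 1 ∧ φ' ⬝ᵥ z = 1 := fun {a b z φ} hz ha hb => by
      obtain ⟨φ', h1, h2⟩ := exists_dot_extend _ hz φ
      exact ⟨φ', (h1 a (Submodule.subset_span (by simp))).trans ha,
        (h1 b (Submodule.subset_span (by simp))).trans hb, h2⟩
    by_cases h : y ∈ Submodule.span F {x, x'}
    · obtain ⟨z, hz⟩ : ∃ z, z ∉ Submodule.span F {x, x'} := by
        by_contra! h9
        have h10 := finrank_span_finset_le_card (R := F) {x, x'}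
        rw [Set.finrank, Finset.coe_pair, Submodule.eq_top_iff'.2 h9, finrank_top,
          Module.finrank_fintype_fun_eq_card] at h10
        have := Finset.card_le_two (a := x) (b := x')
        omega
      obtain ⟨a, -, ha, ha'⟩ := hs (a := x) (b := x) (by simpa using hy) hx hx
      obtain ⟨b, -, hb, hb'⟩ := hs (a := x') (b := x') (by simpa using hy') hx' hx'
      obtain ⟨φ₁, a1, a2, a3⟩ := hs (z := z) (fun h9 => hz (Submodule.span_le.2
        (Set.pair_subset (Submodule.subset_span (by simp)) h) h9)) ha ha'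
      obtain ⟨φ₂, b1, b2, b3⟩ := hs (z := z) (fun h9 => hz (Submodule.span_le.2
        (Set.pair_subset (Submodule.subset_span (by simp)) h) h9)) hb hb'
      obtain ⟨φ₃, c1, c2, c3⟩ := hs hz hx hx'
      rw [hΔ a2 a1, hΔ b2 b1, hΔ c2 c1]
      linear_combination (norm := module) h1 _ _ _ _ a2 a3 b2 b3 - h1 _ _ _ _ a1 a3 c1 c3 +
        h1 _ _ _ _ b1 b3 c2 c3
    · obtain ⟨φ', c1, c2, c3⟩ := hs h hx hx'
      rw [hΔ c3 c1, hΔ c3 c2, hΔ c2 c1]
      abel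
  let S : Finset (ι → F) := Finset.univ.image (· • x : F → ι → F) ∪ Finset.univ.image (· • x' : F → _)
  have hS : S.card ≤ 2 * Fintype.card F := (Finset.card_union_le _ _).trans (by
    rw [two_mul]; exact add_le_add Finset.card_image_le Finset.card_image_le)
  have h9 : (Sᶜ.card : ℂ) * l (Δ x' x) = -∑ y ∈ S, l (Δ y x - Δ y x') := by
    have h9 : ∑ y, l (Δ y x - Δ y x') = 0 := by
      rw [← map_sum, Finset.sum_sub_distrib, H x (by rintro rfl; simp at hx),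
        H x' (by rintro rfl; simp at hx'), sub_self, map_zero]
    rw [← Finset.sum_add_sum_compl S, Finset.sum_congr rfl (s₂ := Sᶜ) (g := fun _ => l (Δ x' x))
      fun y hy => by
        rw [h8 y] <;> rw [Submodule.mem_span_singleton] <;> rintro ⟨c, rfl⟩ <;> simp [S] at hy]
      at h9
    rw [eq_neg_iff_add_eq_zero, add_comm, ← h9]
    simp
  have h10 : (Sᶜ.card : ℝ) * ‖l (Δ x' x)‖ ≤ S.card * ‖l (Δ x' x)‖ := by
    rw [← Complex.norm_natCast, ← norm_mul, h9, norm_neg, ← nsmul_eq_mul]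
    refine (norm_sum_le _ _).trans (Finset.sum_le_card_nsmul _ _ _ fun y hy => ?_)
    simp only [S, Finset.mem_union, Finset.mem_image] at hy
    obtain ⟨c, -, rfl⟩ | ⟨c, -, rfl⟩ := hy
    · simpa [h7 hx] using hmax (c • x, x')
    · simpa [h7 hx'] using hmax (c • x', x)
  have h11 : Sᶜ.card ≤ S.card := by exact_mod_cast le_of_mul_le_mul_right h10 hM
  rw [Finset.card_compl, Fintype.card_fun] at h11
  omega

variable {ρ : Representation ℂ (Matrix.SpecialLinearGroup ι F) D} {ψ : AddChar F ℂ}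
  [FiniteDimensional ℂ D]

theorem slWt_exists_basis [Finite F] (ρ : Representation ℂ (Matrix.SpecialLinearGroup ι F) D)
    (w : ι → F) : ∃ (b : Basis (Fin (finrank ℂ D)) ℂ D)
      (χ : Fin (finrank ℂ D) → {f : ι → F // f ⬝ᵥ w = 0} → ℂ),
      ∀ f i, ρ (tv w f.1) (b i) = χ i f • b i :=
  exists_repWt_basis ρ fun f g => (tv_commute f.2 f.2 g.2).eq

theorem sl_small_relation [Finite F] (hψ : ψ ≠ 1) (h : SLGen ι F) {i j : ι} (hij : i ≠ j)
    (h1 : finrank ℂ (slWt ρ ψ (Pi.single i 1) (Pi.single j 1)) ≤ 1) {x w φ f : ι → F}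
    (hx : φ ⬝ᵥ x = 1) (hw : φ ⬝ᵥ w = 0) (hfx : f ⬝ᵥ x = 0) (hfw : f ⬝ᵥ w = 0) {η : D}
    (hη : ∀ f, f ⬝ᵥ w = 0 → f ⬝ᵥ x = 0 → ρ (tv w f) η = η) :
    ρ (tv x f) (ρ (tv w φ) η - η) = ρ (tv w φ) η - η := by
  by_cases hw0 : w = 0
  · simp [hw0]
  obtain ⟨b, χ, hb⟩ := slWt_exists_basis ρ w
  rw [← sub_eq_zero]
  refine repWt_map_eq_zero b (r := fun f : {f : ι → F // f ⬝ᵥ w = 0 ∧ f ⬝ᵥ x = 0} => tv w f.1)
    (χ := fun k f => χ k ⟨f.1, f.2.1⟩) (l := 1) (fun f k => hb ⟨f.1, f.2.1⟩ k)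
    ((ρ (tv x f) - 1) * (ρ (tv w φ) - 1)) (w := η) (fun k hk => ?_)
    fun f => by simp [hη f.1 f.2.1 f.2.2]
  have h2 : repWt ρ (fun c : F => tv w (c • φ)) (fun c => χ k ⟨c • φ, by simp [hw]⟩) ≠ ⊥ :=
    (Submodule.ne_bot_iff _).2 ⟨b k, fun c => hb ⟨_, _⟩ k, b.ne_zero k⟩
  obtain ⟨s, hs⟩ := addChar_exists_eq hψ (fun c => χ k ⟨c • φ, by simp [hw]⟩)
    (repWt_one h2 (x := 0) (by simp)) fun c d =>
    repWt_mul h2 (by rw [← tv_add_right (by simp [hw]) (by simp [hw]), add_smul])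
  have h3 : b k ∈ slWt ρ ψ w (s • x) := mem_slWt.2 fun g hg => by
    have h3 := hb ⟨g - (g ⬝ᵥ x) • φ, by simp [hg, hw]⟩ k
    rw [congrFun hk ⟨g - (g ⬝ᵥ x) • φ, by simp [hg, hw], by simp [hx]⟩] at h3
    rw [← sub_add_cancel g ((g ⬝ᵥ x) • φ), tv_add_right (by simp [hg, hw]) (by simp [hw]), map_mul,
      Module.End.mul_apply, hb ⟨_, by simp [hw]⟩ k, map_smul, h3, hs, sub_add_cancel]
    simp [mul_comm]
  have h4 := mem_slWt.1 h3 φ hw
  by_cases hs0 : s = 0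
  · simp [h4, hs0]
  have h5 := slWt_fix h hij h1 (LinearIndependent.pair_iff.2 fun a c hac => by
    have h5 : c = 0 := by simpa [hw, hx, hs0] using congrArg (φ ⬝ᵥ ·) hac
    exact ⟨by simpa [h5, hw0] using hac, h5⟩) h3 (tv_fix hfx hfw) (tv_fix hfx (by simp [hfx]))
  simp [h4, h5]

theorem sl_small_exists_equivariant [Fintype F] (hψ : ψ ≠ 1) (h : SLGen ι F) {i j : ι}
    (hij : i ≠ j) (h1 : finrank ℂ (slWt ρ ψ (Pi.single i 1) (Pi.single j 1)) ≤ 1)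
    (h2 : finrank ℂ (slWt (ρ.comp (slInvTranspose ι F).toMonoidHom) ψ (Pi.single i 1)
      (Pi.single j 1)) = 1) :
    ∃ d : (ι → F) → D, (∀ g x, ρ g (d x) = d ((g : Matrix ι ι F) *ᵥ x)) ∧ ∃ x ≠ 0, d x ≠ 0 := by
  classical
  set ρ' : Representation ℂ _ D := ρ.comp (slInvTranspose ι F).toMonoidHom with hρ'
  have hτ : ∀ g, ρ g = ρ' (slInvTranspose ι F g) := fun g => by
    simp [hρ', slInvTranspose_slInvTranspose]
  obtain ⟨b, χ, hb⟩ := slWt_exists_basis ρ' (Pi.single i 1)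
  obtain ⟨k, hk⟩ : ∃ k, χ k = fun f => ψ (f.1 ⬝ᵥ Pi.single j 1) := by
    by_contra! H
    obtain ⟨y, hy, hy0⟩ := (Submodule.ne_bot_iff _).1 (mt Submodule.finrank_eq_zero.2
      (h2 ▸ one_ne_zero))
    exact hy0 (repWt_map_eq_zero b hb LinearMap.id (fun k hk => (H k hk).elim) hy)
  have hy : b k ∈ slWt ρ' ψ (Pi.single i 1) (Pi.single j 1) := fun f => by rw [hb, hk]
  have hl : ∀ f, f ⬝ᵥ Pi.single i 1 = 0 → ∀ y, b.coord k (ρ' (tv (Pi.single i 1) f) y) =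
      ψ (f j) * b.coord k y := fun f hf => by
    refine LinearMap.congr_fun (f := b.coord k ∘ₗ ρ' _) (g := ψ (f j) • b.coord k) (b.ext fun m => ?_)
    rw [LinearMap.comp_apply, hb ⟨f, hf⟩]
    by_cases hm : m = k <;> simp [hm, hk]
  let E : (ι → F) → (ι → F) → D := fun x φ => ∑ g : Matrix.SpecialLinearGroup ι F,
    if (g : Matrix ι ι F) *ᵥ Pi.single i 1 = x ∧
      (slInvTranspose ι F g : Matrix ι ι F) *ᵥ Pi.single i 1 = φ then ρ g (b k) else 0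
  have hE : ∀ g x φ, ρ g (E x φ) =
      E ((g : Matrix ι ι F) *ᵥ x) ((slInvTranspose ι F g : Matrix ι ι F) *ᵥ φ) := fun g x φ => by
    rw [map_sum]
    refine Fintype.sum_equiv (Equiv.mulLeft g) _ _ fun g' => ?_
    simp only [Equiv.coe_mulLeft, map_mul, sl_mul_mulVec', sl_mulVec_inj, Module.End.mul_apply]
    split_ifs <;> simp
  have hEt : ∀ {a f : ι → F}, f ⬝ᵥ a = 0 → ∀ x φ, ρ (tv a f) (E x φ) =
      E (x + (f ⬝ᵥ x) • a) (φ - (a ⬝ᵥ φ) • f) := fun {a f} hf x φ => by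
    rw [hE, slTau_tv hf, tv_mulVec hf, tv_mulVec (by simp [dotProduct_comm a, hf]), smul_neg,
      sub_eq_add_neg]
  refine sl_exists_equivariant h.three_le ?_ ρ E hE (fun x y φ φ' hx hy hx' hy' => ?_) ?_
  · have hq := Fintype.one_lt_card (α := F)
    by_cases h4 : 4 ≤ Fintype.card ι
    · refine lt_of_lt_of_le ?_ (Nat.pow_le_pow_right (by omega) h4)
      have : 2 ^ 3 ≤ Fintype.card F ^ 3 := Nat.pow_le_pow_left hq _
      rw [pow_succ]
      nlinarith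
    obtain ⟨h5, a, ha, ha'⟩ : Fintype.card ι = 3 ∧ ∃ a : F, a ≠ 0 ∧ a ^ 3 ≠ 1 := by
      rcases h with h | h | h
      exacts [by omega, by omega, h]
    have h6 : 2 < Fintype.card F := Fintype.two_lt_card_iff.2
      ⟨0, 1, a, zero_ne_one, ha.symm, by rintro rfl; simp at ha'⟩
    rw [h5, pow_succ]
    nlinarith
  · have h3 : φ ⬝ᵥ (y - x) = 0 := by simp [hx, hy]
    have h4 : (φ - φ') ⬝ᵥ x = 0 := by simp [hx, hx']
    have h5 := sl_small_relation hψ h hij h1 hx h3 h4 (by simp [hx, hy, hx', hy']) (η := E x φ)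
      fun f hf hf' => by rw [hEt hf, hf', dotProduct_comm, h3]; simp
    rw [hEt h3, map_sub, hEt h4, hEt h4] at h5
    simpa [hx, hy, hx', hy', dotProduct_comm _ φ] using h5.symm
  obtain ⟨c, hc⟩ := AddChar.ne_one_iff.1 hψ
  have h3 : (Pi.single i 1 : ι → F) ⬝ᵥ -Pi.single j c = 0 := by simp [hij]
  refine ⟨Pi.single i 1, Pi.single i 1 - Pi.single j c, Pi.single i 1, by simp, by simp [hij],
    fun h4 => ?_⟩
  have h5 := hEt h3 (Pi.single i 1) (Pi.single i 1)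
  have h6 := hl (Pi.single j c) (by simp [hij.symm]) (E (Pi.single i 1) (Pi.single i 1))
  rw [hτ, slTau_tv h3, ← neg_one_smul F (Pi.single i 1), tv_smul] at h5
  simp only [neg_one_smul, neg_neg, dotProduct_comm (-Pi.single j c), h3, zero_smul, sub_zero,
    single_dotProduct, Pi.single_eq_same, one_mul, one_smul, ← sub_eq_add_neg, h4] at h5
  rw [h5, Pi.single_eq_same, ← sub_eq_zero, ← one_sub_mul] at h6
  have h7 := (mul_eq_zero.1 h6).resolve_left (sub_ne_zero.2 hc.symm)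
  rw [map_sum, Finset.sum_congr rfl (g := fun g : Matrix.SpecialLinearGroup ι F =>
      if (g : Matrix ι ι F) *ᵥ Pi.single i 1 =
      Pi.single i 1 ∧ (slInvTranspose ι F g : Matrix ι ι F) *ᵥ Pi.single i 1 = Pi.single i 1 ∧
      (slInvTranspose ι F g : Matrix ι ι F) *ᵥ Pi.single j 1 = Pi.single j 1 then 1 else 0)
      fun g _ => ?_, Finset.sum_boole, Nat.cast_eq_zero, Finset.card_eq_zero,
      Finset.filter_eq_empty_iff] at h7
  · exact h7 (Finset.mem_univ 1) (by simp only [map_one, Matrix.SpecialLinearGroup.coe_one,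
      one_mulVec, and_self])
  split_ifs with h8 h9 h9
  · rw [hτ, slWt_fix_std h hij h2.le hy h9.2.1 h9.2.2]; simp
  · have h10 := map_mem_slWt (slInvTranspose ι F g) hy
    rw [h8.2, ← hτ] at h10
    obtain ⟨m, hm⟩ := Function.ne_iff.1 fun e => h9 ⟨h8.1, h8.2, e⟩
    have hmi : m ≠ i := by
      rintro rfl
      have := slTau_dot g (Pi.single j 1) (Pi.single m 1)
      rw [h8.1] at this
      exact hm (by simpa using this)
    by_contra h11
    refine hm (addChar_eq_of_forall hψ fun c => mul_right_cancel₀ h11 ?_)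
    have h12 := hl (Pi.single m c) (by simp [hmi]) (ρ g (b k))
    rw [mem_slWt.1 h10 _ (by simp [hmi]), map_smul, single_dotProduct, smul_eq_mul] at h12
    rw [h12]
    by_cases hj : m = j <;> simp [hj, Ne.symm]
  · exact (h8 ⟨h9.1, h9.2.1⟩).elim
  · simp

end Cfsg.Agent.Cl
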