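import Mathlib
import Cfsg.Agent.Cl.RepSLb
import Cfsg.Agent.Cl.RepPerm
import Cfsg.Agent.Cl.WeilCount

/-!
The permutation module of `SL` on non-zero vectors and the minimal degree of `SL`.
-/

set_option autoImplicit false

open Module Matrix

namespace Cfsg.Agent.Cl

variable {ι : Type*} [Fintype ι] [DecidableEq ι] {F : Type*} [Field F]

/-- The non-zero vectors. -/
def SLVec (ι F : Type*) [Field F] : Type _ := {v : ι → F // v ≠ 0}

instance slVecAction : MulAction (Matrix.SpecialLinearGroup ι F × Fˣ) (SLVec ι F) where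
  smul p v := ⟨(p.2 : F) • ((p.1 : Matrix ι ι F) *ᵥ v.1),
    smul_ne_zero p.2.ne_zero (sl_mulVec_ne_zero p.1 v.2)⟩
  one_smul v := Subtype.ext (by
    change ((1 : Fˣ) : F) • (((1 : Matrix.SpecialLinearGroup ι F) : Matrix ι ι F) *ᵥ v.1) = _
    simp)
  mul_smul p r v := Subtype.ext (by
    change ((p.2 * r.2 : Fˣ) : F) • (((p.1 * r.1 : Matrix.SpecialLinearGroup ι F) :
      Matrix ι ι F) *ᵥ v.1) = (p.2 : F) • ((p.1 : Matrix ι ι F) *ᵥ ((r.2 : F) • (_ *ᵥ v.1)))
    rw [sl_mul_mulVec', mulVec_smul, smul_smul, Units.val_mul])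

theorem slVec_smul_left (g : Matrix.SpecialLinearGroup ι F) (v : SLVec ι F) :
    ((g, (1 : Fˣ)) • v).1 = (g : Matrix ι ι F) *ᵥ v.1 := one_smul F _

theorem slVec_smul_right (s : Fˣ) (v : SLVec ι F) :
    (((1 : Matrix.SpecialLinearGroup ι F), s) • v).1 = (s : F) • v.1 :=
  congrArg ((s : F) • ·) (one_mulVec _)

noncomputable instance slVecFintype [Finite F] : Fintype (SLVec ι F) :=
  Fintype.ofFinite {v : ι → F // v ≠ 0}

omit [DecidableEq ι] in
theorem card_slVec [Finite F] : Nat.card (SLVec ι F) = Nat.card F ^ Fintype.card ι - 1 := by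
  classical
  have := Fintype.ofFinite F
  change Nat.card {v : ι → F // v ≠ 0} = _
  simp

theorem slVec_permData [Finite F] (h3 : 3 ≤ Fintype.card ι) :
    PermData (Matrix.SpecialLinearGroup ι F) Fˣ (SLVec ι F) := by
  obtain ⟨i, j, hij⟩ := Fintype.exists_pair_of_one_lt_card (α := ι) (by omega)
  have h1 : ∀ x y x' y' : ι → F, LinearIndependent F ![x, y] → LinearIndependent F ![x', y'] →
      ∃ g : Matrix.SpecialLinearGroup ι F, (g : Matrix ι ι F) *ᵥ x = x' ∧
        (g : Matrix ι ι F) *ᵥ y = y' := fun x y x' y' h h' => by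
    obtain ⟨g, rfl, rfl⟩ := exists_sl_pair h3 h hij
    obtain ⟨g', rfl, rfl⟩ := exists_sl_pair h3 h' hij
    exact ⟨g' * g⁻¹, by rw [sl_mul_mulVec', sl_inv_mulVec_mulVec],
      by rw [sl_mul_mulVec', sl_inv_mulVec_mulVec]⟩
  refine ⟨fun s x h => ?_, fun x y => ?_, fun x y x' y' h h' => ?_, ?_⟩
  · exact Units.ext (smul_left_injective F x.2 (((slVec_smul_right s x).symm.trans
      (congrArg Subtype.val h)).trans (one_smul _ _).symm))
  · have h2 : 1 < finrank F (ι → F) := by simp; omega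
    obtain ⟨u, hu⟩ := exists_linearIndependent_pair_of_one_lt_finrank h2 x.2
    obtain ⟨v, hv⟩ := exists_linearIndependent_pair_of_one_lt_finrank h2 y.2
    obtain ⟨g, hg, -⟩ := h1 _ _ _ _ hu hv
    exact ⟨g, Subtype.ext ((slVec_smul_left g x).trans hg)⟩
  · have h2 : ∀ x y : SLVec ι F, (∀ s : Fˣ, y ≠ ((1 : Matrix.SpecialLinearGroup ι F), s) • x) →
        LinearIndependent F ![x.1, y.1] := fun x y h =>
      (LinearIndependent.pair_iff' x.2).2 fun a ha => h (Units.mk0 a (by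
        rintro rfl; exact y.2 (by simpa using ha.symm)))
          (Subtype.ext (ha.symm.trans (slVec_smul_right (Units.mk0 a _) x).symm))
    obtain ⟨g, hg, hg'⟩ := h1 _ _ _ _ (h2 _ _ h) (h2 _ _ h')
    exact ⟨g, Subtype.ext ((slVec_smul_left g x).trans hg),
      Subtype.ext ((slVec_smul_left g y).trans hg')⟩
  · rw [card_slVec, Nat.card_units]
    have := Nat.pow_lt_pow_right (Finite.one_lt_card (α := F)) (show 1 < Fintype.card ι by omega)
    have := Nat.card_pos (α := F)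
    rw [pow_one] at *
    omega

variable {D : Type*} [AddCommGroup D] [Module ℂ D] [FiniteDimensional ℂ D] [Finite F]
  {ρ : Representation ℂ (Matrix.SpecialLinearGroup ι F) D} {ψ : AddChar F ℂ}

omit [Finite F] in
theorem finrank_slWt_eq (h3 : 3 ≤ Fintype.card ι) {i j : ι} (hij : i ≠ j) {w u : ι → F}
    (h : LinearIndependent F ![w, u]) :
    finrank ℂ (slWt ρ ψ w u) = finrank ℂ (slWt ρ ψ (Pi.single i 1) (Pi.single j 1)) := by
  obtain ⟨g, rfl, rfl⟩ := exists_sl_pair h3 h hij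
  refine le_antisymm ((finrank_slWt_le g⁻¹ _ _).trans_eq ?_) (finrank_slWt_le g _ _)
  rw [sl_inv_mulVec_mulVec, sl_inv_mulVec_mulVec]

theorem finrank_slWt_pos (hψ : ψ ≠ 1) (h3 : 3 ≤ Fintype.card ι) (hρ : ∃ g, ρ g ≠ 1) {i j : ι}
    (hij : i ≠ j) : 0 < finrank ℂ (slWt ρ ψ (Pi.single i 1) (Pi.single j 1)) := by
  obtain ⟨f, hf⟩ := repWt_exists_ne_one_of_closure hρ
    (t := fun f : {f : ι → F // f ⬝ᵥ Pi.single i 1 = 0} => tv (Pi.single i 1) f.1)
    sl_closure_transvections (by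
      rintro _ ⟨k, l, hkl, c, rfl⟩
      rw [transvection_eq_tv, tv_smul]
      obtain ⟨g, hg⟩ := (slVec_permData (F := F) h3).trans ⟨Pi.single i 1, by simp⟩
        ⟨Pi.single k 1, by simp⟩
      replace hg := (slVec_smul_left g _).symm.trans (congrArg Subtype.val hg)
      exact Or.inr ⟨g, ⟨(c • Pi.single l 1) ᵥ* (g : Matrix ι ι F), by
        rw [← dotProduct_mulVec, hg]; simp [hkl.symm]⟩, hg ▸ tv_mul_comm g _ _⟩)
  obtain ⟨l, hl, hl'⟩ := exists_repWt_ne_one
    (r := fun f : {f : ι → F // f ⬝ᵥ Pi.single i 1 = 0} => tv (Pi.single i 1) f.1)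
    (fun f g => (tv_commute f.2 f.2 g.2).eq) hf
  obtain ⟨φ, hφ⟩ := addChar_exists_dual hψ (fun g : ι → F => l ⟨g - (Pi.single i (g i) : ι → F), by simp⟩)
    (repWt_one hl (by simp)) fun c d => repWt_mul hl (by
      rw [← tv_add_right (by simp) (by simp)]
      congr 1
      simp only [Pi.add_apply, Pi.single_add]
      abel)
  have h1 : ∀ g : {f : ι → F // f ⬝ᵥ Pi.single i 1 = 0},
      l g = ψ (g.1 ⬝ᵥ fun k => φ (Pi.single k 1)) := fun g => by
    have h1 : g.1 i = 0 := by simpa using g.2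
    have h2 : φ g.1 = g.1 ⬝ᵥ fun k => φ (Pi.single k 1) := by
      conv_lhs => rw [pi_eq_sum_univ' g.1]
      simp [dotProduct]
    rw [← h2, ← hφ]
    simp [h1]
  rw [← finrank_slWt_eq h3 hij (w := Pi.single i 1) (u := fun k => φ (Pi.single k 1))
    ((LinearIndependent.pair_iff' (by simp)).2 fun a ha => hl' (by
      rw [h1, ← ha, dotProduct_smul, f.2]; simp))]
  exact Nat.pos_of_ne_zero (mt Submodule.finrank_eq_zero.1 (by rwa [funext h1] at hl))

theorem finrank_slWt_mul_le (hψ : ψ ≠ 1) (h3 : 3 ≤ Fintype.card ι) {i j : ι} (hij : i ≠ j) :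
    (Nat.card F ^ (Fintype.card ι - 1) - 1) *
      finrank ℂ (slWt ρ ψ (Pi.single i 1) (Pi.single j 1)) ≤ finrank ℂ D := by
  let K := LinearMap.ker (LinearMap.proj i : (ι → F) →ₗ[F] F)
  have h0 : ∀ u v : K, (∀ f : ι → F, f ⬝ᵥ Pi.single i 1 = 0 → ψ (f ⬝ᵥ u) = ψ (f ⬝ᵥ v)) → u = v :=
    fun u v h => Subtype.ext (funext fun k => by
      by_cases hk : k = i
      · rw [hk, show u.1 i = 0 from u.2, show v.1 i = 0 from v.2]
      · exact addChar_eq_of_forall hψ fun c => by simpa using h (Pi.single k c) (by simp [hk]))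
  have h1 := repWt_card_add_le (ρ := ρ)
    (r := fun f : {f : ι → F // f ⬝ᵥ Pi.single i 1 = 0} => tv (Pi.single i 1) f.1)
    (fun f g => (tv_commute f.2 f.2 g.2).eq) id (J := {u : K // u ≠ 0})
    (l := fun u f => ψ (f.1 ⬝ᵥ u.1.1))
    (fun u v h => Subtype.ext (h0 _ _ fun f hf => congrFun h ⟨f, hf⟩))
    (fun u h => u.2 (h0 _ _ fun f hf => by simpa using congrFun h ⟨f, hf⟩))
    fun u => (finrank_slWt_eq h3 hij (w := Pi.single i 1) (u := u.1.1)
      ((LinearIndependent.pair_iff' (by simp)).2 fun a ha => u.2 (Subtype.ext (by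
        have := congrFun ha i
        rw [show u.1.1 i = 0 from u.1.2] at this
        simpa [show a = 0 by simpa using this] using ha.symm)))).ge
  have h2 : finrank F K = Fintype.card ι - 1 := by
    have := (LinearMap.proj i : (ι → F) →ₗ[F] F).finrank_range_add_finrank_ker
    rw [LinearMap.range_eq_top.2 (LinearMap.proj_surjective i)] at this
    simp only [finrank_top, finrank_self, finrank_fintype_fun_eq_card] at this
    exact Nat.eq_sub_of_add_eq' this
  have h4 : Nat.card {u : K // u ≠ 0} = Nat.card K - 1 := by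
    classical
    have := Fintype.ofFinite K
    simp
  rw [h4, Module.natCard_eq_pow_finrank (K := F), h2] at h1
  omega

theorem repSL_bound (h : SLGen ι F) (hρ : ρ.IsIrreducible) (hD : 2 ≤ finrank ℂ D) :
    Nat.card F ^ Fintype.card ι - Nat.card F ≤ (Nat.card F - 1) * finrank ℂ D := by
  have h3 := h.three_le
  obtain ⟨i, j, hij⟩ := Fintype.exists_pair_of_one_lt_card (α := ι) (by omega)
  obtain ⟨ψ, hψ⟩ := addChar_exists_ne_one F
  obtain ⟨g, hg⟩ := repWt_ne_one_of_irreducible hρ hD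
  have key : ∀ m, 2 ≤ m → (Nat.card F ^ (Fintype.card ι - 1) - 1) * m ≤ finrank ℂ D →
      Nat.card F ^ Fintype.card ι - Nat.card F ≤ (Nat.card F - 1) * finrank ℂ D := fun m hm h1 => by
    refine le_trans ?_ (Nat.mul_le_mul_left _ ((Nat.mul_le_mul_left _ hm).trans h1))
    rw [← Nat.sub_add_cancel (show 1 ≤ Fintype.card ι by omega), pow_succ, ← Nat.sub_one_mul,
      Nat.add_sub_cancel, mul_left_comm]
    have := Finite.one_lt_card (α := F)
    exact Nat.mul_le_mul_left _ (by omega)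
  by_cases h1 : finrank ℂ (slWt ρ ψ (Pi.single i 1) (Pi.single j 1)) ≤ 1
  swap
  · exact key _ (not_le.1 h1) (finrank_slWt_mul_le hψ h3 hij)
  have h2 := finrank_slWt_pos (ρ := ρ.comp (slInvTranspose ι F).toMonoidHom) hψ h3
    ⟨slInvTranspose ι F g, by simpa [slInvTranspose_slInvTranspose] using hg⟩ hij
  by_cases h4 : finrank ℂ (slWt (ρ.comp (slInvTranspose ι F).toMonoidHom) ψ (Pi.single i 1)
    (Pi.single j 1)) = 1
  swap
  · exact key _ (by omega) (finrank_slWt_mul_le (ρ := ρ.comp (slInvTranspose ι F).toMonoidHom)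
      hψ h3 hij)
  have := Fintype.ofFinite F
  obtain ⟨d, hd, x, hx, hx'⟩ := sl_small_exists_equivariant hψ h hij h1 h4
  have : Fintype Fˣ := Fintype.ofFinite _
  have h5 := (slVec_permData h3).exists_finrank_le (rep_fix_eq_zero hρ (by omega))
    (d := fun v => d v.1) (fun g v => by rw [hd, slVec_smul_left]) (x := ⟨x, hx⟩) hx'
  rw [card_slVec, Nat.card_units, mul_add] at h5
  have := Finite.one_lt_card (α := F)
  omega

end Cfsg.Agent.Cl
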