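import Mathlib
import Cfsg.Agent.Ch.EichFrame
import Cfsg.Agent.Pres.SL2

/-!
# Two generators for the classical groups: the cyclic monomial element
-/

set_option autoImplicit false

namespace Cfsg.Agent.Ch

open Cfsg.Agent.Chev.Tim Equiv

/-- Multiplication by `χ` leaves no proper non-zero additive subgroup invariant. -/
def AddGen {K : Type*} [Field K] (χ : K) : Prop :=
  ∀ A : AddSubgroup K, (∀ t ∈ A, χ * t ∈ A) → ∀ t ∈ A, t ≠ 0 → A = ⊤

theorem addGen_of_order {K : Type*} [Field K] [Finite K] {χ : K} (h0 : χ ≠ 0)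
    (h : ∀ n, 0 < n → χ ^ n = 1 → Nat.card K < (n + 1) ^ 2) : AddGen χ := by
  intro A hA t ht ht0
  have := Fintype.ofFinite K
  let R : Subring K :=
    { carrier := {x | ∀ t ∈ A, x * t ∈ A}
      mul_mem' := fun hx hy t ht => by rw [mul_assoc]; exact hx _ (hy t ht)
      one_mem' := fun t ht => by rwa [one_mul]
      add_mem' := fun hx hy t ht => by rw [add_mul]; exact add_mem (hx t ht) (hy t ht)
      zero_mem' := fun t _ => by rw [zero_mul]; exact zero_mem _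
      neg_mem' := fun hx t ht => by rw [neg_mul]; exact neg_mem (hx t ht) }
  let S : Subfield K :=
    { R with
      inv_mem' := fun x hx => by
        rcases eq_or_ne x 0 with rfl | e
        · simp
        have h1 := FiniteField.pow_card_sub_one_eq_one x e
        obtain ⟨n, hn⟩ : ∃ n, Fintype.card K - 1 = n + 1 :=
          ⟨Fintype.card K - 2, by have := Fintype.one_lt_card (α := K); omega⟩
        rw [hn, pow_succ] at h1
        rw [← eq_inv_of_mul_eq_one_left h1]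
        exact R.pow_mem hx n }
  have hS : S = ⊤ := by
    by_contra hS
    have h1 := Pr.sq_card_le hS
    have h2 := Pr.pow_card_of_mem (K := S) (a := χ) hA
    obtain ⟨n, hn⟩ : ∃ n, Nat.card S = n + 2 :=
      ⟨Nat.card S - 2, by have := Finite.one_lt_card (α := S); omega⟩
    rw [hn] at h1 h2
    exact (h (n + 1) n.succ_pos (mul_right_cancel₀ h0 (by rw [← pow_succ, h2, one_mul]))).not_ge h1
  refine eq_top_iff.2 fun x _ => ?_
  simpa [ht0] using (hS.ge (Subfield.mem_top (x / t)) :) t ht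

theorem addGen_pow {K : Type*} [Field K] [Finite K] {g : Kˣ}
    (hg : ∀ a : K, a ≠ 0 → ∃ k : ℕ, (g : K) ^ k = a) {e : ℕ} (he : 0 < e) (he' : e ≤ 2) :
    AddGen ((g : K) ^ e) :=
  addGen_of_order (pow_ne_zero _ g.ne_zero) fun n hn h => by
    have := Pr.subfield_eq_top_of_sq hg (Nat.mul_pos he hn) (by rwa [pow_mul])
    nlinarith

/-- Steinberg's extraction of a root subgroup from two generators. -/
theorem exists_of_rel {K G : Type*} [Field K] [Group G] {H : Subgroup G} {R : G → K → Prop}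
    (hmul : ∀ y t y' t', R y t → R y' t' → R (y * y') (t + t'))
    (hinv : ∀ y t, R y t → R y⁻¹ (-t)) {h h' u : G} {χ χ' : K}
    (hh : ∀ y t, R y t → R (h * y * h⁻¹) (χ * t)) (hh' : ∀ y t, R y t → R (h' * y * h'⁻¹) (χ' * t))
    (hc : Commute h h') (hu : R u 1) (h1 : h ∈ H) (h2 : u * h' * u⁻¹ ∈ H) (hχ : AddGen χ)
    (e : χ ≠ 1) (e' : χ' ≠ 1) (t : K) : ∃ y ∈ H, R y t := by
  have h3 := hmul _ _ _ _ hu (hh' _ _ (hinv _ _ hu))
  have h4 := hmul _ _ _ _ h3 (hh _ _ (hinv _ _ h3))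
  have h5 := mul_mem (mul_mem (mul_mem h2 h1) (inv_mem h2)) (inv_mem h1)
  rw [show u * h' * u⁻¹ * h * (u * h' * u⁻¹)⁻¹ * h⁻¹ = u * (h' * u⁻¹ * h'⁻¹) *
    ((h' * h) * h'⁻¹ * (u * (h' * u⁻¹ * h'⁻¹))⁻¹ * h⁻¹) by group, ← hc.eq,
    mul_inv_cancel_right] at h5
  let A : AddSubgroup K :=
    { carrier := {t | ∃ y ∈ H, R y t}
      add_mem' := fun ⟨y, a, b⟩ ⟨y', a', b'⟩ => ⟨_, mul_mem a a', hmul _ _ _ _ b b'⟩
      zero_mem' := ⟨_, mul_mem h5 (inv_mem h5), by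
        simpa only [add_neg_cancel] using hmul _ _ _ _ h4 (hinv _ _ h4)⟩
      neg_mem' := fun ⟨y, a, b⟩ => ⟨_, inv_mem a, hinv _ _ b⟩ }
  refine (hχ A (fun t ⟨y, a, b⟩ => ⟨_, mul_mem (mul_mem h1 a) (inv_mem h1), hh _ _ b⟩) _ ⟨_, h5, h4⟩
    fun h6 => ?_).ge (AddSubgroup.mem_top t)
  exact mul_ne_zero (sub_ne_zero.2 e) (sub_ne_zero.2 e') (by linear_combination h6)

theorem mem_of_commute_of_coprime {G : Type*} [Group G] {H : Subgroup G} {x y : G} {m n : ℕ}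
    (hc : Commute x y) (hx : x ^ m = 1) (hy : y ^ n = 1) (hmn : m.Coprime n) (h : x * y ∈ H) :
    x ∈ H ∧ y ∈ H := by
  have h1 : y ∈ H := by
    have := pow_mem h m
    rw [hc.mul_pow, hx, one_mul] at this
    obtain ⟨k, hk⟩ := exists_pow_eq_self_of_coprime (x := y)
      (hmn.coprime_dvd_right (orderOf_dvd_of_pow_eq_one hy))
    exact hk ▸ pow_mem this k
  exact ⟨(mul_mem_cancel_right h1).1 h, h1⟩

namespace BakForm.Frame

variable {K V : Type*} [Field K] [AddCommGroup V] [Module K V] {F : BakForm K V} {I : Type*}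
  [DecidableEq I] (f : F.Frame I)

/-- Diagonal elements. -/
structure Dg (h : F.EG) (l : I × Bool → K) (μ : K) : Prop where
  v : ∀ a, h.1 (f.v a) = l a • f.v a
  w : ∀ w ∈ f.V0, h.1 w = μ • w

/-- Monomial elements. -/
def Mo (c : F.EG) (π : Perm (I × Bool)) : Prop := ∀ a, ∃ κ : K, c.1 (f.v a) = κ • f.v (π a)

/-- A root subgroup lies in `H`. -/
def PX (H : Subgroup F.EG) (a b : I × Bool) : Prop := ∀ t, f.X a b t ∈ H

/-- An Eichler transformation lies in `H`. -/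
def QT (H : Subgroup F.EG) (a : I × Bool) (w : V) (s : K) : Prop :=
  F.Val (f.v a) w s ∧ F.T (f.v a) w s ∈ H

variable {f} {c h h' : F.EG} {π π' : Perm (I × Bool)} {l l' : I × Bool → K} {μ μ' : K}
  {H : Subgroup F.EG} {x y z : I × Bool}

theorem ne_zero_of_apply {κ : K} (e : c.1 (f.v x) = κ • f.v y) : κ ≠ 0 := by
  rintro rfl
  exact f.v_ne_zero x (by simpa using e)

theorem Mo.mul (h1 : f.Mo c π) (h2 : f.Mo h π') : f.Mo (c * h) (π * π') := fun a => by
  obtain ⟨κ, e⟩ := h2 a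
  obtain ⟨κ', e'⟩ := h1 (π' a)
  exact ⟨κ * κ', by rw [EG_mul_apply, e, map_smul, e', smul_smul]; rfl⟩

theorem Mo.inv (h1 : f.Mo c π) : f.Mo c⁻¹ π⁻¹ := fun a => by
  obtain ⟨κ, e⟩ := h1 (π⁻¹ a)
  refine ⟨κ⁻¹, EG_inv_apply_eq ?_⟩
  rw [map_smul, e, smul_smul, inv_mul_cancel₀ (ne_zero_of_apply e), one_smul]
  simp

theorem Mo.bar (h1 : f.Mo c π) (a : I × Bool) : π (bar a) = bar (π a) := by
  obtain ⟨κ, e⟩ := h1 a
  obtain ⟨κ', e'⟩ := h1 (Ch.bar a)
  by_contra h2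
  have := EG_B c (f.v a) (f.v (Ch.bar a))
  rw [e, e', f.B_bar] at this
  exact F.η_ne_zero a (by simpa [f.B_of_ne h2] using this.symm)

theorem Mo.fst_ne (h1 : f.Mo c π) (h2 : x.1 ≠ y.1) : (π x).1 ≠ (π y).1 := by
  rw [fst_ne_iff] at h2 ⊢
  rwa [← h1.bar, Ne, Ne, π.apply_eq_iff_eq, π.apply_eq_iff_eq]

theorem Mo.mem_V0 (h1 : f.Mo c π) {w : V} (hw : w ∈ f.V0) : c.1 w ∈ f.V0 := fun a => by
  obtain ⟨κ, e⟩ := h1.inv a
  rw [EG_B_left, e]
  simp [hw _]

theorem Mo.conj_X (h1 : f.Mo c π) (h2 : x ≠ y) :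
    ∃ κ : K, κ ≠ 0 ∧ ∀ t, c * f.X x y t * c⁻¹ = f.X (π x) (π y) (κ * t) := by
  obtain ⟨κ, e⟩ := h1 x
  obtain ⟨κ', e'⟩ := h1 (Ch.bar y)
  have := ne_zero_of_apply e'
  rw [h1.bar] at e'
  exact ⟨_, by simp [F.η_ne_zero, ne_zero_of_apply e, this],
    fun t => f.conj_X h2 t (π.injective.ne h2) e e'⟩

theorem PX.map (hP : f.PX H x y) (h1 : f.Mo c π) (hc : c ∈ H) (h2 : x ≠ y) : f.PX H (π x) (π y) :=
  fun t => by
    obtain ⟨κ, h3, h4⟩ := h1.conj_X h2
    rw [← mul_div_cancel₀ t h3, ← h4]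
    exact mul_mem (mul_mem hc (hP _)) (inv_mem hc)

theorem PX.bar (hP : f.PX H (bar y) (bar x)) (h2 : x ≠ y) : f.PX H x y := fun t =>
  f.X_bar h2 t ▸ hP _

theorem PX.trans (hP : f.PX H x y) (hP' : f.PX H y z) (h1 : x.1 ≠ y.1) (h2 : y.1 ≠ z.1)
    (h3 : x.1 ≠ z.1) : f.PX H x z := fun t => by
  rw [← mul_one t, ← f.X_comm h1 h2 h3]
  exact mul_mem (mul_mem (mul_mem (hP _) (hP' _)) (inv_mem (hP _))) (inv_mem (hP' _))

theorem PX.T_mem (hP : f.PX H x (Ch.bar y)) (t : K) : F.T (f.v x) (t • f.v y) 0 ∈ H :=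
  f.T_eq_X x y t ▸ hP _

theorem QT.conj {w : V} {s κ : K} (hQ : f.QT H x w s) (hc : c ∈ H) (e : c.1 (f.v x) = κ • f.v y) :
    f.QT H y (F.σ κ • c.1 w) (κ * F.σ κ * s) := by
  have h1 := hQ.1.map c
  have h2 := mul_mem (mul_mem hc hQ.2) (inv_mem hc)
  rw [hQ.1.T_conj, e] at h2
  rw [e] at h1
  have h3 : F.Val (f.v y) (c.1 w) s :=
    h1.of_sing (f.sing y) (by simpa [ne_zero_of_apply e] using h1.perp)
  exact ⟨by simpa [F.σσ, mul_comm κ] using h3.smul_right (F.σ κ), h3.T_smul κ ▸ h2⟩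

theorem QT.mul {w w' : V} {s s' : K} (h1 : f.QT H x w s) (h2 : f.QT H x w' s') :
    f.QT H x (w + w') (s + s' - F.ε * F.B w' w) :=
  ⟨h1.1.mul h2.1, h1.1.T_mul h2.1 ▸ mul_mem h1.2 h2.2⟩

theorem QT.inv {w : V} {s : K} (h1 : f.QT H x w s) : f.QT H x (-w) (-s - F.ε * F.B w w) :=
  ⟨h1.1.inv, h1.1.T_inv ▸ inv_mem h1.2⟩

theorem qT_zero : f.QT H x 0 0 := ⟨(f.sing x).val_zero (zero_mem _), T_zero (F := F) _ ▸ one_mem _⟩

theorem QT.of_Λ {w : V} {s s' : K} (h1 : f.QT H x w s) (h2 : F.Val (f.v x) w s')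
    (hΛ : ∀ r ∈ F.Λ, F.T (f.v x) 0 r ∈ H) : f.QT H x w s' := by
  simpa using h1.mul ⟨(f.sing x).val_zero (h2.sub_mem h1.1), hΛ _ (h2.sub_mem h1.1)⟩

theorem QT.mem_of_commutator {w w' : V} {s s' r : K} (h1 : f.QT H x w s) (h2 : f.QT H x w' s')
    (e : r = F.ε * (F.B w w' - F.B w' w)) : F.T (f.v x) 0 r ∈ H :=
  e ▸ h1.1.T_commutator h2.1 ▸ mul_mem (mul_mem (mul_mem h1.2 h2.2) (inv_mem h1.2)) (inv_mem h2.2)

/-- The commutator of two Eichler transformations with different centres. -/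
theorem QT.comm {w w' : V} {s s' : K} (h1 : f.QT H x w s) (h2 : f.QT H y w' s') (hxy : x.1 ≠ y.1)
    (e : F.B (f.v y) w = 0) (e' : F.B w' (f.v x) = 0) :
    F.T (f.v y) (F.B w' w • f.v x) 0 ∈ H := by
  have h3 := h2.conj h1.2 (κ := 1)
    (by rw [one_smul]; exact h1.1.apply_fix (f.B_of_ne (ne_of_fst_ne hxy).2.2.1) e)
  have h4 := (h2.inv.mul h3).2
  simp only [map_one, one_smul, one_mul, h1.1.apply_of_perp e', neg_add_cancel_left, F.bexp,
    B_symm_zero e'] at h4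
  convert h4
  ring

theorem Dg.conj (h1 : f.Dg h l μ) (h2 : f.Mo c π) : f.Dg (c⁻¹ * h * c) (fun a => l (π a)) μ := by
  refine ⟨fun a => ?_, fun w hw => ?_⟩
  · obtain ⟨κ, e⟩ := h2 a
    rw [EG_mul_apply, EG_mul_apply, e, map_smul, h1.v, smul_comm, ← e, map_smul, EG_inv_apply]
  · rw [EG_mul_apply, EG_mul_apply, h1.w _ (h2.mem_V0 hw), map_smul, EG_inv_apply]

theorem Dg.conj_X (h1 : f.Dg h l μ) (h2 : x ≠ y) (t : K) :
    h * f.X x y t * h⁻¹ = f.X x y (l x * (l y)⁻¹ * t) := by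
  have := EG_B h (f.v y) (f.v (Ch.bar y))
  simp only [h1.v, F.bexp, f.B_bar, ← mul_assoc, mul_eq_right₀ (F.η_ne_zero y)] at this
  rw [f.conj_X h2 t h2 (h1.v x) (h1.v _), F.η_mul_η, one_mul, eq_inv_of_mul_eq_one_right this]

theorem mo_nY {w : V} {s : K} (hw : w ∈ f.V0) (h : F.Val (f.v x) w s) (hs : s ≠ 0) :
    f.Mo (f.nY x w s) (swap x (bar x)) := fun a => by
  by_cases e : x.1 = a.1
  · rcases fst_eq_iff.1 e.symm with rfl | rfl
    · exact ⟨_, by rw [f.nY_self hw h hs, swap_apply_left]⟩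
    · exact ⟨_, by rw [f.nY_bar hw h hs, swap_apply_right]⟩
  · obtain ⟨h1, h2, h3, h4, h5, h6⟩ := ne_of_fst_ne e
    exact ⟨1, by rw [f.nY_of_ne hw h hs e, swap_apply_of_ne_of_ne h2 h6, one_smul]⟩

theorem mo_stW (h : x.1 ≠ y.1) {t : K} (ht : t ≠ 0) :
    f.Mo (stW (f.X x y) (f.X y x) t) (swap x y * swap (bar x) (bar y)) := fun a => by
  obtain ⟨h1, h2, h3, h4, h5, h6⟩ := ne_of_fst_ne h
  by_cases e1 : a = x
  · exact ⟨_, by rw [e1, f.stW_X_left h ht]; congr 2; simp [swap_apply_def, *]⟩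
  by_cases e2 : a = y
  · exact ⟨_, by rw [e2, f.stW_X_right h ht]; congr 2; simp [swap_apply_def, *]⟩
  by_cases e3 : a = bar x
  · exact ⟨_, by rw [e3, f.stW_X_bar_left h ht]; congr 2; simp [swap_apply_def, *]⟩
  by_cases e4 : a = bar y
  · exact ⟨_, by rw [e4, f.stW_X_bar_right h ht]; congr 2; simp [swap_apply_def, *]⟩
  exact ⟨1, by rw [f.stW_X_fix h ht] <;> simp [swap_apply_def, co_v, Ne.symm, *]⟩

theorem exists_dg_stH (h : x.1 ≠ y.1) {t : K} (ht : t ≠ 0) : ∃ (g : F.EG) (l : I × Bool → K),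
    f.Dg g l 1 ∧ l x = t ∧ l y = t⁻¹ ∧ l (bar x) = (F.σ t)⁻¹ ∧
      (∀ a, a.1 ≠ x.1 → a.1 ≠ y.1 → l a = 1) ∧ ∀ w, f.co x w = 0 → f.co y w = 0 →
        f.co (bar x) w = 0 → f.co (bar y) w = 0 → g.1 w = w := by
  obtain ⟨h1, h2, h3, h4, h5, h6⟩ := ne_of_fst_ne h
  refine ⟨stH (f.X x y) (f.X y x) t, fun a => if a = x then t else if a = y then t⁻¹ else
    if a = bar x then (F.σ t)⁻¹ else if a = bar y then F.σ t else 1, ⟨fun a => ?_, fun w hw => ?_⟩,
    by simp, by simp [*], by simp [*], fun a e e' => by simp [fst_ne_iff.1 e, fst_ne_iff.1 e'],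
    fun w => f.stH_X_fix h ht⟩
  · split_ifs with e1 e2 e3 e4
    · rw [e1, f.stH_X_left h ht]
    · rw [e2, f.stH_X_right h ht]
    · rw [e3, f.stH_X_bar_left h ht]
    · rw [e4, f.stH_X_bar_right h ht]
    · rw [f.stH_X_fix h ht] <;> simp [co_v, Ne.symm, *]
  · rw [f.stH_X_fix h ht] <;> simp [co_V0 hw]

theorem exists_dg_nY {w w' : V} {s s' : K} (hw : w ∈ f.V0) (h : F.Val (f.v x) w s) (hs : s ≠ 0)
    (hw' : w' ∈ f.V0) (h' : F.Val (f.v x) w' s') (hs' : s' ≠ 0)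
    (e : ∀ u ∈ f.V0, u + (F.ε * s⁻¹ * F.B u w) • w = μ • u)
    (e' : ∀ u ∈ f.V0, u + (F.ε * s'⁻¹ * F.B u w') • w' = μ' • u) :
    ∃ (g : F.EG) (l : I × Bool → K), f.Dg g l (μ' * μ) ∧ l x = F.ε * s * (F.σ s')⁻¹ ∧
      l (bar x) = F.ε * s' * (F.σ s)⁻¹ ∧ ∀ a, a.1 ≠ x.1 → l a = 1 := by
  refine ⟨f.nY x w s * f.nY x w' s', fun a => if a = x then F.ε * s * (F.σ s')⁻¹ else
    if a = bar x then F.ε * s' * (F.σ s)⁻¹ else 1, ⟨fun a => ?_, fun u hu => ?_⟩,
    by simp, by simp, fun a e => by simp [fst_ne_iff.1 e]⟩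
  · rw [EG_mul_apply]
    split_ifs with e1 e2
    · rw [e1, f.nY_self hw' h' hs', map_smul, f.nY_bar hw h hs, smul_smul]
      congr 1
      linear_combination F.ε * s * (F.σ s')⁻¹ * F.η_mul_η x
    · rw [e2, f.nY_bar hw' h' hs', map_smul, f.nY_self hw h hs, smul_smul]
      congr 1
      linear_combination F.ε * s' * (F.σ s)⁻¹ * F.η_mul_η x
    · have := (fst_ne_iff.2 ⟨e1, e2⟩).symm
      rw [f.nY_of_ne hw' h' hs' this, f.nY_of_ne hw h hs this, one_smul]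
  · rw [EG_mul_apply, f.nY_V0 hw' h' hs' hu, e' u hu, map_smul, f.nY_V0 hw h hs hu, e u hu, smul_smul]

variable (f) in
/-- A monomial element which permutes the indices `a j` in a signed cycle of length `k`. -/
structure Cyc (c : F.EG) (π : Perm (I × Bool)) (a : ℕ → I × Bool) (k : ℕ) : Prop where
  mo : f.Mo c π
  succ : ∀ j, a (j + 1) = π (a j)
  top : a k = bar (a 0)
  ne : ∀ j, 0 < j → j < k → (a 0).1 ≠ (a j).1
  pos : 0 < k

namespace Cyc

variable {a : ℕ → I × Bool} {k : ℕ} (C : f.Cyc c π a k)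
include C

theorem add_top (j : ℕ) : a (k + j) = bar (a j) := by
  induction j with
  | zero => exact C.top
  | succ j ih => rw [← add_assoc, C.succ, ih, C.mo.bar, C.succ]

theorem add_mul (n j : ℕ) : a (j + n * (k + k)) = a j := by
  induction n with
  | zero => simp
  | succ n ih =>
    rw [show j + (n + 1) * (k + k) = k + (k + (j + n * (k + k))) by ring, C.add_top, C.add_top,
      bar_bar, ih]

theorem ne' (i : ℕ) {d : ℕ} (h0 : 0 < d) (h1 : d < k) : (a i).1 ≠ (a (d + i)).1 := by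
  induction i with
  | zero => exact C.ne d h0 h1
  | succ i ih => rw [← add_assoc, C.succ, C.succ]; exact C.mo.fst_ne ih

theorem exists_add (i j : ℕ) : ∃ d, a j = a (d + i) :=
  ⟨j + i * (k + k) - i, by
    rw [Nat.sub_add_cancel (by have := C.pos; nlinarith), C.add_mul]⟩

theorem induction {P : I × Bool → Prop} {i : ℕ} (h0 : P (a i)) (h : ∀ j, P (a j) → P (a (j + 1)))
    (j : ℕ) : P (a j) := by
  obtain ⟨d, e⟩ := C.exists_add i j
  rw [e]
  clear e
  induction d with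
  | zero => rwa [zero_add]
  | succ d ih => exact add_right_comm d i 1 ▸ h _ ih

/-- All long root subgroups along the cycle are obtained from one of them. -/
theorem pX (hc : c ∈ H) (h0 : f.PX H (a 0) (a 1)) {i j : ℕ} (hij : (a i).1 ≠ (a j).1) :
    f.PX H (a i) (a j) := by
  have h1 : ∀ d i, (a 0).1 ≠ (a d).1 → f.PX H (a 0) (a d) →
      (a i).1 ≠ (a (d + i)).1 ∧ f.PX H (a i) (a (d + i)) := fun d i e hd => by
    induction i with
    | zero => exact ⟨e, hd⟩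
    | succ i ih =>
      rw [← add_assoc, C.succ, C.succ]
      exact ⟨C.mo.fst_ne ih.1, ih.2.map C.mo hc (ne_of_fst_ne ih.1).1⟩
  have h2 : ∀ d, 0 < d → d < k → f.PX H (a 0) (a d) := fun d hd hk => by
    induction d, hd using Nat.le_induction with
    | base => exact h0
    | succ d hd ih =>
      have := h1 1 d (C.ne 1 one_pos (by omega)) h0
      rw [add_comm] at this
      exact (ih (by omega)).trans this.2 (C.ne d hd (by omega)) this.1 (C.ne _ (by omega) hk)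
  obtain ⟨d, e⟩ := C.exists_add i j
  have h3 : (a 0).1 ≠ (a d).1 := fun e' => by
    rw [e] at hij
    clear e
    induction i with
    | zero => exact hij e'
    | succ i ih =>
      refine ih fun e'' => hij ?_
      rw [← add_assoc, C.succ, C.succ]
      rcases fst_eq_iff.1 e'' with e3 | e3 <;> simp [e3, C.mo.bar]
  refine e ▸ (h1 d i h3 ?_).2
  have h4 := C.add_mul (d / (k + k)) (d % (k + k))
  have h5 := Nat.mod_lt d (show 0 < k + k by have := C.pos; omega)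
  rw [Nat.mod_add_div'] at h4
  rw [h4] at h3 ⊢
  generalize d % (k + k) = r at h3 h5
  rcases lt_or_ge r k with h6 | h6
  · exact h2 r (Nat.pos_of_ne_zero (by rintro rfl; exact h3 rfl)) h6
  · obtain ⟨r, rfl⟩ := Nat.exists_eq_add_of_le h6
    have h7 : 0 < r := Nat.pos_of_ne_zero (by rintro rfl; exact h3 (by simp [C.top]))
    have := (h1 (k - r) r (C.ne _ (by omega) (by omega)) (h2 _ (by omega) (by omega))).2
    rw [Nat.sub_add_cancel (by omega), C.top] at this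
    exact PX.bar (by rwa [C.add_top, bar_bar]) (ne_of_fst_ne h3).1

/-- Transport of Eichler transformations along the cycle. -/
theorem qT (hc : c ∈ H) (h0 : f.PX H (a 0) (a 1)) (hk : 2 ≤ k) {w : V} {s : K}
    (hw : ∀ j, f.co (a j) w = 0) {i : ℕ} (hQ : f.QT H (a i) w s) (j : ℕ) (t : K) :
    f.QT H (a j) (t • w) (t * F.σ t * s) := by
  have h1 : ∀ {i j : ℕ} {w : V} {s t : K}, (∀ j, f.co (a j) w = 0) → (a i).1 ≠ (a j).1 → t ≠ 0 →
      f.QT H (a i) w s → f.QT H (a j) (t • w) (t * F.σ t * s) := fun {i j w s t} hw e ht hQ => by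
    have h2 : -(F.σ t)⁻¹ ≠ 0 := by simpa using ht
    have := hQ.conj (c := stW (f.X (a i) (a j)) (f.X (a j) (a i)) (-(F.σ t)⁻¹))
      (mul_mem (mul_mem (C.pX hc h0 e _) (C.pX hc h0 e.symm _)) (C.pX hc h0 e _))
      (f.stW_X_left e h2)
    rw [f.stW_X_fix e h2 (hw _) (hw _) (C.add_top _ ▸ hw _) (C.add_top _ ▸ hw _)] at this
    simpa [F.σσ, mul_comm t] using this
  rcases eq_or_ne t 0 with rfl | ht
  · simpa using qT_zero
  by_cases e : (a i).1 = (a j).1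
  · have h2 := C.ne' i one_pos hk
    simpa using h1 (by simpa using hw) (e ▸ h2.symm) ht (h1 hw h2 one_ne_zero hQ)
  · exact h1 hw e ht hQ

end Cyc

variable [Fintype I]

theorem Dg.commute (h1 : f.Dg h l μ) (h2 : f.Dg h' l' μ') : Commute h h' :=
  f.EG_ext (fun a => by simp [h1.v, h2.v, smul_comm (l a)])
    fun w hw => by simp [h1.w w hw, h2.w w hw, smul_comm μ]

theorem Dg.pow_card [Fintype K] (h1 : f.Dg h l 1) : h ^ (Fintype.card K - 1) = 1 := by
  have h2 : ∀ n : ℕ, f.Dg (h ^ n) (fun a => l a ^ n) 1 := fun n => by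
    induction n with
    | zero => exact ⟨by simp, by simp⟩
    | succ n ih =>
      exact ⟨fun a => by rw [pow_succ, EG_mul_apply, h1.v, map_smul, ih.v, smul_smul, pow_succ'],
        fun w hw => by rw [pow_succ, EG_mul_apply, h1.w w hw, map_smul, ih.w w hw, one_smul]⟩
  exact f.EG_ext (fun a => by
    rw [(h2 _).v, FiniteField.pow_card_sub_one_eq_one _ (ne_zero_of_apply (h1.v a)), one_smul]; rfl)
    fun w hw => by rw [(h2 _).w w hw, one_smul]; rfl

variable (f) in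
theorem exists_mo_perm (τ : Perm I) :
    ∃ g : F.EG, f.Mo g (prodCongr τ (Equiv.refl _)) ∧ ∀ w ∈ f.V0, g.1 w = w := by
  induction τ using Perm.swap_induction_on with
  | one => exact ⟨1, fun a => ⟨1, by simp⟩, fun _ _ => rfl⟩
  | swap_mul τ i j hij ih =>
    obtain ⟨g, h1, h2⟩ := ih
    have h3 : (i, true).1 ≠ (j, true).1 := hij
    refine ⟨stW (f.X (i, true) (j, true)) (f.X (j, true) (i, true)) 1 * g, ?_, fun w hw => ?_⟩
    · convert (mo_stW (f := f) h3 one_ne_zero).mul h1 using 1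
      ext1 ⟨r, b⟩
      cases b <;> simp [swap_apply_def, bar] <;> split_ifs <;> simp_all
    · rw [EG_mul_apply, h2 w hw, f.stW_X_fix h3 one_ne_zero] <;> exact co_V0 hw _

theorem exists_cyc {k : ℕ} (e : Fin (k + 1) ↪ I) (h1 : f.Mo h π')
    (h2 : π' (e 0, true) = (e 0, false)) (h3 : ∀ i ≠ 0, π' (e i, true) = (e i, true)) :
    ∃ c π a, f.Cyc c π a (k + 1) ∧ (∀ i b, ∃ j, a j = (e i, b)) ∧ (∀ j, (a j).1 ∈ Set.range e) ∧
      (∀ w ∈ f.V0, c.1 w = h.1 w) ∧ ∀ x, x.1 ∉ Set.range e → π x = π' x := by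
  obtain ⟨g, h4, h5⟩ := f.exists_mo_perm ((finRotate (k + 1)).viaEmbedding e)
  have h6 := h1.mul h4
  set π := π' * prodCongr ((finRotate (k + 1)).viaEmbedding e) (Equiv.refl Bool)
  have h7 : ∀ i, π (e i, true) = π' (e (finRotate _ i), true) := fun i => by
    simp only [π, Perm.mul_apply, prodCongr_apply, Prod.map, Perm.viaEmbedding_apply, refl_apply]
  have h8 : ∀ j (hj : j < k + 1), (π ^ j) (e 0, true) = (e ⟨j, hj⟩, true) := fun j hj => by
    induction j with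
    | zero => rfl
    | succ j ih =>
      rw [pow_succ', Perm.mul_apply, ih (by omega), h7, finRotate_of_lt (by omega), h3]
      simp
  have C : f.Cyc (h * g) π (fun j => (π ^ j) (e 0, true)) (k + 1) :=
    ⟨h6, fun j => by rw [pow_succ', Perm.mul_apply], by
      rw [pow_succ', Perm.mul_apply, h8 k k.lt_succ_self, h7, finRotate_last', ← Fin.zero_eta] at *
      exact h2, fun j h0 hj => by
        rw [h8 j hj]
        exact e.injective.ne fun e => h0.ne (congrArg Fin.val e), k.succ_pos⟩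
  refine ⟨_, _, _, C, fun i b => ?_, fun j => ?_, fun w hw => by rw [EG_mul_apply, h5 w hw],
    fun x hx => ?_⟩
  · cases b
    · exact ⟨k + 1 + i, (C.add_top i).trans (by rw [h8 i i.2]; rfl)⟩
    · exact ⟨i, h8 i i.2⟩
  · have h9 := C.add_mul (j / (k + 1 + (k + 1))) (j % (k + 1 + (k + 1)))
    have h10 := Nat.mod_lt j (show 0 < k + 1 + (k + 1) by omega)
    rw [Nat.mod_add_div'] at h9
    rw [h9]
    generalize j % (k + 1 + (k + 1)) = r at h10
    rcases lt_or_ge r (k + 1) with h11 | h11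
    · exact ⟨_, (congrArg Prod.fst (h8 r h11)).symm⟩
    · obtain ⟨r, rfl⟩ := Nat.exists_eq_add_of_le h11
      exact ⟨⟨r, by omega⟩, by rw [C.add_top, h8]; rfl⟩
  · simp only [π, Perm.mul_apply, prodCongr_apply, Prod.map, refl_apply,
      Perm.viaEmbedding_apply_of_notMem _ _ _ hx]

theorem exists_cyc_nY {k : ℕ} {f : F.Frame (Fin (k + 1))} {w : V} {s : K} (hw : w ∈ f.V0)
    (h : s + F.ε * F.Q w ∈ F.Λ) (hs : s ≠ 0) : ∃ c π a, f.Cyc c π a (k + 1) ∧ (∀ x, ∃ j, a j = x) ∧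
      ∀ u ∈ f.V0, c.1 u = u + (F.ε * s⁻¹ * F.B u w) • w := by
  have hv : F.Val (f.v (0, true)) w s := ⟨f.sing _, hw _, h⟩
  obtain ⟨c, π, a, C, h1, -, h2, -⟩ := exists_cyc (Function.Embedding.refl _) (mo_nY hw hv hs)
    (swap_apply_left _ _) fun i hi => swap_apply_of_ne_of_ne (by simpa using hi) (by simp [bar])
  exact ⟨c, π, a, C, fun x => h1 x.1 x.2, fun u hu => (h2 u hu).trans (f.nY_V0 hw hv hs hu)⟩

theorem eq_zero_of_V0 {w : V} (hw : w ∈ f.V0) (h : ∀ u ∈ f.V0, F.B w u = 0) : w = 0 :=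
  F.nondeg w (f.induction h (fun a c => by simp [hw a]) fun x y hx hy => by simp [hx, hy])

end BakForm.Frame

end Cfsg.Agent.Ch
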