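import Mathlib
import Cfsg.Agent.Cl.TwoGenA
import Cfsg.Agent.Cl.EichClass

/-!
# The symplectic, unitary and orthogonal groups are generated by two elements
-/

set_option autoImplicit false

namespace Cfsg.Agent.Ch

open Cfsg.Agent.Chev.Tim Equiv

/-- `G` is generated by two elements. -/
def TwoGen (G : Type*) [Group G] : Prop := ∃ a b : G, Subgroup.closure ({a, b} : Set G) = ⊤

theorem twoGen_of {G : Type*} [Group G] (a b : G) (h : ∀ H : Subgroup G, a ∈ H → b ∈ H → H = ⊤) :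
    TwoGen G :=
  ⟨a, b, h _ (Subgroup.subset_closure (by simp)) (Subgroup.subset_closure (by simp))⟩

theorem TwoGen.map {G G' : Type*} [Group G] [Group G'] (h : TwoGen G) (φ : G →* G')
    (hφ : Function.Surjective φ) : TwoGen G' := by
  obtain ⟨a, b, h⟩ := h
  exact ⟨φ a, φ b, by rw [← Set.image_pair, ← MonoidHom.map_closure, h,
    Subgroup.map_top_of_surjective _ hφ]⟩

theorem TwoGen.quot {G G' : Type*} [Group G] [Group G'] (h : TwoGen G) (e : G' ≃* G) :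
    TwoGen (G' ⧸ Subgroup.center G') :=
  (h.map e.symm.toMonoidHom e.symm.surjective).map _ (QuotientGroup.mk'_surjective _)

theorem cases_of_prim {K : Type*} [Field K] {g : Kˣ} (hg : ∀ a : K, a ≠ 0 → ∃ k : ℕ, (g : K) ^ k = a)
    (h : (g : K) = 1) (t : K) : t = 0 ∨ t = 1 :=
  or_iff_not_imp_left.2 fun ht => by obtain ⟨k, rfl⟩ := hg t ht; rw [h, one_pow]

namespace BakForm

variable {K V : Type*} [Field K] [AddCommGroup V] [Module K V] {F : BakForm K V}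

theorem Val.T_pow {z w : V} {s : K} (h : F.Val z w s) (n : ℕ) :
    ∃ s', F.Val z ((n : K) • w) s' ∧ F.T z w s ^ n = F.T z ((n : K) • w) s' ∧ (w = 0 → s' = n * s) := by
  induction n with
  | zero => exact ⟨0, by simpa using h.sing.val_zero (zero_mem _), by simp [T_zero], by simp⟩
  | succ n ih =>
    obtain ⟨s', h1, h2, h3⟩ := ih
    rw [Nat.cast_succ, _root_.add_smul, one_smul, pow_succ, h2]
    exact ⟨_, h1.mul h, h1.T_mul h, fun e => by simp [h3 e, e, add_mul]⟩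

theorem Val.T_pow_card [Fintype K] {z w : V} {s : K} (h : F.Val z w s) :
    F.T z w s ^ (Fintype.card K * Fintype.card K) = 1 := by
  obtain ⟨s', h1, h2, -⟩ := h.T_pow (Fintype.card K)
  rw [FiniteField.cast_card_eq_zero, zero_smul] at h1 h2
  obtain ⟨s'', -, h3, h4⟩ := h1.T_pow (Fintype.card K)
  rw [pow_mul, h2, h3, h4 rfl, FiniteField.cast_card_eq_zero, zero_mul, smul_zero, T_zero]

namespace Frame

variable {I : Type*} [DecidableEq I] [Fintype I] {f : F.Frame I} {c h : F.EG} {π : Perm (I × Bool)}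
  {l : I × Bool → K} {μ : K} {H : Subgroup F.EG} {x : I × Bool} {a : ℕ → I × Bool} {k : ℕ}

/-- The generators `h y` and `u c⁻¹`. -/
theorem Cyc.of_X [Fintype K] (C : f.Cyc c π a k) (hk : 2 ≤ k) (hd : f.Dg h l 1) {w : V} {s : K}
    (hv : F.Val (f.v x) w s) (e : Commute h (F.T (f.v x) w s)) (h1 : h * F.T (f.v x) w s ∈ H)
    (h2 : f.X (a 0) (a 1) 1 * c⁻¹ ∈ H) (hχ : AddGen (l (a 0) * (l (a 1))⁻¹))
    (h3 : l (a 0) * (l (a 1))⁻¹ ≠ 1) (h4 : l (a 1) * (l (a 2))⁻¹ ≠ 1) :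
    c ∈ H ∧ f.PX H (a 0) (a 1) ∧ f.QT H x w s := by
  obtain ⟨h5, h6⟩ := mem_of_commute_of_coprime e hd.pow_card hv.T_pow_card (by
    have := (Nat.coprime_self_sub_left (Fintype.card_pos (α := K))).2 (Nat.coprime_one_left _)
    exact Nat.Coprime.mul_right this this) h1
  have h7 := (ne_of_fst_ne (C.ne 1 one_pos hk)).1
  have h8 : f.PX H (a 0) (a 1) := fun t => by
    obtain ⟨y, hy, rfl⟩ := exists_of_rel (R := fun y t => y = f.X (a 0) (a 1) t)
      (by rintro _ t _ t' rfl rfl; exact (f.X_add h7 _ _).symm)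
      (by rintro _ t rfl; exact (f.X_neg h7 _).symm) (by rintro _ t rfl; exact hd.conj_X h7 t)
      (by rintro _ t rfl; exact (hd.conj C.mo).conj_X h7 t) (hd.commute (hd.conj C.mo)) rfl h5
      (by simpa [mul_assoc] using mul_mem (mul_mem h2 h5) (inv_mem h2)) hχ h3
      (by rwa [← C.succ, ← C.succ]) t
    exact hy
  exact ⟨inv_mem_iff.1 ((mul_mem_cancel_left (h8 1)).1 h2), h8, hv, h6⟩

omit [Fintype I] in
theorem Dg.conj_T (hd : f.Dg h l μ) {w : V} {s : K} (hw : w ∈ f.V0) (hv : F.Val (f.v x) w s) :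
    ∃ s', F.Val (f.v x) ((F.σ (l x) * μ) • w) s' ∧
      h * F.T (f.v x) w s * h⁻¹ = F.T (f.v x) ((F.σ (l x) * μ) • w) s' := by
  have h1 : F.Val (f.v x) (μ • w) s :=
    hd.w w hw ▸ (hv.map h).of_sing (f.sing x) (by simp [hd.w w hw, hw x])
  exact ⟨_, mul_smul _ μ w ▸ h1.smul_right _, by
    rw [hv.T_conj, hd.v, hd.w w hw, h1.T_smul, mul_smul, F.σσ, mul_comm (l x)]⟩

/-- The generators `h` and `u c⁻¹` when the anisotropic part is a line. -/
theorem Cyc.eq_top_of_Y (C : f.Cyc c π a k) (hall : ∀ x, ∃ j, a j = x) (hd : f.Dg h l μ) {w : V}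
    (hw : w ∈ f.V0) (h0 : w ≠ 0) (hs : ∀ u ∈ f.V0, ∃ t : K, t • w = u)
    (hΛ : ∀ r ∈ F.Λ, ∃ x, r = x - F.ε * F.σ x) (h1 : h ∈ H)
    (h2 : F.T (f.v (a 0)) w (-(F.ε * F.Q w)) * c⁻¹ ∈ H) (hχ : AddGen (F.σ (l (a 0)) * μ))
    (h3 : F.σ (l (a 0)) * μ ≠ 1) (h4 : F.σ (l (a 1)) * μ ≠ 1) : H = ⊤ := by
  have hβ : F.B w w ≠ 0 := fun e => h0 (eq_zero_of_V0 hw fun u hu => by
    obtain ⟨t, rfl⟩ := hs u hu; simp [e])
  have h5 : ∀ x, (∀ t : K, ∃ s, f.QT H x (t • w) s) → ∀ u ∈ f.V0, ∀ s, F.Val (f.v x) u s →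
      f.QT H x u s := fun x hx u hu s hv => by
    obtain ⟨t, rfl⟩ := hs u hu
    refine (hx t).choose_spec.of_Λ hv fun r hr => ?_
    obtain ⟨y, rfl⟩ := hΛ r hr
    refine (hx (F.ε * y / F.B w w)).choose_spec.mem_of_commutator (hx 1).choose_spec ?_
    rw [one_smul, F.symm (_ • w) w, map_smul, LinearMap.smul_apply, smul_eq_mul,
      div_mul_cancel₀ _ hβ, map_mul, F.σ_ε]
    linear_combination (F.ε * F.σ y - y) * F.ε_mul_ε
  have h6 : ∀ t : K, ∃ s, f.QT H (a 0) (t • w) s := fun t => by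
    obtain ⟨y, hy, s, hv, rfl⟩ := exists_of_rel
      (R := fun y t => ∃ s, F.Val (f.v (a 0)) (t • w) s ∧ y = F.T (f.v (a 0)) (t • w) s)
      (by rintro _ t _ t' ⟨s, e, rfl⟩ ⟨s', e', rfl⟩; exact ⟨_, add_smul t t' w ▸ e.mul e',
        add_smul t t' w ▸ e.T_mul e'⟩)
      (by rintro _ t ⟨s, e, rfl⟩; exact ⟨_, neg_smul t w ▸ e.inv, neg_smul t w ▸ e.T_inv⟩)
      (by rintro _ t ⟨s, e, rfl⟩; exact mul_smul _ t w ▸ hd.conj_T (f.V0.smul_mem t hw) e)
      (by rintro _ t ⟨s, e, rfl⟩; exact mul_smul _ t w ▸ (hd.conj C.mo).conj_T (f.V0.smul_mem t hw) e)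
      (hd.commute (hd.conj C.mo)) ⟨_, by rw [one_smul]; exact val_V0 hw _, by rw [one_smul]⟩ h1
      (by simpa [mul_assoc] using mul_mem (mul_mem h2 h1) (inv_mem h2)) hχ h3 (by rwa [← C.succ]) t
    exact ⟨s, hv, hy⟩
  have hc : c ∈ H :=
    inv_mem_iff.1 ((mul_mem_cancel_left (h5 _ h6 w hw _ (val_V0 hw _)).2).1 h2)
  obtain ⟨ρ, hρ⟩ := hs _ (C.mo.mem_V0 hw)
  have hρ0 : ρ ≠ 0 := by rintro rfl; exact h0 (by simpa using hρ.symm)
  have h7 : ∀ x (t : K), ∃ s, f.QT H x (t • w) s := fun x => by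
    obtain ⟨j, rfl⟩ := hall x
    refine C.induction (P := fun x => ∀ t : K, ∃ s, f.QT H x (t • w) s) h6 (fun j hj t => ?_) j
    obtain ⟨κ, e⟩ := C.mo (a j)
    have h8 := (hj (t / (F.σ κ * ρ))).choose_spec.conj hc e
    have : F.σ κ ≠ 0 := by simpa using ne_zero_of_apply e
    rw [map_smul, ← hρ, smul_smul, smul_smul, show F.σ κ * _ * ρ = t by field_simp, ← C.succ] at h8
    exact ⟨_, h8⟩
  refine f.eq_top_of_root_mem (fun x y hxy t => ?_) fun x u hu s hv => (h5 x (h7 x) u hu s hv).2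
  simpa [hβ] using (h7 y 1).choose_spec.comm (h7 x (t / F.B w w)).choose_spec hxy.symm
    (by simp [B_V0' hw]) (by simp [hw _])

omit [Fintype I] in
/-- The generators over the field with two elements. -/
theorem Cyc.of_two (C : f.Cyc c π a k) (hk : 3 ≤ k) (h2 : ∀ t : K, t = 0 ∨ t = 1) {w : V} {s : K}
    (hv : F.Val (f.v (a 2)) w s) (hw : ∀ j, f.co (a j) w = 0) (hw' : ∀ j, f.co (a j) (c.1 w) = 0)
    (h1 : F.T (f.v (a 2)) w s * (f.X (a 0) (a 1) 1 * f.X (a 1) (a 0) 1) ∈ H) (hc : c ∈ H) :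
    (∀ j, f.QT H (a j) w s) ∧ (∀ j, f.QT H (a j) (c.1 w) s) ∧
      F.T (f.v (a 0) + f.v (a 1)) w s ∈ H := by
  have e1 : (1 : K) + 1 = 0 := by simpa using h2 (1 + 1)
  have e2 : -(1 : K) = 1 := neg_eq_of_add_eq_zero_left e1
  have e3 : ∀ v : V, v + v = 0 := fun v => by rw [← one_smul K v, ← add_smul, e1, zero_smul]
  have e4 : ∀ j, (a j).1 ≠ (a (j + 1)).1 := fun j => add_comm 1 j ▸ C.ne' j one_pos (by omega)
  have e5 : ∀ {j} {u : V}, f.co (a j) u = 0 → f.co (a (j + 1)) u = 0 → f.co (bar (a j)) u = 0 →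
      f.co (bar (a (j + 1))) u = 0 →
      (f.X (a j) (a (j + 1)) 1 * f.X (a (j + 1)) (a j) 1).1 u = u := fun {j u} e e' e'' e''' => by
    rw [EG_mul_apply, f.X_fix (ne_of_fst_ne (e4 j)).2.1 _ e e''',
      f.X_fix (ne_of_fst_ne (e4 j)).1 _ e' e'']
  have e6 : ∀ {u : V}, (∀ j, f.co (a j) u = 0) → ∀ j,
      (f.X (a j) (a (j + 1)) 1 * f.X (a (j + 1)) (a j) 1).1 u = u := fun hu j =>
    e5 (hu _) (hu _) (C.add_top _ ▸ hu _) (C.add_top _ ▸ hu _)
  have e7 : ∀ j, (f.X (a j) (a (j + 1)) 1 * f.X (a (j + 1)) (a j) 1).1 (f.v (a j)) =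
      (1 : K) • f.v (a (j + 1)) ∧ (f.X (a j) (a (j + 1)) 1 * f.X (a (j + 1)) (a j) 1).1
      (f.v (a (j + 1))) = f.v (a j) + f.v (a (j + 1)) := fun j => by
    obtain ⟨h1, h2, h3, h4, h5, h6⟩ := ne_of_fst_ne (e4 j)
    simp [f.X_apply h1, f.X_apply h2, co_v, add_comm, ← add_assoc, *]
  have h3 := (mem_of_commute_of_coprime (m := 2) (n := 3) (Commute.symm (hv.commute_of_fix ?_
    (e6 hw 0))) ?_ ?_ (by norm_num) h1)
  · have h4 : ∀ j, f.X (a j) (a (j + 1)) 1 * f.X (a (j + 1)) (a j) 1 ∈ H := fun j => by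
      induction j with
      | zero => exact h3.2
      | succ j ih =>
        obtain ⟨κ, e, e'⟩ := C.mo.conj_X (ne_of_fst_ne (e4 j)).1
        obtain ⟨κ', e'', e'''⟩ := C.mo.conj_X (ne_of_fst_ne (e4 j)).2.1
        have := mul_mem (mul_mem hc ih) (inv_mem hc)
        rwa [← conj_mul, e', e''', (h2 κ).resolve_left e, (h2 κ').resolve_left e'', mul_one,
          ← C.succ, ← C.succ] at this
    have h5 : ∀ {u : V} {i : ℕ}, (∀ j, f.co (a j) u = 0) → f.QT H (a i) u s → ∀ j, f.QT H (a j) u s :=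
      fun {u i} hu h0 => C.induction (P := fun x => f.QT H x u s) h0 fun j hj => by
        simpa only [e6 hu j, map_one, one_smul, one_mul] using hj.conj (h4 j) (e7 j).1
    have h6 := h5 hw ⟨hv, h3.1⟩
    obtain ⟨κ, e⟩ := C.mo (a 0)
    refine ⟨h6, h5 (i := 1) hw' ?_, ?_⟩
    · simpa [(h2 κ).resolve_left (ne_zero_of_apply e), C.succ 0] using (h6 0).conj hc e
    · have := mul_mem (mul_mem (h4 0) (h6 1).2) (inv_mem (h4 0))
      rwa [(h6 1).1.T_conj, (e7 0).2, e6 hw] at this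
  · obtain ⟨h1, h2, h3, h4, h5, h6⟩ := ne_of_fst_ne (C.ne 2 two_pos hk)
    obtain ⟨k1, k2, k3, k4, k5, k6⟩ := ne_of_fst_ne (e4 1)
    exact e5 (j := 0) (f.co_of_ne h1) (f.co_of_ne k1) (f.co_of_ne h5) (f.co_of_ne k5)
  · have e8 : ∀ t : K, t + t = 0 := fun t => by rw [← one_mul t, ← _root_.add_mul, e1, zero_mul]
    have e9 : F.ε * F.σ (F.Q w) = F.Q w := by
      rcases h2 (F.Q w) with e | e <;> simp [e, (h2 F.ε).resolve_left F.ε_ne_zero]
    rw [sq, hv.T_mul hv, e3, e8, F.B_self, e9, e8, mul_zero, sub_zero, T_zero]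
  · have h4 := (f.sl2Rel_X (e4 0)).w_y 1 one_ne_zero 1
    have h5 := f.X_add (ne_of_fst_ne (e4 0)).1 1 1
    have h6 := f.X_add (ne_of_fst_ne (e4 0)).2.1 1 1
    simp only [stW, inv_one, e2, one_pow, mul_one, zero_add, e1, X_zero] at h4 h5 h6
    generalize f.X (a 0) (a 1) 1 = p at *
    generalize f.X (a 1) (a 0) 1 = q at *
    rw [mul_inv_eq_iff_eq_mul] at h4
    calc (p * q) ^ 3 = p * q * p * q * (p * q) := by simp only [pow_succ, pow_zero, one_mul, mul_assoc]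
      _ = (p * p) * (q * (p * p) * q) := by rw [h4]; simp only [mul_assoc]
      _ = 1 := by rw [← h5, one_mul, mul_one, ← h6]

omit [Fintype I] in
theorem PX.of_two (h2 : ∀ t : K, t = 0 ∨ t = 1) {y : I × Bool} {t : K} (ht : t ≠ 0)
    (h : F.T (f.v x) (t • f.v (Ch.bar y)) 0 ∈ H) : f.PX H x y := fun u => by
  rcases h2 u with rfl | rfl
  · exact f.X_zero x y ▸ one_mem _
  · rwa [f.T_eq_X, bar_bar, (h2 (_ * _)).resolve_left (by simp [F.η_ne_zero, ht])] at h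

omit [Fintype I] in
theorem Cyc.T_mem (C : f.Cyc c π a k) (hc : c ∈ H) (h0 : f.PX H (a 0) (a 1)) {y : I × Bool}
    (hx : ∃ i, a i = x) (hy : ∃ j, a j = y) (e : x.1 ≠ y.1) (t : K) :
    F.T (f.v x) (t • f.v y) 0 ∈ H := by
  obtain ⟨i, rfl⟩ := hx
  obtain ⟨j, rfl⟩ := hy
  exact PX.T_mem (C.add_top j ▸ C.pX hc h0 (by rwa [C.add_top])) t

theorem twoGen_sp [Finite K] {f : F.Frame (Fin (k + 1))} (hΛ : ∀ s, s ∈ F.Λ) (hσ : ∀ t, F.σ t = t)
    (hk : 1 ≤ k) (hk' : (∀ t : K, t = 0 ∨ t = 1) → 2 ≤ k) : TwoGen F.EG := by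
  have := Fintype.ofFinite K
  have hV : ∀ w ∈ f.V0, w = 0 := fun w hw => eq_zero_of_sing hw (hΛ _)
  have hv : ∀ x s, F.Val (f.v x) 0 s := fun x s => (f.sing x).val_zero (hΛ s)
  obtain ⟨c, π, a, C, hall, -⟩ := exists_cyc_nY (f := f) (zero_mem _) (hΛ _) one_ne_zero
  have fin : ∀ H : Subgroup F.EG, c ∈ H → f.PX H (a 0) (a 1) → f.QT H (a 0) 0 1 → H = ⊤ :=
    fun H hc hP hQ => f.eq_top_of_root_mem (fun x y => C.T_mem hc hP (hall x) (hall y))
      fun x w hw s _ => by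
      obtain ⟨i, rfl⟩ := hall x
      obtain ⟨y, z, rfl⟩ := Pr.exists_sq_sub_sq s
      have h1 := fun t => C.qT hc hP (by omega) (by simp) hQ i t
      simpa [hV w hw, hσ, sq, sub_eq_add_neg] using ((h1 y).mul (h1 z).inv).2
  obtain ⟨g, hg⟩ := Pr.exists_prim K
  by_cases e : (g : K) = 1
  · have h2 := cases_of_prim hg e
    refine twoGen_of (F.T (f.v (a 2)) 0 1 * (f.X (a 0) (a 1) 1 * f.X (a 1) (a 0) 1)) c
      fun H h1 hc => ?_
    obtain ⟨h3, -, h4⟩ := C.of_two (by have := hk' h2; omega) h2 (hv _ 1) (by simp) (by simp) h1 hc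
    have e1 := C.ne 1 one_pos (by omega)
    rw [(hv _ 1).T_add_left (f.sing _) (by simp) (f.B_of_ne (ne_of_fst_ne e1).2.2.2.2.2),
      mul_mem_cancel_left (mul_mem (h3 0).2 (h3 1).2), ← neg_smul, ← bar_bar (a 1)] at h4
    have h5 : ∀ x, (∃ j, a j = x) → ∀ s ≠ 0, F.T (f.v x) 0 s ∈ H := by
      rintro _ ⟨j, rfl⟩ s hs
      exact (h2 s).resolve_left hs ▸ (h3 j).2
    have := (PX.of_two h2 (by simp [F.ε_ne_zero]) h4).map (mo_nY (x := a 1) (zero_mem _) (hv _ 1)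
      one_ne_zero) (by
        simp only [nY, smul_zero]
        exact mul_mem (mul_mem (h3 1).2 (h5 _ (hall _) _ (by simp))) (h3 1).2) (ne_of_fst_ne e1).2.2.1
    rw [swap_apply_right, swap_apply_of_ne_of_ne (ne_of_fst_ne e1).1 (ne_of_fst_ne e1).2.2.1] at this
    exact fin H hc this (h3 0)
  · obtain ⟨h, l, hd, h1, -, h2⟩ := exists_dg_nY (x := a 1) (μ := 1) (μ' := 1) (zero_mem f.V0)
      (hv _ (F.ε * (g : K)⁻¹)) (by simp [F.ε_ne_zero]) (zero_mem _) (hv _ 1) one_ne_zero (by simp)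
      (by simp)
    rw [map_one, inv_one, mul_one, ← mul_assoc, F.ε_mul_ε, one_mul] at h1
    have h3 := h2 _ (C.ne 1 one_pos (by omega))
    have h4 := h2 _ (C.ne' 1 one_pos (by omega)).symm
    refine twoGen_of (h * F.T (f.v (a 0)) 0 1) (f.X (a 0) (a 1) 1 * c⁻¹) fun H h5 h6 => ?_
    obtain ⟨h7, h8, h9⟩ := C.of_X (by omega) (mul_one (1 : K) ▸ hd) (hv (a 0) 1)
      ((hv _ _).commute_of_fix (by rw [hd.v, h3, one_smul]) (map_zero _)) h5 h6
      (by simpa [h1, h3] using addGen_pow hg one_pos one_le_two) (by simpa [h1, h3] using e)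
      (by simpa [h1, h4] using e)
    exact fin H h7 h8 h9

theorem twoGen_even [Finite K] {f : F.Frame (Fin (k + 1))} (hV : f.V0 = ⊥)
    (hΛ : ∀ r ∈ F.Λ, ∃ x, r = x - F.ε * F.σ x) (hσ : ∃ t, F.σ t ≠ t) {θ : K} (hθ : θ ∈ F.Λ)
    (h0 : θ ≠ 0) (hk : 1 ≤ k) : TwoGen F.EG := by
  have := Fintype.ofFinite K
  obtain ⟨c, π, a, C, hall, -⟩ :=
    exists_cyc_nY (f := f) (zero_mem _) (add_mem hθ (ε_mul_mem F.Q_zero)) h0
  obtain ⟨g, hg⟩ := Pr.exists_prim K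
  have e : F.σ g ≠ g := fun e => by
    obtain ⟨t, ht⟩ := hσ
    obtain ⟨n, rfl⟩ := hg t (by rintro rfl; simp at ht)
    exact ht (by rw [map_pow, e])
  have e1 := C.ne 1 one_pos (by omega)
  obtain ⟨h, l, hd, h1, h2, h3, h4, -⟩ := exists_dg_stH (f := f) e1 g.ne_zero
  by_cases e2 : l (a 2) = 1 ∨ l (a 2) = (F.σ g)⁻¹
  swap
  · rcases hk.eq_or_lt with rfl | hk
    · exact absurd (Or.inr (by rw [← h3, ← C.top])) e2
    · exact absurd (Or.inl (h4 _ (C.ne 2 two_pos (by omega)).symm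
        (C.ne' 1 one_pos (by omega)).symm)) e2
  have e3 : (g : K) ≠ 1 := fun e' => e (by simp [e'])
  refine twoGen_of (h * F.T (f.v (a 0)) 0 0) (f.X (a 0) (a 1) 1 * c⁻¹) fun H h5 h6 => ?_
  obtain ⟨hc, hP, -⟩ := C.of_X (by omega) hd ((f.sing (a 0)).val_zero (zero_mem _))
    (T_zero (F := F) _ ▸ Commute.one_right h) h5 h6
    (by simpa [h1, h2, sq] using addGen_pow hg two_pos le_rfl) (fun e' => by
      rw [h1, h2, inv_inv, mul_self_eq_one_iff] at e'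
      rcases e' with e' | e' <;> exact e (by simp [e'])) (by
      rcases e2 with e2 | e2
      · simpa [h2, e2] using e3
      · simpa [h2, e2, inv_mul_eq_one₀ g.ne_zero] using e.symm)
  refine f.eq_top_of_root_mem (fun x y => C.T_mem hc hP (hall x) (hall y)) fun x w hw s hv => ?_
  obtain rfl : w = 0 := by simpa [hV] using hw
  obtain ⟨r, rfl⟩ := hΛ s hv.mem_of_zero
  obtain ⟨i, rfl⟩ := hall x
  have e4 := C.ne' i one_pos (show 1 < k + 1 by omega)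
  obtain ⟨k1, k2, k3, k4, k5, k6⟩ := ne_of_fst_ne e4
  refine QT.mem_of_commutator ⟨f.val_smul k3 (F.ε * F.η (a (1 + i)) * r),
    C.T_mem hc hP (hall _) (hall _) e4 _⟩ ⟨f.val_smul (b := bar (a (1 + i))) (by simpa using k1) 1,
    C.T_mem (y := bar _) hc hP (hall _) (hall _) e4 _⟩ ?_
  simp only [F.bexp, f.B_bar, f.B_bar', map_mul, F.σ_ε, F.σ_η, map_one]
  rcases F.ε_cases with e | e <;> rcases F.η_cases (a (1 + i)) with e' | e' <;>
    simp [e, e'] <;> ring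

theorem twoGen_odd [Finite K] {f : F.Frame (Fin (k + 1))} (hV : Module.finrank K f.V0 = 1)
    (hΛ : ∀ r ∈ F.Λ, ∃ x, r = x - F.ε * F.σ x) (h2 : ¬ ∀ t : K, t = 0 ∨ t = 1) (hk : 1 ≤ k) :
    TwoGen F.EG := by
  obtain ⟨⟨w, hw⟩, hw0, hw1⟩ := finrank_eq_one_iff'.1 hV
  have h0 : w ≠ 0 := fun e => hw0 (Subtype.ext e)
  have hv := val_V0 hw (0, true)
  obtain ⟨c, π, a, C, hall, -⟩ := exists_cyc_nY hw hv.ok fun e => h0 (eq_zero_of_val hw (e ▸ hv))
  obtain ⟨g, hg⟩ := Pr.exists_prim K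
  have e : (g : K) ≠ 1 := fun e => h2 (cases_of_prim hg e)
  obtain ⟨h, l, hd, h1, h2, -⟩ := exists_dg_stH (f := f) (C.ne 1 one_pos (by omega))
    (t := F.σ g) (by simp)
  exact twoGen_of _ _ fun H h5 h6 => C.eq_top_of_Y hall hd hw h0
    (fun u hu => (hw1 ⟨u, hu⟩).imp fun _ => congrArg Subtype.val) hΛ h5 h6
    (by simpa [h1, F.σσ] using addGen_pow hg one_pos one_le_two) (by simpa [h1, F.σσ] using e)
    (by simpa [h2, F.σσ] using e)

theorem twoGen_three [Finite K] {f : F.Frame (Fin (0 + 1))} (hV : Module.finrank K f.V0 = 1)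
    (hΛ : ∀ r ∈ F.Λ, ∃ x, r = x - F.ε * F.σ x) (hε : F.ε = 1) (hK : 4 < Nat.card K)
    (hs : ∀ x s, ∃ u ∈ f.V0, F.Val (f.v x) u s) : TwoGen F.EG := by
  obtain ⟨⟨w, hw⟩, hw0, hw1⟩ := finrank_eq_one_iff'.1 hV
  have h0 : w ≠ 0 := fun e => hw0 (Subtype.ext e)
  have hw2 : ∀ u ∈ f.V0, ∃ t : K, t • w = u := fun u hu =>
    (hw1 ⟨u, hu⟩).imp fun _ => congrArg Subtype.val
  have hv := val_V0 hw (0, true)
  obtain ⟨c, π, a, C, hall, -⟩ := exists_cyc_nY hw hv.ok fun e => h0 (eq_zero_of_val hw (e ▸ hv))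
  obtain ⟨g, hg⟩ := Pr.exists_prim K
  have h1 : ∀ {z u : V} {s : K}, u ∈ f.V0 → F.Val z u s → s ≠ 0 → ∀ u' ∈ f.V0,
      u' + (F.ε * s⁻¹ * F.B u' u) • u = (-(F.σ s / s)) • u' := fun {z u s} hu hv hs u' hu' => by
    obtain ⟨t, rfl⟩ := hw2 u hu
    obtain ⟨r, rfl⟩ := hw2 u' hu'
    have := hv.tr
    simp only [F.bexp, hε] at this ⊢
    match_scalars
    field_simp
    linear_combination r * this
  obtain ⟨u, hu, hv⟩ := hs (a 0) g
  obtain ⟨u', hu', hv'⟩ := hs (a 0) 1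
  obtain ⟨h, l, hd, h2, h3, -⟩ := exists_dg_nY hu hv g.ne_zero hu' hv' one_ne_zero
    (h1 hu hv g.ne_zero) (h1 hu' hv' one_ne_zero)
  simp only [hε, map_one, inv_one, one_mul, mul_one, div_one, neg_mul, neg_neg, ← C.top] at hd h2 h3
  have h4 : ∀ n, 0 < n → F.σ (g ^ n) * F.σ (g ^ n) = g ^ n → Nat.card K ≤ n * 3 + 1 := fun n hn e =>
    Pr.subfield_eq_top_of_sq hg (by omega) (by
      have e' := congrArg F.σ e
      rw [map_mul, F.σσ] at e'
      rw [← e'] at e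
      exact mul_right_cancel₀ (pow_ne_zero n g.ne_zero) (by rw [pow_mul]; linear_combination e))
  have h5 : F.σ g ≠ 0 := by simp
  refine twoGen_of _ _ fun H h6 h7 => C.eq_top_of_Y hall hd hw h0 hw2 hΛ h6 h7
    (addGen_of_order (by simp [h2]) fun n hn e => ?_) (fun e => ?_) fun e => ?_
  · have := h4 n hn (by
      rwa [h2, ← mul_div_assoc, div_pow, div_eq_one_iff_eq (by simp), mul_pow, ← map_pow] at e)
    nlinarith
  · have := h4 1 one_pos (by rwa [h2, ← mul_div_assoc, div_eq_one_iff_eq g.ne_zero, ← pow_one g.1] at e)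
    omega
  · have := h4 1 one_pos (by
      rw [h3, map_inv₀, F.σσ, inv_mul_eq_one₀ g.ne_zero, eq_div_iff g.ne_zero] at e
      rw [pow_one, ← map_mul, e, F.σσ])
    omega

theorem Cyc.exists_gens [Finite K] (C : f.Cyc c π a k) (hk : 3 ≤ k) {w : V}
    (hw : ∀ j, f.co (a j) w = 0) (hw' : ∀ j, f.co (a j) (c.1 w) = 0)
    (hB : (∀ t : K, t = 0 ∨ t = 1) → F.B w (c.1 w) ≠ 0) : ∃ g₁ g₂ : F.EG, ∀ H : Subgroup F.EG,
      g₁ ∈ H → g₂ ∈ H → c ∈ H ∧ f.PX H (a 0) (a 1) ∧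
        ∀ j (t : K), (∃ s, f.QT H (a j) (t • w) s) ∧ ∃ s, f.QT H (a j) (t • c.1 w) s := by
  have := Fintype.ofFinite K
  have hp : ∀ {u : V}, (∀ j, f.co (a j) u = 0) → ∀ j, F.B u (f.v (a j)) = 0 := fun hu j => by
    rw [f.B_eq_co, ← C.add_top, hu, mul_zero]
  have hv := fun j => (f.sing (a j)).val (hp hw j)
  obtain ⟨g, hg⟩ := Pr.exists_prim K
  have e1 := C.ne 1 one_pos (by omega)
  by_cases e : (g : K) = 1
  · have h2 := cases_of_prim hg e
    refine ⟨F.T (f.v (a 2)) w (-(F.ε * F.Q w)) * (f.X (a 0) (a 1) 1 * f.X (a 1) (a 0) 1), c,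
      fun H h1 hc => ?_⟩
    obtain ⟨h3, h4, -⟩ := C.of_two hk h2 (hv 2) hw hw' h1 hc
    have hP := PX.of_two h2 (hB h2) (C.add_top 1 ▸ (h4 (k + 1)).comm (h3 0)
      (by rw [C.add_top]; exact e1.symm) (B_symm_zero (hp hw' _)) (hp hw _))
    exact ⟨hc, hP, fun j t => ⟨⟨_, C.qT hc hP (by omega) hw (h3 0) j t⟩,
      _, C.qT hc hP (by omega) hw' (h4 0) j t⟩⟩
  · obtain ⟨h, l, hd, h1, h2, -, h3, h4⟩ := exists_dg_stH (f := f) (C.ne 2 two_pos hk) g.ne_zero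
    have h5 := h3 _ e1.symm (C.ne' 1 one_pos (by omega))
    refine ⟨h * F.T (f.v (a 1)) w (-(F.ε * F.Q w)), f.X (a 0) (a 1) 1 * c⁻¹, fun H h6 h7 => ?_⟩
    obtain ⟨hc, hP, hQ⟩ := C.of_X (by omega) hd (hv 1) ((hv 1).commute_of_fix
      (by rw [hd.v, h5, one_smul]) (h4 w (hw _) (hw _) (C.add_top _ ▸ hw _) (C.add_top _ ▸ hw _)))
      h6 h7 (by simpa [h1, h5] using addGen_pow hg one_pos one_le_two) (by simpa [h1, h5] using e)
      (by simpa [h2, h5] using e)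
    obtain ⟨κ, e'⟩ := C.mo (a 1)
    have h8 : F.σ κ ≠ 0 := by simpa using ne_zero_of_apply e'
    refine ⟨hc, hP, fun j t => ⟨⟨_, C.qT hc hP (by omega) hw hQ j t⟩, ?_⟩⟩
    have := C.qT hc hP (by omega) (by simp [hw']) (C.succ 1 ▸ hQ.conj hc e') j (t / F.σ κ)
    rw [smul_smul, div_mul_cancel₀ _ h8] at this
    exact ⟨_, this⟩

theorem B_self_of_two (h2 : ∀ t : K, t = 0 ∨ t = 1) (w : V) : F.B w w = 0 := by
  have e1 : (1 : K) + 1 = 0 := by simpa using h2 (1 + 1)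
  rw [F.B_self]
  rcases h2 (F.Q w) with e | e <;> simp [e, e1, (h2 F.ε).resolve_left F.ε_ne_zero]

theorem twoGen_minus [Finite K] {f : F.Frame (Fin (k + 1))} (hV : Module.finrank K f.V0 = 2)
    (hΛ : F.Λ = ⊥) (hk : 2 ≤ k) : TwoGen F.EG := by
  obtain ⟨w, hw, w', hw', hB, hs⟩ : ∃ w ∈ f.V0, ∃ w' ∈ f.V0, F.B w w' ≠ 0 ∧
      ∀ u ∈ f.V0, ∃ x y : K, u = x • w + y • w' := by
    have : FiniteDimensional K f.V0 := Module.finite_of_finrank_eq_succ hV
    let b := Module.finBasisOfFinrankEq K f.V0 hV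
    have h1 : ∀ u ∈ f.V0, ∃ x y : K, u = x • (b 0 : V) + y • (b 1 : V) := fun u hu =>
      ⟨_, _, (congrArg Subtype.val ((Fin.sum_univ_two _).symm.trans (b.sum_repr ⟨u, hu⟩))).symm⟩
    by_cases e : F.B (b 0) (b 1) = 0
    · refine ⟨_, (b 0).2, b 0 + b 1, add_mem (b 0).2 (b 1).2, fun e' => ?_, fun u hu => ?_⟩
      · refine b.ne_zero 0 (Subtype.ext (eq_zero_of_V0 (b 0).2 fun u hu => ?_))
        obtain ⟨x, y, rfl⟩ := h1 u hu
        simp_all
      · obtain ⟨x, y, rfl⟩ := h1 u hu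
        exact ⟨x - y, y, by module⟩
    · exact ⟨_, (b 0).2, _, (b 1).2, e, h1⟩
  have hv := val_V0 hw' (0, true)
  have h0 : -(F.ε * F.Q w') ≠ 0 := fun e => hB (by simp [eq_zero_of_val hw' (e ▸ hv)])
  obtain ⟨c, π, a, C, hall, h1⟩ := exists_cyc_nY hw' hv.ok h0
  have h2 := h1 w hw
  have h3 := mul_ne_zero (mul_ne_zero F.ε_ne_zero (inv_ne_zero h0)) hB
  generalize F.ε * (-(F.ε * F.Q w'))⁻¹ * F.B w w' = γ at h2 h3
  obtain ⟨g₁, g₂, h4⟩ := C.exists_gens (by omega) (fun j => co_V0 hw _)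
    (fun j => co_V0 (C.mo.mem_V0 hw) _) fun h => by simp [h2, B_self_of_two h, h3, hB]
  refine twoGen_of g₁ g₂ fun H h5 h6 => ?_
  obtain ⟨hc, hP, h7⟩ := h4 H h5 h6
  refine f.eq_top_of_root_mem (fun x y => C.T_mem hc hP (hall x) (hall y)) fun x u hu s hv => ?_
  obtain ⟨i, rfl⟩ := hall x
  obtain ⟨x, y, rfl⟩ := hs u hu
  have := (h7 i (x - y / γ)).1.choose_spec.mul (h7 i (y / γ)).2.choose_spec
  generalize _ - F.ε * _ = s' at this
  rw [h2, show (x - y / γ) • w + (y / γ) • (w + γ • w') = x • w + y • w' by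
    match_scalars <;> field_simp; ring] at this
  refine (this.of_Λ hv fun r hr => ?_).2
  obtain rfl : r = 0 := by simpa [hΛ] using hr
  exact T_zero (F := F) _ ▸ one_mem _

theorem twoGen_plus [Finite K] {f : F.Frame (Fin (k + 2))} (hV : f.V0 = ⊥)
    (hΛ : F.Λ = ⊥) (hk : 2 ≤ k) : TwoGen F.EG := by
  have e0 : ∀ (i : Fin (k + 1)) b b', ((Fin.castSuccEmb i, b) : _ × Bool).1 ≠
    ((Fin.last (k + 1), b') : _ × Bool).1 := fun i _ _ => i.castSucc_ne_last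
  have h0 := (mo_stW (f := f) (e0 0 true true) one_ne_zero).mul
    (mo_stW (f := f) (e0 0 true false) one_ne_zero)
  obtain ⟨c, π, a, C, hall, h1, -, h2⟩ := exists_cyc Fin.castSuccEmb h0
    (by simp [swap_apply_def, bar]) fun i hi => by
      simp [swap_apply_def, bar, hi, -Fin.castSucc_zero, Fin.castSucc_ne_last]
  have h3 : ∀ j b, (a j).1 ≠ ((Fin.last (k + 1), b) : _ × Bool).1 := fun j b => by
    obtain ⟨i, e⟩ := h1 j
    exact e ▸ e0 i b b
  obtain ⟨κ, e⟩ := C.mo (Fin.last _, true)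
  have h4 := ne_zero_of_apply e
  rw [h2 _ fun ⟨i, e⟩ => e0 i true true e, show (_ * _ : Perm _) _ = bar (Fin.last (k + 1), true) by
    simp [swap_apply_def, bar]] at e
  obtain ⟨g₁, g₂, h5⟩ := C.exists_gens (by omega) (w := f.v (Fin.last _, true))
    (fun j => f.co_of_ne (ne_of_fst_ne (h3 j _)).1)
    (fun j => by simp [e, f.co_of_ne (ne_of_fst_ne (h3 j true)).2.2.1])
    fun _ => by simp [e, f.B_bar, h4, F.η_ne_zero]
  refine twoGen_of g₁ g₂ fun H h6 h7 => ?_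
  obtain ⟨hc, hP, h8⟩ := h5 H h6 h7
  have h9 : ∀ x : _ × Bool, x.1 ≠ Fin.last _ → ∃ j, a j = x := fun x hx => by
    obtain ⟨i, e⟩ := Fin.exists_castSucc_eq.2 hx
    exact (hall i x.2).imp fun j hj => hj.trans (Prod.ext e rfl)
  have h10 : ∀ x y : _ × Bool, x.1 ≠ y.1 → x.1 ≠ Fin.last _ → f.PX H x y := fun x y e1 e2 t => by
    rw [X]
    generalize F.η y * F.σ t = t
    by_cases e3 : y.1 = Fin.last _
    · obtain ⟨j, rfl⟩ := h9 x e2
      obtain ⟨s, hs⟩ : ∃ s, f.QT H (a j) (t • f.v (bar y)) s := by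
        rcases fst_eq_iff.1 (show y.1 = (Fin.last (k + 1), true).1 from e3) with rfl | rfl
        · simpa [e, smul_smul, h4] using (h8 j (t / κ)).2
        · exact bar_bar _ ▸ (h8 j t).1
      obtain rfl : s = 0 := by simpa [hΛ] using hs.1.mem_of_sing ((f.sing _).smul t)
      exact hs.2
    · exact C.T_mem hc hP (h9 x e2) (h9 (bar y) e3) e1 t
  refine f.eq_top_of_root_mem (fun x y e1 => PX.T_mem ?_) fun x u hu s hv => ?_
  · by_cases e2 : x.1 = Fin.last _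
    · exact PX.bar (h10 _ _ e1.symm fun e3 => e1 (e2.trans e3.symm)) (ne_of_fst_ne e1).2.2.1
    · exact h10 _ _ e1 e2
  · obtain rfl : u = 0 := by simpa [hV] using hu
    obtain rfl : s = 0 := by simpa [hΛ] using hv.mem_of_zero
    exact T_zero (F := F) _ ▸ one_mem _

end Frame

end BakForm

open BakForm.Frame Cl Cl.EB

variable {K : Type*} [Field K] [Finite K] {m : ℕ}

omit [Finite K] in
theorem card_eq_two (h : ∀ t : K, t = 0 ∨ t = 1) : Nat.card K = 2 :=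
  Nat.card_eq_two_iff.2 ⟨0, 1, zero_ne_one, Set.eq_univ_of_forall h⟩

theorem twoGen_psp (hm : 2 ≤ m) (h : m = 2 → Nat.card K ≠ 2) : TwoGen (PSp m K) := by
  obtain ⟨k, rfl⟩ : ∃ k, m = k + 1 := ⟨m - 1, by omega⟩
  obtain ⟨f⟩ := bakSp_exists_frame (spB_nondegenerate (m := k + 1) (R := K)) spB_isAlt
    (m := k + 1) (by simp [two_mul])
  exact (twoGen_sp (f := f) (fun _ => trivial) (fun _ => rfl) (by omega) fun h2 => by
    by_contra h3
    exact h (by omega) (card_eq_two h2)).quot (spEquivEG _ K)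

theorem twoGen_psu {n q : ℕ} (hq : Nat.card K = q ^ 2) (hn : 3 ≤ n) (h32 : n = 3 → q ≠ 2) :
    TwoGen (PSU n K q) := by
  obtain ⟨σ, hσ⟩ := u_exists_conj hq
  have h : UField σ q := ⟨hq, hσ⟩
  have hB := h.invol.isHerm_uStd (Fin n)
  refine TwoGen.quot ?_ ((h.suEquiv n).trans (MulEquiv.subgroupCongr (bakU_EG' hB h).symm))
  obtain ⟨f⟩ := bakU_exists_frame hB
  obtain ⟨k, hk⟩ : ∃ k, n / 2 = k + 1 := ⟨n / 2 - 1, by omega⟩
  rw [Module.finrank_fin_fun, hk] at f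
  have h1 := f.finrank_eq
  rw [Module.finrank_fin_fun, Fintype.card_fin] at h1
  have h2 := h.two_le
  have hΛ : ∀ r ∈ (bakU hB).Λ, ∃ x, r = x - (bakU hB).ε * (bakU hB).σ x := fun r hr => by
    obtain ⟨b, hb⟩ := h.invol.exists_trace_one
    refine ⟨b * r, ?_⟩
    rw [bakU_ε, bakU_σ, map_mul]
    linear_combination (-r) * hb + σ b * (bakU_mem_Λ hB).1 hr
  rcases Nat.mod_two_eq_zero_or_one n with e | e
  · obtain ⟨θ, h3, h4⟩ := h.invol.exists_trace_zero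
    exact twoGen_even (f := f) (Submodule.finrank_eq_zero.1 (by omega)) hΛ h.invol.exists_ne
      ((bakU_mem_Λ hB).2 (by rw [h4, add_neg_cancel])) h3 (by omega)
  rcases k.eq_zero_or_pos with rfl | h3
  · have h4 : Module.finrank K f.V0 = 1 := by omega
    refine twoGen_three (f := f) h4 hΛ rfl (by
      have : 3 ≤ q := by have := h32 (by omega); omega
      rw [hq]; nlinarith)
      fun x s => ?_
    obtain ⟨⟨w, hw⟩, hw0, -⟩ := finrank_eq_one_iff'.1 h4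
    have hww : uStd σ (Fin n) w w ≠ 0 := fun e =>
      hw0 (Subtype.ext (eq_zero_of_sing hw ((bakU_sing hB).2 e)))
    obtain ⟨t, ht⟩ := h.exists_norm_eq (a := -(s + σ s) / uStd σ (Fin n) w w)
      (by rw [map_div₀, map_neg, hB.trace_fixed, hB.symm])
    refine ⟨t • w, f.V0.smul_mem t hw, (bakU_val hB).2 ⟨(f.sing x).B_self,
      B_V0 (f.V0.smul_mem t hw) x, ?_⟩⟩
    simp only [map_smul, map_smulₛₗ, LinearMap.smul_apply, smul_eq_mul]
    rw [eq_div_iff hww] at ht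
    linear_combination ht
  · exact twoGen_odd (f := f) (by omega) hΛ (fun h4 => by have := card_eq_two h4; nlinarith) h3

theorem twoGen_pomegaOdd (h2 : (2 : K) ≠ 0) (hm : 2 ≤ m) : TwoGen (POmega K (quadFormOdd m K)) := by
  obtain ⟨k, rfl⟩ : ∃ k, m = k + 1 := ⟨m - 1, by omega⟩
  obtain ⟨e⟩ := nonempty_Omega_equiv_EG (quad_odd_nondeg (m := k + 1) h2)
    (not_oExc_of_finrank (by simp; omega)) (by simp; omega)
  have h1 := (frameOdd (k + 1) h2).finrank_eq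
  exact (twoGen_odd (f := frameOdd (k + 1) h2) (by simp at h1; omega)
    (fun r hr => ⟨0, by simpa [bakO_Λ] using hr⟩)
    (fun h => h2 (one_add_one_eq_two.symm.trans (by simpa using h (1 + 1)))) (by omega)).quot e

theorem twoGen_pomegaPlus (hm : 4 ≤ m) : TwoGen (POmega K (quadFormPlus m K)) := by
  obtain ⟨k, rfl⟩ : ∃ k, m = k + 2 := ⟨m - 2, by omega⟩
  obtain ⟨e⟩ := nonempty_Omega_equiv_EG (quad_plus_nondeg (m := k + 2) (F := K))
    (not_oExc_of_finrank (by simp; omega)) (by simp; omega)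
  have h1 := (framePlus (k + 2) K).finrank_eq
  exact (twoGen_plus (f := framePlus (k + 2) K) (Submodule.finrank_eq_zero.1 (by simp at h1; omega))
    rfl (by omega)).quot e

theorem twoGen_pomegaMinus {a b : K}
    (hab : ∀ z₁ z₂ : K, z₁ ^ 2 + a * z₁ * z₂ + b * z₂ ^ 2 = 0 → z₁ = 0 ∧ z₂ = 0) (hm : 3 ≤ m) :
    TwoGen (POmega K (quadFormMinus m K a b)) := by
  obtain ⟨k, rfl⟩ : ∃ k, m = k + 1 := ⟨m - 1, by omega⟩
  obtain ⟨e⟩ := nonempty_Omega_equiv_EG (o_minus_nondeg (m := k + 1) hab)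
    (not_oExc_minus hab) (by simp; omega)
  have h1 := (frameMinus (k + 1) hab).finrank_eq
  exact (twoGen_minus (f := frameMinus (k + 1) hab) (by simp at h1; omega) rfl (by omega)).quot e

end Cfsg.Agent.Ch
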